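import Cfsg.Statements.S0056
import Cfsg.Agent.Helper1.Coprime

set_option autoImplicit false
open Cfsg

namespace Cfsg.Agent.S0056

/-- A coprime action on an abelian group that fixes all elements of prime order is trivial. -/
theorem result {G : Type*} [Group G] [Finite G] (A V : Subgroup G) [IsMulCommutative V]
    (hAV : A ≤ Subgroup.normalizer (V : Set G)) (hcop : (Nat.card A).Coprime (Nat.card V))
    (hΩ : ∀ v ∈ V, (orderOf v).Prime → ∀ a ∈ A, a * v = v * a) : A ≤ Subgroup.centralizer (V : Set G) := by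
  rw [Subgroup.le_centralizer_iff, ← Subgroup.commutator_eq_bot_iff_le_centralizer]
  by_contra hne
  obtain ⟨x, hx1⟩ := (Subgroup.ne_bot_iff_exists_ne_one).mp hne
  have hxG : (x : G) ≠ 1 := fun h => hx1 (Subtype.ext h)
  have ho0 : orderOf (x : G) ≠ 0 := (orderOf_pos (x : G)).ne'
  have ho1 : orderOf (x : G) ≠ 1 := fun h => hxG (orderOf_eq_one_iff.mp h)
  have hp : (orderOf (x : G)).minFac.Prime := Nat.minFac_prime ho1
  set y : G := (x : G) ^ (orderOf (x : G) / (orderOf (x : G)).minFac) with hy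
  have hyo : orderOf y = (orderOf (x : G)).minFac :=
    orderOf_pow_orderOf_div ho0 (Nat.minFac_dvd _)
  have hyC : y ∈ ⁅V, A⁆ := Subgroup.pow_mem _ x.2 _
  have hyV : y ∈ V := Cfsg.Agent.Helper1.commutator_le_of_le_normalizer A V hAV hyC
  have hyfix : y ∈ Subgroup.centralizer (A : Set G) := by
    rw [Subgroup.mem_centralizer_iff]
    intro a ha
    exact hΩ y hyV (hyo ▸ hp) a ha
  have hmem : y ∈ (V ⊓ Subgroup.centralizer (A : Set G)) ⊓ ⁅V, A⁆ :=
    Subgroup.mem_inf.mpr ⟨Subgroup.mem_inf.mpr ⟨hyV, hyfix⟩, hyC⟩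
  rw [Cfsg.Agent.Helper1.coprime_abelian_inf A V hAV hcop, Subgroup.mem_bot] at hmem
  rw [hmem, orderOf_one] at hyo
  exact hp.one_lt.ne hyo

end Cfsg.Agent.S0056
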