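import Cfsg.Statements.S3908
import Mathlib
import Cfsg.Agent.S0016

set_option autoImplicit false
set_option linter.style.haveILetI false
open Cfsg

namespace Cfsg.Agent.S3908

theorem unique_of_conj {G : Type*} [Group G] [Finite G]
    (hB : ∀ A B : Subgroup G, IsMulCommutative ↥A → IsMulCommutative ↥B →
      Nat.card ↥A = Nat.card ↥B → ∃ g : G, B = A.map (MulAut.conj g).toMonoidHom)
    (p : ℕ) [Fact p.Prime] (P : Sylow p G) (x : G) (hxP : x ∈ (P : Subgroup G))
    (hx : x ^ p ≠ 1) :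
    ∀ H K : Subgroup ↥(P : Subgroup G), Nat.card H = p → Nat.card K = p → H = K := by
  classical
  have hp : p.Prime := Fact.out
  have hPG : IsPGroup p ↥(P : Subgroup G) := P.isPGroup'
  obtain ⟨k, hk⟩ := hPG ⟨x, hxP⟩
  have hk' : x ^ p ^ k = 1 := by simpa using congrArg Subtype.val hk
  obtain ⟨e, -, he⟩ := (Nat.dvd_prime_pow hp).mp (orderOf_dvd_of_pow_eq_one hk')
  have he2 : 2 ≤ e := by
    by_contra hlt
    apply hx
    have : orderOf x ∣ p := by
      rw [he]
      calc p ^ e ∣ p ^ 1 := pow_dvd_pow p (by omega)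
        _ = p := pow_one p
    exact orderOf_dvd_iff_pow_eq_one.mp this
  set y := x ^ p ^ (e - 2) with hy
  have hyord : orderOf y = p ^ 2 := by
    rw [hy, orderOf_pow_of_dvd (pow_ne_zero _ hp.ne_zero)
      (by rw [he]; exact pow_dvd_pow p (by omega)), he, Nat.pow_div (by omega) hp.pos]
    congr 1; omega
  intro H K hH hK
  by_contra hne
  haveI : Nontrivial ↥(P : Subgroup G) := ⟨⟨⟨x, hxP⟩, 1, fun h => hx (by
    have h1 : x = 1 := congrArg Subtype.val h
    rw [h1, one_pow])⟩⟩
  haveI := hPG.center_nontrivial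
  have hdvd : p ∣ Nat.card (Subgroup.center ↥(P : Subgroup G)) := by
    obtain ⟨k, hk⟩ := IsPGroup.iff_card.mp (hPG.to_subgroup (Subgroup.center _))
    rw [hk]
    have hk0 : k ≠ 0 := by
      rintro rfl
      rw [pow_zero] at hk
      have := Finite.one_lt_card (α := Subgroup.center ↥(P : Subgroup G))
      omega
    exact dvd_pow_self p hk0
  obtain ⟨zc, hzc⟩ := exists_prime_orderOf_dvd_card' p hdvd
  set z : ↥(P : Subgroup G) := (zc : ↥(P : Subgroup G)) with hz
  have hzord : orderOf z = p := by rw [hz, Subgroup.orderOf_coe]; exact hzc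
  let Zs : Subgroup ↥(P : Subgroup G) := Subgroup.zpowers z
  have hZcard : Nat.card Zs = p := by rw [Nat.card_zpowers, hzord]
  haveI hZn : Zs.Normal := ⟨fun n hn g => by
    have hnc : n ∈ Subgroup.center ↥(P : Subgroup G) := (Subgroup.zpowers_le.mpr zc.2) hn
    have : g * n * g⁻¹ = n := by rw [Subgroup.mem_center_iff.mp hnc g, mul_inv_cancel_right]
    rw [this]; exact hn⟩
  obtain ⟨Hs, hHs, hHsne⟩ : ∃ Hs : Subgroup ↥(P : Subgroup G), Nat.card Hs = p ∧ Hs ≠ Zs := by
    by_cases h : H = Zs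
    · exact ⟨K, hK, fun hK' => hne (h.trans hK'.symm)⟩
    · exact ⟨H, hH, h⟩
  have hinf : Zs ⊓ Hs = ⊥ := by
    by_contra hcon
    have h1 : Nat.card ↥(Zs ⊓ Hs) ∣ p :=
      (Subgroup.card_dvd_of_le (inf_le_right : Zs ⊓ Hs ≤ Hs)).trans (dvd_of_eq hHs)
    rcases (Nat.dvd_prime hp).mp h1 with h1 | h1
    · exact hcon (Subgroup.card_eq_one.mp h1)
    · have h2 : Zs ⊓ Hs = Hs := Subgroup.eq_of_le_of_card_ge inf_le_right (by rw [h1, hHs])
      have h3 : Hs ≤ Zs := by rw [← h2]; exact inf_le_left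
      exact hHsne (Subgroup.eq_of_le_of_card_ge h3 (by rw [hHs, hZcard]))
  have hEcard : Nat.card ↥(Hs ⊔ Zs) = p ^ 2 := by
    have h1 : Zs.relIndex (Hs ⊔ Zs) = p := by
      rw [Subgroup.relIndex_sup_right, ← Subgroup.inf_relIndex_right, hinf,
        Subgroup.relIndex_bot_left, hHs]
    have h2 := Subgroup.relIndex_mul_relIndex (H := ⊥) (K := Zs) (L := Hs ⊔ Zs) bot_le le_sup_right
    rw [Subgroup.relIndex_bot_left, Subgroup.relIndex_bot_left, h1, hZcard] at h2
    rw [← h2, sq]
  -- the subgroups of G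
  let E : Subgroup G := (Hs ⊔ Zs).map (P : Subgroup G).subtype
  let C : Subgroup G := Subgroup.zpowers y
  have hEc : Nat.card E = p ^ 2 := by
    rw [Subgroup.card_subtype]; exact hEcard
  have hCc : Nat.card C = p ^ 2 := by rw [Nat.card_zpowers, hyord]
  obtain ⟨g, hg⟩ := hB E C (IsPGroup.isMulCommutative_of_card_eq_prime_sq hEc)
    (IsPGroup.isMulCommutative_of_card_eq_prime_sq hCc) (hEc.trans hCc.symm)
  -- the subgroup of order p of C, pulled back
  let F : Subgroup G := (Subgroup.zpowers (y ^ p)).map (MulAut.conj g⁻¹).toMonoidHom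
  have hFcard : Nat.card F = p := by
    rw [Subgroup.card_map_of_injective (MulAut.conj g⁻¹).injective, Nat.card_zpowers,
      orderOf_pow_of_dvd hp.ne_zero (by rw [hyord]; exact dvd_pow_self p (by norm_num)), hyord,
      sq, Nat.mul_div_cancel _ hp.pos]
  have key : ∀ u : ↥(P : Subgroup G), u ∈ Hs ⊔ Zs → u ^ p = 1 → (u : G) ∈ F := by
    intro u hu hup
    have h1 : g * (u : G) * g⁻¹ ∈ C := by
      rw [hg]
      exact ⟨(u : G), ⟨u, hu, rfl⟩, by simp [MulAut.conj_apply]⟩
    obtain ⟨k, hk⟩ := Subgroup.mem_zpowers_iff.mp h1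
    have h2 : (g * (u : G) * g⁻¹) ^ p = 1 := by
      rw [conj_pow]
      have : (u : G) ^ p = 1 := by
        have := congrArg Subtype.val hup
        simpa using this
      rw [this, mul_one, mul_inv_cancel]
    rw [← hk, ← zpow_natCast, ← zpow_mul] at h2
    have h3 : (orderOf y : ℤ) ∣ k * (p : ℤ) := orderOf_dvd_iff_zpow_eq_one.mpr h2
    rw [hyord] at h3
    have h4 : (p : ℤ) ∣ k := by
      push_cast at h3
      rw [sq] at h3
      exact Int.dvd_of_mul_dvd_mul_right (by exact_mod_cast hp.ne_zero) h3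
    obtain ⟨c, hc⟩ := h4
    refine ⟨y ^ k, ?_, ?_⟩
    · rw [hc, zpow_mul, zpow_natCast]
      exact Subgroup.zpow_mem _ (Subgroup.mem_zpowers _) c
    · rw [hk]
      simp [mul_assoc]
  have hpowH : ∀ u : ↥(P : Subgroup G), u ∈ Hs → u ^ p = 1 := by
    intro u hu
    have := pow_card_eq_one' (G := Hs) (x := ⟨u, hu⟩)
    rw [hHs] at this
    exact congrArg Subtype.val this
  have hpowZ : ∀ u : ↥(P : Subgroup G), u ∈ Zs → u ^ p = 1 := by
    intro u hu
    have := pow_card_eq_one' (G := Zs) (x := ⟨u, hu⟩)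
    rw [hZcard] at this
    exact congrArg Subtype.val this
  have hHF : Hs.map (P : Subgroup G).subtype ≤ F := by
    rintro _ ⟨u, hu, rfl⟩
    exact key u (Subgroup.mem_sup_left hu) (hpowH u hu)
  have hZF : Zs.map (P : Subgroup G).subtype ≤ F := by
    rintro _ ⟨u, hu, rfl⟩
    exact key u (Subgroup.mem_sup_right hu) (hpowZ u hu)
  have e1 : Hs.map (P : Subgroup G).subtype = F :=
    Subgroup.eq_of_le_of_card_ge hHF (by rw [Subgroup.card_subtype, hHs, hFcard])
  have e2 : Zs.map (P : Subgroup G).subtype = F :=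
    Subgroup.eq_of_le_of_card_ge hZF (by rw [Subgroup.card_subtype, hZcard, hFcard])
  exact hHsne (Subgroup.map_injective (P : Subgroup G).subtype_injective (e1.trans e2.symm))

/-- Let G be a finite group in which any two abelian subgroups of the same order are conjugate. Then a Sylow 2-subgroup of G is cyclic, elementary abelian or generalized quaternion, and for an odd prime p a Sylow p-subgroup of G is cyclic or has exponent dividing p. -/
theorem result {G : Type*} [Group G] [Finite G] (hB : ∀ A B : Subgroup G, IsMulCommutative ↥A → IsMulCommutative ↥B → Nat.card ↥A = Nat.card ↥B → ∃ g : G, B = A.map (MulAut.conj g).toMonoidHom) :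
    (∀ P : Sylow 2 G, IsCyclic ↥(P : Subgroup G) ∨ Cfsg.IsElementaryAbelian 2 (P : Subgroup G) ∨ ∃ k : ℕ, Nonempty (↥(P : Subgroup G) ≃* QuaternionGroup (2 ^ k))) ∧
    ∀ (p : ℕ) [Fact p.Prime], p ≠ 2 → ∀ P : Sylow p G, IsCyclic ↥(P : Subgroup G) ∨ ∀ x ∈ (P : Subgroup G), x ^ p = 1 := by
  constructor
  · intro P
    haveI : Fact (Nat.Prime 2) := ⟨Nat.prime_two⟩
    by_cases hall : ∀ x ∈ (P : Subgroup G), x ^ 2 = 1
    · right; left
      refine ⟨⟨⟨fun a b => ?_⟩⟩, hall⟩
      have ha : (a : G) ^ 2 = 1 := hall _ a.2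
      have hb : (b : G) ^ 2 = 1 := hall _ b.2
      have hab : ((a : G) * b) ^ 2 = 1 := hall _ (mul_mem a.2 b.2)
      apply Subtype.ext
      show (a : G) * b = b * a
      have ha' : (a : G)⁻¹ = a := by rw [inv_eq_iff_mul_eq_one, ← sq]; exact ha
      have hb' : (b : G)⁻¹ = b := by rw [inv_eq_iff_mul_eq_one, ← sq]; exact hb
      have hab' : ((a : G) * b)⁻¹ = a * b := by rw [inv_eq_iff_mul_eq_one, ← sq]; exact hab
      calc (a : G) * b = ((a : G) * b)⁻¹ := hab'.symm
        _ = (b : G)⁻¹ * (a : G)⁻¹ := mul_inv_rev _ _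
        _ = b * a := by rw [ha', hb']
    · push Not at hall
      obtain ⟨x, hxP, hx⟩ := hall
      rcases Cfsg.Agent.S0016.result 2 P.isPGroup' (unique_of_conj hB 2 P x hxP hx) with h | ⟨-, h⟩
      · left; exact h
      · right; right; exact h
  · intro p _ hp2 P
    by_cases hall : ∀ x ∈ (P : Subgroup G), x ^ p = 1
    · right; exact hall
    · push Not at hall
      obtain ⟨x, hxP, hx⟩ := hall
      rcases Cfsg.Agent.S0016.result p P.isPGroup' (unique_of_conj hB p P x hxP hx) with h | ⟨h, -⟩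
      · left; exact h
      · exact absurd h hp2

end Cfsg.Agent.S3908
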