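import Cfsg.Statements.S3909
import Mathlib

set_option autoImplicit false
open Cfsg

namespace Cfsg.Agent.S3909

theorem mem_cj {G : Type*} [Group G] (H : Subgroup G) (g y : G) :
    y ∈ H.map (MulAut.conj g).toMonoidHom ↔ g⁻¹ * y * g ∈ H := by
  constructor
  · rintro ⟨h, hh, rfl⟩
    simpa [MulAut.conj_apply, mul_assoc] using hh
  · intro hy
    refine ⟨g⁻¹ * y * g, hy, ?_⟩
    simp [MulAut.conj_apply, mul_assoc]

theorem zpowers_comm {G : Type*} [Group G] (a : G) : IsMulCommutative ↥(Subgroup.zpowers a) := by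
  rw [isMulCommutative_iff]
  rintro ⟨x, hx⟩ ⟨y, hy⟩
  obtain ⟨i, rfl⟩ := Subgroup.mem_zpowers_iff.mp hx
  obtain ⟨j, rfl⟩ := Subgroup.mem_zpowers_iff.mp hy
  ext
  simp only [Subgroup.coe_mul]
  rw [← zpow_add, ← zpow_add, add_comm]

theorem sub_comm_of_le {G : Type*} [Group G] (E M : Subgroup G) (hEM : E ≤ M)
    (hM : IsMulCommutative ↥M) : IsMulCommutative ↥E := by
  rw [isMulCommutative_iff] at hM ⊢
  rintro ⟨x, hx⟩ ⟨y, hy⟩
  have := hM ⟨x, hEM hx⟩ ⟨y, hEM hy⟩
  ext
  simpa using congrArg Subtype.val this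

/-- Let G be a finite group in which any two abelian subgroups of the same order are conjugate. Let M be a normal subgroup of G. If M contains an element of the same order as a ∈ G, then a ∈ M; and if M is elementary abelian of order p^t with p prime and t ≥ 2, then M is the unique Sylow p-subgroup of G. -/
theorem result {G : Type*} [Group G] [Finite G] (hB : ∀ A B : Subgroup G, IsMulCommutative ↥A → IsMulCommutative ↥B → Nat.card ↥A = Nat.card ↥B → ∃ g : G, B = A.map (MulAut.conj g).toMonoidHom) (M : Subgroup G) [M.Normal] :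
    (∀ a : G, (∃ m ∈ M, orderOf m = orderOf a) → a ∈ M) ∧
    ∀ (p t : ℕ) [Fact p.Prime], 2 ≤ t → Nat.card ↥M = p ^ t → Cfsg.IsElementaryAbelian p M → ∀ P : Sylow p G, (P : Subgroup G) = M := by
  have hMn : M.Normal := inferInstance
  have part1 : ∀ a : G, (∃ m ∈ M, orderOf m = orderOf a) → a ∈ M := by
    rintro a ⟨m, hm, hma⟩
    obtain ⟨g, hg⟩ := hB (Subgroup.zpowers m) (Subgroup.zpowers a) (zpowers_comm m) (zpowers_comm a)
      (by rw [Nat.card_zpowers, Nat.card_zpowers, hma])
    have ha : a ∈ (Subgroup.zpowers m).map (MulAut.conj g).toMonoidHom := by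
      rw [← hg]; exact Subgroup.mem_zpowers a
    rw [mem_cj] at ha
    have h1 : g⁻¹ * a * g ∈ M := (Subgroup.zpowers_le.mpr hm) ha
    have h2 := hMn.conj_mem _ h1 g
    simpa [mul_assoc] using h2
  refine ⟨part1, ?_⟩
  intro p t hp ht hcard hEA P
  have hpp : p.Prime := hp.out
  have hMp : IsPGroup p M := IsPGroup.of_card hcard
  apply le_antisymm
  · -- P ≤ M
    intro x hx
    obtain ⟨k, hk⟩ := (IsPGroup.iff_orderOf.mp P.isPGroup') ⟨x, hx⟩
    rw [Subgroup.orderOf_mk] at hk
    -- M has an element of order p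
    have hdvd : p ∣ Nat.card M := by
      rw [hcard]; exact dvd_pow_self p (by omega)
    obtain ⟨m, hm⟩ := exists_prime_orderOf_dvd_card' p hdvd
    have hm' : orderOf (m : G) = p := by rw [Subgroup.orderOf_coe]; exact hm
    rcases Nat.lt_or_ge k 2 with hk2 | hk2
    · interval_cases k
      · have : x = 1 := by
          rw [← orderOf_eq_one_iff]; simpa using hk
        rw [this]; exact M.one_mem
      · exact part1 x ⟨m, m.2, by rw [hm', hk, pow_one]⟩
    · exfalso
      obtain ⟨j, rfl⟩ : ∃ j, k = j + 2 := ⟨k - 2, by omega⟩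
      set y := x ^ (p ^ j) with hy
      have hyord : orderOf y = p ^ 2 := by
        have hpos : 0 < p ^ j := pow_pos hpp.pos j
        rw [hy, orderOf_pow' x hpos.ne', hk, Nat.gcd_eq_right (pow_dvd_pow p (by omega))]
        rw [pow_add, Nat.mul_div_cancel_left _ hpos]
      -- a subgroup E of M of order p^2
      have hle : p ^ 2 ≤ Nat.card M := by
        rw [hcard]; exact Nat.pow_le_pow_right hpp.pos ht
      obtain ⟨E', hE'⟩ := Sylow.exists_subgroup_card_pow_prime_of_le_card hpp hMp hle
      set E : Subgroup G := E'.map M.subtype with hE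
      have hEM : E ≤ M := Subgroup.map_subtype_le _
      have hEcard : Nat.card E = p ^ 2 := by
        rw [← hE']
        exact Nat.card_congr (E'.equivMapOfInjective M.subtype M.subtype_injective).symm.toEquiv
      obtain ⟨g, hg⟩ := hB E (Subgroup.zpowers y) (sub_comm_of_le E M hEM hEA.1) (zpowers_comm y)
        (by rw [Nat.card_zpowers, hEcard, hyord])
      have hyE : y ∈ E.map (MulAut.conj g).toMonoidHom := by
        rw [← hg]; exact Subgroup.mem_zpowers y
      rw [mem_cj] at hyE
      have h1 : (g⁻¹ * y * g) ^ p = 1 := hEA.2 _ (hEM hyE)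
      have h2 : y ^ p = 1 := by
        have : (g⁻¹ * y * g) ^ p = g⁻¹ * y ^ p * g := by
          have := conj_pow (a := g⁻¹) (b := y) (i := p)
          simpa using this
        rw [this] at h1
        have h3 : y ^ p = g * (g⁻¹ * y ^ p * g) * g⁻¹ := by group
        rw [h3, h1]; group
      have h3 := orderOf_dvd_of_pow_eq_one h2
      rw [hyord] at h3
      have h4 := Nat.le_of_dvd hpp.pos h3
      have : p < p ^ 2 := by
        have := hpp.one_lt
        nlinarith
      omega
  · exact hMp.le_sylow_of_normal P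

end Cfsg.Agent.S3909
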