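import Mathlib
import Cfsg.Statements.S0765
import Cfsg.Agent.Helper6.Symp

set_option autoImplicit false
open Cfsg

namespace Cfsg.Agent.S0765

open Cfsg.Agent.Helper6 Matrix

/-- Generation of the symplectic group by symplectic transvections: the subgroup of Sp_2m(F) generated by all matrices of maps x ↦ x + c f(x, w) w is the whole group. -/
theorem result {F : Type*} [Field F] (m : ℕ) : Subgroup.closure {A : Matrix.symplecticGroup (Fin m) F | ∃ (w : Fin m ⊕ Fin m → F) (c : F), (A : Matrix (Fin m ⊕ Fin m) (Fin m ⊕ Fin m) F) = Cfsg.sympTransvection m w c} = ⊤ := by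
  classical
  obtain ⟨T, hT⟩ : ∃ T, T = Subgroup.closure {A : Matrix.symplecticGroup (Fin m) F |
      ∃ (w : Fin m ⊕ Fin m → F) (c : F),
        (A : Matrix (Fin m ⊕ Fin m) (Fin m ⊕ Fin m) F) = Cfsg.sympTransvection m w c} := ⟨_, rfl⟩
  rw [← hT]
  have hle : ∀ k, Subgroup.closure (sgens (sUk F m k)) ≤ T := by
    intro k
    rw [hT]
    apply Subgroup.closure_mono
    rintro B ⟨w, -, c, hB⟩
    exact ⟨w, c, hB⟩
  have key : ∀ k : ℕ, ∀ A : Matrix.symplecticGroup (Fin m) F,
      (∀ i : Fin m, k ≤ (i : ℕ) →
        (A : Matrix (Fin m ⊕ Fin m) (Fin m ⊕ Fin m) F) *ᵥ Pi.single (Sum.inl i) 1 =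
          Pi.single (Sum.inl i) 1 ∧
        (A : Matrix (Fin m ⊕ Fin m) (Fin m ⊕ Fin m) F) *ᵥ Pi.single (Sum.inr i) 1 =
          Pi.single (Sum.inr i) 1) → A ∈ T := by
    intro k
    induction k with
    | zero =>
      intro A hA
      have h1 : A = 1 := by
        apply Subtype.ext
        ext i j
        rw [sp_coe_one]
        rcases j with j | j
        · have h2 := congrFun (hA j (Nat.zero_le _)).1 i
          rw [Matrix.mulVec_single_one] at h2
          rw [Matrix.one_apply]
          rw [Pi.single_apply] at h2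
          exact h2
        · have h2 := congrFun (hA j (Nat.zero_le _)).2 i
          rw [Matrix.mulVec_single_one] at h2
          rw [Matrix.one_apply]
          rw [Pi.single_apply] at h2
          exact h2
      rw [h1]; exact Subgroup.one_mem _
    | succ k ih =>
      intro A hA
      by_cases hk : k < m
      · obtain ⟨i0, hi0⟩ : ∃ i0 : Fin m, (i0 : ℕ) = k := ⟨⟨k, hk⟩, rfl⟩
        obtain ⟨e, he⟩ : ∃ e : Fin m ⊕ Fin m → F, e = Pi.single (Sum.inl i0) 1 := ⟨_, rfl⟩
        obtain ⟨f', hf'⟩ : ∃ f' : Fin m ⊕ Fin m → F, f' = Pi.single (Sum.inr i0) 1 := ⟨_, rfl⟩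
        have hfe : Cfsg.sympForm m F f' e = 1 := by
          rw [he, sf_single_inl, hf']; simp
        have hmaps : ∀ x ∈ sUk F m (k + 1),
            (A : Matrix (Fin m ⊕ Fin m) (Fin m ⊕ Fin m) F) *ᵥ x ∈ sUk F m (k + 1) := by
          intro x hx i hi
          constructor
          · have h1 := sf_single_inr ((A : Matrix (Fin m ⊕ Fin m) (Fin m ⊕ Fin m) F) *ᵥ x) i
            have h2 : Cfsg.sympForm m F ((A : Matrix (Fin m ⊕ Fin m) (Fin m ⊕ Fin m) F) *ᵥ x)
                (Pi.single (Sum.inr i) 1) = Cfsg.sympForm m F x (Pi.single (Sum.inr i) 1) := by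
              have h3 := sp_preserves A x (Pi.single (Sum.inr i) 1)
              rw [(hA i hi).2] at h3
              exact h3
            rw [h2, sf_single_inr, (hx i hi).1] at h1
            exact neg_eq_zero.1 (by rw [← h1, neg_zero])
          · have h1 := sf_single_inl ((A : Matrix (Fin m ⊕ Fin m) (Fin m ⊕ Fin m) F) *ᵥ x) i
            have h2 : Cfsg.sympForm m F ((A : Matrix (Fin m ⊕ Fin m) (Fin m ⊕ Fin m) F) *ᵥ x)
                (Pi.single (Sum.inl i) 1) = Cfsg.sympForm m F x (Pi.single (Sum.inl i) 1) := by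
              have h3 := sp_preserves A x (Pi.single (Sum.inl i) 1)
              rw [(hA i hi).1] at h3
              exact h3
            rw [h2, sf_single_inl, (hx i hi).2] at h1
            exact h1.symm
        have heU : e ∈ sUk F m (k + 1) := by
          rw [he]; exact single_inl_mem_sUk (k + 1) i0 (by omega)
        have hfU : f' ∈ sUk F m (k + 1) := by
          rw [hf']; exact single_inr_mem_sUk (k + 1) i0 (by omega)
        have h1 : Cfsg.sympForm m F ((A : Matrix (Fin m ⊕ Fin m) (Fin m ⊕ Fin m) F) *ᵥ f')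
            ((A : Matrix (Fin m ⊕ Fin m) (Fin m ⊕ Fin m) F) *ᵥ e) = 1 := by
          rw [sp_preserves, hfe]
        obtain ⟨B, hB, hBf, hBe⟩ := strans (sUk F m (k + 1)) (sUk_nondeg (k + 1)) _ _ f' e
          (hmaps f' hfU) (hmaps e heU) hfU heU h1 hfe
        have hBfix : ∀ i : Fin m, k + 1 ≤ (i : ℕ) →
            (B : Matrix (Fin m ⊕ Fin m) (Fin m ⊕ Fin m) F) *ᵥ Pi.single (Sum.inl i) 1 =
              Pi.single (Sum.inl i) 1 ∧
            (B : Matrix (Fin m ⊕ Fin m) (Fin m ⊕ Fin m) F) *ᵥ Pi.single (Sum.inr i) 1 =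
              Pi.single (Sum.inr i) 1 := by
          intro i hi
          constructor
          · apply sfix_perp _ B hB
            intro w hw
            rw [sf_swap, sf_single_inl, (hw i hi).2, neg_zero]
          · apply sfix_perp _ B hB
            intro w hw
            rw [sf_swap, sf_single_inr, (hw i hi).1, neg_zero, neg_zero]
        have hBA : B * A ∈ T := by
          apply ih
          intro i hi
          by_cases hik : (i : ℕ) = k
          · have hii : i = i0 := Fin.ext (by omega)
            rw [hii, ← he, ← hf']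
            constructor
            · rw [sp_coe_mul, ← Matrix.mulVec_mulVec]; exact hBe
            · rw [sp_coe_mul, ← Matrix.mulVec_mulVec]; exact hBf
          · have hi' : k + 1 ≤ (i : ℕ) := by omega
            constructor
            · rw [sp_coe_mul, ← Matrix.mulVec_mulVec, (hA i hi').1]; exact (hBfix i hi').1
            · rw [sp_coe_mul, ← Matrix.mulVec_mulVec, (hA i hi').2]; exact (hBfix i hi').2
        have hBT : B ∈ T := hle (k + 1) hB
        have hAeq : A = B⁻¹ * (B * A) := by group
        rw [hAeq]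
        exact Subgroup.mul_mem _ (Subgroup.inv_mem _ hBT) hBA
      · apply ih
        intro i hi
        exact absurd i.2 (by omega)
  rw [eq_top_iff]
  intro A _
  apply key m A
  intro i hi
  exact absurd i.2 (by omega)

end Cfsg.Agent.S0765
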