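import Mathlib
import Cfsg.Statements.S0750

set_option autoImplicit false
open Cfsg

namespace Cfsg.Agent.S0750

open Module

universe u v

variable {F : Type u} {V : Type v} [Field F] [AddCommGroup V] [Module F V]

theorem Q_add2 (Q : QuadraticForm F V) (x z : V) (c : F) :
    Q (x + c • z) = Q x + c * c * Q z + c * QuadraticMap.polar Q x z := by
  rw [QuadraticMap.map_add (⇑Q), QuadraticMap.map_smul, QuadraticMap.polar_smul_right]
  simp only [smul_eq_mul]

theorem Q_add3 (Q : QuadraticForm F V) (x z a : V) (c d : F) :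
    Q (x + c • z + d • a) = Q x + c * c * Q z + d * d * Q a + c * QuadraticMap.polar Q x z
      + d * QuadraticMap.polar Q x a + c * d * QuadraticMap.polar Q z a := by
  rw [Q_add2, Q_add2, QuadraticMap.polar_add_left, QuadraticMap.polar_smul_left]
  simp only [smul_eq_mul]
  ring

theorem polar_isom (Q : QuadraticForm F V) (T : V → V) (hadd : ∀ x y, T (x + y) = T x + T y)
    (hT : ∀ v, Q (T v) = Q v) (x y : V) :
    QuadraticMap.polar Q (T x) (T y) = QuadraticMap.polar Q x y := by
  unfold QuadraticMap.polar
  rw [← hadd, hT, hT, hT]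

theorem isom_injective (Q : QuadraticForm F V)
    (hQ : (QuadraticMap.polarBilin Q).Nondegenerate) (T : V →ₗ[F] V) (hT : ∀ v, Q (T v) = Q v) :
    Function.Injective T := by
  rw [← LinearMap.ker_eq_bot, LinearMap.ker_eq_bot']
  intro x hx
  apply hQ.1 x
  intro y
  rw [QuadraticMap.polarBilin_apply_apply, ← polar_isom Q T (map_add T) hT x y, hx]
  unfold QuadraticMap.polar
  rw [zero_add, map_zero, sub_zero, sub_self]

theorem isom_equiv [FiniteDimensional F V] (Q : QuadraticForm F V)
    (hQ : (QuadraticMap.polarBilin Q).Nondegenerate) (T : V →ₗ[F] V) (hT : ∀ v, Q (T v) = Q v) :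
    ∃ g : V ≃ₗ[F] V, ∀ v, g v = T v :=
  ⟨LinearEquiv.ofInjectiveEndo T (isom_injective Q hQ T hT),
    fun v => by rw [LinearEquiv.coe_ofInjectiveEndo]⟩

theorem exists_dual_vec [FiniteDimensional F V] (Q : QuadraticForm F V)
    (hQ : (QuadraticMap.polarBilin Q).Nondegenerate) (W : Submodule F V) (u : V) (hu : u ∉ W) :
    ∃ a : V, (∀ w ∈ W, QuadraticMap.polar Q a w = 0) ∧ QuadraticMap.polar Q a u = 1 := by
  obtain ⟨c0, hc0u, hc0W⟩ := Submodule.exists_dual_map_eq_bot_of_notMem hu inferInstance
  have hc0W' : ∀ w ∈ W, c0 w = 0 := by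
    intro w hw
    have : c0 w ∈ W.map c0 := Submodule.mem_map_of_mem hw
    rw [hc0W] at this
    exact (Submodule.mem_bot F).mp this
  refine ⟨(LinearMap.BilinForm.toDual (QuadraticMap.polarBilin Q) hQ).symm ((c0 u)⁻¹ • c0), ?_, ?_⟩
  · intro w hw
    rw [← QuadraticMap.polarBilin_apply_apply, LinearMap.BilinForm.apply_toDual_symm_apply,
      LinearMap.smul_apply, hc0W' w hw, smul_zero]
  · rw [← QuadraticMap.polarBilin_apply_apply, LinearMap.BilinForm.apply_toDual_symm_apply,
      LinearMap.smul_apply, smul_eq_mul, inv_mul_cancel₀ hc0u]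

/-- the general shape of the isometries we use -/
noncomputable def twoTerm (l₁ l₂ : V →ₗ[F] F) (z a : V) : V →ₗ[F] V :=
  LinearMap.id + l₁.smulRight z + l₂.smulRight a

theorem twoTerm_apply (l₁ l₂ : V →ₗ[F] F) (z a x : V) :
    twoTerm l₁ l₂ z a x = x + l₁ x • z + l₂ x • a := rfl

theorem core [FiniteDimensional F V] (Q : QuadraticForm F V)
    (hQ : (QuadraticMap.polarBilin Q).Nondegenerate) (H : Submodule F V) (u u' : V)
    (huH : u ∉ H) (hu'H : u' ∉ H) (hQu : Q u' = Q u)
    (hB : ∀ h ∈ H, QuadraticMap.polar Q u' h = QuadraticMap.polar Q u h) :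
    ∃ T : V →ₗ[F] V, (∀ v, Q (T v) = Q v) ∧ (∀ h ∈ H, T h = h) ∧ T u = u' := by
  obtain ⟨z, hz⟩ : ∃ z : V, z = u - u' := ⟨_, rfl⟩
  have hu' : u' = u + (-1 : F) • z := by rw [hz]; simp
  have hzH : ∀ h ∈ H, QuadraticMap.polar Q z h = 0 := by
    intro h hh
    rw [hz, QuadraticMap.polar_sub_left, hB h hh, sub_self]
  have hQz : Q z = QuadraticMap.polar Q z u := by
    have h1 := Q_add2 Q u z (-1)
    rw [← hu', hQu, QuadraticMap.polar_comm] at h1
    linear_combination -h1
  by_cases hz0 : z = 0
  · refine ⟨LinearMap.id, fun v => rfl, fun h _ => rfl, ?_⟩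
    rw [hu', hz0]; simp
  by_cases hQz0 : Q z = 0
  · have hzu : QuadraticMap.polar Q z u = 0 := by rw [← hQz, hQz0]
    have hzz : QuadraticMap.polar Q z z = 0 := by
      rw [QuadraticMap.polar_self, hQz0, smul_zero]
    by_cases hmem : u ∈ H ⊔ Submodule.span F {z}
    · obtain ⟨h₀, hh₀, w, hw, hsum⟩ := Submodule.mem_sup.mp hmem
      obtain ⟨c, rfl⟩ := Submodule.mem_span_singleton.mp hw
      have hzH' : z ∉ H := by
        intro hzmem
        apply huH
        rw [← hsum]
        exact H.add_mem hh₀ (H.smul_mem c hzmem)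
      have hc0 : c ≠ 0 := by
        rintro rfl
        apply huH
        rw [← hsum, zero_smul, add_zero]
        exact hh₀
      have hc1 : c ≠ 1 := by
        rintro rfl
        apply hu'H
        rw [hu', ← hsum, one_smul, neg_smul, one_smul, add_neg_cancel_right]
        exact hh₀
      obtain ⟨a₀, ha₀H, ha₀z⟩ := exists_dual_vec Q hQ H z hzH'
      obtain ⟨a, ha⟩ : ∃ a : V, a = a₀ + (- Q a₀) • z := ⟨_, rfl⟩
      have hQa : Q a = 0 := by
        rw [ha, Q_add2, hQz0, ha₀z]; ring
      have haH : ∀ h ∈ H, QuadraticMap.polar Q a h = 0 := by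
        intro h hh
        rw [ha, QuadraticMap.polar_add_left, QuadraticMap.polar_smul_left, ha₀H h hh, hzH h hh,
          smul_zero, add_zero]
      have haz : QuadraticMap.polar Q a z = 1 := by
        rw [ha, QuadraticMap.polar_add_left, QuadraticMap.polar_smul_left, ha₀z, hzz,
          smul_zero, add_zero]
      obtain ⟨μ, hμ⟩ : ∃ μ : F, μ = (c - 1) / c := ⟨_, rfl⟩
      have hμ0 : μ ≠ 0 := by
        rw [hμ]
        exact div_ne_zero (sub_ne_zero.mpr hc1) hc0
      refine ⟨twoTerm ((μ - 1) • QuadraticMap.polarBilin Q a)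
        ((μ⁻¹ - 1) • QuadraticMap.polarBilin Q z) z a, ?_, ?_, ?_⟩
      · intro x
        rw [twoTerm_apply, Q_add3, hQz0, hQa, LinearMap.smul_apply, LinearMap.smul_apply,
          QuadraticMap.polarBilin_apply_apply, QuadraticMap.polarBilin_apply_apply,
          QuadraticMap.polar_comm Q x z, QuadraticMap.polar_comm Q x a,
          QuadraticMap.polar_comm Q z a, haz]
        simp only [smul_eq_mul]
        field_simp
        ring
      · intro h hh
        rw [twoTerm_apply, LinearMap.smul_apply, LinearMap.smul_apply,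
          QuadraticMap.polarBilin_apply_apply, QuadraticMap.polarBilin_apply_apply, haH h hh,
          hzH h hh]
        simp
      · rw [twoTerm_apply, LinearMap.smul_apply, LinearMap.smul_apply,
          QuadraticMap.polarBilin_apply_apply, QuadraticMap.polarBilin_apply_apply, hzu]
        have hau : QuadraticMap.polar Q a u = c := by
          rw [← hsum, QuadraticMap.polar_add_right, QuadraticMap.polar_smul_right, haH h₀ hh₀,
            haz]
          simp
        rw [hau, hu']
        have : (μ - 1) • c = (-1 : F) := by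
          rw [hμ, smul_eq_mul]
          field_simp
          ring
        rw [this]
        simp
    · obtain ⟨a, haW, hau⟩ := exists_dual_vec Q hQ _ u hmem
      have haH : ∀ h ∈ H, QuadraticMap.polar Q a h = 0 := fun h hh =>
        haW h (Submodule.mem_sup_left hh)
      have haz : QuadraticMap.polar Q a z = 0 :=
        haW z (Submodule.mem_sup_right (Submodule.mem_span_singleton_self z))
      refine ⟨twoTerm (- QuadraticMap.polarBilin Q a - Q a • QuadraticMap.polarBilin Q z)
        (QuadraticMap.polarBilin Q z) z a, ?_, ?_, ?_⟩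
      · intro x
        rw [twoTerm_apply, Q_add3, hQz0, LinearMap.sub_apply, LinearMap.neg_apply,
          LinearMap.smul_apply,
          QuadraticMap.polarBilin_apply_apply, QuadraticMap.polarBilin_apply_apply,
          QuadraticMap.polar_comm Q x z, QuadraticMap.polar_comm Q x a,
          QuadraticMap.polar_comm Q z a, haz]
        simp only [smul_eq_mul]
        ring
      · intro h hh
        rw [twoTerm_apply, LinearMap.sub_apply, LinearMap.neg_apply,
          LinearMap.smul_apply,
          QuadraticMap.polarBilin_apply_apply, QuadraticMap.polarBilin_apply_apply, haH h hh,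
          hzH h hh]
        simp
      · rw [twoTerm_apply, LinearMap.sub_apply, LinearMap.neg_apply,
          LinearMap.smul_apply,
          QuadraticMap.polarBilin_apply_apply, QuadraticMap.polarBilin_apply_apply, hzu, hau, hu']
        simp
  · refine ⟨twoTerm ((- (Q z)⁻¹) • QuadraticMap.polarBilin Q z) 0 z 0, ?_, ?_, ?_⟩
    · intro x
      rw [twoTerm_apply, LinearMap.zero_apply, zero_smul, add_zero, Q_add2, LinearMap.smul_apply,
        QuadraticMap.polarBilin_apply_apply, QuadraticMap.polar_comm Q x z]
      simp only [smul_eq_mul]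
      field_simp
      ring
    · intro h hh
      rw [twoTerm_apply, LinearMap.zero_apply, zero_smul, add_zero, LinearMap.smul_apply,
        QuadraticMap.polarBilin_apply_apply, hzH h hh]
      simp
    · rw [twoTerm_apply, LinearMap.zero_apply, zero_smul, add_zero, LinearMap.smul_apply,
        QuadraticMap.polarBilin_apply_apply, ← hQz, hu', smul_eq_mul, neg_mul,
        inv_mul_cancel₀ hQz0]

theorem extend_aux [FiniteDimensional F V] (Q : QuadraticForm F V)
    (hQ : (QuadraticMap.polarBilin Q).Nondegenerate) (s : Finset V) :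
    ∀ f : V →ₗ[F] V, (∀ x ∈ Submodule.span F (s : Set V), Q (f x) = Q x) →
      (∀ x ∈ Submodule.span F (s : Set V), f x = 0 → x = 0) →
      ∃ g : V ≃ₗ[F] V, (∀ v, Q (g v) = Q v) ∧ ∀ x ∈ Submodule.span F (s : Set V), g x = f x := by
  classical
  induction s using Finset.induction_on with
  | empty =>
    intro f _ _
    refine ⟨LinearEquiv.refl F V, fun v => rfl, ?_⟩
    intro x hx
    rw [Finset.coe_empty, Submodule.span_empty, Submodule.mem_bot] at hx
    rw [hx, map_zero, map_zero]
  | insert u s hus ih =>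
    intro f hf hinj
    rw [Finset.coe_insert] at hf hinj ⊢
    have hsub : Submodule.span F (s : Set V) ≤ Submodule.span F (insert u (s : Set V)) :=
      Submodule.span_mono (Set.subset_insert _ _)
    obtain ⟨g₀, hg₀Q, hg₀⟩ := ih f (fun x hx => hf x (hsub hx)) (fun x hx => hinj x (hsub hx))
    by_cases huH : u ∈ Submodule.span F (s : Set V)
    · refine ⟨g₀, hg₀Q, ?_⟩
      intro x hx
      apply hg₀
      obtain ⟨a, h, hh, rfl⟩ := Submodule.mem_span_insert.mp hx
      exact Submodule.add_mem _ (Submodule.smul_mem _ a huH) hh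
    · obtain ⟨u', hu'⟩ : ∃ u' : V, u' = g₀.symm (f u) := ⟨_, rfl⟩
      have hg₀u' : g₀ u' = f u := by rw [hu']; exact g₀.apply_symm_apply _
      have huX : u ∈ Submodule.span F (insert u (s : Set V)) :=
        Submodule.subset_span (Set.mem_insert _ _)
      have hQu : Q u' = Q u := by rw [← hg₀Q u', hg₀u', hf u huX]
      have hB : ∀ h ∈ Submodule.span F (s : Set V),
          QuadraticMap.polar Q u' h = QuadraticMap.polar Q u h := by
        intro h hh
        rw [← polar_isom Q g₀ (map_add g₀) hg₀Q u' h, hg₀u', hg₀ h hh]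
        unfold QuadraticMap.polar
        rw [← map_add, hf _ (Submodule.add_mem _ huX (hsub hh)), hf _ huX, hf _ (hsub hh)]
      have hu'H : u' ∉ Submodule.span F (s : Set V) := by
        intro hmem
        have h1 : f (u' - u) = 0 := by rw [map_sub, ← hg₀ u' hmem, hg₀u', sub_self]
        have h2 := hinj (u' - u) (Submodule.sub_mem _ (hsub hmem) huX) h1
        rw [sub_eq_zero] at h2
        rw [h2] at hmem
        exact huH hmem
      obtain ⟨T, hTQ, hTH, hTu⟩ := core Q hQ _ u u' huH hu'H hQu hB
      obtain ⟨g₁, hg₁⟩ := isom_equiv Q hQ T hTQ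
      refine ⟨g₁.trans g₀, ?_, ?_⟩
      · intro v
        rw [LinearEquiv.trans_apply, hg₀Q, hg₁, hTQ]
      · intro x hx
        obtain ⟨a, h, hh, rfl⟩ := Submodule.mem_span_insert.mp hx
        rw [LinearEquiv.trans_apply, hg₁, map_add, map_smul, hTu, hTH h hh, map_add, map_smul,
          hg₀u', hg₀ h hh, map_add, map_smul]

/-- Witt's lemma for quadratic forms with nondegenerate polar form (any field), linear-map form. -/
theorem witt [FiniteDimensional F V] (Q : QuadraticForm F V)
    (hQ : (QuadraticMap.polarBilin Q).Nondegenerate) (X : Submodule F V) (f : V →ₗ[F] V)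
    (hf : ∀ x ∈ X, Q (f x) = Q x) (hinj : ∀ x ∈ X, f x = 0 → x = 0) :
    ∃ g : V ≃ₗ[F] V, (∀ v, Q (g v) = Q v) ∧ ∀ x ∈ X, g x = f x := by
  obtain ⟨s, hs⟩ : X.FG := IsNoetherian.noetherian X
  subst hs
  exact extend_aux Q hQ s f hf hinj

/-- Witt's Lemma for quadratic forms over a finite field, in any characteristic: if Q is a quadratic form on a finite-dimensional space V whose polar bilinear form is non-degenerate, then every linear equivalence between subspaces X, Y of V that preserves Q extends to a Q-preserving linear automorphism of V. (In odd characteristic this is the symmetric-bilinear case; in characteristic two it is the statement for non-degenerate quadratic forms.) -/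
theorem result {F V : Type*} [Field F] [Finite F] [AddCommGroup V] [Module F V] [FiniteDimensional F V] (Q : QuadraticForm F V) (hQ : (QuadraticMap.polarBilin Q).Nondegenerate) (X Y : Submodule F V) (φ : X ≃ₗ[F] Y) (hφ : ∀ x : X, Q (φ x : V) = Q (x : V)) : ∃ g : V ≃ₗ[F] V, (∀ v : V, Q (g v) = Q v) ∧ ∀ x : X, g (x : V) = (φ x : V) := by
  obtain ⟨f, hf⟩ := LinearMap.exists_extend (Y.subtype.comp φ.toLinearMap)
  have hfx : ∀ x : X, f (x : V) = (φ x : V) := by
    intro x
    have := congrArg (fun l => l x) hf
    simpa using this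
  obtain ⟨g, hgQ, hg⟩ := witt Q hQ X f
    (fun x hx => by rw [hfx ⟨x, hx⟩, hφ])
    (fun x hx h0 => by
      rw [hfx ⟨x, hx⟩] at h0
      have h1 : φ ⟨x, hx⟩ = 0 := Subtype.ext h0
      have h2 : (⟨x, hx⟩ : X) = 0 := by
        rw [← φ.symm_apply_apply ⟨x, hx⟩, h1, map_zero]
      exact congrArg Subtype.val h2)
  exact ⟨g, hgQ, fun x => by rw [hg x x.2, hfx]⟩

end Cfsg.Agent.S0750
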