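import Cfsg.Statements.S0499
import Mathlib
import Cfsg.Agent.Helper21.Frobenius
set_option autoImplicit false
open Cfsg
namespace Cfsg.Agent.S0499

theorem arith (r k j : ℕ) (hrp : r.Prime) (hr2 : r ≠ 2) (hk3 : k ≤ 3) (hjlt : j < k)
    (hrdvd : r ∣ 2 ^ k - 2 ^ j) : (r = 3 ∧ 2 ≤ k) ∨ (r = 7 ∧ k = 3) := by
  have hpos : 0 < 2 ^ k - 2 ^ j := by
    have : 2 ^ j < 2 ^ k := Nat.pow_lt_pow_right (by norm_num) hjlt
    omega
  have hle : r ≤ 2 ^ k - 2 ^ j := Nat.le_of_dvd hpos hrdvd
  have hle7 : r ≤ 7 := by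
    have : 2 ^ k ≤ 2 ^ 3 := Nat.pow_le_pow_right (by norm_num) hk3
    have : 1 ≤ 2 ^ j := Nat.one_le_two_pow
    omega
  have h2 := hrp.two_le
  interval_cases k <;> interval_cases j <;> interval_cases r <;> revert hrp hrdvd hr2 <;> decide

/-- A 2-subgroup `Q` of order `2^k`, `k ≤ 3`: an element of `N(Q)` of odd order centralizes `Q`
unless `3 ∣ |G|` and `4 ∣ |Q|`, or `7 ∣ |G|` and `8 ∣ |Q|`. -/
theorem frobHyp_small {G : Type*} [Group G] [Finite G]
    (h12 : ¬ 12 ∣ Nat.card G) (h16 : ¬ 16 ∣ Nat.card G) (h56 : ¬ 56 ∣ Nat.card G) :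
    Cfsg.Agent.Helper21.FrobHyp 2 G := by
  intro Q hQ g hg hcop
  haveI : Fact (Nat.Prime 2) := ⟨Nat.prime_two⟩
  obtain ⟨k, hk⟩ := (IsPGroup.iff_card).mp hQ
  have hQdvd : 2 ^ k ∣ Nat.card G := hk ▸ Subgroup.card_subgroup_dvd_card Q
  have hk3 : k ≤ 3 := by
    by_contra hk4
    push Not at hk4
    exact h16 (dvd_trans (pow_dvd_pow 2 hk4) hQdvd)
  set f := Q.normalizerMonoidHom with hf
  set gN : Subgroup.normalizer (Q : Set G) := ⟨g, hg⟩ with hgN
  by_cases hφ : f gN = 1
  · have : gN ∈ f.ker := hφ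
    rw [hf, Subgroup.normalizerMonoidHom_ker] at this
    exact this
  exfalso
  set φ := f gN with hφdef
  have hordg : orderOf gN = orderOf g := by
    have := Subgroup.orderOf_coe gN
    simpa [hgN] using this.symm
  have hd : orderOf φ ∣ orderOf g := hordg ▸ orderOf_map_dvd f gN
  have hgn : orderOf g ∣ Nat.card G := orderOf_dvd_natCard g
  have hd1 : orderOf φ ≠ 1 := by
    intro h1
    exact hφ (orderOf_eq_one_iff.mp h1)
  have hdpos : 0 < orderOf φ := by
    have : orderOf g ≠ 0 := (orderOf_pos g).ne'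
    exact Nat.pos_of_ne_zero (fun h0 => this (by simpa [h0] using hd))
  set r := (orderOf φ).minFac with hr
  have hrp : r.Prime := Nat.minFac_prime hd1
  have hrd : r ∣ orderOf φ := Nat.minFac_dvd _
  have hrn : r ∣ Nat.card G := dvd_trans hrd (dvd_trans hd hgn)
  have hr2 : r ≠ 2 := by
    intro h2
    have : 2 ∣ orderOf g := h2 ▸ dvd_trans hrd hd
    have := Nat.Coprime.eq_one_of_dvd hcop.symm this
    omega
  set ψ := φ ^ (orderOf φ / r) with hψ
  have hψord : orderOf ψ = r := orderOf_pow_orderOf_div hdpos.ne' hrd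
  haveI : Fact r.Prime := ⟨hrp⟩
  have hZ : IsPGroup r (Subgroup.zpowers ψ) := by
    apply IsPGroup.of_card (n := 1)
    rw [Nat.card_zpowers, hψord, pow_one]
  have hmod := hZ.card_modEq_card_fixedPoints (α := Q)
  -- fixed points form a subgroup
  let F : Subgroup Q := MonoidHom.eqLocus ψ.toMonoidHom (MonoidHom.id Q)
  have hFix : (MulAction.fixedPoints (Subgroup.zpowers ψ) Q) = (F : Set Q) := by
    ext q
    simp only [MulAction.mem_fixedPoints, SetLike.mem_coe, F]
    constructor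
    · intro h
      have := h ⟨ψ, Subgroup.mem_zpowers ψ⟩
      exact this
    · intro h ⟨s, hs⟩
      obtain ⟨i, rfl⟩ := Subgroup.mem_zpowers_iff.mp hs
      have h1 : ψ q = q := h
      have h2 : ∀ n : ℕ, (ψ ^ n) q = q := by
        intro n
        induction n with
        | zero => simp
        | succ n ih => rw [pow_succ, MulAut.mul_apply, h1, ih]
      have h3 : ∀ i : ℤ, (ψ ^ i) q = q := by
        intro i
        cases i with
        | ofNat n => simpa using h2 n
        | negSucc n =>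
          rw [zpow_negSucc]
          have := h2 (n + 1)
          rw [MulAut.inv_apply, MulEquiv.symm_apply_eq]
          exact this.symm
      exact h3 i
  have hFcard : Nat.card (MulAction.fixedPoints (Subgroup.zpowers ψ) Q) = Nat.card F := by
    rw [hFix]; rfl
  rw [hFcard, hk] at hmod
  have hFdvd : Nat.card F ∣ 2 ^ k := hk ▸ Subgroup.card_subgroup_dvd_card F
  obtain ⟨j, hjk, hj⟩ := (Nat.dvd_prime_pow Nat.prime_two).mp hFdvd
  rw [hj] at hmod
  have hjk' : j ≠ k := by
    intro hjk'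
    have hFtop : F = ⊤ := by
      apply Subgroup.eq_top_of_card_eq
      rw [hj, hjk', hk]
    have : ψ = 1 := by
      ext q
      have : q ∈ F := hFtop ▸ Subgroup.mem_top q
      have h1 : ψ q = q := this
      simp [h1]
    rw [this, orderOf_one] at hψord
    exact hrp.one_lt.ne hψord
  have hrdvd : r ∣ 2 ^ k - 2 ^ j := (Nat.modEq_iff_dvd' (Nat.pow_le_pow_right (by norm_num) hjk)).mp hmod.symm
  have hr3 : 3 ≤ r := by
    have := hrp.two_le
    omega
  have hcase : (r = 3 ∧ 2 ≤ k) ∨ (r = 7 ∧ k = 3) :=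
    arith r k j hrp hr2 hk3 (lt_of_le_of_ne hjk hjk') hrdvd
  rcases hcase with ⟨h3, hk2⟩ | ⟨h7, hk3'⟩
  · apply h12
    have h4 : 4 ∣ Nat.card G := dvd_trans (show (4:ℕ) ∣ 2 ^ k from pow_dvd_pow 2 hk2) hQdvd
    have h3' : 3 ∣ Nat.card G := h3 ▸ hrn
    exact Nat.Coprime.mul_dvd_of_dvd_of_dvd (by norm_num : Nat.Coprime 4 3) h4 h3'
  · apply h56
    have h8 : 8 ∣ Nat.card G := by simpa [hk3'] using hQdvd
    have h7' : 7 ∣ Nat.card G := h7 ▸ hrn
    exact Nat.Coprime.mul_dvd_of_dvd_of_dvd (by norm_num : Nat.Coprime 8 7) h8 h7'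

/-- A non-abelian finite simple group of even order has order divisible by 12, 16 or 56. -/
theorem result {G : Type*} [Group G] [Finite G] [IsSimpleGroup G]
    (hG : ¬ IsMulCommutative G) (h2 : Even (Nat.card G)) :
    12 ∣ Nat.card G ∨ 16 ∣ Nat.card G ∨ 56 ∣ Nat.card G := by
  by_contra hcon
  push Not at hcon
  obtain ⟨h12, h16, h56⟩ := hcon
  haveI : Fact (Nat.Prime 2) := ⟨Nat.prime_two⟩
  have hF := frobHyp_small h12 h16 h56
  obtain ⟨P⟩ : Nonempty (Sylow 2 G) := inferInstance
  obtain ⟨X, hXn, hXc⟩ := Cfsg.Agent.Helper21.frob_exists_normal_complement hF P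
  have hcard := hXc.card_mul_card
  rcases hXn.eq_bot_or_eq_top with hX | hX
  · -- P = ⊤, G is a 2-group
    have hP : Nat.card (P : Subgroup G) = Nat.card G := by
      rw [hX, Subgroup.card_bot, one_mul] at hcard
      exact hcard
    have hPtop : (P : Subgroup G) = ⊤ := Subgroup.eq_top_of_card_eq _ hP
    have hGp : IsPGroup 2 G := by
      have := P.isPGroup'
      rw [hPtop] at this
      exact IsPGroup.of_equiv this Subgroup.topEquiv
    haveI : Group.IsNilpotent G := hGp.isNilpotent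
    have hsolv : Group.IsSolvable G := inferInstance
    exact hG ⟨⟨IsSimpleGroup.comm_iff_isSolvable.mpr hsolv⟩⟩
  · -- P = ⊥, contradiction with even order
    have hP : Nat.card (P : Subgroup G) = 1 := by
      rw [hX, Subgroup.card_top] at hcard
      have hpos : 0 < Nat.card G := Nat.card_pos
      nlinarith [hcard]
    have h2' : 2 ∣ Nat.card G := even_iff_two_dvd.mp h2
    have := P.card_eq_multiplicity
    have hdvd : 2 ∣ Nat.card (P : Subgroup G) := by
      have hne : Nat.card G ≠ 0 := Nat.card_pos.ne'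
      have h1 : 1 ≤ (Nat.card G).factorization 2 :=
        (Nat.Prime.factorization_pos_of_dvd Nat.prime_two hne h2')
      rw [this]
      exact dvd_pow_self 2 (by omega)
    rw [hP] at hdvd
    omega

end Cfsg.Agent.S0499
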