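import Cfsg.Statements.S0493
import Mathlib
import Cfsg.Agent.S0499
import Cfsg.Agent.Helper1.Burnside
set_option autoImplicit false
open Cfsg
namespace Cfsg.Agent.S0493

theorem small_orders (n : ℕ) (h0 : 0 < n) (hn : n ≤ 100) :
    n = 60 ∨ n = 84 ∨ (Even n ∧ ¬ 12 ∣ n ∧ ¬ 16 ∣ n ∧ ¬ 56 ∣ n) ∨
      ∃ p q a b : ℕ, p.Prime ∧ q.Prime ∧ n = p ^ a * q ^ b := by
  interval_cases n
  · right; right; right; exact ⟨2, 3, 0, 0, by norm_num, by norm_num, by norm_num⟩
  · right; right; right; exact ⟨2, 3, 1, 0, by norm_num, by norm_num, by norm_num⟩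
  · right; right; right; exact ⟨3, 2, 1, 0, by norm_num, by norm_num, by norm_num⟩
  · right; right; right; exact ⟨2, 3, 2, 0, by norm_num, by norm_num, by norm_num⟩
  · right; right; right; exact ⟨5, 2, 1, 0, by norm_num, by norm_num, by norm_num⟩
  · right; right; right; exact ⟨2, 3, 1, 1, by norm_num, by norm_num, by norm_num⟩
  · right; right; right; exact ⟨7, 2, 1, 0, by norm_num, by norm_num, by norm_num⟩
  · right; right; right; exact ⟨2, 3, 3, 0, by norm_num, by norm_num, by norm_num⟩
  · right; right; right; exact ⟨3, 2, 2, 0, by norm_num, by norm_num, by norm_num⟩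
  · right; right; right; exact ⟨2, 5, 1, 1, by norm_num, by norm_num, by norm_num⟩
  · right; right; right; exact ⟨11, 2, 1, 0, by norm_num, by norm_num, by norm_num⟩
  · right; right; right; exact ⟨2, 3, 2, 1, by norm_num, by norm_num, by norm_num⟩
  · right; right; right; exact ⟨13, 2, 1, 0, by norm_num, by norm_num, by norm_num⟩
  · right; right; right; exact ⟨2, 7, 1, 1, by norm_num, by norm_num, by norm_num⟩
  · right; right; right; exact ⟨3, 5, 1, 1, by norm_num, by norm_num, by norm_num⟩
  · right; right; right; exact ⟨2, 3, 4, 0, by norm_num, by norm_num, by norm_num⟩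
  · right; right; right; exact ⟨17, 2, 1, 0, by norm_num, by norm_num, by norm_num⟩
  · right; right; right; exact ⟨2, 3, 1, 2, by norm_num, by norm_num, by norm_num⟩
  · right; right; right; exact ⟨19, 2, 1, 0, by norm_num, by norm_num, by norm_num⟩
  · right; right; right; exact ⟨2, 5, 2, 1, by norm_num, by norm_num, by norm_num⟩
  · right; right; right; exact ⟨3, 7, 1, 1, by norm_num, by norm_num, by norm_num⟩
  · right; right; right; exact ⟨2, 11, 1, 1, by norm_num, by norm_num, by norm_num⟩
  · right; right; right; exact ⟨23, 2, 1, 0, by norm_num, by norm_num, by norm_num⟩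
  · right; right; right; exact ⟨2, 3, 3, 1, by norm_num, by norm_num, by norm_num⟩
  · right; right; right; exact ⟨5, 2, 2, 0, by norm_num, by norm_num, by norm_num⟩
  · right; right; right; exact ⟨2, 13, 1, 1, by norm_num, by norm_num, by norm_num⟩
  · right; right; right; exact ⟨3, 2, 3, 0, by norm_num, by norm_num, by norm_num⟩
  · right; right; right; exact ⟨2, 7, 2, 1, by norm_num, by norm_num, by norm_num⟩
  · right; right; right; exact ⟨29, 2, 1, 0, by norm_num, by norm_num, by norm_num⟩
  · right; right; left; decide
  · right; right; right; exact ⟨31, 2, 1, 0, by norm_num, by norm_num, by norm_num⟩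
  · right; right; right; exact ⟨2, 3, 5, 0, by norm_num, by norm_num, by norm_num⟩
  · right; right; right; exact ⟨3, 11, 1, 1, by norm_num, by norm_num, by norm_num⟩
  · right; right; right; exact ⟨2, 17, 1, 1, by norm_num, by norm_num, by norm_num⟩
  · right; right; right; exact ⟨5, 7, 1, 1, by norm_num, by norm_num, by norm_num⟩
  · right; right; right; exact ⟨2, 3, 2, 2, by norm_num, by norm_num, by norm_num⟩
  · right; right; right; exact ⟨37, 2, 1, 0, by norm_num, by norm_num, by norm_num⟩
  · right; right; right; exact ⟨2, 19, 1, 1, by norm_num, by norm_num, by norm_num⟩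
  · right; right; right; exact ⟨3, 13, 1, 1, by norm_num, by norm_num, by norm_num⟩
  · right; right; right; exact ⟨2, 5, 3, 1, by norm_num, by norm_num, by norm_num⟩
  · right; right; right; exact ⟨41, 2, 1, 0, by norm_num, by norm_num, by norm_num⟩
  · right; right; left; decide
  · right; right; right; exact ⟨43, 2, 1, 0, by norm_num, by norm_num, by norm_num⟩
  · right; right; right; exact ⟨2, 11, 2, 1, by norm_num, by norm_num, by norm_num⟩
  · right; right; right; exact ⟨3, 5, 2, 1, by norm_num, by norm_num, by norm_num⟩
  · right; right; right; exact ⟨2, 23, 1, 1, by norm_num, by norm_num, by norm_num⟩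
  · right; right; right; exact ⟨47, 2, 1, 0, by norm_num, by norm_num, by norm_num⟩
  · right; right; right; exact ⟨2, 3, 4, 1, by norm_num, by norm_num, by norm_num⟩
  · right; right; right; exact ⟨7, 2, 2, 0, by norm_num, by norm_num, by norm_num⟩
  · right; right; right; exact ⟨2, 5, 1, 2, by norm_num, by norm_num, by norm_num⟩
  · right; right; right; exact ⟨3, 17, 1, 1, by norm_num, by norm_num, by norm_num⟩
  · right; right; right; exact ⟨2, 13, 2, 1, by norm_num, by norm_num, by norm_num⟩
  · right; right; right; exact ⟨53, 2, 1, 0, by norm_num, by norm_num, by norm_num⟩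
  · right; right; right; exact ⟨2, 3, 1, 3, by norm_num, by norm_num, by norm_num⟩
  · right; right; right; exact ⟨5, 11, 1, 1, by norm_num, by norm_num, by norm_num⟩
  · right; right; right; exact ⟨2, 7, 3, 1, by norm_num, by norm_num, by norm_num⟩
  · right; right; right; exact ⟨3, 19, 1, 1, by norm_num, by norm_num, by norm_num⟩
  · right; right; right; exact ⟨2, 29, 1, 1, by norm_num, by norm_num, by norm_num⟩
  · right; right; right; exact ⟨59, 2, 1, 0, by norm_num, by norm_num, by norm_num⟩
  · left; rfl
  · right; right; right; exact ⟨61, 2, 1, 0, by norm_num, by norm_num, by norm_num⟩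
  · right; right; right; exact ⟨2, 31, 1, 1, by norm_num, by norm_num, by norm_num⟩
  · right; right; right; exact ⟨3, 7, 2, 1, by norm_num, by norm_num, by norm_num⟩
  · right; right; right; exact ⟨2, 3, 6, 0, by norm_num, by norm_num, by norm_num⟩
  · right; right; right; exact ⟨5, 13, 1, 1, by norm_num, by norm_num, by norm_num⟩
  · right; right; left; decide
  · right; right; right; exact ⟨67, 2, 1, 0, by norm_num, by norm_num, by norm_num⟩
  · right; right; right; exact ⟨2, 17, 2, 1, by norm_num, by norm_num, by norm_num⟩
  · right; right; right; exact ⟨3, 23, 1, 1, by norm_num, by norm_num, by norm_num⟩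
  · right; right; left; decide
  · right; right; right; exact ⟨71, 2, 1, 0, by norm_num, by norm_num, by norm_num⟩
  · right; right; right; exact ⟨2, 3, 3, 2, by norm_num, by norm_num, by norm_num⟩
  · right; right; right; exact ⟨73, 2, 1, 0, by norm_num, by norm_num, by norm_num⟩
  · right; right; right; exact ⟨2, 37, 1, 1, by norm_num, by norm_num, by norm_num⟩
  · right; right; right; exact ⟨3, 5, 1, 2, by norm_num, by norm_num, by norm_num⟩
  · right; right; right; exact ⟨2, 19, 2, 1, by norm_num, by norm_num, by norm_num⟩
  · right; right; right; exact ⟨7, 11, 1, 1, by norm_num, by norm_num, by norm_num⟩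
  · right; right; left; decide
  · right; right; right; exact ⟨79, 2, 1, 0, by norm_num, by norm_num, by norm_num⟩
  · right; right; right; exact ⟨2, 5, 4, 1, by norm_num, by norm_num, by norm_num⟩
  · right; right; right; exact ⟨3, 2, 4, 0, by norm_num, by norm_num, by norm_num⟩
  · right; right; right; exact ⟨2, 41, 1, 1, by norm_num, by norm_num, by norm_num⟩
  · right; right; right; exact ⟨83, 2, 1, 0, by norm_num, by norm_num, by norm_num⟩
  · right; left; rfl
  · right; right; right; exact ⟨5, 17, 1, 1, by norm_num, by norm_num, by norm_num⟩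
  · right; right; right; exact ⟨2, 43, 1, 1, by norm_num, by norm_num, by norm_num⟩
  · right; right; right; exact ⟨3, 29, 1, 1, by norm_num, by norm_num, by norm_num⟩
  · right; right; right; exact ⟨2, 11, 3, 1, by norm_num, by norm_num, by norm_num⟩
  · right; right; right; exact ⟨89, 2, 1, 0, by norm_num, by norm_num, by norm_num⟩
  · right; right; left; decide
  · right; right; right; exact ⟨7, 13, 1, 1, by norm_num, by norm_num, by norm_num⟩
  · right; right; right; exact ⟨2, 23, 2, 1, by norm_num, by norm_num, by norm_num⟩
  · right; right; right; exact ⟨3, 31, 1, 1, by norm_num, by norm_num, by norm_num⟩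
  · right; right; right; exact ⟨2, 47, 1, 1, by norm_num, by norm_num, by norm_num⟩
  · right; right; right; exact ⟨5, 19, 1, 1, by norm_num, by norm_num, by norm_num⟩
  · right; right; right; exact ⟨2, 3, 5, 1, by norm_num, by norm_num, by norm_num⟩
  · right; right; right; exact ⟨97, 2, 1, 0, by norm_num, by norm_num, by norm_num⟩
  · right; right; right; exact ⟨2, 7, 1, 2, by norm_num, by norm_num, by norm_num⟩
  · right; right; right; exact ⟨3, 11, 2, 1, by norm_num, by norm_num, by norm_num⟩
  · right; right; right; exact ⟨2, 5, 2, 2, by norm_num, by norm_num, by norm_num⟩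

/-- A simple group of order 84 does not exist: its Sylow 7-subgroup is normal. -/
theorem not_simple_84 {G : Type*} [Group G] [Finite G] [IsSimpleGroup G]
    (h : Nat.card G = 84) : False := by
  haveI : Fact (Nat.Prime 7) := ⟨by norm_num⟩
  obtain ⟨P⟩ : Nonempty (Sylow 7 G) := inferInstance
  have hP : Nat.card (P : Subgroup G) = 7 := by
    rw [P.card_eq_multiplicity, h]
    have : (84 : ℕ).factorization 7 = 1 := by
      have h84 : (84 : ℕ) = 7 ^ 1 * 12 := by norm_num
      rw [h84, Nat.factorization_mul (by norm_num) (by norm_num), Nat.Prime.factorization_pow (by norm_num)]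
      simp
      apply Nat.factorization_eq_zero_of_not_dvd
      norm_num
    rw [this]; norm_num
  have hidx : (P : Subgroup G).index = 12 := by
    have := (P : Subgroup G).card_mul_index
    rw [hP, h] at this
    omega
  have h1 : Nat.card (Sylow 7 G) ∣ 12 := hidx ▸ P.card_dvd_index
  have h2 : Nat.card (Sylow 7 G) ≡ 1 [MOD 7] := card_sylow_modEq_one 7 G
  have h3 : Nat.card (Sylow 7 G) = 1 := by
    have hle : Nat.card (Sylow 7 G) ≤ 12 := Nat.le_of_dvd (by norm_num) h1
    have hpos : 0 < Nat.card (Sylow 7 G) := Nat.card_pos
    unfold Nat.ModEq at h2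
    interval_cases (Nat.card (Sylow 7 G)) <;> omega
  have hN : (Subgroup.normalizer ((P : Subgroup G) : Set G)).index = 1 := by
    have := P.card_eq_index_normalizer
    rw [h3] at this
    exact this.symm
  have hnorm : (P : Subgroup G).Normal := by
    rw [← Subgroup.normalizer_eq_top_iff]
    exact Subgroup.index_eq_one.mp hN
  rcases hnorm.eq_bot_or_eq_top with hb | ht
  · rw [hb, Subgroup.card_bot] at hP; omega
  · rw [ht, Subgroup.card_top, h] at hP; omega

/-- A finite simple group of order at most 100 that is not cyclic has order 60. -/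
theorem result {G : Type*} [Group G] [Finite G] [IsSimpleGroup G]
    (hG : ¬ IsCyclic G) (h : Nat.card G ≤ 100) : Nat.card G = 60 := by
  have hnc : ¬ IsMulCommutative G := by
    intro hc
    apply hG
    letI : CommGroup G := { ‹Group G› with mul_comm := fun a b => hc.is_comm.comm a b }
    exact IsSimpleGroup.isCyclic
  have hns : ¬ Group.IsSolvable G := by
    intro hs
    exact hnc ⟨⟨IsSimpleGroup.comm_iff_isSolvable.mpr hs⟩⟩
  rcases small_orders (Nat.card G) Nat.card_pos h with h60 | h84 | ⟨he, h12, h16, h56⟩ | ⟨p, q, a, b, hp, hq, hpq⟩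
  · exact h60
  · exact (not_simple_84 h84).elim
  · rcases Cfsg.Agent.S0499.result hnc he with h' | h' | h'
    · exact (h12 h').elim
    · exact (h16 h').elim
    · exact (h56 h').elim
  · exact (hns (Cfsg.Agent.Helper1.isSolvable_of_card_eq_prime_pow_mul_prime_pow p q a b hp hq hpq)).elim

end Cfsg.Agent.S0493
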