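import Cfsg.Statements.S4493
import Mathlib
import Cfsg.Agent.Helper24.Ito

set_option autoImplicit false
open Cfsg

namespace Cfsg.Agent.S4493

/-- Let G be a finite solvable group and p a prime. Then G has a normal abelian Sylow p-subgroup if and only if no irreducible character degree of G is divisible by p. -/
theorem result {G : Type*} [Group G] [Finite G] (hsolv : Group.IsSolvable G) (p : ℕ) (hp : p.Prime) : (∃ P : Subgroup G, P.Normal ∧ (∀ x ∈ P, ∀ y ∈ P, x * y = y * x) ∧ IsPGroup p P ∧ ¬ p ∣ P.index) ↔ ∀ χ : Cfsg.IrrCharacter G, ¬ p ∣ Cfsg.charDegree (χ : G → ℂ) := by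
  haveI : Fact p.Prime := ⟨hp⟩
  constructor
  · rintro ⟨P, hPn, hPab, hPp, hPi⟩ χ hdvd
    obtain ⟨n, ρ, hρ, hχ⟩ := χ.2
    haveI := hρ
    haveI := hPn
    have h1 := Cfsg.Agent.S0169.result ρ P hPab
    rw [Module.finrank_fin_fun] at h1
    rw [← hχ, Cfsg.Agent.Helper25.rep_charDegree] at hdvd
    exact hPi (hdvd.trans h1)
  · intro h
    obtain ⟨P, hPn, hPp, hPi⟩ :=
      Cfsg.Agent.Helper24.exists_normal_sylow_of_pprime_degrees p _ G rfl hsolv h
    haveI := hPn
    exact ⟨P, hPn, Cfsg.Agent.Helper24.abelian_of_normal_pgroup p P hPp h, hPp, hPi⟩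

end Cfsg.Agent.S4493
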