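import Cfsg.Statements.S4337

set_option autoImplicit false
open Cfsg

namespace Cfsg.Agent.S4337

open Equiv

set_option maxRecDepth 100000 in
theorem dec1 : ∀ g1 g2 : Perm (Fin 4), Perm.sign g1 = 1 → Perm.sign g2 = 1 →
    (swap 0 1 * swap 2 3) * (g1 * g2 * g1⁻¹ * g2⁻¹) = (g1 * g2 * g1⁻¹ * g2⁻¹) * (swap 0 1 * swap 2 3) ∧
    (swap 0 2 * swap 1 3) * (g1 * g2 * g1⁻¹ * g2⁻¹) = (g1 * g2 * g1⁻¹ * g2⁻¹) * (swap 0 2 * swap 1 3) := by
  decide

set_option maxRecDepth 100000 in
theorem dec2 : ∀ g1 g2 : Perm (Fin 4),
    (swap 0 1 * swap 2 3) * g1 = g1 * (swap 0 1 * swap 2 3) →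
    (swap 0 2 * swap 1 3) * g1 = g1 * (swap 0 2 * swap 1 3) →
    (swap 0 1 * swap 2 3) * g2 = g2 * (swap 0 1 * swap 2 3) →
    (swap 0 2 * swap 1 3) * g2 = g2 * (swap 0 2 * swap 1 3) →
    g1 * g2 * g1⁻¹ * g2⁻¹ = 1 := by
  decide

theorem s4_solvable : Group.IsSolvable (Perm (Fin 4)) := by
  refine ⟨⟨3, ?_⟩⟩
  have h1 : derivedSeries (Perm (Fin 4)) 1 ≤ alternatingGroup (Fin 4) := by
    rw [derivedSeries_one]
    exact Abelianization.commutator_subset_ker Perm.sign
  have h2 : derivedSeries (Perm (Fin 4)) 2 ≤ Subgroup.centralizer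
      ({swap 0 1 * swap 2 3, swap 0 2 * swap 1 3} : Set (Perm (Fin 4))) := by
    rw [derivedSeries_succ]
    refine (Subgroup.commutator_mono h1 h1).trans ?_
    rw [Subgroup.commutator_le]
    intro g1 hg1 g2 hg2
    have h := dec1 g1 g2 (Perm.mem_alternatingGroup.1 hg1) (Perm.mem_alternatingGroup.1 hg2)
    rw [Subgroup.mem_centralizer_iff, commutatorElement_def]
    intro x hx
    rcases hx with rfl | rfl
    · exact h.1
    · exact h.2
  rw [derivedSeries_succ, eq_bot_iff]
  refine (Subgroup.commutator_mono h2 h2).trans ?_
  rw [Subgroup.commutator_le]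
  intro g1 hg1 g2 hg2
  rw [Subgroup.mem_centralizer_iff] at hg1 hg2
  rw [Subgroup.mem_bot, commutatorElement_def]
  exact dec2 g1 g2 (hg1 _ (Or.inl rfl)) (hg1 _ (Or.inr rfl)) (hg2 _ (Or.inl rfl)) (hg2 _ (Or.inr rfl))

theorem solvable_perm_of_card_le_four (β : Type*) [Fintype β] [DecidableEq β]
    (h : Fintype.card β ≤ 4) : Group.IsSolvable (Perm β) := by
  haveI := s4_solvable
  have key : Nonempty (β ↪ Fin 4) := Function.Embedding.nonempty_of_card_le (by simpa using h)
  exact Group.isSolvable_of_isSolvable_injective (Equiv.Perm.viaEmbeddingHom_injective key.some)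

theorem solvable_closure_of_support {α : Type*} [Fintype α] [DecidableEq α] (S : Set (Perm α))
    (T : Finset α) (hT : T.card ≤ 4) (hS : ∀ σ ∈ S, σ.support ⊆ T) :
    Group.IsSolvable (Subgroup.closure S) := by
  haveI : Group.IsSolvable (Perm {x // x ∈ T}) :=
    solvable_perm_of_card_le_four _ (by simpa using hT)
  have hle : Subgroup.closure S ≤ (Perm.ofSubtype : Perm {x // x ∈ T} →* Perm α).range := by
    rw [Subgroup.closure_le]
    intro σ hσ
    have h1 : ∀ x, σ x ∈ T ↔ x ∈ T := by
      intro x
      by_cases hx : σ x = x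
      · rw [hx]
      · have hx' : x ∈ σ.support := Perm.mem_support.2 hx
        have hx'' : σ x ∈ σ.support := Perm.apply_mem_support.2 hx'
        exact ⟨fun _ => hS σ hσ hx', fun _ => hS σ hσ hx''⟩
    have h2 : ∀ x, σ x ≠ x → x ∈ T := fun x hx => hS σ hσ (Perm.mem_support.2 hx)
    exact ⟨Perm.subtypePerm σ h1, Perm.ofSubtype_subtypePerm h1 h2⟩
  haveI : Group.IsSolvable (Perm.ofSubtype : Perm {x // x ∈ T} →* Perm α).range :=
    Group.isSolvable_of_surjective (MonoidHom.rangeRestrict_surjective _)
  exact Group.isSolvable_of_isSolvable_injective (Subgroup.inclusion_injective hle)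

theorem solvable_closure_insert {G : Type*} [Group G] (a : G) (S : Set G)
    (hcomm : ∀ s ∈ S, a * s = s * a) (hS : Group.IsSolvable (Subgroup.closure S)) :
    Group.IsSolvable (Subgroup.closure (insert a S)) := by
  have h1 : Subgroup.closure S ≤ Subgroup.centralizer ({a} : Set G) := by
    rw [Subgroup.closure_le]
    intro s hs
    rw [SetLike.mem_coe, Subgroup.mem_centralizer_iff]
    intro x hx
    rw [Set.mem_singleton_iff] at hx
    subst hx
    exact hcomm s hs
  have comm : ∀ (z : Subgroup.zpowers a) (h : Subgroup.closure S),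
      Commute ((Subgroup.zpowers a).subtype z) ((Subgroup.closure S).subtype h) := by
    rintro ⟨z, hz⟩ ⟨h, hh⟩
    obtain ⟨k, rfl⟩ := Subgroup.mem_zpowers_iff.1 hz
    have h3 : Commute a h := (Subgroup.mem_centralizer_iff.1 (h1 hh)) a rfl
    exact h3.zpow_left k
  haveI : Group.IsSolvable (Subgroup.zpowers a) :=
    Group.isSolvable_of_comm (isMulCommutative_iff.1 inferInstance)
  have hle : Subgroup.closure (insert a S) ≤
      (MonoidHom.noncommCoprod (Subgroup.zpowers a).subtype (Subgroup.closure S).subtype comm).range := by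
    rw [MonoidHom.noncommCoprod_range, Subgroup.range_subtype, Subgroup.range_subtype,
      Subgroup.closure_le]
    intro x hx
    rcases hx with rfl | hx
    · exact Subgroup.mem_sup_left (Subgroup.mem_zpowers _)
    · exact Subgroup.mem_sup_right (Subgroup.subset_closure hx)
  haveI : Group.IsSolvable
      (MonoidHom.noncommCoprod (Subgroup.zpowers a).subtype (Subgroup.closure S).subtype comm).range :=
    Group.isSolvable_of_surjective (MonoidHom.rangeRestrict_surjective _)
  exact Group.isSolvable_of_isSolvable_injective (Subgroup.inclusion_injective hle)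

theorem card_union_le_three {α : Type*} [DecidableEq α] (A B : Finset α) (hA : A.card = 2)
    (hB : B.card = 2) (h : ¬ Disjoint A B) : (A ∪ B).card ≤ 3 := by
  have h1 := Finset.card_union_add_card_inter A B
  have h2 : 1 ≤ (A ∩ B).card := Finset.card_pos.2 (Finset.not_disjoint_iff_nonempty_inter.1 h)
  omega

theorem card_union_le_four {α : Type*} [DecidableEq α] (A B : Finset α) (hA : A.card ≤ 3)
    (hB : B.card = 2) (h : ¬ Disjoint A B) : (A ∪ B).card ≤ 4 := by
  have h1 := Finset.card_union_add_card_inter A B
  have h2 : 1 ≤ (A ∩ B).card := Finset.card_pos.2 (Finset.not_disjoint_iff_nonempty_inter.1 h)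
  omega

theorem comm_of_disjoint {α : Type*} [Fintype α] [DecidableEq α] (a b : Perm α)
    (h : Disjoint a.support b.support) : a * b = b * a :=
  (Perm.disjoint_iff_disjoint_support.2 h).commute.eq

theorem three_swaps {α : Type*} [Fintype α] [DecidableEq α] (a b c : Perm α)
    (ha : a.support.card = 2) (hb : b.support.card = 2) (hc : c.support.card = 2) :
    Group.IsSolvable (Subgroup.closure ({a, b, c} : Set (Perm α))) := by
  have two : ∀ (u v : Perm α), u.support.card = 2 → v.support.card = 2 →
      Group.IsSolvable (Subgroup.closure ({u, v} : Set (Perm α))) := by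
    intro u v hu hv
    refine solvable_closure_of_support _ (u.support ∪ v.support) ?_ ?_
    · have := Finset.card_union_le u.support v.support
      omega
    · rintro s (rfl | rfl)
      · exact Finset.subset_union_left
      · exact Finset.subset_union_right
  by_cases h1 : Disjoint a.support (b.support ∪ c.support)
  · rw [Finset.disjoint_union_right] at h1
    refine solvable_closure_insert a {b, c} ?_ (two b c hb hc)
    rintro s (rfl | rfl)
    · exact comm_of_disjoint _ _ h1.1
    · exact comm_of_disjoint _ _ h1.2
  by_cases h2 : Disjoint b.support (a.support ∪ c.support)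
  · rw [Finset.disjoint_union_right] at h2
    have h := solvable_closure_insert b {a, c} (by
      rintro s (rfl | rfl)
      · exact comm_of_disjoint _ _ h2.1
      · exact comm_of_disjoint _ _ h2.2) (two a c ha hc)
    rw [show ({a, b, c} : Set (Perm α)) = insert b {a, c} from Set.insert_comm a b {c}]
    exact h
  by_cases h3 : Disjoint c.support (a.support ∪ b.support)
  · rw [Finset.disjoint_union_right] at h3
    have h := solvable_closure_insert c {a, b} (by
      rintro s (rfl | rfl)
      · exact comm_of_disjoint _ _ h3.1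
      · exact comm_of_disjoint _ _ h3.2) (two a b ha hb)
    have hset : ({a, b, c} : Set (Perm α)) = insert c {a, b} := by
      ext x
      simp only [Set.mem_insert_iff, Set.mem_singleton_iff]
      tauto
    rw [hset]
    exact h
  · refine solvable_closure_of_support _ (a.support ∪ b.support ∪ c.support) ?_ ?_
    · by_cases hAB : Disjoint a.support b.support
      · have hAC : ¬ Disjoint a.support c.support := by
          intro h
          exact h1 (Finset.disjoint_union_right.2 ⟨hAB, h⟩)
        have hBC : ¬ Disjoint (a.support ∪ c.support) b.support := by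
          intro h
          exact h2 h.symm
        have h4 := card_union_le_three _ _ ha hc hAC
        have h5 := card_union_le_four _ _ h4 hb hBC
        rw [Finset.union_right_comm]
        exact h5
      · have h4 := card_union_le_three _ _ ha hb hAB
        have hC : ¬ Disjoint (a.support ∪ b.support) c.support := by
          intro h
          exact h3 h.symm
        exact card_union_le_four _ _ h4 hc hC
    · rintro s (rfl | rfl | rfl)
      · exact Finset.subset_union_left.trans Finset.subset_union_left
      · exact Finset.subset_union_right.trans Finset.subset_union_left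
      · exact Finset.subset_union_right

/-- In a finite symmetric group, any three transpositions generate a solvable subgroup. -/
theorem result (n : ℕ) (a b c : Equiv.Perm (Fin n))
    (ha : a.IsSwap) (hb : b.IsSwap) (hc : c.IsSwap) :
    Group.IsSolvable (Subgroup.closure ({a, b, c} : Set (Equiv.Perm (Fin n)))) := by
  exact three_swaps a b c (Equiv.Perm.card_support_eq_two.2 ha) (Equiv.Perm.card_support_eq_two.2 hb)
    (Equiv.Perm.card_support_eq_two.2 hc)

end Cfsg.Agent.S4337
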