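import Cfsg.Statements.S0065

set_option autoImplicit false
open Cfsg

namespace Cfsg.Agent.S0065

theorem aux {G : Type*} [Group G] (N : Subgroup G) [N.Normal] :
    ∀ i : ℕ, N ⊓ Subgroup.upperCentralSeries G i ≠ ⊥ → N ⊓ Subgroup.center G ≠ ⊥ := by
  intro i
  induction i with
  | zero =>
    intro h
    exact absurd (by rw [Subgroup.upperCentralSeries_zero, inf_bot_eq]) h
  | succ i ih =>
    intro h
    by_cases hi : N ⊓ Subgroup.upperCentralSeries G i = ⊥
    · obtain ⟨x, hx1⟩ := (Subgroup.ne_bot_iff_exists_ne_one).mp h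
      have hx' := Subgroup.mem_inf.mp x.2
      have hxN : (x : G) ∈ N := hx'.1
      have hxZ : (x : G) ∈ Subgroup.upperCentralSeries G (i + 1) := hx'.2
      have hcen : (x : G) ∈ Subgroup.center G := by
        rw [Subgroup.mem_center_iff]
        intro g
        have h1 : (x : G) * g * (x : G)⁻¹ * g⁻¹ ∈ Subgroup.upperCentralSeries G i :=
          (Subgroup.mem_upperCentralSeries_succ_iff).mp hxZ g
        have h2 : (x : G) * g * (x : G)⁻¹ * g⁻¹ ∈ N := by
          have h3 : g * (x : G)⁻¹ * g⁻¹ ∈ N :=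
            Subgroup.Normal.conj_mem inferInstance _ (N.inv_mem hxN) g
          have h4 : (x : G) * g * (x : G)⁻¹ * g⁻¹ = (x : G) * (g * (x : G)⁻¹ * g⁻¹) := by group
          rw [h4]
          exact N.mul_mem hxN h3
        have h5 : (x : G) * g * (x : G)⁻¹ * g⁻¹ ∈ N ⊓ Subgroup.upperCentralSeries G i :=
          Subgroup.mem_inf.mpr ⟨h2, h1⟩
        rw [hi, Subgroup.mem_bot] at h5
        have h6 : (x : G) * g = g * (x : G) := by
          have : (x : G) * g = ((x : G) * g * (x : G)⁻¹ * g⁻¹) * (g * (x : G)) := by group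
          rw [this, h5, one_mul]
        exact h6.symm
      intro hbot
      have : (x : G) ∈ N ⊓ Subgroup.center G := Subgroup.mem_inf.mpr ⟨hxN, hcen⟩
      rw [hbot, Subgroup.mem_bot] at this
      exact hx1 (Subtype.ext this)
    · exact ih hi

/-- A nontrivial normal subgroup of a nilpotent group intersects the centre nontrivially. -/
theorem result {G : Type*} [Group G] [Finite G] [Group.IsNilpotent G]
    (N : Subgroup G) [N.Normal] (hN : N ≠ ⊥) : N ⊓ Subgroup.center G ≠ ⊥ := by
  apply aux N (Group.nilpotencyClass G)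
  rw [Subgroup.upperCentralSeries_nilpotencyClass, inf_top_eq]
  exact hN

end Cfsg.Agent.S0065
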