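import Cfsg.Statements.S4400
import Cfsg.Agent.Helper17.SecRank4

set_option autoImplicit false
open Cfsg

namespace Cfsg.Agent.S4400

open Cfsg.Agent.Helper17.SecRank4

/-- Let S be a finite 2-group of sectional 2-rank at most 4, and let P and Q be normal non-abelian subgroups of S whose centres have order 2 and are different. Then P and Q commute elementwise and intersect trivially, and PQ contains its own centralizer in S. -/
theorem result {S : Type*} [Group S] [Finite S] (h2 : IsPGroup 2 S) (hr : Cfsg.SectionalPRankLE 2 4 S)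
    (P Q : Subgroup S) [P.Normal] [Q.Normal] (hP : ¬ IsMulCommutative ↥P) (hQ : ¬ IsMulCommutative ↥Q)
    (hZP : Nat.card ↥(Subgroup.center ↥P) = 2) (hZQ : Nat.card ↥(Subgroup.center ↥Q) = 2)
    (hne : (Subgroup.center ↥P).map P.subtype ≠ (Subgroup.center ↥Q).map Q.subtype) :
    ⁅P, Q⁆ = ⊥ ∧ P ⊓ Q = ⊥ ∧ Subgroup.centralizer ((P ⊔ Q : Subgroup S) : Set S) ≤ P ⊔ Q := by
  classical
  haveI : Fact (Nat.Prime 2) := ⟨Nat.prime_two⟩
  haveI hnil : Group.IsNilpotent S := h2.isNilpotent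
  obtain ⟨zP, hzP, hzP1, hzPc, hzPu⟩ := center_two P hZP
  obtain ⟨zQ, hzQ, hzQ1, hzQc, hzQu⟩ := center_two Q hZQ
  -- central elements of S in P are 1 or zP
  have hcenP : ∀ w ∈ P, w ∈ Subgroup.center S → w = 1 ∨ w = zP := by
    intro w hw hwc
    exact hzPu w hw (fun y _ => (Subgroup.mem_center_iff.mp hwc y))
  have hcenQ : ∀ w ∈ Q, w ∈ Subgroup.center S → w = 1 ∨ w = zQ := by
    intro w hw hwc
    exact hzQu w hw (fun y _ => (Subgroup.mem_center_iff.mp hwc y))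
  have hzne : zP ≠ zQ := by
    intro h
    apply hne
    ext x
    rw [mem_map_center, mem_map_center]
    constructor
    · rintro ⟨hx, hc⟩
      rcases hzPu x hx hc with rfl | rfl
      · exact ⟨Q.one_mem, fun y _ => by simp⟩
      · rw [h]; exact ⟨hzQ, hzQc⟩
    · rintro ⟨hx, hc⟩
      rcases hzQu x hx hc with rfl | rfl
      · exact ⟨P.one_mem, fun y _ => by simp⟩
      · rw [← h]; exact ⟨hzP, hzPc⟩
  -- P ⊓ Q = ⊥
  have hPQ : P ⊓ Q = ⊥ := by
    by_contra hbot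
    have h1 := Cfsg.Agent.S0065.result (P ⊓ Q) hbot
    obtain ⟨⟨w, hw⟩, hw1⟩ := (Subgroup.ne_bot_iff_exists_ne_one).mp h1
    have hw' := Subgroup.mem_inf.mp hw
    have hw'' := Subgroup.mem_inf.mp hw'.1
    have hwne : w ≠ 1 := fun h => hw1 (Subtype.ext h)
    have e1 : w = zP := (hcenP w hw''.1 hw'.2).resolve_left hwne
    have e2 : w = zQ := (hcenQ w hw''.2 hw'.2).resolve_left hwne
    exact hzne (e1.symm.trans e2)
  have hcomm0 : ⁅P, Q⁆ = ⊥ := by
    rw [eq_bot_iff, ← hPQ]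
    exact Subgroup.commutator_le_inf P Q
  refine ⟨hcomm0, hPQ, ?_⟩
  have hPcQ : ∀ p ∈ P, ∀ q ∈ Q, p * q = q * p := by
    intro p hp q hq
    have h1 := Subgroup.commutator_eq_bot_iff_le_centralizer.mp hcomm0
    exact ((Subgroup.mem_centralizer_iff.mp (h1 hp)) q hq).symm
  -- main part
  intro c₀ hc₀
  by_contra hc₀PQ
  -- find c
  have hex : ∃ k : ℕ, c₀ ^ (2 ^ k) ∈ P ⊔ Q := by
    obtain ⟨k, hk⟩ := (IsPGroup.iff_orderOf.mp h2) c₀
    exact ⟨k, by rw [← hk, pow_orderOf_eq_one]; exact Subgroup.one_mem _⟩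
  have hk0 : Nat.find hex ≠ 0 := by
    intro h
    have := Nat.find_spec hex
    rw [h, pow_zero, pow_one] at this
    exact hc₀PQ this
  obtain ⟨k, hk⟩ := Nat.exists_eq_succ_of_ne_zero hk0
  have hcn : c₀ ^ (2 ^ k) ∉ P ⊔ Q := Nat.find_min hex (by omega)
  have hc2 : (c₀ ^ (2 ^ k)) ^ 2 ∈ P ⊔ Q := by
    have := Nat.find_spec hex
    rw [hk, Nat.succ_eq_add_one, pow_succ, pow_mul] at this
    exact this
  have hcC : c₀ ^ (2 ^ k) ∈ Subgroup.centralizer ((P ⊔ Q : Subgroup S) : Set S) :=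
    Subgroup.pow_mem _ hc₀ _
  obtain ⟨c, hc⟩ : ∃ c, c = c₀ ^ (2 ^ k) := ⟨_, rfl⟩
  rw [← hc] at hcn hc2 hcC
  have hcP : ∀ p ∈ P, p * c = c * p := fun p hp =>
    (Subgroup.mem_centralizer_iff.mp hcC) p (Subgroup.mem_sup_left hp)
  have hcQ : ∀ q ∈ Q, q * c = c * q := fun q hq =>
    (Subgroup.mem_centralizer_iff.mp hcC) q (Subgroup.mem_sup_right hq)
  -- Frattini subgroups
  obtain ⟨ΦP, hΦP⟩ : ∃ A : Subgroup S, A = (frattini ↥P).map P.subtype := ⟨_, rfl⟩
  obtain ⟨ΦQ, hΦQ⟩ : ∃ A : Subgroup S, A = (frattini ↥Q).map Q.subtype := ⟨_, rfl⟩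
  haveI hΦPn : ΦP.Normal := by rw [hΦP]; infer_instance
  haveI hΦQn : ΦQ.Normal := by rw [hΦQ]; infer_instance
  have hΦPle : ΦP ≤ P := by rw [hΦP]; exact Subgroup.map_subtype_le _
  have hΦQle : ΦQ ≤ Q := by rw [hΦQ]; exact Subgroup.map_subtype_le _
  have h2P : IsPGroup 2 ↥P := h2.to_subgroup P
  have h2Q : IsPGroup 2 ↥Q := h2.to_subgroup Q
  have hPprops := Cfsg.Agent.S4208.frattini_quot_props h2P
  have hQprops := Cfsg.Agent.S4208.frattini_quot_props h2Q
  have hPcomm : ∀ a ∈ P, ∀ b ∈ P, a * b * a⁻¹ * b⁻¹ ∈ ΦP := by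
    intro a ha b hb
    rw [hΦP]
    exact ⟨_, hPprops.1 ⟨a, ha⟩ ⟨b, hb⟩, rfl⟩
  have hPsq : ∀ a ∈ P, a ^ 2 ∈ ΦP := by
    intro a ha
    rw [hΦP]
    exact ⟨_, hPprops.2 ⟨a, ha⟩, rfl⟩
  have hQcomm : ∀ a ∈ Q, ∀ b ∈ Q, a * b * a⁻¹ * b⁻¹ ∈ ΦQ := by
    intro a ha b hb
    rw [hΦQ]
    exact ⟨_, hQprops.1 ⟨a, ha⟩ ⟨b, hb⟩, rfl⟩
  have hQsq : ∀ a ∈ Q, a ^ 2 ∈ ΦQ := by
    intro a ha
    rw [hΦQ]
    exact ⟨_, hQprops.2 ⟨a, ha⟩, rfl⟩
  -- the central involutions lie in the Frattini subgroups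
  have hzPΦ : zP ∈ ΦP := by
    by_cases hbot : ΦP = ⊥
    · exfalso
      apply hP
      refine ⟨⟨fun a b => ?_⟩⟩
      have h1 := hPcomm a a.2 b b.2
      rw [hbot, Subgroup.mem_bot] at h1
      apply Subtype.ext
      show (a : S) * b = b * a
      have e : (a : S) * b = ((a : S) * b * (a : S)⁻¹ * (b : S)⁻¹) * (b * a) := by group
      rw [e, h1, one_mul]
    · have h1 := Cfsg.Agent.S0065.result ΦP hbot
      obtain ⟨⟨w, hw⟩, hw1⟩ := (Subgroup.ne_bot_iff_exists_ne_one).mp h1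
      have hw' := Subgroup.mem_inf.mp hw
      have hwne : w ≠ 1 := fun h => hw1 (Subtype.ext h)
      have e1 : w = zP := (hcenP w (hΦPle hw'.1) hw'.2).resolve_left hwne
      rw [← e1]
      exact hw'.1
  have hzQΦ : zQ ∈ ΦQ := by
    by_cases hbot : ΦQ = ⊥
    · exfalso
      apply hQ
      refine ⟨⟨fun a b => ?_⟩⟩
      have h1 := hQcomm a a.2 b b.2
      rw [hbot, Subgroup.mem_bot] at h1
      apply Subtype.ext
      show (a : S) * b = b * a
      have e : (a : S) * b = ((a : S) * b * (a : S)⁻¹ * (b : S)⁻¹) * (b * a) := by group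
      rw [e, h1, one_mul]
    · have h1 := Cfsg.Agent.S0065.result ΦQ hbot
      obtain ⟨⟨w, hw⟩, hw1⟩ := (Subgroup.ne_bot_iff_exists_ne_one).mp h1
      have hw' := Subgroup.mem_inf.mp hw
      have hwne : w ≠ 1 := fun h => hw1 (Subtype.ext h)
      have e1 : w = zQ := (hcenQ w (hΦQle hw'.1) hw'.2).resolve_left hwne
      rw [← e1]
      exact hw'.1
  -- indices
  have hiP : 4 ≤ ΦP.relIndex P := by
    have h1 := four_le_index_frattini h2P hP
    have e : ΦP.relIndex P = (frattini ↥P).index := by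
      rw [hΦP, Subgroup.relIndex]
      congr 1
      exact Subgroup.comap_map_eq_self_of_injective P.subtype_injective _
    rw [e]; exact h1
  have hiQ : 4 ≤ ΦQ.relIndex Q := by
    have h1 := four_le_index_frattini h2Q hQ
    have e : ΦQ.relIndex Q = (frattini ↥Q).index := by
      rw [hΦQ, Subgroup.relIndex]
      congr 1
      exact Subgroup.comap_map_eq_self_of_injective Q.subtype_injective _
    rw [e]; exact h1
  -- N and H
  obtain ⟨N, hN⟩ : ∃ N : Subgroup S, N = ΦP ⊔ ΦQ := ⟨_, rfl⟩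
  obtain ⟨H, hH⟩ : ∃ H : Subgroup S, H = (P ⊔ Q) ⊔ Subgroup.zpowers c := ⟨_, rfl⟩
  haveI hNn : N.Normal := by rw [hN]; infer_instance
  have hΦPN : ΦP ≤ N := by rw [hN]; exact le_sup_left
  have hΦQN : ΦQ ≤ N := by rw [hN]; exact le_sup_right
  -- c ^ 2 ∈ N
  have hc2N : c ^ 2 ∈ N := by
    have h1 : c ^ 2 ∈ ((P ⊔ Q : Subgroup S) : Set S) := hc2
    rw [Subgroup.normal_mul] at h1
    obtain ⟨p₀, hp₀, q₀, hq₀, hpq⟩ := Set.mem_mul.mp h1
    have hp₀ : p₀ ∈ P := hp₀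
    have hq₀ : q₀ ∈ Q := hq₀
    have hpq : p₀ * q₀ = c ^ 2 := hpq
    have hp₀c : ∀ y ∈ P, y * p₀ = p₀ * y := by
      intro y hy
      have h3 : y * c ^ 2 = c ^ 2 * y := by
        rw [pow_two, ← mul_assoc, hcP y hy, mul_assoc, hcP y hy, mul_assoc]
      rw [← hpq] at h3
      have h4 : y * q₀ = q₀ * y := hPcQ y hy q₀ hq₀
      have h5 : y * p₀ * q₀ = p₀ * y * q₀ := by
        rw [mul_assoc, h3, mul_assoc, mul_assoc, h4]
      exact mul_right_cancel h5
    have hq₀c : ∀ y ∈ Q, y * q₀ = q₀ * y := by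
      intro y hy
      have h3 : y * c ^ 2 = c ^ 2 * y := by
        rw [pow_two, ← mul_assoc, hcQ y hy, mul_assoc, hcQ y hy, mul_assoc]
      rw [← hpq] at h3
      have h4 : p₀ * y = y * p₀ := hPcQ p₀ hp₀ y hy
      have h5 : p₀ * (y * q₀) = p₀ * (q₀ * y) := by
        rw [← mul_assoc, h4, mul_assoc, h3, mul_assoc]
      exact mul_left_cancel h5
    rw [← hpq]
    refine N.mul_mem (hΦPN ?_) (hΦQN ?_)
    · rcases hzPu p₀ hp₀ hp₀c with h | h
      · rw [h]; exact ΦP.one_mem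
      · rw [h]; exact hzPΦ
    · rcases hzQu q₀ hq₀ hq₀c with h | h
      · rw [h]; exact ΦQ.one_mem
      · rw [h]; exact hzQΦ
  -- decomposition of elements of H
  have hdec : ∀ h ∈ H, ∃ p ∈ P, ∃ q ∈ Q, ∃ i : ℤ, h = p * q * c ^ i := by
    intro h hh
    rw [hH] at hh
    have h1 : h ∈ (((P ⊔ Q) ⊔ Subgroup.zpowers c : Subgroup S) : Set S) := hh
    rw [Subgroup.normal_mul] at h1
    obtain ⟨u, hu, w, hw, rfl⟩ := Set.mem_mul.mp h1
    have hu : u ∈ ((P ⊔ Q : Subgroup S) : Set S) := hu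
    rw [Subgroup.normal_mul] at hu
    obtain ⟨p, hp, q, hq, rfl⟩ := Set.mem_mul.mp hu
    obtain ⟨i, rfl⟩ := Subgroup.mem_zpowers_iff.mp hw
    exact ⟨p, hp, q, hq, i, rfl⟩
  -- work in the quotient S ⧸ N
  have hπ1 : ∀ x : S, x ∈ N → (QuotientGroup.mk' N x) = 1 := fun x hx =>
    (QuotientGroup.eq_one_iff x).mpr hx
  have hπP : ∀ a ∈ P, ∀ b ∈ P, Commute (QuotientGroup.mk' N a) (QuotientGroup.mk' N b) := by
    intro a ha b hb
    have h1 := hπ1 _ (hΦPN (hPcomm a ha b hb))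
    rw [map_mul, map_mul, map_mul, map_inv, map_inv] at h1
    show _ * _ = _ * _
    have e : QuotientGroup.mk' N a * QuotientGroup.mk' N b =
        (QuotientGroup.mk' N a * QuotientGroup.mk' N b * (QuotientGroup.mk' N a)⁻¹ *
          (QuotientGroup.mk' N b)⁻¹) * (QuotientGroup.mk' N b * QuotientGroup.mk' N a) := by group
    rw [e, h1, one_mul]
  have hπQ : ∀ a ∈ Q, ∀ b ∈ Q, Commute (QuotientGroup.mk' N a) (QuotientGroup.mk' N b) := by
    intro a ha b hb
    have h1 := hπ1 _ (hΦQN (hQcomm a ha b hb))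
    rw [map_mul, map_mul, map_mul, map_inv, map_inv] at h1
    show _ * _ = _ * _
    have e : QuotientGroup.mk' N a * QuotientGroup.mk' N b =
        (QuotientGroup.mk' N a * QuotientGroup.mk' N b * (QuotientGroup.mk' N a)⁻¹ *
          (QuotientGroup.mk' N b)⁻¹) * (QuotientGroup.mk' N b * QuotientGroup.mk' N a) := by group
    rw [e, h1, one_mul]
  have hπPQ : ∀ a ∈ P, ∀ b ∈ Q, Commute (QuotientGroup.mk' N a) (QuotientGroup.mk' N b) := by
    intro a ha b hb
    show _ * _ = _ * _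
    rw [← map_mul, ← map_mul, hPcQ a ha b hb]
  have hπPc : ∀ a ∈ P, ∀ i : ℤ, Commute (QuotientGroup.mk' N a) (QuotientGroup.mk' N (c ^ i)) := by
    intro a ha i
    have h1 : Commute a c := hcP a ha
    have h2 : Commute a (c ^ i) := h1.zpow_right i
    show _ * _ = _ * _
    rw [← map_mul, ← map_mul, h2.eq]
  have hπQc : ∀ a ∈ Q, ∀ i : ℤ, Commute (QuotientGroup.mk' N a) (QuotientGroup.mk' N (c ^ i)) := by
    intro a ha i
    have h1 : Commute a c := hcQ a ha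
    have h2 : Commute a (c ^ i) := h1.zpow_right i
    show _ * _ = _ * _
    rw [← map_mul, ← map_mul, h2.eq]
  have hπcc : ∀ i j : ℤ, Commute (QuotientGroup.mk' N (c ^ i)) (QuotientGroup.mk' N (c ^ j)) := by
    intro i j
    show _ * _ = _ * _
    rw [← map_mul, ← map_mul, zpow_mul_comm]
  have hHcomm : ∀ a ∈ H, ∀ b ∈ H, a * b * a⁻¹ * b⁻¹ ∈ N := by
    intro a ha b hb
    obtain ⟨p, hp, q, hq, i, rfl⟩ := hdec a ha
    obtain ⟨p', hp', q', hq', j, rfl⟩ := hdec b hb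
    rw [← QuotientGroup.eq_one_iff, ← QuotientGroup.mk'_apply]
    have hc1 : Commute (QuotientGroup.mk' N (p * q * c ^ i)) (QuotientGroup.mk' N (p' * q' * c ^ j)) := by
      rw [map_mul, map_mul, map_mul, map_mul]
      have a1 : Commute (QuotientGroup.mk' N p) (QuotientGroup.mk' N p' * QuotientGroup.mk' N q' *
          QuotientGroup.mk' N (c ^ j)) :=
        ((hπP p hp p' hp').mul_right (hπPQ p hp q' hq')).mul_right (hπPc p hp j)
      have a2 : Commute (QuotientGroup.mk' N q) (QuotientGroup.mk' N p' * QuotientGroup.mk' N q' *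
          QuotientGroup.mk' N (c ^ j)) :=
        (((hπPQ p' hp' q hq).symm).mul_right (hπQ q hq q' hq')).mul_right (hπQc q hq j)
      have a3 : Commute (QuotientGroup.mk' N (c ^ i)) (QuotientGroup.mk' N p' * QuotientGroup.mk' N q' *
          QuotientGroup.mk' N (c ^ j)) :=
        (((hπPc p' hp' i).symm).mul_right ((hπQc q' hq' i).symm)).mul_right (hπcc i j)
      exact (a1.mul_left a2).mul_left a3
    rw [map_mul, map_mul, map_mul, map_inv, map_inv, hc1.eq]
    group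
  have hHsq : ∀ a ∈ H, a ^ 2 ∈ N := by
    intro a ha
    obtain ⟨p, hp, q, hq, i, rfl⟩ := hdec a ha
    rw [← QuotientGroup.eq_one_iff, ← QuotientGroup.mk'_apply, map_pow, map_mul, map_mul]
    have c1 : Commute (QuotientGroup.mk' N p * QuotientGroup.mk' N q) (QuotientGroup.mk' N (c ^ i)) :=
      (hπPc p hp i).mul_left (hπQc q hq i)
    rw [c1.mul_pow, (hπPQ p hp q hq).mul_pow, ← map_pow, ← map_pow, ← map_pow,
      hπ1 _ (hΦPN (hPsq p hp)), hπ1 _ (hΦQN (hQsq q hq)), one_mul, one_mul]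
    apply hπ1
    have e : (c ^ i) ^ 2 = (c ^ 2) ^ i := by
      rw [← zpow_natCast, ← zpow_mul, mul_comm, zpow_mul, zpow_natCast]
    rw [e]
    exact N.zpow_mem hc2N i
  have hle := section_le hr H N (fun h _ n hn => hNn.conj_mem n hn h) hHcomm hHsq
  -- index computation
  have hPQH : P ⊔ Q ≤ H := by rw [hH]; exact le_sup_left
  have hcH : c ∈ H := by rw [hH]; exact Subgroup.mem_sup_right (Subgroup.mem_zpowers c)
  have hNPQ : N ≤ P ⊔ Q := by
    rw [hN]
    exact sup_le (hΦPle.trans le_sup_left) (hΦQle.trans le_sup_right)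
  have hN1 : N ≤ P ⊔ ΦQ := by
    rw [hN]
    exact sup_le (hΦPle.trans le_sup_left) le_sup_right
  have h12 : P ⊔ ΦQ ≤ P ⊔ Q := sup_le le_sup_left (hΦQle.trans le_sup_right)
  have e1 := Subgroup.relIndex_mul_relIndex N (P ⊔ Q) H hNPQ hPQH
  have e2 := Subgroup.relIndex_mul_relIndex N (P ⊔ ΦQ) (P ⊔ Q) hN1 h12
  have i1 : 2 ≤ (P ⊔ Q).relIndex H := by
    have h1 : (P ⊔ Q).relIndex H ≠ 1 := by
      intro h
      rw [Subgroup.relIndex_eq_one] at h
      exact hcn (h hcH)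
    have h0 : (P ⊔ Q).relIndex H ≠ 0 := by
      rw [Subgroup.relIndex]
      exact Subgroup.index_ne_zero_of_finite
    omega
  have i2 : (P ⊔ ΦQ).relIndex (P ⊔ Q) = ΦQ.relIndex Q := by
    have h1 : P ⊔ Q = (P ⊔ ΦQ) ⊔ Q := by
      apply le_antisymm
      · exact sup_le (le_sup_left.trans le_sup_left) le_sup_right
      · exact sup_le h12 le_sup_right
    have h3 : (P ⊔ ΦQ) ⊓ Q = ΦQ := by
      apply le_antisymm
      · intro x hx
        obtain ⟨hx1, hx2⟩ := Subgroup.mem_inf.mp hx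
        have hx1' : x ∈ ((P ⊔ ΦQ : Subgroup S) : Set S) := hx1
        rw [Subgroup.normal_mul] at hx1'
        obtain ⟨p, hp, f, hf, rfl⟩ := Set.mem_mul.mp hx1'
        have hp : p ∈ P := hp
        have hf : f ∈ ΦQ := hf
        have hpQ : p ∈ Q := by
          have : p = p * f * f⁻¹ := by group
          rw [this]
          exact Q.mul_mem hx2 (Q.inv_mem (hΦQle hf))
        have hp1 : p ∈ P ⊓ Q := Subgroup.mem_inf.mpr ⟨hp, hpQ⟩
        rw [hPQ, Subgroup.mem_bot] at hp1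
        rw [hp1, one_mul]
        exact hf
      · exact le_inf le_sup_right hΦQle
    rw [h1, Subgroup.relIndex_sup_left, ← Subgroup.inf_relIndex_right, h3]
  have i3 : N.relIndex (P ⊔ ΦQ) = ΦP.relIndex P := by
    have h1 : P ⊔ ΦQ = N ⊔ P := by
      rw [hN]
      apply le_antisymm
      · exact sup_le le_sup_right (le_sup_right.trans le_sup_left)
      · exact sup_le (sup_le (hΦPle.trans le_sup_left) le_sup_right) le_sup_left
    have h3 : N ⊓ P = ΦP := by
      apply le_antisymm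
      · intro x hx
        obtain ⟨hx1, hx2⟩ := Subgroup.mem_inf.mp hx
        rw [hN] at hx1
        have hx1' : x ∈ ((ΦP ⊔ ΦQ : Subgroup S) : Set S) := hx1
        rw [Subgroup.normal_mul] at hx1'
        obtain ⟨f, hf, g, hg, rfl⟩ := Set.mem_mul.mp hx1'
        have hf : f ∈ ΦP := hf
        have hg : g ∈ ΦQ := hg
        have hgP : g ∈ P := by
          have : g = f⁻¹ * (f * g) := by group
          rw [this]
          exact P.mul_mem (P.inv_mem (hΦPle hf)) hx2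
        have hg1 : g ∈ P ⊓ Q := Subgroup.mem_inf.mpr ⟨hgP, hΦQle hg⟩
        rw [hPQ, Subgroup.mem_bot] at hg1
        rw [hg1, mul_one]
        exact hf
      · exact le_inf hΦPN hΦPle
    rw [h1, Subgroup.relIndex_sup_left, ← Subgroup.inf_relIndex_right, h3]
  rw [i2, i3] at e2
  have hbig : 32 ≤ N.relIndex H := by
    rw [← e1, ← e2]
    calc 32 = 4 * 4 * 2 := by norm_num
      _ ≤ ΦP.relIndex P * ΦQ.relIndex Q * (P ⊔ Q).relIndex H :=
        Nat.mul_le_mul (Nat.mul_le_mul hiP hiQ) i1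
  omega

end Cfsg.Agent.S4400
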