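import Cfsg.Statements.S4762
import Mathlib
import Cfsg.Agent.Helper25.CharClass
import Cfsg.Agent.Helper25.CharKer
import Cfsg.Agent.Helper25.CharArith
import Cfsg.Agent.Helper24.Ito
import Cfsg.Agent.Helper2.CentralDefect
import Cfsg.Agent.Helper2.PSolvIto
import Cfsg.Agent.Helper22.FrattiniSq
import Cfsg.Agent.Helper10.PComp
import Cfsg.Agent.Helper7.DetChar
import Cfsg.Agent.S0586
import Cfsg.Agent.S0169

set_option autoImplicit false
open Cfsg

namespace Cfsg.Agent.S4762

open Cfsg.Agent.Helper25 Cfsg.Agent.Helper24 Cfsg.Agent.Helper2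
open scoped commutatorElement

/-- Irreducible characters of a commutative group are linear. -/
theorem deg_one_of_comm {A : Type*} [Group A] [Finite A] (hc : ∀ a b : A, a * b = b * a)
    (χ : IrrCharacter A) : charDegree (χ : A → ℂ) = 1 := by
  obtain ⟨n, ρ, hρ, hχ⟩ := χ.2
  haveI := hρ
  have h1 := Cfsg.Agent.S0169.result ρ (⊤ : Subgroup A) (fun a _ b _ => hc a b)
  rw [Module.finrank_fin_fun, Subgroup.index_top, Nat.dvd_one] at h1
  rw [← hχ, rep_charDegree]
  exact h1

/-- Linear characters separate the elements outside the commutator subgroup from `1`. -/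
theorem exists_linear_ne_one {G : Type*} [Group G] [Finite G] {g : G} (hg : g ∉ commutator G) :
    ∃ lam : IrrCharacter G, (lam : G → ℂ) 1 = 1 ∧ (lam : G → ℂ) g ≠ 1 := by
  by_contra hcon
  push_neg at hcon
  apply hg
  have hsurj : Function.Surjective (QuotientGroup.mk' (commutator G)) :=
    QuotientGroup.mk'_surjective _
  have hcomm : ∀ a b : G ⧸ commutator G, a * b = b * a :=
    fun a b => mul_comm (G := Abelianization G) a b
  have hconj : IsConj (QuotientGroup.mk' (commutator G) g) 1 := by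
    apply isConj_of_irr_eq
    intro ψ
    have h1 : ((irrComp ψ _ hsurj : IrrCharacter G) : G → ℂ) 1 = 1 := by
      rw [irrComp_apply, map_one, irr_one_eq_degree, deg_one_of_comm hcomm ψ, Nat.cast_one]
    have h2 := hcon (irrComp ψ _ hsurj) h1
    rw [irrComp_apply] at h2
    rw [h2, irr_one_eq_degree, deg_one_of_comm hcomm ψ, Nat.cast_one]
  have h3 : QuotientGroup.mk' (commutator G) g = 1 := isConj_one_left.mp hconj
  exact (QuotientGroup.eq_one_iff g).mp h3

theorem norm_sq_sum {G : Type*} [Group G] [Fintype G] (χ : IrrCharacter G) :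
    ∑ g : G, ‖(χ : G → ℂ) g‖ ^ 2 = (Nat.card G : ℝ) := by
  have h := irr_classInner χ χ
  rw [if_pos rfl, classInner] at h
  have h0 : (Nat.card G : ℂ) ≠ 0 := by exact_mod_cast (Nat.card_pos (α := G)).ne'
  have h1 : ∑ g : G, (χ : G → ℂ) g * (starRingEnd ℂ) ((χ : G → ℂ) g) = (Nat.card G : ℂ) := by
    rw [← mul_one (Nat.card G : ℂ), ← h, ← mul_assoc, mul_inv_cancel₀ h0, one_mul]
  have h2 : ((∑ g : G, ‖(χ : G → ℂ) g‖ ^ 2 : ℝ) : ℂ) = (Nat.card G : ℂ) := by
    rw [← h1, Complex.ofReal_sum]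
    refine Finset.sum_congr rfl (fun g _ => ?_)
    rw [Complex.mul_conj, Complex.normSq_eq_norm_sq]
  exact_mod_cast h2

theorem linear_norm {G : Type*} [Group G] [Finite G] (χ : IrrCharacter G)
    (h1 : (χ : G → ℂ) 1 = 1) (g : G) : ‖(χ : G → ℂ) g‖ = 1 := by
  have h2 : ((χ : G → ℂ) g) ^ orderOf g = 1 := by
    have := map_pow (linHom χ h1) g (orderOf g)
    rw [pow_orderOf_eq_one, map_one] at this
    exact this.symm
  exact Complex.norm_eq_one_of_pow_eq_one h2 (orderOf_pos g).ne'

theorem pgroup_case {G : Type*} [Group G] [Finite G] [Group.IsNilpotent G] (p : ℕ) [Fact p.Prime]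
    (hG : IsPGroup p G) (χ₀ : IrrCharacter G) (h0 : p ∣ charDegree (χ₀ : G → ℂ))
    (huniq : ∀ χ : IrrCharacter G, p ∣ charDegree (χ : G → ℂ) → χ = χ₀) :
    p = 2 ∧ IsExtraspecial 2 G := by
  classical
  letI := Fintype.ofFinite G
  have hp : p.Prime := Fact.out
  obtain ⟨n, hn⟩ := IsPGroup.iff_card.mp hG
  have hlin : ∀ χ : IrrCharacter G, χ ≠ χ₀ → (χ : G → ℂ) 1 = 1 := by
    intro χ hne
    have hd := irr_degree_dvd_card χ
    rw [hn] at hd
    obtain ⟨k, hk, hk2⟩ := (Nat.dvd_prime_pow hp).mp hd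
    rcases Nat.eq_zero_or_pos k with h | h
    · rw [irr_one_eq_degree, hk2, h, pow_zero, Nat.cast_one]
    · exfalso
      apply hne
      apply huniq
      rw [hk2]
      exact dvd_pow_self p h.ne'
  obtain ⟨d, hd⟩ : ∃ d, d = charDegree (χ₀ : G → ℂ) := ⟨_, rfl⟩
  have hdpos : 0 < d := hd ▸ irr_degree_pos χ₀
  obtain ⟨m, hm⟩ : ∃ m, m = (Finset.univ.erase χ₀).card := ⟨_, rfl⟩
  have hcol : ∀ g : G, (Nat.card (Subgroup.centralizer ({g} : Set G)) : ℝ) =
      ‖(χ₀ : G → ℂ) g‖ ^ 2 + (m : ℝ) := by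
    intro g
    rw [card_centralizer_eq_sum_norm_sq g,
      ← Finset.add_sum_erase Finset.univ _ (Finset.mem_univ χ₀)]
    congr 1
    have h1 : ∀ χ ∈ Finset.univ.erase χ₀, ‖(χ : G → ℂ) g‖ ^ 2 = (1 : ℝ) := by
      intro χ hχ
      rw [linear_norm χ (hlin χ (Finset.ne_of_mem_erase hχ)) g, one_pow]
    rw [Finset.sum_congr rfl h1, hm]
    simp
  have hm_le : m ≤ (commutator G).index := by
    refine le_trans ?_ (card_linear_le_index (G := G))
    rw [Nat.card_eq_fintype_card, Fintype.card_subtype, hm]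
    apply Finset.card_le_card
    intro χ hχ
    rw [Finset.mem_filter]
    exact ⟨Finset.mem_univ _, hlin χ (Finset.ne_of_mem_erase hχ)⟩
  have hd1 : ‖(χ₀ : G → ℂ) 1‖ = (d : ℝ) := by
    rw [irr_one_eq_degree, ← hd]
    simp
  have hcent1 : Subgroup.centralizer ({1} : Set G) = ⊤ := by
    rw [Subgroup.centralizer_eq_top_iff_subset]
    simp
  have hG1 : (Nat.card G : ℝ) = (d : ℝ) ^ 2 + (m : ℝ) := by
    have := hcol 1
    rw [hcent1, Subgroup.card_top, hd1] at this
    exact this
  have hcen : ∀ z ∈ Subgroup.center G, ‖(χ₀ : G → ℂ) z‖ ^ 2 = (d : ℝ) ^ 2 := by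
    intro z hz
    have hcz : Subgroup.centralizer ({z} : Set G) = ⊤ := by
      rw [Subgroup.centralizer_eq_top_iff_subset]
      simpa using hz
    have := hcol z
    rw [hcz, Subgroup.card_top, hG1] at this
    linarith
  have hZ : Nat.card (Subgroup.center G) * d ^ 2 ≤ Nat.card G := by
    have h1 := norm_sq_sum χ₀
    have h2 : ∑ z ∈ (Subgroup.center G : Set G).toFinset, ‖(χ₀ : G → ℂ) z‖ ^ 2
        ≤ ∑ g : G, ‖(χ₀ : G → ℂ) g‖ ^ 2 :=
      Finset.sum_le_sum_of_subset_of_nonneg (Finset.subset_univ _) (fun _ _ _ => by positivity)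
    have h3 : ∑ z ∈ (Subgroup.center G : Set G).toFinset, ‖(χ₀ : G → ℂ) z‖ ^ 2
        = (Nat.card (Subgroup.center G) : ℝ) * (d : ℝ) ^ 2 := by
      rw [Finset.sum_congr rfl (fun z hz => hcen z (Set.mem_toFinset.mp hz)), Finset.sum_const,
        nsmul_eq_mul]
      congr 2
      rw [← Set.ncard_eq_toFinset_card', ← Nat.card_coe_set_eq]
      rfl
    rw [h3, h1] at h2
    exact_mod_cast h2
  have hcomm_ne : commutator G ≠ ⊥ := by
    intro hbot
    have hc : ∀ a b : G, a * b = b * a := by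
      intro a b
      have : ⁅a, b⁆ ∈ commutator G :=
        Subgroup.commutator_mem_commutator (Subgroup.mem_top a) (Subgroup.mem_top b)
      rw [hbot, Subgroup.mem_bot, commutatorElement_eq_one_iff_mul_comm] at this
      exact this
    have h1 := deg_one_of_comm hc χ₀
    rw [h1] at h0
    exact hp.one_lt.ne' (Nat.dvd_one.mp h0)
  obtain ⟨a, ha⟩ : ∃ a, a = Nat.card (commutator G) := ⟨_, rfl⟩
  obtain ⟨i, hi⟩ : ∃ i, i = (commutator G).index := ⟨_, rfl⟩
  obtain ⟨z, hz⟩ : ∃ z, z = Nat.card (Subgroup.center G) := ⟨_, rfl⟩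
  obtain ⟨N, hN⟩ : ∃ N, N = Nat.card G := ⟨_, rfl⟩
  obtain ⟨D, hD⟩ : ∃ D, D = d ^ 2 := ⟨_, rfl⟩
  have hDpos : 0 < D := hD ▸ pow_pos hdpos 2
  have e1 : i * a = N := by rw [hi, ha, hN]; exact Subgroup.index_mul_card _
  have e2 : 2 ≤ a := by
    have h1 : a ≠ 1 := fun h => hcomm_ne (Subgroup.card_eq_one.mp (ha ▸ h))
    have h2 : 0 < a := ha ▸ Nat.card_pos
    omega
  have e3 : m ≤ i := hi ▸ hm_le
  have e4 : N = D + m := by
    rw [hN, hD]
    exact_mod_cast hG1
  have e5 : z * D ≤ N := by rw [hz, hD, hN]; exact hZ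
  have hNpos : 0 < N := hN ▸ Nat.card_pos
  have e6 : 2 ≤ z := by
    haveI : Nontrivial G := by
      apply Finite.one_lt_card_iff_nontrivial.mp
      have : a ≤ N := by
        rw [← e1]
        exact Nat.le_mul_of_pos_left a (Nat.pos_of_ne_zero (by rintro rfl; simp at e1; omega))
      omega
    haveI := hG.center_nontrivial
    have := Finite.one_lt_card (α := Subgroup.center G)
    omega
  have f1 : 2 * i ≤ N := by nlinarith
  have f2 : N ≤ 2 * D := by omega
  have f3 : 2 * D ≤ z * D := Nat.mul_le_mul_right D e6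
  have f4 : N = 2 * D := le_antisymm f2 (le_trans f3 e5)
  have f5 : z = 2 := by
    have : z ≤ 2 := Nat.le_of_mul_le_mul_right (f4 ▸ e5) hDpos
    omega
  have f6 : m = D := by omega
  have f7 : a = 2 := by
    have hi0 : 0 < i := Nat.pos_of_ne_zero (by rintro rfl; simp at e1; omega)
    have : i * a ≤ i * 2 := by rw [e1]; omega
    have : a ≤ 2 := Nat.le_of_mul_le_mul_left this hi0
    omega
  have hp2 : p = 2 := by
    have h1 : 2 ∣ p ^ n := by rw [← hn, ← hN, f4]; exact dvd_mul_right 2 D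
    exact ((Nat.prime_dvd_prime_iff_eq Nat.prime_two hp).mp
      (Nat.Prime.dvd_of_dvd_pow Nat.prime_two h1)).symm
  have hC2 : Nat.card (commutator G) = 2 := ha ▸ f7
  have hZ2 : Nat.card (Subgroup.center G) = 2 := hz ▸ f5
  have hCZ : commutator G ≤ Subgroup.center G := by
    obtain ⟨c, hc1, hcu⟩ := (Nat.card_eq_two_iff' (1 : commutator G)).mp hC2
    intro x hx
    rw [Subgroup.mem_center_iff]
    intro g
    by_cases hx1 : x = 1
    · rw [hx1]; simp
    · have h1 : (⟨x, hx⟩ : commutator G) = c := hcu _ (fun h => hx1 (congrArg Subtype.val h))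
      have hmem : g * x * g⁻¹ ∈ commutator G :=
        (inferInstance : (commutator G).Normal).conj_mem x hx g
      have h2 : (⟨g * x * g⁻¹, hmem⟩ : commutator G) = c := hcu _ (fun h => hx1 (by
        have h' : g * x * g⁻¹ = 1 := congrArg Subtype.val h
        exact conj_eq_one_iff.mp h'))
      have h3 : g * x * g⁻¹ = x := congrArg Subtype.val (h2.trans h1.symm)
      calc g * x = g * x * g⁻¹ * g := by group
        _ = x * g := by rw [h3]
  have hCeq : commutator G = Subgroup.center G :=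
    Subgroup.eq_of_le_of_card_ge hCZ (by rw [hZ2, hC2])
  have hsq : ∀ x : G, x ^ 2 ∈ Subgroup.center G := by
    intro x
    rw [Subgroup.mem_center_iff]
    intro y
    have hcm : ⁅y, x⁆ ∈ commutator G :=
      Subgroup.commutator_mem_commutator (Subgroup.mem_top y) (Subgroup.mem_top x)
    have hcz := hCZ hcm
    have hc2 : ⁅y, x⁆ * ⁅y, x⁆ = 1 := by
      have h := pow_card_eq_one' (G := commutator G) (x := ⟨⁅y, x⁆, hcm⟩)
      rw [hC2] at h
      have h' := congrArg Subtype.val h
      simpa [pow_two] using h'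
    have hyx : y * x = ⁅y, x⁆ * x * y := by rw [commutatorElement_def]; group
    have key : ∀ c : G, (∀ g, g * c = c * g) → c * c = 1 → y * x = c * x * y →
        y * x ^ 2 = x ^ 2 * y := by
      intro c hcomm hc2 hyx
      calc y * x ^ 2 = (y * x) * x := by rw [pow_two, mul_assoc]
        _ = c * x * y * x := by rw [hyx]
        _ = c * x * (y * x) := by rw [mul_assoc]
        _ = c * x * (c * x * y) := by rw [hyx]
        _ = c * (x * c) * (x * y) := by simp only [mul_assoc]
        _ = c * (c * x) * (x * y) := by rw [hcomm x]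
        _ = (c * c) * (x * x * y) := by simp only [mul_assoc]
        _ = x ^ 2 * y := by rw [hc2, one_mul, pow_two]
    exact key ⁅y, x⁆ (Subgroup.mem_center_iff.mp hcz) hc2 hyx
  subst hp2
  refine ⟨rfl, ⟨hG, ?_, hCeq⟩, hZ2⟩
  apply le_antisymm
  · exact Cfsg.Agent.Helper22.frattini_le_of_sq_mem (Subgroup.center G) hsq
  · rw [← hCeq]
    exact Cfsg.Agent.S0586.comm_le_frattini

theorem extraspecial_case {G : Type*} [Group G] [Finite G] (hE : IsExtraspecial 2 G) :
    Nat.card {χ : IrrCharacter G // 2 ∣ charDegree (χ : G → ℂ)} = 1 := by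
  classical
  letI := Fintype.ofFinite G
  obtain ⟨⟨hG, hfr, hcz⟩, hZ2⟩ := hE
  obtain ⟨n, hn⟩ := IsPGroup.iff_card.mp hG
  obtain ⟨z, hz1, hzu⟩ := (Nat.card_eq_two_iff' (1 : Subgroup.center G)).mp hZ2
  have hz1' : (z : G) ≠ 1 := fun h => hz1 (Subtype.ext h)
  have hzz : (z : G) * (z : G) = 1 := by
    by_contra h
    have h2 : z * z ≠ 1 := fun h' => h (congrArg Subtype.val h')
    have h3 := hzu (z * z) h2
    exact hz1 (by simpa using h3)
  have hcen : ∀ x ∈ Subgroup.center G, x = 1 ∨ x = (z : G) := by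
    intro x hx
    by_cases hx1 : x = 1
    · exact Or.inl hx1
    · right
      exact congrArg Subtype.val (hzu ⟨x, hx⟩ (fun h => hx1 (congrArg Subtype.val h)))
  have hcommQ : ∀ a b : G ⧸ commutator G, a * b = b * a :=
    fun a b => mul_comm (G := Abelianization G) a b
  have key : ∀ χ : IrrCharacter G, 2 ∣ charDegree (χ : G → ℂ) →
      (χ : G → ℂ) (z : G) = - (χ : G → ℂ) 1 ∧
        ∀ g : G, g ∉ Subgroup.center G → (χ : G → ℂ) g = 0 := by
    intro χ h2
    obtain ⟨c, hc1, hc⟩ := irr_central_mul χ (z : G) z.2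
    have hz' : (χ : G → ℂ) (z : G) = c * (χ : G → ℂ) 1 := by
      have := hc 1
      rwa [mul_one] at this
    have h3 : (χ : G → ℂ) 1 = c * (c * (χ : G → ℂ) 1) := by
      have := hc (z : G)
      rw [hzz, hz'] at this
      exact this
    have hcc : c * c = 1 :=
      mul_right_cancel₀ (irr_one_ne_zero χ) (by rw [one_mul, mul_assoc]; exact h3.symm)
    rcases mul_self_eq_one_iff.mp hcc with hc1' | hc1'
    · exfalso
      have hzker : (z : G) ∈ irrKer χ := by
        rw [mem_irrKer, hz', hc1', one_mul]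
      have hle : commutator G ≤ irrKer χ := by
        rw [hcz]
        intro x hx
        rcases hcen x hx with h | h
        · rw [h]; exact one_mem _
        · rw [h]; exact hzker
      obtain ⟨ψ, hψ⟩ := exists_deflate χ (commutator G) hle
      have h4 := hψ 1
      rw [QuotientGroup.mk_one, irr_one_eq_degree, deg_one_of_comm hcommQ ψ, Nat.cast_one,
        irr_one_eq_degree] at h4
      have h5 : charDegree (χ : G → ℂ) = 1 := by exact_mod_cast h4.symm
      rw [h5] at h2
      omega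
    · refine ⟨by rw [hz', hc1']; ring, ?_⟩
      intro g hg
      rw [Subgroup.mem_center_iff] at hg
      push_neg at hg
      obtain ⟨y, hy⟩ := hg
      have hcm : ⁅y, g⁆ ∈ commutator G :=
        Subgroup.commutator_mem_commutator (Subgroup.mem_top y) (Subgroup.mem_top g)
      have hne : ⁅y, g⁆ ≠ 1 := fun h => hy (commutatorElement_eq_one_iff_mul_comm.mp h)
      have heq : ⁅y, g⁆ = (z : G) := by
        rcases hcen _ (hcz ▸ hcm) with h | h
        · exact absurd h hne
        · exact h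
      have hconj : y * g * y⁻¹ = (z : G) * g := by
        rw [← heq, commutatorElement_def]; group
      have h5 : (χ : G → ℂ) g = - (χ : G → ℂ) g := by
        have h6 := irr_conj χ g y
        rw [hconj, hc, hc1', neg_one_mul] at h6
        exact h6.symm
      have h7 : (2 : ℂ) * (χ : G → ℂ) g = 0 := by linear_combination h5
      simpa using h7
  have hex : ∃ χ : IrrCharacter G, 2 ∣ charDegree (χ : G → ℂ) := by
    by_contra hno
    push_neg at hno
    have hall : ∀ χ : IrrCharacter G, charDegree (χ : G → ℂ) = 1 := by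
      intro χ
      have hd := irr_degree_dvd_card χ
      rw [hn] at hd
      obtain ⟨k, hk, hk2⟩ := (Nat.dvd_prime_pow Nat.prime_two).mp hd
      rcases Nat.eq_zero_or_pos k with h | h
      · rw [hk2, h, pow_zero]
      · exact absurd (hk2 ▸ dvd_pow_self 2 h.ne') (hno χ)
    have hc := comm_of_all_linear hall
    have hbot : commutator G = ⊥ := by
      rw [commutator_def, Subgroup.commutator_eq_bot_iff_le_centralizer]
      intro x _
      rw [Subgroup.mem_centralizer_iff]
      intro y _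
      exact hc y x
    rw [← hcz, hbot, Subgroup.card_bot] at hZ2
    omega
  have hdeg : ∀ χ : IrrCharacter G, 2 ∣ charDegree (χ : G → ℂ) →
      2 * (charDegree (χ : G → ℂ)) ^ 2 = Nat.card G := by
    intro χ h2
    obtain ⟨hkz, hk0⟩ := key χ h2
    have h1 := norm_sq_sum χ
    have h3 : ∑ g : G, ‖(χ : G → ℂ) g‖ ^ 2 = ∑ g ∈ ({1, (z : G)} : Finset G), ‖(χ : G → ℂ) g‖ ^ 2 := by
      symm
      apply Finset.sum_subset (Finset.subset_univ _)
      intro g _ hg
      have hgc : g ∉ Subgroup.center G := by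
        intro hgc
        rcases hcen g hgc with h | h
        · exact hg (by rw [h]; simp)
        · exact hg (by rw [h]; simp)
      rw [hk0 g hgc]; simp
    rw [h3, Finset.sum_pair (Ne.symm hz1'), hkz, norm_neg, irr_one_eq_degree] at h1
    have h4 : ((2 * (charDegree (χ : G → ℂ)) ^ 2 : ℕ) : ℝ) = (Nat.card G : ℝ) := by
      rw [← h1]
      push_cast
      simp
      ring
    exact_mod_cast h4
  rw [Nat.card_eq_one_iff_unique]
  refine ⟨⟨?_⟩, ?_⟩
  · rintro ⟨χ, h⟩ ⟨χ', h'⟩
    apply Subtype.ext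
    apply Subtype.ext
    have hdd : charDegree (χ : G → ℂ) = charDegree (χ' : G → ℂ) := by
      have e1 := hdeg χ h
      have e2 := hdeg χ' h'
      have e3 : (charDegree (χ : G → ℂ)) ^ 2 = (charDegree (χ' : G → ℂ)) ^ 2 := by omega
      exact Nat.pow_left_injective (by norm_num : (2 : ℕ) ≠ 0) e3
    obtain ⟨hkz, hk0⟩ := key χ h
    obtain ⟨hkz', hk0'⟩ := key χ' h'
    funext g
    by_cases hgc : g ∈ Subgroup.center G
    · rcases hcen g hgc with hg | hg
      · rw [hg, irr_one_eq_degree, irr_one_eq_degree, hdd]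
      · rw [hg, hkz, hkz', irr_one_eq_degree, irr_one_eq_degree, hdd]
    · rw [hk0 g hgc, hk0' g hgc]
  · obtain ⟨χ, hχ⟩ := hex
    exact ⟨⟨χ, hχ⟩⟩

theorem pgroup_of_unique {G : Type*} [Group G] [Finite G] [hnil : Group.IsNilpotent G] (p : ℕ)
    [Fact p.Prime] (χ₀ : IrrCharacter G) (h0 : p ∣ charDegree (χ₀ : G → ℂ))
    (huniq : ∀ χ : IrrCharacter G, p ∣ charDegree (χ : G → ℂ) → χ = χ₀) : IsPGroup p G := by
  classical
  have hp : p.Prime := Fact.out
  have hsylN : ∀ (q : ℕ) (_ : Fact q.Prime) (Q : Sylow q G), (Q : Subgroup G).Normal :=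
    ((Group.isNilpotent_of_finite_tfae (G := G)).out 0 3).mp hnil
  obtain ⟨P⟩ : Nonempty (Sylow p G) := inferInstance
  haveI hPn : (P : Subgroup G).Normal := hsylN p inferInstance P
  obtain ⟨H, hHdef⟩ : ∃ H, H = pPrimeCore p G := ⟨_, rfl⟩
  haveI hHn : H.Normal := hHdef ▸ inferInstance
  have hHcop : (Nat.card H).Coprime p := hHdef ▸ Cfsg.Agent.Helper10.pPrimeCore_coprime p G
  have hidx : ∃ k, H.index = p ^ k := by
    refine ⟨_, Nat.eq_prime_pow_of_unique_prime_dvd (Subgroup.index_ne_zero_of_finite) ?_⟩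
    intro q hq hqd
    by_contra hne
    haveI : Fact q.Prime := ⟨hq⟩
    obtain ⟨Q⟩ : Nonempty (Sylow q G) := inferInstance
    have hQn := hsylN q inferInstance Q
    have hQc : (Nat.card (Q : Subgroup G)).Coprime p := by
      obtain ⟨k, hk⟩ := IsPGroup.iff_card.mp Q.isPGroup'
      rw [hk]
      exact Nat.Coprime.pow_left k ((Nat.coprime_primes hq hp).mpr hne)
    have hQH : (Q : Subgroup G) ≤ H := hHdef ▸ Cfsg.Agent.Helper10.le_pPrimeCore p hQn hQc
    exact Q.not_dvd_index (hqd.trans (Subgroup.index_dvd_of_le hQH))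
  obtain ⟨k, hk⟩ := hidx
  have hPH : ∀ x, x ∈ (P : Subgroup G) → x ∈ H → x = 1 := by
    intro x hxP hxH
    obtain ⟨j, hj⟩ := P.isPGroup' ⟨x, hxP⟩
    have hxj : x ^ p ^ j = 1 := by simpa using congrArg Subtype.val hj
    have h1 : orderOf x ∣ p ^ j := orderOf_dvd_of_pow_eq_one hxj
    have h2 : orderOf x ∣ Nat.card H := by
      have := orderOf_dvd_natCard (⟨x, hxH⟩ : H)
      rwa [Subgroup.orderOf_mk] at this
    have h3 : orderOf x = 1 :=
      Nat.dvd_one.mp ((Nat.Coprime.pow_right j hHcop).gcd_eq_one ▸ Nat.dvd_gcd h2 h1)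
    exact orderOf_eq_one_iff.mp h3
  have hQp : Nat.card (G ⧸ H) = p ^ k := by rw [← Subgroup.index_eq_card]; exact hk
  have hα : ∃ α : IrrCharacter (G ⧸ H), p ∣ charDegree (α : G ⧸ H → ℂ) := by
    by_contra hno
    push_neg at hno
    have hall : ∀ α : IrrCharacter (G ⧸ H), charDegree (α : G ⧸ H → ℂ) = 1 := by
      intro α
      have hd := irr_degree_dvd_card α
      rw [hQp] at hd
      obtain ⟨j, hj, hj2⟩ := (Nat.dvd_prime_pow hp).mp hd
      rcases Nat.eq_zero_or_pos j with h | h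
      · rw [hj2, h, pow_zero]
      · exact absurd (hj2 ▸ dvd_pow_self p h.ne') (hno α)
    have hc := comm_of_all_linear hall
    have hab : ∀ a ∈ (P : Subgroup G), ∀ b ∈ (P : Subgroup G), a * b = b * a := by
      intro a ha b hb
      have h1 : ⁅a, b⁆ ∈ (P : Subgroup G) := by
        rw [commutatorElement_def]
        exact mul_mem (mul_mem (mul_mem ha hb) (inv_mem ha)) (inv_mem hb)
      have h2 : ⁅a, b⁆ ∈ H := by
        rw [← QuotientGroup.eq_one_iff, commutatorElement_def]
        simp only [QuotientGroup.mk_mul, QuotientGroup.mk_inv]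
        rw [hc (a : G ⧸ H) (b : G ⧸ H)]
        simp
      exact commutatorElement_eq_one_iff_mul_comm.mp (hPH _ h1 h2)
    obtain ⟨n, ρ, hρ, hχ⟩ := χ₀.2
    haveI := hρ
    have h1 := Cfsg.Agent.S0169.result ρ (P : Subgroup G) hab
    rw [Module.finrank_fin_fun] at h1
    rw [← hχ, rep_charDegree] at h0
    exact P.not_dvd_index (h0.trans h1)
  obtain ⟨α, hα⟩ := hα
  have hinf : irrComp α (QuotientGroup.mk' H) (QuotientGroup.mk'_surjective H) = χ₀ := by
    apply huniq
    have : charDegree ((irrComp α (QuotientGroup.mk' H) (QuotientGroup.mk'_surjective H) :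
        IrrCharacter G) : G → ℂ) = charDegree (α : G ⧸ H → ℂ) := by
      have h1 := irr_one_eq_degree (irrComp α (QuotientGroup.mk' H) (QuotientGroup.mk'_surjective H))
      rw [irrComp_apply, map_one, irr_one_eq_degree] at h1
      exact_mod_cast h1.symm
    rw [this]; exact hα
  have hker : ∀ h ∈ H, (χ₀ : G → ℂ) h = (χ₀ : G → ℂ) 1 := by
    intro h hh
    rw [← hinf, irrComp_apply, irrComp_apply, map_one,
      show (QuotientGroup.mk' H) h = 1 from (QuotientGroup.eq_one_iff h).mpr hh]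
  have hHbot : H = ⊥ := by
    by_contra hne
    have hPtop : (P : Subgroup G) ≠ ⊤ := by
      intro htop
      apply hne
      rw [eq_bot_iff]
      intro x hx
      exact Subgroup.mem_bot.mpr (hPH x (htop ▸ Subgroup.mem_top x) hx)
    haveI : Nontrivial (G ⧸ (P : Subgroup G)) := QuotientGroup.nontrivial_iff.mpr hPtop
    have hlt : commutator (G ⧸ (P : Subgroup G)) < ⊤ :=
      Group.IsSolvable.commutator_lt_top_of_nontrivial _
    obtain ⟨gbar, hgbar⟩ : ∃ x, x ∉ commutator (G ⧸ (P : Subgroup G)) := by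
      by_contra hcon
      push_neg at hcon
      exact hlt.ne (eq_top_iff.mpr (fun x _ => hcon x))
    obtain ⟨lam, hl1, hlg⟩ := exists_linear_ne_one hgbar
    obtain ⟨g, rfl⟩ := QuotientGroup.mk_surjective gbar
    obtain ⟨mu, hmu⟩ : ∃ mu, mu = irrComp lam (QuotientGroup.mk' (P : Subgroup G))
      (QuotientGroup.mk'_surjective _) := ⟨_, rfl⟩
    have hmu1 : (mu : G → ℂ) 1 = 1 := by rw [hmu, irrComp_apply, map_one, hl1]
    obtain ⟨β, hβ⟩ : ∃ β : G →* ℂˣ, β = (linHom mu hmu1).toHomUnits := ⟨_, rfl⟩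
    have hβv : ∀ x : G, ((β x : ℂˣ) : ℂ) = (mu : G → ℂ) x := by
      intro x
      rw [hβ, MonoidHom.coe_toHomUnits]
      rfl
    have htw := Cfsg.Agent.Helper7.isIrrCharacter_hom_mul β (χ₀ : G → ℂ) χ₀.2
    have htw1 : (⟨_, htw⟩ : IrrCharacter G) = χ₀ := by
      apply huniq
      have hdeq : charDegree (((⟨_, htw⟩ : IrrCharacter G) : IrrCharacter G) : G → ℂ)
          = charDegree (χ₀ : G → ℂ) := by
        have h1 := irr_one_eq_degree (⟨_, htw⟩ : IrrCharacter G)
        have h2 : ((⟨_, htw⟩ : IrrCharacter G) : G → ℂ) 1 = (χ₀ : G → ℂ) 1 := by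
          show ((β 1 : ℂˣ) : ℂ) * (χ₀ : G → ℂ) 1 = (χ₀ : G → ℂ) 1
          rw [map_one, Units.val_one, one_mul]
        rw [h2, irr_one_eq_degree] at h1
        exact_mod_cast h1.symm
      rw [hdeq]; exact h0
    have hval : ∀ x : G, (mu : G → ℂ) x * (χ₀ : G → ℂ) x = (χ₀ : G → ℂ) x := by
      intro x
      have := congrFun (congrArg Subtype.val htw1) x
      rw [← hβv x]
      exact this
    have hmuH : ∀ x ∈ H, (mu : G → ℂ) x = 1 := by
      intro x hx
      have h1 := hval x
      rw [hker x hx] at h1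
      exact mul_right_cancel₀ (irr_one_ne_zero χ₀) (by rw [one_mul]; exact h1)
    have hmuP : ∀ x ∈ (P : Subgroup G), (mu : G → ℂ) x = 1 := by
      intro x hx
      rw [hmu, irrComp_apply]
      have : (QuotientGroup.mk' (P : Subgroup G)) x = 1 := (QuotientGroup.eq_one_iff x).mpr hx
      rw [this, hl1]
    have hK1 : (P : Subgroup G) ≤ MonoidHom.ker (linHom mu hmu1) := fun x hx =>
      MonoidHom.mem_ker.mpr (hmuP x hx)
    have hK2 : H ≤ MonoidHom.ker (linHom mu hmu1) := fun x hx =>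
      MonoidHom.mem_ker.mpr (hmuH x hx)
    have hd1 := Subgroup.index_dvd_of_le hK1
    have hd2 := Subgroup.index_dvd_of_le hK2
    rw [hk] at hd2
    have hcop : Nat.Coprime (p ^ k) (P : Subgroup G).index :=
      Nat.Coprime.pow_left k ((Nat.Prime.coprime_iff_not_dvd hp).mpr P.not_dvd_index)
    have hone : (MonoidHom.ker (linHom mu hmu1)).index = 1 :=
      Nat.dvd_one.mp (hcop.gcd_eq_one ▸ Nat.dvd_gcd hd2 hd1)
    have htop := Subgroup.index_eq_one.mp hone
    have hg1 : (mu : G → ℂ) g = 1 := by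
      have : g ∈ MonoidHom.ker (linHom mu hmu1) := htop ▸ Subgroup.mem_top g
      exact MonoidHom.mem_ker.mp this
    apply hlg
    rw [hmu, irrComp_apply] at hg1
    exact hg1
  apply IsPGroup.of_card (n := k)
  rw [← hk, hHbot, Subgroup.index_bot]

/-- Let p be a prime and G a finite nilpotent group. Then G has exactly one irreducible complex character of degree divisible by p if and only if p = 2 and G is an extraspecial 2-group. -/
theorem result {G : Type*} [Group G] [Finite G] [Group.IsNilpotent G] (p : ℕ) [Fact p.Prime] : Nat.card {χ : Cfsg.IrrCharacter G // p ∣ Cfsg.charDegree (χ : G → ℂ)} = 1 ↔ (p = 2 ∧ Cfsg.IsExtraspecial 2 G) := by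
  constructor
  · intro hone
    obtain ⟨hsub, ⟨⟨χ₀, h0⟩⟩⟩ := Nat.card_eq_one_iff_unique.mp hone
    have huniq : ∀ χ : Cfsg.IrrCharacter G, p ∣ Cfsg.charDegree (χ : G → ℂ) → χ = χ₀ := fun χ h =>
      congrArg Subtype.val (hsub.elim ⟨χ, h⟩ ⟨χ₀, h0⟩)
    have hG : IsPGroup p G := pgroup_of_unique p χ₀ h0 huniq
    exact pgroup_case p hG χ₀ h0 huniq
  · rintro ⟨rfl, hE⟩
    exact extraspecial_case hE

end Cfsg.Agent.S4762
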