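import Cfsg.Statements.S0967
import Mathlib
import Cfsg.Agent.Helper2.BlockCov2

set_option autoImplicit false
open Cfsg

namespace Cfsg.Agent.S0967

open Cfsg.Agent.Helper2 Cfsg.Agent.Helper25 Cfsg.Agent.Helper7

/-- Let N be a normal subgroup of the finite group G of order prime to p and fix a maximal ideal M of the algebraic integers containing p. If χ is an irreducible character of G ⧸ N and ψ lies in the block of its inflation χ ∘ (quotient map), then ψ is itself inflated from an irreducible character ψ' of G ⧸ N lying in the block of χ. (Over a normal p'-subgroup, blocks of the quotient are whole blocks of G.) -/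
theorem result {G : Type*} [Group G] [Finite G] (p : ℕ) [Fact p.Prime] (M : Ideal Cfsg.AlgInt) (hM : Cfsg.IsPModular p M) (N : Subgroup G) [N.Normal] (hN : ¬ p ∣ Nat.card N) (χ : Cfsg.IrrCharacter (G ⧸ N)) (ψ : Cfsg.IrrCharacter G) (hψ : ψ ∈ Cfsg.blockOf M ((χ : G ⧸ N → ℂ) ∘ QuotientGroup.mk)) : ∃ ψ' : Cfsg.IrrCharacter (G ⧸ N), (ψ : G → ℂ) = (ψ' : G ⧸ N → ℂ) ∘ QuotientGroup.mk ∧ Cfsg.SameBlock M (χ : G ⧸ N → ℂ) (ψ' : G ⧸ N → ℂ) := by
  classical
  set χ' : IrrCharacter G := ⟨fun g => (χ : G ⧸ N → ℂ) (QuotientGroup.mk' N g),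
    isIrrCharacter_comp_of_surjective (QuotientGroup.mk' N) (QuotientGroup.mk'_surjective N) χ.2⟩
    with hχ'
  have hsb : SameBlock M (χ' : G → ℂ) (ψ : G → ℂ) := hψ
  have hker : N ≤ irrKer χ' := by
    intro n hn
    rw [mem_irrKer]
    show (χ : G ⧸ N → ℂ) (QuotientGroup.mk' N n) = (χ : G ⧸ N → ℂ) (QuotientGroup.mk' N 1)
    rw [map_one, QuotientGroup.mk'_apply, (QuotientGroup.eq_one_iff n).mpr hn]
  have hker2 := le_irrKer_of_sameBlock hM N hN χ' ψ hsb hker
  obtain ⟨ψ', hψ'⟩ := exists_deflate ψ N hker2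
  refine ⟨ψ', funext (fun g => (hψ' g).symm), ?_⟩
  apply sameBlock_of_inflate_pprime hM N hN χ ψ'
  have : (ψ' : G ⧸ N → ℂ) ∘ (QuotientGroup.mk : G → G ⧸ N) = (ψ : G → ℂ) := funext hψ'
  rw [this]
  exact hψ

end Cfsg.Agent.S0967
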