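import Cfsg.Statements.S4459
import Mathlib
import Cfsg.Agent.Helper2.DegPC
import Cfsg.Agent.S0169

set_option autoImplicit false
open Cfsg

namespace Cfsg.Agent.S4459

open Cfsg.Agent in
theorem deg_dvd_index {G : Type*} [Group G] [Finite G] (A : Subgroup G) [A.Normal]
    (hA : ∀ a ∈ A, ∀ b ∈ A, a * b = b * a) (χ : IrrCharacter G) :
    charDegree (χ : G → ℂ) ∣ A.index := by
  obtain ⟨n, ρ, hρ, hχ⟩ := χ.2
  haveI := hρ
  have h1 := Cfsg.Agent.S0169.result ρ A hA
  rw [Module.finrank_fin_fun] at h1
  rw [← hχ, Helper25.rep_charDegree]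
  exact h1

/-- Let G be a non-abelian finite group and p a prime. Then the irreducible character degrees of G are exactly 1 and p if and only if either G has an abelian normal subgroup of index p or the centre of G has index p³. -/
theorem result {G : Type*} [Group G] [Finite G] (hG : ∃ a b : G, a * b ≠ b * a) (p : ℕ) (hp : p.Prime) : ((∀ χ : Cfsg.IrrCharacter G, Cfsg.charDegree (χ : G → ℂ) = 1 ∨ Cfsg.charDegree (χ : G → ℂ) = p) ∧ ∃ χ : Cfsg.IrrCharacter G, Cfsg.charDegree (χ : G → ℂ) = p) ↔ ((∃ A : Subgroup G, A.Normal ∧ (∀ a ∈ A, ∀ b ∈ A, a * b = b * a) ∧ A.index = p) ∨ (Subgroup.center G).index = p ^ 3) := by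
  classical
  haveI := Fintype.ofFinite G
  haveI : Fact p.Prime := ⟨hp⟩
  have hnonlin : (∀ χ : IrrCharacter G, charDegree (χ : G → ℂ) = 1 ∨
      charDegree (χ : G → ℂ) = p) → ∃ χ : IrrCharacter G, charDegree (χ : G → ℂ) = p := by
    intro h2
    by_contra hcon
    push_neg at hcon
    obtain ⟨a, b, hab⟩ := hG
    apply hab
    exact Cfsg.Agent.Helper2.comm_of_all_linear (fun χ => (h2 χ).resolve_right (hcon χ)) a b
  constructor
  · rintro ⟨h2, χ₀, hχ₀⟩
    by_cases hno : ∃ A : Subgroup G, A.Normal ∧ (∀ a ∈ A, ∀ b ∈ A, a * b = b * a) ∧ A.index = p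
    · exact Or.inl hno
    · right
      have h2' : Cfsg.Agent.Helper2.TwoDeg G p := h2
      rcases Cfsg.Agent.Helper2.two_deg_structure p h2' ⟨χ₀, hχ₀⟩ hp.one_lt.ne' with hA |
        ⟨q, e, hq, hpe, P, A, hPn, hAn, hPp, hAab, hPA, hPAtop⟩
      · exact absurd hA hno
      · have hqp : q = p := by
          have he : e ≠ 0 := by
            rintro rfl
            rw [pow_zero] at hpe
            exact hp.one_lt.ne' hpe
          have h5 : q ∣ p := by rw [hpe]; exact dvd_pow_self q he
          exact (Nat.prime_dvd_prime_iff_eq hq hp).mp h5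
        rw [hqp] at hPp
        haveI : P.Normal := hPn
        haveI : A.Normal := hAn
        have hdecomp : ∀ g : G, ∃ a ∈ A, ∃ s ∈ P, g = a * s :=
          fun g => Cfsg.Agent.Helper2.exists_mul_of_sup_eq_top A P
            (by rw [sup_comm]; exact hPAtop) g
        have hcomm : ∀ a ∈ A, ∀ s ∈ P, a * s = s * a := by
          intro a ha s hs
          have h5 : a * s * a⁻¹ * s⁻¹ ∈ P ⊓ A := by
            refine ⟨?_, ?_⟩
            · exact P.mul_mem (hPn.conj_mem s hs a) (P.inv_mem hs)
            · have h6 : a * s * a⁻¹ * s⁻¹ = a * (s * a⁻¹ * s⁻¹) := by group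
              rw [h6]
              exact A.mul_mem ha (hAn.conj_mem a⁻¹ (A.inv_mem ha) s)
          rw [hPA, Subgroup.mem_bot] at h5
          calc a * s = (a * s * a⁻¹ * s⁻¹) * (s * a) := by group
            _ = s * a := by rw [h5, one_mul]
        have hAc : A ≤ Subgroup.center G := by
          intro a ha
          rw [Subgroup.mem_center_iff]
          intro g
          obtain ⟨a₁, ha₁, s, hs, rfl⟩ := hdecomp g
          have h5 := hAab a ha a₁ ha₁
          have h6 := hcomm a ha s hs
          calc a₁ * s * a = a₁ * (s * a) := by group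
            _ = a₁ * (a * s) := by rw [h6]
            _ = (a₁ * a) * s := by group
            _ = (a * a₁) * s := by rw [h5]
            _ = a * (a₁ * s) := by group
        have hnil : ∀ g : G, ∃ k : ℕ, g ^ p ^ k ∈ Subgroup.center G := by
          intro g
          obtain ⟨a₁, ha₁, s, hs, rfl⟩ := hdecomp g
          obtain ⟨k, hk⟩ := hPp ⟨s, hs⟩
          have hk' : s ^ p ^ k = 1 := by
            have h5 := congrArg Subtype.val hk
            rw [Subgroup.coe_pow] at h5
            exact h5
          refine ⟨k, ?_⟩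
          have hc : Commute a₁ s := hcomm a₁ ha₁ s hs
          rw [hc.mul_pow, hk', mul_one]
          exact hAc (A.pow_mem ha₁ _)
        exact Cfsg.Agent.Helper2.index_center_of_twoDeg_p p h2' hnil χ₀ hχ₀ hno
  · rintro (⟨A, hAn, hAab, hAidx⟩ | hZ)
    · haveI := hAn
      have h2 : ∀ χ : IrrCharacter G, charDegree (χ : G → ℂ) = 1 ∨
          charDegree (χ : G → ℂ) = p := by
        intro χ
        have h1 := deg_dvd_index A hAab χ
        rw [hAidx] at h1
        exact (Nat.dvd_prime hp).mp h1
      exact ⟨h2, hnonlin h2⟩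
    · have h2 : ∀ χ : IrrCharacter G, charDegree (χ : G → ℂ) = 1 ∨
          charDegree (χ : G → ℂ) = p := by
        intro χ
        have h1 := deg_dvd_index (Subgroup.center G)
          (fun a _ b hb => Subgroup.mem_center_iff.mp hb a) χ
        rw [hZ] at h1
        obtain ⟨i, hi, hdi⟩ := (Nat.dvd_prime_pow hp).mp h1
        have hnorm : ∀ z ∈ Subgroup.center G,
            ‖(χ : G → ℂ) z‖ = (charDegree (χ : G → ℂ) : ℝ) := by
          intro z hz
          obtain ⟨c, hc, hcz⟩ := Cfsg.Agent.Helper2.irr_central_mul χ z hz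
          have h1 := hcz 1
          rw [mul_one] at h1
          rw [h1, norm_mul, hc, one_mul, Cfsg.Agent.Helper25.irr_one_eq_degree χ,
            Complex.norm_natCast]
        obtain ⟨hle, -⟩ := Cfsg.Agent.Helper2.norm_count_le χ (Subgroup.center G) _ hnorm
        have hle' : Nat.card (Subgroup.center G) * charDegree (χ : G → ℂ) ^ 2 ≤ Nat.card G := by
          exact_mod_cast hle
        rw [← Subgroup.card_mul_index (Subgroup.center G), hZ, hdi] at hle'
        have h5 := Nat.le_of_mul_le_mul_left hle' Nat.card_pos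
        rw [← pow_mul] at h5
        have h6 := (Nat.pow_le_pow_iff_right hp.one_lt).mp h5
        have hi1 : i ≤ 1 := by omega
        rw [hdi]
        interval_cases i
        · left; exact pow_zero p
        · right; exact pow_one p
      exact ⟨h2, hnonlin h2⟩

end Cfsg.Agent.S4459
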