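import Cfsg.Statements.S3735
import Mathlib

set_option autoImplicit false
open Cfsg

namespace Cfsg.Agent.S3735

variable {G : Type*} [Group G]

/-- `A` normalises `W`, elementwise. -/
def Inv (A W : Subgroup G) : Prop := ∀ a ∈ A, ∀ x ∈ W, a * x * a⁻¹ ∈ W

theorem le_normalizer_iff (A W : Subgroup G) :
    A ≤ Subgroup.normalizer (W : Set G) ↔ Inv A W := by
  constructor
  · intro h a ha x hx
    exact (Subgroup.mem_normalizer_iff.mp (h ha) x).mp hx
  · intro h a ha
    rw [Subgroup.mem_normalizer_iff]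
    intro x
    refine ⟨h a ha x, fun hx => ?_⟩
    have := h a⁻¹ (A.inv_mem ha) _ hx
    simpa [mul_assoc] using this

/-- the conjugate `g⁻¹ W g`. -/
def cm (g : G) (W : Subgroup G) : Subgroup G := W.comap (MulAut.conj g).toMonoidHom

theorem mem_cm {g x : G} {W : Subgroup G} : x ∈ cm g W ↔ g * x * g⁻¹ ∈ W := Iff.rfl

theorem inv_sup {A U W : Subgroup G} (hU : Inv A U) (hW : Inv A W) : Inv A (U ⊔ W) := by
  intro a ha
  show U ⊔ W ≤ cm a (U ⊔ W)
  apply sup_le
  · intro x hx; exact Subgroup.mem_sup_left (hU a ha x hx)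
  · intro x hx; exact Subgroup.mem_sup_right (hW a ha x hx)

theorem mem_sup_comm (V : Subgroup G) (hV : IsMulCommutative V) {W M : Subgroup G} (hW : W ≤ V)
    (hM : M ≤ V) {x : G} (hx : x ∈ W ⊔ M) : ∃ w ∈ W, ∃ m ∈ M, x = w * m := by
  have hc : ∀ a ∈ V, ∀ b ∈ V, a * b = b * a := by
    intro a ha b hb
    have := hV.is_comm.comm ⟨a, ha⟩ ⟨b, hb⟩
    exact congrArg Subtype.val this
  let K : Subgroup G :=
    { carrier := {x | ∃ w ∈ W, ∃ m ∈ M, x = w * m}
      mul_mem' := by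
        rintro _ _ ⟨w, hw, m, hm, rfl⟩ ⟨w', hw', m', hm', rfl⟩
        refine ⟨w * w', W.mul_mem hw hw', m * m', M.mul_mem hm hm', ?_⟩
        have := hc m (hM hm) w' (hW hw')
        calc w * m * (w' * m') = w * (m * w') * m' := by group
          _ = w * (w' * m) * m' := by rw [this]
          _ = w * w' * (m * m') := by group
      one_mem' := ⟨1, W.one_mem, 1, M.one_mem, by simp⟩
      inv_mem' := by
        rintro _ ⟨w, hw, m, hm, rfl⟩
        refine ⟨w⁻¹, W.inv_mem hw, m⁻¹, M.inv_mem hm, ?_⟩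
        have := hc m⁻¹ (hM (M.inv_mem hm)) w⁻¹ (hW (W.inv_mem hw))
        rw [mul_inv_rev, this] }
  have : W ⊔ M ≤ K :=
    sup_le (fun w hw => ⟨w, hw, 1, M.one_mem, by simp⟩) (fun m hm => ⟨1, W.one_mem, m, hm, by simp⟩)
  exact this hx

/-- Clifford's Theorem for actions on finite abelian groups, first part. Let H and V be subgroups of a finite group with V abelian and H normalizing V, and let A be a normal subgroup of H. If every H-invariant subgroup of V has an H-invariant complement in V, then every A-invariant subgroup of V has an A-invariant complement in V. -/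
theorem result {G : Type*} [Group G] [Finite G] (H A V : Subgroup G) (hVab : IsMulCommutative V) (hHV : H ≤ Subgroup.normalizer (V : Set G)) (hAH : A ≤ H) (hAn : H ≤ Subgroup.normalizer (A : Set G)) (hss : ∀ U : Subgroup G, U ≤ V → H ≤ Subgroup.normalizer (U : Set G) → ∃ W : Subgroup G, W ≤ V ∧ H ≤ Subgroup.normalizer (W : Set G) ∧ U ⊓ W = ⊥ ∧ U ⊔ W = V) (U : Subgroup G) (hUV : U ≤ V) (hAU : A ≤ Subgroup.normalizer (U : Set G)) : ∃ W : Subgroup G, W ≤ V ∧ A ≤ Subgroup.normalizer (W : Set G) ∧ U ⊓ W = ⊥ ∧ U ⊔ W = V := by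
  classical
  have hHVi : Inv H V := (le_normalizer_iff H V).mp hHV
  have hHAi : Inv H A := (le_normalizer_iff H A).mp hAn
  have hAUi : Inv A U := (le_normalizer_iff A U).mp hAU
  obtain ⟨T, hT⟩ : ∃ T : Set (Subgroup G), T = {M | M ≠ ⊥ ∧ M ≤ V ∧ Inv A M} := ⟨_, rfl⟩
  have T_cm : ∀ h ∈ H, ∀ M ∈ T, cm h M ∈ T := by
    intro h hh M hM
    rw [hT] at hM ⊢
    obtain ⟨hM1, hM2, hM3⟩ := hM
    refine ⟨?_, ?_, ?_⟩
    · intro hbot
      apply hM1
      rw [Subgroup.eq_bot_iff_forall]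
      intro x hx
      have h1 : h⁻¹ * x * h ∈ cm h M := by
        rw [mem_cm]; simpa [mul_assoc] using hx
      rw [hbot, Subgroup.mem_bot] at h1
      have : x = h * (h⁻¹ * x * h) * h⁻¹ := by group
      rw [this, h1]; group
    · intro x hx
      have h1 := hHVi h⁻¹ (H.inv_mem hh) _ (hM2 (mem_cm.mp hx))
      simpa [mul_assoc] using h1
    · intro a ha x hx
      rw [mem_cm] at hx ⊢
      have h1 := hM3 _ (hHAi h hh a ha) _ hx
      have e : h * (a * x * a⁻¹) * h⁻¹ = (h * a * h⁻¹) * (h * x * h⁻¹) * (h * a * h⁻¹)⁻¹ := by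
        group
      rw [e]; exact h1
  have min_cm : ∀ h ∈ H, ∀ M, Minimal (· ∈ T) M → Minimal (· ∈ T) (cm h M) := by
    intro h hh M hM
    refine ⟨T_cm h hh M hM.1, fun c hc hle => ?_⟩
    have h1 : cm h⁻¹ c ∈ T := T_cm h⁻¹ (H.inv_mem hh) c hc
    have h2 : cm h⁻¹ c ≤ M := by
      intro x hx
      have := hle (mem_cm.mp hx)
      rw [mem_cm] at this
      simpa [mul_assoc] using this
    have h3 := hM.2 h1 h2
    intro x hx
    have := h3 (mem_cm.mp hx)
    rw [mem_cm] at this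
    simpa [mul_assoc] using this
  -- the socle
  obtain ⟨S, hS⟩ : ∃ S : Subgroup G, S = sSup {M | Minimal (· ∈ T) M} := ⟨_, rfl⟩
  have hSV : S ≤ V := by
    rw [hS]; apply sSup_le
    intro M hM
    have := hM.1
    rw [hT] at this
    exact this.2.1
  have hSH : Inv H S := by
    intro h hh
    show S ≤ cm h S
    conv_lhs => rw [hS]
    apply sSup_le
    intro M hM x hx
    rw [mem_cm]
    have h1 : cm h⁻¹ M ≤ S := by rw [hS]; exact le_sSup (min_cm h⁻¹ (H.inv_mem hh) M hM)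
    apply h1
    rw [mem_cm]
    simpa [mul_assoc] using hx
  obtain ⟨W0, hW0V, hW0H, hW0i, hW0s⟩ := hss S hSV ((le_normalizer_iff H S).mpr hSH)
  have hW0 : W0 = ⊥ := by
    by_contra hne
    have hW0T : W0 ∈ T := by
      rw [hT]; exact ⟨hne, hW0V, (le_normalizer_iff A W0).mp (hAH.trans hW0H)⟩
    obtain ⟨M, hMle, hMmin⟩ := Set.Finite.exists_le_minimal (Set.toFinite T) hW0T
    have : M ≤ S ⊓ W0 := le_inf (by rw [hS]; exact le_sSup hMmin) hMle
    rw [hW0i] at this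
    have hM1 := hMmin.1
    rw [hT] at hM1
    exact hM1.1 (le_bot_iff.mp this)
  have hSeq : S = V := by rw [← hW0s, hW0, sup_bot_eq]
  -- a maximal invariant subgroup avoiding `U`
  obtain ⟨s, hs⟩ : ∃ s : Set (Subgroup G), s = {W | W ≤ V ∧ Inv A W ∧ U ⊓ W = ⊥} := ⟨_, rfl⟩
  have hbot : (⊥ : Subgroup G) ∈ s := by
    rw [hs]
    refine ⟨bot_le, fun a _ x hx => ?_, inf_bot_eq _⟩
    rw [Subgroup.mem_bot] at hx ⊢; rw [hx]; group
  obtain ⟨W, -, hWmax⟩ := Set.Finite.exists_le_maximal (Set.toFinite s) hbot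
  obtain ⟨hWs, hWm⟩ := hWmax
  have hWs' := hWs
  rw [hs] at hWs'
  obtain ⟨hWV, hWA, hWU⟩ := hWs'
  refine ⟨W, hWV, (le_normalizer_iff A W).mpr hWA, hWU, ?_⟩
  by_contra hne
  have hlt : ¬ V ≤ U ⊔ W := fun h => hne (le_antisymm (sup_le hUV hWV) h)
  have hex : ∃ M, Minimal (· ∈ T) M ∧ ¬ M ≤ U ⊔ W := by
    by_contra hcon
    push Not at hcon
    apply hlt
    rw [← hSeq, hS]
    exact sSup_le (fun M hM => hcon M hM)
  obtain ⟨M, hMmin, hMnot⟩ := hex
  have hMT := hMmin.1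
  rw [hT] at hMT
  obtain ⟨hM1, hM2, hM3⟩ := hMT
  have hMi : M ⊓ (U ⊔ W) = ⊥ := by
    by_contra hne'
    have hT' : M ⊓ (U ⊔ W) ∈ T := by
      rw [hT]
      refine ⟨hne', inf_le_left.trans hM2, ?_⟩
      intro a ha x hx
      exact ⟨hM3 a ha x hx.1, inv_sup hAUi hWA a ha x hx.2⟩
    exact hMnot ((hMmin.2 hT' inf_le_left).trans inf_le_right)
  have hWM : W ⊔ M ∈ s := by
    rw [hs]
    refine ⟨sup_le hWV hM2, inv_sup hWA hM3, ?_⟩
    rw [Subgroup.eq_bot_iff_forall]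
    intro x hx
    obtain ⟨w, hw, m, hm, rfl⟩ := mem_sup_comm V hVab hWV hM2 hx.2
    have hm1 : m ∈ M ⊓ (U ⊔ W) := by
      refine ⟨hm, ?_⟩
      have : m = w⁻¹ * (w * m) := by group
      rw [this]
      exact (U ⊔ W).mul_mem (Subgroup.mem_sup_right (W.inv_mem hw)) (Subgroup.mem_sup_left hx.1)
    rw [hMi, Subgroup.mem_bot] at hm1
    subst hm1
    rw [mul_one] at hx ⊢
    have : w ∈ U ⊓ W := ⟨hx.1, hw⟩
    rw [hWU, Subgroup.mem_bot] at this
    exact this
  have := hWm hWM le_sup_left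
  exact hMnot ((le_sup_right.trans this).trans le_sup_right)

end Cfsg.Agent.S3735
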