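import Cfsg.Statements.S0228
import Mathlib
import Cfsg.Agent.Helper2.PermIso

set_option autoImplicit false
open Cfsg

namespace Cfsg.Agent.S0228

open Cfsg.Agent.Helper2

lemma sylow_card_of {G : Type*} [Group G] [Finite G] {p : ℕ} [hp : Fact p.Prime] (P : Sylow p G)
    (k m : ℕ) (hG : Nat.card G = p ^ k * m) (hm : ¬ p ∣ m) : Nat.card P = p ^ k := by
  have hm0 : m ≠ 0 := by
    rintro rfl
    exact hm (dvd_zero p)
  rw [Sylow.card_eq_multiplicity, hG, Nat.factorization_mul (pow_ne_zero k hp.out.ne_zero) hm0,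
    Finsupp.add_apply, Nat.Prime.factorization_pow hp.out, Finsupp.single_eq_same,
    Nat.factorization_eq_zero_of_not_dvd hm, add_zero]

/-- A group of order 12 in which no involution is central is isomorphic to the alternating group on four letters. -/
theorem result {G : Type*} [Group G] [Finite G] (hG : Nat.card G = 12) (hz : ∀ z : G, orderOf z = 2 → z ∉ Subgroup.center G) : Nonempty (G ≃* alternatingGroup (Fin 4)) := by
  classical
  haveI : Fact (Nat.Prime 2) := ⟨Nat.prime_two⟩
  haveI : Fact (Nat.Prime 3) := ⟨Nat.prime_three⟩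
  have hn3mod := card_sylow_modEq_one 3 G
  obtain ⟨P⟩ : Nonempty (Sylow 3 G) := inferInstance
  have hS3 : ∀ P' : Sylow 3 G, Nat.card P' = 3 := by
    intro P'
    have h0 := sylow_card_of P' 1 4 (by rw [hG]; norm_num) (by norm_num)
    simpa using h0
  have hP3 := hS3 P
  have hPidx : (P : Subgroup G).index = 4 := by
    have h0 := Subgroup.card_mul_index (P : Subgroup G)
    rw [hP3, hG] at h0
    omega
  have hn3dvd : Nat.card (Sylow 3 G) ∣ 4 := hPidx ▸ P.card_dvd_index
  have hn3 : Nat.card (Sylow 3 G) = 1 ∨ Nat.card (Sylow 3 G) = 4 := by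
    have hle : Nat.card (Sylow 3 G) ≤ 4 := Nat.le_of_dvd (by norm_num) hn3dvd
    have h := hn3mod
    unfold Nat.ModEq at h
    interval_cases (Nat.card (Sylow 3 G)) <;> simp_all
  rcases hn3 with h1 | h4
  · exfalso
    haveI : Subsingleton (Sylow 3 G) := (Nat.card_eq_one_iff_unique.mp h1).1
    haveI hPn : (P : Subgroup G).Normal := P.normal_of_subsingleton
    obtain ⟨Q⟩ : Nonempty (Sylow 2 G) := inferInstance
    have hQ4 : Nat.card Q = 4 := by
      have h0 := sylow_card_of Q 2 3 (by rw [hG]; norm_num) (by norm_num)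
      simpa using h0
    obtain ⟨ψ, hψ⟩ : ∃ ψ : (Q : Subgroup G) →* MulAut (P : Subgroup G),
        ψ = (MulAut.conjNormal).comp (Q : Subgroup G).subtype := ⟨_, rfl⟩
    have hker : ψ.ker ≠ ⊥ := by
      intro hb
      have hinj : Function.Injective ψ := (MonoidHom.ker_eq_bot_iff _).mp hb
      have h2 := Nat.card_le_card_of_injective _ hinj
      haveI : IsCyclic (P : Subgroup G) := isCyclic_of_prime_card hP3
      rw [IsCyclic.card_mulAut, hP3, hQ4, Nat.totient_prime Nat.prime_three] at h2
      omega
    have h2ker : 2 ∣ Nat.card ψ.ker := by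
      have hd : Nat.card ψ.ker ∣ 4 := hQ4 ▸ Subgroup.card_subgroup_dvd_card ψ.ker
      have hne1 : Nat.card ψ.ker ≠ 1 := fun e => hker (Subgroup.card_eq_one.mp e)
      have hle : Nat.card ψ.ker ≤ 4 := Nat.le_of_dvd (by norm_num) hd
      interval_cases (Nat.card ψ.ker) <;> simp_all
    obtain ⟨z, hz2⟩ := exists_prime_orderOf_dvd_card' (G := ψ.ker) 2 h2ker
    obtain ⟨z₀, hz₀⟩ : ∃ z₀ : G, z₀ = ((z : (Q : Subgroup G)) : G) := ⟨_, rfl⟩
    have hz₀ord : orderOf z₀ = 2 := by
      rw [hz₀, Subgroup.orderOf_coe, Subgroup.orderOf_coe]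
      exact hz2
    apply hz z₀ hz₀ord
    rw [Subgroup.mem_center_iff]
    intro g
    have hcomp : Subgroup.IsComplement' (P : Subgroup G) (Q : Subgroup G) :=
      Subgroup.isComplement'_of_coprime (by rw [hP3, hQ4, hG]) (by rw [hP3, hQ4]; norm_num)
    obtain ⟨⟨p, q⟩, hpq⟩ := hcomp.2 g
    have hpq' : (p : G) * (q : G) = g := hpq
    have hzp : z₀ * (p : G) = (p : G) * z₀ := by
      have hzker : ψ z = 1 := z.2
      have h3 := congrArg (fun f : MulAut (P : Subgroup G) => ((f p : (P : Subgroup G)) : G)) hzker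
      subst hψ
      simp only [MonoidHom.comp_apply, Subgroup.coe_subtype, MulAut.conjNormal_apply,
        MulAut.one_apply] at h3
      rw [← hz₀] at h3
      calc z₀ * (p : G) = (z₀ * p * z₀⁻¹) * z₀ := by group
        _ = p * z₀ := by rw [h3]
    have hzq : z₀ * (q : G) = (q : G) * z₀ := by
      have hcomm := IsPGroup.commutative_of_card_eq_prime_sq (p := 2) (G := (Q : Subgroup G))
        (by rw [hQ4]; norm_num) (z : (Q : Subgroup G)) q
      have h5 := congrArg (fun t : (Q : Subgroup G) => (t : G)) hcomm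
      rw [hz₀]
      exact h5
    rw [← hpq']
    calc (p : G) * q * z₀ = p * (z₀ * q) := by rw [hzq]; group
      _ = (z₀ * p) * q := by rw [hzp]; group
      _ = z₀ * (p * q) := by group
  · haveI : Fintype (Sylow 3 G) := Fintype.ofFinite _
    have hα : Fintype.card (Sylow 3 G) = 4 := by
      rw [← Nat.card_eq_fintype_card]
      exact h4
    have hker : (MulAction.toPermHom G (Sylow 3 G)).ker = ⊥ := by
      rw [eq_bot_iff]
      intro g hg
      rw [MonoidHom.mem_ker] at hg
      have hfix : ∀ P' : Sylow 3 G, g ∈ (P' : Subgroup G) := by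
        intro P'
        have h1 : g • P' = P' := by
          have h0 := congrArg (fun σ : Equiv.Perm (Sylow 3 G) => σ P') hg
          simpa using h0
        rw [Sylow.smul_eq_iff_mem_normalizer] at h1
        have hidx : (Subgroup.normalizer ((P' : Subgroup G) : Set G)).index = 4 := by
          have h0 := P'.card_eq_index_normalizer
          rw [h4] at h0
          exact h0.symm
        have hN3 : Nat.card (Subgroup.normalizer ((P' : Subgroup G) : Set G)) = 3 := by
          have h0 := Subgroup.card_mul_index (Subgroup.normalizer ((P' : Subgroup G) : Set G))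
          rw [hidx, hG] at h0
          omega
        have heq : (P' : Subgroup G) = Subgroup.normalizer ((P' : Subgroup G) : Set G) :=
          Subgroup.eq_of_le_of_card_ge Subgroup.le_normalizer (by rw [hN3, hS3 P'])
        rw [heq]
        exact h1
      obtain ⟨P₁, P₂, hne⟩ : ∃ P₁ P₂ : Sylow 3 G, P₁ ≠ P₂ := by
        haveI : Nontrivial (Sylow 3 G) := by
          rw [← Fintype.one_lt_card_iff_nontrivial, hα]
          norm_num
        exact exists_pair_ne _
      by_contra hg1
      rw [Subgroup.mem_bot] at hg1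
      have hzp : ∀ P' : Sylow 3 G, Subgroup.zpowers g = (P' : Subgroup G) := by
        intro P'
        apply Subgroup.eq_of_le_of_card_ge (Subgroup.zpowers_le.mpr (hfix P'))
        rw [hS3 P', Nat.card_zpowers]
        have hd : orderOf g ∣ 3 := by
          have h0 := Subgroup.orderOf_dvd_natCard (P' : Subgroup G) (hfix P')
          rwa [hS3 P'] at h0
        have hne1 : orderOf g ≠ 1 := fun e => hg1 (orderOf_eq_one_iff.mp e)
        have h0 := (Nat.dvd_prime Nat.prime_three).mp hd
        omega
      exact hne (Sylow.ext ((hzp P₁).symm.trans (hzp P₂)))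
    exact nonempty_equiv_alternating_of_injective hα _ ((MonoidHom.ker_eq_bot_iff _).mp hker)
      (by rw [hG]; rfl)

end Cfsg.Agent.S0228
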