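import Cfsg.Statements.S1018
import Cfsg.Agent.Helper13.Syl
import Cfsg.Agent.Lead.Glauberman
import Mathlib

set_option autoImplicit false
open Cfsg
open scoped Pointwise

namespace Cfsg.Agent.S1018

lemma zpowers_eq_of_card {G : Type*} [Group G] [Finite G] {p : ℕ} (hp : p.Prime) {P : Subgroup G}
    (hP : Nat.card P = p) {w : G} (hw : w ∈ P) (hw1 : w ≠ 1) : Subgroup.zpowers w = P := by
  have hle : Subgroup.zpowers w ≤ P := Subgroup.zpowers_le.mpr hw
  apply Subgroup.eq_of_le_of_card_ge hle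
  have h1 : orderOf w ∣ p := hP ▸ Subgroup.orderOf_dvd_natCard P hw
  have h2 : orderOf w ≠ 1 := fun h => hw1 (orderOf_eq_one_iff.mp h)
  rw [hP, Nat.card_zpowers]
  rcases (Nat.dvd_prime hp).mp h1 with h | h
  · exact absurd h h2
  · exact h.ge

lemma mem_of_mem_normalizer {G : Type*} [Group G] [Finite G] {p : ℕ} [Fact p.Prime] (P : Sylow p G)
    {w : G} (hwN : w ∈ Subgroup.normalizer ((P : Subgroup G) : Set G))
    (hwp : w ^ p = 1) : w ∈ (P : Subgroup G) := by
  have hpg : IsPGroup p (Subgroup.zpowers w) :=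
    Helper13.isPGroup_zpowers_of_pow_eq_one w 1 (by rw [pow_one]; exact hwp)
  have h1 : Subgroup.zpowers w ⊓ Subgroup.normalizer ((P : Subgroup G) : Set G) =
      Subgroup.zpowers w ⊓ (P : Subgroup G) := hpg.inf_normalizer_sylow P
  have h2 : w ∈ Subgroup.zpowers w ⊓ Subgroup.normalizer ((P : Subgroup G) : Set G) :=
    Subgroup.mem_inf.mpr ⟨Subgroup.mem_zpowers w, hwN⟩
  rw [h1] at h2
  exact (Subgroup.mem_inf.mp h2).2

lemma fix_iff {G : Type*} [Group G] (N : Subgroup G) (y g : G) :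
    y • (QuotientGroup.mk g : G ⧸ N) = QuotientGroup.mk g ↔ g⁻¹ * y * g ∈ N := by
  change (QuotientGroup.mk (y * g) : G ⧸ N) = QuotientGroup.mk g ↔ _
  rw [QuotientGroup.eq, ← N.inv_mem_iff]
  have : ((y * g)⁻¹ * g)⁻¹ = g⁻¹ * y * g := by group
  rw [this]

lemma conj_mem_normalizer {G : Type*} [Group G] [Finite G] {p : ℕ} (hp : p.Prime) {P : Subgroup G}
    (hP : Nat.card P = p) {w c : G} (hw : w ∈ P) (hw1 : w ≠ 1) (hc : c * w * c⁻¹ ∈ P) :
    c ∈ Subgroup.normalizer (P : Set G) := by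
  rw [Lead.mem_normalizer_iff_conj_smul]
  have h1 : MulAut.conj c • (Subgroup.zpowers w) = Subgroup.zpowers (c * w * c⁻¹) := by
    change Subgroup.map (MulAut.conj c).toMonoidHom (Subgroup.zpowers w) = _
    rw [MonoidHom.map_zpowers]; rfl
  have hne : c * w * c⁻¹ ≠ 1 := by
    intro h
    apply hw1
    have : w = c⁻¹ * (c * w * c⁻¹) * c := by group
    rw [this, h]; group
  rw [← zpowers_eq_of_card hp hP hw hw1] at hc ⊢
  rw [h1]
  rw [zpowers_eq_of_card hp hP hw hw1] at hc ⊢
  exact zpowers_eq_of_card hp hP hc hne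

/-- Let P be a Sylow p-subgroup of order p of a finite group G, and consider the action of G on the left cosets of the normalizer N of P. Then every element of order p fixes exactly one coset, and an element of N that does not centralize P fixes at most as many cosets as there are orbits of P. -/
theorem result {G : Type*} [Group G] [Finite G] (p : ℕ) [Fact p.Prime] (P : Sylow p G) (hP : Nat.card ↥(P : Subgroup G) = p) : (∀ y : G, orderOf y = p → Nat.card (MulAction.fixedBy (G ⧸ Subgroup.normalizer ((P : Subgroup G) : Set G)) y) = 1) ∧ ∀ x : G, x ∈ Subgroup.normalizer ((P : Subgroup G) : Set G) → x ∉ Subgroup.centralizer ((P : Subgroup G) : Set G) → Nat.card (MulAction.fixedBy (G ⧸ Subgroup.normalizer ((P : Subgroup G) : Set G)) x) ≤ Nat.card (MulAction.orbitRel.Quotient ↥(P : Subgroup G) (G ⧸ Subgroup.normalizer ((P : Subgroup G) : Set G))) := by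
  have hp : p.Prime := Fact.out
  obtain ⟨N, hN⟩ : ∃ N : Subgroup G, N = Subgroup.normalizer ((P : Subgroup G) : Set G) := ⟨_, rfl⟩
  rw [← hN]
  have hPN : (P : Subgroup G) ≤ N := hN ▸ Subgroup.le_normalizer
  refine ⟨?_, ?_⟩
  · intro y hy
    have hyp : y ^ p = 1 := hy ▸ pow_orderOf_eq_one y
    have hy1 : y ≠ 1 := by
      rintro rfl
      rw [orderOf_one] at hy
      exact hp.one_lt.ne hy
    rw [Nat.card_eq_one_iff_unique]
    constructor
    · constructor
      rintro ⟨c, hc⟩ ⟨c', hc'⟩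
      apply Subtype.ext
      obtain ⟨a, rfl⟩ := QuotientGroup.mk_surjective c
      obtain ⟨b, rfl⟩ := QuotientGroup.mk_surjective c'
      have ha : a⁻¹ * y * a ∈ N := (fix_iff N y a).mp hc
      have hb : b⁻¹ * y * b ∈ N := (fix_iff N y b).mp hc'
      have haP : a⁻¹ * y * a ∈ (P : Subgroup G) :=
        mem_of_mem_normalizer P (hN ▸ ha) (Helper13.conj_pow_eq_one' a y p hyp)
      have hbP : b⁻¹ * y * b ∈ (P : Subgroup G) :=
        mem_of_mem_normalizer P (hN ▸ hb) (Helper13.conj_pow_eq_one' b y p hyp)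
      have hne : a⁻¹ * y * a ≠ 1 := by
        intro h
        apply hy1
        have : y = a * (a⁻¹ * y * a) * a⁻¹ := by group
        rw [this, h]; group
      have hc2 : (b⁻¹ * a) * (a⁻¹ * y * a) * (b⁻¹ * a)⁻¹ ∈ (P : Subgroup G) := by
        have : (b⁻¹ * a) * (a⁻¹ * y * a) * (b⁻¹ * a)⁻¹ = b⁻¹ * y * b := by group
        rw [this]; exact hbP
      have hcN := conj_mem_normalizer hp hP haP hne hc2
      rw [← hN] at hcN
      rw [QuotientGroup.eq]
      have := N.inv_mem hcN
      have e : (b⁻¹ * a)⁻¹ = a⁻¹ * b := by group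
      rw [e] at this
      exact this
    · have hpg : IsPGroup p (Subgroup.zpowers y) :=
        Helper13.isPGroup_zpowers_of_pow_eq_one y 1 (by rw [pow_one]; exact hyp)
      obtain ⟨g, hg⟩ := Helper13.exists_conj_le_sylow P (Subgroup.zpowers y) hpg
      have h1 := hPN (hg y (Subgroup.mem_zpowers y))
      refine ⟨⟨QuotientGroup.mk g⁻¹, ?_⟩⟩
      rw [MulAction.mem_fixedBy, fix_iff, inv_inv]
      exact h1
  · intro x hxN hxC
    apply Nat.card_le_card_of_injective
      (fun c : MulAction.fixedBy (G ⧸ N) x =>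
        (Quotient.mk'' c.1 : MulAction.orbitRel.Quotient ↥(P : Subgroup G) (G ⧸ N)))
    rintro ⟨c, hc⟩ ⟨c', hc'⟩ hcc
    apply Subtype.ext
    have hrel := Quotient.exact' hcc
    obtain ⟨u, hu⟩ : ∃ u : ↥(P : Subgroup G), u • c' = c := hrel
    by_contra hne
    obtain ⟨g, rfl⟩ := QuotientGroup.mk_surjective c'
    have hu' : c = (QuotientGroup.mk ((u : G) * g) : G ⧸ N) := hu.symm
    subst hu'
    have hu1 : (u : G) ≠ 1 := by
      intro h
      apply hne
      change (QuotientGroup.mk ((u : G) * g) : G ⧸ N) = QuotientGroup.mk g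
      rw [h, one_mul]
    have h1 : g⁻¹ * x * g ∈ N := (fix_iff N x g).mp hc'
    have h2 : ((u : G) * g)⁻¹ * x * ((u : G) * g) ∈ N := (fix_iff N x ((u : G) * g)).mp hc
    -- `w = x⁻¹ u⁻¹ x u`
    have hwP : x⁻¹ * (u : G)⁻¹ * x * (u : G) ∈ (P : Subgroup G) := by
      have h3 : x⁻¹ * (u : G)⁻¹ * x⁻¹⁻¹ ∈ (P : Subgroup G) :=
        (Subgroup.mem_normalizer_iff.mp (Subgroup.inv_mem _ (hN ▸ hxN)) _).mp
          (Subgroup.inv_mem _ u.2)
      rw [inv_inv] at h3
      exact Subgroup.mul_mem _ h3 u.2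
    have hwN : g⁻¹ * (x⁻¹ * (u : G)⁻¹ * x * (u : G)) * g ∈ N := by
      have h3 := N.mul_mem (N.inv_mem h1) h2
      have e : (g⁻¹ * x * g)⁻¹ * (((u : G) * g)⁻¹ * x * ((u : G) * g)) =
          g⁻¹ * (x⁻¹ * (u : G)⁻¹ * x * (u : G)) * g := by group
      rw [e] at h3; exact h3
    by_cases hw1 : x⁻¹ * (u : G)⁻¹ * x * (u : G) = 1
    · -- `x` commutes with `u`, hence centralises `P`
      apply hxC
      have hcomm : x * (u : G) = (u : G) * x := by
        have : x * (u : G) = (u : G) * x * (x⁻¹ * (u : G)⁻¹ * x * (u : G)) := by group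
        rw [this, hw1, mul_one]
      rw [Subgroup.mem_centralizer_iff]
      intro q hq
      have hq' : q ∈ Subgroup.zpowers (u : G) := by
        rw [zpowers_eq_of_card hp hP u.2 hu1]; exact hq
      obtain ⟨k, rfl⟩ := Subgroup.mem_zpowers_iff.mp hq'
      exact ((Commute.zpow_left (show Commute (u : G) x from hcomm.symm) k)).eq
    · -- `g ∈ N`
      have hwp : (g⁻¹ * (x⁻¹ * (u : G)⁻¹ * x * (u : G)) * g) ^ p = 1 := by
        apply Helper13.conj_pow_eq_one'
        have h4 : orderOf (x⁻¹ * (u : G)⁻¹ * x * (u : G)) ∣ p := by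
          have := Subgroup.orderOf_dvd_natCard _ hwP
          rw [hP] at this
          exact this
        exact orderOf_dvd_iff_pow_eq_one.mp h4
      have h5 := mem_of_mem_normalizer P (hN ▸ hwN) hwp
      have h6 : g⁻¹ * (x⁻¹ * (u : G)⁻¹ * x * (u : G)) * g⁻¹⁻¹ ∈ (P : Subgroup G) := by
        rw [inv_inv]; exact h5
      have hgN := conj_mem_normalizer hp hP hwP hw1 h6
      rw [← hN] at hgN
      apply hne
      change (QuotientGroup.mk ((u : G) * g) : G ⧸ N) = QuotientGroup.mk g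
      rw [QuotientGroup.eq]
      have h7 := N.mul_mem (N.mul_mem hgN (N.inv_mem (hPN u.2))) (N.inv_mem hgN)
      have e : g⁻¹ * (u : G)⁻¹ * g⁻¹⁻¹ = ((u : G) * g)⁻¹ * g := by group
      rw [e] at h7; exact h7

end Cfsg.Agent.S1018
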