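import Cfsg.Statements.S1019
import Mathlib

set_option autoImplicit false
open Cfsg

namespace Cfsg.Agent.S1019

/-- Fibrewise counting: if all fibres of `T ⊆ A × B` over `A` are in bijection with the fibre over
`a`, then `|T| = |A| * |T_a|`. -/
lemma card_fiber_mul {A B : Type*} [Finite A] [Finite B] (T : Set (A × B)) (a : A)
    (h : ∀ a' : A, ∃ f : B ≃ B, ∀ b, (a, b) ∈ T ↔ (a', f b) ∈ T) :
    Nat.card T = Nat.card A * Nat.card {b : B // (a, b) ∈ T} := by
  classical
  haveI := Fintype.ofFinite A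
  have e : T ≃ Σ a' : A, {b : B // (a', b) ∈ T} :=
    { toFun := fun p => ⟨p.1.1, ⟨p.1.2, p.2⟩⟩
      invFun := fun q => ⟨(q.1, q.2.1), q.2.2⟩
      left_inv := fun p => rfl
      right_inv := fun q => rfl }
  rw [Nat.card_congr e, Nat.card_sigma]
  have hfib : ∀ a' : A, Nat.card {b : B // (a', b) ∈ T} = Nat.card {b : B // (a, b) ∈ T} := by
    intro a'
    obtain ⟨f, hf⟩ := h a'
    exact (Nat.card_congr (f.subtypeEquiv hf)).symm
  rw [Finset.sum_congr rfl (fun a' _ => hfib a'), Finset.sum_const, Finset.card_univ,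
    smul_eq_mul, Nat.card_eq_fintype_card (α := A)]

/-- conjugation as a permutation of the conjugacy class of `x`. -/
def conjCl {G : Type*} [Group G] (x g : G) : {y : G // IsConj x y} ≃ {y : G // IsConj x y} where
  toFun y := ⟨g * y * g⁻¹, y.2.trans (isConj_iff.mpr ⟨g, rfl⟩)⟩
  invFun y := ⟨g⁻¹ * y * g⁻¹⁻¹, y.2.trans (isConj_iff.mpr ⟨g⁻¹, rfl⟩)⟩
  left_inv y := by apply Subtype.ext; simp [mul_assoc]
  right_inv y := by apply Subtype.ext; simp [mul_assoc]

/-- Let H be a subgroup of a finite group G and x an element of H. In the action of G on the left cosets of H, the number of cosets fixed by x, multiplied by the size of the conjugacy class of x, equals the index of H multiplied by the number of conjugates of x that lie in H. -/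
theorem result {G : Type*} [Group G] [Finite G] (H : Subgroup G) (x : G) (hx : x ∈ H) : Nat.card (MulAction.fixedBy (G ⧸ H) x) * Nat.card {g : G // IsConj x g} = H.index * Nat.card {g : G // IsConj x g ∧ g ∈ H} := by
  -- `T = {(y, c) | y • c = c}` counted in two ways
  have hswap : Nat.card ({q | (q.1 : G) • q.2 = q.2} : Set ({y : G // IsConj x y} × (G ⧸ H))) =
      Nat.card ({q | (q.2 : G) • q.1 = q.1} : Set ((G ⧸ H) × {y : G // IsConj x y})) := by
    apply Nat.card_congr
    refine (Equiv.prodComm _ _).subtypeEquiv ?_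
    intro q
    rfl
  have h1 := card_fiber_mul
    ({q | (q.1 : G) • q.2 = q.2} : Set ({y : G // IsConj x y} × (G ⧸ H))) ⟨x, IsConj.refl x⟩ (by
    rintro ⟨y, hy⟩
    obtain ⟨g, hg⟩ := isConj_iff.mp hy
    refine ⟨MulAction.toPerm g, fun c => ?_⟩
    change x • c = c ↔ y • (g • c) = g • c
    rw [← hg, ← mul_smul]
    have : g * x * g⁻¹ * g = g * x := by group
    rw [this, mul_smul]
    exact (smul_left_cancel_iff g).symm)
  have h2 := card_fiber_mul
    ({q | (q.2 : G) • q.1 = q.1} : Set ((G ⧸ H) × {y : G // IsConj x y}))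
    (QuotientGroup.mk 1 : G ⧸ H) (by
    intro c
    obtain ⟨g, rfl⟩ := QuotientGroup.mk_surjective c
    refine ⟨conjCl x g, fun y => ?_⟩
    change (y : G) • (QuotientGroup.mk 1 : G ⧸ H) = QuotientGroup.mk 1 ↔
      (g * (y : G) * g⁻¹) • (QuotientGroup.mk g : G ⧸ H) = QuotientGroup.mk g
    have e1 : (g * (y : G) * g⁻¹) • (QuotientGroup.mk g : G ⧸ H) =
        g • ((y : G) • (QuotientGroup.mk 1 : G ⧸ H)) := by
      change (QuotientGroup.mk (g * (y : G) * g⁻¹ * g) : G ⧸ H) =
        QuotientGroup.mk (g * ((y : G) * 1))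
      congr 1; group
    have e2 : (QuotientGroup.mk g : G ⧸ H) = g • (QuotientGroup.mk 1 : G ⧸ H) := by
      change (QuotientGroup.mk g : G ⧸ H) = QuotientGroup.mk (g * 1)
      rw [mul_one]
    rw [e1]
    conv_rhs => rw [e2]
    exact (smul_left_cancel_iff g).symm)
  have e3 : Nat.card {b : G ⧸ H // ((⟨x, IsConj.refl x⟩ : {y : G // IsConj x y}), b) ∈
      ({q | (q.1 : G) • q.2 = q.2} : Set ({y : G // IsConj x y} × (G ⧸ H)))} =
      Nat.card (MulAction.fixedBy (G ⧸ H) x) := by
    apply Nat.card_congr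
    refine Equiv.subtypeEquivRight ?_
    intro c
    rfl
  have e4 : Nat.card {b : {y : G // IsConj x y} // ((QuotientGroup.mk 1 : G ⧸ H), b) ∈
      ({q | (q.2 : G) • q.1 = q.1} : Set ((G ⧸ H) × {y : G // IsConj x y}))} =
      Nat.card {g : G // IsConj x g ∧ g ∈ H} := by
    apply Nat.card_congr
    refine
      { toFun := fun b => ⟨b.1.1, b.1.2, ?_⟩
        invFun := fun g => ⟨⟨g.1, g.2.1⟩, ?_⟩
        left_inv := fun b => rfl
        right_inv := fun g => rfl }
    · have hb' : (QuotientGroup.mk ((b.1 : G) * 1) : G ⧸ H) = QuotientGroup.mk 1 := b.2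
      rw [QuotientGroup.eq] at hb'
      have := H.inv_mem hb'
      simpa using this
    · change (QuotientGroup.mk ((g : G) * 1) : G ⧸ H) = QuotientGroup.mk 1
      rw [QuotientGroup.eq]
      have := H.inv_mem g.2.2
      simpa using this
  rw [e3] at h1
  rw [e4] at h2
  rw [mul_comm, ← h1, hswap, h2]
  rfl

end Cfsg.Agent.S1019
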