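import Cfsg.Statements.S0989
import Cfsg.Agent.Helper24.SelfCent
import Cfsg.Agent.S0001
import Mathlib

set_option autoImplicit false
open Cfsg

namespace Cfsg.Agent.S0989

/-- In the symmetric group on p or p + 1 letters, p a prime, the normalizer of a Sylow p-subgroup has order p * (p - 1). -/
theorem result {α : Type*} [Fintype α] [DecidableEq α] (p : ℕ) [Fact p.Prime] (hα : Fintype.card α = p ∨ Fintype.card α = p + 1) (P : Sylow p (Equiv.Perm α)) : Nat.card ↥(Subgroup.normalizer ((P : Subgroup (Equiv.Perm α)) : Set (Equiv.Perm α))) = p * (p - 1) := by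
  have hp : p.Prime := Fact.out
  have hct : ∀ σ : Equiv.Perm α, orderOf σ = p → σ.cycleType = {p} := by
    intro σ hσ
    obtain ⟨n, hn⟩ := Equiv.Perm.cycleType_prime_order (σ := σ) (hσ ▸ hp)
    have h1 := σ.sum_cycleType_le
    rw [hn, Multiset.sum_replicate, hσ, smul_eq_mul] at h1
    have hn0 : n = 0 := by
      have h2 : (n + 1) * p ≤ p + 1 := by rcases hα with h | h <;> omega
      by_contra hne
      have : 2 * p ≤ (n + 1) * p := Nat.mul_le_mul_right p (by omega)
      have := hp.two_le
      omega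
    rw [hn, hn0, hσ]; rfl
  have hdvd : p ∣ Nat.card (Equiv.Perm α) := by
    rw [Nat.card_perm, Nat.card_eq_fintype_card]
    apply Nat.dvd_factorial hp.pos
    rcases hα with h | h <;> omega
  have hPdvd : p ∣ Nat.card P := by
    rw [P.card_eq_multiplicity]
    apply dvd_pow_self
    exact (Nat.Prime.factorization_pos_of_dvd hp Nat.card_pos.ne' hdvd).ne'
  obtain ⟨σ, hσ⟩ := exists_prime_orderOf_dvd_card' p hPdvd
  have hσ' : orderOf (σ : Equiv.Perm α) = p := by rw [Subgroup.orderOf_coe]; exact hσ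
  have hC : Subgroup.centralizer ({(σ : Equiv.Perm α)} : Set (Equiv.Perm α)) =
      Subgroup.zpowers (σ : Equiv.Perm α) := by
    symm
    apply Subgroup.eq_of_le_of_card_ge
    · rw [Subgroup.zpowers_le]; exact Subgroup.mem_centralizer_singleton_iff.mpr rfl
    · rw [Equiv.Perm.nat_card_centralizer, hct _ hσ', Nat.card_zpowers, hσ']
      rcases hα with h | h <;> simp [h]
  have h1 := Helper24.sc_class_count hp hσ' hC
  have ht : Nat.card {C : ConjClasses (Equiv.Perm α) // ∃ g ∈ C.carrier, orderOf g = p} = 1 := by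
    rw [Nat.card_eq_one_iff_unique]
    constructor
    · constructor
      rintro ⟨C, g, hg, hgo⟩ ⟨C', g', hg', hgo'⟩
      apply Subtype.ext
      change C = C'
      have e1 := ConjClasses.mem_carrier_iff_mk_eq.mp hg
      have e2 := ConjClasses.mem_carrier_iff_mk_eq.mp hg'
      rw [← e1, ← e2, ConjClasses.mk_eq_mk_iff_isConj, Equiv.Perm.isConj_iff_cycleType_eq,
        hct g hgo, hct g' hgo']
    · exact ⟨⟨ConjClasses.mk (σ : Equiv.Perm α), (σ : Equiv.Perm α),
        ConjClasses.mem_carrier_mk, hσ'⟩⟩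
  rw [ht, one_mul] at h1
  have hPeq : (P : Subgroup (Equiv.Perm α)) = Subgroup.zpowers (σ : Equiv.Perm α) := by
    symm
    apply Subgroup.eq_of_le_of_card_ge (Subgroup.zpowers_le.mpr σ.2)
    rw [Helper24.sc_sylow_card hp hσ' hC P, Nat.card_zpowers, hσ']
  rw [hPeq]
  have h2 := ((Subgroup.zpowers (σ : Equiv.Perm α)).subgroupOf (Subgroup.normalizer
    ((Subgroup.zpowers (σ : Equiv.Perm α) : Subgroup _) : Set _))).card_mul_index
  rw [S0001.card_subgroupOf_of_le Subgroup.le_normalizer, Nat.card_zpowers, hσ'] at h2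
  rw [← h2]
  congr 1

end Cfsg.Agent.S0989
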