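import Cfsg.Statements.S0990
import Cfsg.Agent.S0001
import Mathlib

set_option autoImplicit false
open Cfsg

namespace Cfsg.Agent.S0990

/-- Let p be an odd prime and P a Sylow p-subgroup of the symmetric group on a finite set with at least two elements. Then P is contained in the alternating group, and twice the order of the normalizer of P inside the alternating group equals the order of the normalizer of P in the symmetric group. -/
theorem result {α : Type*} [Fintype α] [DecidableEq α] (hα : 2 ≤ Fintype.card α) (p : ℕ) [Fact p.Prime] (hp : p ≠ 2) (P : Sylow p (Equiv.Perm α)) : (P : Subgroup (Equiv.Perm α)) ≤ alternatingGroup α ∧ 2 * Nat.card ↥(Subgroup.normalizer ((((P : Subgroup (Equiv.Perm α)).subgroupOf (alternatingGroup α) : Subgroup ↥(alternatingGroup α)) : Set ↥(alternatingGroup α)))) = Nat.card ↥(Subgroup.normalizer ((P : Subgroup (Equiv.Perm α)) : Set (Equiv.Perm α))) := by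
  have hpp : p.Prime := Fact.out
  haveI : Nontrivial α := Fintype.one_lt_card_iff_nontrivial.mp (by omega)
  have hPA : (P : Subgroup (Equiv.Perm α)) ≤ alternatingGroup α := by
    intro σ hσ
    rw [Equiv.Perm.mem_alternatingGroup]
    obtain ⟨k, hk⟩ := P.isPGroup' ⟨σ, hσ⟩
    have hk' : σ ^ p ^ k = 1 := by
      have := congrArg Subtype.val hk
      simpa using this
    have h1 : (Equiv.Perm.sign σ) ^ p ^ k = 1 := by rw [← map_pow, hk', map_one]
    rcases Int.units_eq_one_or (Equiv.Perm.sign σ) with h | h
    · exact h
    · exfalso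
      rw [h, Odd.neg_one_pow ((hpp.odd_of_ne_two hp).pow)] at h1
      exact absurd h1 (by decide)
  refine ⟨hPA, ?_⟩
  have hfrat : Subgroup.normalizer ((P : Subgroup (Equiv.Perm α)) : Set (Equiv.Perm α)) ⊔
      alternatingGroup α = ⊤ := Sylow.normalizer_sup_eq_top' P hPA
  have h1 : (alternatingGroup α).relIndex (Subgroup.normalizer ((P : Subgroup (Equiv.Perm α)) :
      Set (Equiv.Perm α))) = 2 := by
    rw [← Subgroup.relIndex_sup_right, hfrat, Subgroup.relIndex_top_right,
      alternatingGroup.index_eq_two]
  have h2 : Subgroup.normalizer ((((P : Subgroup (Equiv.Perm α)).subgroupOf (alternatingGroup α) :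
      Subgroup ↥(alternatingGroup α)) : Set ↥(alternatingGroup α))) =
      (Subgroup.normalizer ((P : Subgroup (Equiv.Perm α)) : Set (Equiv.Perm α))).subgroupOf
        (alternatingGroup α) := by
    have := Subgroup.comap_normalizer_eq_of_le_range (f := (alternatingGroup α).subtype)
      (H := (P : Subgroup (Equiv.Perm α))) (by rw [Subgroup.range_subtype]; exact hPA)
    exact this.symm
  rw [h2]
  have h3 : Nat.card ((Subgroup.normalizer ((P : Subgroup (Equiv.Perm α)) :
      Set (Equiv.Perm α))).subgroupOf (alternatingGroup α)) =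
      Nat.card ((alternatingGroup α).subgroupOf (Subgroup.normalizer
        ((P : Subgroup (Equiv.Perm α)) : Set (Equiv.Perm α)))) := by
    rw [← Subgroup.inf_subgroupOf_right, S0001.card_subgroupOf_of_le inf_le_right,
      ← Subgroup.inf_subgroupOf_right (alternatingGroup α),
      S0001.card_subgroupOf_of_le inf_le_right, inf_comm]
  rw [h3]
  have h4 := ((alternatingGroup α).subgroupOf (Subgroup.normalizer
        ((P : Subgroup (Equiv.Perm α)) : Set (Equiv.Perm α)))).card_mul_index
  have h5 : ((alternatingGroup α).subgroupOf (Subgroup.normalizer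
        ((P : Subgroup (Equiv.Perm α)) : Set (Equiv.Perm α)))).index = 2 := h1
  rw [h5] at h4
  rw [← h4, mul_comm]

end Cfsg.Agent.S0990
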