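import Cfsg.Statements.S4510
import Cfsg.Agent.Helper24.BlockDeg2
import Cfsg.Agent.Helper7.Defect

set_option autoImplicit false
open Cfsg

namespace Cfsg.Agent.S4510

open Cfsg.Agent.Helper25 Cfsg.Agent.Helper24

theorem li_centralChar_of_small {G : Type*} [Group G] [Finite G] {p : ℕ} {M : Ideal AlgInt}
    (hM : IsPModular p M) (χ : IrrCharacter G) (g : G)
    (h : (Nat.card (Subgroup.centralizer ({g} : Set G))).factorization p <
      blockDefect p (blockOf M (χ : G → ℂ))) :
    MemLocalIdeal M (centralChar (χ : G → ℂ) g) := by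
  classical
  have hp := hM.1
  set B := blockOf M (χ : G → ℂ) with hBdef
  have hB : IsPBlock M B := isPBlock_blockOf χ
  have hχB : χ ∈ B := self_mem_blockOf hM χ
  set Sset := (fun ψ : IrrCharacter G => (charDegree (ψ : G → ℂ)).factorization p) '' B
    with hSset
  have hSne : Sset.Nonempty := ⟨_, χ, hχB, rfl⟩
  obtain ⟨χ₀, hχ₀, hχ₀h⟩ := Nat.sInf_mem hSne
  have hdef : blockDefect p B = (Nat.card G).factorization p - sInf Sset := rfl
  by_contra hnli
  have h1 : ¬ MemLocalIdeal M (centralChar (χ₀ : G → ℂ) g) := by
    intro h2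
    apply hnli
    have h3 := sameBlock_of_mem hM hB hχB hχ₀ g
    have h4 := li_add hM h3 h2
    rwa [sub_add_cancel] at h4
  have h2 := defect_bound hM χ₀ g h1
  have hχ₀h' : (charDegree (χ₀ : G → ℂ)).factorization p = sInf Sset := hχ₀h
  rw [hdef] at h
  omega

theorem li_blockCoeff_of_large {G : Type*} [Group G] [Finite G] {p : ℕ} {M : Ideal AlgInt}
    (hM : IsPModular p M) {B : Set (IrrCharacter G)} (hB : IsPBlock M B) (g : G)
    (h : blockDefect p B < (Nat.card (Subgroup.centralizer ({g} : Set G))).factorization p) :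
    MemLocalIdeal M (blockCoeff B g) := by
  classical
  have hp := hM.1
  by_contra hnli
  set a := (Nat.card G).factorization p with ha
  set C := Subgroup.centralizer ({g} : Set G) with hC
  set δ := (Nat.card C).factorization p with hδ
  have hidx : C.index * Nat.card C = Nat.card G := C.index_mul_card
  have hidx0 : C.index ≠ 0 := Subgroup.index_ne_zero_of_finite
  have hC0 : Nat.card C ≠ 0 := Nat.card_pos.ne'
  have hfac : a = C.index.factorization p + δ := by
    rw [ha, ← hidx, Nat.factorization_mul hidx0 hC0]
    rfl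
  have hβ : ¬ p ^ (C.index.factorization p + 1) ∣ C.index := by
    intro h1
    have := (hp.pow_dvd_iff_le_factorization hidx0).mp h1
    omega
  obtain ⟨χ', hχ'B, hχ'⟩ := Cfsg.Agent.Helper7.exists_degree_not_dvd hM hB g hnli _ hβ
  have h3 : (charDegree (χ' : G → ℂ)).factorization p < C.index.factorization p + 1 := by
    by_contra h4
    push Not at h4
    exact hχ' ((hp.pow_dvd_iff_le_factorization (irr_degree_pos χ').ne').mpr h4)
  set Sset := (fun ψ : IrrCharacter G => (charDegree (ψ : G → ℂ)).factorization p) '' B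
    with hSset
  have h4 : sInf Sset ≤ (charDegree (χ' : G → ℂ)).factorization p := Nat.sInf_le ⟨χ', hχ'B, rfl⟩
  have hdef : blockDefect p B = a - sInf Sset := rfl
  rw [hdef] at h
  omega

/-- Let G be a finite group, p a prime, M a maximal ideal of the algebraic integers containing p, and call the defect of a conjugacy class the exponent of p in the order of the centralizer of its elements. Two irreducible characters lying in p-blocks of defect exactly d lie in the same block if and only if their central characters (class size times χ(x)/χ(1)) agree modulo the local ideal at M at every p-regular element x whose class has defect exactly d. -/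
theorem result {G : Type*} [Group G] [Finite G] (p : ℕ) [Fact p.Prime] (M : Ideal Cfsg.AlgInt) (hM : Cfsg.IsPModular p M) (d : ℕ) (χ ψ : Cfsg.IrrCharacter G) (hχ : Cfsg.blockDefect p (Cfsg.blockOf M (χ : G → ℂ)) = d) (hψ : Cfsg.blockDefect p (Cfsg.blockOf M (ψ : G → ℂ)) = d) : Cfsg.SameBlock M (χ : G → ℂ) (ψ : G → ℂ) ↔ ∀ x : G, ¬ p ∣ orderOf x → (Nat.card (Subgroup.centralizer ({x} : Set G))).factorization p = d → Cfsg.MemLocalIdeal M (Cfsg.centralChar (χ : G → ℂ) x - Cfsg.centralChar (ψ : G → ℂ) x) := by
  classical
  have := Fintype.ofFinite G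
  have hp : p.Prime := Fact.out
  constructor
  · intro h x _ _
    exact h x
  · intro hyp
    set B := Cfsg.blockOf M (χ : G → ℂ) with hBdef
    have hB : Cfsg.IsPBlock M B := isPBlock_blockOf χ
    have hχB : χ ∈ B := self_mem_blockOf hM χ
    by_contra hcon
    have hψB : ψ ∉ B := hcon
    have h1 := sum_blockCoeff_mul B χ
    have h2 := sum_blockCoeff_mul B ψ
    rw [if_pos hχB] at h1
    rw [if_neg hψB] at h2
    have h3 : ∑ g : G, Cfsg.blockCoeff B g *
        ((χ : G → ℂ) g / (χ : G → ℂ) 1 - (ψ : G → ℂ) g / (ψ : G → ℂ) 1) = 1 := by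
      have h5 : ∀ g : G, Cfsg.blockCoeff B g *
          ((χ : G → ℂ) g / (χ : G → ℂ) 1 - (ψ : G → ℂ) g / (ψ : G → ℂ) 1) =
          (Cfsg.blockCoeff B g * (χ : G → ℂ) g) / (χ : G → ℂ) 1 -
            (Cfsg.blockCoeff B g * (ψ : G → ℂ) g) / (ψ : G → ℂ) 1 := by
        intro g; ring
      rw [Finset.sum_congr rfl (fun g _ => h5 g), Finset.sum_sub_distrib, ← Finset.sum_div,
        ← Finset.sum_div, h1, h2, zero_div, sub_zero, div_self (irr_one_ne_zero χ)]
    have h4 : Cfsg.MemLocalIdeal M (∑ g : G, Cfsg.blockCoeff B g *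
        ((χ : G → ℂ) g / (χ : G → ℂ) 1 - (ψ : G → ℂ) g / (ψ : G → ℂ) 1)) := by
      apply li_sum_classFun hM
      · intro g x
        rw [blockCoeff_conj, irr_conj, irr_conj]
      · intro g
        have e : ((Subgroup.centralizer ({g} : Set G)).index : ℂ) * (Cfsg.blockCoeff B g *
            ((χ : G → ℂ) g / (χ : G → ℂ) 1 - (ψ : G → ℂ) g / (ψ : G → ℂ) 1)) =
            Cfsg.blockCoeff B g *
              (Cfsg.centralChar (χ : G → ℂ) g - Cfsg.centralChar (ψ : G → ℂ) g) := by
          unfold Cfsg.centralChar
          ring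
        rw [e]
        by_cases hsing : p ∣ orderOf g
        · rw [blockCoeff_eq_zero_of_singular hM hB g hsing, zero_mul]
          exact li_zero hM
        · rcases lt_trichotomy
            ((Nat.card (Subgroup.centralizer ({g} : Set G))).factorization p) d with hlt | heq | hgt
          · exact lr_mul_li hM (blockCoeff_lr hM hB g)
              (li_sub hM (li_centralChar_of_small hM χ g (by rw [hχ]; exact hlt))
                (li_centralChar_of_small hM ψ g (by rw [hψ]; exact hlt)))
          · exact lr_mul_li hM (blockCoeff_lr hM hB g) (hyp g hsing heq)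
          · exact li_mul_lr hM (li_blockCoeff_of_large hM hB g (by rw [hχ]; exact hgt))
              (lr_sub hM (lr_of_isIntegral hM (centralChar_isIntegral χ g))
                (lr_of_isIntegral hM (centralChar_isIntegral ψ g)))
    rw [h3] at h4
    exact not_li_one hM h4

end Cfsg.Agent.S4510
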