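import Cfsg.Statements.S4505
import Cfsg.Agent.S4510

set_option autoImplicit false
open Cfsg

namespace Cfsg.Agent.S4505

open Cfsg.Agent.Helper25 Cfsg.Agent.Helper24

theorem sum_eq_sum_conjClasses {G : Type*} [Group G] [Fintype G] [Fintype (ConjClasses G)]
    (rep : ConjClasses G → G) (hrep : ∀ C, ConjClasses.mk (rep C) = C) (F : G → ℂ)
    (hF : ∀ g x : G, F (x * g * x⁻¹) = F g) :
    ∑ g : G, F g = ∑ C : ConjClasses G,
      ((Subgroup.centralizer ({rep C} : Set G)).index : ℂ) * F (rep C) := by
  classical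
  rw [← Finset.sum_fiberwise (Finset.univ) (ConjClasses.mk) F]
  apply Finset.sum_congr rfl
  intro C _
  have h2 : ∀ g ∈ Finset.univ.filter (fun g : G => ConjClasses.mk g = C), F g = F (rep C) := by
    intro g hg
    have h3 : ConjClasses.mk g = ConjClasses.mk (rep C) := by
      rw [(Finset.mem_filter.mp hg).2, hrep]
    obtain ⟨c, hc⟩ := isConj_iff.mp (ConjClasses.mk_eq_mk_iff_isConj.mp h3)
    rw [← hc, hF]
  rw [Finset.sum_congr rfl h2, Finset.sum_const, nsmul_eq_mul]
  congr 1
  rw [index_centralizer_eq_card_class, Nat.card_eq_fintype_card, Fintype.card_subtype]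
  congr 2
  ext y
  simp only [Finset.mem_filter, Finset.mem_univ, true_and]
  constructor
  · intro h
    rw [← hrep C] at h
    exact (ConjClasses.mk_eq_mk_iff_isConj.mp h).symm
  · intro h
    rw [← hrep C]
    exact ConjClasses.mk_eq_mk_iff_isConj.mpr h.symm

/-- Let G be a finite group, p a prime and M a maximal ideal of the algebraic integers containing p. For every σ, the number of p-blocks of defect exactly σ is at most the number of conjugacy classes of p-regular elements whose centralizer has order divisible by p^σ but not by p^(σ+1). -/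
theorem result {G : Type*} [Group G] [Finite G] (p : ℕ) [Fact p.Prime] (M : Ideal Cfsg.AlgInt) (hM : Cfsg.IsPModular p M) (σ : ℕ) : Nat.card {B : Set (Cfsg.IrrCharacter G) // Cfsg.IsPBlock M B ∧ Cfsg.blockDefect p B = σ} ≤ Nat.card {C : ConjClasses G // ∃ g : G, ConjClasses.mk g = C ∧ ¬ p ∣ orderOf g ∧ (Nat.card (Subgroup.centralizer ({g} : Set G))).factorization p = σ} := by
  classical
  have := Fintype.ofFinite G
  have hp : p.Prime := Fact.out
  have := Fintype.ofFinite (ConjClasses G)
  have := Fintype.ofFinite {B : Set (Cfsg.IrrCharacter G) // Cfsg.IsPBlock M B ∧ Cfsg.blockDefect p B = σ}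
  have := Fintype.ofFinite {C : ConjClasses G // ∃ g : G, ConjClasses.mk g = C ∧ ¬ p ∣ orderOf g ∧ (Nat.card (Subgroup.centralizer ({g} : Set G))).factorization p = σ}
  by_contra hlt
  push Not at hlt
  let rep : ConjClasses G → G := Function.surjInv ConjClasses.mk_surjective
  have hrep : ∀ C, ConjClasses.mk (rep C) = C := Function.surjInv_eq _
  have hne : ∀ B : {B : Set (Cfsg.IrrCharacter G) // Cfsg.IsPBlock M B ∧ Cfsg.blockDefect p B = σ},
      ∃ χ : Cfsg.IrrCharacter G, χ ∈ B.1 := by
    intro B
    obtain ⟨χ₁, h⟩ := B.2.1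
    exact ⟨χ₁, h ▸ self_mem_blockOf hM χ₁⟩
  choose ch hch using hne
  let Pred : ConjClasses G → Prop := fun C => ∃ g : G, ConjClasses.mk g = C ∧ ¬ p ∣ orderOf g ∧
    (Nat.card (Subgroup.centralizer ({g} : Set G))).factorization p = σ
  let A : Matrix {B : Set (Cfsg.IrrCharacter G) // Cfsg.IsPBlock M B ∧ Cfsg.blockDefect p B = σ}
      {C : ConjClasses G // Pred C} ℂ := fun B C => Cfsg.blockCoeff B.1 (rep C.1)
  let W : Matrix {C : ConjClasses G // Pred C}
      {B : Set (Cfsg.IrrCharacter G) // Cfsg.IsPBlock M B ∧ Cfsg.blockDefect p B = σ} ℂ :=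
    fun C B => Cfsg.centralChar (ch B : G → ℂ) (rep C.1)
  have hAW : ∀ B B', Cfsg.MemLocalIdeal M ((A * W) B B' -
      (1 : Matrix _ _ ℂ) B B') := by
    intro B B'
    set F : G → ℂ := fun g => Cfsg.blockCoeff B.1 g *
      ((ch B' : G → ℂ) g / (ch B' : G → ℂ) 1) with hFdef
    have hFsum : ∑ g : G, F g = (1 : Matrix _ _ ℂ) B B' := by
      have h1 := sum_blockCoeff_mul B.1 (ch B')
      have h2 : ∑ g : G, F g =
          (∑ g : G, Cfsg.blockCoeff B.1 g * (ch B' : G → ℂ) g) / (ch B' : G → ℂ) 1 := by
        rw [Finset.sum_div]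
        apply Finset.sum_congr rfl
        intro g _
        simp only [hFdef]
        ring
      rw [h2, h1, Matrix.one_apply]
      by_cases hBB : B = B'
      · have hmem : ch B' ∈ B.1 := by rw [hBB]; exact hch B'
        rw [if_pos hBB, if_pos hmem, div_self (irr_one_ne_zero _)]
      · have hmem : ch B' ∉ B.1 := by
          intro hmem
          apply hBB
          apply Subtype.ext
          rw [eq_blockOf_of_mem hM B.2.1 hmem, eq_blockOf_of_mem hM B'.2.1 (hch B')]
        rw [if_neg hBB, if_neg hmem, zero_div]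
    have hFcls := sum_eq_sum_conjClasses rep hrep F (by
      intro g x
      simp only [hFdef]
      rw [blockCoeff_conj, irr_conj])
    set gfun : ConjClasses G → ℂ := fun C =>
      ((Subgroup.centralizer ({rep C} : Set G)).index : ℂ) * F (rep C) with hgfun
    have hgfun_eq : ∀ C, gfun C = Cfsg.blockCoeff B.1 (rep C) *
        Cfsg.centralChar (ch B' : G → ℂ) (rep C) := by
      intro C
      simp only [hgfun, hFdef]
      unfold Cfsg.centralChar
      ring
    have hAWeq : (A * W) B B' = ∑ C : {C : ConjClasses G // Pred C}, gfun C.1 := by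
      rw [Matrix.mul_apply]
      apply Finset.sum_congr rfl
      intro C _
      rw [hgfun_eq]
    have h3 : ∑ C : {C : ConjClasses G // Pred C}, gfun C.1 =
        ∑ C ∈ Finset.univ.filter Pred, gfun C := by
      rw [Finset.sum_subtype (Finset.univ.filter Pred) (p := Pred) (by simp) gfun]
    have h4 : ∑ C : ConjClasses G, gfun C = ∑ C ∈ Finset.univ.filter Pred, gfun C +
        ∑ C ∈ Finset.univ.filter (fun C => ¬ Pred C), gfun C :=
      (Finset.sum_filter_add_sum_filter_not _ _ _).symm
    rw [← hFsum, hFcls, hAWeq, h3, h4, sub_add_cancel_left]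
    apply li_neg
    apply li_sum hM
    intro C hC
    have hC' : ¬ Pred C := (Finset.mem_filter.mp hC).2
    rw [hgfun_eq]
    by_cases hsing : p ∣ orderOf (rep C)
    · rw [blockCoeff_eq_zero_of_singular hM B.2.1 _ hsing, zero_mul]
      exact li_zero hM
    · have hne : (Nat.card (Subgroup.centralizer ({rep C} : Set G))).factorization p ≠ σ :=
        fun h => hC' ⟨rep C, hrep C, hsing, h⟩
      rcases lt_or_gt_of_ne hne with hlt' | hgt'
      · apply lr_mul_li hM (blockCoeff_lr hM B.2.1 _)
        apply Cfsg.Agent.S4510.li_centralChar_of_small hM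
        rw [← eq_blockOf_of_mem hM B'.2.1 (hch B'), B'.2.2]
        exact hlt'
      · apply li_mul_lr hM _ (lr_of_isIntegral hM (centralChar_isIntegral _ _))
        apply Cfsg.Agent.S4510.li_blockCoeff_of_large hM B.2.1
        rw [B.2.2]
        exact hgt'
  have hdet := li_det_sub hM (A * W) 1
    (fun i j => by
      rw [Matrix.mul_apply]
      exact lr_sum hM _ _ (fun C _ => lr_mul hM (blockCoeff_lr hM i.2.1 _)
        (lr_of_isIntegral hM (centralChar_isIntegral _ _))))
    (fun i j => by
      rw [Matrix.one_apply]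
      split_ifs
      · exact lr_one hM
      · exact lr_zero hM) hAW
  have hdet0 : (A * W).det = 0 := by
    by_contra hne
    have hunit : IsUnit (A * W) := (Matrix.isUnit_iff_isUnit_det _).mpr (isUnit_iff_ne_zero.mpr hne)
    have h1 := Matrix.rank_of_isUnit (A * W) hunit
    have h2 : (A * W).rank ≤ Fintype.card {C : ConjClasses G // Pred C} :=
      (Matrix.rank_mul_le_left A W).trans (Matrix.rank_le_card_width A)
    rw [← Nat.card_eq_fintype_card] at h1 h2
    have h3 : Nat.card {C : ConjClasses G // Pred C} = Nat.card {C : ConjClasses G // ∃ g : G, ConjClasses.mk g = C ∧ ¬ p ∣ orderOf g ∧ (Nat.card (Subgroup.centralizer ({g} : Set G))).factorization p = σ} := rfl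
    rw [h3] at h2
    omega
  rw [hdet0, Matrix.det_one, zero_sub] at hdet
  have h5 := li_neg hdet
  rw [neg_neg] at h5
  exact not_li_one hM h5

end Cfsg.Agent.S4505
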