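import Cfsg.Statements.S0428
import Cfsg.Agent.Helper12.S3622

set_option autoImplicit false
open Cfsg

namespace Cfsg.Agent.S0428

open Cfsg.Agent.Helper12.S3622

theorem ncard_sub {α : Type*} [DecidableEq α] (Bf : Finset (Finset α))
    (S : Set ↥(↑Bf : Set (Finset α))) (P : Finset α → Prop) [DecidablePred P]
    (h : ∀ x : ↥(↑Bf : Set (Finset α)), x ∈ S ↔ P x.1) : S.ncard = (Bf.filter P).card := by
  rw [← Set.ncard_image_of_injective S Subtype.val_injective, ← Set.ncard_coe_finset]
  congr 1
  ext d
  simp only [Set.mem_image, Finset.coe_filter]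
  constructor
  · rintro ⟨x, hx, rfl⟩
    exact ⟨Finset.mem_coe.mp x.2, (h x).mp hx⟩
  · rintro ⟨hd, hP⟩
    exact ⟨⟨d, Finset.mem_coe.mpr hd⟩, (h _).mpr hP, rfl⟩

theorem ncard_opt {α β : Type*} [Finite α] [Finite β] (S : Set (Option (α ⊕ β)))
    [Decidable (none ∈ S)] :
    S.ncard = (if none ∈ S then 1 else 0) + {a : α | some (Sum.inl a) ∈ S}.ncard
      + {b : β | some (Sum.inr b) ∈ S}.ncard := by
  have hS : S = (S ∩ {none}) ∪ ((fun a : α => (some (Sum.inl a) : Option (α ⊕ β))) ''
      {a : α | some (Sum.inl a) ∈ S}) ∪ ((fun b : β => (some (Sum.inr b) : Option (α ⊕ β))) ''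
      {b : β | some (Sum.inr b) ∈ S}) := by
    ext v
    rcases v with _ | (a | b)
    · simp
    · simp
    · simp
  have hd1 : Disjoint (S ∩ {none}) ((fun a : α => (some (Sum.inl a) : Option (α ⊕ β))) ''
      {a : α | some (Sum.inl a) ∈ S}) := by
    rw [Set.disjoint_left]
    rintro v ⟨-, hv⟩ ⟨a, -, rfl⟩
    simp at hv
  have hd2 : Disjoint ((S ∩ {none}) ∪ ((fun a : α => (some (Sum.inl a) : Option (α ⊕ β))) ''
      {a : α | some (Sum.inl a) ∈ S})) ((fun b : β => (some (Sum.inr b) : Option (α ⊕ β))) ''
      {b : β | some (Sum.inr b) ∈ S}) := by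
    rw [Set.disjoint_left]
    rintro v (⟨-, hv⟩ | ⟨a, -, rfl⟩) ⟨b, -, hb⟩
    · subst hb
      simp at hv
    · simp at hb
  have hi1 : Function.Injective (fun a : α => (some (Sum.inl a) : Option (α ⊕ β))) := by
    intro a a' h
    simpa using h
  have hi2 : Function.Injective (fun b : β => (some (Sum.inr b) : Option (α ⊕ β))) := by
    intro a a' h
    simpa using h
  have h0 : (S ∩ {none}).ncard = if none ∈ S then 1 else 0 := by
    split_ifs with h
    · have : S ∩ {none} = {none} := by
        ext v
        simp only [Set.mem_inter_iff, Set.mem_singleton_iff]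
        constructor
        · exact fun h => h.2
        · rintro rfl
          exact ⟨h, rfl⟩
      rw [this, Set.ncard_singleton]
    · have : S ∩ {none} = ∅ := by
        ext v
        simp only [Set.mem_inter_iff, Set.mem_singleton_iff, Set.mem_empty_iff_false, iff_false]
        rintro ⟨h1, rfl⟩
        exact h h1
      rw [this, Set.ncard_empty]
  conv_lhs => rw [hS]
  rw [Set.ncard_union_eq hd2 (Set.toFinite _) (Set.toFinite _),
    Set.ncard_union_eq hd1 (Set.toFinite _) (Set.toFinite _),
    Set.ncard_image_of_injective _ hi1, Set.ncard_image_of_injective _ hi2, h0]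

theorem ncard_opt' {α : Type*} [Fintype α] [DecidableEq α] (Bf : Finset (Finset α))
    (S : Set (Option (α ⊕ ↥(↑Bf : Set (Finset α))))) (n0 : ℕ) (P : Finset α)
    (Q : Finset α → Prop) [DecidablePred Q]
    (h0 : (none ∈ S ∧ n0 = 1) ∨ (none ∉ S ∧ n0 = 0))
    (h1 : ∀ a, some (Sum.inl a) ∈ S ↔ a ∈ P)
    (h2 : ∀ b : ↥(↑Bf : Set (Finset α)), some (Sum.inr b) ∈ S ↔ Q b.1) :
    S.ncard = n0 + P.card + (Bf.filter Q).card := by
  classical
  rw [ncard_opt S, ncard_sub Bf _ Q (fun x => by rw [Set.mem_setOf_eq, h2])]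
  have hP : {a : α | some (Sum.inl a) ∈ S} = ↑P := by
    ext a
    rw [Set.mem_setOf_eq, h1, Finset.mem_coe]
  rw [hP, Set.ncard_coe_finset]
  rcases h0 with ⟨h, rfl⟩ | ⟨h, rfl⟩
  · rw [if_pos h]
  · rw [if_neg h]

/-- The point-block graph of an S(3, 6, 22) is strongly regular with parameters (100, 22, 0, 6). -/
theorem result {α : Type*} [Fintype α] (hα : Fintype.card α = 22) {B : Set (Finset α)} (hB : Cfsg.IsSteinerSystem 3 6 B) [Fintype B] [DecidableRel (Cfsg.pointBlockGraph B).Adj] : (Cfsg.pointBlockGraph B).IsSRGWith 100 22 0 6 := by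
  classical
  obtain ⟨Bf, rfl⟩ := Cfsg.Agent.Helper3.exists_finset_coe B
  have hmemB : ∀ v : ↥(↑Bf : Set (Finset α)), (v : Finset α) ∈ Bf := fun v => Finset.mem_coe.mp v.2
  -- adjacency facts
  have a00 : ¬ (Cfsg.pointBlockGraph (↑Bf : Set (Finset α))).Adj none none := by
    simp [Cfsg.pointBlockGraph]
  have a01 : ∀ a : α, (Cfsg.pointBlockGraph (↑Bf : Set (Finset α))).Adj none (some (Sum.inl a)) := by
    intro a
    simp [Cfsg.pointBlockGraph, Cfsg.pointBlockRel]
  have a10 : ∀ a : α, (Cfsg.pointBlockGraph (↑Bf : Set (Finset α))).Adj (some (Sum.inl a)) none := fun a => (a01 a).symm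
  have a02 : ∀ b : ↥(↑Bf : Set (Finset α)), ¬ (Cfsg.pointBlockGraph (↑Bf : Set (Finset α))).Adj none (some (Sum.inr b)) := by
    intro b
    simp [Cfsg.pointBlockGraph, Cfsg.pointBlockRel]
  have a20 : ∀ b : ↥(↑Bf : Set (Finset α)), ¬ (Cfsg.pointBlockGraph (↑Bf : Set (Finset α))).Adj (some (Sum.inr b)) none :=
    fun b h => a02 b h.symm
  have a11 : ∀ a a' : α, ¬ (Cfsg.pointBlockGraph (↑Bf : Set (Finset α))).Adj (some (Sum.inl a)) (some (Sum.inl a')) := by
    intro a a'
    simp [Cfsg.pointBlockGraph, Cfsg.pointBlockRel]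
  have a12 : ∀ (a : α) (b : ↥(↑Bf : Set (Finset α))),
      (Cfsg.pointBlockGraph (↑Bf : Set (Finset α))).Adj (some (Sum.inl a)) (some (Sum.inr b)) ↔ a ∈ (b : Finset α) := by
    intro a b
    simp [Cfsg.pointBlockGraph, Cfsg.pointBlockRel]
  have a21 : ∀ (a : α) (b : ↥(↑Bf : Set (Finset α))),
      (Cfsg.pointBlockGraph (↑Bf : Set (Finset α))).Adj (some (Sum.inr b)) (some (Sum.inl a)) ↔ a ∈ (b : Finset α) := by
    intro a b
    rw [← a12 a b]
    exact ⟨fun h => h.symm, fun h => h.symm⟩
  have a22 : ∀ (b c : ↥(↑Bf : Set (Finset α))),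
      (Cfsg.pointBlockGraph (↑Bf : Set (Finset α))).Adj (some (Sum.inr b)) (some (Sum.inr c)) ↔ Disjoint (c : Finset α) (b : Finset α) := by
    intro b c
    unfold Cfsg.pointBlockGraph
    rw [SimpleGraph.fromRel_adj]
    simp only [Cfsg.pointBlockRel]
    constructor
    · rintro ⟨-, h | h⟩
      · exact h.symm
      · exact h
    · intro h
      refine ⟨?_, Or.inr h⟩
      intro he
      have he' : b = c := by simpa using he
      subst he'
      exact block_ne_empty hB (hmemB b) h
  -- counting facts
  have c21 : ∀ a : α, (Bf.filter (fun d => a ∈ d)).card = 21 := by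
    intro p
    have h := Cfsg.Agent.Helper3.blocks_through hB {p} (by simp)
    simp only [Finset.card_singleton, hα, Finset.singleton_subset_iff] at h
    norm_num [Nat.choose] at h
    omega
  have c5 : ∀ a a' : α, a ≠ a' → (Bf.filter (fun d => a ∈ d ∧ a' ∈ d)).card = 5 := by
    intro p q hpq
    have h := Cfsg.Agent.Helper3.blocks_through hB {p, q} (by rw [Finset.card_pair hpq]; norm_num)
    rw [Finset.card_pair hpq, hα] at h
    norm_num [Nat.choose] at h
    have h' : (Bf.filter (fun d => p ∈ d ∧ q ∈ d)) = (Bf.filter (fun d => {p, q} ⊆ d)) := by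
      ext d
      simp only [Finset.mem_filter, Finset.insert_subset_iff, Finset.singleton_subset_iff]
    rw [h']
    omega
  have c6 : ∀ b ∈ Bf, b.card = 6 := fun b hb => hB.1 b (Finset.mem_coe.mpr hb)
  refine ⟨?_, ?_, ?_, ?_⟩
  · rw [Fintype.card_option, Fintype.card_sum, hα, Fintype.card_eq_nat_card (α := ↥(↑Bf : Set (Finset α))),
      Nat.card_coe_set_eq, Set.ncard_coe_finset, card_blocks hα hB]
  · intro v
    rw [← SimpleGraph.card_neighborSet_eq_degree, Fintype.card_eq_nat_card, Nat.card_coe_set_eq]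
    rcases v with _ | (a | b)
    · rw [ncard_opt' Bf _ 0 Finset.univ (fun _ => False) (Or.inr ⟨a00, rfl⟩)
        (fun a => by simp [SimpleGraph.mem_neighborSet, a01])
        (fun b => by simp [SimpleGraph.mem_neighborSet, a02])]
      simp [hα]
    · rw [ncard_opt' Bf _ 1 ∅ (fun d => a ∈ d) (Or.inl ⟨a10 a, rfl⟩)
        (fun a' => by simp [SimpleGraph.mem_neighborSet, a11])
        (fun b => by simp [SimpleGraph.mem_neighborSet, a12])]
      rw [c21 a]
      simp
    · rw [ncard_opt' Bf _ 0 (b : Finset α) (fun d => Disjoint d (b : Finset α)) (Or.inr ⟨a20 b, rfl⟩)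
        (fun a' => by simp [SimpleGraph.mem_neighborSet, a21])
        (fun c => by simp [SimpleGraph.mem_neighborSet, a22])]
      rw [card_disjoint hα hB (hmemB b), c6 _ (hmemB b)]
  · intro v w hvw
    rw [Fintype.card_eq_nat_card, Nat.card_coe_set_eq]
    rcases v with _ | (a | b) <;> rcases w with _ | (a' | b')
    · exact absurd hvw a00
    · rw [ncard_opt' Bf _ 0 ∅ (fun _ => False) (Or.inr ⟨by simp [SimpleGraph.mem_commonNeighbors, a00], rfl⟩)
        (fun a => by simp [SimpleGraph.mem_commonNeighbors, a11])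
        (fun b => by simp [SimpleGraph.mem_commonNeighbors, a02])]
      simp
    · exact absurd hvw (a02 b')
    · rw [ncard_opt' Bf _ 0 ∅ (fun _ => False) (Or.inr ⟨by simp [SimpleGraph.mem_commonNeighbors, a00], rfl⟩)
        (fun a => by simp [SimpleGraph.mem_commonNeighbors, a11])
        (fun b => by simp [SimpleGraph.mem_commonNeighbors, a02])]
      simp
    · exact absurd hvw (a11 a a')
    · have hab : a ∈ (b' : Finset α) := (a12 a b').mp hvw
      rw [ncard_opt' Bf _ 0 ∅ (fun _ => False) (Or.inr ⟨by simp [SimpleGraph.mem_commonNeighbors, a20], rfl⟩)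
        (fun a => by simp [SimpleGraph.mem_commonNeighbors, a11])
        (fun c => by
          simp only [SimpleGraph.mem_commonNeighbors, a12, a22, iff_false, not_and]
          intro h1 h2
          exact Finset.disjoint_left.mp h2 h1 hab)]
      simp
    · exact absurd hvw (a20 b)
    · have hab : a' ∈ (b : Finset α) := (a21 a' b).mp hvw
      rw [ncard_opt' Bf _ 0 ∅ (fun _ => False) (Or.inr ⟨by simp [SimpleGraph.mem_commonNeighbors, a20], rfl⟩)
        (fun a => by simp [SimpleGraph.mem_commonNeighbors, a11])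
        (fun c => by
          simp only [SimpleGraph.mem_commonNeighbors, a12, a22, iff_false, not_and]
          intro h2 h1
          exact Finset.disjoint_left.mp h2 h1 hab)]
      simp
    · have hd : Disjoint (b' : Finset α) (b : Finset α) := (a22 b b').mp hvw
      rw [ncard_opt' Bf _ 0 ∅ (fun d => Disjoint d (b : Finset α) ∧ Disjoint d (b' : Finset α))
        (Or.inr ⟨by simp [SimpleGraph.mem_commonNeighbors, a20], rfl⟩)
        (fun a => by
          simp only [SimpleGraph.mem_commonNeighbors, a21, Finset.notMem_empty, iff_false, not_and]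
          intro h1 h2
          exact Finset.disjoint_left.mp hd h2 h1)
        (fun c => by simp only [SimpleGraph.mem_commonNeighbors, a22])]
      rw [card_common_of_disjoint hα hB (hmemB b) (hmemB b') hd.symm]
      simp
  · intro v w hne hnadj
    rw [Fintype.card_eq_nat_card, Nat.card_coe_set_eq]
    rcases v with _ | (a | b) <;> rcases w with _ | (a' | b')
    · exact absurd rfl hne
    · exact absurd (a01 a') hnadj
    · rw [ncard_opt' Bf _ 0 (b' : Finset α) (fun _ => False)
        (Or.inr ⟨by simp [SimpleGraph.mem_commonNeighbors, a00], rfl⟩)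
        (fun a => by simp [SimpleGraph.mem_commonNeighbors, a01, a21])
        (fun b => by simp [SimpleGraph.mem_commonNeighbors, a02])]
      rw [c6 _ (hmemB b')]
      simp
    · exact absurd (a10 a) hnadj
    · have haa : a ≠ a' := by
        rintro rfl
        exact hne rfl
      rw [ncard_opt' Bf _ 1 ∅ (fun d => a ∈ d ∧ a' ∈ d)
        (Or.inl ⟨by simp [SimpleGraph.mem_commonNeighbors, a10], rfl⟩)
        (fun a => by simp [SimpleGraph.mem_commonNeighbors, a11])
        (fun b => by simp only [SimpleGraph.mem_commonNeighbors, a12])]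
      rw [c5 a a' haa]
      simp
    · have hab : a ∉ (b' : Finset α) := fun h => hnadj ((a12 a b').mpr h)
      rw [ncard_opt' Bf _ 0 ∅ (fun d => a ∈ d ∧ Disjoint d (b' : Finset α))
        (Or.inr ⟨by simp [SimpleGraph.mem_commonNeighbors, a20], rfl⟩)
        (fun a => by simp [SimpleGraph.mem_commonNeighbors, a11])
        (fun c => by simp only [SimpleGraph.mem_commonNeighbors, a12, a22])]
      have h6 := card_through_disjoint hα hB (hmemB b') hab
      rw [Finset.filter_filter] at h6
      have h' : (Bf.filter (fun d => a ∈ d ∧ Disjoint d (b' : Finset α))) =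
          (Bf.filter (fun d => Disjoint d (b' : Finset α) ∧ a ∈ d)) := by
        ext d
        simp only [Finset.mem_filter]
        tauto
      rw [h', h6]
      simp
    · rw [ncard_opt' Bf _ 0 (b : Finset α) (fun _ => False)
        (Or.inr ⟨by simp [SimpleGraph.mem_commonNeighbors, a00], rfl⟩)
        (fun a => by simp [SimpleGraph.mem_commonNeighbors, a01, a21])
        (fun b => by simp [SimpleGraph.mem_commonNeighbors, a02])]
      rw [c6 _ (hmemB b)]
      simp
    · have hab : a' ∉ (b : Finset α) := fun h => hnadj ((a21 a' b).mpr h)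
      rw [ncard_opt' Bf _ 0 ∅ (fun d => Disjoint d (b : Finset α) ∧ a' ∈ d)
        (Or.inr ⟨by simp [SimpleGraph.mem_commonNeighbors, a20], rfl⟩)
        (fun a => by simp [SimpleGraph.mem_commonNeighbors, a11])
        (fun c => by simp only [SimpleGraph.mem_commonNeighbors, a12, a22])]
      have h6 := card_through_disjoint hα hB (hmemB b) hab
      rw [Finset.filter_filter] at h6
      rw [h6]
      simp
    · have hne' : (b : Finset α) ≠ (b' : Finset α) := by
        intro h
        apply hne
        have : b = b' := Subtype.ext h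
        rw [this]
      have h2 : ((b : Finset α) ∩ (b' : Finset α)).card = 2 := by
        rcases inter_card hα hB (hmemB b) (hmemB b') hne' with h0 | h2
        · exfalso
          apply hnadj
          rw [a22]
          exact disjoint_iff_card.mpr h0
        · exact h2
      rw [ncard_opt' Bf _ 0 ((b : Finset α) ∩ (b' : Finset α))
        (fun d => Disjoint d (b : Finset α) ∧ Disjoint d (b' : Finset α))
        (Or.inr ⟨by simp [SimpleGraph.mem_commonNeighbors, a20], rfl⟩)
        (fun a => by simp only [SimpleGraph.mem_commonNeighbors, a21, Finset.mem_inter])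
        (fun c => by simp only [SimpleGraph.mem_commonNeighbors, a22])]
      rw [card_common_of_meet hα hB (hmemB b) (hmemB b') h2, h2]

end Cfsg.Agent.S0428
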