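import Cfsg.Statements.S1012
import Mathlib
import Cfsg.Agent.Helper4.OrderConj

set_option autoImplicit false
open Cfsg

namespace Cfsg.Agent.S1012

open scoped Pointwise

/-- elements of a cyclic group of order three -/
theorem mem_zpowers_three {G : Type*} [Group G] (y : G) (hy : orderOf y = 3) (h : G)
    (hh : h ∈ Subgroup.zpowers y) : h = 1 ∨ h = y ∨ h = y ^ 2 := by
  obtain ⟨k, rfl⟩ := Subgroup.mem_zpowers_iff.mp hh
  rw [← zpow_mod_orderOf, hy]
  have h0 : 0 ≤ k % ((3 : ℕ) : ℤ) := Int.emod_nonneg k (by norm_num)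
  have h3 : k % ((3 : ℕ) : ℤ) < ((3 : ℕ) : ℤ) := Int.emod_lt_of_pos k (by norm_num)
  have : k % ((3 : ℕ) : ℤ) = 0 ∨ k % ((3 : ℕ) : ℤ) = 1 ∨ k % ((3 : ℕ) : ℤ) = 2 := by omega
  rcases this with e | e | e
  · left; rw [e, zpow_zero]
  · right; left; rw [e, zpow_one]
  · right; right; rw [e]; exact zpow_ofNat y 2

/-- A group of order 24 containing no element of order 6 is isomorphic to the symmetric group of degree 4. -/
theorem result {G : Type*} [Group G] [Finite G] (h : Nat.card G = 24) (h6 : ∀ g : G, orderOf g ≠ 6) : Nonempty (G ≃* Equiv.Perm (Fin 4)) := by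
  have : Fact (Nat.Prime 2) := ⟨Nat.prime_two⟩
  have : Fact (Nat.Prime 3) := ⟨Nat.prime_three⟩
  obtain ⟨x, hx⟩ := exists_prime_orderOf_dvd_card' (G := G) 3 (by rw [h]; norm_num)
  have hno : ∀ t y : G, orderOf t = 2 → orderOf y = 3 → t * y ≠ y * t := by
    intro t y ht hy hc
    have hcomm : Commute t y := hc
    apply h6 (t * y)
    rw [hcomm.orderOf_mul_eq_mul_orderOf_of_coprime (by rw [ht, hy]; norm_num), ht, hy]
  obtain ⟨P⟩ : Nonempty (Sylow 3 G) := inferInstance
  have hPidx : ¬ 3 ∣ (P : Subgroup G).index := P.not_dvd_index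
  have hPmul := (P : Subgroup G).card_mul_index
  rw [h] at hPmul
  obtain ⟨k, hk⟩ := IsPGroup.iff_card.mp P.2
  have hPcard : Nat.card P = 3 := by
    have hk1 : k ≤ 1 := by
      by_contra hlt
      have h9 : 3 ^ 2 ∣ Nat.card P := by rw [hk]; exact pow_dvd_pow 3 (by omega)
      have : 3 ^ 2 ∣ 24 := by rw [← hPmul]; exact Dvd.dvd.mul_right h9 _
      omega
    have hk0 : k ≠ 0 := by
      intro h0
      rw [h0, pow_zero] at hk
      rw [hk, one_mul] at hPmul
      apply hPidx
      rw [hPmul]; norm_num
    have : k = 1 := by omega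
    rw [hk, this, pow_one]
  have hPi : (P : Subgroup G).index = 8 := by rw [hPcard] at hPmul; omega
  have hmod := card_sylow_modEq_one 3 G
  have hdvd := P.card_dvd_index
  rw [hPi] at hdvd
  have hn : Nat.card (Sylow 3 G) = 1 ∨ Nat.card (Sylow 3 G) = 4 := by
    have hle : Nat.card (Sylow 3 G) ≤ 8 := Nat.le_of_dvd (by norm_num) hdvd
    have hm : Nat.card (Sylow 3 G) % 3 = 1 := hmod
    interval_cases hc : Nat.card (Sylow 3 G) <;> omega
  have hnorm := P.card_eq_index_normalizer
  -- elements of P
  have hPmem : ∀ y ∈ (P : Subgroup G), orderOf y = 3 → ∀ w ∈ (P : Subgroup G),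
      w = 1 ∨ w = y ∨ w = y ^ 2 := by
    intro y hyP hy w hw
    have hle : Subgroup.zpowers y ≤ (P : Subgroup G) := Subgroup.zpowers_le.mpr hyP
    have heq : Subgroup.zpowers y = (P : Subgroup G) := by
      apply Subgroup.eq_of_le_of_card_ge hle
      rw [Nat.card_zpowers, hy]; exact hPcard.le
    rw [← heq] at hw
    exact mem_zpowers_three y hy w hw
  rcases hn with hn | hn
  · -- normal Sylow 3-subgroup: contradiction
    exfalso
    rw [hn] at hnorm
    have hNtop : Subgroup.normalizer ((P : Subgroup G) : Set G) = ⊤ := Subgroup.index_eq_one.mp hnorm.symm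
    have hPn : (P : Subgroup G).Normal := Subgroup.normalizer_eq_top_iff.mp hNtop
    obtain ⟨y', hy'⟩ := exists_prime_orderOf_dvd_card' (G := P) 3 (by rw [hPcard])
    have hy : orderOf (y' : G) = 3 := by rw [Subgroup.orderOf_coe]; exact hy'
    have hyP : (y' : G) ∈ (P : Subgroup G) := y'.2
    set y : G := (y' : G) with hydef
    have hsub : {w : G | IsConj y w} ⊆ {y, y ^ 2} := by
      intro w hw
      obtain ⟨c, hc⟩ := isConj_iff.mp hw
      have hwP : w ∈ (P : Subgroup G) := hc ▸ hPn.conj_mem y hyP c
      rcases hPmem y hyP hy w hwP with h1 | h1 | h1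
      · exfalso
        rw [h1] at hc
        have : y = 1 := by
          have e : y = c⁻¹ * (c * y * c⁻¹) * c := by group
          rw [e, hc]; group
        rw [this, orderOf_one] at hy
        omega
      · left; exact h1
      · right; exact h1
    have hidx : (Subgroup.centralizer {y}).index ≤ 2 := by
      rw [Cfsg.Agent.Helper4.OrderConj.index_centralizer_eq]
      calc {w : G | IsConj y w}.ncard ≤ ({y, y ^ 2} : Set G).ncard :=
            Set.ncard_le_ncard hsub (Set.toFinite _)
        _ ≤ ({y ^ 2} : Set G).ncard + 1 := Set.ncard_insert_le _ _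
        _ = 2 := by rw [Set.ncard_singleton]
    have hCmul := (Subgroup.centralizer {y}).card_mul_index
    rw [h] at hCmul
    have hidx0 : 0 < (Subgroup.centralizer {y}).index := by
      by_contra h0
      have : (Subgroup.centralizer {y}).index = 0 := by omega
      rw [this] at hCmul; omega
    have h2C : 2 ∣ Nat.card (Subgroup.centralizer {y}) := by
      have hcases : (Subgroup.centralizer {y}).index = 1 ∨ (Subgroup.centralizer {y}).index = 2 := by
        omega
      rcases hcases with e | e
      · rw [e] at hCmul; omega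
      · rw [e] at hCmul; omega
    obtain ⟨t, ht⟩ := exists_prime_orderOf_dvd_card' (G := Subgroup.centralizer {y}) 2 h2C
    have ht' : orderOf (t : G) = 2 := by rw [Subgroup.orderOf_coe]; exact ht
    exact hno (t : G) y ht' hy (Subgroup.mem_centralizer_singleton_iff.mp t.2)
  · -- four Sylow 3-subgroups
    rw [hn] at hnorm
    set N := Subgroup.normalizer ((P : Subgroup G) : Set G) with hN
    have hNidx : N.index = 4 := hnorm.symm
    have hNmul := N.card_mul_index
    rw [h, hNidx] at hNmul
    have hNcard : Nat.card N = 6 := by omega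
    have hK3 : ∀ y ∈ N.normalCore, orderOf y ≠ 3 := by
      intro y hyK hy
      have hall : ∀ Q : Sylow 3 G, Q = P := by
        intro Q
        have hyp : IsPGroup 3 (Subgroup.zpowers y) :=
          IsPGroup.of_card (n := 1) (by rw [Nat.card_zpowers, hy, pow_one])
        obtain ⟨Q₀, hQ₀⟩ := hyp.exists_le_sylow
        obtain ⟨g, hg⟩ := MulAction.exists_smul_eq G Q₀ Q
        have hy'Q : g * y * g⁻¹ ∈ (Q : Subgroup G) := by
          rw [← hg, Sylow.coe_subgroup_smul]
          have := Subgroup.smul_mem_pointwise_smul y (MulAut.conj g) (Q₀ : Subgroup G)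
            (hQ₀ (Subgroup.mem_zpowers y))
          simpa using this
        have hKn : N.normalCore.Normal := inferInstance
        have hy'N : g * y * g⁻¹ ∈ N := Subgroup.normalCore_le _ (hKn.conj_mem y hyK g)
        have hy'o : orderOf (g * y * g⁻¹) = 3 := by
          rw [← hy]
          exact orderOf_injective (MulAut.conj g).toMonoidHom (MulAut.conj g).injective y
        have hy'p : IsPGroup 3 (Subgroup.zpowers (g * y * g⁻¹)) :=
          IsPGroup.of_card (n := 1) (by rw [Nat.card_zpowers, hy'o, pow_one])
        have hinf := hy'p.inf_normalizer_sylow P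
        have hy'P : g * y * g⁻¹ ∈ (P : Subgroup G) := by
          have h1 : g * y * g⁻¹ ∈ Subgroup.zpowers (g * y * g⁻¹) ⊓ Subgroup.normalizer (P : Set G) :=
            ⟨Subgroup.mem_zpowers _, hy'N⟩
          rw [hinf] at h1
          exact h1.2
        have hQcard : Nat.card Q = 3 := by
          rw [Sylow.card_eq_multiplicity, ← Sylow.card_eq_multiplicity P, hPcard]
        have e1 : Subgroup.zpowers (g * y * g⁻¹) = (P : Subgroup G) := by
          apply Subgroup.eq_of_le_of_card_ge (Subgroup.zpowers_le.mpr hy'P)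
          rw [Nat.card_zpowers, hy'o]; exact hPcard.le
        have e2 : Subgroup.zpowers (g * y * g⁻¹) = (Q : Subgroup G) := by
          apply Subgroup.eq_of_le_of_card_ge (Subgroup.zpowers_le.mpr hy'Q)
          rw [Nat.card_zpowers, hy'o]; exact hQcard.le
        exact Sylow.ext (e2.symm.trans e1)
      have hsub : Subsingleton (Sylow 3 G) := ⟨fun A B => (hall A).trans (hall B).symm⟩
      have : Nat.card (Sylow 3 G) ≤ 1 := Finite.card_le_one_iff_subsingleton.mpr hsub
      omega
    have hKdvd : Nat.card N.normalCore ∣ 6 := by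
      rw [← hNcard]; exact Subgroup.card_dvd_of_le (Subgroup.normalCore_le N)
    have hK3' : ¬ 3 ∣ Nat.card N.normalCore := by
      intro h3
      obtain ⟨y, hy⟩ := exists_prime_orderOf_dvd_card' (G := N.normalCore) 3 h3
      exact hK3 (y : G) y.2 (by rw [Subgroup.orderOf_coe]; exact hy)
    have hKcard : Nat.card N.normalCore = 1 ∨ Nat.card N.normalCore = 2 := by
      have hle : Nat.card N.normalCore ≤ 6 := Nat.le_of_dvd (by norm_num) hKdvd
      have hpos : 0 < Nat.card N.normalCore := Nat.card_pos
      interval_cases hc : Nat.card N.normalCore <;> omega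
    have hcore : N.normalCore = ⊥ := by
      rcases hKcard with hK | hK
      · exact Subgroup.card_eq_one.mp hK
      · exfalso
        obtain ⟨z', hz'⟩ := exists_prime_orderOf_dvd_card' (G := N.normalCore) 2 (by rw [hK])
        have hz : orderOf (z' : G) = 2 := by rw [Subgroup.orderOf_coe]; exact hz'
        set z : G := (z' : G) with hzdef
        have hzK : z ∈ N.normalCore := z'.2
        have heq : Subgroup.zpowers z = N.normalCore := by
          apply Subgroup.eq_of_le_of_card_ge (Subgroup.zpowers_le.mpr hzK)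
          rw [Nat.card_zpowers, hz, hK]
        have hz2 : z ^ 2 = 1 := by rw [← hz]; exact pow_orderOf_eq_one z
        have hKn : N.normalCore.Normal := inferInstance
        have hcz : x * z * x⁻¹ ∈ Subgroup.zpowers z := by
          rw [heq]; exact hKn.conj_mem z hzK x
        obtain ⟨j, hj⟩ := Subgroup.mem_zpowers_iff.mp hcz
        rcases Cfsg.Agent.Helper4.OrderConj.zpow_of_sq z hz2 j with e | e
        · rw [e] at hj
          have : z = 1 := by
            have e' : z = x⁻¹ * (x * z * x⁻¹) * x := by group
            rw [e', ← hj]; group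
          rw [this, orderOf_one] at hz
          omega
        · rw [e] at hj
          apply hno z x hz hx
          have := mul_inv_eq_iff_eq_mul.mp hj.symm
          exact this.symm
    have hinj : Function.Injective (MulAction.toPermHom G (G ⧸ N)) := by
      rw [← MonoidHom.ker_eq_bot_iff, ← Subgroup.normalCore_eq_ker, hcore]
    have hq4 : Nat.card (G ⧸ N) = 4 := by rw [← Subgroup.index_eq_card, hNidx]
    have hbij : Function.Bijective (MulAction.toPermHom G (G ⧸ N)) := by
      rw [Nat.bijective_iff_injective_and_card]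
      refine ⟨hinj, ?_⟩
      rw [h, Nat.card_perm, hq4]; rfl
    exact ⟨(MulEquiv.ofBijective _ hbij).trans (Equiv.permCongrHom (Finite.equivFinOfCardEq hq4))⟩

end Cfsg.Agent.S1012
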