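import Cfsg.Statements.S0239
import Mathlib

set_option autoImplicit false
open Cfsg

namespace Cfsg.Agent.S0239

/-- If some nontrivial element x of a finite group G is conjugate to x⁻¹, then |G| is even. -/
theorem result {G : Type*} [Group G] [Finite G] (x : G) (hx : x ≠ 1) (hreal : IsConj x x⁻¹) : Even (Nat.card G) := by
  by_contra hodd
  rw [Nat.not_even_iff_odd] at hodd
  obtain ⟨g, hg⟩ := isConj_iff.mp hreal
  have hgo : Odd (orderOf g) := Odd.of_dvd_nat hodd (orderOf_dvd_natCard g)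
  obtain ⟨k, hk⟩ := hgo
  -- g^2 commutes with x
  have h2 : Commute (g ^ 2) x := by
    have h3 : g * x⁻¹ * g⁻¹ = x := by
      have : g * x⁻¹ * g⁻¹ = (g * x * g⁻¹)⁻¹ := by group
      rw [this, hg, inv_inv]
    have : g ^ 2 * x = x * g ^ 2 := by
      calc g ^ 2 * x = g * (g * x * g⁻¹) * g := by simp [pow_two, mul_assoc]
        _ = g * x⁻¹ * g := by rw [hg]
        _ = (g * x⁻¹ * g⁻¹) * g ^ 2 := by simp [pow_two, mul_assoc]
        _ = x * g ^ 2 := by rw [h3]
    exact this
  have hgk : g = (g ^ 2) ^ (k + 1) := by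
    rw [← pow_mul]
    have : 2 * (k + 1) = orderOf g + 1 := by omega
    rw [this, pow_succ, pow_orderOf_eq_one, one_mul]
  have h4 : Commute g x := by
    rw [hgk]; exact h2.pow_left _
  have h5 : x = x⁻¹ := by
    rw [← hg, h4.eq]; group
  have h6 : x ^ 2 = 1 := by
    rw [pow_two]; nth_rewrite 2 [h5]; exact mul_inv_cancel x
  have h7 : orderOf x = 2 := orderOf_eq_prime h6 hx
  have h8 : 2 ∣ Nat.card G := h7 ▸ orderOf_dvd_natCard x
  exact (Nat.not_even_iff_odd.mpr hodd) (even_iff_two_dvd.mpr h8)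

end Cfsg.Agent.S0239
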