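import Cfsg.Statements.S0161
import Mathlib
import Cfsg.Agent.Helper2.CharExtra
import Cfsg.Agent.Helper1.Burnside
import Cfsg.Agent.S0160
import Cfsg.Agent.S0239

set_option autoImplicit false
open Cfsg

namespace Cfsg.Agent.S0161

open scoped ComplexConjugate

/-- In a finite group of odd order, a real-valued irreducible complex character is the trivial character. -/
theorem result {G : Type*} [Group G] [Finite G] (hodd : Odd (Nat.card G)) (χ : Cfsg.IrrCharacter G) (hreal : ∀ g : G, ((χ : G → ℂ) g).im = 0) : (χ : G → ℂ) = fun _ => 1 := by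
  classical
  have h160 := Cfsg.Agent.S0160.result (G := G)
  have key : ∀ (C : ConjClasses G), (∀ g : G, ConjClasses.mk g = C → IsConj g g⁻¹) →
      C = ConjClasses.mk 1 := by
    intro C hC
    have h1 := hC (Quotient.out C) (Quotient.out_eq C)
    have h2 : Quotient.out C = 1 := by
      by_contra hne
      exact (Nat.not_even_iff_odd.mpr hodd) (Cfsg.Agent.S0239.result _ hne h1)
    calc C = ConjClasses.mk (Quotient.out C) := (Quotient.out_eq C).symm
      _ = ConjClasses.mk 1 := by rw [h2]
  have hsub : Subsingleton {C : ConjClasses G // ∀ g : G, ConjClasses.mk g = C → IsConj g g⁻¹} := by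
    constructor
    rintro ⟨C, hC⟩ ⟨D, hD⟩
    exact Subtype.ext ((key C hC).trans (key D hD).symm)
  have hcard : Nat.card {χ : IrrCharacter G // ∀ g : G, ((χ : G → ℂ) g).im = 0} ≤ 1 := by
    rw [h160]
    exact Finite.card_le_one_iff_subsingleton.mpr hsub
  have hsub2 : Subsingleton {χ : IrrCharacter G // ∀ g : G, ((χ : G → ℂ) g).im = 0} :=
    Finite.card_le_one_iff_subsingleton.mp hcard
  have htriv : IsIrrCharacter G (fun _ => (1 : ℂ)) := Helper1.isIrrCharacter_one G
  have := Subsingleton.elim
    (⟨χ, hreal⟩ : {χ : IrrCharacter G // ∀ g : G, ((χ : G → ℂ) g).im = 0})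
    ⟨⟨fun _ => 1, htriv⟩, fun g => by simp⟩
  exact congrArg (fun x => (x.1 : G → ℂ)) this

end Cfsg.Agent.S0161
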