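import Cfsg.Statements.S0157
import Mathlib
import Cfsg.Agent.Helper2.PermChar
import Cfsg.Agent.Helper1.Burnside

set_option autoImplicit false
open Cfsg

namespace Cfsg.Agent.S0157

open scoped ComplexConjugate

/-- For a transitive action of a finite group on a finite set with at least two points: the action is 2-transitive if and only if the function sending g to (number of fixed points of g) − 1 is an irreducible character. -/
theorem result {G : Type*} [Group G] [Finite G] (X : Type*) [MulAction G X] [Finite X] [MulAction.IsPretransitive G X] (hX : 2 ≤ Nat.card X) : Cfsg.IsIrrCharacter G (fun g => (Nat.card (MulAction.fixedBy X g) : ℂ) - 1) ↔ MulAction.IsMultiplyPretransitive G X 2 := by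
  classical
  have : Fintype G := Fintype.ofFinite G
  have hXne : Nonempty X := Finite.card_pos_iff.mp (by omega)
  obtain ⟨π, hπ⟩ : ∃ π : G → ℂ, π = fun g => (Nat.card (MulAction.fixedBy X g) : ℂ) := ⟨_, rfl⟩
  have hgoal : (fun g => (Nat.card (MulAction.fixedBy X g) : ℂ) - 1) = fun g => π g - 1 := by
    rw [hπ]
  rw [hgoal]
  have hGne : (Nat.card G : ℂ) ≠ 0 := by exact_mod_cast Nat.card_pos.ne'
  have hπchar : IsCharacter G π := by rw [hπ]; exact Helper2.isCharacter_permChar X
  have hsum1 : ∑ g : G, π g = (Nat.card G : ℂ) := by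
    rw [hπ, Helper2.sum_card_fixedBy X, Helper2.card_orbits_of_pretransitive X]; simp
  have hsum2 : ∑ g : G, π g * π g =
      (Nat.card (MulAction.orbitRel.Quotient G (X × X)) : ℂ) * (Nat.card G : ℂ) := by
    rw [← Helper2.sum_card_fixedBy (X × X), hπ]
    apply Finset.sum_congr rfl
    intro g _
    rw [Helper2.card_fixedBy_prod X g]; push_cast; rfl
  have hinner : classInner (fun g => π g - 1) (fun g => π g - 1) =
      (Nat.card (MulAction.orbitRel.Quotient G (X × X)) : ℂ) - 1 := by
    unfold classInner
    have hconj : ∀ g : G, conj (π g - 1) = π g - 1 := by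
      intro g; simp [hπ]
    simp_rw [hconj]
    have hexp : ∑ g : G, (π g - 1) * (π g - 1) =
        ∑ g : G, π g * π g - 2 * ∑ g : G, π g + (Nat.card G : ℂ) := by
      have : ∀ g : G, (π g - 1) * (π g - 1) = π g * π g - 2 * π g + 1 := fun g => by ring
      simp_rw [this]
      rw [Finset.sum_add_distrib, Finset.sum_sub_distrib, ← Finset.mul_sum]
      simp [Nat.card_eq_fintype_card]
    rw [hexp, hsum1, hsum2]
    field_simp
    ring
  have hfun : (fun g => π g - 1) = π - (fun _ => (1:ℂ)) := rfl
  have hchar : IsCharacter G (fun g => π g - 1) := by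
    rw [hfun]
    apply Helper2.isCharacter_of_nat
    · exact Helper1.isClassFunction_sub π (fun _ => 1)
        (Helper2.isClassFunction_of_isCharacter hπchar) (fun _ _ => rfl)
    · intro χ
      obtain ⟨m, hm⟩ := Helper2.classInner_char_nat hπchar
        (Helper2.isCharacter_of_isIrrCharacter χ.2)
      rw [Helper2.classInner_sub_left, hm]
      have htriv : IsIrrCharacter G (fun _ => (1 : ℂ)) := Helper1.isIrrCharacter_one G
      have h1 := Helper2.classInner_irr_irr (⟨fun _ => 1, htriv⟩ : IrrCharacter G) χ
      by_cases hχ : (⟨fun _ => 1, htriv⟩ : IrrCharacter G) = χ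
      · rw [if_pos hχ] at h1
        have h2 : classInner (fun _ : G => (1:ℂ)) (χ : G → ℂ) = 1 := h1
        rw [h2]
        have hm1 : classInner π (χ : G → ℂ) = 1 := by
          rw [← hχ]
          show classInner π (fun _ => (1:ℂ)) = 1
          unfold classInner
          simp only [map_one, mul_one]
          rw [hsum1]; field_simp
        rw [hm] at hm1
        refine ⟨0, ?_⟩
        rw [hm1]; simp
      · rw [if_neg hχ] at h1
        have h2 : classInner (fun _ : G => (1:ℂ)) (χ : G → ℂ) = 0 := h1
        rw [h2]
        exact ⟨m, by simp⟩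
  rw [← Helper2.card_orbits_prod_eq_two_iff X hX]
  constructor
  · intro hirr
    have h1 : classInner (fun g => π g - 1) (fun g => π g - 1) = 1 :=
      Helper1.classInner_irr_self ⟨_, hirr⟩
    rw [hinner] at h1
    have : (Nat.card (MulAction.orbitRel.Quotient G (X × X)) : ℂ) = 2 := by
      linear_combination h1
    exact_mod_cast this
  · intro h2
    apply Helper2.isIrrCharacter_of_classInner_self hchar
    rw [hinner, h2]; norm_num

end Cfsg.Agent.S0157
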