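import Cfsg.Statements.S2424
import Cfsg.Agent.Helper8.QVan
-- import your own Cfsg.Agent.* helpers here

set_option autoImplicit false
open scoped MatrixGroups
open Cfsg

namespace Cfsg.Agent.S2424

open Cfsg.Agent.Helper8

/-- Degrees of the partition-indexed irreducible characters of `GL_n(q)`: for `ν` a partition of `n` with `n` non-decreasing parts `ν_0 ≤ ⋯ ≤ ν_{n−1}` (zeros allowed; positions counted from 0) and `λ_i = ν_i + i`, write `Q(r)` for the q-integer `1 + q + ⋯ + q^(r−1)` and `Q!(r)` for `Q(1)Q(2)⋯Q(r)`; then the degree `γ(ν)` of the character satisfies `γ(ν) · q^(n(n−1)(n−2)/6) · ∏_i Q!(λ_i) = Q!(n) · ∏_{i<j} (Q(λ_j) − Q(λ_i))`. For `ν = (1,…,1)` this gives the Steinberg degree `q^(n(n−1)/2)`, for `ν = (0,…,0,n)` degree 1. -/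
theorem result {F : Type*} [Field F] [Fintype F] {q : ℕ} (hq : Fintype.card F = q) {n : ℕ} (ν : Fin n → ℕ) (hmono : Monotone ν) (hsum : ∑ i, ν i = n) :
    Cfsg.unipotentCharacterGL n F ν 1 * (q : ℂ) ^ (n * (n - 1) * (n - 2) / 6) *
        ∏ i : Fin n, ∏ j ∈ Finset.range (ν i + i.val), ((∑ l ∈ Finset.range (j + 1), q ^ l : ℕ) : ℂ) =
      (∏ j ∈ Finset.range n, ((∑ l ∈ Finset.range (j + 1), q ^ l : ℕ) : ℂ)) *
        ∏ i : Fin n, ∏ j ∈ Finset.univ.filter (fun j : Fin n => i < j),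
          (((∑ l ∈ Finset.range (ν j + j.val), q ^ l : ℕ) : ℂ) - ((∑ l ∈ Finset.range (ν i + i.val), q ^ l : ℕ) : ℂ)) := by
  have hterm : ∀ κ : Equiv.Perm (Fin n),
      (if ∀ i : Fin n, (κ i).val ≤ ν i + i.val then
        ((Equiv.Perm.sign κ : ℤ) : ℂ) *
          Cfsg.fixedPointCharacter (Cfsg.parabolicGL n F fun i => ν i + i.val - (κ i).val) 1
       else 0) * ∏ i : Fin n, ∏ j ∈ Finset.range (ν i + i.val), ((qInt q (j + 1) : ℕ) : ℂ) =
      (∏ j ∈ Finset.range n, ((qInt q (j + 1) : ℕ) : ℂ)) * (((Equiv.Perm.sign κ : ℤ) : ℂ) *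
        ∏ i : Fin n, ∏ t ∈ Finset.range (κ i).val, ((qInt q (ν i + i.val - t) : ℕ) : ℂ)) := by
    intro κ
    split_ifs with hv
    · have hμ : ∑ i : Fin n, (ν i + i.val - (κ i).val) = n := by
        have h1 : ∑ i : Fin n, (ν i + i.val - (κ i).val) + ∑ i : Fin n, (κ i).val =
            ∑ i : Fin n, ν i + ∑ i : Fin n, i.val := by
          rw [← Finset.sum_add_distrib, ← Finset.sum_add_distrib]
          apply Finset.sum_congr rfl
          intro i _
          exact Nat.sub_add_cancel (hv i)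
        have h2 : ∑ i : Fin n, (κ i).val = ∑ i : Fin n, i.val := Equiv.sum_comp κ (fun i : Fin n => i.val)
        omega
      have h420 := Cfsg.Agent.S2420.result hq (fun i => ν i + i.val - (κ i).val) hμ
      have hfp : Cfsg.fixedPointCharacter (Cfsg.parabolicGL n F fun i => ν i + i.val - (κ i).val) 1 =
          (Nat.card (GL (Fin n) F ⧸ Cfsg.parabolicGL n F fun i => ν i + i.val - (κ i).val) : ℂ) := by
        unfold Cfsg.fixedPointCharacter
        rw [MulAction.fixedBy_one_eq_univ]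
        congr 1
        exact Nat.card_congr (Equiv.Set.univ _)
      have hnat : Nat.card (GL (Fin n) F ⧸ Cfsg.parabolicGL n F fun i => ν i + i.val - (κ i).val) *
          ∏ i : Fin n, ∏ j ∈ Finset.range (ν i + i.val), qInt q (j + 1) =
          (∏ j ∈ Finset.range n, qInt q (j + 1)) *
            ∏ i : Fin n, ∏ t ∈ Finset.range (κ i).val, qInt q (ν i + i.val - t) := by
        have h3 : ∏ i : Fin n, ∏ j ∈ Finset.range (ν i + i.val), qInt q (j + 1) =
            (∏ i : Fin n, ∏ j ∈ Finset.range (ν i + i.val - (κ i).val), qInt q (j + 1)) *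
              ∏ i : Fin n, ∏ t ∈ Finset.range (κ i).val, qInt q (ν i + i.val - t) := by
          rw [← Finset.prod_mul_distrib]
          apply Finset.prod_congr rfl
          intro i _
          exact qFact_split q (ν i + i.val) (κ i).val (hv i)
        rw [h3, ← mul_assoc]
        congr 1
      rw [hfp, mul_assoc]
      have hcast := congrArg (fun x : ℕ => (x : ℂ)) hnat
      simp only [Nat.cast_mul, Nat.cast_prod] at hcast
      calc ((Equiv.Perm.sign κ : ℤ) : ℂ) *
            ((Nat.card (GL (Fin n) F ⧸ Cfsg.parabolicGL n F fun i => ν i + i.val - (κ i).val) : ℂ) *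
              ∏ i : Fin n, ∏ j ∈ Finset.range (ν i + i.val), ((qInt q (j + 1) : ℕ) : ℂ))
          = ((Equiv.Perm.sign κ : ℤ) : ℂ) * ((∏ j ∈ Finset.range n, ((qInt q (j + 1) : ℕ) : ℂ)) *
              ∏ i : Fin n, ∏ t ∈ Finset.range (κ i).val, ((qInt q (ν i + i.val - t) : ℕ) : ℂ)) := by
            rw [hcast]
        _ = _ := by ring
    · push_neg at hv
      obtain ⟨i₀, hi₀⟩ := hv
      have h0 : ∏ i : Fin n, ∏ t ∈ Finset.range (κ i).val, ((qInt q (ν i + i.val - t) : ℕ) : ℂ) = 0 := by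
        apply Finset.prod_eq_zero (Finset.mem_univ i₀)
        apply Finset.prod_eq_zero (Finset.mem_range.mpr hi₀)
        rw [Nat.sub_self]
        simp [qInt_zero]
      rw [h0]
      ring
  have hL : Cfsg.unipotentCharacterGL n F ν 1 *
      ∏ i : Fin n, ∏ j ∈ Finset.range (ν i + i.val), ((qInt q (j + 1) : ℕ) : ℂ) =
      (∏ j ∈ Finset.range n, ((qInt q (j + 1) : ℕ) : ℂ)) *
        ∑ κ : Equiv.Perm (Fin n), ((Equiv.Perm.sign κ : ℤ) : ℂ) *
          ∏ i : Fin n, ∏ t ∈ Finset.range (κ i).val, ((qInt q (ν i + i.val - t) : ℕ) : ℂ) := by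
    unfold Cfsg.unipotentCharacterGL
    rw [Finset.sum_mul, Finset.mul_sum]
    exact Finset.sum_congr rfl (fun κ _ => hterm κ)
  have hV := qVan_sum q n (fun i => ν i + i.val)
  show Cfsg.unipotentCharacterGL n F ν 1 * (q : ℂ) ^ (n * (n - 1) * (n - 2) / 6) *
      ∏ i : Fin n, ∏ j ∈ Finset.range (ν i + i.val), ((qInt q (j + 1) : ℕ) : ℂ) =
    (∏ j ∈ Finset.range n, ((qInt q (j + 1) : ℕ) : ℂ)) *
      ∏ i : Fin n, ∏ j ∈ Finset.univ.filter (fun j : Fin n => i < j),
        (((qInt q (ν j + j.val) : ℕ) : ℂ) - ((qInt q (ν i + i.val) : ℕ) : ℂ))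
  have hIoi : ∀ i : Fin n, Finset.univ.filter (fun j : Fin n => i < j) = Finset.Ioi i :=
    fun i => Finset.filter_lt_eq_Ioi
  simp only [hIoi]
  rw [← hV]
  calc Cfsg.unipotentCharacterGL n F ν 1 * (q : ℂ) ^ (n * (n - 1) * (n - 2) / 6) *
        ∏ i : Fin n, ∏ j ∈ Finset.range (ν i + i.val), ((qInt q (j + 1) : ℕ) : ℂ)
      = (q : ℂ) ^ (n * (n - 1) * (n - 2) / 6) * (Cfsg.unipotentCharacterGL n F ν 1 *
          ∏ i : Fin n, ∏ j ∈ Finset.range (ν i + i.val), ((qInt q (j + 1) : ℕ) : ℂ)) := by ring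
    _ = _ := by
      rw [hL]
      ring

end Cfsg.Agent.S2424
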