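import Cfsg.Statements.S0219
import Mathlib

set_option autoImplicit false
open Cfsg

namespace Cfsg.Agent.S0219

/-- If a finite group has even order and a cyclic Sylow 2-subgroup, then it has a subgroup of index 2 (consider the parity of permutations in the regular representation). -/
theorem result {G : Type*} [Group G] [Finite G] (heven : Even (Nat.card G)) (T : Sylow 2 G) (hT : IsCyclic (T : Subgroup G)) : ∃ H : Subgroup G, H.index = 2 := by
  haveI : Fact (Nat.Prime 2) := ⟨Nat.prime_two⟩
  have h2 : 2 ∣ Nat.card G := even_iff_two_dvd.mp heven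
  have hp : (Nat.card G).minFac = 2 := (Nat.minFac_eq_two_iff _).mpr h2
  have hT' : IsCyclic T := hT
  have hcompl := IsCyclic.isComplement' hp hT'
  set φ := MonoidHom.transferSylow T (hT'.normalizer_le_centralizer hp) with hφ
  have hcard := hcompl.card_mul_card
  have hsurj : Function.Surjective φ := by
    apply MonoidHom.surjective_of_card_ker_le_div
    rw [← hcard]
    have hpos : 0 < Nat.card T := Nat.card_pos
    rw [Nat.mul_div_cancel _ hpos]
  obtain ⟨k, hk⟩ := (T.isPGroup').exists_card_eq
  have hk1 : 1 ≤ k := by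
    have h3 : 2 ∣ Nat.card T := T.dvd_card_of_dvd_card h2
    rw [hk] at h3
    by_contra hk0
    have : k = 0 := by omega
    rw [this, pow_zero] at h3
    omega
  have hdvd : 2 ^ (k - 1) ∣ Nat.card T := by
    rw [hk]
    exact pow_dvd_pow 2 (by omega)
  obtain ⟨T', hT'card⟩ := Sylow.exists_subgroup_card_pow_prime 2 hdvd
  have hidx : T'.index = 2 := by
    have h4 := T'.card_mul_index
    rw [hT'card, hk] at h4
    have h5 : (2 : ℕ) ^ k = 2 ^ (k - 1) * 2 := by
      rw [← pow_succ]
      congr 1
      omega
    rw [h5] at h4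
    exact Nat.eq_of_mul_eq_mul_left (by positivity) h4
  refine ⟨T'.comap φ, ?_⟩
  rw [Subgroup.index_comap_of_surjective _ hsurj, hidx]

end Cfsg.Agent.S0219
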