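import Cfsg.Statements.S0015
import Mathlib

set_option autoImplicit false
open Cfsg

namespace Cfsg.Agent.S0015

open scoped commutatorElement

/-- A nontrivial normal subgroup of a nilpotent group contains a nontrivial central element. -/
lemma exists_central_of_normal {G : Type*} [Group G] [Group.IsNilpotent G] (K : Subgroup G) [K.Normal]
    (hK : K ≠ ⊥) : ∃ z ∈ K, z ∈ Subgroup.center G ∧ z ≠ 1 := by
  classical
  have hex : ∃ n, ∃ x ∈ K, x ∈ Subgroup.upperCentralSeries G n ∧ x ≠ 1 := by
    obtain ⟨n, hn⟩ := Group.IsNilpotent.nilpotent G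
    obtain ⟨⟨x, hx⟩, hx1⟩ := (Subgroup.ne_bot_iff_exists_ne_one).mp hK
    exact ⟨n, x, hx, by rw [hn]; exact Subgroup.mem_top x, fun h => hx1 (Subtype.ext h)⟩
  have hmin : ∀ m, m < Nat.find hex → ¬ ∃ x ∈ K, x ∈ Subgroup.upperCentralSeries G m ∧ x ≠ 1 :=
    fun m hm => Nat.find_min hex hm
  obtain ⟨x, hxK, hxn, hx1⟩ := Nat.find_spec hex
  set n := Nat.find hex with hn
  cases hnn : n with
  | zero =>
    rw [hnn, Subgroup.upperCentralSeries_zero, Subgroup.mem_bot] at hxn
    exact absurd hxn hx1
  | succ m =>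
    rw [hnn, Subgroup.mem_upperCentralSeries_succ_iff] at hxn
    refine ⟨x, hxK, ?_, hx1⟩
    rw [Subgroup.mem_center_iff]
    intro g
    have h1 : ⁅x, g⁆ ∈ K := by
      rw [commutatorElement_def]
      have : x * g * x⁻¹ * g⁻¹ = x * (g * x⁻¹ * g⁻¹) := by group
      rw [this]
      exact K.mul_mem hxK ((inferInstance : K.Normal).conj_mem _ (K.inv_mem hxK) g)
    have h2 := hxn g
    by_contra hne
    have h3 : ⁅x, g⁆ ≠ 1 := by
      intro h
      apply hne
      rw [commutatorElement_def] at h
      have : x * g = g * x := by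
        calc x * g = (x * g * x⁻¹ * g⁻¹) * (g * x) := by group
          _ = g * x := by rw [h, one_mul]
      exact this.symm
    exact hmin m (by omega) ⟨_, h1, h2, h3⟩

/-- In a finite nilpotent group, an abelian normal subgroup that is maximal among abelian normal subgroups equals its own centralizer. -/
theorem result {G : Type*} [Group G] [Finite G] [Group.IsNilpotent G]
    (N : Subgroup G) [N.Normal] [IsMulCommutative N]
    (hmax : ∀ M : Subgroup G, M.Normal → IsMulCommutative M → N ≤ M → M = N) :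
    Subgroup.centralizer (N : Set G) = N := by
  have hNcomm : ∀ a ∈ N, ∀ b ∈ N, a * b = b * a := by
    intro a ha b hb
    exact setLike_mul_comm ha hb
  have hle : N ≤ Subgroup.centralizer (N : Set G) := by
    intro a ha
    rw [Subgroup.mem_centralizer_iff]
    intro b hb
    exact hNcomm b hb a ha
  by_contra hne
  have hlt : N < Subgroup.centralizer (N : Set G) := lt_of_le_of_ne hle (Ne.symm hne)
  obtain ⟨c, hcC, hcN⟩ := SetLike.exists_of_lt hlt
  set π := QuotientGroup.mk' N with hπdef
  have hπ : Function.Surjective π := QuotientGroup.mk'_surjective N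
  have hnilQ : Group.IsNilpotent (G ⧸ N) := Group.nilpotent_of_surjective π hπ
  have hKn : ((Subgroup.centralizer (N : Set G)).map π).Normal :=
    (inferInstance : (Subgroup.centralizer (N : Set G)).Normal).map π hπ
  have hKne : (Subgroup.centralizer (N : Set G)).map π ≠ ⊥ := by
    intro h
    rw [Subgroup.map_eq_bot_iff, QuotientGroup.ker_mk'] at h
    exact hcN (h hcC)
  obtain ⟨z, hzK, hzc, hz1⟩ := exists_central_of_normal _ hKne
  obtain ⟨x, hxC, rfl⟩ := Subgroup.mem_map.mp hzK
  have hxN : x ∉ N := by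
    intro h
    apply hz1
    exact (QuotientGroup.eq_one_iff x).mpr h
  -- the subgroup M
  set M : Subgroup G := (Subgroup.zpowers (π x)).comap π with hM
  have hZn : (Subgroup.zpowers (π x)).Normal := by
    constructor
    intro y hy g
    obtain ⟨k, rfl⟩ := Subgroup.mem_zpowers_iff.mp hy
    have hc : π x ^ k ∈ Subgroup.center (G ⧸ N) := Subgroup.zpow_mem _ hzc k
    have : g * π x ^ k * g⁻¹ = π x ^ k := by
      rw [Subgroup.mem_center_iff.mp hc g]; group
    rw [this]
    exact Subgroup.zpow_mem_zpowers _ k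
  have hMn : M.Normal := hZn.comap π
  have hNM : N ≤ M := by
    intro a ha
    rw [hM, Subgroup.mem_comap]
    have : π a = 1 := (QuotientGroup.eq_one_iff a).mpr ha
    rw [this]; exact Subgroup.one_mem _
  have hxM : x ∈ M := by
    rw [hM, Subgroup.mem_comap]; exact Subgroup.mem_zpowers _
  -- decomposition of elements of M
  have hdec : ∀ y ∈ M, ∃ k : ℤ, ∃ n ∈ N, y = x ^ k * n := by
    intro y hy
    rw [hM, Subgroup.mem_comap] at hy
    obtain ⟨k, hk⟩ := Subgroup.mem_zpowers_iff.mp hy
    refine ⟨k, (x ^ k)⁻¹ * y, ?_, by group⟩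
    have : π ((x ^ k)⁻¹ * y) = 1 := by
      rw [map_mul, map_inv, map_zpow, hk]; group
    exact (QuotientGroup.eq_one_iff _).mp this
  have hxcomm : ∀ n ∈ N, Commute x n := by
    intro n hn
    exact ((Subgroup.mem_centralizer_iff.mp hxC) n hn).symm
  have hMcomm : IsMulCommutative M := by
    constructor
    constructor
    rintro ⟨a, ha⟩ ⟨b, hb⟩
    apply Subtype.ext
    obtain ⟨k, n, hn, rfl⟩ := hdec a ha
    obtain ⟨l, m, hm, rfl⟩ := hdec b hb
    have c1 : Commute (x ^ k) (x ^ l) := Commute.zpow_zpow_self x k l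
    have c2 : Commute (x ^ k) m := (hxcomm m hm).zpow_left k
    have c3 : Commute n (x ^ l) := ((hxcomm n hn).zpow_left l).symm
    have c4 : Commute n m := hNcomm n hn m hm
    exact ((c1.mul_right c2).mul_left (c3.mul_right c4)).eq
  have := hmax M hMn hMcomm hNM
  rw [this] at hxM
  exact hxN hxM

end Cfsg.Agent.S0015
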