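import Cfsg.Statements.S0037
import Mathlib
import Cfsg.Agent.Helper2.FrobGroup

set_option autoImplicit false
open Pointwise
open Cfsg

namespace Cfsg.Agent.S0037

open Cfsg.Agent.Helper2
open scoped Pointwise

/-- if `|H₀| ≤ |H|` then the kernel of `H` is inside the kernel of `H₀` -/
lemma kernel_le {G : Type*} [Group G] [Finite G] (H H₀ : Subgroup G)
    (hH : Cfsg.IsFrobeniusComplement H) (hle : Nat.card H₀ ≤ Nat.card H)
    (N : Subgroup G) (hNset : (N : Set G) = frobeniusKernel H) (hNn : N.Normal)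
    (hNc : Subgroup.IsComplement' N H)
    (N₀ : Subgroup G) (hN₀n : N₀.Normal)
    (hN₀c : Subgroup.IsComplement' N₀ H₀) : N ≤ N₀ := by
  rcases frob_normal_le_or_le hH N hNn hNset N₀ hN₀n with h | h
  · have c1 := hNc.card_mul_card
    have c2 := hN₀c.card_mul_card
    have hc : Nat.card N ≤ Nat.card N₀ := by
      by_contra hlt
      push Not at hlt
      have p : 0 < Nat.card H₀ := Nat.card_pos
      have : Nat.card N₀ * Nat.card H₀ < Nat.card N * Nat.card H := by nlinarith
      omega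
    exact (Subgroup.eq_of_le_of_card_ge h hc).ge
  · exact h

lemma exists_conj_le {G : Type*} [Group G] [Finite G] (H H₀ : Subgroup G)
    (hH : Cfsg.IsFrobeniusComplement H) (hH₀ : Cfsg.IsFrobeniusComplement H₀)
    (hle : Nat.card H₀ ≤ Nat.card H) : ∃ g : G, H₀ ≤ MulAut.conj g • H := by
  obtain ⟨N, hNset, hNn, hNc⟩ := Cfsg.Agent.S0035.result H hH
  obtain ⟨N₀, hN₀set, hN₀n, hN₀c⟩ := Cfsg.Agent.S0035.result H₀ hH₀
  have hNN₀ : N ≤ N₀ := kernel_le H H₀ hH hle N hNset hNn hNc N₀ hN₀n hN₀c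
  have hK : ∀ k ∈ H₀, k ≠ 1 → ∃ g : G, k ∈ MulAut.conj g • H := by
    intro k hk hk1
    by_contra hc
    push Not at hc
    have hkN : k ∈ N := by
      have h0 : k ∈ frobeniusKernel H := Or.inr hc
      rw [← hNset] at h0
      exact h0
    exact hk1 (frobKer_disjoint N₀ hN₀set (hNN₀ hkN) hk)
  exact frob_le_conj hH H₀ hK

/-- Of two Frobenius complements in one finite group, the one of smaller (or equal) order is conjugate to a subgroup of the other. -/
theorem result {G : Type*} [Group G] [Finite G] (H H₀ : Subgroup G)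
    (hH : Cfsg.IsFrobeniusComplement H) (hH₀ : Cfsg.IsFrobeniusComplement H₀) (hle : Nat.card H₀ ≤ Nat.card H) :
    ∃ g : G, MulAut.conj g • H₀ ≤ H := by
  obtain ⟨g, hg⟩ := exists_conj_le H H₀ hH hH₀ hle
  refine ⟨g⁻¹, ?_⟩
  intro x hx
  rw [frobC_mem_conj_smul] at hx
  have h1 := hg hx
  rw [frobC_mem_conj_smul] at h1
  have e : g⁻¹ * (g⁻¹⁻¹ * x * g⁻¹) * g = x := by group
  rw [e] at h1
  exact h1

end Cfsg.Agent.S0037
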