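import Cfsg.Statements.S0038
import Mathlib
import Cfsg.Agent.Helper2.FrobGroup2
import Cfsg.Agent.S0037

set_option autoImplicit false
open Pointwise
open Cfsg

namespace Cfsg.Agent.S0038

open Cfsg.Agent.Helper2
open scoped Pointwise

/-- All Frobenius complements of a finite group are conjugate to one another. -/
theorem result {G : Type*} [Group G] [Finite G] (H H₀ : Subgroup G)
    (hH : Cfsg.IsFrobeniusComplement H) (hH₀ : Cfsg.IsFrobeniusComplement H₀) :
    ∃ g : G, MulAut.conj g • H₀ = H := by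
  wlog hle : Nat.card H₀ ≤ Nat.card H generalizing H H₀
  · obtain ⟨g, hg⟩ := this H₀ H hH₀ hH (by omega)
    refine ⟨g⁻¹, ?_⟩
    rw [← hg, smul_smul, ← map_mul, inv_mul_cancel, map_one, one_smul]
  obtain ⟨g, hg⟩ := Cfsg.Agent.S0037.result H H₀ hH hH₀ hle
  exact ⟨g, frob_no_proper_sub hH (frobC_conj hH₀ g) hg⟩

end Cfsg.Agent.S0038
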