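import Cfsg.Statements.S0064

set_option autoImplicit false
open Cfsg

namespace Cfsg.Agent.S0064

/-- A finite group is nilpotent exactly when each of its subgroups is subnormal. -/
theorem result {G : Type*} [Group G] [Finite G] :
    Group.IsNilpotent G ↔ ∀ H : Subgroup G, H.IsSubnormal := by
  constructor
  · intro hnil H
    have hNC : NormalizerCondition G := (Group.isNilpotent_of_finite_tfae.out 0 1).mp hnil
    induction H using WellFoundedGT.induction with
    | ind H ih =>
      by_cases hH : H = ⊤
      · rw [hH]; exact Subgroup.IsSubnormal.top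
      · have hlt : H < Subgroup.normalizer (H : Set G) := hNC H (lt_top_iff_ne_top.mpr hH)
        exact Subgroup.IsSubnormal.step H _ Subgroup.le_normalizer (ih _ hlt)
          Subgroup.normal_in_normalizer
  · intro h
    refine (Group.isNilpotent_of_finite_tfae.out 0 2).mpr ?_
    intro H hH
    obtain ⟨K, hKn, hHK, hKt⟩ := (h H).exists_normal_and_le_and_lt_top_of_ne hH.1
    rcases eq_or_lt_of_le hHK with heq | hlt
    · rw [heq]; exact hKn
    · exact absurd (hH.2 K hlt) hKt.ne

end Cfsg.Agent.S0064
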