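import Mathlib
import Cfsg.Statements.S4143

set_option autoImplicit false
open Cfsg

namespace Cfsg.Agent.S4143

universe u

theorem mem_cent_single {Y : Type u} [Group Y] (a g : Y) :
    g ∈ Subgroup.centralizer ({a} : Set Y) ↔ a * g = g * a := by
  rw [Subgroup.mem_centralizer_iff]
  constructor
  · intro h
    exact h a rfl
  · intro h x hx
    rw [Set.mem_singleton_iff] at hx
    rw [hx]
    exact h

/-- a subgroup acting on `a` with central commutators is at most `|Z|` times its part
centralizing `a` -/
theorem card_le_of_comm_center {Y : Type u} [Group Y] [Finite Y] (a : Y) (K : Subgroup Y)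
    (hK : ∀ g ∈ K, g * a * g⁻¹ * a⁻¹ ∈ Subgroup.center Y) :
    Nat.card K ≤ Nat.card (Subgroup.center Y) *
      Nat.card (K ⊓ Subgroup.centralizer ({a} : Set Y) : Subgroup Y) := by
  let φ : K →* Subgroup.center Y :=
    { toFun := fun g => ⟨g.1 * a * g.1⁻¹ * a⁻¹, hK g.1 g.2⟩
      map_one' := by
        ext
        simp
      map_mul' := fun g h => by
        ext
        have hc := hK h.1 h.2
        rw [Subgroup.mem_center_iff] at hc
        show g.1 * h.1 * a * (g.1 * h.1)⁻¹ * a⁻¹
          = (g.1 * a * g.1⁻¹ * a⁻¹) * (h.1 * a * h.1⁻¹ * a⁻¹)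
        calc g.1 * h.1 * a * (g.1 * h.1)⁻¹ * a⁻¹
            = g.1 * (h.1 * a * h.1⁻¹ * a⁻¹) * (a * g.1⁻¹ * a⁻¹) := by group
          _ = (h.1 * a * h.1⁻¹ * a⁻¹) * g.1 * (a * g.1⁻¹ * a⁻¹) := by rw [hc g.1]
          _ = (h.1 * a * h.1⁻¹ * a⁻¹) * (g.1 * a * g.1⁻¹ * a⁻¹) := by group
          _ = (g.1 * a * g.1⁻¹ * a⁻¹) * (h.1 * a * h.1⁻¹ * a⁻¹) := (hc _).symm }
  have h1 : Nat.card K = Nat.card φ.ker * Nat.card φ.range := by
    rw [← Subgroup.index_ker, Subgroup.card_mul_index]
  have h2 : Nat.card φ.range ≤ Nat.card (Subgroup.center Y) := Subgroup.card_le_card_group _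
  have h3 : Nat.card φ.ker ≤ Nat.card (K ⊓ Subgroup.centralizer ({a} : Set Y) : Subgroup Y) := by
    have hmem : ∀ g : φ.ker, g.1.1 ∈ (K ⊓ Subgroup.centralizer ({a} : Set Y) : Subgroup Y) := by
      intro g
      rw [Subgroup.mem_inf]
      refine ⟨g.1.2, ?_⟩
      rw [mem_cent_single]
      have hg := g.2
      rw [MonoidHom.mem_ker] at hg
      have hg' : g.1.1 * a * g.1.1⁻¹ * a⁻¹ = 1 := congrArg Subtype.val hg
      have : g.1.1 * a = a * g.1.1 := by
        calc g.1.1 * a = (g.1.1 * a * g.1.1⁻¹ * a⁻¹) * (a * g.1.1) := by group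
          _ = a * g.1.1 := by rw [hg', one_mul]
      exact this.symm
    apply Nat.card_le_card_of_injective (fun g : φ.ker => (⟨g.1.1, hmem g⟩ :
      (K ⊓ Subgroup.centralizer ({a} : Set Y) : Subgroup Y)))
    intro g h hgh
    have hgh' : g.1.1 = h.1.1 :=
      congrArg (fun x : (K ⊓ Subgroup.centralizer ({a} : Set Y) : Subgroup Y) => (x : Y)) hgh
    exact Subtype.ext (Subtype.ext hgh')
  calc Nat.card K = Nat.card φ.ker * Nat.card φ.range := h1
    _ ≤ Nat.card (K ⊓ Subgroup.centralizer ({a} : Set Y) : Subgroup Y) *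
        Nat.card (Subgroup.center Y) := Nat.mul_le_mul h3 h2
    _ = _ := Nat.mul_comm _ _

/-- membership in the preimage of a centralizer in the central quotient -/
theorem mem_comap_cent {Y : Type u} [Group Y] (a g : Y)
    (hg : g ∈ (Subgroup.centralizer ({(QuotientGroup.mk a : Y ⧸ Subgroup.center Y)} :
      Set (Y ⧸ Subgroup.center Y))).comap (QuotientGroup.mk' (Subgroup.center Y))) :
    g * a * g⁻¹ * a⁻¹ ∈ Subgroup.center Y := by
  rw [Subgroup.mem_comap, mem_cent_single] at hg
  have h1 : (QuotientGroup.mk (g * a * g⁻¹ * a⁻¹) : Y ⧸ Subgroup.center Y) = 1 := by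
    have h2 : (QuotientGroup.mk (g * a * g⁻¹ * a⁻¹) : Y ⧸ Subgroup.center Y)
        = (QuotientGroup.mk g) * (QuotientGroup.mk a) * (QuotientGroup.mk g)⁻¹
          * (QuotientGroup.mk a)⁻¹ := rfl
    rw [h2]
    have h3 : (QuotientGroup.mk g : Y ⧸ Subgroup.center Y) * QuotientGroup.mk a
        = QuotientGroup.mk a * QuotientGroup.mk g := hg.symm
    rw [h3]
    group
  exact (QuotientGroup.eq_one_iff _).1 h1

/-- Suzuki's lemma: a `p`-group with an element whose centralizer has order at most `p ^ 2`
has maximal class. -/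
theorem suzuki (p : ℕ) [Fact p.Prime] : ∀ (k : ℕ) (Y : Type u) [Group Y] [Finite Y], 2 ≤ k →
    Nat.card Y = p ^ k →
    (∃ a : Y, Nat.card (Subgroup.centralizer ({a} : Set Y)) ≤ p ^ 2) →
    Group.nilpotencyClass Y = k - 1 := by
  have hp : p.Prime := Fact.out
  intro k
  induction k with
  | zero =>
    intro Y _ _ hk
    omega
  | succ k ih =>
    intro Y _ _ hk hY ⟨a, ha⟩
    have hpG : IsPGroup p Y := IsPGroup.of_card hY
    have : Group.IsNilpotent Y := hpG.isNilpotent
    have : Nontrivial Y := by
      rw [← Finite.one_lt_card_iff_nontrivial, hY]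
      exact Nat.one_lt_pow (by omega) hp.one_lt
    rw [Group.nilpotencyClass_eq_quotient_center_plus_one]
    by_cases hk2 : k + 1 = 2
    · have hcomm : IsMulCommutative Y :=
        IsPGroup.isMulCommutative_of_card_eq_prime_sq (p := p) (by rw [hY, hk2])
      have hct : Subgroup.center Y = ⊤ := by
        rw [eq_top_iff]
        intro x _
        rw [Subgroup.mem_center_iff]
        intro g
        exact hcomm.is_comm.comm g x
      have hss : Subsingleton (Y ⧸ Subgroup.center Y) := by
        rw [hct]
        exact QuotientGroup.subsingleton_quotient_top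
      have := (Group.nilpotencyClass_zero_iff_subsingleton (G := Y ⧸ Subgroup.center Y)).2 hss
      omega
    · have hk3 : 2 ≤ k := by omega
      have hanc : a ∉ Subgroup.center Y := by
        intro hac
        have htop : Subgroup.centralizer ({a} : Set Y) = ⊤ := by
          rw [eq_top_iff]
          intro g _
          rw [mem_cent_single]
          rw [Subgroup.mem_center_iff] at hac
          exact (hac g).symm
        rw [htop, Subgroup.card_top, hY] at ha
        have := (Nat.pow_le_pow_iff_right hp.one_lt).1 ha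
        omega
      have hZC : Subgroup.center Y ≤ Subgroup.centralizer ({a} : Set Y) :=
        Subgroup.center_le_centralizer _
      have haC : a ∈ Subgroup.centralizer ({a} : Set Y) := by
        rw [mem_cent_single]
      have hZlt : Nat.card (Subgroup.center Y) < Nat.card (Subgroup.centralizer ({a} : Set Y)) := by
        by_contra hnot
        push Not at hnot
        have := Subgroup.eq_of_le_of_card_ge hZC hnot
        exact hanc (this ▸ haC)
      have hZ : Nat.card (Subgroup.center Y) = p := by
        obtain ⟨j, hj, hjc⟩ := (Nat.dvd_prime_pow hp).1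
          (hY ▸ Subgroup.card_subgroup_dvd_card (Subgroup.center Y))
        have hj2 : j < 2 := by
          have : p ^ j < p ^ 2 := by
            rw [← hjc]
            exact lt_of_lt_of_le hZlt ha
          exact (Nat.pow_lt_pow_iff_right hp.one_lt).1 this
        have hj0 : j ≠ 0 := by
          intro h0
          rw [h0, pow_zero] at hjc
          have := hpG.center_nontrivial
          have := Finite.one_lt_card (α := Subgroup.center Y)
          omega
        have hj1 : j = 1 := by omega
        rw [hjc, hj1, pow_one]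
      have hq : Nat.card (Y ⧸ Subgroup.center Y) = p ^ k := by
        have h1 := Subgroup.card_eq_card_quotient_mul_card_subgroup (Subgroup.center Y)
        rw [hY, hZ, pow_succ] at h1
        exact (Nat.eq_of_mul_eq_mul_right hp.pos h1).symm
      have hcent : Nat.card (Subgroup.centralizer
          ({(QuotientGroup.mk a : Y ⧸ Subgroup.center Y)} : Set (Y ⧸ Subgroup.center Y))) ≤ p ^ 2 := by
        set Cb := Subgroup.centralizer
          ({(QuotientGroup.mk a : Y ⧸ Subgroup.center Y)} : Set (Y ⧸ Subgroup.center Y)) with hCb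
        set T := Cb.comap (QuotientGroup.mk' (Subgroup.center Y)) with hT
        have hT1 : Nat.card T ≤ p * p ^ 2 := by
          have h1 := card_le_of_comm_center a T (fun g hg => mem_comap_cent a g hg)
          rw [hZ] at h1
          have h2 : Nat.card (T ⊓ Subgroup.centralizer ({a} : Set Y) : Subgroup Y)
              ≤ Nat.card (Subgroup.centralizer ({a} : Set Y)) :=
            Subgroup.card_le_of_le inf_le_right
          calc Nat.card T ≤ p * Nat.card (T ⊓ Subgroup.centralizer ({a} : Set Y) : Subgroup Y) := h1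
            _ ≤ p * p ^ 2 := Nat.mul_le_mul_left _ (le_trans h2 ha)
        have hidx : T.index = Cb.index :=
          Subgroup.index_comap_of_surjective _ (QuotientGroup.mk'_surjective _)
        have h3 : Nat.card T * T.index = p ^ (k + 1) := by
          rw [Subgroup.card_mul_index, hY]
        have h4 : Nat.card Cb * Cb.index = p ^ k := by
          rw [Subgroup.card_mul_index, hq]
        have hpos : 0 < T.index := Nat.pos_of_ne_zero Subgroup.index_ne_zero_of_finite
        have h5 : Nat.card T = Nat.card Cb * p := by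
          have h6 : Nat.card T * T.index = (Nat.card Cb * p) * T.index := by
            rw [h3, hidx, pow_succ, ← h4]
            ring
          exact Nat.eq_of_mul_eq_mul_right hpos h6
        have h7 : Nat.card Cb * p ≤ p ^ 2 * p := by
          rw [← h5]
          calc Nat.card T ≤ p * p ^ 2 := hT1
            _ = p ^ 2 * p := Nat.mul_comm _ _
        exact Nat.le_of_mul_le_mul_right h7 hp.pos
      have := ih (Y ⧸ Subgroup.center Y) hk3 hq ⟨QuotientGroup.mk a, hcent⟩
      omega

/-- a chain `H < K < L` with `|L| = p ^ 3` forces `|H| ≤ p` -/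
theorem card_le_of_chain {G : Type u} [Group G] [Finite G] (p : ℕ) [Fact p.Prime]
    (H K L : Subgroup G) (hHK : H ≤ K) (hne1 : H ≠ K) (hKL : K ≤ L) (hne2 : K ≠ L)
    (hL : Nat.card L = p ^ 3) : Nat.card H ≤ p := by
  have hp : p.Prime := Fact.out
  obtain ⟨i, hi, hic⟩ := (Nat.dvd_prime_pow hp).1 (hL ▸ Subgroup.card_dvd_of_le hKL)
  have hi3 : i ≠ 3 := by
    intro h3
    apply hne2
    apply Subgroup.eq_of_le_of_card_ge hKL
    rw [hL, hic, h3]
  obtain ⟨j, hj, hjc⟩ := (Nat.dvd_prime_pow hp).1 (hic ▸ Subgroup.card_dvd_of_le hHK)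
  have hji : j ≠ i := by
    intro h3
    apply hne1
    apply Subgroup.eq_of_le_of_card_ge hHK
    rw [hic, hjc, h3]
  have hj1 : j ≤ 1 := by omega
  rw [hjc]
  calc p ^ j ≤ p ^ 1 := Nat.pow_le_pow_right hp.pos hj1
    _ = p := pow_one p

/-- a subgroup of order `p ^ i`, `i ≤ 2`, is commutative -/
theorem comm_of_card_le_sq {G : Type u} [Group G] [Finite G] (p : ℕ) [Fact p.Prime]
    (H : Subgroup G) (i : ℕ) (hi : i ≤ 2) (hH : Nat.card H = p ^ i) :
    ∀ x ∈ H, ∀ y ∈ H, x * y = y * x := by
  have hp : p.Prime := Fact.out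
  intro x hx y hy
  have hi' : i = 0 ∨ i = 1 ∨ i = 2 := by omega
  rcases hi' with h0 | h1 | h2
  · rw [h0, pow_zero] at hH
    have hbot : H = ⊥ := Subgroup.card_eq_one.1 hH
    rw [hbot, Subgroup.mem_bot] at hx hy
    rw [hx, hy]
  · rw [h1, pow_one] at hH
    have hcy : IsCyclic H := isCyclic_of_prime_card hH
    have hc : IsMulCommutative H := IsCyclic.isMulCommutative
    have := hc.is_comm.comm (⟨x, hx⟩ : H) ⟨y, hy⟩
    exact congrArg Subtype.val this
  · rw [h2] at hH
    have hc : IsMulCommutative H := IsPGroup.isMulCommutative_of_card_eq_prime_sq (p := p) hH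
    have := hc.is_comm.comm (⟨x, hx⟩ : H) ⟨y, hy⟩
    exact congrArg Subtype.val this

/-- a chain `H < K ≤ L`, `K ≠ L`, with `|L| = p ^ 2` forces `H = ⊥` -/
theorem eq_bot_of_chain {G : Type u} [Group G] [Finite G] (p : ℕ) [Fact p.Prime]
    (H K L : Subgroup G) (hHK : H ≤ K) (hne1 : H ≠ K) (hKL : K ≤ L) (hne2 : K ≠ L)
    (hL : Nat.card L = p ^ 2) : H = ⊥ := by
  have hp : p.Prime := Fact.out
  obtain ⟨i, hi, hic⟩ := (Nat.dvd_prime_pow hp).1 (hL ▸ Subgroup.card_dvd_of_le hKL)
  have hi3 : i ≠ 2 := by
    intro h3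
    apply hne2
    apply Subgroup.eq_of_le_of_card_ge hKL
    rw [hL, hic, h3]
  obtain ⟨j, hj, hjc⟩ := (Nat.dvd_prime_pow hp).1 (hic ▸ Subgroup.card_dvd_of_le hHK)
  have hji : j ≠ i := by
    intro h3
    apply hne1
    apply Subgroup.eq_of_le_of_card_ge hHK
    rw [hic, hjc, h3]
  have hj1 : j = 0 := by omega
  rw [hj1, pow_zero] at hjc
  exact Subgroup.card_eq_one.1 hjc

/-- Let X be a finite p-group of order p^n containing a non-abelian subgroup B of order p³ with C_X(B) ≤ B. Then X has nilpotency class n − 1 (maximal class). -/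
theorem result {X : Type*} [Group X] [Finite X] {p : ℕ} [Fact p.Prime] (n : ℕ) (hX : Nat.card X = p ^ n)
    (B : Subgroup X) (hB : Nat.card B = p ^ 3) (hBna : ¬ IsMulCommutative B) (hC : Subgroup.centralizer (B : Set X) ≤ B) :
    Group.nilpotencyClass X = n - 1 := by
  have hp : p.Prime := Fact.out
  have hpX : IsPGroup p X := IsPGroup.of_card hX
  have hnil : Group.IsNilpotent X := hpX.isNilpotent
  have hn3 : 3 ≤ n := by
    have h1 := Subgroup.card_le_card_group B
    rw [hB, hX] at h1
    exact (Nat.pow_le_pow_iff_right hp.one_lt).1 h1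
  have hnt : Nontrivial X := by
    rw [← Finite.one_lt_card_iff_nontrivial, hX]
    exact Nat.one_lt_pow (by omega) hp.one_lt
  obtain ⟨b1, hb1, b2, hb2, hne⟩ : ∃ b1 ∈ B, ∃ b2 ∈ B, b1 * b2 ≠ b2 * b1 := by
    by_contra hcon
    push Not at hcon
    exact hBna ⟨⟨fun x y => Subtype.ext (hcon x.1 x.2 y.1 y.2)⟩⟩
  -- the centralizer of `B` has order at most `p`
  have hCB : Nat.card (Subgroup.centralizer (B : Set X)) ≤ p := by
    apply card_le_of_chain p (Subgroup.centralizer (B : Set X))
      (B ⊓ Subgroup.centralizer ({b1} : Set X)) B ?_ ?_ inf_le_left ?_ hB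
    · apply le_inf hC
      exact Subgroup.centralizer_le (by simpa using hb1)
    · intro h
      have h1 : b1 ∈ B ⊓ Subgroup.centralizer ({b1} : Set X) := by
        rw [Subgroup.mem_inf, mem_cent_single]
        exact ⟨hb1, rfl⟩
      rw [← h, Subgroup.mem_centralizer_iff] at h1
      exact hne (h1 b2 hb2).symm
    · intro h
      have h1 : b2 ∈ B ⊓ Subgroup.centralizer ({b1} : Set X) := by
        rw [h]
        exact hb2
      rw [Subgroup.mem_inf, mem_cent_single] at h1
      exact hne h1.2
  have hZ : Nat.card (Subgroup.center X) = p := by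
    have h1 : Nat.card (Subgroup.center X) ≤ p :=
      le_trans (Subgroup.card_le_of_le (Subgroup.center_le_centralizer _)) hCB
    obtain ⟨j, hj, hjc⟩ := (Nat.dvd_prime_pow hp).1
      (hX ▸ Subgroup.card_subgroup_dvd_card (Subgroup.center X))
    have hj0 : j ≠ 0 := by
      intro h0
      rw [h0, pow_zero] at hjc
      have := hpX.center_nontrivial
      have := Finite.one_lt_card (α := Subgroup.center X)
      omega
    have hj1 : j ≤ 1 := by
      rw [hjc] at h1
      have : p ^ j ≤ p ^ 1 := by simpa using h1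
      exact (Nat.pow_le_pow_iff_right hp.one_lt).1 this
    have : j = 1 := by omega
    rw [hjc, this, pow_one]
  have hZB : Subgroup.center X ≤ B := le_trans (Subgroup.center_le_centralizer _) hC
  -- the quotient
  have hq : Nat.card (X ⧸ Subgroup.center X) = p ^ (n - 1) := by
    have h1 := Subgroup.card_eq_card_quotient_mul_card_subgroup (Subgroup.center X)
    have h2 : p ^ n = p ^ (n - 1) * p := by
      rw [← pow_succ]
      congr 1
      omega
    rw [hX, hZ, h2] at h1
    exact (Nat.eq_of_mul_eq_mul_right hp.pos h1).symm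
  let π := QuotientGroup.mk' (Subgroup.center X)
  have hπ : Function.Surjective π := QuotientGroup.mk'_surjective _
  set Bb : Subgroup (X ⧸ Subgroup.center X) := B.map π with hBb
  have hBbcomap : Bb.comap π = B := by
    rw [hBb, Subgroup.comap_map_eq, QuotientGroup.ker_mk', sup_eq_left]
    exact hZB
  have hBbcard : Nat.card Bb = p ^ 2 := by
    have h1 : Bb.index = B.index := by
      rw [← hBbcomap]
      exact (Subgroup.index_comap_of_surjective _ hπ).symm
    have h2 : Nat.card Bb * Bb.index = p ^ (n - 1) := by rw [Subgroup.card_mul_index, hq]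
    have h3 : Nat.card B * B.index = p ^ n := by rw [Subgroup.card_mul_index, hX]
    rw [hB] at h3
    have hpos : 0 < B.index := Nat.pos_of_ne_zero Subgroup.index_ne_zero_of_finite
    have h4 : (Nat.card Bb * p) * B.index = p ^ 3 * B.index := by
      rw [h3, ← h1]
      calc Nat.card Bb * p * Bb.index = (Nat.card Bb * Bb.index) * p := by ring
        _ = p ^ (n - 1) * p := by rw [h2]
        _ = p ^ n := by
          rw [← pow_succ]
          congr 1
          omega
    have h5 := Nat.eq_of_mul_eq_mul_right hpos h4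
    have h6 : Nat.card Bb * p = p ^ 2 * p := by
      rw [h5]
      ring
    exact Nat.eq_of_mul_eq_mul_right hp.pos h6
  have hBbcomm : ∀ x ∈ Bb, ∀ y ∈ Bb, x * y = y * x := comm_of_card_le_sq p Bb 2 le_rfl hBbcard
  set C1 := Subgroup.centralizer
    ({(QuotientGroup.mk b1 : X ⧸ Subgroup.center X)} : Set (X ⧸ Subgroup.center X)) with hC1
  set C2 := Subgroup.centralizer
    ({(QuotientGroup.mk b2 : X ⧸ Subgroup.center X)} : Set (X ⧸ Subgroup.center X)) with hC2
  have hb1b : (QuotientGroup.mk b1 : X ⧸ Subgroup.center X) ∈ Bb := ⟨b1, hb1, rfl⟩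
  have hb2b : (QuotientGroup.mk b2 : X ⧸ Subgroup.center X) ∈ Bb := ⟨b2, hb2, rfl⟩
  have hBbC : Bb ≤ C1 ⊓ C2 := by
    intro x hx
    rw [Subgroup.mem_inf, hC1, hC2, mem_cent_single, mem_cent_single]
    exact ⟨hBbcomm _ hb1b _ hx, hBbcomm _ hb2b _ hx⟩
  set T := (C1 ⊓ C2).comap π with hT
  have hBT : B ≤ T := by
    rw [← hBbcomap]
    exact Subgroup.comap_mono hBbC
  have hcl : Subgroup.closure ({b1, b2} : Set X) = B := by
    have hle : Subgroup.closure ({b1, b2} : Set X) ≤ B := by
      rw [Subgroup.closure_le]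
      intro x hx
      rcases hx with rfl | rfl
      · exact hb1
      · exact hb2
    obtain ⟨i, hi, hic⟩ := (Nat.dvd_prime_pow hp).1 (hB ▸ Subgroup.card_dvd_of_le hle)
    by_cases hi2 : i ≤ 2
    · exfalso
      have := comm_of_card_le_sq p _ i hi2 hic b1 (Subgroup.subset_closure (by simp))
        b2 (Subgroup.subset_closure (by simp))
      exact hne this
    · have hi3 : i = 3 := by omega
      apply Subgroup.eq_of_le_of_card_ge hle
      rw [hB, hic, hi3]
  have hTcard : Nat.card T ≤ p ^ 3 := by
    have hT1 : ∀ g ∈ T, g * b2 * g⁻¹ * b2⁻¹ ∈ Subgroup.center X := by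
      intro g hg
      apply mem_comap_cent
      rw [Subgroup.mem_comap]
      have hg' : π g ∈ C1 ⊓ C2 := hg
      exact hg'.2
    have h1 := card_le_of_comm_center b2 T hT1
    have hT2 : ∀ g ∈ T ⊓ Subgroup.centralizer ({b2} : Set X),
        g * b1 * g⁻¹ * b1⁻¹ ∈ Subgroup.center X := by
      intro g hg
      apply mem_comap_cent
      rw [Subgroup.mem_comap]
      have hg' : π g ∈ C1 ⊓ C2 := hg.1
      exact hg'.1
    have h2 := card_le_of_comm_center b1 (T ⊓ Subgroup.centralizer ({b2} : Set X)) hT2
    have h3 : (T ⊓ Subgroup.centralizer ({b2} : Set X)) ⊓ Subgroup.centralizer ({b1} : Set X)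
        ≤ Subgroup.centralizer (B : Set X) := by
      intro g hg
      have hg1 : b1 * g = g * b1 := (mem_cent_single b1 g).1 hg.2
      have hg2 : b2 * g = g * b2 := (mem_cent_single b2 g).1 hg.1.2
      have hle : Subgroup.closure ({b1, b2} : Set X) ≤ Subgroup.centralizer ({g} : Set X) := by
        rw [Subgroup.closure_le]
        intro x hx
        rcases hx with rfl | rfl
        · exact (mem_cent_single g x).2 hg1.symm
        · exact (mem_cent_single g x).2 hg2.symm
      rw [hcl] at hle
      rw [Subgroup.mem_centralizer_iff]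
      intro x hx
      exact ((mem_cent_single g x).1 (hle hx)).symm
    have h4 := Subgroup.card_le_of_le h3
    rw [hZ] at h1 h2
    calc Nat.card T ≤ p * Nat.card (T ⊓ Subgroup.centralizer ({b2} : Set X) : Subgroup X) := h1
      _ ≤ p * (p * Nat.card ((T ⊓ Subgroup.centralizer ({b2} : Set X)) ⊓
            Subgroup.centralizer ({b1} : Set X) : Subgroup X)) := Nat.mul_le_mul_left _ h2
      _ ≤ p * (p * p) := Nat.mul_le_mul_left _ (Nat.mul_le_mul_left _ (le_trans h4 hCB))
      _ = p ^ 3 := by ring
  have hTB : T = B := (Subgroup.eq_of_le_of_card_ge hBT (by rw [hB]; exact hTcard)).symm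
  have hC12 : C1 ⊓ C2 = Bb := by
    have h1 : (C1 ⊓ C2) = T.map π := by
      rw [hT, Subgroup.map_comap_eq_self_of_surjective hπ]
    rw [h1, hTB]
  have hqnt : Nontrivial (X ⧸ Subgroup.center X) := by
    rw [← Finite.one_lt_card_iff_nontrivial, hq]
    exact Nat.one_lt_pow (by omega) hp.one_lt
  have hpq : IsPGroup p (X ⧸ Subgroup.center X) := IsPGroup.of_card hq
  have hy : ∃ y : X ⧸ Subgroup.center X,
      Nat.card (Subgroup.centralizer ({y} : Set (X ⧸ Subgroup.center X))) ≤ p ^ 2 := by
    by_cases hcen : (QuotientGroup.mk b1 : X ⧸ Subgroup.center X) ∈ Subgroup.center _ ∧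
        (QuotientGroup.mk b2 : X ⧸ Subgroup.center X) ∈ Subgroup.center _
    · refine ⟨1, ?_⟩
      have htop : Bb = ⊤ := by
        rw [← hC12, eq_top_iff]
        intro g _
        rw [Subgroup.mem_inf, hC1, hC2, mem_cent_single, mem_cent_single]
        exact ⟨((Subgroup.mem_center_iff.1 hcen.1) g).symm,
          ((Subgroup.mem_center_iff.1 hcen.2) g).symm⟩
      calc Nat.card (Subgroup.centralizer ({(1 : X ⧸ Subgroup.center X)} : Set _))
          ≤ Nat.card (X ⧸ Subgroup.center X) := Subgroup.card_le_card_group _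
        _ = Nat.card Bb := by rw [htop, Subgroup.card_top]
        _ = p ^ 2 := hBbcard
    · obtain ⟨y, hyB, hyc⟩ : ∃ y ∈ Bb, y ∉ Subgroup.center (X ⧸ Subgroup.center X) := by
        by_contra hcon
        push Not at hcon
        exact hcen ⟨hcon _ hb1b, hcon _ hb2b⟩
      refine ⟨y, ?_⟩
      have hle : Subgroup.centralizer ({y} : Set (X ⧸ Subgroup.center X)) ≤ Bb := by
        intro g hg
        rw [mem_cent_single] at hg
        set D := Bb ⊓ Subgroup.centralizer ({g} : Set (X ⧸ Subgroup.center X)) with hD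
        have hZD : Subgroup.center (X ⧸ Subgroup.center X) ≤ D := by
          apply le_inf
          · rw [← hC12]
            exact le_inf (Subgroup.center_le_centralizer _) (Subgroup.center_le_centralizer _)
          · exact Subgroup.center_le_centralizer _
        have hyD : y ∈ D := by
          rw [hD, Subgroup.mem_inf, mem_cent_single]
          exact ⟨hyB, hg.symm⟩
        have hDB : D = Bb := by
          by_contra hDne
          have hbot := eq_bot_of_chain p (Subgroup.center (X ⧸ Subgroup.center X)) D Bb hZD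
            (fun h => hyc (h ▸ hyD)) inf_le_left hDne hBbcard
          have hnt2 := hpq.center_nontrivial
          rw [hbot] at hnt2
          exact not_nontrivial _ hnt2
        have h1 : (QuotientGroup.mk b1 : X ⧸ Subgroup.center X) ∈ D := hDB ▸ hb1b
        have h2 : (QuotientGroup.mk b2 : X ⧸ Subgroup.center X) ∈ D := hDB ▸ hb2b
        rw [hD, Subgroup.mem_inf, mem_cent_single] at h1 h2
        rw [← hC12, Subgroup.mem_inf, hC1, hC2, mem_cent_single, mem_cent_single]
        exact ⟨h1.2.symm, h2.2.symm⟩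
      exact le_trans (Subgroup.card_le_of_le hle) hBbcard.le
  have hcls := suzuki p (n - 1) (X ⧸ Subgroup.center X) (by omega) hq hy
  rw [Group.nilpotencyClass_eq_quotient_center_plus_one, hcls]
  omega

end Cfsg.Agent.S4143
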