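import Mathlib
import Cfsg.Statements.S0112
import Cfsg.Agent.S4143

set_option autoImplicit false
open Cfsg

namespace Cfsg.Agent.S0112

/-- A p-group with a self-centralizing subgroup of order p^2 is of maximal class. -/
theorem result {X : Type*} [Group X] [Finite X] {p : ℕ} [Fact p.Prime] (n : ℕ) (hX : Nat.card X = p ^ n) (A : Subgroup X) (hA : Nat.card A = p ^ 2) (hC : Subgroup.centralizer (A : Set X) = A) : Group.nilpotencyClass X = n - 1 := by
  have hp : p.Prime := Fact.out
  have hpX : IsPGroup p X := IsPGroup.of_card hX
  have hn2 : 2 ≤ n := by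
    have h1 : p ^ 2 ∣ p ^ n := by
      rw [← hA, ← hX]
      exact Subgroup.card_subgroup_dvd_card A
    exact (Nat.pow_dvd_pow_iff_le_right hp.one_lt).mp h1
  apply Cfsg.Agent.S4143.suzuki p n X hn2 hX
  have hZA : Subgroup.center X ≤ A := by
    intro z hz
    have h1 : z ∈ Subgroup.centralizer (A : Set X) := by
      rw [Subgroup.mem_centralizer_iff]
      intro a _
      exact Subgroup.mem_center_iff.mp hz a
    rwa [hC] at h1
  by_cases hZ : Subgroup.center X = A
  · have hAtop : A = ⊤ := by
      rw [eq_top_iff]
      intro g _
      have h1 : g ∈ Subgroup.centralizer (A : Set X) := by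
        rw [Subgroup.mem_centralizer_iff]
        intro h hh
        have hz : h ∈ Subgroup.center X := by rw [hZ]; exact hh
        exact (Subgroup.mem_center_iff.mp hz g).symm
      rwa [hC] at h1
    refine ⟨1, ?_⟩
    calc Nat.card (Subgroup.centralizer ({1} : Set X)) ≤ Nat.card X :=
          Subgroup.card_le_card_group _
      _ = p ^ 2 := by rw [← hA, hAtop, Subgroup.card_top]
  · have hlt : Subgroup.center X < A := lt_of_le_of_ne hZA hZ
    obtain ⟨a, haA, haZ⟩ := SetLike.exists_of_lt hlt
    refine ⟨a, ?_⟩
    have hle : Subgroup.centralizer ({a} : Set X) ≤ A := by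
      intro g hg
      have hZB : Subgroup.center X ≤ A ⊓ Subgroup.centralizer ({g} : Set X) := by
        apply le_inf hZA
        intro z hz
        rw [Subgroup.mem_centralizer_iff]
        intro h hh
        rw [Set.mem_singleton_iff] at hh
        rw [hh]
        exact Subgroup.mem_center_iff.mp hz g
      have haB : a ∈ A ⊓ Subgroup.centralizer ({g} : Set X) := by
        refine ⟨haA, ?_⟩
        show a ∈ Subgroup.centralizer ({g} : Set X)
        rw [Subgroup.mem_centralizer_iff]
        intro h hh
        rw [Set.mem_singleton_iff] at hh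
        rw [hh]
        exact (Subgroup.mem_centralizer_iff.mp hg a rfl).symm
      have hne1 : Subgroup.center X ≠ A ⊓ Subgroup.centralizer ({g} : Set X) := by
        intro h
        apply haZ
        rw [h]
        exact haB
      have hBA : A ⊓ Subgroup.centralizer ({g} : Set X) = A := by
        by_contra hne2
        have hbot := Cfsg.Agent.S4143.eq_bot_of_chain p (Subgroup.center X)
          (A ⊓ Subgroup.centralizer ({g} : Set X)) A hZB hne1 inf_le_left hne2 hA
        have hnt : Nontrivial X := by
          rw [← Finite.one_lt_card_iff_nontrivial, hX]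
          exact Nat.one_lt_pow (by omega) hp.one_lt
        exact (IsPGroup.bot_lt_center hpX).ne' hbot
      have hAg : A ≤ Subgroup.centralizer ({g} : Set X) := inf_eq_left.mp hBA
      have h1 : g ∈ Subgroup.centralizer (A : Set X) := by
        rw [Subgroup.mem_centralizer_iff]
        intro h hh
        exact (Subgroup.mem_centralizer_iff.mp (hAg hh) g rfl).symm
      rwa [hC] at h1
    calc Nat.card (Subgroup.centralizer ({a} : Set X)) ≤ Nat.card A := Subgroup.card_le_of_le hle
      _ = p ^ 2 := hA

end Cfsg.Agent.S0112
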