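import Cfsg.Statements.S0206
import Mathlib
import Cfsg.Agent.Helper2.Invol

set_option autoImplicit false
open Cfsg

namespace Cfsg.Agent.S0206

open Cfsg.Agent.Helper2

/-- the power map on `ZMod (orderOf R)` -/
noncomputable def E {G : Type*} [Group G] (R : G) (i : ZMod (orderOf R)) : G := R ^ (i.val : ℤ)

theorem E_intCast {G : Type*} [Group G] [Finite G] (R : G) (a : ℤ) :
    E R (a : ZMod (orderOf R)) = R ^ a := by
  haveI : NeZero (orderOf R) := ⟨(orderOf_pos R).ne'⟩
  unfold E
  rw [ZMod.val_intCast, zpow_mod_orderOf]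

theorem E_surj {G : Type*} [Group G] [Finite G] (R : G) (i : ZMod (orderOf R)) :
    ∃ a : ℤ, (a : ZMod (orderOf R)) = i := by
  haveI : NeZero (orderOf R) := ⟨(orderOf_pos R).ne'⟩
  exact ⟨(i.val : ℤ), by simp⟩

theorem E_add {G : Type*} [Group G] [Finite G] (R : G) (i j : ZMod (orderOf R)) :
    E R (i + j) = E R i * E R j := by
  obtain ⟨a, rfl⟩ := E_surj R i
  obtain ⟨b, rfl⟩ := E_surj R j
  rw [← Int.cast_add, E_intCast, E_intCast, E_intCast, zpow_add]

theorem E_sub {G : Type*} [Group G] [Finite G] (R : G) (i j : ZMod (orderOf R)) :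
    E R (j - i) = (E R i)⁻¹ * E R j := by
  obtain ⟨a, rfl⟩ := E_surj R i
  obtain ⟨b, rfl⟩ := E_surj R j
  rw [← Int.cast_sub, E_intCast, E_intCast, E_intCast, ← zpow_neg, ← zpow_add]
  congr 1
  ring

theorem E_inj {G : Type*} [Group G] [Finite G] (R : G) (i j : ZMod (orderOf R))
    (h : E R i = E R j) : i = j := by
  haveI : NeZero (orderOf R) := ⟨(orderOf_pos R).ne'⟩
  unfold E at h
  rw [zpow_natCast, zpow_natCast] at h
  have := pow_injOn_Iio_orderOf (x := R) (ZMod.val_lt i) (ZMod.val_lt j) h
  exact ZMod.val_injective _ this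

theorem x_mul_E {G : Type*} [Group G] [Finite G] (x y : G) (hx : orderOf x = 2)
    (hy : orderOf y = 2) (i : ZMod (orderOf (x * y))) :
    x * E (x * y) i = (E (x * y) i)⁻¹ * x := by
  unfold E
  rw [invol_mul_zpow x y hx hy, zpow_neg]

/-- the map from the dihedral group -/
noncomputable def toG {G : Type*} [Group G] (x y : G) : DihedralGroup (orderOf (x * y)) → G
  | DihedralGroup.r i => E (x * y) i
  | DihedralGroup.sr i => x * E (x * y) i

theorem toG_mul {G : Type*} [Group G] [Finite G] (x y : G) (hx : orderOf x = 2)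
    (hy : orderOf y = 2) (a b : DihedralGroup (orderOf (x * y))) :
    toG x y (a * b) = toG x y a * toG x y b := by
  cases a with
  | r i =>
    cases b with
    | r j =>
      rw [DihedralGroup.r_mul_r]
      exact E_add _ i j
    | sr j =>
      rw [DihedralGroup.r_mul_sr]
      show x * E (x * y) (j - i) = E (x * y) i * (x * E (x * y) j)
      rw [E_sub, ← mul_assoc, ← mul_assoc]
      congr 1
      have := x_mul_E x y hx hy i
      symm
      apply eq_mul_inv_of_mul_eq
      rw [mul_assoc, this, ← mul_assoc, mul_inv_cancel, one_mul]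
  | sr i =>
    cases b with
    | r j =>
      rw [DihedralGroup.sr_mul_r]
      show x * E (x * y) (i + j) = x * E (x * y) i * E (x * y) j
      rw [E_add, mul_assoc]
    | sr j =>
      rw [DihedralGroup.sr_mul_sr]
      show E (x * y) (j - i) = x * E (x * y) i * (x * E (x * y) j)
      rw [E_sub, x_mul_E x y hx hy i]
      calc (E (x * y) i)⁻¹ * E (x * y) j = (E (x * y) i)⁻¹ * (x * x) * E (x * y) j := by
            rw [sq_of_orderOf_two hx, mul_one]
        _ = (E (x * y) i)⁻¹ * x * (x * E (x * y) j) := by simp [mul_assoc]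

theorem x_not_mem {G : Type*} [Group G] (x y : G) (hx : orderOf x = 2)
    (hy : orderOf y = 2) (hxy : x ≠ y) : x ∉ Subgroup.zpowers (x * y) := by
  intro hmem
  obtain ⟨k, hk⟩ := Subgroup.mem_zpowers_iff.mp hmem
  have hcomm : x * (x * y) = (x * y) * x := by
    have hc : Commute ((x * y) ^ k) (x * y) := (Commute.refl (x * y)).zpow_left k
    rw [hk] at hc
    exact hc.eq
  have hyx : x * y = y * x := by
    have : x * (x * y) = x * (y * x) := by rw [hcomm, mul_assoc]
    exact mul_left_cancel this
  have hR2 : (x * y) * (x * y) = 1 := by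
    calc x * y * (x * y) = x * (y * x) * y := by simp [mul_assoc]
      _ = x * (x * y) * y := by rw [hyx]
      _ = (x * x) * (y * y) := by simp [mul_assoc]
      _ = 1 := by rw [sq_of_orderOf_two hx, sq_of_orderOf_two hy, one_mul]
  have hR2' : (x * y) ^ (2 : ℤ) = 1 := by
    rw [zpow_ofNat, pow_two, hR2]
  rcases Int.emod_two_eq_zero_or_one k with h | h
  · have hk2 : k = 2 * (k / 2) := by omega
    rw [hk2, zpow_mul, hR2', one_zpow] at hk
    exact ne_one_of_orderOf_two hx hk.symm
  · have hk2 : k = 2 * (k / 2) + 1 := by omega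
    rw [hk2, zpow_add, zpow_mul, hR2', one_zpow, one_mul, zpow_one] at hk
    have : y = 1 := by
      have : x * y = x * 1 := by rw [mul_one]; exact hk
      exact mul_left_cancel this
    exact ne_one_of_orderOf_two hy this

theorem toG_inj {G : Type*} [Group G] [Finite G] (x y : G) (hx : orderOf x = 2)
    (hy : orderOf y = 2) (hxy : x ≠ y) : Function.Injective (toG x y) := by
  have hmemE : ∀ i : ZMod (orderOf (x * y)), E (x * y) i ∈ Subgroup.zpowers (x * y) := by
    intro i
    exact Subgroup.zpow_mem_zpowers _ _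
  intro a b hab
  cases a with
  | r i =>
    cases b with
    | r j =>
      congr 1
      exact E_inj _ i j hab
    | sr j =>
      exfalso
      apply x_not_mem x y hx hy hxy
      have h1 : E (x * y) i = x * E (x * y) j := hab
      have h2 : x = E (x * y) i * (E (x * y) j)⁻¹ := by rw [h1]; simp
      have h3 : E (x * y) i * (E (x * y) j)⁻¹ ∈ Subgroup.zpowers (x * y) :=
        Subgroup.mul_mem _ (hmemE i) (Subgroup.inv_mem _ (hmemE j))
      rwa [← h2] at h3
  | sr i =>
    cases b with
    | r j =>
      exfalso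
      apply x_not_mem x y hx hy hxy
      have h1 : x * E (x * y) i = E (x * y) j := hab
      have h2 : x = E (x * y) j * (E (x * y) i)⁻¹ := by rw [← h1]; simp
      have h3 : E (x * y) j * (E (x * y) i)⁻¹ ∈ Subgroup.zpowers (x * y) :=
        Subgroup.mul_mem _ (hmemE j) (Subgroup.inv_mem _ (hmemE i))
      rwa [← h2] at h3
    | sr j =>
      congr 1
      have h1 : x * E (x * y) i = x * E (x * y) j := hab
      exact E_inj _ i j (mul_left_cancel h1)

theorem toG_mem {G : Type*} [Group G] (x y : G) (a : DihedralGroup (orderOf (x * y))) :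
    toG x y a ∈ Subgroup.closure ({x, y} : Set G) := by
  cases a with
  | r i => exact xy_zpow_mem_closure_pair x y _
  | sr i =>
    exact Subgroup.mul_mem _ (x_mem_closure_pair x y) (xy_zpow_mem_closure_pair x y _)

theorem toG_surj {G : Type*} [Group G] [Finite G] (x y : G) (hx : orderOf x = 2)
    (hy : orderOf y = 2) (d : G) (hd : d ∈ Subgroup.closure ({x, y} : Set G)) :
    ∃ a, toG x y a = d := by
  obtain ⟨i, hi | hi⟩ := mem_closure_pair x y hx hy d hd
  · refine ⟨DihedralGroup.r (i : ZMod (orderOf (x * y))), ?_⟩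
    show E (x * y) _ = d
    rw [E_intCast, hi]
  · refine ⟨DihedralGroup.sr ((-i : ℤ) : ZMod (orderOf (x * y))), ?_⟩
    show x * E (x * y) _ = d
    rw [E_intCast, hi, invol_mul_zpow x y hx hy, neg_neg]

/-- Two distinct involutions x, y of a finite group generate a subgroup isomorphic to the dihedral group of order 2·|xy|. -/
theorem result {G : Type*} [Group G] [Finite G] (x y : G) (hx : orderOf x = 2) (hy : orderOf y = 2) (hxy : x ≠ y) : Nonempty (↥(Subgroup.closure ({x, y} : Set G)) ≃* DihedralGroup (orderOf (x * y))) := by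
  let f0 : DihedralGroup (orderOf (x * y)) →* G :=
    { toFun := toG x y
      map_one' := by
        rw [DihedralGroup.one_def]
        show E (x * y) 0 = 1
        unfold E
        simp
      map_mul' := toG_mul x y hx hy }
  let f : DihedralGroup (orderOf (x * y)) →* Subgroup.closure ({x, y} : Set G) :=
    f0.codRestrict _ (toG_mem x y)
  have hf : Function.Bijective f := by
    constructor
    · intro a b hab
      apply toG_inj x y hx hy hxy
      have := congrArg Subtype.val hab
      exact this
    · intro d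
      obtain ⟨a, ha⟩ := toG_surj x y hx hy d.1 d.2
      exact ⟨a, Subtype.ext ha⟩
  exact ⟨(MulEquiv.ofBijective f hf).symm⟩

end Cfsg.Agent.S0206
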