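import Cfsg.Statements.S0427
import Cfsg.Agent.Helper12.S3622

set_option autoImplicit false
open Cfsg

namespace Cfsg.Agent.S0427

open Cfsg.Agent.Helper12.S3622

theorem ncard_sub {α : Type*} [DecidableEq α] (Bf : Finset (Finset α))
    (S : Set ↥(↑Bf : Set (Finset α))) (P : Finset α → Prop) [DecidablePred P]
    (h : ∀ x : ↥(↑Bf : Set (Finset α)), x ∈ S ↔ P x.1) : S.ncard = (Bf.filter P).card := by
  rw [← Set.ncard_image_of_injective S Subtype.val_injective, ← Set.ncard_coe_finset]
  congr 1
  ext d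
  simp only [Set.mem_image, Finset.coe_filter]
  constructor
  · rintro ⟨x, hx, rfl⟩
    exact ⟨Finset.mem_coe.mp x.2, (h x).mp hx⟩
  · rintro ⟨hd, hP⟩
    exact ⟨⟨d, Finset.mem_coe.mpr hd⟩, (h _).mpr hP, rfl⟩

/-- The block graph (adjacent = disjoint) of an S(3, 6, 22) is strongly regular with parameters (77, 16, 0, 4). -/
theorem result {α : Type*} [Fintype α] (hα : Fintype.card α = 22) {B : Set (Finset α)} (hB : Cfsg.IsSteinerSystem 3 6 B) [Fintype B] [DecidableRel (Cfsg.blockGraph B).Adj] : (Cfsg.blockGraph B).IsSRGWith 77 16 0 4 := by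
  classical
  obtain ⟨Bf, rfl⟩ := Cfsg.Agent.Helper3.exists_finset_coe B
  have hmemB : ∀ v : ↥(↑Bf : Set (Finset α)), (v : Finset α) ∈ Bf := fun v => Finset.mem_coe.mp v.2
  have hadj : ∀ v w : ↥(↑Bf : Set (Finset α)),
      (Cfsg.blockGraph (↑Bf : Set (Finset α))).Adj v w ↔ Disjoint (w : Finset α) (v : Finset α) := by
    intro v w
    unfold Cfsg.blockGraph
    rw [SimpleGraph.fromRel_adj]
    constructor
    · rintro ⟨-, h | h⟩
      · exact h.symm
      · exact h
    · intro h
      refine ⟨?_, Or.inr h⟩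
      rintro rfl
      exact block_ne_empty hB (hmemB v) h
  refine ⟨?_, ?_, ?_, ?_⟩
  · rw [Fintype.card_eq_nat_card, Nat.card_coe_set_eq, Set.ncard_coe_finset, card_blocks hα hB]
  · intro v
    rw [← SimpleGraph.card_neighborSet_eq_degree, Fintype.card_eq_nat_card, Nat.card_coe_set_eq,
      ncard_sub Bf _ (fun d => Disjoint d (v : Finset α)) (fun x => by
        rw [SimpleGraph.mem_neighborSet, hadj])]
    exact card_disjoint hα hB (hmemB v)
  · intro v w hvw
    rw [Fintype.card_eq_nat_card, Nat.card_coe_set_eq,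
      ncard_sub Bf _ (fun d => Disjoint d (v : Finset α) ∧ Disjoint d (w : Finset α)) (fun x => by
        rw [SimpleGraph.mem_commonNeighbors, hadj, hadj])]
    exact card_common_of_disjoint hα hB (hmemB v) (hmemB w) ((hadj v w).mp hvw).symm
  · intro v w hne hnadj
    rw [Fintype.card_eq_nat_card, Nat.card_coe_set_eq,
      ncard_sub Bf _ (fun d => Disjoint d (v : Finset α) ∧ Disjoint d (w : Finset α)) (fun x => by
        rw [SimpleGraph.mem_commonNeighbors, hadj, hadj])]
    apply card_common_of_meet hα hB (hmemB v) (hmemB w)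
    have hne' : (v : Finset α) ≠ (w : Finset α) := fun h => hne (Subtype.ext h)
    rcases inter_card hα hB (hmemB v) (hmemB w) hne' with h0 | h2
    · exfalso
      apply hnadj
      rw [hadj]
      exact disjoint_iff_card.mpr h0
    · exact h2

end Cfsg.Agent.S0427
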