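import Cfsg.Statements.S0436
import Mathlib

set_option autoImplicit false
open Cfsg

namespace Cfsg.Agent.S0436

theorem sq_one {G : Type*} [Group G] {E : Set G} (hE : Cfsg.IsThreeTranspositionSet E) {a : G}
    (ha : a ∈ E) : a * a = 1 := by
  have := pow_orderOf_eq_one a
  rw [hE.1 a ha, pow_two] at this
  exact this

theorem comm_or_braid {G : Type*} [Group G] {E : Set G} (hE : Cfsg.IsThreeTranspositionSet E)
    {x y : G} (hx : x ∈ E) (hy : y ∈ E) : Commute x y ∨ x * y * x = y * x * y := by
  have hxx := sq_one hE hx
  have hyy := sq_one hE hy
  rcases hE.2 x hx y hy with h | h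
  · left
    show x * y = y * x
    have h' : x * y * (x * y) = 1 := by rw [← pow_two]; exact h
    calc x * y = x * y * ((x * y) * (y * x)) := by
          have : (x * y) * (y * x) = 1 := by
            calc (x * y) * (y * x) = x * (y * y) * x := by group
              _ = 1 := by rw [hyy, mul_one, hxx]
          rw [this, mul_one]
      _ = (x * y * (x * y)) * (y * x) := by group
      _ = y * x := by rw [h', one_mul]
  · right
    have h' : x * y * (x * y) * (x * y) = 1 := by rw [← pow_two, ← pow_succ]; exact h
    calc x * y * x = x * y * x * ((y * x * y) * (y * x * y)) := by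
          have : (y * x * y) * (y * x * y) = 1 := by
            calc (y * x * y) * (y * x * y) = y * x * (y * y) * x * y := by group
              _ = y * (x * x) * y := by rw [hyy]; group
              _ = 1 := by rw [hxx, mul_one, hyy]
          rw [this, mul_one]
      _ = (x * y * (x * y) * (x * y)) * (y * x * y) := by group
      _ = y * x * y := by rw [h', one_mul]

theorem eq_of_braid {G : Type*} [Group G] {a b e : G} (haa : a * a = 1) (hbb : b * b = 1)
    (hee : e * e = 1) (e1 : e * a * e = a * e * a) (e2 : e * b * e = b * e * b)
    (h : e * (a * b) = (a * b) * e) : a = b := by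
  have k1 : a * b = (a * e * a) * (b * e * b) := by
    calc a * b = (a * b) * (e * e) := by rw [hee, mul_one]
      _ = (a * b * e) * e := by group
      _ = (e * (a * b)) * e := by rw [h]
      _ = e * a * (e * e) * b * e := by rw [hee]; group
      _ = (e * a * e) * (e * b * e) := by group
      _ = (a * e * a) * (b * e * b) := by rw [e1, e2]
  have k2 : e * (a * b) * e * b = b := by
    calc e * (a * b) * e * b = (a * a) * (e * (a * b) * e * b) := by rw [haa, one_mul]
      _ = a * ((a * e * a) * (b * e * b)) := by group
      _ = a * (a * b) := by rw [← k1]
      _ = (a * a) * b := by group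
      _ = b := by rw [haa, one_mul]
  have k3 : e * (a * b) * e = 1 := by
    calc e * (a * b) * e = e * (a * b) * e * (b * b) := by rw [hbb, mul_one]
      _ = (e * (a * b) * e * b) * b := by group
      _ = 1 := by rw [k2, hbb]
  have k4 : a * b = 1 := by
    calc a * b = (e * e) * (a * b) * (e * e) := by rw [hee, one_mul, mul_one]
      _ = e * (e * (a * b) * e) * e := by group
      _ = 1 := by rw [k3, mul_one, hee]
  calc a = a * (b * b) := by rw [hbb, mul_one]
    _ = (a * b) * b := by group
    _ = b := by rw [k4, one_mul]

/-- For distinct commuting members a, b of a set of 3-transpositions E, a member e of E centralises the product a * b if and only if it centralises both a and b. -/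
theorem result {G : Type*} [Group G] {E : Set G} (hE : Cfsg.IsThreeTranspositionSet E) {a b e : G} (ha : a ∈ E) (hb : b ∈ E) (he : e ∈ E) (hab : a ≠ b) (hcomm : Commute a b) : Commute e (a * b) ↔ (Commute e a ∧ Commute e b) := by
  have haa := sq_one hE ha
  have hbb := sq_one hE hb
  have hee := sq_one hE he
  constructor
  · intro h
    by_cases h1 : Commute e a
    · refine ⟨h1, ?_⟩
      have : b = a * (a * b) := by
        calc b = (a * a) * b := by rw [haa, one_mul]
          _ = a * (a * b) := by group
      rw [this]
      exact h1.mul_right h
    · by_cases h2 : Commute e b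
      · exfalso
        apply h1
        have : a = (a * b) * b := by
          calc a = a * (b * b) := by rw [hbb, mul_one]
            _ = (a * b) * b := by group
        rw [this]
        exact h.mul_right h2
      · exfalso
        have e1 : e * a * e = a * e * a := (comm_or_braid hE he ha).resolve_left h1
        have e2 : e * b * e = b * e * b := (comm_or_braid hE he hb).resolve_left h2
        exact hab (eq_of_braid haa hbb hee e1 e2 h)
  · rintro ⟨h1, h2⟩
    exact h1.mul_right h2

end Cfsg.Agent.S0436
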