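import Cfsg.Statements.S0437
import Cfsg.Agent.S0436
import Mathlib

set_option autoImplicit false
open Cfsg

namespace Cfsg.Agent.S0437

theorem key {G : Type*} [Group G] {a b c e : G} (haa : a * a = 1) (hbb : b * b = 1)
    (hcc : c * c = 1) (hee : e * e = 1) (hab : a * b = b * a) (hac : a * c = c * a)
    (hbc : b * c = c * b) (e1 : e * a * e = a * e * a) (e2 : e * b * e = b * e * b)
    (e3 : e * c * e = c * e * c) (hz : e * (a * b * c) = (a * b * c) * e) : e = c := by
  have hab2 : (a * b) * (a * b) = 1 := by
    calc (a * b) * (a * b) = a * (b * a) * b := by group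
      _ = a * (a * b) * b := by rw [← hab]
      _ = (a * a) * (b * b) := by group
      _ = 1 := by rw [haa, hbb, one_mul]
  have A1 : (e * a * b * e) * (a * b) = a * (e * a * b * e) * a := by
    calc e * a * b * e * (a * b) = e * a * b * e * (b * a) := by rw [hab]
      _ = e * a * (b * e * b) * a := by group
      _ = e * a * (e * b * e) * a := by rw [e2]
      _ = (e * a * e) * b * e * a := by group
      _ = (a * e * a) * b * e * a := by rw [e1]
      _ = a * (e * a * b * e) * a := by group
  have A2 : (e * a * b * e) * (a * b) = b * (e * a * b * e) * b := by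
    calc e * a * b * e * (a * b) = e * (a * b) * e * a * b := by group
      _ = e * (b * a) * e * a * b := by rw [hab]
      _ = e * b * (a * e * a) * b := by group
      _ = e * b * (e * a * e) * b := by rw [e1]
      _ = (e * b * e) * a * e * b := by group
      _ = (b * e * b) * a * e * b := by rw [e2]
      _ = b * e * (b * a) * e * b := by group
      _ = b * e * (a * b) * e * b := by rw [hab]
      _ = b * (e * a * b * e) * b := by group
  have A3 : (e * a * b * e) * (a * b) = (a * b) * (e * a * b * e) := by
    have h1 : a * (e * a * b * e) * a = b * (e * a * b * e) * b := by rw [← A1, A2]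
    have h2 : (e * a * b * e) = (a * b) * (e * a * b * e) * (a * b) := by
      calc (e * a * b * e) = (a * a) * (e * a * b * e) * (a * a) := by rw [haa, one_mul, mul_one]
        _ = a * (a * (e * a * b * e) * a) * a := by group
        _ = a * (b * (e * a * b * e) * b) * a := by rw [h1]
        _ = (a * b) * (e * a * b * e) * (b * a) := by group
        _ = (a * b) * (e * a * b * e) * (a * b) := by rw [hab]
    calc (e * a * b * e) * (a * b) = ((a * b) * (e * a * b * e) * (a * b)) * (a * b) := by rw [← h2]
      _ = (a * b) * (e * a * b * e) * ((a * b) * (a * b)) := by group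
      _ = (a * b) * (e * a * b * e) := by rw [hab2, mul_one]
  have A4 : (e * a * b * e) * (e * a * b * e) = 1 := by
    calc (e * a * b * e) * (e * a * b * e) = e * a * b * (e * e) * a * b * e := by group
      _ = e * ((a * b) * (a * b)) * e := by rw [hee]; group
      _ = 1 := by rw [hab2, mul_one, hee]
  have hw2 : (e * a * b) * (e * a * b) = (e * a * b * e) * (a * b) := by group
  have hw4 : (e * a * b) * (e * a * b) * ((e * a * b) * (e * a * b)) = 1 := by
    rw [hw2]
    calc (e * a * b * e) * (a * b) * ((e * a * b * e) * (a * b))
        = (e * a * b * e) * ((a * b) * (e * a * b * e)) * (a * b) := by group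
      _ = (e * a * b * e) * ((e * a * b * e) * (a * b)) * (a * b) := by rw [← A3]
      _ = ((e * a * b * e) * (e * a * b * e)) * ((a * b) * (a * b)) := by group
      _ = 1 := by rw [A4, hab2, one_mul]
  have cab : Commute a b := hab
  have cac : Commute a c := hac
  have cbc : Commute b c := hbc
  have cez : Commute e (a * b * c) := hz
  have caz : Commute a (a * b * c) := ((Commute.refl a).mul_right cab).mul_right cac
  have cbz : Commute b (a * b * c) := (cab.symm.mul_right (Commute.refl b)).mul_right cbc
  have cabc : Commute (a * b) c := cac.mul_left cbc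
  have hzz : (a * b * c) ^ 2 = 1 := by
    rw [cabc.mul_pow, pow_two, pow_two, hab2, hcc, one_mul]
  have hzw : Commute (e * a * b) (a * b * c) := (cez.mul_left caz).mul_left cbz
  have hec : e * c = (e * a * b) * (a * b * c) := by
    calc e * c = e * ((a * b) * (a * b)) * c := by rw [hab2, mul_one]
      _ = (e * a * b) * (a * b * c) := by group
  have hec3 : (e * c) ^ 3 = 1 := by
    calc (e * c) ^ 3 = (e * c * e) * (c * e * c) := by
          simp only [pow_succ, pow_zero, one_mul, mul_assoc]
      _ = (c * e * c) * (c * e * c) := by rw [e3]
      _ = c * e * (c * c) * e * c := by group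
      _ = c * (e * e) * c := by rw [hcc]; group
      _ = 1 := by rw [hee, mul_one, hcc]
  have h3 : (e * a * b) ^ 3 * (a * b * c) = 1 := by
    have h := hzw.mul_pow 3
    rw [← hec, hec3] at h
    have hz3 : (a * b * c) ^ 3 = a * b * c := by rw [pow_succ, hzz, one_mul]
    rw [hz3] at h
    exact h.symm
  have h4 : (e * a * b) ^ 3 * (e * a * b) = 1 := by
    calc (e * a * b) ^ 3 * (e * a * b) = (e * a * b) * (e * a * b) * ((e * a * b) * (e * a * b)) := by
          simp only [pow_succ, pow_zero, one_mul, mul_assoc]
      _ = 1 := hw4
  have hwz : e * a * b = a * b * c := mul_left_cancel (h4.trans h3.symm)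
  calc e = (e * a * b) * ((a * b) * (a * b)) * (b * a) := by
        rw [hab2, mul_one, ← hab]
        calc e = e * ((a * b) * (a * b)) := by rw [hab2, mul_one]
          _ = e * a * b * (a * b) := by group
    _ = (a * b * c) * ((a * b) * (a * b)) * (b * a) := by rw [hwz]
    _ = (a * b) * c * (a * b) := by rw [hab2, mul_one, ← hab]
    _ = c * (a * b) * (a * b) := by rw [cabc.eq]
    _ = c := by rw [mul_assoc, hab2, mul_one]

/-- For three distinct, pairwise commuting members a, b, c of a set of 3-transpositions E, a member e of E centralises a * b * c if and only if it centralises each of a, b and c. -/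
theorem result {G : Type*} [Group G] {E : Set G} (hE : Cfsg.IsThreeTranspositionSet E) {a b c e : G} (ha : a ∈ E) (hb : b ∈ E) (hc : c ∈ E) (he : e ∈ E) (hab : a ≠ b) (hac : a ≠ c) (hbc : b ≠ c) (h₁ : Commute a b) (h₂ : Commute a c) (h₃ : Commute b c) : Commute e (a * b * c) ↔ (Commute e a ∧ Commute e b ∧ Commute e c) := by
  have haa := Cfsg.Agent.S0436.sq_one hE ha
  have hbb := Cfsg.Agent.S0436.sq_one hE hb
  have hcc := Cfsg.Agent.S0436.sq_one hE hc
  have hee := Cfsg.Agent.S0436.sq_one hE he
  constructor
  · intro h
    by_cases h1 : Commute e a
    · -- e commutes with b * c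
      have hbc' : Commute e (b * c) := by
        have : b * c = a * (a * b * c) := by
          calc b * c = (a * a) * (b * c) := by rw [haa, one_mul]
            _ = a * (a * b * c) := by group
        rw [this]
        exact h1.mul_right h
      have := (Cfsg.Agent.S0436.result hE hb hc he hbc h₃).1 hbc'
      exact ⟨h1, this.1, this.2⟩
    · by_cases h2 : Commute e b
      · have hac' : Commute e (a * c) := by
          have : a * c = b * (a * b * c) := by
            calc a * c = (b * b) * (a * c) := by rw [hbb, one_mul]
              _ = b * (b * a) * c := by group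
              _ = b * (a * b) * c := by rw [h₁.eq]
              _ = b * (a * b * c) := by group
          rw [this]
          exact h2.mul_right h
        have := (Cfsg.Agent.S0436.result hE ha hc he hac h₂).1 hac'
        exact absurd this.1 h1
      · by_cases h3 : Commute e c
        · have hab' : Commute e (a * b) := by
            have : a * b = (a * b * c) * c := by
              calc a * b = (a * b) * (c * c) := by rw [hcc, mul_one]
                _ = (a * b * c) * c := by group
            rw [this]
            exact h.mul_right h3
          have := (Cfsg.Agent.S0436.result hE ha hb he hab h₁).1 hab'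
          exact absurd this.1 h1
        · exfalso
          have e1 : e * a * e = a * e * a := (Cfsg.Agent.S0436.comm_or_braid hE he ha).resolve_left h1
          have e2 : e * b * e = b * e * b := (Cfsg.Agent.S0436.comm_or_braid hE he hb).resolve_left h2
          have e3 : e * c * e = c * e * c := (Cfsg.Agent.S0436.comm_or_braid hE he hc).resolve_left h3
          have hec : e = c := key haa hbb hcc hee h₁.eq h₂.eq h₃.eq e1 e2 e3 h.eq
          apply h3
          rw [hec]
  · rintro ⟨h1, h2, h3⟩
    exact (h1.mul_right h2).mul_right h3

end Cfsg.Agent.S0437
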