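import Cfsg.Statements.S0529
import Cfsg.Agent.Helper4.Supersolvable
import Mathlib

set_option autoImplicit false
open Cfsg

namespace Cfsg.Agent.S0529

open Subgroup Cfsg.Agent.Helper4

universe u

/-- Cardinality of the preimage of a subgroup of the quotient by `⟨x⟩`. -/
theorem card_comap_mk' {G : Type*} [Group G] [Finite G] (N : Subgroup G) [N.Normal]
    (H' : Subgroup (G ⧸ N)) :
    Nat.card (H'.comap (QuotientGroup.mk' N)) = Nat.card H' * Nat.card N := by
  have hidx : (H'.comap (QuotientGroup.mk' N)).index = H'.index :=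
    Subgroup.index_comap_of_surjective _ (QuotientGroup.mk'_surjective _)
  have h1 := (H'.comap (QuotientGroup.mk' N)).card_mul_index
  have h2 := H'.card_mul_index
  have h3 : Nat.card G = Nat.card (G ⧸ N) * Nat.card N :=
    Subgroup.card_eq_card_quotient_mul_card_subgroup _
  rw [hidx, h3, ← h2] at h1
  have hidxpos : 0 < H'.index := Nat.pos_of_ne_zero (Subgroup.index_ne_zero_of_finite)
  have : Nat.card (H'.comap (QuotientGroup.mk' N)) * H'.index =
      (Nat.card H' * Nat.card N) * H'.index := by rw [h1]; ring
  exact Nat.eq_of_mul_eq_mul_right hidxpos this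

/-- A normal subgroup `M` of order `p * q` with `q < p` primes contains a subgroup of order `p`
that is normal in the whole group. -/
theorem exists_normal_of_card_pq {G : Type u} [Group G] [Finite G] (M : Subgroup G) [M.Normal]
    (p q : ℕ) (hp : p.Prime) (hq : q.Prime) (hqp : q < p) (hM : Nat.card M = p * q) :
    ∃ x : G, (zpowers x).Normal ∧ orderOf x = p := by
  have : Fact p.Prime := ⟨hp⟩
  obtain ⟨S⟩ : Nonempty (Sylow p M) := inferInstance
  have hnd : ¬ p ∣ q := by
    intro h
    have := Nat.le_of_dvd hq.pos h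
    omega
  have hcS : Nat.card S = p := by
    rw [S.card_eq_multiplicity, hM, Nat.factorization_mul hp.ne_zero hq.ne_zero,
      Finsupp.add_apply, hp.factorization_self, Nat.factorization_eq_zero_of_not_dvd hnd,
      pow_one]
  have hidx : (S : Subgroup M).index = q := by
    have h1 := (S : Subgroup M).card_mul_index
    rw [hcS, hM] at h1
    exact Nat.eq_of_mul_eq_mul_left hp.pos h1
  have hone : Nat.card (Sylow p M) = 1 := by
    have hdvd : Nat.card (Sylow p M) ∣ q := hidx ▸ S.card_dvd_index
    have hmod : Nat.card (Sylow p M) ≡ 1 [MOD p] := card_sylow_modEq_one p M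
    rcases (Nat.dvd_prime hq).mp hdvd with h | h
    · exact h
    · exfalso
      rw [h] at hmod
      have h1 : q % p = q := Nat.mod_eq_of_lt hqp
      have h2 : 1 % p = 1 := Nat.mod_eq_of_lt hp.one_lt
      unfold Nat.ModEq at hmod
      rw [h1, h2] at hmod
      exact hq.one_lt.ne' hmod
  have : Subsingleton (Sylow p M) := (Nat.card_eq_one_iff_unique.mp hone).1
  have hnorm : ((S : Subgroup M).map M.subtype).Normal := inferInstance
  have hcard : Nat.card ((S : Subgroup M).map M.subtype) = p := by
    rw [Subgroup.card_map_of_injective (Subgroup.subtype_injective _)]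
    exact hcS
  -- pick a nontrivial element
  have hne : (S : Subgroup M).map M.subtype ≠ ⊥ := by
    intro h
    rw [h, Subgroup.card_bot] at hcard
    exact hp.one_lt.ne hcard
  obtain ⟨⟨x, hx⟩, hx1'⟩ := (Subgroup.ne_bot_iff_exists_ne_one).mp hne
  have hx1 : x ≠ 1 := fun h => hx1' (Subtype.ext h)
  have hle : zpowers x ≤ (S : Subgroup M).map M.subtype := (Subgroup.zpowers_le).mpr hx
  have hord : orderOf x = p := by
    have hdvd : Nat.card (zpowers x) ∣ p := hcard ▸ Subgroup.card_dvd_of_le hle
    rw [Nat.card_zpowers] at hdvd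
    rcases (Nat.dvd_prime hp).mp hdvd with h | h
    · exact absurd (orderOf_eq_one_iff.mp h) hx1
    · exact h
  have heq : zpowers x = (S : Subgroup M).map M.subtype := by
    apply Subgroup.eq_of_le_of_card_ge hle
    rw [hcard, Nat.card_zpowers, hord]
  exact ⟨x, heq ▸ hnorm, hord⟩

theorem exists_normal_largest : ∀ (n : ℕ) (G : Type u) [Group G] [Finite G], Nat.card G = n →
    Nontrivial G → Cfsg.IsSupersolvable G →
    ∃ x : G, (zpowers x).Normal ∧ (orderOf x).Prime ∧
      ∀ q : ℕ, q.Prime → q ∣ Nat.card G → q ≤ orderOf x := by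
  intro n
  induction n using Nat.strong_induction_on with
  | _ n ih =>
  intro G _ _ hcard hnt hG
  obtain ⟨x0, hp0, hnorm0⟩ := exists_normal_prime_order hG
  by_cases hmax : ∀ q : ℕ, q.Prime → q ∣ Nat.card G → q ≤ orderOf x0
  · exact ⟨x0, hnorm0, hp0, hmax⟩
  · push Not at hmax
    obtain ⟨q, hq, hqd, hlt⟩ := hmax
    have hcN : Nat.card (zpowers x0) = orderOf x0 := Nat.card_zpowers x0
    have hQ : Cfsg.IsSupersolvable (G ⧸ zpowers x0) := isSupersolvable_quotient _ hG
    have hmul : Nat.card G = Nat.card (G ⧸ zpowers x0) * orderOf x0 := by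
      rw [← hcN]; exact Subgroup.card_eq_card_quotient_mul_card_subgroup _
    have hposQ : 0 < Nat.card (G ⧸ zpowers x0) := Nat.card_pos
    have hltn : Nat.card (G ⧸ zpowers x0) < n := by
      rw [← hcard, hmul]
      have := hp0.two_le
      nlinarith
    have hqQ : q ∣ Nat.card (G ⧸ zpowers x0) := by
      rw [hmul] at hqd
      rcases (Nat.Prime.dvd_mul hq).mp hqd with h | h
      · exact h
      · exfalso
        have := (Nat.prime_dvd_prime_iff_eq hq hp0).mp h
        omega
    have hntQ : Nontrivial (G ⧸ zpowers x0) := by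
      rw [← Finite.one_lt_card_iff_nontrivial]
      exact lt_of_lt_of_le hq.one_lt (Nat.le_of_dvd hposQ hqQ)
    obtain ⟨y, hyn, hyp, hymax⟩ := ih _ hltn (G ⧸ zpowers x0) rfl hntQ hQ
    have hq0p : orderOf x0 < orderOf y := lt_of_lt_of_le hlt (hymax q hq hqQ)
    have := hyn
    have : ((zpowers y).comap (QuotientGroup.mk' (zpowers x0))).Normal :=
      hyn.comap _
    have hcM : Nat.card ((zpowers y).comap (QuotientGroup.mk' (zpowers x0))) =
        orderOf y * orderOf x0 := by
      rw [card_comap_mk', Nat.card_zpowers, Nat.card_zpowers]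
    obtain ⟨x, hxn, hxo⟩ := exists_normal_of_card_pq
      ((zpowers y).comap (QuotientGroup.mk' (zpowers x0))) (orderOf y) (orderOf x0) hyp hp0 hq0p hcM
    refine ⟨x, hxn, hxo ▸ hyp, fun r hr hrd => ?_⟩
    rw [hxo]
    rw [hmul] at hrd
    rcases (Nat.Prime.dvd_mul hr).mp hrd with h | h
    · exact hymax r hr h
    · have := (Nat.prime_dvd_prime_iff_eq hr hp0).mp h
      omega

theorem aux : ∀ (m : ℕ) (G : Type u) [Group G] [Finite G], Nat.card G = m →
    Cfsg.IsSupersolvable G →
    ∃ (n : ℕ) (H : Fin (n + 1) → Subgroup G), H 0 = ⊥ ∧ H (Fin.last n) = ⊤ ∧ (∀ i, (H i).Normal) ∧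
      (∀ i : Fin n, H i.castSucc ≤ H i.succ ∧ ((H i.castSucc).relIndex (H i.succ)).Prime) ∧
      ∀ i j : Fin n, i ≤ j →
        (H j.castSucc).relIndex (H j.succ) ≤ (H i.castSucc).relIndex (H i.succ) := by
  intro m
  induction m using Nat.strong_induction_on with
  | _ m ih =>
  intro G _ _ hcard hG
  by_cases hnt : Nontrivial G
  · obtain ⟨x, hxn, hxp, hxmax⟩ := exists_normal_largest (Nat.card G) G rfl hnt hG
    have := hxn
    have hcN : Nat.card (zpowers x) = orderOf x := Nat.card_zpowers x
    have hQ : Cfsg.IsSupersolvable (G ⧸ zpowers x) := isSupersolvable_quotient _ hG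
    have hmul : Nat.card G = Nat.card (G ⧸ zpowers x) * orderOf x := by
      rw [← hcN]; exact Subgroup.card_eq_card_quotient_mul_card_subgroup _
    have hposQ : 0 < Nat.card (G ⧸ zpowers x) := Nat.card_pos
    have hlt : Nat.card (G ⧸ zpowers x) < m := by
      rw [← hcard, hmul]
      have := hxp.two_le
      nlinarith
    obtain ⟨n, H, h0, hlast, hnorm, hstep, hmono⟩ := ih _ hlt (G ⧸ zpowers x) rfl hQ
    have hsurj := QuotientGroup.mk'_surjective (zpowers x)
    -- relative index of pulled-back subgroups
    have hrel : ∀ A B : Subgroup (G ⧸ zpowers x),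
        (A.comap (QuotientGroup.mk' (zpowers x))).relIndex (B.comap (QuotientGroup.mk' (zpowers x)))
          = A.relIndex B := by
      intro A B
      rw [Subgroup.relIndex_comap, Subgroup.map_comap_eq_self_of_surjective hsurj]
    refine ⟨n + 1, Fin.cons ⊥ (fun i => (H i).comap (QuotientGroup.mk' (zpowers x))), ?_, ?_, ?_, ?_, ?_⟩
    · rfl
    · have : Fin.last (n + 1) = (Fin.last n).succ := rfl
      rw [this, Fin.cons_succ, hlast, Subgroup.comap_top]
    · intro i
      induction i using Fin.cases with
      | zero => rw [Fin.cons_zero]; exact Subgroup.normal_bot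
      | succ j => rw [Fin.cons_succ]; exact (hnorm j).comap _
    · intro i
      induction i using Fin.cases with
      | zero =>
        have h1 : (Fin.cons ⊥ (fun i => (H i).comap (QuotientGroup.mk' (zpowers x))) :
            Fin (n + 2) → Subgroup G) (Fin.castSucc (0 : Fin (n + 1))) = ⊥ := rfl
        have h2 : (Fin.cons ⊥ (fun i => (H i).comap (QuotientGroup.mk' (zpowers x))) :
            Fin (n + 2) → Subgroup G) (Fin.succ (0 : Fin (n + 1))) = zpowers x := by
          rw [Fin.cons_succ, h0]
          show (QuotientGroup.mk' (zpowers x)).ker = zpowers x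
          exact QuotientGroup.ker_mk' _
        rw [h1, h2]
        refine ⟨bot_le, ?_⟩
        rw [Subgroup.relIndex_bot_left, hcN]
        exact hxp
      | succ j =>
        have h1 : (Fin.cons ⊥ (fun i => (H i).comap (QuotientGroup.mk' (zpowers x))) :
            Fin (n + 2) → Subgroup G) (Fin.castSucc (Fin.succ j)) =
            (H j.castSucc).comap (QuotientGroup.mk' (zpowers x)) := by
          rw [← Fin.succ_castSucc, Fin.cons_succ]
        rw [h1, Fin.cons_succ, hrel]
        exact ⟨Subgroup.comap_mono (hstep j).1, (hstep j).2⟩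
    · -- monotonicity
      have hval0 : ((Fin.cons ⊥ (fun i => (H i).comap (QuotientGroup.mk' (zpowers x))) :
            Fin (n + 2) → Subgroup G) (Fin.castSucc (0 : Fin (n + 1)))).relIndex
          ((Fin.cons ⊥ (fun i => (H i).comap (QuotientGroup.mk' (zpowers x))) :
            Fin (n + 2) → Subgroup G) (Fin.succ (0 : Fin (n + 1)))) = orderOf x := by
        have h1 : (Fin.cons ⊥ (fun i => (H i).comap (QuotientGroup.mk' (zpowers x))) :
            Fin (n + 2) → Subgroup G) (Fin.castSucc (0 : Fin (n + 1))) = ⊥ := rfl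
        have h2 : (Fin.cons ⊥ (fun i => (H i).comap (QuotientGroup.mk' (zpowers x))) :
            Fin (n + 2) → Subgroup G) (Fin.succ (0 : Fin (n + 1))) = zpowers x := by
          rw [Fin.cons_succ, h0]
          show (QuotientGroup.mk' (zpowers x)).ker = zpowers x
          exact QuotientGroup.ker_mk' _
        rw [h1, h2, Subgroup.relIndex_bot_left, hcN]
      have hvals : ∀ j : Fin n, ((Fin.cons ⊥ (fun i => (H i).comap (QuotientGroup.mk' (zpowers x))) :
            Fin (n + 2) → Subgroup G) (Fin.castSucc (Fin.succ j))).relIndex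
          ((Fin.cons ⊥ (fun i => (H i).comap (QuotientGroup.mk' (zpowers x))) :
            Fin (n + 2) → Subgroup G) (Fin.succ (Fin.succ j))) =
          (H j.castSucc).relIndex (H j.succ) := by
        intro j
        have h1 : (Fin.cons ⊥ (fun i => (H i).comap (QuotientGroup.mk' (zpowers x))) :
            Fin (n + 2) → Subgroup G) (Fin.castSucc (Fin.succ j)) =
            (H j.castSucc).comap (QuotientGroup.mk' (zpowers x)) := by
          rw [← Fin.succ_castSucc, Fin.cons_succ]
        rw [h1, Fin.cons_succ, hrel]
      intro i j hij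
      induction j using Fin.cases with
      | zero =>
        have : i = 0 := Fin.le_zero_iff.mp hij
        rw [this]
      | succ j' =>
        induction i using Fin.cases with
        | zero =>
          rw [hval0, hvals]
          apply hxmax _ (hstep j').2
          rw [hmul]
          exact Dvd.dvd.mul_right
            ((Subgroup.relIndex_dvd_card _ _).trans (Subgroup.card_subgroup_dvd_card _)) _
        | succ i' =>
          rw [hvals, hvals]
          exact hmono i' j' (Fin.succ_le_succ_iff.mp hij)
  · rw [not_nontrivial_iff_subsingleton] at hnt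
    refine ⟨0, fun _ => ⊥, rfl, Subsingleton.elim _ _, fun _ => Subgroup.normal_bot,
      fun i => Fin.elim0 i, fun i => Fin.elim0 i⟩

/-- A finite supersolvable group has a chain of normal subgroups, from the trivial subgroup to the whole group, in which every step has prime index and the primes occurring are non-increasing as one goes up the chain. -/
theorem result {G : Type*} [Group G] [Finite G] (hG : Cfsg.IsSupersolvable G) : ∃ (n : ℕ) (H : Fin (n + 1) → Subgroup G), H 0 = ⊥ ∧ H (Fin.last n) = ⊤ ∧ (∀ i, (H i).Normal) ∧ (∀ i : Fin n, H i.castSucc ≤ H i.succ ∧ ((H i.castSucc).relIndex (H i.succ)).Prime) ∧ ∀ i j : Fin n, i ≤ j → (H j.castSucc).relIndex (H j.succ) ≤ (H i.castSucc).relIndex (H i.succ) := by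
  exact aux (Nat.card G) G rfl hG

end Cfsg.Agent.S0529
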