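import Cfsg.Statements.S0580
import Mathlib

set_option autoImplicit false
open Cfsg

namespace Cfsg.Agent.S0580

universe u

lemma isCoatom_comap {G H : Type*} [Group G] [Group H] (f : G →* H) (hf : Function.Surjective f)
    (M : Subgroup H) (hM : IsCoatom M) : IsCoatom (M.comap f) := by
  refine ⟨?_, ?_⟩
  · intro h
    apply hM.1
    rw [← Subgroup.map_comap_eq_self_of_surjective hf M, h, Subgroup.map_top_of_surjective _ hf]
  · intro L hL
    have hker : f.ker ≤ L := (Subgroup.ker_le_comap f M).trans hL.le
    have hL' : (L.map f).comap f = L := by rw [Subgroup.comap_map_eq, sup_eq_left.mpr hker]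
    have h1 : M < L.map f := by
      rw [← Subgroup.comap_lt_comap_of_surjective hf, hL']; exact hL
    have h2 := hM.2 _ h1
    rw [← hL', h2, Subgroup.comap_top]

lemma index_modEq_one {G : Type*} [Group G] [Finite G] {p : ℕ} [Fact p.Prime] (P : Sylow p G)
    (M : Subgroup G) (hNM : Subgroup.normalizer ((P : Subgroup G) : Set G) ≤ M) :
    M.index ≡ 1 [MOD p] := by
  have hPM : (P : Subgroup G) ≤ M := Subgroup.le_normalizer.trans hNM
  have h1 : Nat.card (Sylow p G) = (Subgroup.normalizer ((P : Subgroup G) : Set G)).index :=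
    P.card_eq_index_normalizer
  have h2 : Nat.card (Sylow p M) =
      (Subgroup.normalizer (((P.subtype hPM : Sylow p M) : Subgroup M) : Set M)).index :=
    (P.subtype hPM).card_eq_index_normalizer
  have h3 : Subgroup.normalizer (((P.subtype hPM : Sylow p M) : Subgroup M) : Set M) =
      (Subgroup.normalizer ((P : Subgroup G) : Set G)).subgroupOf M := by
    rw [Subgroup.subgroupOf_normalizer_eq hPM]; rfl
  have h4 : (Subgroup.normalizer ((P : Subgroup G) : Set G)).relIndex M * M.index =
      (Subgroup.normalizer ((P : Subgroup G) : Set G)).index :=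
    Subgroup.relIndex_mul_index hNM
  have m1 := card_sylow_modEq_one p G
  have m2 := card_sylow_modEq_one p M
  rw [h1, ← h4] at m1
  rw [h2, h3] at m2
  have m3 : (Subgroup.normalizer ((P : Subgroup G) : Set G)).relIndex M * M.index ≡ 1 * M.index [MOD p] :=
    Nat.ModEq.mul_right _ m2
  rw [one_mul] at m3
  exact m3.symm.trans m1

theorem aux : ∀ (n : ℕ) (G : Type u) [Group G] [Finite G], Nat.card G = n →
    (∀ M : Subgroup G, IsCoatom M → M.index.Prime) → Group.IsSolvable G := by
  intro n
  induction n using Nat.strong_induction_on with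
  | _ n ih =>
  intro G _ _ hcard h
  by_cases htriv : Subsingleton G
  · infer_instance
  rw [not_subsingleton_iff_nontrivial] at htriv
  have hcard1 : 1 < Nat.card G := Finite.one_lt_card
  have hne : (Nat.card G).primeFactors.Nonempty := Nat.nonempty_primeFactors.mpr hcard1
  obtain ⟨p, hpS, hpmax⟩ : ∃ p ∈ (Nat.card G).primeFactors, ∀ q ∈ (Nat.card G).primeFactors, q ≤ p :=
    ⟨_, Finset.max'_mem _ hne, fun q hq => Finset.le_max' _ q hq⟩
  have hp : p.Prime := Nat.prime_of_mem_primeFactors hpS
  have : Fact p.Prime := ⟨hp⟩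
  have hpdvd : p ∣ Nat.card G := Nat.dvd_of_mem_primeFactors hpS
  obtain ⟨P⟩ : Nonempty (Sylow p G) := inferInstance
  have hPn : (P : Subgroup G).Normal := by
    by_contra hnn
    have hN : Subgroup.normalizer ((P : Subgroup G) : Set G) ≠ ⊤ :=
      fun h => hnn (Subgroup.normalizer_eq_top_iff.mp h)
    obtain ⟨M, hM, hNM⟩ := (eq_top_or_exists_le_coatom _).resolve_left hN
    have hq := h M hM
    have hmod := index_modEq_one P M hNM
    have hdvd : M.index ∣ Nat.card G := Subgroup.index_dvd_card M
    have hmem : M.index ∈ (Nat.card G).primeFactors :=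
      Nat.mem_primeFactors.mpr ⟨hq, hdvd, Nat.card_pos.ne'⟩
    have hle := hpmax _ hmem
    have h2 := hq.two_le
    have hp2 := hp.two_le
    unfold Nat.ModEq at hmod
    rw [Nat.mod_eq_of_lt (show 1 < p by omega)] at hmod
    rcases Nat.lt_or_eq_of_le hle with hlt | heq
    · rw [Nat.mod_eq_of_lt hlt] at hmod
      omega
    · rw [heq, Nat.mod_self] at hmod
      omega
  have hPne : (P : Subgroup G) ≠ ⊥ := P.ne_bot_of_dvd_card hpdvd
  have hlt : Nat.card (G ⧸ (P : Subgroup G)) < n := by
    have h1 := Subgroup.card_eq_card_quotient_mul_card_subgroup (P : Subgroup G)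
    have h2 : 1 < Nat.card (P : Subgroup G) := by
      rw [Finite.one_lt_card_iff_nontrivial]
      exact (Subgroup.nontrivial_iff_ne_bot _).mpr hPne
    have h3 : 0 < Nat.card (G ⧸ (P : Subgroup G)) := Nat.card_pos
    rw [hcard] at h1
    nlinarith
  have hquot : Group.IsSolvable (G ⧸ (P : Subgroup G)) := by
    refine ih _ hlt (G ⧸ (P : Subgroup G)) rfl (fun M hM => ?_)
    have := h (M.comap (QuotientGroup.mk' (P : Subgroup G)))
      (isCoatom_comap _ (QuotientGroup.mk'_surjective _) M hM)
    rwa [Subgroup.index_comap_of_surjective _ (QuotientGroup.mk'_surjective _)] at this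
  have hPnil : Group.IsNilpotent (P : Subgroup G) := P.isPGroup'.isNilpotent
  have hPsol : Group.IsSolvable (P : Subgroup G) := inferInstance
  exact Group.isSolvable_of_ker_le_range (P : Subgroup G).subtype (QuotientGroup.mk' (P : Subgroup G))
    (by simp)

/-- If every maximal subgroup of a finite group has prime index, then the group is solvable. -/
theorem result {G : Type*} [Group G] [Finite G] (h : ∀ M : Subgroup G, IsCoatom M → M.index.Prime) : Group.IsSolvable G := by
  exact aux _ G rfl h

end Cfsg.Agent.S0580
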