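import Cfsg.Statements.S0597
import Mathlib
import Cfsg.Agent.S0538
import Cfsg.Agent.S2961

set_option autoImplicit false
set_option linter.style.haveILetI false
open Cfsg

namespace Cfsg.Agent.S0597

/-- If two subnormal subgroups of a faithful group on an elementary abelian p-group satisfy [V, E₁, E₂] = 1, then their commutator lies in the largest normal p-subgroup. -/
theorem result {G : Type*} [Group G] [Finite G] {p : ℕ} [Fact p.Prime] (V H : Subgroup G) (hV : Cfsg.IsElementaryAbelian p V) (hHV : H ≤ Subgroup.normalizer (V : Set G)) (hf : H ⊓ Subgroup.centralizer (V : Set G) = ⊥) (E₁ E₂ : Subgroup G) (h₁ : E₁ ≤ H) (h₂ : E₂ ≤ H) (hs₁ : (E₁.subgroupOf H).IsSubnormal) (hs₂ : (E₂.subgroupOf H).IsSubnormal) (hc : ⁅⁅V, E₁⁆, E₂⁆ = ⊥) : ⁅E₁, E₂⁆ ≤ (Cfsg.pCore p H).map H.subtype := by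
  have hpp : p.Prime := Fact.out
  obtain ⟨W, hWdef⟩ : ∃ W : Subgroup G, W = ⁅V, E₁⁆ := ⟨_, rfl⟩
  have hVn : ∀ g ∈ H, ∀ v ∈ V, g * v * g⁻¹ ∈ V := fun g hg v hv =>
    (Subgroup.mem_normalizer_iff.mp (hHV hg) v).mp hv
  have hVn' : ∀ g ∈ H, ∀ v ∈ V, g⁻¹ * v * g ∈ V := by
    intro g hg v hv
    have := hVn g⁻¹ (H.inv_mem hg) v hv
    rwa [inv_inv] at this
  have hWV : W ≤ V := by
    rw [hWdef, Subgroup.commutator_le]
    intro v hv a ha
    rw [commutatorElement_def]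
    have h1 := hVn a (h₁ ha) v⁻¹ (V.inv_mem hv)
    have h2 := V.mul_mem hv h1
    have e : v * (a * v⁻¹ * a⁻¹) = v * a * v⁻¹ * a⁻¹ := by group
    rwa [e] at h2
  have hW1 : ∀ a ∈ E₁, ∀ v ∈ V, a * v * a⁻¹ * v⁻¹ ∈ W := by
    intro a ha v hv
    have h1 := Subgroup.commutator_mem_commutator hv ha
    rw [commutatorElement_def, ← hWdef] at h1
    have h2 := W.inv_mem h1
    have e : (v * a * v⁻¹ * a⁻¹)⁻¹ = a * v * a⁻¹ * v⁻¹ := by group
    rwa [e] at h2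
  have hW2 : ∀ b ∈ E₂, ∀ w ∈ W, b * w = w * b := by
    intro b hb w hw
    have h1 := Subgroup.commutator_mem_commutator (hWdef ▸ hw) hb
    rw [hc, Subgroup.mem_bot, commutatorElement_def] at h1
    calc b * w = (w * b * w⁻¹ * b⁻¹)⁻¹ * (w * b) := by group
      _ = w * b := by rw [h1, inv_one, one_mul]
  have hWn : ∀ a ∈ E₁, ∀ w ∈ W, a * w * a⁻¹ ∈ W := by
    intro a ha w hw
    have h1 : (⁅V, E₁⁆).map (MulAut.conj a).toMonoidHom ≤ ⁅V, E₁⁆ := by
      rw [Subgroup.map_commutator]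
      apply Subgroup.commutator_mono
      · rintro _ ⟨v, hv, rfl⟩
        exact hVn a (h₁ ha) v hv
      · rintro _ ⟨x, hx, rfl⟩
        exact E₁.mul_mem (E₁.mul_mem ha hx) (E₁.inv_mem ha)
    have h2 : a * w * a⁻¹ ∈ (⁅V, E₁⁆).map (MulAut.conj a).toMonoidHom :=
      ⟨w, hWdef ▸ hw, rfl⟩
    rw [hWdef]; exact h1 h2
  -- the stabiliser of the chain `V ≥ W ≥ 1`
  let K : Subgroup G :=
    { carrier := {g | (∀ w ∈ W, g * w = w * g) ∧ (∀ v ∈ V, g * v * g⁻¹ * v⁻¹ ∈ W)}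
      mul_mem' := by
        rintro g h ⟨hg1, hg2⟩ ⟨hh1, hh2⟩
        refine ⟨fun w hw => ?_, fun v hv => ?_⟩
        · rw [mul_assoc, hh1 w hw, ← mul_assoc, hg1 w hw, mul_assoc]
        · have e : g * h * v * (g * h)⁻¹ * v⁻¹
              = g * (h * v * h⁻¹ * v⁻¹) * g⁻¹ * (g * v * g⁻¹ * v⁻¹) := by group
          rw [e, hg1 _ (hh2 v hv), mul_inv_cancel_right]
          exact W.mul_mem (hh2 v hv) (hg2 v hv)
      one_mem' := by
        refine ⟨fun w _ => by rw [one_mul, mul_one], fun v _ => ?_⟩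
        have e : (1 : G) * v * 1⁻¹ * v⁻¹ = 1 := by group
        rw [e]; exact W.one_mem
      inv_mem' := by
        rintro g ⟨hg1, hg2⟩
        have hg1' : ∀ w ∈ W, g⁻¹ * w = w * g⁻¹ := by
          intro w hw
          calc g⁻¹ * w = g⁻¹ * (w * g) * g⁻¹ := by group
            _ = g⁻¹ * (g * w) * g⁻¹ := by rw [hg1 w hw]
            _ = w * g⁻¹ := by group
        refine ⟨hg1', fun v hv => ?_⟩
        have e : g⁻¹ * v * g⁻¹⁻¹ * v⁻¹ = g⁻¹ * (g * v * g⁻¹ * v⁻¹)⁻¹ * g := by group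
        rw [e, hg1' _ (W.inv_mem (hg2 v hv)), inv_mul_cancel_right]
        exact W.inv_mem (hg2 v hv) }
  have hDK : ⁅E₁, E₂⁆ ≤ K := by
    rw [Subgroup.commutator_le]
    intro a ha b hb
    rw [commutatorElement_def]
    refine ⟨fun w hw => ?_, fun v hv => ?_⟩
    · have hw1 : a⁻¹ * w * a ∈ W := by
        have := hWn a⁻¹ (E₁.inv_mem ha) w hw
        rwa [inv_inv] at this
      have e1 : b⁻¹ * w = w * b⁻¹ := hW2 b⁻¹ (E₂.inv_mem hb) w hw
      have e2 : b * (a⁻¹ * w * a) = (a⁻¹ * w * a) * b := hW2 b hb _ hw1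
      calc a * b * a⁻¹ * b⁻¹ * w = a * b * a⁻¹ * (b⁻¹ * w) := by group
        _ = a * b * a⁻¹ * (w * b⁻¹) := by rw [e1]
        _ = a * (b * (a⁻¹ * w * a)) * a⁻¹ * b⁻¹ := by group
        _ = a * ((a⁻¹ * w * a) * b) * a⁻¹ * b⁻¹ := by rw [e2]
        _ = w * (a * b * a⁻¹ * b⁻¹) := by group
    · have hv' : b⁻¹ * v * b ∈ V := hVn' b (h₂ hb) v hv
      have hw0 : a⁻¹ * (b⁻¹ * v * b) * a * (b⁻¹ * v * b)⁻¹ ∈ W := by
        have := hW1 a⁻¹ (E₁.inv_mem ha) _ hv'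
        rwa [inv_inv] at this
      have e1 : b * (a⁻¹ * (b⁻¹ * v * b) * a * (b⁻¹ * v * b)⁻¹)
          = (a⁻¹ * (b⁻¹ * v * b) * a * (b⁻¹ * v * b)⁻¹) * b := hW2 b hb _ hw0
      have e : a * b * a⁻¹ * b⁻¹ * v * (a * b * a⁻¹ * b⁻¹)⁻¹ * v⁻¹
          = a * (b * (a⁻¹ * (b⁻¹ * v * b) * a * (b⁻¹ * v * b)⁻¹)) * b⁻¹ * a⁻¹
            * (a * v * a⁻¹ * v⁻¹) := by group
      rw [e, e1]
      have e3 : a * (a⁻¹ * (b⁻¹ * v * b) * a * (b⁻¹ * v * b)⁻¹ * b) * b⁻¹ * a⁻¹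
          = a * (a⁻¹ * (b⁻¹ * v * b) * a * (b⁻¹ * v * b)⁻¹) * a⁻¹ := by group
      rw [e3]
      exact W.mul_mem (hWn a ha _ hw0) (hW1 a ha v hv)
  have hDH : ⁅E₁, E₂⁆ ≤ H := by
    rw [Subgroup.commutator_le]
    intro a ha b hb
    rw [commutatorElement_def]
    exact H.mul_mem (H.mul_mem (H.mul_mem (h₁ ha) (h₂ hb)) (H.inv_mem (h₁ ha)))
      (H.inv_mem (h₂ hb))
  -- every element of the commutator has order dividing `p`
  have hDp : ∀ d ∈ ⁅E₁, E₂⁆, d ^ p = 1 := by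
    intro d hd
    obtain ⟨hd1, hd2⟩ := hDK hd
    have hcen : d ^ p ∈ Subgroup.centralizer (V : Set G) := by
      rw [Subgroup.mem_centralizer_iff]
      intro v hv
      have hw := hd2 v hv
      have key : ∀ k : ℕ, d ^ k * v * (d ^ k)⁻¹ = (d * v * d⁻¹ * v⁻¹) ^ k * v := by
        intro k
        induction k with
        | zero => simp
        | succ k ih =>
          have hcw : d * (d * v * d⁻¹ * v⁻¹) ^ k = (d * v * d⁻¹ * v⁻¹) ^ k * d :=
            ((show Commute d (d * v * d⁻¹ * v⁻¹) from hd1 _ hw).pow_right k).eq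
          calc d ^ (k + 1) * v * (d ^ (k + 1))⁻¹ = d * (d ^ k * v * (d ^ k)⁻¹) * d⁻¹ := by
                rw [pow_succ']; group
            _ = d * ((d * v * d⁻¹ * v⁻¹) ^ k * v) * d⁻¹ := by rw [ih]
            _ = (d * (d * v * d⁻¹ * v⁻¹) ^ k) * v * d⁻¹ := by group
            _ = ((d * v * d⁻¹ * v⁻¹) ^ k * d) * v * d⁻¹ := by rw [hcw]
            _ = (d * v * d⁻¹ * v⁻¹) ^ k * (d * v * d⁻¹ * v⁻¹) * v := by group
            _ = (d * v * d⁻¹ * v⁻¹) ^ (k + 1) * v := by rw [pow_succ]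
      have h1 := key p
      rw [hV.2 _ (hWV hw), one_mul] at h1
      calc v * d ^ p = (d ^ p * v * (d ^ p)⁻¹) * d ^ p := by rw [h1]
        _ = d ^ p * v := by group
    have hmem : d ^ p ∈ H ⊓ Subgroup.centralizer (V : Set G) := ⟨H.pow_mem (hDH hd) p, hcen⟩
    rwa [hf, Subgroup.mem_bot] at hmem
  -- pass to `↥H`
  have hnl : ∀ {Γ : Type _} [Group Γ] (A B : Subgroup Γ), A ≤ Subgroup.normalizer ((⁅A, B⁆ : Subgroup Γ) : Set Γ) := by
    intro Γ _ A B a ha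
    have hconj : ∀ a ∈ A, ∀ n ∈ ⁅A, B⁆, a * n * a⁻¹ ∈ ⁅A, B⁆ := by
      intro a ha n hn
      have h1 : ⁅A, B⁆ ≤ (⁅A, B⁆).comap (MulAut.conj a).toMonoidHom := by
        rw [Subgroup.commutator_le]
        intro x hx y hy
        rw [Subgroup.mem_comap, commutatorElement_def]
        have m1 := Subgroup.commutator_mem_commutator (A.mul_mem ha hx) hy
        have m2 := Subgroup.commutator_mem_commutator ha hy
        rw [commutatorElement_def] at m1 m2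
        have m3 := (⁅A, B⁆).mul_mem m1 ((⁅A, B⁆).inv_mem m2)
        have e : a * x * y * (a * x)⁻¹ * y⁻¹ * (a * y * a⁻¹ * y⁻¹)⁻¹
            = a * (x * y * x⁻¹ * y⁻¹) * a⁻¹ := by group
        rw [e] at m3
        exact m3
      exact h1 hn
    rw [Subgroup.mem_normalizer_iff]
    intro n
    refine ⟨fun hn => hconj a ha n hn, fun hn => ?_⟩
    have := hconj a⁻¹ (A.inv_mem ha) _ hn
    have e : a⁻¹ * (a * n * a⁻¹) * a⁻¹⁻¹ = n := by group
    rwa [e] at this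
  have hnr : ∀ {Γ : Type _} [Group Γ] (A B : Subgroup Γ), B ≤ Subgroup.normalizer ((⁅A, B⁆ : Subgroup Γ) : Set Γ) := by
    intro Γ _ A B
    rw [Subgroup.commutator_comm A B]
    exact hnl B A
  have hsub : (⁅E₁.subgroupOf H, E₂.subgroupOf H⁆).IsSubnormal := by
    have hJ := Cfsg.Agent.S0538.result _ _ hs₁ hs₂
    have hle : ⁅E₁.subgroupOf H, E₂.subgroupOf H⁆ ≤ E₁.subgroupOf H ⊔ E₂.subgroupOf H := by
      rw [Subgroup.commutator_le]
      intro x hx y hy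
      rw [commutatorElement_def]
      have hx' : x ∈ E₁.subgroupOf H ⊔ E₂.subgroupOf H := Subgroup.mem_sup_left hx
      have hy' : y ∈ E₁.subgroupOf H ⊔ E₂.subgroupOf H := Subgroup.mem_sup_right hy
      exact Subgroup.mul_mem _ (Subgroup.mul_mem _ (Subgroup.mul_mem _ hx' hy')
        (Subgroup.inv_mem _ hx')) (Subgroup.inv_mem _ hy')
    exact Subgroup.IsSubnormal.step _ _ hle hJ
      (Subgroup.normal_subgroupOf_of_le_normalizer (sup_le (hnl _ _) (hnr _ _)))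
  have hDmap : (⁅E₁.subgroupOf H, E₂.subgroupOf H⁆).map H.subtype = ⁅E₁, E₂⁆ := by
    rw [Subgroup.map_commutator, Subgroup.subgroupOf_map_subtype, Subgroup.subgroupOf_map_subtype,
      inf_eq_left.mpr h₁, inf_eq_left.mpr h₂]
  have hpg : IsPGroup p ↥(⁅E₁.subgroupOf H, E₂.subgroupOf H⁆) := by
    intro x
    refine ⟨1, ?_⟩
    have hx : ((x : ↥H) : G) ∈ ⁅E₁, E₂⁆ := by
      rw [← hDmap]; exact Subgroup.mem_map_of_mem _ x.2
    have := hDp _ hx
    rw [pow_one]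
    apply Subtype.ext
    apply Subtype.ext
    simpa using this
  have hfin := Cfsg.Agent.S2961.subnormal_pGroup_le_pCore _ hsub hpg
  rw [← hDmap]
  exact Subgroup.map_mono hfin

end Cfsg.Agent.S0597
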