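import Cfsg.Statements.S0602

set_option autoImplicit false
open Cfsg

namespace Cfsg.Agent.S0602

universe u

theorem exists_max (p : ℕ) (G : Type*) [Group G] [Finite G] :
    (Cfsg.maxElementaryAbelianSubgroups p G).Nonempty := by
  obtain ⟨A, hA⟩ := Set.Finite.exists_maximalFor (fun A : Subgroup G => Nat.card A)
    {A : Subgroup G | Cfsg.IsElementaryAbelian p A} (Set.toFinite _)
    ⟨⊥, ⟨inferInstance, fun a ha => by rw [Subgroup.mem_bot.mp ha, one_pow]⟩⟩
  refine ⟨A, hA.1, fun B hB => ?_⟩
  rcases le_total (Nat.card B) (Nat.card A) with h | h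
  · exact h
  · exact hA.2 hB h

theorem elab_map {G G' : Type u} [Group G] [Group G'] (p : ℕ) (φ : G →* G') (A : Subgroup G)
    (hA : Cfsg.IsElementaryAbelian p A) : Cfsg.IsElementaryAbelian p (A.map φ) := by
  have := hA.1
  refine ⟨inferInstance, ?_⟩
  rintro _ ⟨a, ha, rfl⟩
  rw [← map_pow, hA.2 a ha, map_one]

theorem max_map {G G' : Type u} [Group G] [Group G'] (p : ℕ) (φ : G ≃* G') (A : Subgroup G)
    (hA : A ∈ Cfsg.maxElementaryAbelianSubgroups p G) :
    A.map φ.toMonoidHom ∈ Cfsg.maxElementaryAbelianSubgroups p G' := by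
  refine ⟨elab_map p _ A hA.1, fun B hB => ?_⟩
  have h1 := hA.2 _ (elab_map p φ.symm.toMonoidHom B hB)
  rw [Subgroup.card_map_of_injective φ.symm.injective] at h1
  rw [Subgroup.card_map_of_injective φ.injective]
  exact h1

/-- The Thompson subgroup is characteristic, and nontrivial as soon as p divides the group order. -/
theorem result {G : Type*} [Group G] [Finite G] {p : ℕ} [Fact p.Prime] : (Cfsg.thompsonSubgroup p G).Characteristic ∧ (p ∣ Nat.card G → Cfsg.thompsonSubgroup p G ≠ ⊥) := by
  constructor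
  · rw [Subgroup.characteristic_iff_map_le]
    intro φ
    rw [Subgroup.map_le_iff_le_comap]
    apply sSup_le
    intro A hA
    rw [← Subgroup.map_le_iff_le_comap]
    exact le_sSup (max_map p φ A hA)
  · intro hp hbot
    obtain ⟨x, hx⟩ := exists_prime_orderOf_dvd_card' p hp
    obtain ⟨A, hA⟩ := exists_max p G
    have hAJ : A ≤ Cfsg.thompsonSubgroup p G := le_sSup hA
    rw [hbot, le_bot_iff] at hAJ
    have hz : Cfsg.IsElementaryAbelian p (Subgroup.zpowers x) := by
      refine ⟨inferInstance, ?_⟩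
      intro a ha
      obtain ⟨k, rfl⟩ := Subgroup.mem_zpowers_iff.mp ha
      rw [← zpow_natCast, ← zpow_mul, mul_comm, zpow_mul, zpow_natCast, ← hx, pow_orderOf_eq_one,
        one_zpow]
    have h1 := hA.2 _ hz
    rw [Nat.card_zpowers, hx, hAJ, Subgroup.card_bot] at h1
    exact absurd h1 (by have := (Fact.out : p.Prime).two_le; omega)

end Cfsg.Agent.S0602
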