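import Cfsg.Statements.S0636
import Mathlib
import Cfsg.Agent.Helper1.NormRank2
import Cfsg.Agent.Helper1.MaxClass

set_option autoImplicit false
open Cfsg

namespace Cfsg.Agent.S0636

open Cfsg.Agent.Helper1

/-- For odd p, every non-cyclic normal subgroup of a p-group contains a normal elementary abelian subgroup of the whole group of order p². -/
theorem result {R : Type*} [Group R] [Finite R] {p : ℕ} [Fact p.Prime] (hp : p ≠ 2) (hR : IsPGroup p R) (S : Subgroup R) [S.Normal] (hS : ¬ IsCyclic S) : ∃ A : Subgroup R, A ≤ S ∧ A.Normal ∧ Cfsg.IsElementaryAbelian p A ∧ Nat.card A = p ^ 2 := by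
  have hpp : p.Prime := Fact.out
  obtain ⟨A, -, hAmax⟩ := Finite.exists_le_maximal
    (p := fun M : Subgroup R => M.Normal ∧ M ≤ S ∧ ∀ x ∈ M, ∀ y ∈ M, x * y = y * x)
    (a := ⊥) ⟨inferInstance, bot_le, by
      intro x hx y hy
      rw [Subgroup.mem_bot] at hx hy
      rw [hx, hy]⟩
  obtain ⟨⟨hAn, hAS, hAc⟩, hAmax'⟩ := hAmax
  by_cases hAcyc : IsCyclic A
  · have hAne : A ≠ S := by rintro rfl; exact hS hAcyc
    obtain ⟨B, hBn, hAB, hBS, hrel⟩ := exists_normal_step hR A S hAn inferInstance hAS hAne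
    have hBp : IsPGroup p B := hR.to_subgroup B
    have hBnc : ¬ IsCyclic B := by
      intro hBc
      have hBcomm : ∀ x ∈ B, ∀ y ∈ B, x * y = y * x := mul_comm_of_mem_cyclic B hBc
      have hBA : B ≤ A := hAmax' ⟨hBn, hBS, hBcomm⟩ hAB
      rw [← Subgroup.relIndex_eq_one] at hBA
      rw [hBA] at hrel
      exact hpp.one_lt.ne hrel
    have hAsub : IsCyclic (A.subgroupOf B) :=
      isCyclic_of_surjective (Subgroup.subgroupOfEquivOfLe hAB).symm
        (Subgroup.subgroupOfEquivOfLe hAB).symm.surjective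
    obtain ⟨h1, h2, h3⟩ := omega_cyclic_index hp hBp hBnc (A.subgroupOf B) hAsub hrel
    have hWchar : (Subgroup.closure {x : B | x ^ p = 1}).Characteristic := by
      apply closure_characteristic
      intro φ s hs
      show (φ s) ^ p = 1
      rw [← map_pow, show s ^ p = 1 from hs, map_one]
    refine ⟨(Subgroup.closure {x : B | x ^ p = 1}).map B.subtype, ?_,
      ConjAct.normal_of_characteristic_of_normal, ⟨?_, ?_⟩, ?_⟩
    · rintro _ ⟨x, hx, rfl⟩
      exact hBS x.2
    · refine ⟨⟨fun a b => Subtype.ext ?_⟩⟩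
      obtain ⟨x, hx, hxa⟩ := a.2
      obtain ⟨y, hy, hyb⟩ := b.2
      have := h1 x hx y hy
      show (a : R) * (b : R) = (b : R) * (a : R)
      rw [← hxa, ← hyb, ← map_mul, ← map_mul, this]
    · rintro _ ⟨x, hx, rfl⟩
      have := h2 x hx
      rw [← map_pow, this, map_one]
    · rw [Subgroup.card_map_of_injective (Subgroup.subtype_injective B)]
      exact h3
  · have hAp : IsPGroup p A := hR.to_subgroup A
    have hex : ∃ H K : Subgroup A, Nat.card H = p ∧ Nat.card K = p ∧ H ≠ K := by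
      by_contra hno
      apply hAcyc
      rcases Cfsg.Agent.S0016.result p hAp (fun H K hH hK => by
         by_contra hne; exact hno ⟨H, K, hH, hK, hne⟩) with h | h
      · exact h
      · exact absurd h.1 hp
    obtain ⟨H, K, hH, hK, hHK⟩ := hex
    have hScomm : ∀ s ∈ {a : R | a ∈ A ∧ a ^ p = 1}, ∀ t ∈ {a : R | a ∈ A ∧ a ^ p = 1},
        s * t = t * s := fun s hs t ht => hAc s hs.1 t ht.1
    have hE1 := closure_comm _ hScomm
    have hE2 := closure_pow_eq_one _ hScomm p (fun s hs => hs.2)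
    have hEn : (Subgroup.closure {a : R | a ∈ A ∧ a ^ p = 1}).Normal := by
      apply closure_normal_of_conj
      intro g s hs
      apply Subgroup.subset_closure
      exact ⟨hAn.conj_mem s hs.1 g, by rw [conj_pow, hs.2, mul_one, mul_inv_cancel]⟩
    have hEA : Subgroup.closure {a : R | a ∈ A ∧ a ^ p = 1} ≤ A := by
      rw [Subgroup.closure_le]
      intro a ha
      exact ha.1
    have hsub : ∀ L : Subgroup A, Nat.card L = p →
        L.map A.subtype ≤ Subgroup.closure {a : R | a ∈ A ∧ a ^ p = 1} := by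
      intro L hL
      rintro _ ⟨x, hx, rfl⟩
      apply Subgroup.subset_closure
      refine ⟨x.2, ?_⟩
      have h1 : (⟨x, hx⟩ : L) ^ Nat.card L = 1 := pow_card_eq_one'
      rw [hL] at h1
      have := congrArg (fun y : L => ((y : A) : R)) h1
      simpa using this
    have hcardmap : ∀ L : Subgroup A, Nat.card (L.map A.subtype) = Nat.card L := fun L =>
      Subgroup.card_map_of_injective (Subgroup.subtype_injective A)
    have hEnot : ∀ B₁ : Subgroup R, Nat.card B₁ = p →
        B₁ ≠ Subgroup.closure {a : R | a ∈ A ∧ a ^ p = 1} := by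
      intro B₁ hB₁ heq
      apply hHK
      have e1 : H.map A.subtype = Subgroup.closure {a : R | a ∈ A ∧ a ^ p = 1} :=
        Subgroup.eq_of_le_of_card_ge (hsub H hH) (by rw [hcardmap, hH, ← heq, hB₁])
      have e2 : K.map A.subtype = Subgroup.closure {a : R | a ∈ A ∧ a ^ p = 1} :=
        Subgroup.eq_of_le_of_card_ge (hsub K hK) (by rw [hcardmap, hK, ← heq, hB₁])
      exact Subgroup.map_injective (Subgroup.subtype_injective A) (e1.trans e2.symm)
    have hEbot : (⊥ : Subgroup R) ≠ Subgroup.closure {a : R | a ∈ A ∧ a ^ p = 1} := by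
      intro heq
      have h1 := hsub H hH
      rw [← heq, le_bot_iff] at h1
      have h2 := hcardmap H
      rw [h1, Subgroup.card_bot, hH] at h2
      exact hpp.one_lt.ne h2
    obtain ⟨B₁, hB₁n, -, hB₁E, hrel₁⟩ := exists_normal_step hR ⊥
      (Subgroup.closure {a : R | a ∈ A ∧ a ^ p = 1}) inferInstance hEn bot_le hEbot
    rw [Subgroup.relIndex_bot_left] at hrel₁
    obtain ⟨B₂, hB₂n, hB₁₂, hB₂E, hrel₂⟩ := exists_normal_step hR B₁
      (Subgroup.closure {a : R | a ∈ A ∧ a ^ p = 1}) hB₁n hEn hB₁E (hEnot B₁ hrel₁)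
    refine ⟨B₂, (hB₂E.trans hEA).trans hAS, hB₂n, ⟨?_, fun x hx => hE2 x (hB₂E hx)⟩, ?_⟩
    · exact ⟨⟨fun a b => Subtype.ext (hE1 a.1 (hB₂E a.2) b.1 (hB₂E b.2))⟩⟩
    · rw [← Subgroup.relIndex_bot_left, ← Subgroup.relIndex_mul_relIndex ⊥ B₁ B₂ bot_le hB₁₂,
        Subgroup.relIndex_bot_left, hrel₁, hrel₂, sq]

end Cfsg.Agent.S0636
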