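import Cfsg.Statements.S0638
import Mathlib
import Cfsg.Agent.Helper1.NormRank2
import Cfsg.Agent.Helper4.ConstStab
import Cfsg.Agent.Helper4.SelfCentOdd

set_option autoImplicit false
open Cfsg

namespace Cfsg.Agent.S0638

theorem pow_mul_comm_central {G : Type*} [Group G] {u y c : G} (hc : ∀ g : G, g * c = c * g)
    (h : y * u = c * u * y) (n : ℕ) : y ^ n * u = c ^ n * u * y ^ n := by
  induction n with
  | zero => simp
  | succ n ih =>
    calc y ^ (n + 1) * u = y ^ n * (y * u) := by rw [pow_succ, mul_assoc]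
      _ = y ^ n * (c * u * y) := by rw [h]
      _ = (y ^ n * c) * u * y := by group
      _ = c * (y ^ n * u) * y := by rw [hc (y ^ n)]; group
      _ = c * (c ^ n * u * y ^ n) * y := by rw [ih]
      _ = c ^ (n + 1) * u * y ^ (n + 1) := by rw [pow_succ' c, pow_succ y]; group

theorem mul_pow_central {G : Type*} [Group G] {u y c : G} (hc : ∀ g : G, g * c = c * g)
    (h : y * u = c * u * y) (n : ℕ) :
    (u * y) ^ n = c ^ (∑ i ∈ Finset.range n, i) * u ^ n * y ^ n := by
  induction n with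
  | zero => simp
  | succ n ih =>
    have hcn : ∀ g : G, g * c ^ n = c ^ n * g := by
      intro g
      exact ((show Commute g c from hc g).pow_right n).eq
    calc (u * y) ^ (n + 1) = (u * y) ^ n * (u * y) := pow_succ _ _
      _ = c ^ (∑ i ∈ Finset.range n, i) * u ^ n * y ^ n * (u * y) := by rw [ih]
      _ = c ^ (∑ i ∈ Finset.range n, i) * u ^ n * (y ^ n * u) * y := by group
      _ = c ^ (∑ i ∈ Finset.range n, i) * u ^ n * (c ^ n * u * y ^ n) * y := by
        rw [pow_mul_comm_central hc h n]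
      _ = c ^ (∑ i ∈ Finset.range n, i) * (u ^ n * c ^ n) * u * y ^ n * y := by group
      _ = c ^ (∑ i ∈ Finset.range n, i) * (c ^ n * u ^ n) * u * y ^ n * y := by rw [hcn (u ^ n)]
      _ = c ^ (∑ i ∈ Finset.range (n + 1), i) * u ^ (n + 1) * y ^ (n + 1) := by
        rw [Finset.sum_range_succ, pow_add, pow_succ u, pow_succ y]; group

theorem card_le_of_cyclic_exp {G : Type*} [Group G] {p : ℕ} (hp : 0 < p) (H : Subgroup G)
    (hc : IsCyclic H) (he : ∀ h ∈ H, h ^ p = 1) : Nat.card H ≤ p := by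
  obtain ⟨g, hg⟩ := hc.exists_generator
  rw [← orderOf_eq_card_of_forall_mem_zpowers hg]
  apply Nat.le_of_dvd hp
  apply orderOf_dvd_of_pow_eq_one
  apply Subtype.ext
  rw [Subgroup.coe_pow]
  exact he g g.2

/-- For odd p, in a non-cyclic metacyclic p-group the elements of order dividing p generate an elementary abelian subgroup of order p². -/
theorem result {R : Type*} [Group R] [Finite R] {p : ℕ} [Fact p.Prime] (hp : p ≠ 2) (hR : IsPGroup p R) (hm : Cfsg.IsMetacyclic R) (hnc : ¬ IsCyclic R) : Cfsg.IsElementaryAbelian p (Cfsg.omegaOne p (⊤ : Subgroup R)) ∧ Nat.card ↥(Cfsg.omegaOne p (⊤ : Subgroup R)) = p ^ 2 := by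
  have hp' : p.Prime := Fact.out
  obtain ⟨N, hNn, hNc, hQc⟩ := hm
  obtain ⟨E, hEn, hEc, hEe, hEcard⟩ :=
    Cfsg.Agent.Helper1.exists_normal_elem_abelian_sq hp hR hnc
  obtain ⟨z, w, hzc, hz1, hzp, hzE, hwE, hwZ, hcomm⟩ :=
    Cfsg.Agent.Helper4.ConstStab.exists_zw hR E hEcard
  have hZn : (Subgroup.zpowers z).Normal := Cfsg.Agent.Helper1.zpowers_normal_of_mem_center hzc
  have hZcard : Nat.card (Subgroup.zpowers z) = p := by
    rw [Nat.card_zpowers, orderOf_eq_prime hzp hz1]
  have hZE : Subgroup.zpowers z ≤ E := Subgroup.zpowers_le.mpr hzE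
  have hZcen : ∀ c ∈ Subgroup.zpowers z, ∀ g : R, g * c = c * g := by
    intro c hc g
    exact Subgroup.mem_center_iff.mp ((Subgroup.zpowers_le.mpr hzc) hc) g
  have hZp : ∀ c ∈ Subgroup.zpowers z, c ^ p = 1 := fun c hc => hEe c (hZE hc)
  -- all commutators with elements of E are in Z
  have hWE : E ⊓ (Subgroup.center (R ⧸ Subgroup.zpowers z)).comap
      (QuotientGroup.mk' (Subgroup.zpowers z)) = E := by
    apply Cfsg.Agent.Helper4.SelfCentOdd.eq_of_mem_not_mem (Z := Subgroup.zpowers z) (w := w)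
      _ inf_le_left hZcard hEcard _ hwZ
    · intro t ht
      refine ⟨hZE ht, ?_⟩
      show (QuotientGroup.mk' (Subgroup.zpowers z)) t ∈ Subgroup.center (R ⧸ Subgroup.zpowers z)
      have : QuotientGroup.mk' (Subgroup.zpowers z) t = 1 := (QuotientGroup.eq_one_iff t).mpr ht
      rw [this]
      exact one_mem _
    · refine ⟨hwE, ?_⟩
      show (QuotientGroup.mk' (Subgroup.zpowers z)) w ∈ Subgroup.center (R ⧸ Subgroup.zpowers z)
      rw [Subgroup.mem_center_iff]
      intro gbar
      obtain ⟨g, rfl⟩ := QuotientGroup.mk'_surjective (Subgroup.zpowers z) gbar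
      rw [← map_mul, ← map_mul]
      have h1 : (g * w)⁻¹ * (w * g) ∈ Subgroup.zpowers z := by
        have h2 := hcomm g⁻¹
        have e : (g * w)⁻¹ * (w * g) = w⁻¹ * (g⁻¹ * w * g⁻¹⁻¹ * w⁻¹) * w := by group
        rw [e]
        have h3 := hZcen _ h2 w⁻¹
        rw [h3, inv_mul_cancel_right]
        exact h2
      exact QuotientGroup.eq.mpr h1
  have hEcomm : ∀ e ∈ E, ∀ g : R, g * e * g⁻¹ * e⁻¹ ∈ Subgroup.zpowers z := by
    intro e he g
    have he' : e ∈ E ⊓ (Subgroup.center (R ⧸ Subgroup.zpowers z)).comap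
        (QuotientGroup.mk' (Subgroup.zpowers z)) := by rw [hWE]; exact he
    have h1 := Subgroup.mem_center_iff.mp he'.2 (QuotientGroup.mk' (Subgroup.zpowers z) g)
    apply (QuotientGroup.eq_one_iff _).mp
    show QuotientGroup.mk' (Subgroup.zpowers z) (g * e * g⁻¹ * e⁻¹) = 1
    rw [map_mul, map_mul, map_mul, map_inv, map_inv, h1, mul_inv_cancel_right, mul_inv_cancel]
  have hsum : p ∣ ∑ i ∈ Finset.range p, i := by
    have h1 := Finset.sum_range_id_mul_two p
    have h2 : p ∣ (∑ i ∈ Finset.range p, i) * 2 := by rw [h1]; exact dvd_mul_right _ _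
    have h3 : Nat.Coprime p 2 := (Nat.coprime_primes hp' Nat.prime_two).mpr hp
    exact h3.dvd_of_dvd_mul_right h2
  -- key: every x with x^p = 1 lies in E
  have key : ∀ x : R, x ^ p = 1 → x ∈ E := by
    intro x hx
    have hKexp : ∀ k ∈ E ⊔ Subgroup.zpowers x, k ^ p = 1 := by
      intro k hk
      have hk' : k ∈ ((E ⊔ Subgroup.zpowers x : Subgroup R) : Set R) := hk
      rw [Subgroup.normal_mul] at hk'
      obtain ⟨e, he, y, hy, rfl⟩ := Set.mem_mul.mp hk'
      have hyp : y ^ p = 1 := by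
        obtain ⟨j, rfl⟩ := hy
        show (x ^ j) ^ p = 1
        rw [← zpow_natCast, ← zpow_mul, mul_comm, zpow_mul, zpow_natCast, hx, one_zpow]
      have hc := hEcomm e he y
      have hrel : y * e = (y * e * y⁻¹ * e⁻¹) * e * y := by group
      rw [mul_pow_central (hZcen _ hc) hrel p, hEe e he, hyp, mul_one, mul_one]
      obtain ⟨m, hm⟩ := hsum
      rw [hm, pow_mul, hZp _ hc, one_pow]
    have hKcard : Nat.card ↥(E ⊔ Subgroup.zpowers x) ≤ p ^ 2 := by
      have h1 : Nat.card ↥(N ⊓ (E ⊔ Subgroup.zpowers x)) ≤ p := by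
        apply card_le_of_cyclic_exp hp'.pos
        · have : IsCyclic N := hNc
          exact Subgroup.isCyclic_of_le inf_le_left
        · intro h hh
          exact hKexp h hh.2
      have h2 : Nat.card ↥((E ⊔ Subgroup.zpowers x).map (QuotientGroup.mk' N)) ≤ p := by
        apply card_le_of_cyclic_exp hp'.pos
        · have : IsCyclic (R ⧸ N) := hQc
          infer_instance
        · rintro _ ⟨k, hk, rfl⟩
          rw [← map_pow, hKexp k hk, map_one]
      have h3 : Nat.card ↥(N ⊓ (E ⊔ Subgroup.zpowers x)) *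
          Nat.card ↥((E ⊔ Subgroup.zpowers x).map (QuotientGroup.mk' N)) =
          Nat.card ↥(E ⊔ Subgroup.zpowers x) := by
        have h4 := Subgroup.relIndex_ker (K := E ⊔ Subgroup.zpowers x) (QuotientGroup.mk' N)
        rw [QuotientGroup.ker_mk'] at h4
        rw [← h4, ← Subgroup.inf_relIndex_right, ← Subgroup.relIndex_bot_left,
          ← Subgroup.relIndex_bot_left]
        exact Subgroup.relIndex_mul_relIndex _ _ _ bot_le inf_le_right
      rw [← h3, pow_two]
      exact Nat.mul_le_mul h1 h2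
    have hEK : E = E ⊔ Subgroup.zpowers x := by
      apply Subgroup.eq_of_le_of_card_ge le_sup_left
      rw [hEcard]; exact hKcard
    rw [hEK]
    exact (le_sup_right : Subgroup.zpowers x ≤ _) (Subgroup.mem_zpowers x)
  have hΩ : Cfsg.omegaOne p (⊤ : Subgroup R) = E := by
    apply le_antisymm
    · unfold Cfsg.omegaOne
      rw [Subgroup.closure_le]
      intro x hx
      exact key x hx.2
    · intro e he
      exact Subgroup.subset_closure ⟨Subgroup.mem_top _, hEe e he⟩
  rw [hΩ]
  refine ⟨⟨?_, hEe⟩, hEcard⟩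
  exact ⟨⟨fun a b => Subtype.ext (hEc a.1 a.2 b.1 b.2)⟩⟩

end Cfsg.Agent.S0638
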