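import Mathlib
import Cfsg.Statements.S0753

set_option autoImplicit false
open Cfsg

namespace Cfsg.Agent.S0753

/-- If σ is a ring endomorphism of the field F other than the identity and B is a σ-sesquilinear conjugate-symmetric form with B v v = 0 for every v, then B = 0. -/
theorem result {F V : Type*} [Field F] [AddCommGroup V] [Module F V] (σ : F →+* F) (hσ : σ ≠ RingHom.id F) (B : V →ₛₗ[σ] V →ₗ[F] F) (hS : B.IsSymm) (h0 : ∀ v : V, B v v = 0) : B = 0 := by
  have hskew : ∀ x y : V, B y x = - B x y := by
    intro x y
    have h := h0 (x + y)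
    simp only [map_add, LinearMap.add_apply, h0, zero_add, add_zero] at h
    exact eq_neg_of_add_eq_zero_left h
  have hσneg : ∀ x y : V, σ (B x y) = - B x y := by
    intro x y
    rw [hS.eq, hskew]
  by_contra hB
  apply hσ
  have : ∃ x y : V, B x y ≠ 0 := by
    by_contra hcon
    push Not at hcon
    apply hB
    ext x y
    simpa using hcon x y
  obtain ⟨x, y, hxy⟩ := this
  have key : ∀ a : F, σ a = -a := by
    intro a
    have h1 : B x ((a * (B x y)⁻¹) • y) = a := by
      rw [map_smul, smul_eq_mul, mul_assoc, inv_mul_cancel₀ hxy, mul_one]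
    have h2 := hσneg x ((a * (B x y)⁻¹) • y)
    rwa [h1] at h2
  have h1 : (1 : F) = -1 := by
    have := key 1
    rwa [map_one] at this
  ext a
  rw [key a, RingHom.id_apply]
  calc -a = (-1) * a := by ring
    _ = 1 * a := by rw [← h1]
    _ = a := one_mul a

end Cfsg.Agent.S0753
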