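import Mathlib
import Cfsg.Statements.S0755
import Cfsg.Agent.S0753

set_option autoImplicit false
open Cfsg

namespace Cfsg.Agent.S0755

open Module LinearMap

universe u v

theorem norm_surj {F : Type u} [Field F] [Finite F] (σ : F →+* F) (hσ : σ ≠ RingHom.id F)
    (hσ2 : ∀ a : F, σ (σ a) = a) (c : F) (hc0 : c ≠ 0) (hc : σ c = c) :
    ∃ s : F, s * σ s = c := by
  classical
  let σu : Fˣ →* Fˣ := Units.map σ.toMonoidHom
  have hσu : ∀ x : Fˣ, ((σu x : Fˣ) : F) = σ (x : F) := fun x => rfl
  have hσu2 : ∀ x : Fˣ, σu (σu x) = x := by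
    intro x
    apply Units.ext
    rw [hσu, hσu, hσ2]
  let N : Fˣ →* Fˣ := MonoidHom.id Fˣ * σu
  let ψ : Fˣ →* Fˣ := MonoidHom.id Fˣ / σu
  have hN : ∀ x : Fˣ, N x = x * σu x := fun x => rfl
  have hψ : ∀ x : Fˣ, ψ x = x / σu x := fun x => rfl
  have h1 : N.range ≤ ψ.ker := by
    rintro _ ⟨x, rfl⟩
    rw [MonoidHom.mem_ker, hψ, hN, map_mul, hσu2, mul_comm, div_self']
  have h2 : N.ker ≤ ψ.range := by
    intro y hy
    rw [MonoidHom.mem_ker, hN] at hy
    have hy' : (y : F) * σ (y : F) = 1 := by
      have := congrArg (fun u : Fˣ => (u : F)) hy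
      simpa [hσu] using this
    by_cases hy1 : (1 : F) + (y : F) = 0
    · -- y = -1
      obtain ⟨z, hz⟩ : ∃ z : F, σ z ≠ z := by
        by_contra hcon
        push Not at hcon
        apply hσ
        ext a
        simpa using hcon a
      have hx0 : z - σ z ≠ 0 := fun h => hz (sub_eq_zero.mp h).symm
      refine ⟨Units.mk0 _ hx0, ?_⟩
      rw [hψ]
      apply Units.ext
      rw [Units.val_div_eq_div_val, hσu, Units.val_mk0, map_sub, hσ2]
      have : (y : F) = -1 := by linear_combination hy1
      rw [this]
      have hx0' : σ z - z ≠ 0 := fun h => hz (sub_eq_zero.mp h)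
      field_simp
      ring
    · refine ⟨Units.mk0 _ hy1, ?_⟩
      rw [hψ]
      apply Units.ext
      rw [Units.val_div_eq_div_val, hσu, Units.val_mk0, map_add, map_one]
      have hy0 : (y : F) ≠ 0 := y.ne_zero
      have hσy : σ (y : F) = (y : F)⁻¹ := by
        field_simp
        linear_combination hy'
      rw [hσy]
      have h3 : (1 : F) + (y : F)⁻¹ ≠ 0 := by
        intro h
        apply hy1
        field_simp at h
        linear_combination h
      rw [div_eq_iff h3]
      field_simp
      ring
  have hcardN := Subgroup.card_mul_index N.ker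
  have hcardψ := Subgroup.card_mul_index ψ.ker
  rw [Subgroup.index_ker] at hcardN hcardψ
  have hle : Nat.card N.ker ≤ Nat.card ψ.range := Subgroup.card_le_of_le h2
  have hpos : 0 < Nat.card ψ.range := Nat.card_pos
  have hge : Nat.card ψ.ker ≤ Nat.card N.range := by
    have h3 : Nat.card ψ.ker * Nat.card ψ.range ≤ Nat.card N.range * Nat.card ψ.range := by
      rw [hcardψ, ← hcardN, mul_comm]
      exact Nat.mul_le_mul_left _ hle
    exact Nat.le_of_mul_le_mul_right h3 hpos
  have heq : N.range = ψ.ker := Subgroup.eq_of_le_of_card_ge h1 hge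
  have hcmem : Units.mk0 c hc0 ∈ ψ.ker := by
    rw [MonoidHom.mem_ker, hψ]
    apply Units.ext
    rw [Units.val_div_eq_div_val, hσu, Units.val_mk0, hc, div_self hc0, Units.val_one]
  rw [← heq] at hcmem
  obtain ⟨s, hs⟩ := hcmem
  refine ⟨(s : F), ?_⟩
  have := congrArg (fun u : Fˣ => (u : F)) hs
  simpa [hN, hσu] using this

theorem aux {F : Type u} [Field F] [Finite F] (σ : F →+* F) (hσ : σ ≠ RingHom.id F)
    (hσ2 : ∀ a : F, σ (σ a) = a) (n : ℕ) :
    ∀ (V : Type v) [AddCommGroup V] [Module F V] [FiniteDimensional F V]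
      (B : V →ₛₗ[σ] V →ₗ[F] F), B.IsSymm → B.Nondegenerate → finrank F V = n →
      ∃ b : Basis (Fin n) F V, ∀ i j, B (b i) (b j) = if i = j then 1 else 0 := by
  induction n with
  | zero =>
    intro V _ _ _ B hS hB hn
    exact ⟨basisOfFinrankZero hn, fun i => i.elim0⟩
  | succ n ih =>
    intro V _ _ _ B hS hB hn
    have hBne : B ≠ 0 := by
      intro h0
      have hpos : 0 < finrank F V := by omega
      obtain ⟨x, hx⟩ := (Module.finrank_pos_iff_exists_ne_zero).mp hpos
      apply hx
      apply hB.1 x
      intro y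
      rw [h0]
      rfl
    obtain ⟨v, hv⟩ : ∃ v : V, B v v ≠ 0 := by
      by_contra hcon
      push Not at hcon
      exact hBne (Cfsg.Agent.S0753.result σ hσ B hS hcon)
    obtain ⟨s, hs⟩ := norm_surj σ hσ hσ2 (B v v) hv (hS.eq v v)
    have hs0 : s ≠ 0 := by
      rintro rfl
      apply hv
      rw [← hs]; simp
    have hσs0 : σ s ≠ 0 := by
      intro h
      apply hv
      rw [← hs, h, mul_zero]
    obtain ⟨w, hwdef⟩ : ∃ w : V, w = s⁻¹ • v := ⟨_, rfl⟩
    have hw : B w w = 1 := by
      rw [hwdef, LinearMap.map_smulₛₗ₂, map_smul, smul_eq_mul, smul_eq_mul, ← hs, map_inv₀]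
      field_simp
    obtain ⟨W, hWdef⟩ : ∃ W : Submodule F V, W = LinearMap.ker (B w) := ⟨_, rfl⟩
    have hWmem : ∀ x : V, x ∈ W ↔ B w x = 0 := fun x => by rw [hWdef, LinearMap.mem_ker]
    have horth : ∀ x : W, B w (x : V) = 0 := fun x => (hWmem _).mp x.2
    have horth' : ∀ x : W, B (x : V) w = 0 := fun x => by
      rw [← hS.eq w (x : V), horth x, map_zero]
    have hdecomp : ∀ z : V, z - (B w z) • w ∈ W := by
      intro z
      rw [hWmem, map_sub, map_smul, hw, smul_eq_mul, mul_one, sub_self]
    have hSW : (B.domRestrict₁₂ W W).IsSymm := hS.domRestrict W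
    have hBW : (B.domRestrict₁₂ W W).Nondegenerate := by
      constructor
      · intro x hx
        apply Subtype.ext
        apply hB.1 (x : V)
        intro z
        have hz : z = (B w z) • w + (z - (B w z) • w) := by abel
        have h3 := hx ⟨_, hdecomp z⟩
        rw [LinearMap.domRestrict₁₂_apply] at h3
        rw [hz, map_add, map_smul, horth' x, smul_zero, zero_add]
        exact h3
      · intro y hy
        apply Subtype.ext
        apply hB.2 (y : V)
        intro z
        have hz : z = (B w z) • w + (z - (B w z) • w) := by abel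
        have h3 := hy ⟨_, hdecomp z⟩
        rw [LinearMap.domRestrict₁₂_apply] at h3
        rw [hz, map_add, LinearMap.add_apply, LinearMap.map_smulₛₗ₂, horth y, smul_zero, zero_add]
        exact h3
    have hfin : finrank F W = n := by
      have h1 := LinearMap.finrank_range_add_finrank_ker (B w)
      have hsurj : LinearMap.range (B w) = ⊤ := by
        rw [LinearMap.range_eq_top]
        intro a
        refine ⟨a • w, ?_⟩
        rw [map_smul, hw, smul_eq_mul, mul_one]
      rw [hsurj, finrank_top, Module.finrank_self, hn, ← hWdef] at h1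
      omega
    obtain ⟨bW, hbW⟩ := ih W (B.domRestrict₁₂ W W) hSW hBW hfin
    let b : Basis (Fin (n + 1)) F V :=
      Basis.mkFinCons w bW
        (by
          rintro c y hy hc
          have h4 := congrArg (B w) hc
          rw [map_add, map_smul, hw, horth ⟨y, hy⟩, map_zero, smul_eq_mul, mul_one, add_zero] at h4
          exact h4)
        (by
          intro y
          refine ⟨-B w y, ?_⟩
          have := hdecomp y
          rwa [sub_eq_add_neg, ← neg_smul] at this)
    have hbcoe : (b : Fin (n + 1) → V) = Fin.cons w ((↑) ∘ bW) := Basis.coe_mkFinCons _ _ _ _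
    refine ⟨b, ?_⟩
    intro i j
    rw [hbcoe]
    refine Fin.cases ?_ (fun i => ?_) i <;> refine Fin.cases ?_ (fun j => ?_) j <;>
      simp only [Fin.cons_zero, Fin.cons_succ, Function.comp_apply]
    · simpa using hw
    · rw [horth]
      simp [Fin.ext_iff]
    · rw [horth']
      simp [Fin.ext_iff]
    · have := hbW i j
      rw [LinearMap.domRestrict₁₂_apply] at this
      rw [this]
      simp [Fin.ext_iff]

/-- Classification of Hermitian forms over finite fields: if σ is a non-identity involutive automorphism of the finite field F and B is a non-degenerate conjugate-symmetric σ-sesquilinear form on the finite-dimensional space V, then V has a B-orthonormal basis. -/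
theorem result {F V : Type*} [Field F] [Finite F] [AddCommGroup V] [Module F V] [FiniteDimensional F V] (σ : F →+* F) (hσ : σ ≠ RingHom.id F) (hσ2 : ∀ a : F, σ (σ a) = a) (B : V →ₛₗ[σ] V →ₗ[F] F) (hS : B.IsSymm) (hB : B.Nondegenerate) : ∃ b : Module.Basis (Fin (Module.finrank F V)) F V, ∀ i j, B (b i) (b j) = if i = j then 1 else 0 := by
  exact aux σ hσ hσ2 (Module.finrank F V) V B hS hB rfl

end Cfsg.Agent.S0755
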