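import Mathlib
import Cfsg.Statements.S0751
import Cfsg.Agent.S0753
import Cfsg.Agent.S0755

set_option autoImplicit false
open Cfsg

namespace Cfsg.Agent.S0751

open Module

universe u v

theorem trace_surj {F : Type u} [Field F] (σ : F →+* F) (hσ : σ ≠ RingHom.id F)
    (hσ2 : ∀ a : F, σ (σ a) = a) (d : F) (hd : σ d = d) : ∃ z : F, z + σ z = d := by
  obtain ⟨a, ha⟩ : ∃ a : F, a + σ a ≠ 0 := by
    by_cases h2 : (2 : F) = 0
    · obtain ⟨a, ha⟩ : ∃ a : F, σ a ≠ a := by
        by_contra hcon
        push Not at hcon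
        apply hσ
        ext a
        simpa using hcon a
      refine ⟨a, fun h => ha ?_⟩
      linear_combination h - a * h2
    · refine ⟨1, ?_⟩
      rw [map_one]
      intro h
      apply h2
      linear_combination h
  have ht : σ (a + σ a) = a + σ a := by rw [map_add, hσ2, add_comm]
  refine ⟨d * a / (a + σ a), ?_⟩
  rw [map_div₀, map_mul, ht, hd]
  field_simp

section
variable {F : Type u} {V : Type v} [Field F] [AddCommGroup V] [Module F V]

/-- Orthogonal complement with respect to a sesquilinear form. -/
def orth {σ : F →+* F} (B : V →ₛₗ[σ] V →ₗ[F] F) (X : Submodule F V) : Submodule F V where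
  carrier := {v | ∀ x ∈ X, B x v = 0}
  add_mem' := by
    intro a b ha hb x hx
    rw [map_add, ha x hx, hb x hx, add_zero]
  zero_mem' := by
    intro x _
    rw [map_zero]
  smul_mem' := by
    intro c a ha x hx
    rw [map_smul, ha x hx, smul_zero]

theorem mem_orth {σ : F →+* F} (B : V →ₛₗ[σ] V →ₗ[F] F) (X : Submodule F V) (v : V) :
    v ∈ orth B X ↔ ∀ x ∈ X, B x v = 0 := Iff.rfl

variable [Finite F] [FiniteDimensional F V]

theorem finrank_orth {σ : F →+* F} (hσ2 : ∀ a : F, σ (σ a) = a) (B : V →ₛₗ[σ] V →ₗ[F] F)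
    (hB : B.Nondegenerate) (X : Submodule F V) :
    finrank F X + finrank F (orth B X) = finrank F V := by
  classical
  have : RingHomSurjective σ := ⟨fun a => ⟨σ a, hσ2 a⟩⟩
  have hBinj : Function.Injective B := by
    intro x y hxy
    have : x - y = 0 := by
      apply hB.1
      intro z
      rw [map_sub, LinearMap.sub_apply, hxy, sub_self]
    exact sub_eq_zero.mp this
  have hcoann : orth B X = (X.map B).dualCoannihilator := by
    ext v
    rw [mem_orth, Submodule.mem_dualCoannihilator]
    constructor
    · rintro h φ ⟨x, hx, rfl⟩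
      exact h x hx
    · intro h x hx
      exact h (B x) (Submodule.mem_map_of_mem hx)
  have hcard : Nat.card (X.map B) = Nat.card X := by
    symm
    refine Nat.card_congr (Equiv.ofBijective
      (fun x : X => (⟨B x, Submodule.mem_map_of_mem x.2⟩ : X.map B)) ⟨?_, ?_⟩)
    · intro x y hxy
      exact Subtype.ext (hBinj (congrArg Subtype.val hxy))
    · rintro ⟨_, x, hx, rfl⟩
      exact ⟨⟨x, hx⟩, rfl⟩
  have hfin : finrank F (X.map B) = finrank F X := by
    have h1 := Module.natCard_eq_pow_finrank (K := F) (V := X.map B)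
    have h2 := Module.natCard_eq_pow_finrank (K := F) (V := X)
    rw [hcard, h2] at h1
    have hF : 1 < Nat.card F := Finite.one_lt_card
    exact (Nat.pow_right_injective hF h1).symm
  rw [hcoann, ← hfin]
  exact Subspace.finrank_add_finrank_dualCoannihilator_eq (X.map B)

end

section
variable {F : Type u} {V : Type v} [Field F] [Finite F] [AddCommGroup V] [Module F V]
  [FiniteDimensional F V]

theorem extend_aux (σ : F →+* F) (hσ : σ ≠ RingHom.id F) (hσ2 : ∀ a : F, σ (σ a) = a)
    (B : V →ₛₗ[σ] V →ₗ[F] F) (hS : B.IsSymm) (hB : B.Nondegenerate) (k : ℕ) :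
    ∀ (X : Submodule F V) (f : V →ₗ[F] V), finrank F V - finrank F X ≤ k →
      (∀ x ∈ X, ∀ x' ∈ X, B (f x) (f x') = B x x') → (∀ x ∈ X, f x = 0 → x = 0) →
      ∃ g : V ≃ₗ[F] V, (∀ u v : V, B (g u) (g v) = B u v) ∧ ∀ x ∈ X, g x = f x := by
  classical
  have hsym : ∀ x y : V, σ (B x y) = B y x := fun x y => hS.eq x y
  have hzero : ∀ x y : V, B x y = 0 → B y x = 0 := fun x y h => by rw [← hsym, h, map_zero]
  have hdim := finrank_orth hσ2 B hB
  have horth2 : ∀ Z : Submodule F V, orth B (orth B Z) = Z := by
    intro Z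
    symm
    apply Submodule.eq_of_le_of_finrank_eq
    · intro z hz u hu
      exact hzero _ _ (hu z hz)
    · have h1 := hdim Z
      have h2 := hdim (orth B Z)
      omega
  have hBinj : Function.Injective B := by
    intro x y hxy
    have : x - y = 0 := by
      apply hB.1
      intro z
      rw [map_sub, LinearMap.sub_apply, hxy, sub_self]
    exact sub_eq_zero.mp this
  have hBsurj : Function.Surjective B := by
    haveI : Finite (Module.Dual F V) := Module.finite_of_finite F
    have hcard : Nat.card (Module.Dual F V) ≤ Nat.card V := by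
      rw [Module.natCard_eq_pow_finrank (K := F) (V := V),
        Module.natCard_eq_pow_finrank (K := F) (V := Module.Dual F V), Subspace.dual_finrank_eq]
    exact (hBinj.bijective_of_nat_card_le hcard).2
  have htop : ∀ (X : Submodule F V) (f : V →ₗ[F] V), X = ⊤ →
      (∀ x ∈ X, ∀ x' ∈ X, B (f x) (f x') = B x x') → (∀ x ∈ X, f x = 0 → x = 0) →
      ∃ g : V ≃ₗ[F] V, (∀ u v : V, B (g u) (g v) = B u v) ∧ ∀ x ∈ X, g x = f x := by
    rintro X f rfl hiso hinj
    have hinj' : Function.Injective f := by
      rw [← LinearMap.ker_eq_bot, LinearMap.ker_eq_bot']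
      intro m hm
      exact hinj m Submodule.mem_top hm
    refine ⟨LinearEquiv.ofInjectiveEndo f hinj', ?_, ?_⟩
    · intro u v
      rw [LinearEquiv.coe_ofInjectiveEndo]
      exact hiso u Submodule.mem_top v Submodule.mem_top
    · intro x _
      rw [LinearEquiv.coe_ofInjectiveEndo]
  induction k with
  | zero =>
    intro X f hk hiso hinj
    have hle := Submodule.finrank_le X
    exact htop X f (Submodule.eq_top_of_finrank_eq (by omega)) hiso hinj
  | succ k ih =>
    intro X f hk hiso hinj
    by_cases hXtop : X = ⊤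
    · exact htop X f hXtop hiso hinj
    obtain ⟨v0, hv0⟩ : ∃ v0 : V, v0 ∉ X := by
      by_contra hcon
      push Not at hcon
      exact hXtop (Submodule.eq_top_iff'.mpr hcon)
    -- restriction of f to X
    obtain ⟨fX, hfXdef⟩ : ∃ fX : X →ₗ[F] V, fX = f.domRestrict X := ⟨_, rfl⟩
    have hfX : ∀ x : X, fX x = f (x : V) := fun x => by rw [hfXdef]; rfl
    have hfXinj : Function.Injective fX := by
      rw [← LinearMap.ker_eq_bot, LinearMap.ker_eq_bot']
      intro m hm
      rw [hfX] at hm
      exact Subtype.ext (hinj m m.2 hm)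
    obtain ⟨r, hr⟩ := LinearMap.exists_leftInverse_of_injective fX (LinearMap.ker_eq_bot.mpr hfXinj)
    have hr' : ∀ x : X, r (fX x) = x := fun x => by
      have := congrArg (fun g => g x) hr
      simpa using this
    obtain ⟨Y, hYdef⟩ : ∃ Y : Submodule F V, Y = LinearMap.range fX := ⟨_, rfl⟩
    have hYmem : ∀ y : V, y ∈ Y ↔ ∃ x ∈ X, f x = y := by
      intro y
      rw [hYdef, LinearMap.mem_range]
      constructor
      · rintro ⟨x, rfl⟩
        exact ⟨x, x.2, (hfX x).symm⟩
      · rintro ⟨x, hx, rfl⟩
        exact ⟨⟨x, hx⟩, hfX _⟩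
    have hYfin : finrank F Y = finrank F X := by
      rw [hYdef]
      exact LinearMap.finrank_range_of_inj hfXinj
    -- key claim
    have hkey : ∃ v w : V, v ∉ X ∧ w ∉ Y ∧ (∀ x ∈ X, B w (f x) = B v x) ∧ B w w = B v v := by
      by_cases hOX : orth B X ≤ X
      · -- coisotropic case
        have hOY : orth B Y ≤ Y := by
          have h1 : (orth B X).map f ≤ Y ⊓ orth B Y := by
            rintro _ ⟨x, hx, rfl⟩
            refine ⟨(hYmem _).mpr ⟨x, hOX hx, rfl⟩, ?_⟩
            intro y hy
            obtain ⟨x', hx', rfl⟩ := (hYmem y).mp hy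
            rw [hiso x' hx' x (hOX hx)]
            exact hx x' hx'
          have h2 : finrank F ((orth B X).map f) = finrank F (orth B X) := by
            rw [← LinearMap.range_domRestrict]
            apply LinearMap.finrank_range_of_inj
            rw [← LinearMap.ker_eq_bot, LinearMap.ker_eq_bot']
            intro m hm
            exact Subtype.ext (hinj m (hOX m.2) hm)
          have h3 := Submodule.finrank_mono h1
          have h4 := hdim X
          have h5 := hdim Y
          have h6 : Y ⊓ orth B Y = orth B Y :=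
            Submodule.eq_of_le_of_finrank_le inf_le_right (by omega)
          rw [← h6]
          exact inf_le_left
        obtain ⟨w0, hw0def⟩ := hBsurj ((B v0).comp (X.subtype.comp r))
        have hw0 : ∀ x ∈ X, B w0 (f x) = B v0 x := by
          intro x hx
          rw [hw0def]
          have h1 := hr' ⟨x, hx⟩
          rw [hfX] at h1
          simp only [LinearMap.comp_apply, Submodule.subtype_apply]
          rw [h1]
        have hw0Y : w0 ∉ Y := by
          intro hw0Y
          obtain ⟨x0, hx0, hfx0⟩ := (hYmem w0).mp hw0Y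
          apply hv0
          have hmem : v0 - x0 ∈ orth B X := by
            intro x hx
            rw [map_sub, ← hsym v0 x, ← hw0 x hx, ← hfx0, hiso x0 hx0 x hx, hsym, sub_self]
          have := X.add_mem (hOX hmem) hx0
          simpa using this
        obtain ⟨u1, hu1, hu1ne⟩ : ∃ u1 ∈ orth B Y, B w0 u1 ≠ 0 := by
          by_contra hcon
          push Not at hcon
          apply hw0Y
          rw [← horth2 Y]
          intro u hu
          exact hzero _ _ (hcon u hu)
        have hd : σ (B v0 v0 - B w0 w0) = B v0 v0 - B w0 w0 := by rw [map_sub, hsym, hsym]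
        obtain ⟨z, hz⟩ := trace_surj σ hσ hσ2 _ hd
        obtain ⟨u, hudef⟩ : ∃ u : V, u = (z / B w0 u1) • u1 := ⟨_, rfl⟩
        have huO : u ∈ orth B Y := by
          rw [hudef]
          exact (orth B Y).smul_mem _ hu1
        have hw0u : B w0 u = z := by
          rw [hudef, map_smul, smul_eq_mul, div_mul_cancel₀ _ hu1ne]
        have huu : B u u = 0 := huO u (hOY huO)
        refine ⟨v0, w0 + u, hv0, ?_, ?_, ?_⟩
        · intro h
          apply hw0Y
          have := Y.sub_mem h (hOY huO)
          simpa using this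
        · intro x hx
          rw [map_add, LinearMap.add_apply, hw0 x hx,
            hzero _ _ (huO (f x) ((hYmem _).mpr ⟨x, hx, rfl⟩)), add_zero]
        · simp only [map_add, LinearMap.add_apply]
          rw [hw0u, ← hsym w0 u, hw0u, huu]
          linear_combination hz
      · -- non-coisotropic case
        have hOY : ¬ orth B Y ≤ Y := by
          intro hOY
          apply hOX
          have h1 : orth B Y ≤ (X ⊓ orth B X).map f := by
            intro u hu
            obtain ⟨x, hx, rfl⟩ := (hYmem u).mp (hOY hu)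
            refine ⟨x, ⟨hx, ?_⟩, rfl⟩
            intro n hn
            rw [← hiso n hn x hx]
            exact hu (f n) ((hYmem _).mpr ⟨n, hn, rfl⟩)
          have h2 := Submodule.finrank_mono h1
          have h3 := Submodule.finrank_map_le f (X ⊓ orth B X)
          have h4 := hdim X
          have h5 := hdim Y
          have h6 : X ⊓ orth B X = orth B X :=
            Submodule.eq_of_le_of_finrank_le inf_le_right (by omega)
          rw [← h6]
          exact inf_le_left
        have hex : ∀ Z : Submodule F V, ¬ orth B Z ≤ Z → ∃ v ∈ orth B Z, B v v ≠ 0 := by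
          intro Z hZ
          by_contra hcon
          push Not at hcon
          apply hZ
          have h0 : B.domRestrict₁₂ (orth B Z) (orth B Z) = 0 := by
            apply Cfsg.Agent.S0753.result σ hσ _ (hS.domRestrict _)
            intro v
            rw [LinearMap.domRestrict₁₂_apply]
            exact hcon v v.2
          intro u hu
          rw [← horth2 Z]
          intro u' hu'
          have := congrArg (fun g => g ⟨u', hu'⟩ ⟨u, hu⟩) h0
          simpa [LinearMap.domRestrict₁₂_apply] using this
        obtain ⟨v, hvO, hvv⟩ := hex X hOX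
        obtain ⟨u, huO, huu⟩ := hex Y hOY
        have hc : σ (B v v / B u u) = B v v / B u u := by rw [map_div₀, hsym, hsym]
        obtain ⟨t, ht⟩ := Cfsg.Agent.S0755.norm_surj σ hσ hσ2 _ (div_ne_zero hvv huu) hc
        have hww : B (t • u) (t • u) = B v v := by
          rw [LinearMap.map_smulₛₗ₂, map_smul, smul_eq_mul, smul_eq_mul]
          have : t * σ t * B u u = B v v := by
            rw [ht]
            field_simp
          linear_combination this
        have hwO : t • u ∈ orth B Y := (orth B Y).smul_mem _ huO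
        refine ⟨v, t • u, ?_, ?_, ?_, hww⟩
        · intro h
          exact hvv (hvO v h)
        · intro h
          apply hvv
          rw [← hww]
          exact hwO _ h
        · intro x hx
          rw [hzero _ _ (hwO (f x) ((hYmem _).mpr ⟨x, hx, rfl⟩)), hzero _ _ (hvO x hx)]
    obtain ⟨v, w, hvX, hwY, hvw, hww⟩ := hkey
    have hvw' : ∀ x ∈ X, B (f x) w = B x v := by
      intro x hx
      rw [← hsym w (f x), hvw x hx, hsym]
    -- functional vanishing on X with value 1 at v
    obtain ⟨c0, hc0v, hc0X⟩ := Submodule.exists_dual_map_eq_bot_of_notMem hvX inferInstance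
    have hc0X' : ∀ x ∈ X, c0 x = 0 := by
      intro x hx
      have : c0 x ∈ X.map c0 := Submodule.mem_map_of_mem hx
      rw [hc0X] at this
      exact (Submodule.mem_bot F).mp this
    obtain ⟨c, hcdef⟩ : ∃ c : V →ₗ[F] F, c = (c0 v)⁻¹ • c0 := ⟨_, rfl⟩
    have hcv : c v = 1 := by
      rw [hcdef, LinearMap.smul_apply, smul_eq_mul, inv_mul_cancel₀ hc0v]
    have hcX : ∀ x ∈ X, c x = 0 := by
      intro x hx
      rw [hcdef, LinearMap.smul_apply, hc0X' x hx, smul_zero]
    obtain ⟨f', hf'def⟩ : ∃ f' : V →ₗ[F] V, f' = f + c.smulRight (w - f v) := ⟨_, rfl⟩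
    have hf'app : ∀ z : V, f' z = f z + c z • (w - f v) := fun z => by
      rw [hf'def]; rfl
    have hf'X : ∀ x ∈ X, f' x = f x := by
      intro x hx
      rw [hf'app, hcX x hx, zero_smul, add_zero]
    have hf'v : f' v = w := by
      rw [hf'app, hcv, one_smul]; abel
    have hf'gen : ∀ x ∈ X, ∀ a : F, f' (x + a • v) = f x + a • w := by
      intro x hx a
      rw [map_add, map_smul, hf'X x hx, hf'v]
    have hmemX' : ∀ z ∈ X ⊔ Submodule.span F {v}, ∃ x ∈ X, ∃ a : F, z = x + a • v := by
      intro z hz
      obtain ⟨x, hx, y, hy, rfl⟩ := Submodule.mem_sup.mp hz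
      obtain ⟨a, rfl⟩ := Submodule.mem_span_singleton.mp hy
      exact ⟨x, hx, a, rfl⟩
    have hlt : X < X ⊔ Submodule.span F {v} := by
      refine lt_of_le_of_ne le_sup_left ?_
      intro heq
      apply hvX
      rw [heq]
      exact Submodule.mem_sup_right (Submodule.mem_span_singleton_self v)
    have hfinlt := Submodule.finrank_lt_finrank_of_lt hlt
    have hiso' : ∀ z ∈ X ⊔ Submodule.span F {v}, ∀ z' ∈ X ⊔ Submodule.span F {v},
        B (f' z) (f' z') = B z z' := by
      intro z hz z' hz'
      obtain ⟨x, hx, a, rfl⟩ := hmemX' z hz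
      obtain ⟨x', hx', a', rfl⟩ := hmemX' z' hz'
      rw [hf'gen x hx, hf'gen x' hx']
      simp only [map_add, map_smul, LinearMap.add_apply, LinearMap.smul_apply, smul_eq_mul,
        map_smulₛₗ]
      rw [hiso x hx x' hx', hvw x' hx', hvw' x hx, hww]
    have hinj' : ∀ z ∈ X ⊔ Submodule.span F {v}, f' z = 0 → z = 0 := by
      intro z hz hfz
      obtain ⟨x, hx, a, rfl⟩ := hmemX' z hz
      rw [hf'gen x hx] at hfz
      have ha : a = 0 := by
        by_contra ha
        apply hwY
        rw [hYmem]
        refine ⟨(-a⁻¹) • x, X.smul_mem _ hx, ?_⟩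
        rw [map_smul]
        have : f x = -(a • w) := eq_neg_of_add_eq_zero_left hfz
        rw [this, smul_neg, neg_smul, neg_neg, smul_smul, inv_mul_cancel₀ ha, one_smul]
      subst ha
      rw [zero_smul, add_zero] at hfz ⊢
      exact hinj x hx hfz
    obtain ⟨g, hg1, hg2⟩ := ih (X ⊔ Submodule.span F {v}) f' (by omega) hiso' hinj'
    refine ⟨g, hg1, ?_⟩
    intro x hx
    rw [hg2 x (Submodule.mem_sup_left hx), hf'X x hx]

end

/-- Witt's Lemma for Hermitian forms. Let σ be a non-identity involutive automorphism of a finite field F and B a non-degenerate σ-sesquilinear form on a finite-dimensional F-space V which is conjugate-symmetric (σ (B x y) = B y x). Then every linear equivalence between subspaces X, Y of V preserving B extends to a B-preserving linear automorphism of V. -/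
theorem result {F V : Type*} [Field F] [Finite F] [AddCommGroup V] [Module F V] [FiniteDimensional F V] (σ : F →+* F) (hσ : σ ≠ RingHom.id F) (hσ2 : ∀ a : F, σ (σ a) = a) (B : V →ₛₗ[σ] V →ₗ[F] F) (hS : B.IsSymm) (hB : B.Nondegenerate) (X Y : Submodule F V) (φ : X ≃ₗ[F] Y) (hφ : ∀ x x' : X, B (φ x : V) (φ x' : V) = B (x : V) (x' : V)) : ∃ g : V ≃ₗ[F] V, (∀ u v : V, B (g u) (g v) = B u v) ∧ ∀ x : X, g (x : V) = (φ x : V) := by
  obtain ⟨r0, hr0⟩ := LinearMap.exists_leftInverse_of_injective X.subtype X.ker_subtype
  have hr0' : ∀ x : X, r0 (x : V) = x := fun x => by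
    have := congrArg (fun g => g x) hr0
    simpa using this
  obtain ⟨f, hfdef⟩ : ∃ f : V →ₗ[F] V, f = Y.subtype.comp (φ.toLinearMap.comp r0) := ⟨_, rfl⟩
  have hf : ∀ x : X, f (x : V) = (φ x : V) := by
    intro x
    rw [hfdef]
    simp only [LinearMap.comp_apply, Submodule.subtype_apply, LinearEquiv.coe_coe]
    rw [hr0']
  obtain ⟨g, hg1, hg2⟩ := extend_aux σ hσ hσ2 B hS hB (Module.finrank F V - Module.finrank F X) X f
    le_rfl
    (by
      intro x hx x' hx'
      have h1 := hf ⟨x, hx⟩
      have h2 := hf ⟨x', hx'⟩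
      simp only at h1 h2
      rw [h1, h2]
      exact hφ ⟨x, hx⟩ ⟨x', hx'⟩)
    (by
      intro x hx h0
      have h1 := hf ⟨x, hx⟩
      simp only at h1
      rw [h0] at h1
      have h2 : φ ⟨x, hx⟩ = 0 := Subtype.ext h1.symm
      have h3 : (⟨x, hx⟩ : X) = 0 := by
        rwa [LinearEquiv.map_eq_zero_iff] at h2
      exact congrArg Subtype.val h3)
  refine ⟨g, hg1, ?_⟩
  intro x
  rw [hg2 x x.2, hf]

end Cfsg.Agent.S0751
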