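import Mathlib
import Cfsg.Statements.S0752

set_option autoImplicit false
open Cfsg

namespace Cfsg.Agent.S0752

open Module LinearMap

universe u v

/-- Reindexing equivalence used for the inductive step. -/
def sigmaEquiv (ι κ : Type) : (Unit ⊕ Unit) ⊕ ((ι ⊕ ι) ⊕ κ) ≃ (Option ι ⊕ Option ι) ⊕ κ where
  toFun x := match x with
    | Sum.inl (Sum.inl _) => Sum.inl (Sum.inl none)
    | Sum.inl (Sum.inr _) => Sum.inl (Sum.inr none)
    | Sum.inr (Sum.inl (Sum.inl i)) => Sum.inl (Sum.inl (some i))
    | Sum.inr (Sum.inl (Sum.inr i)) => Sum.inl (Sum.inr (some i))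
    | Sum.inr (Sum.inr k) => Sum.inr k
  invFun x := match x with
    | Sum.inl (Sum.inl none) => Sum.inl (Sum.inl ())
    | Sum.inl (Sum.inl (some i)) => Sum.inr (Sum.inl (Sum.inl i))
    | Sum.inl (Sum.inr none) => Sum.inl (Sum.inr ())
    | Sum.inl (Sum.inr (some i)) => Sum.inr (Sum.inl (Sum.inr i))
    | Sum.inr k => Sum.inr (Sum.inr k)
  left_inv x := by
    rcases x with ((_ | _) | ((i | i) | k)) <;> rfl
  right_inv x := by
    rcases x with (((_ | i) | (_ | i)) | k) <;> rfl

theorem aux {F : Type u} [Field F] (n : ℕ) :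
    ∀ (V : Type v) [AddCommGroup V] [Module F V] [FiniteDimensional F V]
      (B : LinearMap.BilinForm F V), B.IsAlt → finrank F V = n →
      ∃ (ι κ : Type) (_ : Fintype ι) (_ : Fintype κ) (b : Basis ((ι ⊕ ι) ⊕ κ) F V),
        (∀ i, B (b (Sum.inl (Sum.inl i))) (b (Sum.inl (Sum.inr i))) = 1) ∧
        (∀ i j, i ≠ j → B (b (Sum.inl (Sum.inl i))) (b (Sum.inl (Sum.inr j))) = 0) ∧
        (∀ i j, B (b (Sum.inl (Sum.inl i))) (b (Sum.inl (Sum.inl j))) = 0) ∧
        (∀ i j, B (b (Sum.inl (Sum.inr i))) (b (Sum.inl (Sum.inr j))) = 0) ∧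
        (∀ (j : κ) (v : V), B (b (Sum.inr j)) v = 0) := by
  induction n using Nat.strong_induction_on with
  | _ n ih =>
    intro V _ _ _ B hA hn
    by_cases hB : B = 0
    · refine ⟨Empty, Fin n, inferInstance, inferInstance,
        (Module.finBasisOfFinrankEq F V hn).reindex (Equiv.emptySum (Empty ⊕ Empty) (Fin n)).symm, ?_⟩
      subst hB
      refine ⟨fun i => i.elim, fun i => i.elim, fun i => i.elim, fun i => i.elim, fun j v => rfl⟩
    · obtain ⟨e, f0, hef0⟩ : ∃ e f0 : V, B e f0 ≠ 0 := by
        by_contra hcon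
        push Not at hcon
        apply hB
        ext x y
        simpa using hcon x y
      obtain ⟨f, hfdef⟩ : ∃ f : V, f = (B e f0)⁻¹ • f0 := ⟨_, rfl⟩
      have hef : B e f = 1 := by
        rw [hfdef, map_smul, smul_eq_mul, inv_mul_cancel₀ hef0]
      have hanti : ∀ x y : V, B x y = - B y x := fun x y => (hA.neg_eq y x).symm
      have hfe : B f e = -1 := by rw [hanti, hef]
      have hee : B e e = 0 := hA e
      have hff : B f f = 0 := hA f
      obtain ⟨q, hqdef⟩ : ∃ q : Submodule F V, q = LinearMap.ker (B e) ⊓ LinearMap.ker (B f) :=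
        ⟨_, rfl⟩
      have hq : ∀ x : V, x ∈ q ↔ B e x = 0 ∧ B f x = 0 := fun x => by
        rw [hqdef, Submodule.mem_inf, LinearMap.mem_ker, LinearMap.mem_ker]
      have hqe : ∀ w : q, B e (w : V) = 0 := fun w => ((hq _).mp w.2).1
      have hqf : ∀ w : q, B f (w : V) = 0 := fun w => ((hq _).mp w.2).2
      have hqe' : ∀ w : q, B (w : V) e = 0 := fun w => by rw [hanti, hqe, neg_zero]
      have hqf' : ∀ w : q, B (w : V) f = 0 := fun w => by rw [hanti, hqf, neg_zero]
      let φ : ((F × F) × q) →ₗ[F] V :=
        ((LinearMap.toSpanSingleton F V e).coprod (LinearMap.toSpanSingleton F V f)).coprod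
          q.subtype
      have hφ : ∀ (a c : F) (w : q), φ ((a, c), w) = a • e + c • f + (w : V) := by
        intro a c w
        simp [φ, LinearMap.coprod_apply, LinearMap.toSpanSingleton_apply]
      have hinj : Function.Injective φ := by
        rw [injective_iff_map_eq_zero]
        rintro ⟨⟨a, c⟩, w⟩ h
        rw [hφ] at h
        have h1 := congrArg (B e) h
        have h2 := congrArg (B f) h
        simp only [map_add, map_smul, hee, hef, hfe, hff, hqe, hqf, smul_eq_mul, mul_zero, mul_one,
          zero_add, add_zero, map_zero, mul_neg, neg_eq_zero] at h1 h2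
        subst h1 h2
        simp only [zero_smul, zero_add] at h
        have hw : w = 0 := Subtype.ext h
        subst hw
        rfl
      have hsurj : Function.Surjective φ := by
        intro x
        have hmem : x - B x f • e - B e x • f ∈ q := by
          rw [hq]
          constructor
          · simp only [map_sub, map_smul, hee, hef, smul_eq_mul, mul_zero, mul_one, sub_zero,
              sub_self]
          · simp only [map_sub, map_smul, hfe, hff, smul_eq_mul, mul_zero, sub_zero]
            rw [hanti f x]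
            ring
        refine ⟨((B x f, B e x), ⟨_, hmem⟩), ?_⟩
        rw [hφ]
        simp only
        abel
      let Φ : ((F × F) × q) ≃ₗ[F] V := LinearEquiv.ofBijective φ ⟨hinj, hsurj⟩
      have hΦ : ∀ (a c : F) (w : q), Φ ((a, c), w) = a • e + c • f + (w : V) := hφ
      have hfin : finrank F q + 2 = n := by
        have h1 := Φ.finrank_eq
        rw [Module.finrank_prod, Module.finrank_prod, Module.finrank_self, hn] at h1
        omega
      have hAq : (B.restrict q).IsAlt := fun x => hA (x : V)
      obtain ⟨ι, κ, _, _, bW, h1, h2, h3, h4, h5⟩ :=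
        ih (finrank F q) (by omega) q (B.restrict q) hAq rfl
      let bF : Basis Unit F F := Basis.singleton Unit F
      let b : Basis ((Option ι ⊕ Option ι) ⊕ κ) F V :=
        (((bF.prod bF).prod bW).map Φ).reindex (sigmaEquiv ι κ)
      have hb_e : b (Sum.inl (Sum.inl none)) = e := by
        have : b (Sum.inl (Sum.inl none)) = Φ ((1, 0), 0) := by
          simp [b, bF, sigmaEquiv, Basis.prod_apply]
        rw [this, hΦ]
        simp
      have hb_f : b (Sum.inl (Sum.inr none)) = f := by
        have : b (Sum.inl (Sum.inr none)) = Φ ((0, 1), 0) := by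
          simp [b, bF, sigmaEquiv, Basis.prod_apply]
        rw [this, hΦ]
        simp
      have hb_1 : ∀ i : ι, b (Sum.inl (Sum.inl (some i))) = (bW (Sum.inl (Sum.inl i)) : V) := by
        intro i
        have : b (Sum.inl (Sum.inl (some i))) = Φ ((0, 0), bW (Sum.inl (Sum.inl i))) := by
          simp [b, bF, sigmaEquiv, Basis.prod_apply, Prod.mk_zero_zero]
        rw [this, hΦ]
        simp
      have hb_2 : ∀ i : ι, b (Sum.inl (Sum.inr (some i))) = (bW (Sum.inl (Sum.inr i)) : V) := by
        intro i
        have : b (Sum.inl (Sum.inr (some i))) = Φ ((0, 0), bW (Sum.inl (Sum.inr i))) := by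
          simp [b, bF, sigmaEquiv, Basis.prod_apply, Prod.mk_zero_zero]
        rw [this, hΦ]
        simp
      have hb_3 : ∀ k : κ, b (Sum.inr k) = (bW (Sum.inr k) : V) := by
        intro k
        have : b (Sum.inr k) = Φ ((0, 0), bW (Sum.inr k)) := by
          simp [b, bF, sigmaEquiv, Basis.prod_apply, Prod.mk_zero_zero]
        rw [this, hΦ]
        simp
      refine ⟨Option ι, κ, inferInstance, inferInstance, b, ?_, ?_, ?_, ?_, ?_⟩
      · rintro (_ | i)
        · rw [hb_e, hb_f, hef]
        · rw [hb_1, hb_2]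
          exact h1 i
      · rintro (_ | i) (_ | j) hij
        · exact absurd rfl hij
        · rw [hb_e, hb_2, hqe]
        · rw [hb_1, hb_f, hqf']
        · rw [hb_1, hb_2]
          exact h2 i j (fun h => hij (by rw [h]))
      · rintro (_ | i) (_ | j)
        · rw [hb_e, hee]
        · rw [hb_e, hb_1, hqe]
        · rw [hb_1, hb_e, hqe']
        · rw [hb_1, hb_1]
          exact h3 i j
      · rintro (_ | i) (_ | j)
        · rw [hb_f, hff]
        · rw [hb_f, hb_2, hqf]
        · rw [hb_2, hb_f, hqf']
        · rw [hb_2, hb_2]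
          exact h4 i j
      · intro k x
        obtain ⟨⟨⟨a, c⟩, w⟩, rfl⟩ := Φ.surjective x
        rw [hb_3, hΦ, map_add, map_add, map_smul, map_smul, hqe', hqf', smul_zero, smul_zero,
          zero_add, zero_add]
        exact h5 k w

/-- Classification of alternating forms: for an alternating bilinear form B on a finite-dimensional space over any field there is a basis indexed by (Fin m ⊕ Fin m) ⊕ Fin k such that B (e_i, f_j) = δ_ij, the e's are pairwise orthogonal, the f's are pairwise orthogonal, and the last k basis vectors are orthogonal to everything (they span the radical). -/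
theorem result {F V : Type*} [Field F] [AddCommGroup V] [Module F V] [FiniteDimensional F V] (B : LinearMap.BilinForm F V) (hA : B.IsAlt) : ∃ (m k : ℕ) (b : Module.Basis ((Fin m ⊕ Fin m) ⊕ Fin k) F V), (∀ i j : Fin m, B (b (Sum.inl (Sum.inl i))) (b (Sum.inl (Sum.inr j))) = if i = j then 1 else 0) ∧ (∀ i j : Fin m, B (b (Sum.inl (Sum.inl i))) (b (Sum.inl (Sum.inl j))) = 0) ∧ (∀ i j : Fin m, B (b (Sum.inl (Sum.inr i))) (b (Sum.inl (Sum.inr j))) = 0) ∧ (∀ (j : Fin k) (v : V), B (b (Sum.inr j)) v = 0) := by
  classical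
  obtain ⟨ι, κ, _, _, b, h1, h2, h3, h4, h5⟩ := aux (Module.finrank F V) V B hA rfl
  let eι : ι ≃ Fin (Fintype.card ι) := Fintype.equivFin ι
  let eκ : κ ≃ Fin (Fintype.card κ) := Fintype.equivFin κ
  let b' := b.reindex (Equiv.sumCongr (Equiv.sumCongr eι eι) eκ)
  have hb1 : ∀ i, b' (Sum.inl (Sum.inl i)) = b (Sum.inl (Sum.inl (eι.symm i))) := fun i => by
    simp [b']
  have hb2 : ∀ i, b' (Sum.inl (Sum.inr i)) = b (Sum.inl (Sum.inr (eι.symm i))) := fun i => by
    simp [b']
  have hb3 : ∀ i, b' (Sum.inr i) = b (Sum.inr (eκ.symm i)) := fun i => by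
    simp [b']
  refine ⟨Fintype.card ι, Fintype.card κ, b', ?_, ?_, ?_, ?_⟩
  · intro i j
    rw [hb1, hb2]
    by_cases hij : i = j
    · subst hij
      rw [if_pos rfl]
      exact h1 _
    · rw [if_neg hij]
      exact h2 _ _ (fun h => hij (eι.symm.injective h))
  · intro i j
    rw [hb1, hb1]
    exact h3 _ _
  · intro i j
    rw [hb2, hb2]
    exact h4 _ _
  · intro j v
    rw [hb3]
    exact h5 _ v

end Cfsg.Agent.S0752
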