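import Cfsg.Statements.S0802
import Cfsg.Agent.Helper9.SL2o

set_option autoImplicit false
open Cfsg

namespace Cfsg.Agent.S0802

open Cfsg.Agent.Helper9

theorem result {F : Type*} [Field F] [Fintype F] (p n : ℕ) [Fact p.Prime] [CharP F p] (hF : Fintype.card F = p ^ n) : (∃ H : Subgroup (Matrix.ProjectiveSpecialLinearGroup (Fin 2) F), Nonempty (H ≃* alternatingGroup (Fin 4))) ↔ ¬ (p = 2 ∧ Odd n) := by
  classical
  have hpp := (Fact.out : p.Prime)
  constructor
  · rintro ⟨H, ⟨e⟩⟩ ⟨rfl, hn⟩
    have h2 : (2 : F) = 0 := by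
      have := CharP.cast_eq_zero F 2
      exact_mod_cast this
    obtain ⟨τ, γ, f1, f2, f3, f4, f5⟩ := a4_elems_h9
    obtain ⟨T, hT⟩ := QuotientGroup.mk_surjective ((e.symm τ : H) :
      Matrix.ProjectiveSpecialLinearGroup (Fin 2) F)
    obtain ⟨G, hG⟩ := QuotientGroup.mk_surjective ((e.symm γ : H) :
      Matrix.ProjectiveSpecialLinearGroup (Fin 2) F)
    have key : ∀ a b : alternatingGroup (Fin 4), ∀ A B : Matrix.SpecialLinearGroup (Fin 2) F,
        (QuotientGroup.mk A : Matrix.ProjectiveSpecialLinearGroup (Fin 2) F) = (e.symm a : H) →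
        (QuotientGroup.mk B : Matrix.ProjectiveSpecialLinearGroup (Fin 2) F) = (e.symm b : H) →
        (A = B ↔ a = b) := by
      intro a b A B hA hB
      rw [← psl2_mk_inj_char_two_h9 h2, hA, hB]
      constructor
      · intro h
        exact e.symm.injective (Subtype.ext h)
      · intro h; rw [h]
    have hTT : (QuotientGroup.mk (T * T) : Matrix.ProjectiveSpecialLinearGroup (Fin 2) F)
        = (e.symm (τ * τ) : H) := by
      rw [QuotientGroup.mk_mul, hT, ← Subgroup.coe_mul, ← map_mul]
    have h1 : (QuotientGroup.mk (1 : Matrix.SpecialLinearGroup (Fin 2) F) :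
        Matrix.ProjectiveSpecialLinearGroup (Fin 2) F) = (e.symm (1 : alternatingGroup (Fin 4)) : H) := by
      rw [map_one]; rfl
    have hGGG : (QuotientGroup.mk (G * G * G) : Matrix.ProjectiveSpecialLinearGroup (Fin 2) F)
        = (e.symm (γ * γ * γ) : H) := by
      rw [QuotientGroup.mk_mul, QuotientGroup.mk_mul, hG, ← Subgroup.coe_mul, ← Subgroup.coe_mul,
        ← map_mul, ← map_mul]
    have hGT : (QuotientGroup.mk (G * T * G⁻¹) : Matrix.ProjectiveSpecialLinearGroup (Fin 2) F)
        = (e.symm (γ * τ * γ⁻¹) : H) := by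
      rw [QuotientGroup.mk_mul, QuotientGroup.mk_mul, QuotientGroup.mk_inv, hG, hT,
        ← Subgroup.coe_inv, ← Subgroup.coe_mul, ← Subgroup.coe_mul, ← map_inv, ← map_mul,
        ← map_mul]
    have hc1 : (QuotientGroup.mk (T * (G * T * G⁻¹)) :
        Matrix.ProjectiveSpecialLinearGroup (Fin 2) F) = (e.symm (τ * (γ * τ * γ⁻¹)) : H) := by
      rw [QuotientGroup.mk_mul, hGT, hT, ← Subgroup.coe_mul, ← map_mul]
    have hc2 : (QuotientGroup.mk ((G * T * G⁻¹) * T) :
        Matrix.ProjectiveSpecialLinearGroup (Fin 2) F) = (e.symm ((γ * τ * γ⁻¹) * τ) : H) := by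
      rw [QuotientGroup.mk_mul, hGT, hT, ← Subgroup.coe_mul, ← map_mul]
    obtain ⟨l, hl3, hl1⟩ := sl2_char_two_cube_root_h9 h2 T G
      ((key _ _ _ _ hTT h1).mpr f1) (fun h => f2 ((key _ _ _ _ hT h1).mp h))
      ((key _ _ _ _ hGGG h1).mpr f3) (fun h => f4 ((key _ _ _ _ hGT hT).mp h))
      ((key _ _ _ _ hc1 hc2).mpr f5)
    have hl0 : l ≠ 0 := by
      rintro rfl
      norm_num at hl3
    have hord : orderOf (Units.mk0 l hl0) = 3 := by
      apply orderOf_eq_prime
      · apply Units.ext
        simpa using hl3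
      · intro h
        apply hl1
        have := congrArg Units.val h
        simpa using this
    have hdvd : 3 ∣ Fintype.card Fˣ := by
      rw [← hord]; exact orderOf_dvd_card
    rw [Fintype.card_units, hF] at hdvd
    obtain ⟨k, rfl⟩ := hn
    have hmod : 2 ^ (2 * k + 1) % 3 = 2 := by
      rw [pow_succ, pow_mul, Nat.mul_mod, Nat.pow_mod]
      norm_num
    have hpos : 0 < 2 ^ (2 * k + 1) := by positivity
    generalize 2 ^ (2 * k + 1) = N at hdvd hmod hpos
    omega
  · intro h
    by_cases hp2 : p = 2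
    · subst hp2
      have h2 : (2 : F) = 0 := by
        have := CharP.cast_eq_zero F 2
        exact_mod_cast this
      have hn : Even n := by
        rw [← Nat.not_odd_iff_even]
        intro hodd
        exact h ⟨rfl, hodd⟩
      obtain ⟨k, rfl⟩ := hn
      have hdvd : 3 ∣ Fintype.card Fˣ := by
        rw [Fintype.card_units, hF]
        have hmod : 2 ^ (k + k) % 3 = 1 := by
          rw [← two_mul, pow_mul, Nat.pow_mod]
          norm_num
        have hpos : 0 < 2 ^ (k + k) := by positivity
        generalize 2 ^ (k + k) = N at hmod hpos ⊢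
        omega
      rw [← Nat.card_eq_fintype_card] at hdvd
      obtain ⟨w, hw⟩ := exists_prime_orderOf_dvd_card' (G := Fˣ) 3 hdvd
      have hw3 : (w : F) ^ 3 = 1 := by
        have := pow_orderOf_eq_one w
        rw [hw] at this
        have h' := congrArg Units.val this
        simpa using h'
      have hw1 : (w : F) ≠ 1 := by
        intro h'
        have : w = 1 := Units.ext (by simpa using h')
        rw [this, orderOf_one] at hw
        norm_num at hw
      obtain ⟨H, ⟨e⟩⟩ := sl2_char_two_A4_h9 h2 (w : F) hw3 hw1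
      let π : Matrix.SpecialLinearGroup (Fin 2) F →* Matrix.ProjectiveSpecialLinearGroup (Fin 2) F :=
        QuotientGroup.mk' _
      have hπ : Function.Injective π := fun x y hxy => (psl2_mk_inj_char_two_h9 h2 x y).mp hxy
      exact ⟨H.map π, ⟨(H.equivMapOfInjective π hπ).symm.trans e⟩⟩
    · have hodd : Fintype.card F % 2 = 1 := by
        rw [hF, Nat.pow_mod]
        have : p % 2 = 1 := by
          rcases Nat.Prime.eq_two_or_odd hpp with h' | h'
          · exact absurd h' hp2
          · exact h'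
        rw [this]; simp
      have h2 : (2 : F) ≠ 0 := two_ne_zero_of_odd_card_h9 hodd
      obtain ⟨V, hV, hC, h3, -⟩ := psl2_klein_data_h9 hodd h2
      exact (klein_ambient_h9 V hC h3).1

end Cfsg.Agent.S0802
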