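import Cfsg.Statements.S0859
import Mathlib
import Cfsg.Agent.Helper7.AMono

set_option autoImplicit false
open Cfsg

namespace Cfsg.Agent.S0859

/-- Let G be a finite solvable group and N a normal subgroup such that for every prime p every Sylow p-subgroup of N is abelian. Suppose every irreducible character of G is induced from an irreducible character of some subgroup containing N whose restriction to N is irreducible. Then every irreducible character of G is induced from a character of degree 1 of some subgroup. -/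
theorem result {G : Type*} [Group G] [Fintype G] [Group.IsSolvable G] (N : Subgroup G) [N.Normal] (hab : ∀ (p : ℕ) [Fact p.Prime] (P : Sylow p N), ∀ a ∈ P, ∀ b ∈ P, a * b = b * a) (hrel : ∀ χ : G → ℂ, Cfsg.IsIrrCharacter G χ → ∃ (H : Subgroup G) (hNH : N ≤ H) (ψ : H → ℂ), Cfsg.IsIrrCharacter H ψ ∧ Cfsg.indFun H ψ = χ ∧ Cfsg.IsIrrCharacter N (fun n : N => ψ ⟨(n : G), hNH n.2⟩)) (χ : G → ℂ) (hχ : Cfsg.IsIrrCharacter G χ) : ∃ (U : Subgroup G) (lam : U → ℂ), Cfsg.IsCharacter U lam ∧ lam 1 = 1 ∧ Cfsg.indFun U lam = χ := by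
  classical
  obtain ⟨H, hNH, ψ, hψ, hind, hψN⟩ := hrel χ hχ
  letI : Fintype H := Fintype.ofFinite _
  have hAS := Cfsg.Agent.Helper7.am_as_of_injective (Cfsg.Agent.Helper7.amIncl N H)
    (Cfsg.Agent.Helper7.amIncl_injective N H) hab
  have hsol : Group.IsSolvable (N.subgroupOf H) :=
    Group.isSolvable_of_isSolvable_injective (Cfsg.Agent.Helper7.amIncl_injective N H)
  have hsurj : Function.Surjective (Cfsg.Agent.Helper7.amIncl N H) := by
    intro n
    exact ⟨⟨⟨(n : G), hNH n.2⟩, Subgroup.mem_subgroupOf.mpr n.2⟩, rfl⟩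
  have hirr : IsIrrCharacter (N.subgroupOf H) (fun x : N.subgroupOf H => ψ x) :=
    Cfsg.Agent.Helper2.isIrrCharacter_comp_of_surjective (Cfsg.Agent.Helper7.amIncl N H) hsurj hψN
  obtain ⟨U', lam', h1, hind'⟩ := Cfsg.Agent.Helper7.am_mono_aux (Nat.card H) H le_rfl
    (N.subgroupOf H) hAS hsol ⟨ψ, hψ⟩ hirr
  obtain ⟨U, lamU, hlamU, hind''⟩ := Cfsg.Agent.Helper2.monomial_transport H U' lam' h1
  refine ⟨U, (lamU : U → ℂ), Cfsg.Agent.Helper2.isCharacter_of_isIrrCharacter lamU.2, ?_, ?_⟩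
  · rw [Cfsg.Agent.Helper25.irr_one_eq_degree lamU, hlamU, Nat.cast_one]
  · rw [hind'', hind', hind]

end Cfsg.Agent.S0859
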