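import Cfsg.Statements.S0974
import Mathlib
import Cfsg.Agent.Helper23.InvPairs
import Cfsg.Agent.S1019

set_option autoImplicit false
open Cfsg

namespace Cfsg.Agent.S0974

open Cfsg.Agent.Helper23.SimpleOrd Cfsg.Agent.Helper23.FixTools Cfsg.Agent.Helper23.InvPairs

theorem result {G : Type*} [Group G] [Finite G] [IsSimpleGroup G] : Nat.card G ≠ 3648 := by
  intro h
  classical
  haveI : Fact (Nat.Prime 19) := ⟨by norm_num⟩
  haveI : Fact (Nat.Prime 2) := ⟨by norm_num⟩
  haveI : Fintype G := Fintype.ofFinite G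
  have hG19 : Nat.card G ≠ 19 := by rw [h]; norm_num
  have hGnc : ¬ IsMulCommutative G := not_comm_of_card (by rw [h]; norm_num)
  -- the number of Sylow 19-subgroups is 96
  have hn : Nat.card (Sylow 19 G) = 96 := by
    obtain ⟨P⟩ : Nonempty (Sylow 19 G) := inferInstance
    have hP : Nat.card (P : Subgroup G) = 19 :=
      sylow_card_eq P (m := 192) (by rw [h]) (by norm_num)
    have hd : Nat.card (Sylow 19 G) ∣ 192 :=
      card_sylow_dvd_of_eq P (k := 19) (by rw [h]) hP (by norm_num)
    have hm : Nat.card (Sylow 19 G) ≡ 1 [MOD 19] := card_sylow_modEq_one 19 G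
    have h1 : Nat.card (Sylow 19 G) ≠ 1 := card_sylow_ne_one P hP hG19
    have hle : Nat.card (Sylow 19 G) ≤ 192 := Nat.le_of_dvd (by norm_num) hd
    generalize Nat.card (Sylow 19 G) = n at *
    unfold Nat.ModEq at hm
    obtain ⟨t, ht⟩ : ∃ t, n = 19 * t + 1 := ⟨n / 19, by omega⟩
    have ht6 : t ≤ 10 := by omega
    subst ht
    interval_cases t <;> omega
  -- every Sylow 19-subgroup is self-centralising with normaliser of order 38
  have hsyl : ∀ P : Sylow 19 G, Nat.card (P : Subgroup G) = 19 ∧
      Nat.card (Subgroup.normalizer ((P : Subgroup G) : Set G)) = 38 ∧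
      Nat.card (Subgroup.centralizer ((P : Subgroup G) : Set G)) = 19 ∧
      (Subgroup.normalizer ((P : Subgroup G) : Set G)).index = 96 ∧
      Subgroup.normalizer ((P : Subgroup G) : Set G) ≠ ⊤ := by
    intro P
    have hP : Nat.card (P : Subgroup G) = 19 :=
      sylow_card_eq P (m := 192) (by rw [h]) (by norm_num)
    obtain ⟨hNne, hidx, hNn, hrel, hrel1, hrelmul, hPC⟩ := setup P hP hG19
    rw [hn, h] at hNn
    have hNcard : Nat.card (Subgroup.normalizer ((P : Subgroup G) : Set G)) = 38 := by omega
    rw [hNcard] at hrelmul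
    rw [hP] at hPC
    refine ⟨hP, hNcard, ?_, by rw [hidx, hn], hNne⟩
    have hle : (Subgroup.centralizer ((P : Subgroup G) : Set G)).relIndex
        (Subgroup.normalizer ((P : Subgroup G) : Set G)) ≤ 18 :=
      Nat.le_of_dvd (by norm_num) hrel
    generalize (Subgroup.centralizer ((P : Subgroup G) : Set G)).relIndex
        (Subgroup.normalizer ((P : Subgroup G) : Set G)) = i at *
    generalize (P : Subgroup G).relIndex (Subgroup.centralizer ((P : Subgroup G) : Set G)) = j
      at *
    generalize Nat.card (Subgroup.centralizer ((P : Subgroup G) : Set G)) = c at *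
    subst hPC
    interval_cases i <;> omega
  -- centralisers of elements of order 19
  have hcent19 : ∀ u : G, orderOf u = 19 →
      Nat.card (Subgroup.centralizer ({u} : Set G)) = 19 := by
    intro u hu
    have hz : Nat.card (Subgroup.zpowers u) = 19 := by rw [Nat.card_zpowers, hu]
    have hfac : (Nat.card G).factorization 19 = 1 := by
      rw [h]
      have e : (3648 : ℕ) = 19 * 192 := by norm_num
      rw [e, Nat.factorization_mul (by norm_num) (by norm_num), Finsupp.add_apply,
        Nat.Prime.factorization_self (by norm_num),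
        Nat.factorization_eq_zero_of_not_dvd (by norm_num)]
    obtain ⟨P, hP⟩ : ∃ P : Sylow 19 G, (P : Subgroup G) = Subgroup.zpowers u :=
      ⟨Sylow.ofCard (Subgroup.zpowers u) (by rw [hz, hfac, pow_one]), rfl⟩
    have h1 := (hsyl P).2.2.1
    rw [hP, centralizer_zpowers_eq] at h1
    exact h1
  -- other centralisers have order prime to 19
  have hnot19 : ∀ g : G, g ≠ 1 → orderOf g ≠ 19 →
      ¬ 19 ∣ Nat.card (Subgroup.centralizer ({g} : Set G)) := by
    intro g hg1 hg19 h19
    obtain ⟨u, huC, hu⟩ := exists_mem_orderOf _ 19 h19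
    have hgu : g ∈ Subgroup.centralizer ({u} : Set G) := by
      rw [Subgroup.mem_centralizer_iff]
      intro y hy
      rw [Set.mem_singleton_iff] at hy
      subst hy
      rw [Subgroup.mem_centralizer_iff] at huC
      exact (huC g rfl).symm
    have hord : orderOf g ∣ 19 := by
      have h1 := Subgroup.orderOf_dvd_natCard _ hgu
      rwa [hcent19 u hu] at h1
    rcases (Nat.dvd_prime (by norm_num)).mp hord with h1 | h1
    · exact hg1 (orderOf_eq_one_iff.mp h1)
    · exact hg19 h1
  -- and order at most 96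
  have hcent : ∀ g : G, g ≠ 1 → orderOf g ≠ 19 →
      Nat.card (Subgroup.centralizer ({g} : Set G)) ≤ 96 := by
    intro g hg1 hg19
    have hdvd : Nat.card (Subgroup.centralizer ({g} : Set G)) ∣ 3648 :=
      h ▸ Subgroup.card_subgroup_dvd_card _
    have h19 := hnot19 g hg1 hg19
    have hne192 : Nat.card (Subgroup.centralizer ({g} : Set G)) ≠ 192 := by
      intro h192
      have hidx : (Subgroup.centralizer ({g} : Set G)).index = 19 := by
        have h1 := (Subgroup.centralizer ({g} : Set G)).card_mul_index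
        rw [h192, h] at h1
        omega
      obtain ⟨P⟩ : Nonempty (Sylow 19 G) := inferInstance
      have h2 := two_mul_card_normalizer_dvd hGnc 19 (by norm_num) _ hidx (P : Subgroup G)
        (hsyl P).1
      rw [(hsyl P).2.1] at h2
      omega
    have h192 : Nat.card (Subgroup.centralizer ({g} : Set G)) ∣ 192 := by
      have e : (3648 : ℕ) = 19 * 192 := by norm_num
      rw [e] at hdvd
      exact Nat.Coprime.dvd_of_dvd_mul_left
        ((Nat.Prime.coprime_iff_not_dvd (by norm_num)).mpr h19).symm hdvd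
    generalize Nat.card (Subgroup.centralizer ({g} : Set G)) = c at *
    obtain ⟨k, hk⟩ := h192
    have hk2 : 2 ≤ k := by
      rcases k with _ | _ | k
      · omega
      · omega
      · omega
    nlinarith
  -- an involution in the normaliser of a Sylow 19-subgroup
  obtain ⟨P⟩ : Nonempty (Sylow 19 G) := inferInstance
  obtain ⟨hP, hNcard, hCcard, hidx, hNne⟩ := hsyl P
  obtain ⟨N, hN⟩ : ∃ N : Subgroup G, N = Subgroup.normalizer ((P : Subgroup G) : Set G) :=
    ⟨_, rfl⟩
  rw [← hN] at hNcard hidx hNne
  obtain ⟨t, htN, ht⟩ := exists_mem_orderOf N 2 (by rw [hNcard]; norm_num)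
  have ht2 : t ^ 2 = 1 := by rw [← ht]; exact pow_orderOf_eq_one t
  have ht1 : t ≠ 1 := by
    rintro rfl
    rw [orderOf_one] at ht
    omega
  have htC : t ∉ Subgroup.centralizer ((P : Subgroup G) : Set G) := by
    intro hc
    have h1 := Subgroup.orderOf_dvd_natCard _ hc
    rw [hCcard, ht] at h1
    omega
  have hF1 := fix_mul_le_of_not_mem P hP t (hN ▸ htN) htC
  rw [← hN, hn] at hF1
  have hF2 := four_dvd_of_sq (by rw [h]; norm_num) N t ht2
  have hF3 := S1019.result N t htN
  have hcl := card_class_mul t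
  rw [hidx] at hF2 hF3
  rw [h] at hcl
  have ht19 := hnot19 t ht1 (by rw [ht]; norm_num)
  have hm_le : Nat.card {g : G // IsConj t g ∧ g ∈ N} ≤ 38 := by
    rw [← hNcard]
    exact Nat.card_le_card_of_injective (fun x => (⟨x.1, x.2.2⟩ : N))
      (fun x y hxy => Subtype.ext (by simpa using congrArg (fun z : N => (z : G)) hxy))
  have hm_pos : 0 < Nat.card {g : G // IsConj t g ∧ g ∈ N} := by
    haveI : Nonempty {g : G // IsConj t g ∧ g ∈ N} := ⟨⟨t, IsConj.refl t, htN⟩⟩
    exact Nat.card_pos
  -- the class of `t`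
  obtain ⟨T, hTdef⟩ : ∃ T : Set G, T = {g : G | IsConj t g} := ⟨_, rfl⟩
  have hTcard : T.ncard = Nat.card {g : G // IsConj t g} := by
    rw [hTdef]; exact (Nat.card_coe_set_eq _).symm
  have hTsq : ∀ a ∈ T, a * a = 1 := by
    intro a ha
    rw [hTdef] at ha
    obtain ⟨c, hc⟩ := isConj_iff.mp ha
    rw [← hc]
    have e : c * t * c⁻¹ * (c * t * c⁻¹) = c * (t * t) * c⁻¹ := by group
    rw [e, ← pow_two, ht2]; group
  have hTord : ∀ g : G, IsConj t g → orderOf g = 2 := by
    intro g hg
    obtain ⟨c, hc⟩ := isConj_iff.mp hg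
    rw [← hc, ← ht]
    exact (MulAut.conj c).orderOf_eq t
  have hpair := sq_card_le_sum T hTsq
  rw [hTcard] at hpair
  have hO := card_orderOf_ge (G := G) 19 (fun P => (hsyl P).1)
  rw [hn] at hO
  -- numerical facts about the class of `t`
  obtain ⟨τ, hτ⟩ : ∃ τ : ℕ, τ = Nat.card {g : G // IsConj t g} := ⟨_, rfl⟩
  obtain ⟨c, hc⟩ : ∃ c : ℕ, c = Nat.card (Subgroup.centralizer ({t} : Set G)) := ⟨_, rfl⟩
  rw [← hτ] at hpair hF3 hcl
  rw [← hc] at hcl ht19
  have hnum : (c = 8 ∧ τ = 456) ∨ (c = 4 ∧ τ = 912) := by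
    generalize Nat.card (MulAction.fixedBy (G ⧸ N) t) = F at *
    generalize Nat.card {g : G // IsConj t g ∧ g ∈ N} = m at *
    have hF : F = 4 := by
      have hF6 : F ≤ 6 := by omega
      interval_cases F <;> omega
    subst hF
    have hτm : τ = 24 * m := by omega
    subst hτm
    have hmc : m * c = 152 := by nlinarith
    have h19m : 19 ∣ m := by
      have h1 : 19 ∣ m * c := by rw [hmc]; norm_num
      rcases (Nat.Prime.dvd_mul (by norm_num)).mp h1 with h2 | h2
      · exact h2
      · exact absurd h2 ht19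
    obtain ⟨k, rfl⟩ := h19m
    have hk : k = 1 ∨ k = 2 := by omega
    rcases hk with rfl | rfl
    · left; omega
    · right; omega
  -- pointwise bound
  have hpt : ∀ g : G, (if g = 1 then τ else Nat.card (Subgroup.centralizer ({g} : Set G))) +
      77 * (if orderOf g = 19 then 1 else 0) + (96 - c) * (if IsConj t g then 1 else 0) ≤
      96 + (if g = 1 then τ - 96 else 0) := by
    intro g
    by_cases hg1 : g = 1
    · subst hg1
      have h1 : ¬ IsConj t 1 := by
        intro hcon
        have := hTord 1 hcon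
        rw [orderOf_one] at this
        omega
      rw [if_pos rfl, if_pos rfl, if_neg (by rw [orderOf_one]; norm_num), if_neg h1]
      rcases hnum with ⟨_, h2⟩ | ⟨_, h2⟩ <;> omega
    · rw [if_neg hg1, if_neg hg1]
      by_cases hg19 : orderOf g = 19
      · have h1 : ¬ IsConj t g := by
          intro hcon
          have := hTord g hcon
          omega
        rw [if_pos hg19, if_neg h1, hcent19 g hg19]
        omega
      · rw [if_neg hg19]
        by_cases hgT : IsConj t g
        · rw [if_pos hgT, card_centralizer_of_isConj hgT, ← hc]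
          rcases hnum with ⟨h2, _⟩ | ⟨h2, _⟩ <;> omega
        · rw [if_neg hgT]
          have := hcent g hg1 hg19
          omega
  have hsum := Finset.sum_le_sum (fun g (_ : g ∈ (Finset.univ : Finset G)) => hpt g)
  rw [Finset.sum_add_distrib, Finset.sum_add_distrib, Finset.sum_add_distrib, ← Finset.mul_sum,
    ← Finset.mul_sum, sum_ite_eq_card, sum_ite_eq_card, ← hτ, Finset.sum_const,
    Finset.sum_ite_eq' Finset.univ (1 : G) (fun _ => τ - 96), if_pos (Finset.mem_univ _),
    Finset.card_univ, ← Nat.card_eq_fintype_card, h, smul_eq_mul] at hsum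
  rcases hnum with ⟨rfl, rfl⟩ | ⟨rfl, rfl⟩
  · omega
  · omega

end Cfsg.Agent.S0974
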