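import Cfsg.Statements.S0975
import Mathlib
import Cfsg.Agent.Helper23.InvPairs
import Cfsg.Agent.Helper23.ExcChar

set_option autoImplicit false
open Cfsg

namespace Cfsg.Agent.S0975

open Cfsg.Agent.Helper23.SimpleOrd Cfsg.Agent.Helper23.FixTools Cfsg.Agent.Helper23.InvPairs
open Cfsg.Agent.Helper23.ExcChar Cfsg.Agent.Helper25

/-- A simple group whose order is not prime is perfect. -/
lemma commutator_eq_top {G : Type*} [Group G] [Finite G] [IsSimpleGroup G]
    (h : ¬ (Nat.card G).Prime) : commutator G = ⊤ := by
  rcases IsSimpleGroup.eq_bot_or_eq_top_of_normal (commutator G) inferInstance with h1 | h1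
  · exact absurd ((commutator_eq_bot_iff G).mp h1) (not_comm_of_card h)
  · exact h1

/-- A nontrivial irreducible character of a perfect group is not linear. -/
lemma degree_ne_one {G : Type*} [Group G] [Finite G] (hperf : commutator G = ⊤)
    (X : IrrCharacter G) (hX : X ≠ triv G) : charDegree (X : G → ℂ) ≠ 1 := by
  intro h1
  apply hX
  have h2 : (X : G → ℂ) 1 = 1 := by rw [irr_one_eq_degree, h1, Nat.cast_one]
  apply Subtype.ext
  funext g
  exact irr_linear_commutator X h2 (hperf ▸ Subgroup.mem_top g)

/-- The degree of an irreducible character divides the group order and its square is at most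
the group order. -/
lemma degree_bounds {G : Type*} [Group G] [Finite G] (X : IrrCharacter G) :
    charDegree (X : G → ℂ) ∣ Nat.card G ∧ charDegree (X : G → ℂ) ^ 2 ≤ Nat.card G := by
  classical
  haveI : Fintype G := Fintype.ofFinite G
  refine ⟨irr_degree_dvd_card X, ?_⟩
  rw [← sum_irr_degree_sq_nat (G := G)]
  exact Finset.single_le_sum (f := fun χ : IrrCharacter G => charDegree (χ : G → ℂ) ^ 2)
    (fun _ _ => Nat.zero_le _) (Finset.mem_univ X)

theorem result {G : Type*} [Group G] [Finite G] [IsSimpleGroup G] : Nat.card G ≠ 3744 := by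
  intro h
  haveI : Fact (Nat.Prime 13) := ⟨by norm_num⟩
  have hG13 : Nat.card G ≠ 13 := by rw [h]; norm_num
  have hperf : commutator G = ⊤ := commutator_eq_top (by rw [h]; norm_num)
  obtain ⟨P⟩ : Nonempty (Sylow 13 G) := inferInstance
  have hP : Nat.card (P : Subgroup G) = 13 :=
    sylow_card_eq P (m := 288) (by rw [h]) (by norm_num)
  have hd : Nat.card (Sylow 13 G) ∣ 288 :=
    card_sylow_dvd_of_eq P (k := 13) (by rw [h]) hP (by norm_num)
  have hm : Nat.card (Sylow 13 G) ≡ 1 [MOD 13] := card_sylow_modEq_one 13 G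
  have h1 : Nat.card (Sylow 13 G) ≠ 1 := card_sylow_ne_one P hP hG13
  have hn : Nat.card (Sylow 13 G) = 144 := by
    have hle : Nat.card (Sylow 13 G) ≤ 288 := Nat.le_of_dvd (by norm_num) hd
    generalize Nat.card (Sylow 13 G) = n at *
    unfold Nat.ModEq at hm
    obtain ⟨t, ht⟩ : ∃ t, n = 13 * t + 1 := ⟨n / 13, by omega⟩
    have ht6 : t ≤ 22 := by omega
    subst ht
    interval_cases t <;> omega
  obtain ⟨hNne, hidx, hNn, hrel, hrel1, hrelmul, hPC⟩ := setup P hP hG13
  rw [hn, h] at hNn
  have hNcard : Nat.card (Subgroup.normalizer ((P : Subgroup G) : Set G)) = 26 := by omega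
  rw [hNcard] at hrelmul
  rw [hP] at hPC
  have hCcard : Nat.card (Subgroup.centralizer ((P : Subgroup G) : Set G)) = 13 := by
    have hle : (Subgroup.centralizer ((P : Subgroup G) : Set G)).relIndex
        (Subgroup.normalizer ((P : Subgroup G) : Set G)) ≤ 12 :=
      Nat.le_of_dvd (by norm_num) hrel
    generalize (Subgroup.centralizer ((P : Subgroup G) : Set G)).relIndex
        (Subgroup.normalizer ((P : Subgroup G) : Set G)) = i at *
    generalize (P : Subgroup G).relIndex (Subgroup.centralizer ((P : Subgroup G) : Set G)) = j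
      at *
    generalize Nat.card (Subgroup.centralizer ((P : Subgroup G) : Set G)) = c at *
    subst hPC
    interval_cases i <;> omega
  have hC : Subgroup.centralizer ((P : Subgroup G) : Set G) = (P : Subgroup G) :=
    (Subgroup.eq_of_le_of_card_ge (le_centralizer_of_card_prime P hP)
      (by rw [hCcard, hP])).symm
  obtain ⟨X, Y, hX, hY, hXY, halt⟩ := exc_two_degrees 13 (by norm_num) (P : Subgroup G) hP hC
    (by rw [hNcard])
  obtain ⟨hXd, hXs⟩ := degree_bounds X
  obtain ⟨hYd, hYs⟩ := degree_bounds Y
  have hX1 := degree_ne_one hperf X hX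
  rw [h] at hXd hXs hYd hYs
  generalize charDegree (X : G → ℂ) = x at *
  generalize charDegree (Y : G → ℂ) = y at *
  have hx : x ≤ 61 := by nlinarith
  have hy : y ≤ 61 := by nlinarith
  rcases halt with h2 | h2
  · interval_cases x <;> omega
  · subst hXY
    interval_cases x <;> omega

end Cfsg.Agent.S0975
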