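import Cfsg.Statements.S0979
import Mathlib
import Cfsg.Agent.Helper23.InvPairs
import Cfsg.Agent.Helper23.ExcChar
import Cfsg.Agent.Helper23.ExcGen
import Cfsg.Agent.Helper23.ExcThree
import Cfsg.Agent.Helper23.ExcPick
import Cfsg.Agent.S0975

set_option autoImplicit false
open Cfsg

namespace Cfsg.Agent.S0979

open Cfsg.Agent.Helper23.SimpleOrd Cfsg.Agent.Helper23.FixTools Cfsg.Agent.Helper23.InvPairs
open Cfsg.Agent.Helper23.ExcChar Cfsg.Agent.Helper25 Cfsg.Agent.Helper23.ExcGen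
open Cfsg.Agent.Helper23.ExcThree Cfsg.Agent.Helper23.ExcPick

/-- No finite simple group has order 5472 = 2^5 * 3^2 * 19. -/
theorem result {G : Type*} [Group G] [Finite G] [IsSimpleGroup G] : Nat.card G ≠ 5472 := by
  intro h
  classical
  haveI : Fact (Nat.Prime 19) := ⟨by norm_num⟩
  have hG19 : Nat.card G ≠ 19 := by rw [h]; norm_num
  have hperf : commutator G = ⊤ := Cfsg.Agent.S0975.commutator_eq_top (by rw [h]; norm_num)
  obtain ⟨P⟩ : Nonempty (Sylow 19 G) := inferInstance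
  have hP : Nat.card (P : Subgroup G) = 19 :=
    sylow_card_eq P (m := 288) (by rw [h]) (by norm_num)
  have hd : Nat.card (Sylow 19 G) ∣ 288 :=
    card_sylow_dvd_of_eq P (k := 19) (by rw [h]) hP (by norm_num)
  have hm : Nat.card (Sylow 19 G) ≡ 1 [MOD 19] := card_sylow_modEq_one 19 G
  have h1 : Nat.card (Sylow 19 G) ≠ 1 := card_sylow_ne_one P hP hG19
  have hn : Nat.card (Sylow 19 G) = 96 := by
    have hle : Nat.card (Sylow 19 G) ≤ 288 := Nat.le_of_dvd (by norm_num) hd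
    generalize Nat.card (Sylow 19 G) = n at *
    unfold Nat.ModEq at hm
    obtain ⟨t, ht⟩ : ∃ t, n = 19 * t + 1 := ⟨n / 19, by omega⟩
    have ht6 : t ≤ 15 := by omega
    subst ht
    interval_cases t <;> omega
  obtain ⟨hNne, hidx, hNn, hrel, hrel1, hrelmul, hPC⟩ := setup P hP hG19
  rw [hn, h] at hNn
  have hNcard : Nat.card (Subgroup.normalizer ((P : Subgroup G) : Set G)) = 57 := by omega
  rw [hNcard] at hrelmul
  rw [hP] at hPC
  have hCcard : Nat.card (Subgroup.centralizer ((P : Subgroup G) : Set G)) = 19 := by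
    have hle : (Subgroup.centralizer ((P : Subgroup G) : Set G)).relIndex
        (Subgroup.normalizer ((P : Subgroup G) : Set G)) ≤ 18 :=
      Nat.le_of_dvd (by norm_num) hrel
    generalize (Subgroup.centralizer ((P : Subgroup G) : Set G)).relIndex
        (Subgroup.normalizer ((P : Subgroup G) : Set G)) = i at *
    generalize (P : Subgroup G).relIndex (Subgroup.centralizer ((P : Subgroup G) : Set G)) = j
      at *
    generalize Nat.card (Subgroup.centralizer ((P : Subgroup G) : Set G)) = c at *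
    subst hPC
    interval_cases i <;> omega
  have hC : Subgroup.centralizer ((P : Subgroup G) : Set G) = (P : Subgroup G) :=
    (Subgroup.eq_of_le_of_card_ge (le_centralizer_of_card_prime P hP)
      (by rw [hCcard, hP])).symm
  obtain ⟨J, instJ, c, hJ, hone, hsq, hpair, hdeg, hcong, hfib⟩ :=
    exc_family 19 3 (by norm_num) (P : Subgroup G) hP hC (by rw [hNcard])
  have hJ' : Fintype.card J = 18 := by rw [hJ]
  have hsq' : ∀ ν, ∑ ψ : IrrCharacter G, c ν ψ ^ 2 = 4 := fun ν => by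
    rw [hsq ν]; norm_num
  have hpair' : ∀ ν ν', ∑ ψ : IrrCharacter G, c ν ψ * c ν' ψ = 3 ∨ c ν = c ν' := fun ν ν' => by
    have := hpair ν ν'
    push_cast at this
    exact this
  -- five pairwise distinct vectors
  obtain ⟨ν0⟩ : Nonempty J := Fintype.card_pos_iff.mp (by rw [hJ']; norm_num)
  obtain ⟨ν1, k1⟩ := exists_new c 3 hfib [ν0] (by rw [hJ']; simp)
  obtain ⟨ν2, k2⟩ := exists_new c 3 hfib [ν0, ν1] (by rw [hJ']; simp)
  obtain ⟨ν3, k3⟩ := exists_new c 3 hfib [ν0, ν1, ν2] (by rw [hJ']; simp)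
  obtain ⟨ν4, k4⟩ := exists_new c 3 hfib [ν0, ν1, ν2, ν3] (by rw [hJ']; simp)
  have hd1 : (charDegree (triv G : G → ℂ) : ℤ) = 1 := by
    have h1 := irr_one_eq_degree (triv G)
    rw [triv_apply] at h1
    exact_mod_cast h1.symm
  obtain ⟨X, Y, Z, hX, hY, hZ, hXY, hXZ, hYZ, hXv, hYv, hZv, hXYc, hZc, heq⟩ :=
    exc_three (I := IrrCharacter G) (triv G) (fun ψ => (charDegree (ψ : G → ℂ) : ℤ)) hd1 c
      hone hsq' hpair' hdeg ν0 ν1 ν2 ν3 ν4
      (k1 ν0 (by simp)) (k2 ν0 (by simp)) (k3 ν0 (by simp)) (k4 ν0 (by simp))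
      (k2 ν1 (by simp)).symm (k3 ν1 (by simp)).symm (k4 ν1 (by simp)).symm
      (k3 ν2 (by simp)).symm (k4 ν2 (by simp)).symm (k4 ν3 (by simp)).symm
  -- congruences for the degrees
  obtain ⟨MX, hMX⟩ := hcong X
  obtain ⟨MY, hMY⟩ := hcong Y
  obtain ⟨MZ, hMZ⟩ := hcong Z
  have sX : ∑ ν, c ν X = 18 * c ν0 X := by
    rw [Finset.sum_congr rfl (fun ν _ => (hXYc ν).1), Finset.sum_const, Finset.card_univ, hJ']
    simp
  have sY : ∑ ν, c ν Y = 18 * c ν0 Y := by
    rw [Finset.sum_congr rfl (fun ν _ => (hXYc ν).2), Finset.sum_const, Finset.card_univ, hJ']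
    simp
  have sZ : ∑ ν, c ν Z = 3 * c ν0 Z := by
    have := sum_fibre c 3 ν0 (hfib ν0) (fun ν => c ν Z) (c ν0 Z)
      (fun ν hν => by rw [hν]) hZc
    rw [this]; norm_num
  rw [sX] at hMX
  rw [sY] at hMY
  rw [sZ] at hMZ
  obtain ⟨hXd, hXs⟩ := Cfsg.Agent.S0975.degree_bounds X
  obtain ⟨hYd, hYs⟩ := Cfsg.Agent.S0975.degree_bounds Y
  obtain ⟨hZd, hZs⟩ := Cfsg.Agent.S0975.degree_bounds Z
  have hX1 := Cfsg.Agent.S0975.degree_ne_one hperf X hX
  have hY1 := Cfsg.Agent.S0975.degree_ne_one hperf Y hY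
  have hZ1 := Cfsg.Agent.S0975.degree_ne_one hperf Z hZ
  rw [h] at hXd hXs hYd hYs hZd hZs
  obtain ⟨ea, ex⟩ := deg_xy _ _ _ hXv hMX hXd hXs hX1
  obtain ⟨eb, ey⟩ := deg_xy _ _ _ hYv hMY hYd hYs hY1
  have ez := deg_z _ _ _ hZv hMZ hZd hZs hZ1
  rw [ea, eb, ex, ey] at heq
  rcases ez with ⟨es, ez⟩ | ⟨es, ez⟩
  · rw [es, ez] at heq
    norm_num at heq
  · rw [es, ez] at heq
    norm_num at heq

end Cfsg.Agent.S0979
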