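import Cfsg.Statements.S1313
import Mathlib
import Cfsg.Agent.Helper10.Layer

set_option autoImplicit false
open Cfsg

namespace Cfsg.Agent.S1313

/-- For a finite group H, |H| ≤ |F*(H)|!. -/
theorem result {H : Type*} [Group H] [Finite H] : Nat.card H ≤ Nat.factorial (Nat.card ↥(Cfsg.generalizedFittingSubgroup H)) := by
  have hNn : (Cfsg.generalizedFittingSubgroup H).Normal := Cfsg.Agent.Helper10.gfitting_normal H
  let φ : H →* Equiv.Perm ↥(Cfsg.generalizedFittingSubgroup H) :=
    (MulAut.toPerm ↥(Cfsg.generalizedFittingSubgroup H)).comp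
      (MulAut.conjNormal (H := Cfsg.generalizedFittingSubgroup H))
  have hφ : ∀ (h : H) (n : ↥(Cfsg.generalizedFittingSubgroup H)),
      ((φ h n : ↥(Cfsg.generalizedFittingSubgroup H)) : H) = h * n * h⁻¹ := by
    intro h n
    rfl
  have hker : ∀ k ∈ φ.ker, k ∈ Cfsg.generalizedFittingSubgroup H := by
    intro k hk
    apply Cfsg.Agent.Helper10.centralizer_gfitting_le H
    rw [Subgroup.mem_centralizer_iff]
    intro n hn
    have h1 : φ k ⟨n, hn⟩ = ⟨n, hn⟩ := by rw [MonoidHom.mem_ker.mp hk]; rfl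
    have h2 := congrArg Subtype.val h1
    rw [hφ] at h2
    have h3 : k * n * k⁻¹ = n := h2
    calc n * k = (k * n * k⁻¹) * k := by rw [h3]
      _ = k * n := by group
  let Ψ : ↥φ.ker × ↥φ.range → Equiv.Perm ↥(Cfsg.generalizedFittingSubgroup H) :=
    fun kr => Equiv.mulLeft (⟨(kr.1 : H), hker _ kr.1.2⟩ : ↥(Cfsg.generalizedFittingSubgroup H)) *
      (kr.2 : Equiv.Perm ↥(Cfsg.generalizedFittingSubgroup H))
  have hfix : ∀ σ : ↥φ.range, (σ : Equiv.Perm ↥(Cfsg.generalizedFittingSubgroup H)) 1 = 1 := by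
    rintro ⟨σ, h, rfl⟩
    apply Subtype.ext
    rw [hφ]
    simp
  have hΨ : Function.Injective Ψ := by
    rintro ⟨k, σ⟩ ⟨k', σ'⟩ hEq
    have h1 := congrArg (fun f : Equiv.Perm ↥(Cfsg.generalizedFittingSubgroup H) => f 1) hEq
    simp only [Ψ, Equiv.Perm.coe_mul, Function.comp_apply, hfix, Equiv.coe_mulLeft, mul_one] at h1
    have hk : k = k' := by
      have h1' : (k : H) = k' :=
        congrArg (fun n : ↥(Cfsg.generalizedFittingSubgroup H) => (n : H)) h1
      exact Subtype.ext h1'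
    subst hk
    have h2 : (σ : Equiv.Perm ↥(Cfsg.generalizedFittingSubgroup H)) = σ' := by
      exact mul_left_cancel hEq
    have hσ : σ = σ' := Subtype.ext h2
    rw [hσ]
  have hcard : Nat.card H = Nat.card (↥φ.ker × ↥φ.range) := by
    rw [Nat.card_prod, Subgroup.card_eq_card_quotient_mul_card_subgroup φ.ker,
      Nat.card_congr (QuotientGroup.quotientKerEquivRange φ).toEquiv, mul_comm]
  rw [hcard, ← Nat.card_perm]
  exact Nat.card_le_card_of_injective Ψ hΨ

end Cfsg.Agent.S1313
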