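import Cfsg.Statements.S1338
import Mathlib
import Cfsg.Agent.Helper10.NormE4
import Cfsg.Agent.Helper1.RankFour
import Cfsg.Agent.Helper20.Jordan3
-- import your own Cfsg.Agent.* helpers here

set_option autoImplicit false
open Cfsg

namespace Cfsg.Agent.S1338

theorem rtg_symm_of_symm {α : Type*} {r : α → α → Prop} (hs : ∀ a b, r a b → r b a) {a b : α}
    (h : Relation.ReflTransGen r a b) : Relation.ReflTransGen r b a := by
  induction h with
  | refl => exact Relation.ReflTransGen.refl
  | tail _ hbc ih => exact Relation.ReflTransGen.head (hs _ _ hbc) ih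

/-- a nontrivial normal subgroup of a `p`-group contains a nontrivial central element -/
theorem exists_central_of_normal {P : Type*} [Group P] [Finite P] {p : ℕ} [Fact p.Prime]
    (hP : IsPGroup p P) (A : Subgroup P) [hAn : A.Normal] (hA : A ≠ ⊥) :
    ∃ z ∈ A, z ≠ 1 ∧ ∀ g : P, g * z * g⁻¹ = z := by
  classical
  have hdvd : p ∣ Nat.card A := by
    obtain ⟨k, hk⟩ := IsPGroup.iff_card.mp (hP.to_subgroup A)
    rcases k with _ | k
    · exfalso
      apply hA
      exact Subgroup.eq_bot_of_card_eq A (by simpa using hk)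
    · rw [hk]; exact dvd_pow_self p (Nat.succ_ne_zero k)
  have hfix : (1 : A) ∈ MulAction.fixedPoints (ConjAct P) A := by
    intro g
    apply Subtype.ext
    rw [ConjAct.Subgroup.val_conj_smul]
    simp
  obtain ⟨b, hb, hb1⟩ :=
    (hP.of_equiv ConjAct.toConjAct).exists_fixed_point_of_prime_dvd_card_of_fixed_point A hdvd hfix
  refine ⟨b.1, b.2, fun h => hb1 (Subtype.ext h).symm, fun g => ?_⟩
  have h1 := hb (ConjAct.toConjAct g)
  have h2 := congrArg Subtype.val h1
  rw [ConjAct.Subgroup.val_conj_smul, ConjAct.smul_def] at h2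
  simpa using h2

/-- key: in a `3`-group with a normal elementary abelian subgroup of order `81`, the centralizer
of every elementary abelian subgroup of order at least `9` contains an elementary abelian subgroup
of order greater than `9`. -/
theorem key_centralizer {P : Type*} [Group P] [Finite P] (hP : IsPGroup 3 P)
    (A : Subgroup P) (hAn : A.Normal) (hAc : ∀ a ∈ A, ∀ b ∈ A, a * b = b * a)
    (hAe : ∀ a ∈ A, a ^ 3 = 1) (hAcard : Nat.card A = 3 ^ 4)
    (X : Subgroup P) (hX : Cfsg.IsElementaryAbelian 3 X) (hXcard : 3 ^ 2 ≤ Nat.card X) :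
    ∃ F : Subgroup P, Cfsg.IsElementaryAbelian 3 F ∧ 3 ^ 2 < Nat.card F ∧
      F ≤ Subgroup.centralizer (X : Set P) := by
  classical
  haveI : Fact (Nat.Prime 3) := ⟨Nat.prime_three⟩
  have hXcomm := Cfsg.Agent.Helper10.IsElementaryAbelian_comm hX
  have hAea : Cfsg.IsElementaryAbelian 3 A := Cfsg.Agent.Helper10.isElementaryAbelian_of_forall A hAc hAe
  set C : Subgroup P := A ⊓ Subgroup.centralizer (X : Set P) with hCdef
  have hC : Cfsg.IsElementaryAbelian 3 C :=
    Cfsg.Agent.Helper10.isElementaryAbelian_of_le hAea inf_le_left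
  have hF : Cfsg.IsElementaryAbelian 3 (X ⊔ C) :=
    Cfsg.Agent.Helper10.isElementaryAbelian_sup hX hC
      (fun a ha b hb => Subgroup.mem_centralizer_iff.mp (Subgroup.mem_inf.mp hb).2 a ha)
  have hFle : X ⊔ C ≤ Subgroup.centralizer (X : Set P) :=
    sup_le (fun x hx => Subgroup.mem_centralizer_iff.mpr (fun y hy => hXcomm y hy x hx)) inf_le_right
  refine ⟨X ⊔ C, hF, ?_, hFle⟩
  by_cases hX9 : Nat.card X = 9
  · -- need `C ≰ X`
    have hnot : ¬ C ≤ X := by
      intro hCX
      -- `C ≠ ⊥`
      have hAne : A ≠ ⊥ := by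
        intro h
        rw [h, Subgroup.card_bot] at hAcard
        norm_num at hAcard
      obtain ⟨z, hzA, hz1, hzc⟩ := exists_central_of_normal hP A hAne
      have hzC : z ∈ C := by
        refine Subgroup.mem_inf.mpr ⟨hzA, ?_⟩
        rw [Subgroup.mem_centralizer_iff]
        intro y _
        have := hzc y
        calc y * z = (y * z * y⁻¹) * y := by group
          _ = z * y := by rw [this]
      have hCne : C ≠ ⊥ := by
        intro h
        rw [h, Subgroup.mem_bot] at hzC
        exact hz1 hzC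
      have hC3 : 3 ≤ Nat.card C := by
        obtain ⟨k, hk⟩ := IsPGroup.iff_card.mp (hP.to_subgroup C)
        rcases k with _ | k
        · exfalso
          apply hCne
          exact Subgroup.eq_bot_of_card_eq C (by simpa using hk)
        · rw [hk]
          calc 3 = 3 ^ 1 := by norm_num
            _ ≤ 3 ^ (k + 1) := Nat.pow_le_pow_right (by norm_num) (by omega)
      by_cases hXA : X ≤ A
      · -- then `A ≤ C ≤ X`
        have hAC : A ≤ C := by
          intro a ha
          refine Subgroup.mem_inf.mpr ⟨ha, ?_⟩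
          rw [Subgroup.mem_centralizer_iff]
          intro y hy
          exact hAc y (hXA hy) a ha
        have := Subgroup.card_le_of_le (hAC.trans hCX)
        rw [hAcard, hX9] at this
        norm_num at this
      · obtain ⟨x, hxX, hxA⟩ := SetLike.not_le_iff_exists.mp hXA
        set D : Subgroup P := X ⊓ A with hDdef
        have hCD : C ≤ D := le_inf hCX inf_le_left
        have hD3 : 3 ≤ Nat.card D := hC3.trans (Subgroup.card_le_of_le hCD)
        set Y : Subgroup P := Subgroup.zpowers x ⊔ D with hYdef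
        have hYX : Y ≤ X := sup_le (Subgroup.zpowers_le.mpr hxX) inf_le_left
        have hDY : D ≤ Y := le_sup_right
        have hxY : x ∈ Y := Subgroup.mem_sup_left (Subgroup.mem_zpowers x)
        have hDltY : Nat.card D < Nat.card Y := by
          by_contra hle
          push Not at hle
          have := Subgroup.eq_of_le_of_card_ge hDY hle
          rw [← this] at hxY
          exact hxA (Subgroup.mem_inf.mp hxY).2
        have hYdvd : Nat.card Y ∣ 3 ^ 2 := by
          have := Subgroup.card_dvd_of_le hYX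
          rw [hX9] at this
          exact this
        obtain ⟨k, hk, hYk⟩ := (Nat.dvd_prime_pow Nat.prime_three).mp hYdvd
        have hY9 : Nat.card Y = 9 := by
          rw [hYk] at hDltY ⊢
          interval_cases k <;> omega
        have hYeq : Y = X := Subgroup.eq_of_le_of_card_ge hYX (by rw [hY9, hX9])
        -- `A ⊓ C(x) ≤ C`
        have hCx : A ⊓ Subgroup.centralizer ({x} : Set P) ≤ C := by
          intro a ha
          have ha' := Subgroup.mem_inf.mp ha
          refine Subgroup.mem_inf.mpr ⟨ha'.1, ?_⟩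
          have hax : a * x = x * a := Subgroup.mem_centralizer_singleton_iff.mp ha'.2
          have hYcent : Y ≤ Subgroup.centralizer ({a} : Set P) := by
            refine sup_le (Subgroup.zpowers_le.mpr ?_) ?_
            · rw [Subgroup.mem_centralizer_singleton_iff]; exact hax.symm
            · intro d hd
              rw [Subgroup.mem_centralizer_singleton_iff]
              exact hAc d (Subgroup.mem_inf.mp hd).2 a ha'.1
          rw [Subgroup.mem_centralizer_iff]
          intro y hy
          have hyY : y ∈ Y := by rw [hYeq]; exact hy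
          exact Subgroup.mem_centralizer_singleton_iff.mp (hYcent hyY)
        have hJ := Cfsg.Agent.Helper20.Jordan3.nine_le_card_inf_centralizer A hAc hAe
          (by rw [hAcard]; norm_num) x (hX.2 x hxX)
        have h1 := Subgroup.card_le_of_le hCx
        have h2 := Subgroup.card_le_of_le hCD
        have h3 : Nat.card D < 9 := by rw [← hY9]; exact hDltY
        omega
    by_contra hle
    push Not at hle
    have hXeq : X = X ⊔ C := Subgroup.eq_of_le_of_card_ge le_sup_left (by rw [hX9]; exact hle)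
    apply hnot
    rw [hXeq]
    exact le_sup_right
  · have h1 := Subgroup.card_le_of_le (le_sup_left : X ≤ X ⊔ C)
    have h2 : 9 < Nat.card X := by
      have : (3 : ℕ) ^ 2 = 9 := by norm_num
      omega
    calc 3 ^ 2 = 9 := by norm_num
      _ < Nat.card X := h2
      _ ≤ Nat.card ↥(X ⊔ C) := h1

/-- A finite 3-group of 3-rank at least 4 is 2-connected for the prime 3: its commuting graph on elementary abelian subgroups of order ≥ 9 is connected. -/
theorem result {P : Type*} [Group P] [Finite P] (hP : IsPGroup 3 P) (hrk : ¬ Cfsg.PRankLE 3 3 P) : Cfsg.IsKConnected 3 2 P := by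
  classical
  haveI : Fact (Nat.Prime 3) := ⟨Nat.prime_three⟩
  have hrk' := hrk
  unfold Cfsg.PRankLE at hrk'
  push Not at hrk'
  obtain ⟨E₀, hE₀c, hE₀e, hE₀card⟩ := hrk'
  obtain ⟨k, hk⟩ := IsPGroup.iff_card.mp (hP.to_subgroup E₀)
  have hk4 : 4 ≤ k := by
    by_contra hlt
    have hk3 : k ≤ 3 := by omega
    have : Nat.card E₀ ≤ 3 ^ 3 := by rw [hk]; exact Nat.pow_le_pow_right (by norm_num) hk3
    omega
  obtain ⟨E₁, hE₁⟩ := Sylow.exists_subgroup_card_pow_prime 3
    (show 3 ^ 4 ∣ Nat.card E₀ from by rw [hk]; exact pow_dvd_pow 3 hk4)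
  have hEcard : Nat.card (E₁.map E₀.subtype) = 3 ^ 4 := by
    rw [Subgroup.card_map_of_injective (Subgroup.subtype_injective _)]; exact hE₁
  have hEle : E₁.map E₀.subtype ≤ E₀ := Subgroup.map_subtype_le E₁
  have hEc : ∀ x ∈ E₁.map E₀.subtype, ∀ y ∈ E₁.map E₀.subtype, x * y = y * x := by
    intro x hx y hy
    have := hE₀c.is_comm.comm (⟨x, hEle hx⟩ : E₀) ⟨y, hEle hy⟩
    exact congrArg Subtype.val this
  have hEe : ∀ x ∈ E₁.map E₀.subtype, x ^ 3 = 1 := fun x hx => hE₀e x (hEle hx)
  obtain ⟨A, hAn, hAc, hAe, hAcard⟩ :=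
    Cfsg.Agent.Helper1.exists_normal_elem_abelian_four (p := 3) (by norm_num) hP
      (E₁.map E₀.subtype) hEc hEe hEcard
  have hrk2 : ¬ Cfsg.PRankLE 3 2 P := by
    intro h
    have := h A ⟨⟨fun a b => Subtype.ext (hAc a a.2 b b.2)⟩⟩ hAe
    rw [hAcard] at this
    norm_num at this
  obtain ⟨U, -, -, -, hU⟩ := Cfsg.Agent.Helper10.rank_two_connected_criterion 3 hP hrk2
  have hkey : ∀ X : Subgroup P, Cfsg.IsElementaryAbelian 3 X → 3 ^ 2 ≤ Nat.card X →
      ¬ Cfsg.PRankLE 3 2 ↥(Subgroup.centralizer (X : Set P)) := by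
    intro X hX hXc
    exact (Cfsg.Agent.Helper10.not_pRankLE_two_iff 3 (Subgroup.centralizer (X : Set P))).mpr
      (key_centralizer hP A hAn hAc hAe hAcard X hX hXc)
  have hsymm : ∀ A B : Subgroup P, (Cfsg.IsElementaryAbelian 3 A ∧ 3 ^ 2 ≤ Nat.card ↥A ∧
      Cfsg.IsElementaryAbelian 3 B ∧ 3 ^ 2 ≤ Nat.card ↥B ∧ ∀ a ∈ A, ∀ b ∈ B, a * b = b * a) →
      (Cfsg.IsElementaryAbelian 3 B ∧ 3 ^ 2 ≤ Nat.card ↥B ∧
      Cfsg.IsElementaryAbelian 3 A ∧ 3 ^ 2 ≤ Nat.card ↥A ∧ ∀ a ∈ B, ∀ b ∈ A, a * b = b * a) :=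
    fun A B h => ⟨h.2.2.1, h.2.2.2.1, h.1, h.2.1, fun a ha b hb => (h.2.2.2.2 b hb a ha).symm⟩
  intro E E' hE hEc' hE' hE'c
  have h1 := (hU E hE hEc').mpr (hkey E hE hEc')
  have h2 := (hU E' hE' hE'c).mpr (hkey E' hE' hE'c)
  exact h1.trans (rtg_symm_of_symm hsymm h2)

end Cfsg.Agent.S1338
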