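import Cfsg.Statements.S1452
import Mathlib
import Cfsg.Agent.Helper4.NormalE3
-- import your own Cfsg.Agent.* helpers here

set_option autoImplicit false
open Cfsg

namespace Cfsg.Agent.S1452

/-- Let p be an odd prime and R a finite p-group containing an elementary abelian subgroup of order p ^ 3. If E is a normal elementary abelian subgroup of R of order p ^ 2, then E ≤ A for some normal subgroup A of R with C_R(A) = A that contains an elementary abelian subgroup of order p ^ 3. -/
theorem result {R : Type*} [Group R] [Finite R] (p : ℕ) [Fact p.Prime] (hp : p ≠ 2) (hR : IsPGroup p R) (hr : ¬ Cfsg.PRankLE p 2 R)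
    (E : Subgroup R) [E.Normal] (hE : Cfsg.IsElementaryAbelian p E) (hE2 : Nat.card E = p ^ 2) :
    ∃ A : Subgroup R, E ≤ A ∧ A.Normal ∧ Subgroup.centralizer (A : Set R) = A ∧ ¬ Cfsg.PRankLE p 2 A := by
  have hpp : p.Prime := Fact.out
  obtain ⟨B, hBn, hEB, ⟨hBc, hBexp⟩, hBcard⟩ :=
    Cfsg.Agent.Helper4.NormalE3.exists_normal_e3 p hp hR hr E hE hE2
  have hBab : ∀ a ∈ B, ∀ b ∈ B, a * b = b * a := by
    intro a ha b hb
    have := hBc.is_comm.comm (⟨a, ha⟩ : B) ⟨b, hb⟩
    exact congrArg Subtype.val this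
  obtain ⟨A, hBA, hAmax⟩ := Finite.exists_le_maximal
    (p := fun M : Subgroup R => M.Normal ∧ ∀ x ∈ M, ∀ y ∈ M, x * y = y * x)
    (a := B) ⟨hBn, hBab⟩
  obtain ⟨⟨hAn, hAc⟩, hAmax'⟩ := hAmax
  have hcent : Subgroup.centralizer (A : Set R) ≤ A := by
    have := hAn
    apply Cfsg.Agent.Lead.centralizer_le_of_maximal_normal_abelian p hR A hAc
    intro C hCn hCc hAC
    exact le_antisymm (hAmax' ⟨hCn, hCc⟩ hAC) hAC
  refine ⟨A, le_trans hEB hBA, hAn, ?_, ?_⟩
  · apply le_antisymm hcent
    intro a ha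
    rw [Subgroup.mem_centralizer_iff]
    intro g hg
    exact hAc g hg a ha
  · intro hrank
    have h1 := hrank (B.subgroupOf A)
      ⟨⟨fun a b => by
        apply Subtype.ext
        apply Subtype.ext
        exact hBab _ a.2 _ b.2⟩⟩
      (by
        intro a ha
        apply Subtype.ext
        have := hBexp _ (Subgroup.mem_subgroupOf.mp ha)
        simpa using this)
    have h2 : Nat.card (B.subgroupOf A) = Nat.card B :=
      Nat.card_congr (Subgroup.subgroupOfEquivOfLe hBA).toEquiv
    rw [h2, hBcard] at h1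
    have : p ^ 2 < p ^ 3 := Nat.pow_lt_pow_right hpp.one_lt (by norm_num)
    omega

end Cfsg.Agent.S1452
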