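import Cfsg.Statements.S1453
import Mathlib
import Cfsg.Agent.Helper4.NormalE3
import Cfsg.Agent.Helper4.PFour
import Cfsg.Agent.Helper1.Class2
import Cfsg.Agent.Helper1.NormRank2
import Cfsg.Agent.Helper1.Special
-- import your own Cfsg.Agent.* helpers here

set_option autoImplicit false
open Cfsg
open scoped commutatorElement

namespace Cfsg.Agent.S1453

/-- the closure of a commuting set of elements of order dividing `p` is elementary abelian -/
theorem elemAb_closure {G : Type*} [Group G] (p : ℕ) (S : Set G)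
    (hcomm : ∀ a ∈ S, ∀ b ∈ S, a * b = b * a) (hexp : ∀ a ∈ S, a ^ p = 1) :
    Cfsg.IsElementaryAbelian p (Subgroup.closure S) := by
  have h1 : ∀ b ∈ Subgroup.closure S, ∀ s ∈ S, b * s = s * b := by
    intro b hb s hs
    have : Subgroup.closure S ≤ Subgroup.centralizer {s} := by
      rw [Subgroup.closure_le]
      intro a ha
      rw [SetLike.mem_coe, Subgroup.mem_centralizer_singleton_iff]
      exact hcomm a ha s hs
    have := this hb
    rw [Subgroup.mem_centralizer_singleton_iff] at this
    exact this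
  have h2 : ∀ a ∈ Subgroup.closure S, ∀ b ∈ Subgroup.closure S, a * b = b * a := by
    intro a ha b hb
    have : Subgroup.closure S ≤ Subgroup.centralizer {a} := by
      rw [Subgroup.closure_le]
      intro s hs
      rw [SetLike.mem_coe, Subgroup.mem_centralizer_singleton_iff]
      exact (h1 a ha s hs).symm
    have := this hb
    rw [Subgroup.mem_centralizer_singleton_iff] at this
    exact this.symm
  refine ⟨⟨⟨fun a b => Subtype.ext (h2 a a.2 b b.2)⟩⟩, ?_⟩
  intro a ha
  induction ha using Subgroup.closure_induction with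
  | mem x hx => exact hexp x hx
  | one => exact one_pow _
  | mul x y hx hy ihx ihy =>
    rw [(show Commute x y from h2 x hx y hy).mul_pow, ihx, ihy, one_mul]
  | inv x _ ih => rw [inv_pow, ih, inv_one]

/-- a maximal elementary abelian subgroup contains every element of order dividing `p` that
centralises it -/
theorem mem_of_commute {R : Type*} [Group R] (p : ℕ) (E : Subgroup R)
    (hE : Cfsg.IsElementaryAbelian p E)
    (hEmax : ∀ B : Subgroup R, Cfsg.IsElementaryAbelian p B → E ≤ B → B = E)
    (z : R) (hz : z ^ p = 1) (hc : ∀ e ∈ E, z * e = e * z) : z ∈ E := by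
  have hEab : ∀ a ∈ E, ∀ b ∈ E, a * b = b * a := by
    intro a ha b hb
    have := hE.1.is_comm.comm (⟨a, ha⟩ : E) ⟨b, hb⟩
    exact congrArg Subtype.val this
  have hB : Cfsg.IsElementaryAbelian p (Subgroup.closure ((E : Set R) ∪ {z})) := by
    apply elemAb_closure
    · rintro a (ha | ha) b (hb | hb)
      · exact hEab a ha b hb
      · rw [Set.mem_singleton_iff] at hb; subst hb; exact (hc a ha).symm
      · rw [Set.mem_singleton_iff] at ha; subst ha; exact hc b hb
      · rw [Set.mem_singleton_iff] at ha hb; rw [ha, hb]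
    · rintro a (ha | ha)
      · exact hE.2 a ha
      · rw [Set.mem_singleton_iff] at ha; rw [ha]; exact hz
  have hle : E ≤ Subgroup.closure ((E : Set R) ∪ {z}) :=
    fun e he => Subgroup.subset_closure (Or.inl he)
  have := hEmax _ hB hle
  rw [← this]
  exact Subgroup.subset_closure (Or.inr rfl)

/-- a subgroup of index at most `p` meets a subgroup of order `> p²` in at least `p²` elements -/
theorem card_inf_ge {R : Type*} [Group R] [Finite R] {p : ℕ} (hpp : p.Prime) (hR : IsPGroup p R)
    (A C : Subgroup R) [C.Normal] (hidx : C.index ≤ p) (hA : p ^ 2 < Nat.card A) :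
    p ^ 2 ≤ Nat.card (A ⊓ C : Subgroup R) := by
  have hfact : Fact p.Prime := ⟨hpp⟩
  obtain ⟨k, hk⟩ := IsPGroup.iff_card.mp (hR.to_subgroup A)
  have hk3 : 3 ≤ k := by
    by_contra hcon
    have : k ≤ 2 := by omega
    have := Nat.pow_le_pow_right hpp.pos this
    omega
  have hA3 : p ^ 3 ≤ Nat.card A := by
    rw [hk]; exact Nat.pow_le_pow_right hpp.pos hk3
  have hrel : C.relIndex A ≤ p := by
    have h1 : C.relIndex A ∣ C.index := Subgroup.relIndex_dvd_index_of_normal C A
    have hpos : 0 < C.index := Nat.pos_of_ne_zero (Subgroup.index_ne_zero_of_finite)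
    exact le_trans (Nat.le_of_dvd hpos h1) hidx
  have hmul : Nat.card (A ⊓ C : Subgroup R) * C.relIndex A = Nat.card A := by
    have h1 := Subgroup.relIndex_mul_relIndex ⊥ (A ⊓ C) A bot_le inf_le_left
    rw [Subgroup.relIndex_bot_left, Subgroup.relIndex_bot_left, Subgroup.inf_relIndex_left] at h1
    exact h1
  by_contra hlt
  push Not at hlt
  have h1 : Nat.card (A ⊓ C : Subgroup R) * C.relIndex A < p ^ 2 * p := by
    calc Nat.card (A ⊓ C : Subgroup R) * C.relIndex A
        ≤ Nat.card (A ⊓ C : Subgroup R) * p := Nat.mul_le_mul_left _ hrel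
      _ < p ^ 2 * p := Nat.mul_lt_mul_of_pos_right hlt hpp.pos
  rw [hmul] at h1
  have : p ^ 2 * p = p ^ 3 := by ring
  omega

/-- Let p be an odd prime and R a finite p-group with an elementary abelian subgroup of order p ^ 3 and an elementary abelian subgroup E of order p ^ 2 contained in no larger elementary abelian subgroup. Let Z₂ be the second centre of R, W the subgroup generated by the elements of Z₂ of order dividing p, and T = C_R(W). Then E is not contained in T; the elements of order dividing p of the centre of R generate a group of order p; W is elementary abelian of order p ^ 2; and T is characteristic in R of index p. -/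
theorem result {R : Type*} [Group R] [Finite R] (p : ℕ) [Fact p.Prime] (hp : p ≠ 2) (hR : IsPGroup p R) (hr : ¬ Cfsg.PRankLE p 2 R)
    (E : Subgroup R) (hE : Cfsg.IsElementaryAbelian p E) (hE2 : Nat.card E = p ^ 2)
    (hEmax : ∀ B : Subgroup R, Cfsg.IsElementaryAbelian p B → E ≤ B → B = E) :
    ¬ E ≤ Subgroup.centralizer ((Subgroup.closure {x : R | x ∈ Subgroup.upperCentralSeries R 2 ∧ x ^ p = 1} : Subgroup R) : Set R) ∧
      Nat.card ↥(Subgroup.closure {x : R | x ∈ Subgroup.center R ∧ x ^ p = 1}) = p ∧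
      (Cfsg.IsElementaryAbelian p (Subgroup.closure {x : R | x ∈ Subgroup.upperCentralSeries R 2 ∧ x ^ p = 1}) ∧
        Nat.card ↥(Subgroup.closure {x : R | x ∈ Subgroup.upperCentralSeries R 2 ∧ x ^ p = 1}) = p ^ 2) ∧
      (Subgroup.centralizer ((Subgroup.closure {x : R | x ∈ Subgroup.upperCentralSeries R 2 ∧ x ^ p = 1} : Subgroup R) : Set R)).Characteristic ∧
      (Subgroup.centralizer ((Subgroup.closure {x : R | x ∈ Subgroup.upperCentralSeries R 2 ∧ x ^ p = 1} : Subgroup R) : Set R)).index = p := by
  have hpp : p.Prime := Fact.out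
  have hEexp := hE.2
  set Zs := Subgroup.closure {x : R | x ∈ Subgroup.center R ∧ x ^ p = 1} with hZs
  have hZs_mem : ∀ z ∈ Zs, z ∈ Subgroup.center R ∧ z ^ p = 1 := by
    intro z hz
    induction hz using Subgroup.closure_induction with
    | mem x hx => exact hx
    | one => exact ⟨Subgroup.one_mem _, one_pow _⟩
    | mul x y _ _ ihx ihy =>
      refine ⟨mul_mem ihx.1 ihy.1, ?_⟩
      have hc : Commute x y := Subgroup.mem_center_iff.mp ihy.1 x
      rw [hc.mul_pow, ihx.2, ihy.2, one_mul]
    | inv x _ ih => exact ⟨inv_mem ih.1, by rw [inv_pow, ih.2, inv_one]⟩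
  have hZsE : Zs ≤ E := by
    intro z hz
    obtain ⟨hzc, hzp⟩ := hZs_mem z hz
    exact mem_of_commute p E hE hEmax z hzp (fun e _ => (Subgroup.mem_center_iff.mp hzc e).symm)
  -- a large elementary abelian subgroup
  have hr' := hr
  unfold Cfsg.PRankLE at hr'
  push Not at hr'
  obtain ⟨A, hAc, hAexp, hAcard⟩ := hr'
  have hAab : ∀ a ∈ A, ∀ b ∈ A, a * b = b * a := by
    intro a ha b hb
    have := hAc.is_comm.comm (⟨a, ha⟩ : A) ⟨b, hb⟩
    exact congrArg Subtype.val this
  -- a noncentral element of E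
  have hexx : ∃ x ∈ E, x ∉ Subgroup.center R := by
    by_contra hcon
    push Not at hcon
    have hAE : A ≤ E := by
      intro a ha
      exact mem_of_commute p E hE hEmax a (hAexp a ha)
        (fun e he => Subgroup.mem_center_iff.mp (hcon e he) a)
    have := Subgroup.card_le_of_le hAE
    omega
  obtain ⟨x, hxE, hxc⟩ := hexx
  have hxZs : x ∉ Zs := fun h => hxc (hZs_mem x h).1
  have hxp : x ^ p = 1 := hEexp x hxE
  have hZsne : Zs ≠ ⊥ := by
    have htop : (⊤ : Subgroup R) ≠ ⊥ := by
      intro h
      have hx1 : x ∈ (⊥ : Subgroup R) := by rw [← h]; exact Subgroup.mem_top x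
      rw [Subgroup.mem_bot] at hx1
      exact hxc (by rw [hx1]; exact Subgroup.one_mem _)
    obtain ⟨z, -, hz1, hzc⟩ := Cfsg.Agent.Helper1.exists_mem_centerOmega hR ⊤ htop
    intro h
    have : z ∈ Zs := Subgroup.subset_closure ⟨hzc.1, hzc.2⟩
    rw [h, Subgroup.mem_bot] at this
    exact hz1 this
  have hZscard : Nat.card Zs = p := by
    have hdvd : Nat.card Zs ∣ p ^ 2 := by rw [← hE2]; exact Subgroup.card_dvd_of_le hZsE
    obtain ⟨k, hk, hkc⟩ := (Nat.dvd_prime_pow hpp).mp hdvd
    have hk0 : k ≠ 0 := by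
      rintro rfl
      rw [pow_zero] at hkc
      exact hZsne (Subgroup.card_eq_one.mp hkc)
    have hk2 : k ≠ 2 := by
      rintro rfl
      have : Zs = E := Subgroup.eq_of_le_of_card_ge hZsE (by rw [hkc, hE2])
      exact hxZs (this ▸ hxE)
    have : k = 1 := by omega
    rw [hkc, this, pow_one]
  -- commuting with x implies commuting with E
  have hcommE : ∀ a : R, a * x = x * a → ∀ e ∈ E, a * e = e * a := by
    intro a hax
    have hD : E ⊓ Subgroup.centralizer {a} = E := by
      apply Cfsg.Agent.Helper4.SelfCentOdd.eq_of_mem_not_mem (Z := Zs) (w := x) ?_ inf_le_left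
        hZscard hE2 ?_ hxZs
      · intro z hz
        refine Subgroup.mem_inf.mpr ⟨hZsE hz, ?_⟩
        rw [Subgroup.mem_centralizer_singleton_iff]
        exact (Subgroup.mem_center_iff.mp (hZs_mem z hz).1 a).symm
      · refine Subgroup.mem_inf.mpr ⟨hxE, ?_⟩
        rw [Subgroup.mem_centralizer_singleton_iff]
        exact hax.symm
    intro e he
    have h1 : e ∈ E ⊓ Subgroup.centralizer {a} := by rw [hD]; exact he
    have h2 := (Subgroup.mem_inf.mp h1).2
    rw [Subgroup.mem_centralizer_singleton_iff] at h2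
    exact h2.symm
  have hZ2c : ∀ a ∈ Subgroup.upperCentralSeries R 2, ∀ g : R, ⁅a, g⁆ ∈ Subgroup.center R := by
    intro a ha g
    have := Subgroup.mem_upperCentralSeries_succ_iff.mp ha g
    rwa [Subgroup.upperCentralSeries_one] at this
  -- an element of the second centre of order p has centraliser of index at most p
  have hZ2hom : ∀ w ∈ Subgroup.upperCentralSeries R 2, w ^ p = 1 →
      ∃ τ : R →* R, τ.ker = Subgroup.centralizer {w} ∧ τ.range ≤ Zs := by
    intro w hw2 hwp
    have hcen : ∀ g : R, g * w * g⁻¹ * w⁻¹ ∈ Subgroup.center R := by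
      intro g
      have h1 := hZ2c w hw2 g
      have h2 : g * w * g⁻¹ * w⁻¹ = (⁅w, g⁆)⁻¹ := by rw [commutatorElement_def]; group
      rw [h2]; exact inv_mem h1
    obtain ⟨τ, hτ⟩ := Cfsg.Agent.Helper4.PFour.exists_commHom w hcen
    refine ⟨τ, Cfsg.Agent.Helper4.PFour.commHom_ker w τ hτ, ?_⟩
    rintro _ ⟨g, rfl⟩
    apply Subgroup.subset_closure
    rw [hτ]
    refine ⟨hcen g, ?_⟩
    have hcc : Commute (g * w * g⁻¹ * w⁻¹) w := (Subgroup.mem_center_iff.mp (hcen g) w).symm
    have h3 : g * w * g⁻¹ = (g * w * g⁻¹ * w⁻¹) * w := by group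
    have h4 : (g * w * g⁻¹) ^ p = 1 := by rw [conj_pow, hwp]; group
    rw [h3, hcc.mul_pow, hwp, mul_one] at h4
    exact h4
  -- x is not in the second centre
  have hxZ2 : x ∉ Subgroup.upperCentralSeries R 2 := by
    intro hx2
    obtain ⟨τ, hker, hrange⟩ := hZ2hom x hx2 hxp
    have hidx : (Subgroup.centralizer ({x} : Set R)).index ≤ p := by
      rw [← hker, Subgroup.index_ker, ← hZscard]
      exact Subgroup.card_le_of_le hrange
    have hCn : (Subgroup.centralizer ({x} : Set R)).Normal := by
      rw [← hker]; exact MonoidHom.normal_ker τ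
    have hge := card_inf_ge hpp hR A (Subgroup.centralizer ({x} : Set R)) hidx hAcard
    have hle : A ⊓ Subgroup.centralizer ({x} : Set R) ≤ E := by
      intro a ha
      have h1 := (Subgroup.mem_inf.mp ha).2
      rw [Subgroup.mem_centralizer_singleton_iff] at h1
      exact mem_of_commute p E hE hEmax a (hAexp a (Subgroup.mem_inf.mp ha).1) (hcommE a h1)
    have hEq : A ⊓ Subgroup.centralizer ({x} : Set R) = E :=
      Subgroup.eq_of_le_of_card_ge hle (by rw [hE2]; exact hge)
    have hEA : E ≤ A := by rw [← hEq]; exact inf_le_left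
    have hAE : A ≤ E := by
      intro a ha
      exact mem_of_commute p E hE hEmax a (hAexp a ha) (fun e he => hAab a ha e (hEA he))
    have := Subgroup.card_le_of_le hAE
    omega
  -- a normal elementary abelian subgroup of order p², inside the second centre
  have hncyc : ¬ IsCyclic R := by
    intro hcyc
    apply hxc
    rw [Subgroup.mem_center_iff]
    intro y
    obtain ⟨g, hg⟩ := hcyc.exists_generator
    obtain ⟨i, hi⟩ := Subgroup.mem_zpowers_iff.mp (hg x)
    obtain ⟨j, hj⟩ := Subgroup.mem_zpowers_iff.mp (hg y)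
    rw [← hi, ← hj, ← zpow_add, ← zpow_add, add_comm]
  obtain ⟨B, hBn, hBab, hBexp, hBcard⟩ :=
    Cfsg.Agent.Helper1.exists_normal_elem_abelian_sq hp hR hncyc
  have hBZ2 : B ≤ Subgroup.upperCentralSeries R 2 := by
    have hBne : (⊥ : Subgroup R) ≠ B := by
      intro h
      rw [← h, Subgroup.card_bot] at hBcard
      have : 1 < p ^ 2 := Nat.one_lt_pow (by norm_num) hpp.one_lt
      omega
    obtain ⟨B1, hB1n, -, hB1B, hrel⟩ :=
      Cfsg.Agent.Helper1.exists_normal_step hR ⊥ B inferInstance hBn bot_le hBne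
    rw [Subgroup.relIndex_bot_left] at hrel
    have hB1c : B1 ≤ Subgroup.center R :=
      Cfsg.Agent.Helper4.PFour.le_center_of_normal_card_prime hR B1 hrel
    have hrelB : B1.relIndex B = p := by
      have h1 := Subgroup.relIndex_mul_relIndex ⊥ B1 B bot_le hB1B
      rw [Subgroup.relIndex_bot_left, Subgroup.relIndex_bot_left, hrel, hBcard] at h1
      have : p * B1.relIndex B = p * p := by rw [h1]; ring
      exact Nat.eq_of_mul_eq_mul_left hpp.pos this
    have hπ := QuotientGroup.mk'_surjective B1
    have hmn : (B.map (QuotientGroup.mk' B1)).Normal := hBn.map _ hπ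
    have hcardmap : Nat.card (B.map (QuotientGroup.mk' B1)) = p := by
      have h1 := Subgroup.relIndex_comap (⊥ : Subgroup (R ⧸ B1)) (QuotientGroup.mk' B1) B
      rw [MonoidHom.comap_bot, QuotientGroup.ker_mk', Subgroup.relIndex_bot_left] at h1
      rw [← h1]; exact hrelB
    have hmapc := Cfsg.Agent.Helper4.PFour.le_center_of_normal_card_prime (hR.to_quotient B1)
      (B.map (QuotientGroup.mk' B1)) hcardmap
    intro b hb
    rw [Subgroup.mem_upperCentralSeries_succ_iff]
    intro g
    rw [Subgroup.upperCentralSeries_one]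
    apply hB1c
    apply (QuotientGroup.eq_one_iff _).mp
    show QuotientGroup.mk' B1 ⁅b, g⁆ = 1
    rw [map_commutatorElement, commutatorElement_eq_one_iff_commute]
    have := Subgroup.mem_center_iff.mp (hmapc (Subgroup.mem_map_of_mem _ hb))
      (QuotientGroup.mk' B1 g)
    exact this.symm
  -- the subgroup W
  set W := Subgroup.closure {x : R | x ∈ Subgroup.upperCentralSeries R 2 ∧ x ^ p = 1} with hW
  have hWmem : ∀ w ∈ W, w ∈ Subgroup.upperCentralSeries R 2 ∧ w ^ p = 1 := by
    intro w hw
    induction hw using Subgroup.closure_induction with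
    | mem x hx => exact hx
    | one => exact ⟨Subgroup.one_mem _, one_pow _⟩
    | mul a b _ _ iha ihb =>
      refine ⟨mul_mem iha.1 ihb.1, ?_⟩
      have hc := hZ2c b ihb.1 a
      have hcen := Subgroup.mem_center_iff.mp hc
      apply Cfsg.Agent.Helper4.NormalE3.mul_pow_eq_one hpp hp a b iha.2 ihb.2 (hcen a).symm
        (hcen b).symm
      rw [← Cfsg.Agent.Helper1.commutatorElement_pow_left b a (hcen b).symm p, ihb.2,
        commutatorElement_def]
      group
    | inv a _ ih => exact ⟨inv_mem ih.1, by rw [inv_pow, ih.2, inv_one]⟩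
  have hWchar : W.Characteristic := by
    apply Cfsg.Agent.Helper1.closure_characteristic
    intro φ s hs
    refine ⟨?_, by rw [← map_pow, hs.2, map_one]⟩
    have hch : (Subgroup.upperCentralSeries R 2).Characteristic := inferInstance
    have := Subgroup.characteristic_iff_map_eq.mp hch φ
    rw [← this]
    exact Subgroup.mem_map_of_mem _ hs.1
  have hZsW : Zs ≤ W := by
    intro z hz
    apply Subgroup.subset_closure
    obtain ⟨hzc, hzp⟩ := hZs_mem z hz
    refine ⟨?_, hzp⟩
    rw [Subgroup.mem_upperCentralSeries_succ_iff]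
    intro g
    have : ⁅z, g⁆ = 1 := by
      rw [commutatorElement_def, ← Subgroup.mem_center_iff.mp hzc g]; group
    rw [this]; exact Subgroup.one_mem _
  have hBW : B ≤ W := fun b hb => Subgroup.subset_closure ⟨hBZ2 hb, hBexp b hb⟩
  have hxW : x ∉ W := fun h => hxZ2 (hWmem x h).1
  -- elements of W commuting with x lie in Zs
  have hCWx : ∀ w ∈ W, w * x = x * w → w ∈ Zs := by
    intro w hw hwx
    have hwE : w ∈ E := mem_of_commute p E hE hEmax w (hWmem w hw).2 (hcommE w hwx)
    by_contra hwZ
    have hD : E ⊓ W = E :=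
      Cfsg.Agent.Helper4.SelfCentOdd.eq_of_mem_not_mem (Z := Zs) (w := w) (le_inf hZsE hZsW)
        inf_le_left hZscard hE2 (Subgroup.mem_inf.mpr ⟨hwE, hw⟩) hwZ
    have : x ∈ E ⊓ W := by rw [hD]; exact hxE
    exact hxW (Subgroup.mem_inf.mp this).2
  -- the commutator homomorphism W → Zs
  have hφ : ∃ φ : W →* R, ∀ w : W, φ w = (w : R) * x * (w : R)⁻¹ * x⁻¹ := by
    refine ⟨MonoidHom.mk' (fun w : W => (w : R) * x * (w : R)⁻¹ * x⁻¹) ?_, fun w => rfl⟩
    intro a b
    have hc : ∀ t : R, t * ((b : R) * x * (b : R)⁻¹ * x⁻¹) =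
        ((b : R) * x * (b : R)⁻¹ * x⁻¹) * t := by
      have h1 := hZ2c b (hWmem b b.2).1 x
      rw [commutatorElement_def] at h1
      exact Subgroup.mem_center_iff.mp h1
    show ((a * b : W) : R) * x * ((a * b : W) : R)⁻¹ * x⁻¹ = _
    rw [Subgroup.coe_mul]
    calc (a : R) * b * x * ((a : R) * b)⁻¹ * x⁻¹
        = (a : R) * ((b : R) * x * (b : R)⁻¹ * x⁻¹) * (x * (a : R)⁻¹ * x⁻¹) := by group
      _ = ((b : R) * x * (b : R)⁻¹ * x⁻¹) * (a : R) * (x * (a : R)⁻¹ * x⁻¹) := by rw [hc a]
      _ = ((b : R) * x * (b : R)⁻¹ * x⁻¹) * ((a : R) * x * (a : R)⁻¹ * x⁻¹) := by group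
      _ = ((a : R) * x * (a : R)⁻¹ * x⁻¹) * ((b : R) * x * (b : R)⁻¹ * x⁻¹) := (hc _).symm
  obtain ⟨φ, hφ⟩ := hφ
  have hφrange : φ.range ≤ Zs := by
    rintro _ ⟨w, rfl⟩
    apply Subgroup.subset_closure
    rw [hφ]
    have h1 := hZ2c w (hWmem w w.2).1 x
    have hcen := Subgroup.mem_center_iff.mp h1
    have h2 : (w : R) * x * (w : R)⁻¹ * x⁻¹ = ⁅(w : R), x⁆ := by rw [commutatorElement_def]
    rw [h2]
    refine ⟨h1, ?_⟩
    rw [← Cfsg.Agent.Helper1.commutatorElement_pow_left (w : R) x (hcen _).symm p, (hWmem w w.2).2,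
      commutatorElement_def]
    group
  have hφker : φ.ker.map W.subtype ≤ Zs := by
    rintro _ ⟨w, hw, rfl⟩
    have hw' : φ w = 1 := MonoidHom.mem_ker.mp hw
    rw [hφ] at hw'
    apply hCWx _ w.2
    have : (w : R) * x = ((w : R) * x * (w : R)⁻¹ * x⁻¹) * x * w := by group
    show (w : R) * x = x * (w : R)
    rw [this, hw', one_mul]
  have hWcard_le : Nat.card W ≤ p * p := by
    have h1 := Subgroup.card_mul_index φ.ker
    rw [Subgroup.index_ker] at h1
    have h2 : Nat.card φ.ker ≤ p := by
      rw [← hZscard, ← Subgroup.card_map_of_injective (Subgroup.subtype_injective W)]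
      exact Subgroup.card_le_of_le hφker
    have h3 : Nat.card φ.range ≤ p := by
      rw [← hZscard]; exact Subgroup.card_le_of_le hφrange
    rw [← h1]
    exact Nat.mul_le_mul h2 h3
  have hWcard : Nat.card W = p ^ 2 := by
    have h1 := Subgroup.card_le_of_le hBW
    rw [hBcard] at h1
    have : p * p = p ^ 2 := by ring
    omega
  have hWB : B = W := Subgroup.eq_of_le_of_card_ge hBW (by rw [hWcard, hBcard])
  have hWab : ∀ a ∈ W, ∀ b ∈ W, a * b = b * a := by
    intro a ha b hb
    rw [← hWB] at ha hb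
    exact hBab a ha b hb
  -- E is not in T
  have hET : ¬ E ≤ Subgroup.centralizer (W : Set R) := by
    intro hle
    have hx := hle hxE
    rw [Subgroup.mem_centralizer_iff] at hx
    have hWZ : W ≤ Zs := fun w hw => hCWx w hw (hx w hw)
    have := Subgroup.card_le_of_le hWZ
    rw [hWcard, hZscard] at this
    have : p < p ^ 2 := by
      calc p = p ^ 1 := (pow_one p).symm
        _ < p ^ 2 := Nat.pow_lt_pow_right hpp.one_lt (by norm_num)
    omega
  -- index of T
  have hexw : ∃ w ∈ W, w ∉ Zs := by
    by_contra hcon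
    push Not at hcon
    have := Subgroup.card_le_of_le (show W ≤ Zs from hcon)
    rw [hWcard, hZscard] at this
    have : p < p ^ 2 := by
      calc p = p ^ 1 := (pow_one p).symm
        _ < p ^ 2 := Nat.pow_lt_pow_right hpp.one_lt (by norm_num)
    omega
  obtain ⟨w, hwW, hwZ⟩ := hexw
  have hTeq : Subgroup.centralizer (W : Set R) = Subgroup.centralizer {w} := by
    apply le_antisymm
    · intro g hg
      rw [Subgroup.mem_centralizer_iff] at hg
      rw [Subgroup.mem_centralizer_singleton_iff]
      exact (hg w hwW).symm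
    · intro g hg
      rw [Subgroup.mem_centralizer_singleton_iff] at hg
      have hD : W ⊓ Subgroup.centralizer {g} = W := by
        apply Cfsg.Agent.Helper4.SelfCentOdd.eq_of_mem_not_mem (Z := Zs) (w := w) ?_ inf_le_left
          hZscard hWcard ?_ hwZ
        · intro z hz
          refine Subgroup.mem_inf.mpr ⟨hZsW hz, ?_⟩
          rw [Subgroup.mem_centralizer_singleton_iff]
          exact (Subgroup.mem_center_iff.mp (hZs_mem z hz).1 g).symm
        · refine Subgroup.mem_inf.mpr ⟨hwW, ?_⟩
          rw [Subgroup.mem_centralizer_singleton_iff]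
          exact hg.symm
      rw [Subgroup.mem_centralizer_iff]
      intro v hv
      have h1 : v ∈ W ⊓ Subgroup.centralizer {g} := by rw [hD]; exact hv
      have h2 := (Subgroup.mem_inf.mp h1).2
      rw [Subgroup.mem_centralizer_singleton_iff] at h2
      exact h2
  have hTidx : (Subgroup.centralizer (W : Set R)).index = p := by
    obtain ⟨τ, hker, hrange⟩ := hZ2hom w (hWmem w hwW).1 (hWmem w hwW).2
    rw [hTeq, ← hker, Subgroup.index_ker]
    have hdvd : Nat.card τ.range ∣ p := by
      rw [← hZscard]; exact Subgroup.card_dvd_of_le hrange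
    rcases (Nat.dvd_prime hpp).mp hdvd with h1 | h1
    · exfalso
      have h2 : τ.ker.index = 1 := by rw [Subgroup.index_ker]; exact h1
      rw [Subgroup.index_eq_one, hker, ← hTeq] at h2
      apply hET
      rw [h2]; exact le_top
    · exact h1
  refine ⟨hET, hZscard, ⟨⟨⟨⟨fun a b => Subtype.ext (hWab a a.2 b b.2)⟩⟩, fun a ha => (hWmem a ha).2⟩,
    hWcard⟩, ?_, hTidx⟩
  have := hWchar
  infer_instance

end Cfsg.Agent.S1453
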