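import Cfsg.Statements.S1717
import Mathlib

set_option autoImplicit false
open Cfsg

namespace Cfsg.Agent.S1717

open Matrix

abbrev M5 := Matrix (Fin 5) (Fin 5) (ZMod 2)

/-- the middle `3 × 3` block -/
def blk (M : M5) : Matrix (Fin 3) (Fin 3) (ZMod 2) :=
  fun a b => M ⟨a.1 + 2, by omega⟩ ⟨b.1 + 2, by omega⟩

/-- the matrix condition for commuting with the transvection -/
abbrev InC (M : M5) : Prop := M * Matrix.transvection 0 1 1 = Matrix.transvection 0 1 1 * M

theorem inC_commute {M : M5} (h : InC M) : Commute (Matrix.single (0 : Fin 5) (1 : Fin 5) (1 : ZMod 2)) M := by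
  unfold InC Matrix.transvection at h
  rw [mul_add, add_mul, mul_one, one_mul] at h
  exact (add_left_cancel h).symm

theorem inC_col {M : M5} (h : InC M) {k : Fin 5} (hk : k ≠ 0) : M k 0 = 0 :=
  Matrix.col_eq_zero_of_commute_single (inC_commute h) hk

theorem inC_row {M : M5} (h : InC M) {k : Fin 5} (hk : k ≠ 1) : M 1 k = 0 :=
  Matrix.row_eq_zero_of_commute_single (inC_commute h) hk

theorem inC_diag {M : M5} (h : InC M) : M 0 0 = M 1 1 :=
  Matrix.diag_eq_of_commute_single (inC_commute h)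

theorem zmod2_cases : ∀ a : ZMod 2, a = 0 ∨ a = 1 := by decide

theorem inC_00 {M : M5} (h : InC M) (hdet : M.det = 1) : M 0 0 = 1 := by
  rcases zmod2_cases (M 0 0) with h0 | h0
  · exfalso
    have : M.det = 0 := by
      refine Matrix.det_eq_zero_of_column_eq_zero 0 ?_
      intro i
      by_cases hi : i = 0
      · rw [hi]; exact h0
      · exact inC_col h hi
    rw [this] at hdet
    exact zero_ne_one hdet
  · exact h0

theorem blk_one : blk 1 = 1 := by decide

theorem blk_mul {M N : M5} (hM : InC M) (hN : InC N) : blk (M * N) = blk M * blk N := by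
  ext a b
  simp only [blk, Matrix.mul_apply, Fin.sum_univ_five, Fin.sum_univ_three]
  have h1 : M ⟨a.1 + 2, by omega⟩ 0 = 0 := inC_col hM (by
    intro h; have := congrArg Fin.val h; simp at this)
  have h2 : N 1 ⟨b.1 + 2, by omega⟩ = 0 := inC_row hN (by
    intro h; have := congrArg Fin.val h; simp at this)
  rw [h1, h2]
  simp


/-- explicit matrix of an element of the normal 2-subgroup -/
def mkQ (c a2 a3 a4 b2 b3 b4 : ZMod 2) : M5 :=
  !![1, c, a2, a3, a4; 0, 1, 0, 0, 0; 0, b2, 1, 0, 0; 0, b3, 0, 1, 0; 0, b4, 0, 0, 1]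

def mkT (c : ZMod 2) : M5 :=
  !![1, c, 0, 0, 0; 0, 1, 0, 0, 0; 0, 0, 1, 0, 0; 0, 0, 0, 1, 0; 0, 0, 0, 0, 1]

theorem mkQ_sq : ∀ c a2 a3 a4 b2 b3 b4 : ZMod 2,
    mkQ c a2 a3 a4 b2 b3 b4 * mkQ c a2 a3 a4 b2 b3 b4 = mkT (a2 * b2 + a3 * b3 + a4 * b4) := by
  decide +kernel

theorem mkT_sq : ∀ c : ZMod 2, mkT c * mkT c = 1 := by decide +kernel

theorem eq_mkQ {M : M5} (h : InC M) (hdet : M.det = 1) (hb : blk M = 1) :
    M = mkQ (M 0 1) (M 0 2) (M 0 3) (M 0 4) (M 2 1) (M 3 1) (M 4 1) := by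
  have h00 := inC_00 h hdet
  have h11 : M 1 1 = 1 := by rw [← inC_diag h]; exact h00
  have hbl : ∀ a b : Fin 3, M ⟨a.1 + 2, by omega⟩ ⟨b.1 + 2, by omega⟩ = (1 : Matrix (Fin 3) (Fin 3) (ZMod 2)) a b :=
    fun a b => congrFun (congrFun hb a) b
  ext i j
  fin_cases i <;> fin_cases j
  · exact h00
  · rfl
  · rfl
  · rfl
  · rfl
  · exact inC_col h (by decide)
  · exact h11
  · exact inC_row h (by decide)
  · exact inC_row h (by decide)
  · exact inC_row h (by decide)
  · exact inC_col h (by decide)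
  · rfl
  · exact hbl 0 0
  · exact hbl 0 1
  · exact hbl 0 2
  · exact inC_col h (by decide)
  · rfl
  · exact hbl 1 0
  · exact hbl 1 1
  · exact hbl 1 2
  · exact inC_col h (by decide)
  · rfl
  · exact hbl 2 0
  · exact hbl 2 1
  · exact hbl 2 2

theorem pow_four {M : M5} (h : InC M) (hdet : M.det = 1) (hb : blk M = 1) : M ^ 4 = 1 := by
  have e : M ^ 4 = (M * M) * (M * M) := by
    rw [show (4 : ℕ) = 2 + 2 from rfl, pow_add, pow_two]
  rw [e, eq_mkQ h hdet hb, mkQ_sq, mkT_sq]


abbrev SL5 := Matrix.SpecialLinearGroup (Fin 5) (ZMod 2)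

theorem inC_of_mem {s : SL5} (hs : (s : M5) = Matrix.transvection 0 1 1) {g : SL5}
    (hg : g ∈ Subgroup.centralizer ({s} : Set SL5)) : InC (g : M5) := by
  rw [Subgroup.mem_centralizer_singleton_iff] at hg
  have := congrArg (fun x : SL5 => (x : M5)) hg
  simp only [Matrix.SpecialLinearGroup.coe_mul, hs] at this
  exact this

theorem mem_of_inC {s : SL5} (hs : (s : M5) = Matrix.transvection 0 1 1) {g : SL5}
    (hg : InC (g : M5)) : g ∈ Subgroup.centralizer ({s} : Set SL5) := by
  rw [Subgroup.mem_centralizer_singleton_iff]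
  apply Subtype.ext
  simp only [Matrix.SpecialLinearGroup.coe_mul, hs]
  exact hg

/-- the normal 2-subgroup of the transvection centraliser -/
def Qsub (s : SL5) (hs : (s : M5) = Matrix.transvection 0 1 1) : Subgroup SL5 where
  carrier := {g | g ∈ Subgroup.centralizer ({s} : Set SL5) ∧ blk (g : M5) = 1}
  one_mem' := ⟨Subgroup.one_mem _, by
    show blk ((1 : SL5) : M5) = 1
    rw [Matrix.SpecialLinearGroup.coe_one]; exact blk_one⟩
  mul_mem' := by
    rintro a b ⟨ha, ha'⟩ ⟨hb, hb'⟩
    refine ⟨Subgroup.mul_mem _ ha hb, ?_⟩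
    show blk ((a * b : SL5) : M5) = 1
    rw [Matrix.SpecialLinearGroup.coe_mul, blk_mul (inC_of_mem hs ha) (inC_of_mem hs hb), ha', hb',
      mul_one]
  inv_mem' := by
    rintro a ⟨ha, ha'⟩
    refine ⟨Subgroup.inv_mem _ ha, ?_⟩
    have h1 := blk_mul (inC_of_mem hs ha) (inC_of_mem hs (Subgroup.inv_mem _ ha))
    rw [← Matrix.SpecialLinearGroup.coe_mul, mul_inv_cancel, Matrix.SpecialLinearGroup.coe_one,
      blk_one, ha', one_mul] at h1
    exact h1.symm

theorem mem_Qsub {s : SL5} (hs : (s : M5) = Matrix.transvection 0 1 1) (g : SL5) :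
    g ∈ Qsub s hs ↔ g ∈ Subgroup.centralizer ({s} : Set SL5) ∧ blk (g : M5) = 1 := Iff.rfl

theorem Qsub_pow {s : SL5} (hs : (s : M5) = Matrix.transvection 0 1 1) {g : SL5}
    (hg : g ∈ Qsub s hs) : g ^ 4 = 1 := by
  apply Subtype.ext
  rw [Matrix.SpecialLinearGroup.coe_pow, Matrix.SpecialLinearGroup.coe_one]
  exact pow_four (inC_of_mem hs hg.1) g.2 hg.2

theorem Qsub_conj {s : SL5} (hs : (s : M5) = Matrix.transvection 0 1 1) {c g : SL5}
    (hc : c ∈ Subgroup.centralizer ({s} : Set SL5)) (hg : g ∈ Qsub s hs) :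
    c * g * c⁻¹ ∈ Qsub s hs := by
  have hci := Subgroup.inv_mem _ hc
  refine ⟨Subgroup.mul_mem _ (Subgroup.mul_mem _ hc hg.1) hci, ?_⟩
  show blk ((c * g * c⁻¹ : SL5) : M5) = 1
  have h1 := blk_mul (inC_of_mem hs hc) (inC_of_mem hs hci)
  rw [← Matrix.SpecialLinearGroup.coe_mul, mul_inv_cancel, Matrix.SpecialLinearGroup.coe_one,
      blk_one] at h1
  rw [Matrix.SpecialLinearGroup.coe_mul, Matrix.SpecialLinearGroup.coe_mul,
    blk_mul (inC_of_mem hs (Subgroup.mul_mem _ hc hg.1) |> fun h => by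
      rw [Matrix.SpecialLinearGroup.coe_mul] at h; exact h) (inC_of_mem hs hci),
    blk_mul (inC_of_mem hs hc) (inC_of_mem hs hg.1), hg.2, mul_one]
  exact h1.symm

/-- the transvections as elements of `SL5` -/
def tv (i j : Fin 5) (h : i ≠ j) : SL5 :=
  ⟨Matrix.transvection i j 1, Matrix.det_transvection_of_ne i j h 1⟩

theorem tv_inC_left : ∀ j : Fin 5, j ≠ 0 → InC (Matrix.transvection 0 j 1 : M5) := by
  decide +kernel

theorem tv_inC_right : ∀ i : Fin 5, i ≠ 1 → InC (Matrix.transvection i 1 1 : M5) := by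
  decide +kernel

theorem tv_blk_left : ∀ j : Fin 5, blk (Matrix.transvection 0 j 1 : M5) = 1 := by
  decide +kernel

theorem tv_blk_right : ∀ i : Fin 5, blk (Matrix.transvection i 1 1 : M5) = 1 := by
  decide +kernel


theorem mkT_zero : mkT 0 = 1 := by decide +kernel

theorem mkT_one : mkT 1 = Matrix.transvection 0 1 1 := by decide +kernel

theorem cent_Qsub {s : SL5} (hs : (s : M5) = Matrix.transvection 0 1 1) {x : SL5}
    (hx : x ∈ Subgroup.centralizer ({s} : Set SL5))
    (hall : ∀ q ∈ Qsub s hs, x * q = q * x) : x = 1 ∨ x = s := by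
  have hX := inC_of_mem hs hx
  have h00 := inC_00 hX x.2
  have h11 : (x : M5) 1 1 = 1 := by rw [← inC_diag hX]; exact h00
  have hL : ∀ j : Fin 5, j ≠ 0 → Commute (Matrix.single (0 : Fin 5) j (1 : ZMod 2)) (x : M5) := by
    intro j hj0
    have hq : tv 0 j (Ne.symm hj0) ∈ Qsub s hs :=
      ⟨mem_of_inC hs (tv_inC_left j hj0), tv_blk_left j⟩
    have h1 := congrArg (fun y : SL5 => (y : M5)) (hall _ hq)
    simp only [Matrix.SpecialLinearGroup.coe_mul] at h1
    have e : ((tv 0 j (Ne.symm hj0) : SL5) : M5) = 1 + Matrix.single 0 j 1 := rfl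
    rw [e, mul_add, add_mul, mul_one, one_mul] at h1
    exact (add_left_cancel h1).symm
  have hR : ∀ i : Fin 5, i ≠ 1 → Commute (Matrix.single i (1 : Fin 5) (1 : ZMod 2)) (x : M5) := by
    intro i hi1
    have hq : tv i 1 hi1 ∈ Qsub s hs :=
      ⟨mem_of_inC hs (tv_inC_right i hi1), tv_blk_right i⟩
    have h1 := congrArg (fun y : SL5 => (y : M5)) (hall _ hq)
    simp only [Matrix.SpecialLinearGroup.coe_mul] at h1
    have e : ((tv i 1 hi1 : SL5) : M5) = 1 + Matrix.single i 1 1 := rfl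
    rw [e, mul_add, add_mul, mul_one, one_mul] at h1
    exact (add_left_cancel h1).symm
  have hrow : ∀ j : Fin 5, j ≠ 0 → ∀ k : Fin 5, k ≠ j → (x : M5) j k = 0 :=
    fun j hj k hk => Matrix.row_eq_zero_of_commute_single (hL j hj) hk
  have hdiag : ∀ j : Fin 5, j ≠ 0 → (x : M5) j j = 1 :=
    fun j hj => (Matrix.diag_eq_of_commute_single (hL j hj)).symm.trans h00
  have hcol : ∀ i : Fin 5, i ≠ 1 → ∀ k : Fin 5, k ≠ i → (x : M5) k i = 0 :=
    fun i hi k hk => Matrix.col_eq_zero_of_commute_single (hR i hi) hk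
  have hEq : (x : M5) = mkT ((x : M5) 0 1) := by
    ext i j
    fin_cases i <;> fin_cases j
    · exact h00
    · rfl
    · exact hcol 2 (by decide) 0 (by decide)
    · exact hcol 3 (by decide) 0 (by decide)
    · exact hcol 4 (by decide) 0 (by decide)
    · exact hrow 1 (by decide) 0 (by decide)
    · exact h11
    · exact hrow 1 (by decide) 2 (by decide)
    · exact hrow 1 (by decide) 3 (by decide)
    · exact hrow 1 (by decide) 4 (by decide)
    · exact hrow 2 (by decide) 0 (by decide)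
    · exact hrow 2 (by decide) 1 (by decide)
    · exact hdiag 2 (by decide)
    · exact hrow 2 (by decide) 3 (by decide)
    · exact hrow 2 (by decide) 4 (by decide)
    · exact hrow 3 (by decide) 0 (by decide)
    · exact hrow 3 (by decide) 1 (by decide)
    · exact hrow 3 (by decide) 2 (by decide)
    · exact hdiag 3 (by decide)
    · exact hrow 3 (by decide) 4 (by decide)
    · exact hrow 4 (by decide) 0 (by decide)
    · exact hrow 4 (by decide) 1 (by decide)
    · exact hrow 4 (by decide) 2 (by decide)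
    · exact hrow 4 (by decide) 3 (by decide)
    · exact hdiag 4 (by decide)
  rcases zmod2_cases ((x : M5) 0 1) with h0 | h0
  · left
    apply Subtype.ext
    rw [hEq, h0, mkT_zero]; rfl
  · right
    apply Subtype.ext
    rw [hEq, h0, mkT_one, hs]

theorem sylow_of_center {G : Type*} [Group G] [Finite G] (z : G) (hz : orderOf z = 2)
    (Qc : Subgroup ↥(Subgroup.centralizer ({z} : Set G))) [Qc.Normal] (hQ2 : IsPGroup 2 ↥Qc)
    (hcen : ∀ x : ↥(Subgroup.centralizer ({z} : Set G)), (∀ q ∈ Qc, x * q = q * x) →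
      x = 1 ∨ (x : G) = z)
    (hzQ : ∀ h : z ∈ Subgroup.centralizer ({z} : Set G),
      (⟨z, h⟩ : ↥(Subgroup.centralizer ({z} : Set G))) ∈ Qc)
    (T : Sylow 2 ↥(Subgroup.centralizer ({z} : Set G))) :
    ¬ 2 ∣ ((T : Subgroup ↥(Subgroup.centralizer ({z} : Set G))).map
      (Subgroup.subtype (Subgroup.centralizer ({z} : Set G)))).index := by
  intro hdvd
  have hfact : Fact (Nat.Prime 2) := ⟨Nat.prime_two⟩
  have hzC : z ∈ Subgroup.centralizer ({z} : Set G) := by
    rw [Subgroup.mem_centralizer_singleton_iff]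
  have hz1 : z ≠ 1 := by
    intro h; rw [h, orderOf_one] at hz; omega
  have hQT : Qc ≤ (T : Subgroup ↥(Subgroup.centralizer ({z} : Set G))) := hQ2.le_sylow_of_normal T
  have hzT : (⟨z, hzC⟩ : ↥(Subgroup.centralizer ({z} : Set G))) ∈
      (T : Subgroup ↥(Subgroup.centralizer ({z} : Set G))) := hQT (hzQ hzC)
  have hZT : ∀ y : ↥(Subgroup.centralizer ({z} : Set G)),
      (∀ t ∈ (T : Subgroup ↥(Subgroup.centralizer ({z} : Set G))), y * t = t * y) →
      y = 1 ∨ (y : G) = z := fun y hall => hcen y (fun q hq => hall q (hQT hq))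
  have hmem : ∀ x : G, x ∈ (T : Subgroup ↥(Subgroup.centralizer ({z} : Set G))).map
      (Subgroup.subtype (Subgroup.centralizer ({z} : Set G))) ↔
      ∃ h : x ∈ Subgroup.centralizer ({z} : Set G),
        (⟨x, h⟩ : ↥(Subgroup.centralizer ({z} : Set G))) ∈
          (T : Subgroup ↥(Subgroup.centralizer ({z} : Set G))) := by
    intro x
    constructor
    · rintro ⟨c, hc, rfl⟩
      exact ⟨c.2, hc⟩
    · rintro ⟨h, hT⟩
      exact ⟨⟨x, h⟩, hT, rfl⟩
  have hcardT : Nat.card ↥((T : Subgroup ↥(Subgroup.centralizer ({z} : Set G))).map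
      (Subgroup.subtype (Subgroup.centralizer ({z} : Set G)))) =
      Nat.card ↥(T : Subgroup ↥(Subgroup.centralizer ({z} : Set G))) :=
    (Nat.card_congr (Subgroup.equivMapOfInjective _ _
      (Subgroup.subtype_injective (Subgroup.centralizer ({z} : Set G)))).toEquiv).symm
  obtain ⟨n, hn⟩ := IsPGroup.exists_card_eq T.isPGroup'
  have hdvdG : 2 ^ (n + 1) ∣ Nat.card G := by
    have := Subgroup.card_mul_index ((T : Subgroup ↥(Subgroup.centralizer ({z} : Set G))).map
      (Subgroup.subtype (Subgroup.centralizer ({z} : Set G))))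
    rw [← this, hcardT, hn, pow_succ]
    exact Nat.mul_dvd_mul_left _ hdvd
  obtain ⟨K, hK, hTK⟩ := Sylow.exists_subgroup_card_pow_prime_le 2 hdvdG
    ((T : Subgroup ↥(Subgroup.centralizer ({z} : Set G))).map
      (Subgroup.subtype (Subgroup.centralizer ({z} : Set G)))) (hcardT.trans hn) (Nat.le_succ n)
  have hidx : (((T : Subgroup ↥(Subgroup.centralizer ({z} : Set G))).map
      (Subgroup.subtype (Subgroup.centralizer ({z} : Set G)))).subgroupOf K).index = 2 := by
    have h1 := Subgroup.card_mul_index (((T : Subgroup ↥(Subgroup.centralizer ({z} : Set G))).map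
      (Subgroup.subtype (Subgroup.centralizer ({z} : Set G)))).subgroupOf K)
    rw [Nat.card_congr (Subgroup.subgroupOfEquivOfLe hTK).toEquiv, hcardT, hn, hK, pow_succ] at h1
    exact Nat.eq_of_mul_eq_mul_left (pow_pos two_pos n) h1
  have hnorm : ∀ k ∈ K, ∀ t ∈ (T : Subgroup ↥(Subgroup.centralizer ({z} : Set G))).map
      (Subgroup.subtype (Subgroup.centralizer ({z} : Set G))),
      k * t * k⁻¹ ∈ (T : Subgroup ↥(Subgroup.centralizer ({z} : Set G))).map
        (Subgroup.subtype (Subgroup.centralizer ({z} : Set G))) := by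
    intro k hk t ht
    have hN := Subgroup.normal_of_index_eq_two hidx
    have := hN.conj_mem ⟨t, hTK ht⟩ (Subgroup.mem_subgroupOf.mpr ht) ⟨k, hk⟩
    exact Subgroup.mem_subgroupOf.mp this
  have hKC : K ≤ Subgroup.centralizer ({z} : Set G) := by
    intro k hk
    have hy := hnorm k hk z ((hmem z).mpr ⟨hzC, hzT⟩)
    obtain ⟨hyC, hyT⟩ := (hmem _).mp hy
    have hcent : ∀ t ∈ (T : Subgroup ↥(Subgroup.centralizer ({z} : Set G))),
        (⟨k * z * k⁻¹, hyC⟩ : ↥(Subgroup.centralizer ({z} : Set G))) * t = t * ⟨k * z * k⁻¹, hyC⟩ := by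
      intro t ht
      apply Subtype.ext
      show k * z * k⁻¹ * (t : G) = (t : G) * (k * z * k⁻¹)
      have ht' := hnorm k⁻¹ (K.inv_mem hk) (t : G) ((hmem _).mpr ⟨t.2, ht⟩)
      obtain ⟨ht'C, -⟩ := (hmem _).mp ht'
      rw [Subgroup.mem_centralizer_singleton_iff] at ht'C
      calc k * z * k⁻¹ * (t : G) = k * (z * (k⁻¹ * (t : G) * k⁻¹⁻¹)) * k⁻¹ := by group
        _ = k * ((k⁻¹ * (t : G) * k⁻¹⁻¹) * z) * k⁻¹ := by rw [ht'C]
        _ = (t : G) * (k * z * k⁻¹) := by group
    rcases hZT _ hcent with h1 | h1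
    · exfalso
      apply hz1
      have h1' : k * z * k⁻¹ = 1 := congrArg Subtype.val h1
      calc z = k⁻¹ * (k * z * k⁻¹) * k := by group
        _ = 1 := by rw [h1']; group
    · have h1' : k * z * k⁻¹ = z := h1
      rw [Subgroup.mem_centralizer_singleton_iff]
      calc k * z = (k * z * k⁻¹) * k := by group
        _ = z * k := by rw [h1']
  have hcardK : Nat.card ↥(K.subgroupOf (Subgroup.centralizer ({z} : Set G))) = Nat.card ↥K :=
    Nat.card_congr (Subgroup.subgroupOfEquivOfLe hKC).toEquiv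
  have hKp : IsPGroup 2 ↥(K.subgroupOf (Subgroup.centralizer ({z} : Set G))) :=
    IsPGroup.of_card (hcardK.trans hK)
  have hTle : (T : Subgroup ↥(Subgroup.centralizer ({z} : Set G))) ≤
      K.subgroupOf (Subgroup.centralizer ({z} : Set G)) := by
    intro t ht
    rw [Subgroup.mem_subgroupOf]
    exact hTK ((hmem _).mpr ⟨t.2, ht⟩)
  have hEq := T.is_maximal' hKp hTle
  rw [hEq, hn, hK] at hcardK
  have := Nat.pow_lt_pow_right (a := 2) (by norm_num) (Nat.lt_succ_self n)
  omega

/-- Let G be a finite group with an involution z whose centraliser C is isomorphic to the centraliser of a transvection of SL(5, 2). Then a Sylow 2-subgroup of C, viewed in G, is a Sylow 2-subgroup of G (its index in G is odd). -/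
theorem result {G : Type*} [Group G] [Finite G] (s : Matrix.SpecialLinearGroup (Fin 5) (ZMod 2)) (hs : (s : Matrix (Fin 5) (Fin 5) (ZMod 2)) = Matrix.transvection 0 1 1) (z : G) (hz : orderOf z = 2) (e : (Subgroup.centralizer ({z} : Set G)) ≃* Subgroup.centralizer ({s} : Set (Matrix.SpecialLinearGroup (Fin 5) (ZMod 2)))) (T : Sylow 2 (Subgroup.centralizer ({z} : Set G))) : ¬ 2 ∣ ((T : Subgroup (Subgroup.centralizer ({z} : Set G))).map (Subgroup.subtype (Subgroup.centralizer ({z} : Set G)))).index := by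
  have hsC : s ∈ Subgroup.centralizer ({s} : Set (Matrix.SpecialLinearGroup (Fin 5) (ZMod 2))) := by
    rw [Subgroup.mem_centralizer_singleton_iff]
  have hsQ : s ∈ Qsub s hs := ⟨hsC, by rw [hs]; exact tv_blk_left 1⟩
  have hQ'n : ((Qsub s hs).subgroupOf (Subgroup.centralizer ({s} : Set SL5))).Normal := by
    refine ⟨fun q hq c => ?_⟩
    rw [Subgroup.mem_subgroupOf] at hq ⊢
    exact Qsub_conj hs c.2 hq
  have hQ'2 : IsPGroup 2 ↥((Qsub s hs).subgroupOf (Subgroup.centralizer ({s} : Set SL5))) := by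
    intro q
    refine ⟨2, ?_⟩
    apply Subtype.ext; apply Subtype.ext
    have hq : ((q : ↥(Subgroup.centralizer ({s} : Set SL5))) : SL5) ∈ Qsub s hs :=
      Subgroup.mem_subgroupOf.mp q.2
    show ((q : ↥(Subgroup.centralizer ({s} : Set SL5))) : SL5) ^ 4 = 1
    exact Qsub_pow hs hq
  have hQcn : (((Qsub s hs).subgroupOf (Subgroup.centralizer ({s} : Set SL5))).comap e.toMonoidHom).Normal :=
    hQ'n.comap _
  have hQc2 : IsPGroup 2 ↥(((Qsub s hs).subgroupOf (Subgroup.centralizer ({s} : Set SL5))).comap e.toMonoidHom) :=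
    hQ'2.comap_of_injective e.toMonoidHom e.injective
  have hzC : z ∈ Subgroup.centralizer ({z} : Set G) := by
    rw [Subgroup.mem_centralizer_singleton_iff]
  have hz1 : z ≠ 1 := by
    intro h; rw [h, orderOf_one] at hz; omega
  -- key: centralising the normal 2-subgroup
  have hkey : ∀ x : ↥(Subgroup.centralizer ({z} : Set G)),
      (∀ q ∈ ((Qsub s hs).subgroupOf (Subgroup.centralizer ({s} : Set SL5))).comap e.toMonoidHom,
        x * q = q * x) → ((e x : ↥(Subgroup.centralizer ({s} : Set SL5))) : SL5) = 1 ∨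
          ((e x : ↥(Subgroup.centralizer ({s} : Set SL5))) : SL5) = s := by
    intro x hall
    refine cent_Qsub hs (e x).2 ?_
    intro q hq
    have hqC : q ∈ Subgroup.centralizer ({s} : Set SL5) := hq.1
    have hmemQ : e.symm ⟨q, hqC⟩ ∈
        ((Qsub s hs).subgroupOf (Subgroup.centralizer ({s} : Set SL5))).comap e.toMonoidHom := by
      rw [Subgroup.mem_comap]
      show e (e.symm ⟨q, hqC⟩) ∈ (Qsub s hs).subgroupOf (Subgroup.centralizer ({s} : Set SL5))
      rw [MulEquiv.apply_symm_apply, Subgroup.mem_subgroupOf]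
      exact hq
    have h1 := congrArg e (hall _ hmemQ)
    rw [map_mul, map_mul, MulEquiv.apply_symm_apply] at h1
    exact congrArg Subtype.val h1
  have hez : ((e ⟨z, hzC⟩ : ↥(Subgroup.centralizer ({s} : Set SL5))) : SL5) = s := by
    have hcz : ∀ q ∈ ((Qsub s hs).subgroupOf (Subgroup.centralizer ({s} : Set SL5))).comap e.toMonoidHom,
        (⟨z, hzC⟩ : ↥(Subgroup.centralizer ({z} : Set G))) * q = q * ⟨z, hzC⟩ := by
      intro q _
      apply Subtype.ext
      have hq : (q : G) ∈ Subgroup.centralizer ({z} : Set G) := q.2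
      rw [Subgroup.mem_centralizer_singleton_iff] at hq
      exact hq.symm
    rcases hkey _ hcz with h1 | h1
    · exfalso
      apply hz1
      have h2 : e ⟨z, hzC⟩ = 1 := Subtype.ext h1
      have h3 : (⟨z, hzC⟩ : ↥(Subgroup.centralizer ({z} : Set G))) = 1 := by
        rw [← e.map_one] at h2
        exact e.injective h2
      exact congrArg Subtype.val h3
    · exact h1
  refine @sylow_of_center G _ _ z hz _ hQcn hQc2 ?_ ?_ T
  · intro x hall
    rcases hkey x hall with h1 | h1
    · left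
      have h2 : e x = 1 := Subtype.ext h1
      rw [← e.map_one] at h2
      exact e.injective h2
    · right
      have h2 : e x = e ⟨z, hzC⟩ := Subtype.ext (h1.trans hez.symm)
      have h3 := e.injective h2
      rw [h3]
  · intro h
    rw [Subgroup.mem_comap]
    show e ⟨z, h⟩ ∈ (Qsub s hs).subgroupOf (Subgroup.centralizer ({s} : Set SL5))
    rw [Subgroup.mem_subgroupOf, hez]
    exact hsQ

end Cfsg.Agent.S1717
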