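import Cfsg.Statements.S1892
import Cfsg.Agent.Helper13.PSolv
import Cfsg.Agent.Helper13.PPrime
import Cfsg.Agent.Helper10.AxB

set_option autoImplicit false
open Cfsg

open scoped commutatorElement
namespace Cfsg.Agent.S1892

/-- Let S be a finite p-solvable group with no nontrivial normal subgroup of order prime to p, A a p-subgroup of S, and Q a nontrivial A-invariant subgroup of order prime to p with [A, Q] = Q. Then the commutator [O_p(S), A, Q] is nontrivial. -/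
theorem result {S : Type*} [Group S] [Finite S] {p : ℕ} [Fact p.Prime]
    (hS : Cfsg.IsPSolvable p S) (hred : Cfsg.pPrimeCore p S = ⊥)
    (A Q : Subgroup S) (hA : IsPGroup p A) (hQ : ¬ p ∣ Nat.card Q) (hQ1 : Q ≠ ⊥)
    (hinv : ∀ a ∈ A, ∀ x ∈ Q, a * x * a⁻¹ ∈ Q) (hAQ : ⁅A, Q⁆ = Q) :
    ⁅⁅Cfsg.pCore p S, A⁆, Q⁆ ≠ ⊥ := by
  have hp := (Fact.out : p.Prime)
  intro hcomm
  haveI hRn : (Cfsg.pCore p S).Normal := Cfsg.Agent.S0010.pCore_normal p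
  have hRp : IsPGroup p (Cfsg.pCore p S) := Cfsg.Agent.S0010.pCore_isPGroup p
  have hHH := Cfsg.Agent.Helper13.centralizer_pCore_le_of_isPSolvable hS hred
  have hQc : (Nat.card Q).Coprime p := ((Nat.Prime.coprime_iff_not_dvd hp).mpr hQ).symm
  have hRA : ⁅Cfsg.pCore p S, A⁆ ≤ Cfsg.pCore p S ⊓ Subgroup.centralizer (Q : Set S) :=
    le_inf (Subgroup.commutator_le_left _ _)
      (Subgroup.commutator_eq_bot_iff_le_centralizer.mp hcomm)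
  have hstar : ∀ a ∈ A, ∀ r ∈ Cfsg.pCore p S,
      r⁻¹ * (a * r * a⁻¹) ∈ Cfsg.pCore p S ⊓ Subgroup.centralizer (Q : Set S) := by
    intro a ha r hr
    have h1 : ⁅r⁻¹, a⁆ ∈ ⁅Cfsg.pCore p S, A⁆ :=
      Subgroup.commutator_mem_commutator (Subgroup.inv_mem _ hr) ha
    have e : ⁅r⁻¹, a⁆ = r⁻¹ * (a * r * a⁻¹) := by rw [commutatorElement_def]; group
    rw [e] at h1; exact hRA h1
  have hCA : ∀ a ∈ A, ∀ c ∈ Cfsg.pCore p S ⊓ Subgroup.centralizer (Q : Set S),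
      a * c * a⁻¹ ∈ Cfsg.pCore p S ⊓ Subgroup.centralizer (Q : Set S) := by
    intro a ha c hc
    obtain ⟨hcR, hcQ⟩ := Subgroup.mem_inf.mp hc
    refine Subgroup.mem_inf.mpr ⟨hRn.conj_mem c hcR a, ?_⟩
    rw [Subgroup.mem_centralizer_iff]
    intro q hq
    have hq' : a⁻¹ * q * a⁻¹⁻¹ ∈ Q := hinv a⁻¹ (A.inv_mem ha) q hq
    have h1 := (Subgroup.mem_centralizer_iff.mp hcQ) _ hq'
    calc q * (a * c * a⁻¹) = a * ((a⁻¹ * q * a⁻¹⁻¹) * c) * a⁻¹ := by group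
      _ = a * (c * (a⁻¹ * q * a⁻¹⁻¹)) * a⁻¹ := by rw [h1]
      _ = a * c * a⁻¹ * q := by group
  let Q' : Subgroup S :=
    { carrier := {g | g ∈ Q ∧ ∀ r ∈ Cfsg.pCore p S,
        r⁻¹ * (g * r * g⁻¹) ∈ Cfsg.pCore p S ⊓ Subgroup.centralizer (Q : Set S)}
      one_mem' := by
        refine ⟨Q.one_mem, fun r _ => ?_⟩
        have : r⁻¹ * (1 * r * 1⁻¹) = 1 := by group
        rw [this]; exact Subgroup.one_mem _
      mul_mem' := by
        rintro g h ⟨hg, hgT⟩ ⟨hh, hhT⟩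
        refine ⟨Q.mul_mem hg hh, fun r hr => ?_⟩
        have hc := hhT r hr
        have hgc : g * (r⁻¹ * (h * r * h⁻¹)) = (r⁻¹ * (h * r * h⁻¹)) * g :=
          (Subgroup.mem_centralizer_iff.mp (Subgroup.mem_inf.mp hc).2) g hg
        have e : r⁻¹ * (g * h * r * (g * h)⁻¹) =
            (r⁻¹ * (g * r * g⁻¹)) * (g * (r⁻¹ * (h * r * h⁻¹)) * g⁻¹) := by group
        rw [e, hgc]
        have e2 : r⁻¹ * (h * r * h⁻¹) * g * g⁻¹ = r⁻¹ * (h * r * h⁻¹) := by group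
        rw [e2]
        exact Subgroup.mul_mem _ (hgT r hr) hc
      inv_mem' := by
        rintro g ⟨hg, hgT⟩
        refine ⟨Q.inv_mem hg, fun r hr => ?_⟩
        have hr' : g⁻¹ * r * g⁻¹⁻¹ ∈ Cfsg.pCore p S := hRn.conj_mem r hr g⁻¹
        have h1 := Subgroup.inv_mem _ (hgT _ hr')
        have e : ((g⁻¹ * r * g⁻¹⁻¹)⁻¹ * (g * (g⁻¹ * r * g⁻¹⁻¹) * g⁻¹))⁻¹ =
            r⁻¹ * (g⁻¹ * r * g⁻¹⁻¹) := by group
        rw [e] at h1; exact h1 }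
  have hQQ' : Q ≤ Q' := by
    rw [← hAQ, Subgroup.commutator_le]
    intro a ha q hq
    refine ⟨?_, ?_⟩
    · rw [commutatorElement_def]
      exact Q.mul_mem (hinv a ha q hq) (Q.inv_mem hq)
    · intro r hr
      obtain ⟨r₁, hr₁⟩ : ∃ r₁, r₁ = q⁻¹ * r * q := ⟨_, rfl⟩
      have hr₁R : r₁ ∈ Cfsg.pCore p S := by
        rw [hr₁]
        have := hRn.conj_mem r hr q⁻¹
        rwa [inv_inv] at this
      obtain ⟨c₁, hc₁⟩ : ∃ c₁, c₁ = r₁⁻¹ * (a⁻¹ * r₁ * a⁻¹⁻¹) := ⟨_, rfl⟩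
      have hc₁C : c₁ ∈ Cfsg.pCore p S ⊓ Subgroup.centralizer (Q : Set S) := by
        rw [hc₁]; exact hstar a⁻¹ (A.inv_mem ha) r₁ hr₁R
      have hqc : q * c₁ = c₁ * q := (Subgroup.mem_centralizer_iff.mp (Subgroup.mem_inf.mp hc₁C).2) q hq
      have e1 : ⁅a, q⁆ * r * ⁅a, q⁆⁻¹ = a * (q * (r₁ * c₁) * q⁻¹) * a⁻¹ := by
        rw [commutatorElement_def, hc₁, hr₁]; group
      have e2 : q * (r₁ * c₁) * q⁻¹ = r * c₁ := by
        calc q * (r₁ * c₁) * q⁻¹ = (q * r₁ * q⁻¹) * (q * c₁) * q⁻¹ := by group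
          _ = (q * r₁ * q⁻¹) * (c₁ * q) * q⁻¹ := by rw [hqc]
          _ = r * c₁ := by rw [hr₁]; group
      have e3 : r⁻¹ * (⁅a, q⁆ * r * ⁅a, q⁆⁻¹) = (r⁻¹ * (a * r * a⁻¹)) * (a * c₁ * a⁻¹) := by
        rw [e1, e2]; group
      rw [e3]
      exact Subgroup.mul_mem _ (hstar a ha r hr) (hCA a ha c₁ hc₁C)
  have hRQQ : ⁅⁅Cfsg.pCore p S, Q⁆, Q⁆ = ⊥ := by
    rw [Subgroup.commutator_eq_bot_iff_le_centralizer, Subgroup.commutator_le]
    intro r hr g hg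
    have h1 := (hQQ' hg).2 r⁻¹ (Subgroup.inv_mem _ hr)
    have e : ⁅r, g⁆ = r⁻¹⁻¹ * (g * r⁻¹ * g⁻¹) := by rw [commutatorElement_def]; group
    rw [e]; exact (Subgroup.mem_inf.mp h1).2
  have hRQ : ⁅Cfsg.pCore p S, Q⁆ = ⊥ :=
    Cfsg.Agent.Helper10.comm_eq_bot_of_comm_comm_eq_bot _ Q hRp
      (Cfsg.Agent.Helper10.coprime_of_card_coprime Q hQc)
      (by rw [Subgroup.normalizer_eq_top]; exact le_top) hRQQ
  rw [Subgroup.commutator_comm, Subgroup.commutator_eq_bot_iff_le_centralizer] at hRQ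
  have hle : Q ≤ Cfsg.pCore p S ⊓ Q := le_inf (hRQ.trans hHH) le_rfl
  rw [Cfsg.Agent.Helper13.pgroup_inf_coprime_eq_bot _ Q hRp hQc] at hle
  exact hQ1 (le_bot_iff.mp hle)

end Cfsg.Agent.S1892
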