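import Cfsg.Statements.S1894
import Cfsg.Agent.Helper13.KMax

set_option autoImplicit false
open Cfsg

open scoped commutatorElement
namespace Cfsg.Agent.S1894

/-- Let P be a finite p-group, A a normal subgroup of P and B an abelian subgroup of A that is normal in P. Then some subgroup C of A containing B is normal in P and is self-centralizing and normal in A (C ∈ SCN(A)). -/
theorem result {P : Type*} [Group P] [Finite P] {p : ℕ} [Fact p.Prime] (hP : IsPGroup p P)
    (A : Subgroup P) [A.Normal] (B : Subgroup P) [B.Normal] (hBA : B ≤ A) (hB : IsMulCommutative B) :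
    ∃ C : Subgroup P, C.Normal ∧ B ≤ C ∧ Cfsg.IsSCN A C := by
  haveI : Group.IsNilpotent P := hP.isNilpotent
  let 𝒮 : Set (Subgroup P) := {C | C.Normal ∧ B ≤ C ∧ C ≤ A ∧ C ≤ Subgroup.centralizer (C : Set P)}
  have hB𝒮 : B ∈ 𝒮 := ⟨inferInstance, le_rfl, hBA, Cfsg.Agent.Helper13.abelian_le_centralizer B hB⟩
  obtain ⟨C, -, hCmax⟩ := (Set.toFinite 𝒮).exists_le_maximal hB𝒮
  obtain ⟨hCn, hBC, hCA, hCab⟩ := hCmax.prop
  refine ⟨C, hCn, hBC, hCA, ?_, ?_⟩
  · rw [Subgroup.normalizer_eq_top C]; exact le_top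
  apply le_antisymm _ (le_inf hCA hCab)
  by_contra hcon
  obtain ⟨x, hxD, hxC, hxg⟩ := Cfsg.Agent.Helper13.exists_mem_not_mem_comm C
    (A ⊓ Subgroup.centralizer (C : Set P)) hcon
  have hDn : (A ⊓ Subgroup.centralizer (C : Set P)).Normal := inferInstance
  have hxg' : ∀ g : P, ⁅x, g⁆ ∈ C := by
    intro g
    apply hxg
    have h1 : g * x⁻¹ * g⁻¹ ∈ A ⊓ Subgroup.centralizer (C : Set P) :=
      hDn.conj_mem _ (Subgroup.inv_mem _ hxD) g
    have e : ⁅x, g⁆ = x * (g * x⁻¹ * g⁻¹) := by simp only [commutatorElement_def]; group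
    rw [e]
    exact Subgroup.mul_mem _ hxD h1
  have hxcent : x ∈ Subgroup.centralizer (C : Set P) := (Subgroup.mem_inf.mp hxD).2
  have hxA : x ∈ A := (Subgroup.mem_inf.mp hxD).1
  have hmem : Cfsg.Agent.Helper13.adj C x ∈ 𝒮 := by
    refine ⟨?_, hBC.trans (Cfsg.Agent.Helper13.le_adj C x), ?_, ?_⟩
    · rw [← Subgroup.normalizer_eq_top_iff, eq_top_iff]
      unfold Cfsg.Agent.Helper13.adj
      rw [Subgroup.le_normalizer_closure_iff]
      rintro g - y (hy | hy)
      · exact Subgroup.subset_closure (Or.inl (hCn.conj_mem y hy g))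
      · rw [Set.mem_singleton_iff] at hy
        rw [hy]
        have e : g * x * g⁻¹ = ⁅x, g⁆⁻¹ * x := by simp only [commutatorElement_def]; group
        rw [e]
        exact Subgroup.mul_mem _ (Subgroup.inv_mem _ (Subgroup.subset_closure (Or.inl (hxg' g))))
          (Subgroup.subset_closure (Or.inr rfl))
    · unfold Cfsg.Agent.Helper13.adj
      rw [Subgroup.closure_le]
      rintro y (hy | hy)
      · exact hCA hy
      · rw [Set.mem_singleton_iff] at hy
        rw [hy]; exact hxA
    · have h1 : ∀ z ∈ (C : Set P) ∪ {x}, z ∈ Subgroup.centralizer (Cfsg.Agent.Helper13.adj C x : Set P) := by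
        rintro z (hz | hz)
        · exact Cfsg.Agent.Helper13.adj_le_centralizer C x z (fun b hb => hCab hz b hb)
            ((hxcent z hz).symm)
        · rw [Set.mem_singleton_iff] at hz
          rw [hz]
          exact Cfsg.Agent.Helper13.x_mem_centralizer_adj C x hxcent
      have h2 : Cfsg.Agent.Helper13.adj C x ≤
          Subgroup.centralizer (Cfsg.Agent.Helper13.adj C x : Set P) := by
        conv_lhs => unfold Cfsg.Agent.Helper13.adj
        rw [Subgroup.closure_le]
        exact h1
      exact h2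
  have hle := hCmax.le_of_ge hmem (Cfsg.Agent.Helper13.le_adj C x)
  exact hxC (hle (Cfsg.Agent.Helper13.mem_adj C x))

end Cfsg.Agent.S1894
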