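import Cfsg.Statements.S1898
import Mathlib

set_option autoImplicit false
open Cfsg

open scoped commutatorElement
namespace Cfsg.Agent.S1898

/-- Let X be a finite 2-group whose derived subgroup is elementary abelian and central. Then the subgroup generated by the elements of order dividing 4 has exponent dividing 4, and every automorphism of X fixing each element of order dividing 4 has 2-power order. -/
theorem result {X : Type*} [Group X] [Finite X] (hX : IsPGroup 2 X)
    (hel : Cfsg.IsElementaryAbelian 2 (commutator X)) (hcen : commutator X ≤ Subgroup.center X) :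
    (∀ x ∈ Subgroup.closure {g : X | g ^ 4 = 1}, x ^ 4 = 1) ∧
      ∀ φ : MulAut X, (∀ g : X, g ^ 4 = 1 → φ g = g) → ∃ k : ℕ, φ ^ (2 ^ k) = 1 := by
  obtain ⟨-, hexp⟩ := hel
  have hmem : ∀ a b : X, ⁅a, b⁆ ∈ commutator X := by
    intro a b
    rw [commutator_def]
    exact Subgroup.commutator_mem_commutator (Subgroup.mem_top a) (Subgroup.mem_top b)
  have hkc : ∀ a b g : X, Commute ⁅a, b⁆ g := by
    intro a b g
    exact ((Subgroup.mem_center_iff.mp (hcen (hmem a b))) g).symm
  have hk2 : ∀ a b : X, ⁅a, b⁆ ^ 2 = 1 := fun a b => hexp _ (hmem a b)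
  have hsq : ∀ x g : X, Commute (x ^ 2) g := by
    intro x g
    have h1 : g * x * g⁻¹ = x * ⁅x⁻¹, g⁆ := by simp only [commutatorElement_def]; group
    have h2 : (g * x * g⁻¹) ^ 2 = g * x ^ 2 * g⁻¹ := conj_pow
    have h3 : (x * ⁅x⁻¹, g⁆) ^ 2 = x ^ 2 := by
      rw [(hkc x⁻¹ g x).symm.mul_pow, hk2, mul_one]
    rw [h1, h3] at h2
    exact eq_mul_inv_iff_mul_eq.mp h2
  have h4 : ∀ x y : X, (x * y) ^ 4 = x ^ 4 * y ^ 4 := by
    intro x y
    have e1 : (x * y) ^ 2 = x ^ 2 * ⁅x⁻¹, y⁆ * y ^ 2 := by
      simp only [commutatorElement_def, pow_two]; group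
    have e2 : (x * y) ^ 4 = ((x * y) ^ 2) ^ 2 := by rw [← pow_mul]
    rw [e2, e1, ((hsq y _).symm).mul_pow, ((hkc x⁻¹ y _).symm).mul_pow, hk2, mul_one, ← pow_mul,
      ← pow_mul]
  constructor
  · intro x hx
    induction hx using Subgroup.closure_induction with
    | mem y hy => exact hy
    | one => simp
    | mul a b _ _ iha ihb => rw [h4, iha, ihb, one_mul]
    | inv a _ iha => rw [inv_pow, iha, inv_one]
  · intro φ hφ
    have hpow : ∀ n : ℕ, ∀ g : X, g ^ 4 = 1 → (φ ^ n) g = g := by
      intro n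
      induction n with
      | zero => intro g _; simp
      | succ n ih =>
        intro g hg
        rw [pow_succ, MulAut.mul_apply, hφ g hg, ih g hg]
    have claim : ∀ m : ℕ, ∀ x : X, x ^ (2 ^ (m + 2)) = 1 → (φ ^ (4 ^ m)) x = x := by
      intro m
      induction m with
      | zero =>
        intro x hx
        have : x ^ 4 = 1 := by simpa using hx
        simpa using hφ x this
      | succ m ih =>
        intro x hx
        have hx2 : (φ ^ (4 ^ m)) (x ^ 2) = x ^ 2 := by
          apply ih
          rw [← pow_mul, ← pow_succ']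
          exact hx
        have hψc : ∀ g : X, g ^ 4 = 1 → (φ ^ (4 ^ m)) g = g := hpow (4 ^ m)
        have e4 : φ ^ (4 ^ (m + 1)) = (φ ^ (4 ^ m)) ^ 4 := by rw [← pow_mul, pow_succ]
        rw [e4]
        generalize φ ^ (4 ^ m) = ψ at hx2 hψc
        have hc : ψ x = x * (x⁻¹ * ψ x) := by group
        generalize x⁻¹ * ψ x = c at hc
        have h5 : (x * c) ^ 2 = x ^ 2 := by rw [← hc, ← map_pow, hx2]
        have h5' : x * (c * (x * c)) = x * x := by
          rw [← mul_assoc, ← pow_two, ← pow_two]; exact h5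
        have h5'' : c * (x * c) = x := mul_left_cancel h5'
        have h7 : x * c⁻¹ * x⁻¹ = c := by
          have : c * x = x * c⁻¹ := by rw [eq_mul_inv_iff_mul_eq, mul_assoc]; exact h5''
          rw [← this]; group
        have h8 : c ^ 2 = ⁅c, x⁆ := by
          rw [commutatorElement_def, pow_two, mul_assoc, mul_assoc, ← mul_assoc x, h7]
        have h9 : c ^ 4 = 1 := by
          have : c ^ 4 = (c ^ 2) ^ 2 := by rw [← pow_mul]
          rw [this, h8, hk2]
        have hψn : ∀ n : ℕ, (ψ ^ n) x = x * c ^ n := by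
          intro n
          induction n with
          | zero => simp
          | succ n ihn =>
            rw [pow_succ', MulAut.mul_apply, ihn, map_mul, map_pow, hψc c h9, hc, pow_succ', mul_assoc]
        rw [hψn 4, h9, mul_one]
    haveI : Fact (Nat.Prime 2) := ⟨Nat.prime_two⟩
    obtain ⟨N, hN⟩ := IsPGroup.iff_card.mp hX
    refine ⟨2 * N, ?_⟩
    ext x
    have hx : x ^ (2 ^ (N + 2)) = 1 := by rw [pow_add, pow_mul, ← hN, pow_card_eq_one', one_pow]
    have := claim N x hx
    rw [show (2:ℕ) ^ (2 * N) = 4 ^ N by rw [pow_mul]; norm_num]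
    simpa using this

end Cfsg.Agent.S1898
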