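import Cfsg.Statements.S1899
import Mathlib

set_option autoImplicit false
open Cfsg

namespace Cfsg.Agent.S1899

/-- Let a dihedral group of order 2n, n odd and n > 1, act on a finite abelian 2-group A through automorphisms d and t with d^n = 1, t² = 1 and t d t⁻¹ = d⁻¹, and suppose that d fixes only the identity. Then A is the internal direct product of C_A(t) and its image under d. -/
theorem result {A : Type*} [CommGroup A] [Finite A] (hA : IsPGroup 2 A)
    {n : ℕ} (hn : Odd n) (hn1 : 1 < n) (d t : MulAut A) (hd : d ^ n = 1) (ht : t ^ 2 = 1) (hdt : t * d * t⁻¹ = d⁻¹)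
    (hfix : ∀ a : A, d a = a → a = 1) :
    (MulEquiv.toMonoidHom t).eqLocus (MonoidHom.id A) ⊓ ((MulEquiv.toMonoidHom t).eqLocus (MonoidHom.id A)).map d.toMonoidHom = ⊥ ∧
      (MulEquiv.toMonoidHom t).eqLocus (MonoidHom.id A) ⊔ ((MulEquiv.toMonoidHom t).eqLocus (MonoidHom.id A)).map d.toMonoidHom = ⊤ := by
  have htt : ∀ a, t (t a) = a := by
    intro a
    have := congrArg (fun f : MulAut A => f a) ht
    simpa [pow_two] using this
  have htd : ∀ a, t (d⁻¹ (t a)) = d a := by
    intro a
    have h1 : d⁻¹ (t a) = t (d a) := by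
      have := congrArg (fun f : MulAut A => f (t a)) hdt
      simp only [MulAut.mul_apply, MulAut.inv_apply_self] at this
      exact this.symm
    rw [h1, htt]
  have hfix2 : ∀ a, d (d a) = a → a = 1 := by
    intro a ha
    apply hfix
    obtain ⟨m, rfl⟩ := hn
    have h2 : ∀ k : ℕ, (d ^ (2 * k)) a = a := by
      intro k
      induction k with
      | zero => simp
      | succ k ih =>
        have : d ^ (2 * (k + 1)) = d ^ (2 * k) * (d * d) := by
          rw [mul_add, pow_add]; simp [pow_two]
        rw [this, MulAut.mul_apply, MulAut.mul_apply, ha, ih]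
    have h3 : d ^ (2 * (m + 1)) = d := by
      have : 2 * (m + 1) = (2 * m + 1) + 1 := by ring
      rw [this, pow_succ, hd, one_mul]
    have := h2 (m + 1)
    rw [h3] at this
    exact this
  have hinj : Function.Injective (fun a : A => a * (d (d a))⁻¹) := by
    intro a b hab
    have hab' : a * (d (d a))⁻¹ = b * (d (d b))⁻¹ := hab
    have h1 : d (d (a * b⁻¹)) = a * b⁻¹ := by
      rw [map_mul, map_mul, map_inv, map_inv]
      have h' : a = b * (d (d b))⁻¹ * d (d a) := by rw [← hab', inv_mul_cancel_right]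
      have h'' : b * (d (d b))⁻¹ * d (d a) * b⁻¹ = d (d a) * (d (d b))⁻¹ := by
        rw [mul_assoc b, mul_comm b, mul_inv_cancel_right, mul_comm]
      rw [← h'', ← h']
    have := hfix2 _ h1
    exact mul_inv_eq_one.mp this
  have hsurj := Finite.surjective_of_injective hinj
  constructor
  · rw [eq_bot_iff]
    rintro a ⟨ha1, ha2⟩
    obtain ⟨c, hc, rfl⟩ := ha2
    have hc' : t c = c := hc
    have ha1' : t (d c) = d c := ha1
    have h1 : d (d (d c)) = d c := by
      have := htd (d c)
      rw [ha1', MulAut.inv_apply_self, hc'] at this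
      exact congrArg d this.symm
    have := hfix2 _ h1
    exact this
  · rw [eq_top_iff]
    intro y _
    obtain ⟨a, rfl⟩ := hsurj y
    have e : a * (d (d a))⁻¹ = (a * t a) * d ((d⁻¹ (t a) * t (d⁻¹ (t a)))⁻¹) := by
      rw [map_inv, map_mul, MulAut.apply_inv_self, htd, mul_inv, mul_assoc, ← mul_assoc (t a),
        mul_inv_cancel, one_mul]
    show a * (d (d a))⁻¹ ∈ _
    rw [e]
    refine Subgroup.mul_mem_sup ?_ (Subgroup.mem_map_of_mem _ ?_)
    · show t (a * t a) = a * t a
      rw [map_mul, htt, mul_comm]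
    · show t ((d⁻¹ (t a) * t (d⁻¹ (t a)))⁻¹) = (d⁻¹ (t a) * t (d⁻¹ (t a)))⁻¹
      rw [map_inv, map_mul, htt, mul_comm]

end Cfsg.Agent.S1899
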