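import Cfsg.Statements.S1900
import Mathlib
import Cfsg.Agent.Helper10.CopGen
import Cfsg.Agent.Helper17.Basic
import Cfsg.Agent.Helper13.Fusion5

set_option autoImplicit false
open Cfsg

open Cfsg.Agent.Helper17
namespace Cfsg.Agent.S1900

/-- fixed-point-free: every element is a commutator -/
theorem fpf_surj {S : Type*} [Group S] [Finite S] (Y : Subgroup S) (x : S)
    (hx : x ∈ Subgroup.normalizer (Y : Set S)) (hfix : Y ⊓ Subgroup.centralizer {x} = ⊥) :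
    ∀ b ∈ Y, ∃ y ∈ Y, b = y⁻¹ * (x * y * x⁻¹) := by
  have hmem : ∀ y ∈ Y, y⁻¹ * (x * y * x⁻¹) ∈ Y := fun y hy =>
    Y.mul_mem (Y.inv_mem hy) ((Subgroup.mem_normalizer_iff.mp hx y).mp hy)
  let f : ↥Y → ↥Y := fun y => ⟨(y : S)⁻¹ * (x * y * x⁻¹), hmem y y.2⟩
  have hinj : Function.Injective f := by
    intro y z hyz
    have h1 : (y : S)⁻¹ * (x * y * x⁻¹) = (z : S)⁻¹ * (x * z * x⁻¹) := congrArg Subtype.val hyz
    have h2 : (z : S) * (y : S)⁻¹ ∈ Y ⊓ Subgroup.centralizer {x} := by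
      refine Subgroup.mem_inf.mpr ⟨Y.mul_mem z.2 (Y.inv_mem y.2), ?_⟩
      rw [Subgroup.mem_centralizer_iff]
      intro h hh
      rw [Set.mem_singleton_iff.mp hh]
      have e : x * ((z : S) * (y : S)⁻¹) = (z : S) * ((z : S)⁻¹ * (x * z * x⁻¹)) * x * (y : S)⁻¹ := by
        group
      rw [e, ← h1]; group
    rw [hfix, Subgroup.mem_bot] at h2
    apply Subtype.ext
    exact (mul_inv_eq_one.mp h2).symm
  have hsurj := Finite.surjective_of_injective hinj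
  intro b hb
  obtain ⟨y, hy⟩ := hsurj ⟨b, hb⟩
  exact ⟨y, y.2, (congrArg Subtype.val hy).symm⟩

theorem centralizer_zpowers_eq {S : Type*} [Group S] (x : S) :
    Subgroup.centralizer ((Subgroup.zpowers x : Subgroup S) : Set S) = Subgroup.centralizer {x} := by
  apply le_antisymm
  · apply Subgroup.centralizer_le
    intro y hy
    rw [Set.mem_singleton_iff.mp hy]
    exact Subgroup.mem_zpowers x
  · intro c hc
    rw [Subgroup.mem_centralizer_iff] at hc ⊢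
    have hcx : Commute x c := hc x rfl
    intro h hh
    obtain ⟨k, rfl⟩ := Subgroup.mem_zpowers_iff.mp hh
    exact (hcx.zpow_left k).eq

theorem mem_normalizer_centralizer_singleton {S : Type*} [Group S] [Finite S] (u x : S)
    (h : u * x = x * u) :
    u ∈ Subgroup.normalizer ((Subgroup.centralizer {x} : Subgroup S) : Set S) := by
  apply mem_normalizer_of_cj_le
  rintro _ ⟨c, hc, rfl⟩
  show u * c * u⁻¹ ∈ Subgroup.centralizer {x}
  have hc' : c ∈ Subgroup.centralizer {x} := hc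
  rw [Subgroup.mem_centralizer_iff] at hc' ⊢
  intro y hy
  rw [Set.mem_singleton_iff.mp hy]
  have hcx : x * c = c * x := hc' x rfl
  have hux : u⁻¹ * x = x * u⁻¹ := ((show Commute u x from h).inv_left).eq
  calc x * (u * c * u⁻¹) = (x * u) * c * u⁻¹ := by group
    _ = (u * x) * c * u⁻¹ := by rw [h]
    _ = u * (x * c) * u⁻¹ := by group
    _ = u * (c * x) * u⁻¹ := by rw [hcx]
    _ = u * c * (x * u⁻¹) := by group
    _ = u * c * (u⁻¹ * x) := by rw [hux]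
    _ = u * c * u⁻¹ * x := by group

/-- Let S = PQ be a finite group with P a normal Sylow p-subgroup and Q elementary abelian of order q², q a prime different from p. If exactly two subgroups X₁, X₂ of order q in Q have a nontrivial centralizer in P, then P is the internal direct product of C_P(X₁) and C_P(X₂): they commute elementwise, meet trivially and generate P. -/
theorem result {S : Type*} [Group S] [Finite S] {p q : ℕ} [Fact p.Prime] [Fact q.Prime] (hpq : p ≠ q)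
    (P : Sylow p S) [(P : Subgroup S).Normal] (Q : Subgroup S) (hQ : Cfsg.IsElementaryAbelian q Q) (hQc : Nat.card Q = q ^ 2)
    (hS : (P : Subgroup S) ⊔ Q = ⊤)
    (X₁ X₂ : Subgroup S) (h₁ : X₁ ≤ Q) (h₂ : X₂ ≤ Q) (h₁₂ : X₁ ≠ X₂) (hc₁ : Nat.card X₁ = q) (hc₂ : Nat.card X₂ = q)
    (hf₁ : (P : Subgroup S) ⊓ Subgroup.centralizer (X₁ : Set S) ≠ ⊥)
    (hf₂ : (P : Subgroup S) ⊓ Subgroup.centralizer (X₂ : Set S) ≠ ⊥)
    (honly : ∀ X : Subgroup S, X ≤ Q → Nat.card X = q →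
      (P : Subgroup S) ⊓ Subgroup.centralizer (X : Set S) ≠ ⊥ → X = X₁ ∨ X = X₂) :
    ⁅(P : Subgroup S) ⊓ Subgroup.centralizer (X₁ : Set S), (P : Subgroup S) ⊓ Subgroup.centralizer (X₂ : Set S)⁆ = ⊥ ∧
      ((P : Subgroup S) ⊓ Subgroup.centralizer (X₁ : Set S)) ⊓ ((P : Subgroup S) ⊓ Subgroup.centralizer (X₂ : Set S)) = ⊥ ∧
      ((P : Subgroup S) ⊓ Subgroup.centralizer (X₁ : Set S)) ⊔ ((P : Subgroup S) ⊓ Subgroup.centralizer (X₂ : Set S)) = P := by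
  classical
  have hq := (Fact.out : q.Prime)
  have hp := (Fact.out : p.Prime)
  have hqp : q ≠ p := fun h => hpq h.symm
  have hQcomm : ∀ a ∈ Q, ∀ b ∈ Q, a * b = b * a := Cfsg.Agent.Helper10.elemAbelian_comm hQ
  have hgen : ∀ X : Subgroup S, Nat.card X = q → ∃ x ∈ X, x ≠ 1 ∧ Subgroup.zpowers x = X := by
    intro X hX
    have hXne : X ≠ ⊥ := by
      intro h
      rw [h, Subgroup.card_bot] at hX
      exact hq.one_lt.ne hX
    obtain ⟨⟨x, hx⟩, hx1⟩ := Subgroup.ne_bot_iff_exists_ne_one.mp hXne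
    have hxne : x ≠ 1 := fun h => hx1 (Subtype.ext h)
    have hdvd : orderOf x ∣ q := by
      have := orderOf_dvd_natCard (⟨x, hx⟩ : X)
      rwa [hX, Subgroup.orderOf_mk] at this
    have hord : orderOf x = q := by
      rcases (Nat.dvd_prime hq).mp hdvd with h | h
      · exact absurd (orderOf_eq_one_iff.mp h) hxne
      · exact h
    refine ⟨x, hx, hxne, Subgroup.eq_of_le_of_card_ge (Subgroup.zpowers_le.mpr hx) ?_⟩
    rw [Nat.card_zpowers, hord, hX]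
  obtain ⟨x₁, hx₁, hx₁ne, hX₁⟩ := hgen X₁ hc₁
  obtain ⟨x₂, hx₂, hx₂ne, hX₂⟩ := hgen X₂ hc₂
  have hx₁Q := h₁ hx₁
  have hx₂Q := h₂ hx₂
  have hx12 : x₁ * x₂ = x₂ * x₁ := hQcomm _ hx₁Q _ hx₂Q
  have hC₁ : Subgroup.centralizer (X₁ : Set S) = Subgroup.centralizer {x₁} := by
    rw [← hX₁]; exact centralizer_zpowers_eq x₁
  have hC₂ : Subgroup.centralizer (X₂ : Set S) = Subgroup.centralizer {x₂} := by
    rw [← hX₂]; exact centralizer_zpowers_eq x₂
  rw [hC₁, hC₂]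
  have hx₂X₁ : x₂ ∉ X₁ := by
    intro h
    apply h₁₂
    have hle : X₂ ≤ X₁ := by rw [← hX₂]; exact Subgroup.zpowers_le.mpr h
    exact (Subgroup.eq_of_le_of_card_ge hle (by rw [hc₁, hc₂])).symm
  have hx₁X₂ : x₁ ∉ X₂ := by
    intro h
    apply h₁₂
    have hle : X₁ ≤ X₂ := by rw [← hX₁]; exact Subgroup.zpowers_le.mpr h
    exact Subgroup.eq_of_le_of_card_ge hle (by rw [hc₁, hc₂])
  have hx₃Q : x₁ * x₂ ∈ Q := Q.mul_mem hx₁Q hx₂Q
  have hx₃ne : x₁ * x₂ ≠ 1 := by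
    intro h
    apply hx₂X₁
    have : x₂ = x₁⁻¹ := eq_inv_of_mul_eq_one_right h
    rw [this]; exact X₁.inv_mem hx₁
  have hord : orderOf (x₁ * x₂) = q := by
    have h1 : orderOf (x₁ * x₂) ∣ q := orderOf_dvd_of_pow_eq_one (hQ.2 _ hx₃Q)
    rcases (Nat.dvd_prime hq).mp h1 with h | h
    · exact absurd (orderOf_eq_one_iff.mp h) hx₃ne
    · exact h
  have hX₃c : Nat.card (Subgroup.zpowers (x₁ * x₂)) = q := by rw [Nat.card_zpowers, hord]
  have hX₃1 : Subgroup.zpowers (x₁ * x₂) ≠ X₁ := by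
    intro h
    apply hx₂X₁
    have h1 : x₁ * x₂ ∈ X₁ := h ▸ Subgroup.mem_zpowers _
    have : x₂ = x₁⁻¹ * (x₁ * x₂) := by group
    rw [this]; exact X₁.mul_mem (X₁.inv_mem hx₁) h1
  have hX₃2 : Subgroup.zpowers (x₁ * x₂) ≠ X₂ := by
    intro h
    apply hx₁X₂
    have h1 : x₁ * x₂ ∈ X₂ := h ▸ Subgroup.mem_zpowers _
    have : x₁ = (x₁ * x₂) * x₂⁻¹ := by group
    rw [this]; exact X₂.mul_mem h1 (X₂.inv_mem hx₂)
  have hX₃bot : (P : Subgroup S) ⊓ Subgroup.centralizer {x₁ * x₂} = ⊥ := by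
    by_contra hne
    rw [← centralizer_zpowers_eq] at hne
    rcases honly _ (Subgroup.zpowers_le.mpr hx₃Q) hX₃c hne with h | h
    · exact hX₃1 h
    · exact hX₃2 h
  have h3 : ∀ c ∈ (P : Subgroup S), c ∈ Subgroup.centralizer {x₁} → c ∈ Subgroup.centralizer {x₂} →
      c = 1 := by
    intro c hc h1 h2
    have : c ∈ (P : Subgroup S) ⊓ Subgroup.centralizer {x₁ * x₂} := by
      refine Subgroup.mem_inf.mpr ⟨hc, ?_⟩
      rw [Subgroup.mem_centralizer_iff] at h1 h2 ⊢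
      intro y hy
      rw [Set.mem_singleton_iff.mp hy]
      calc x₁ * x₂ * c = x₁ * (x₂ * c) := by group
        _ = x₁ * (c * x₂) := by rw [h2 x₂ rfl]
        _ = (x₁ * c) * x₂ := by group
        _ = (c * x₁) * x₂ := by rw [h1 x₁ rfl]
        _ = c * (x₁ * x₂) := by group
    rw [hX₃bot] at this
    exact Subgroup.mem_bot.mp this
  have hQP : Q ≤ Subgroup.normalizer ((P : Subgroup S) : Set S) := by
    rw [Subgroup.normalizer_eq_top]; exact le_top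
  have hQC : ∀ x ∈ Q, Q ≤ Subgroup.normalizer ((Subgroup.centralizer {x} : Subgroup S) : Set S) :=
    fun x hx u hu => mem_normalizer_centralizer_singleton u x (hQcomm u hu x hx)
  have hpg : ∀ Y : Subgroup S, Y ≤ (P : Subgroup S) → ¬ q ∣ Nat.card Y := by
    intro Y hY hdvd
    obtain ⟨k, hk⟩ := IsPGroup.iff_card.mp (P.2.to_le hY)
    rw [hk] at hdvd
    exact hqp ((Nat.prime_dvd_prime_iff_eq hq hp).mp (hq.dvd_of_dvd_pow hdvd))
  have hF1 : ∀ Y : Subgroup S, Y ≤ (P : Subgroup S) → Q ≤ Subgroup.normalizer (Y : Set S) →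
      Y ≤ (Y ⊓ Subgroup.centralizer {x₁}) ⊔ (Y ⊓ Subgroup.centralizer {x₂}) := by
    intro Y hY hQY
    have hgenY := Cfsg.Agent.Helper10.coprime_generation q Q Y hQ (hpg Y hY) hQY
    have hle : Y ≤ ⨆ B : {B : Subgroup S // B ≤ Q ∧ B.relIndex Q ≤ q},
        Y ⊓ Subgroup.centralizer ((B : Subgroup S) : Set S) := le_of_eq hgenY
    refine hle.trans (iSup_le ?_)
    rintro ⟨B, hBQ, hBi⟩
    show Y ⊓ Subgroup.centralizer (B : Set S) ≤ _
    have hmul : Nat.card B * B.relIndex Q = q ^ 2 := by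
      rw [← hQc, ← Subgroup.relIndex_bot_left, ← Subgroup.relIndex_bot_left]
      exact Subgroup.relIndex_mul_relIndex ⊥ B Q bot_le hBQ
    have hdvd : B.relIndex Q ∣ q ^ 2 := Dvd.intro_left _ hmul
    obtain ⟨m, hm, hr⟩ := (Nat.dvd_prime_pow hq).mp hdvd
    have hm' : m = 0 ∨ m = 1 := by
      rcases Nat.lt_or_ge m 2 with h | h
      · omega
      · exfalso
        have hm2 : m = 2 := le_antisymm hm h
        rw [hr, hm2] at hBi
        have : q < q ^ 2 := by nlinarith [hq.one_lt]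
        omega
    rcases hm' with h0 | h1
    · rw [hr, h0, pow_zero, mul_one] at hmul
      have hBQ' : B = Q := Subgroup.eq_of_le_of_card_ge hBQ (le_of_eq (by rw [hmul, hQc]))
      rw [hBQ']
      refine le_sup_of_le_left (inf_le_inf_left _ (Subgroup.centralizer_le ?_))
      intro y hy
      rw [Set.mem_singleton_iff.mp hy]; exact hx₁Q
    · rw [hr, h1, pow_one] at hmul
      have hBc : Nat.card B = q := by
        have : Nat.card B * q = q * q := by rw [hmul]; ring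
        exact Nat.eq_of_mul_eq_mul_right hq.pos this
      by_cases hB : (P : Subgroup S) ⊓ Subgroup.centralizer (B : Set S) = ⊥
      · have : Y ⊓ Subgroup.centralizer (B : Set S) ≤ ⊥ := by
          rw [← hB]; exact inf_le_inf_right _ hY
        exact this.trans bot_le
      · rcases honly B hBQ hBc hB with h | h
        · rw [h, hC₁]; exact le_sup_left
        · rw [h, hC₂]; exact le_sup_right
  obtain ⟨P₂, hP₂⟩ : ∃ P₂ : Subgroup S, P₂ = (P : Subgroup S) ⊓ Subgroup.centralizer {x₂} := ⟨_, rfl⟩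
  have hQP₂ : Q ≤ Subgroup.normalizer (P₂ : Set S) := by
    rw [hP₂]; exact Cfsg.Agent.Helper10.le_normalizer_inf hQP (hQC x₂ hx₂Q)
  have hP₂P : P₂ ≤ (P : Subgroup S) := by rw [hP₂]; exact inf_le_left
  have hx₁P₂ : x₁ ∈ Subgroup.normalizer (P₂ : Set S) := hQP₂ hx₁Q
  have hP₂fix : P₂ ⊓ Subgroup.centralizer {x₁} = ⊥ := by
    rw [eq_bot_iff]
    intro c hc
    obtain ⟨hc1, hc2⟩ := Subgroup.mem_inf.mp hc
    rw [hP₂] at hc1
    obtain ⟨hc3, hc4⟩ := Subgroup.mem_inf.mp hc1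
    rw [Subgroup.mem_bot]; exact h3 c hc3 hc2 hc4
  have hP₂surj := fpf_surj P₂ x₁ hx₁P₂ hP₂fix
  have hF4 : ∀ a ∈ (P : Subgroup S), a ∈ Subgroup.centralizer {x₁} →
      a ∈ Subgroup.normalizer (P₂ : Set S) → ∀ b ∈ P₂, a * b = b * a := by
    obtain ⟨A₁, hA₁⟩ : ∃ A₁ : Subgroup S, A₁ = ((P : Subgroup S) ⊓ Subgroup.centralizer {x₁}) ⊓
      Subgroup.normalizer (P₂ : Set S) := ⟨_, rfl⟩
    have hQA₁ : Q ≤ Subgroup.normalizer (A₁ : Set S) := by
      rw [hA₁]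
      exact Cfsg.Agent.Helper10.le_normalizer_inf
        (Cfsg.Agent.Helper10.le_normalizer_inf hQP (hQC x₁ hx₁Q)) (hQP₂.trans Subgroup.le_normalizer)
    have hA₁fix : A₁ ⊓ Subgroup.centralizer {x₂} = ⊥ := by
      rw [eq_bot_iff]
      intro c hc
      obtain ⟨hc1, hc2⟩ := Subgroup.mem_inf.mp hc
      rw [hA₁] at hc1
      obtain ⟨hc3, -⟩ := Subgroup.mem_inf.mp hc1
      obtain ⟨hc4, hc5⟩ := Subgroup.mem_inf.mp hc3
      rw [Subgroup.mem_bot]; exact h3 c hc4 hc5 hc2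
    have hA₁surj := fpf_surj A₁ x₂ (hQA₁ hx₂Q) hA₁fix
    intro a haP ha1 haN b hb
    have haA : a ∈ A₁ := by
      rw [hA₁]; exact Subgroup.mem_inf.mpr ⟨Subgroup.mem_inf.mpr ⟨haP, ha1⟩, haN⟩
    obtain ⟨y, hy, rfl⟩ := hA₁surj a haA
    have hyN : y ∈ Subgroup.normalizer (P₂ : Set S) := by
      rw [hA₁] at hy; exact (Subgroup.mem_inf.mp hy).2
    have hyb : y * b * y⁻¹ ∈ P₂ := (Subgroup.mem_normalizer_iff.mp hyN b).mp hb
    have hx₂c : ∀ c ∈ P₂, x₂ * c = c * x₂ := by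
      intro c hc
      rw [hP₂] at hc
      exact (Subgroup.mem_centralizer_iff.mp (Subgroup.mem_inf.mp hc).2) x₂ rfl
    have e1 := hx₂c b hb
    have e2 := hx₂c _ hyb
    have e1' : x₂⁻¹ * b = b * x₂⁻¹ := ((show Commute x₂ b from e1).inv_left).eq
    calc y⁻¹ * (x₂ * y * x₂⁻¹) * b = y⁻¹ * (x₂ * y * (x₂⁻¹ * b)) := by group
      _ = y⁻¹ * (x₂ * y * (b * x₂⁻¹)) := by rw [e1']
      _ = y⁻¹ * (x₂ * (y * b * y⁻¹)) * y * x₂⁻¹ := by group
      _ = y⁻¹ * ((y * b * y⁻¹) * x₂) * y * x₂⁻¹ := by rw [e2]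
      _ = b * (y⁻¹ * (x₂ * y * x₂⁻¹)) := by group
  have hF5 : (P : Subgroup S) ≤ Subgroup.normalizer (P₂ : Set S) := by
    obtain ⟨N₂, hN₂⟩ : ∃ N₂ : Subgroup S, N₂ = Subgroup.normalizer (P₂ : Set S) ⊓ (P : Subgroup S) :=
      ⟨_, rfl⟩
    have hN₂P : N₂ ≤ (P : Subgroup S) := by rw [hN₂]; exact inf_le_right
    have hP₂N₂ : P₂ ≤ N₂ := by rw [hN₂]; exact le_inf Subgroup.le_normalizer hP₂P
    have hQN₂ : Q ≤ Subgroup.normalizer (N₂ : Set S) := by
      rw [hN₂]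
      exact Cfsg.Agent.Helper10.le_normalizer_inf (hQP₂.trans Subgroup.le_normalizer) hQP
    by_contra hcon
    have hlt : N₂ < (P : Subgroup S) := by
      refine lt_of_le_of_ne hN₂P ?_
      intro heq
      apply hcon
      rw [← heq, hN₂]; exact inf_le_left
    have hgrow := lt_normalizer_inf_of_lt P.2 hlt
    have hQN₃ : Q ≤ Subgroup.normalizer
        ((Subgroup.normalizer (N₂ : Set S) ⊓ (P : Subgroup S) : Subgroup S) : Set S) :=
      Cfsg.Agent.Helper10.le_normalizer_inf (hQN₂.trans Subgroup.le_normalizer) hQP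
    have h1 := hF1 _ inf_le_right hQN₃
    have h2 := hF1 N₂ hN₂P hQN₂
    apply not_le_of_gt hgrow
    refine h1.trans (sup_le ?_ ?_)
    · intro a ha
      obtain ⟨ha1, ha2⟩ := Subgroup.mem_inf.mp ha
      obtain ⟨haN, haP⟩ := Subgroup.mem_inf.mp ha1
      rw [hN₂]
      refine Subgroup.mem_inf.mpr ⟨?_, haP⟩
      apply mem_normalizer_of_cj_le
      rintro _ ⟨b, hb, rfl⟩
      show a * b * a⁻¹ ∈ P₂
      obtain ⟨y, hy, rfl⟩ := hP₂surj b hb
      have hn : a * y * a⁻¹ ∈ N₂ := (Subgroup.mem_normalizer_iff.mp haN y).mp (hP₂N₂ hy)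
      have hn' := h2 hn
      have hnorm : N₂ ⊓ Subgroup.centralizer {x₁} ≤ Subgroup.normalizer (P₂ : Set S) := by
        rw [hN₂]; exact inf_le_left.trans inf_le_left
      have hle2 : N₂ ⊓ Subgroup.centralizer {x₂} ≤ P₂ := by
        rw [hP₂]; exact inf_le_inf_right _ hN₂P
      have hn'' : a * y * a⁻¹ ∈ P₂ ⊔ (N₂ ⊓ Subgroup.centralizer {x₁}) := by
        have hle3 : (N₂ ⊓ Subgroup.centralizer {x₁}) ⊔ (N₂ ⊓ Subgroup.centralizer {x₂}) ≤
            P₂ ⊔ (N₂ ⊓ Subgroup.centralizer {x₁}) :=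
          sup_le le_sup_right (hle2.trans le_sup_left)
        exact hle3 hn'
      obtain ⟨b', hb', a₁, ha₁, hdec⟩ := Cfsg.Agent.Helper13.mem_sup_of_le_normalizer hnorm hn''
      have hax : x₁ * a = a * x₁ := (Subgroup.mem_centralizer_iff.mp ha2) x₁ rfl
      have ha₁x : x₁ * a₁ = a₁ * x₁ :=
        (Subgroup.mem_centralizer_iff.mp (Subgroup.mem_inf.mp ha₁).2) x₁ rfl
      have ha₁N : a₁ ∈ Subgroup.normalizer (P₂ : Set S) := hnorm ha₁
      have hcore : b'⁻¹ * (x₁ * b' * x₁⁻¹) ∈ P₂ :=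
        P₂.mul_mem (P₂.inv_mem hb') ((Subgroup.mem_normalizer_iff.mp hx₁P₂ b').mp hb')
      have hconj : a₁⁻¹ * (b'⁻¹ * (x₁ * b' * x₁⁻¹)) * a₁⁻¹⁻¹ ∈ P₂ :=
        (Subgroup.mem_normalizer_iff.mp (Subgroup.inv_mem _ ha₁N) _).mp hcore
      have hax' : x₁⁻¹ * a⁻¹ = a⁻¹ * x₁⁻¹ := ((show Commute x₁ a from hax).inv_inv).eq
      have ha₁x' : a₁ * x₁⁻¹ = x₁⁻¹ * a₁ := (((show Commute x₁ a₁ from ha₁x).inv_left).eq).symm
      have e : a * (y⁻¹ * (x₁ * y * x₁⁻¹)) * a⁻¹ =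
          a₁⁻¹ * (b'⁻¹ * (x₁ * b' * x₁⁻¹)) * a₁⁻¹⁻¹ := by
        calc a * (y⁻¹ * (x₁ * y * x₁⁻¹)) * a⁻¹
            = (a * y * a⁻¹)⁻¹ * (a * x₁) * y * (x₁⁻¹ * a⁻¹) := by group
          _ = (a * y * a⁻¹)⁻¹ * (x₁ * a) * y * (a⁻¹ * x₁⁻¹) := by rw [← hax, hax']
          _ = (a * y * a⁻¹)⁻¹ * x₁ * (a * y * a⁻¹) * x₁⁻¹ := by group
          _ = (b' * a₁)⁻¹ * x₁ * (b' * a₁) * x₁⁻¹ := by rw [hdec]
          _ = a₁⁻¹ * b'⁻¹ * x₁ * b' * (a₁ * x₁⁻¹) := by group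
          _ = a₁⁻¹ * b'⁻¹ * x₁ * b' * (x₁⁻¹ * a₁) := by rw [ha₁x']
          _ = a₁⁻¹ * (b'⁻¹ * (x₁ * b' * x₁⁻¹)) * a₁⁻¹⁻¹ := by group
      rw [e]; exact hconj
    · intro c hc
      apply hP₂N₂
      rw [hP₂]
      exact Subgroup.mem_inf.mpr ⟨(Subgroup.mem_inf.mp (Subgroup.mem_inf.mp hc).1).2,
        (Subgroup.mem_inf.mp hc).2⟩
  have hcomm : ∀ a ∈ (P : Subgroup S) ⊓ Subgroup.centralizer {x₁},
      ∀ b ∈ (P : Subgroup S) ⊓ Subgroup.centralizer {x₂}, a * b = b * a := by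
    intro a ha b hb
    obtain ⟨ha1, ha2⟩ := Subgroup.mem_inf.mp ha
    exact hF4 a ha1 ha2 (hF5 ha1) b (by rw [hP₂]; exact hb)
  refine ⟨?_, ?_, ?_⟩
  · rw [Subgroup.commutator_eq_bot_iff_le_centralizer]
    intro a ha
    rw [Subgroup.mem_centralizer_iff]
    intro b hb
    exact (hcomm a ha b hb).symm
  · rw [eq_bot_iff]
    intro c hc
    obtain ⟨hc1, hc2⟩ := Subgroup.mem_inf.mp hc
    rw [Subgroup.mem_bot]
    exact h3 c (Subgroup.mem_inf.mp hc1).1 (Subgroup.mem_inf.mp hc1).2 (Subgroup.mem_inf.mp hc2).2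
  · exact le_antisymm (sup_le inf_le_left inf_le_left) (hF1 (P : Subgroup S) le_rfl hQP)

end Cfsg.Agent.S1900
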