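import Cfsg.Statements.S1901
import Cfsg.Agent.Helper13.PSolv2

set_option autoImplicit false
open Cfsg

namespace Cfsg.Agent.S1901

/-- Let G be a finite p-solvable group and Q a subgroup of order prime to p such that p divides the index of C_G(Q) in N_G(Q). Then Q normalizes no Sylow p-subgroup of G. -/
theorem result {G : Type*} [Group G] [Finite G] {p : ℕ} [Fact p.Prime]
    (hG : Cfsg.IsPSolvable p G) (Q : Subgroup G) (hQ : ¬ p ∣ Nat.card Q)
    (hA : p ∣ (Subgroup.centralizer (Q : Set G)).relIndex (Subgroup.normalizer (Q : Set G)))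
    (P : Sylow p G) : ¬ Q ≤ Subgroup.normalizer ((P : Subgroup G) : Set G) := by
  have hp := (Fact.out : p.Prime)
  intro hQP
  obtain ⟨R, -, hRN, hRp, hRidx⟩ := Cfsg.Agent.Helper13.exists_sylow_ge_in (p := p)
    (Subgroup.normalizer (Q : Set G)) ⊥ bot_le IsPGroup.of_bot
  have hQc : (Nat.card Q).Coprime p := ((Nat.Prime.coprime_iff_not_dvd hp).mpr hQ).symm
  have hRC : R ≤ Subgroup.centralizer (Q : Set G) := fun x hx =>
    Cfsg.Agent.Helper13.psolv_centralize hG P Q hQc hQP x (hRN hx)
      (hRp.to_le (by rw [Subgroup.zpowers_le]; exact hx))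
  exact hRidx (hA.trans (Subgroup.relIndex_dvd_of_le_left _ hRC))

end Cfsg.Agent.S1901
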