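import Cfsg.Statements.S1907
import Cfsg.Agent.Helper13.PPrime

set_option autoImplicit false
open Cfsg

namespace Cfsg.Agent.S1907

/-- Let P be a Sylow p-subgroup of a finite group G, H = P ∩ O_{p',p}(G), N = N_G(H) and D = O_{p'}(G). (a) If y is an element of p-power order of N and d ∈ D with d⁻¹ y d ∈ N, then d = d₁ d₂ with d₁ ∈ C_D(y) and d₂ ∈ C_D(H). (b) Two elements of P that are conjugate in G are conjugate in N. -/
theorem result {G : Type*} [Group G] [Finite G] {p : ℕ} [Fact p.Prime] (P : Sylow p G) :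
    (∀ y ∈ Subgroup.normalizer (((P : Subgroup G) ⊓ Cfsg.pPrimePCore p G : Subgroup G) : Set G), (∃ k : ℕ, orderOf y = p ^ k) →
      ∀ d ∈ Cfsg.pPrimeCore p G, d⁻¹ * y * d ∈ Subgroup.normalizer (((P : Subgroup G) ⊓ Cfsg.pPrimePCore p G : Subgroup G) : Set G) →
        ∃ d₁ ∈ Cfsg.pPrimeCore p G ⊓ Subgroup.centralizer ({y} : Set G),
          ∃ d₂ ∈ Cfsg.pPrimeCore p G ⊓ Subgroup.centralizer (((P : Subgroup G) ⊓ Cfsg.pPrimePCore p G : Subgroup G) : Set G), d = d₁ * d₂) ∧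
    ∀ x y : G, x ∈ (P : Subgroup G) → y ∈ (P : Subgroup G) → IsConj x y →
      ∃ n ∈ Subgroup.normalizer (((P : Subgroup G) ⊓ Cfsg.pPrimePCore p G : Subgroup G) : Set G), n * x * n⁻¹ = y := by
  have hD : (Nat.card (Cfsg.pPrimeCore p G)).Coprime p := Cfsg.Agent.Helper10.pPrimeCore_coprime p G
  haveI hKn : (Cfsg.pPrimePCore p G).Normal := by unfold Cfsg.pPrimePCore; infer_instance
  have hDK : Cfsg.pPrimeCore p G ≤ Cfsg.pPrimePCore p G := by
    intro d hd
    show d ∈ (Cfsg.pCore p (G ⧸ Cfsg.pPrimeCore p G)).comap (QuotientGroup.mk' (Cfsg.pPrimeCore p G))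
    rw [Subgroup.mem_comap]
    have : (QuotientGroup.mk' (Cfsg.pPrimeCore p G)) d = 1 := (QuotientGroup.eq_one_iff d).mpr hd
    rw [this]; exact Subgroup.one_mem _
  have hKP : Cfsg.pPrimePCore p G ≤ (P : Subgroup G) ⊔ Cfsg.pPrimeCore p G := by
    intro k hk
    have hk' : (QuotientGroup.mk' (Cfsg.pPrimeCore p G)) k ∈ Cfsg.pCore p (G ⧸ Cfsg.pPrimeCore p G) := hk
    have hle : Cfsg.pCore p (G ⧸ Cfsg.pPrimeCore p G) ≤
        (P : Subgroup G).map (QuotientGroup.mk' (Cfsg.pPrimeCore p G)) := by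
      apply sSup_le
      rintro N ⟨hNn, hNp⟩
      haveI := hNn
      exact hNp.le_sylow_of_normal (P.mapSurjective (QuotientGroup.mk'_surjective _))
    obtain ⟨u, hu, huk⟩ := hle hk'
    have h1 : u⁻¹ * k ∈ Cfsg.pPrimeCore p G := QuotientGroup.eq.mp huk
    have e : k = u * (u⁻¹ * k) := by group
    rw [e]; exact Subgroup.mul_mem_sup hu h1
  constructor
  · intro y hy hyord d hd hdN
    obtain ⟨k, hk⟩ := hyord
    have hyp : IsPGroup p (Subgroup.zpowers y) :=
      Cfsg.Agent.Helper13.isPGroup_zpowers_of_pow_eq_one y k (by rw [← hk]; exact pow_orderOf_eq_one y)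
    exact Cfsg.Agent.Helper13.pprime_part_a P _ _ hD hKP hDK y hy hyp d hd hdN
  · intro x y hx hy hxy
    exact Cfsg.Agent.Helper13.pprime_part_b P _ _ hD hKP hDK x y hx hy hxy

end Cfsg.Agent.S1907
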