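import Cfsg.Statements.S1939
import Cfsg.Agent.Helper13.Syl

set_option autoImplicit false
open Cfsg

namespace Cfsg.Agent.S1939

/-- Let S be a Sylow p-subgroup of the finite group G and a an element of S that is the only G-conjugate of a lying in S. Then every power of a has the same property: for every n, the only G-conjugate of a^n lying in S is a^n. -/
theorem result {G : Type*} [Group G] [Finite G] {p : ℕ} [Fact p.Prime] (S : Sylow p G) (a : G)
    (haS : a ∈ (S : Subgroup G)) (hwc : ∀ g : G, g * a * g⁻¹ ∈ (S : Subgroup G) → g * a * g⁻¹ = a) (n : ℕ) :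
    ∀ g : G, g * a ^ n * g⁻¹ ∈ (S : Subgroup G) → g * a ^ n * g⁻¹ = a ^ n := by
  intro g hg
  have hacen : ∀ s ∈ (S : Subgroup G), s * a = a * s := by
    intro s hs
    have h1 : s * a * s⁻¹ ∈ (S : Subgroup G) :=
      (S : Subgroup G).mul_mem ((S : Subgroup G).mul_mem hs haS) ((S : Subgroup G).inv_mem hs)
    have h2 := hwc s h1
    exact mul_inv_eq_iff_eq_mul.mp h2
  generalize hb' : g * a ^ n * g⁻¹ = b' at hg ⊢
  have hS'C : ((g • S : Sylow p G) : Subgroup G) ≤ Subgroup.centralizer ({b'} : Set G) := by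
    intro x hx
    have hx' : g⁻¹ * x * g ∈ S := (Cfsg.Agent.Helper13.mem_smul_sylow S g x).mp hx
    have h1 := hacen _ hx'
    have h2 : (g⁻¹ * x * g) * a ^ n = a ^ n * (g⁻¹ * x * g) := (Commute.pow_right h1 n)
    rw [Subgroup.mem_centralizer_iff]
    intro h0 hh0
    rw [Set.mem_singleton_iff.mp hh0]
    calc b' * x = g * (a ^ n * (g⁻¹ * x * g)) * g⁻¹ := by rw [← hb']; group
      _ = g * ((g⁻¹ * x * g) * a ^ n) * g⁻¹ := by rw [h2]
      _ = x * b' := by rw [← hb']; group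
  have haC : a ∈ Subgroup.centralizer ({b'} : Set G) := by
    rw [Subgroup.mem_centralizer_iff]
    intro h0 hh0
    rw [Set.mem_singleton_iff.mp hh0]
    exact hacen b' hg
  obtain ⟨c, hcC, hc⟩ := Cfsg.Agent.Helper13.exists_conj_mem_sylow_in _ (g • S) hS'C a haC
    (Cfsg.Agent.Helper13.isPGroup_zpowers_of_mem S a haS)
  have h3 : g⁻¹ * (c * a * c⁻¹) * g ∈ S := (Cfsg.Agent.Helper13.mem_smul_sylow S g _).mp hc
  have h4 : (g⁻¹ * c) * a * (g⁻¹ * c)⁻¹ = a := by
    apply hwc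
    have : (g⁻¹ * c) * a * (g⁻¹ * c)⁻¹ = g⁻¹ * (c * a * c⁻¹) * g := by group
    rw [this]; exact h3
  have h5 : (g⁻¹ * c) * a = a * (g⁻¹ * c) := mul_inv_eq_iff_eq_mul.mp h4
  have h6 : (g⁻¹ * c) * a ^ n = a ^ n * (g⁻¹ * c) := Commute.pow_right h5 n
  have h7 : b' * c = c * b' := (Subgroup.mem_centralizer_iff.mp hcC) b' rfl
  have h8 : c * a ^ n * c⁻¹ = b' := by
    calc c * a ^ n * c⁻¹ = g * ((g⁻¹ * c) * a ^ n) * c⁻¹ := by group
      _ = g * (a ^ n * (g⁻¹ * c)) * c⁻¹ := by rw [h6]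
      _ = b' := by rw [← hb']; group
  calc b' = c⁻¹ * (b' * c) := by rw [h7]; group
    _ = c⁻¹ * (c * a ^ n * c⁻¹ * c) := by rw [h8]
    _ = a ^ n := by group

end Cfsg.Agent.S1939
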