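import Cfsg.Statements.S1940
import Mathlib

set_option autoImplicit false
open Cfsg

namespace Cfsg.Agent.S1940

/-- Let the finite group L act by automorphisms on the finite abelian group M, and let N be an L-invariant subgroup of M such that M/N is a p-group on which L acts trivially (every l • m lies in the coset mN). If every element of M is a product of an element of N and an element fixed by a Sylow p-subgroup T of L, then every element of M is a product of an element of N and an element fixed by all of L. -/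
theorem result {L : Type*} [Group L] [Finite L] {M : Type*} [CommGroup M] [Finite M] [MulDistribMulAction L M]
    {p : ℕ} [Fact p.Prime] (N : Subgroup M) (hN : ∀ (l : L) (m : M), m ∈ N → l • m ∈ N)
    (hquot : IsPGroup p (M ⧸ N)) (htriv : ∀ (l : L) (m : M), (l • m) * m⁻¹ ∈ N) (T : Sylow p L)
    (hT : ∀ m : M, ∃ n ∈ N, ∃ c : M, (∀ t ∈ (T : Subgroup L), t • c = c) ∧ m = n * c) :
    ∀ m : M, ∃ n ∈ N, ∃ c : M, (∀ l : L, l • c = c) ∧ m = n * c := by
  classical
  intro m
  obtain ⟨n, hn, c, hc, rfl⟩ := hT m
  -- the norm of `c` over the cosets of `T`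
  let f : L ⧸ (T : Subgroup L) → M := Quotient.lift (fun l : L => l • c) (by
    intro l₁ l₂ h12
    have h : l₁⁻¹ * l₂ ∈ (T : Subgroup L) := QuotientGroup.leftRel_apply.mp h12
    show l₁ • c = l₂ • c
    have e : l₂ = l₁ * (l₁⁻¹ * l₂) := by group
    rw [e, mul_smul, hc _ h])
  have hf : ∀ l : L, f (QuotientGroup.mk l) = l • c := fun l => rfl
  haveI : Fintype (L ⧸ (T : Subgroup L)) := Fintype.ofFinite _
  set c' : M := ∏ q : L ⧸ (T : Subgroup L), f q with hc'
  have hfix : ∀ l : L, l • c' = c' := by
    intro l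
    rw [hc', Finset.smul_prod']
    have h1 : ∀ q : L ⧸ (T : Subgroup L), l • f q = f (l • q) := by
      intro q
      induction q using QuotientGroup.induction_on with
      | _ l' =>
        rw [hf, MulAction.Quotient.smul_mk, hf, smul_eq_mul, mul_smul]
    simp_rw [h1]
    exact Equiv.prod_comp (MulAction.toPerm l) f
  set d := Fintype.card (L ⧸ (T : Subgroup L)) with hd
  have hv : c' * (c ^ d)⁻¹ ∈ N := by
    have h1 : ∏ q : L ⧸ (T : Subgroup L), (f q * c⁻¹) ∈ N := by
      apply Subgroup.prod_mem
      intro q _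
      induction q using QuotientGroup.induction_on with
      | _ l' => rw [hf]; exact htriv l' c
    rw [Finset.prod_mul_distrib, Finset.prod_const, Finset.card_univ, inv_pow] at h1
    exact h1
  have hdp : ¬ p ∣ d := by
    have := T.not_dvd_index
    rw [Subgroup.index_eq_card, Nat.card_eq_fintype_card] at this
    exact this
  obtain ⟨e, he⟩ := hquot (QuotientGroup.mk c)
  have hw : c ^ p ^ e ∈ N := by
    rw [← QuotientGroup.mk_pow, QuotientGroup.eq_one_iff] at he
    exact he
  have hp := (Fact.out : p.Prime)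
  rcases Nat.eq_zero_or_pos e with h0 | hpos
  · -- c itself lies in N
    rw [h0, pow_zero, pow_one] at hw
    exact ⟨n * c, N.mul_mem hn hw, 1, fun l => smul_one l, (mul_one _).symm⟩
  · have hcop : Nat.Coprime d (p ^ e) :=
      Nat.Coprime.pow_right e ((Nat.Prime.coprime_iff_not_dvd hp).mpr hdp).symm
    have h1lt : 1 < p ^ e := Nat.one_lt_pow hpos.ne' hp.one_lt
    obtain ⟨a, -, ha⟩ := Nat.exists_mul_mod_eq_one_of_coprime hcop h1lt
    have hda : d * a = p ^ e * (d * a / p ^ e) + 1 := by
      have := Nat.div_add_mod (d * a) (p ^ e)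
      rw [ha] at this
      exact this.symm
    set j := d * a / p ^ e with hj
    set v := c' * (c ^ d)⁻¹ with hvdef
    set w := c ^ p ^ e with hwdef
    have hc'eq : c' = v * c ^ d := by rw [hvdef, inv_mul_cancel_right]
    have hpow : c' ^ a = v ^ a * w ^ j * c := by
      rw [hc'eq, mul_pow, ← pow_mul, hda, pow_add, pow_mul, pow_one, mul_assoc]
    refine ⟨n * (v ^ a * w ^ j)⁻¹, N.mul_mem hn (N.inv_mem (N.mul_mem (N.pow_mem hv a) (N.pow_mem hw j))),
      c' ^ a, fun l => by rw [smul_pow', hfix], ?_⟩
    rw [hpow, mul_assoc n, inv_mul_cancel_left]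

end Cfsg.Agent.S1940
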