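import Cfsg.Statements.S1941
import Mathlib
import Cfsg.Agent.Helper13.Cocycle
import Cfsg.Agent.Helper10.FStar
import Cfsg.Agent.Helper10.PCons
import Cfsg.Agent.S0010

set_option autoImplicit false
open Cfsg

open Cfsg.Agent.Helper13
namespace Cfsg.Agent.S1941

/-- Let G be a finite group with no nontrivial normal subgroup of order prime to p, T a Sylow p-subgroup of G and E(G) the layer of G (the subgroup generated by its components). An automorphism of G of p-power order that fixes T and E(G) elementwise is inner. -/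
theorem result {G : Type*} [Group G] [Finite G] {p : ℕ} [Fact p.Prime] (hcore : Cfsg.pPrimeCore p G = ⊥)
    (T : Sylow p G) (α : MulAut G) (hα : ∃ j : ℕ, orderOf α = p ^ j) (hfixT : ∀ x ∈ (T : Subgroup G), α x = x)
    (hfixE : ∀ x ∈ Cfsg.layer G, α x = x) : ∃ g : G, ∀ x : G, α x = g * x * g⁻¹ := by
  classical
  have hF : Cfsg.fittingSubgroup G = Cfsg.pCore p G :=
    Cfsg.Agent.Helper10.fitting_eq_pCore_of_pPrimeCore_bot p hcore
  haveI hpn : (Cfsg.pCore p G).Normal := Cfsg.Agent.S0010.pCore_normal p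
  have hpp : IsPGroup p (Cfsg.pCore p G) := Cfsg.Agent.S0010.pCore_isPGroup p
  have hOT : Cfsg.pCore p G ≤ (T : Subgroup G) := hpp.le_sylow_of_normal T
  have hfixF : ∀ x ∈ Cfsg.generalizedFittingSubgroup G, α x = x := by
    have hle : Cfsg.generalizedFittingSubgroup G ≤
        MonoidHom.eqLocus α.toMonoidHom (MonoidHom.id G) := by
      apply sup_le
      · intro x hx; exact hfixE x hx
      · rw [hF]; intro x hx; exact hfixT x (hOT hx)
    intro x hx
    exact hle hx
  haveI hFn : (Cfsg.generalizedFittingSubgroup G).Normal := Cfsg.Agent.Helper10.gfitting_normal G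
  obtain ⟨Z, hZdef⟩ : ∃ Z : Subgroup G,
      Z = Subgroup.centralizer (Cfsg.generalizedFittingSubgroup G : Set G) := ⟨_, rfl⟩
  have hZF : Z ≤ Cfsg.generalizedFittingSubgroup G := by
    rw [hZdef]; exact Cfsg.Agent.Helper10.centralizer_gfitting_le G
  haveI hZn : Z.Normal := by rw [hZdef]; exact Subgroup.normal_centralizer
  have hZc : ∀ a ∈ Z, ∀ b ∈ Z, a * b = b * a := by
    intro a ha b hb
    rw [hZdef] at ha
    exact ((Subgroup.mem_centralizer_iff.mp ha) b (hZF hb)).symm
  have hZnil : Group.IsNilpotent ↥Z := by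
    letI cg : CommGroup ↥Z := { (inferInstance : Group ↥Z) with
      mul_comm := fun a b => Subtype.ext (hZc a a.2 b b.2) }
    exact CommGroup.isNilpotent
  have hZO : Z ≤ Cfsg.pCore p G := by
    rw [← hF]; exact le_sSup ⟨hZn, hZnil⟩
  have hcop : Nat.Coprime (T : Subgroup G).index (Nat.card Z) := by
    obtain ⟨k, hk⟩ := IsPGroup.iff_card.mp (hpp.to_le hZO)
    rw [hk]
    exact Nat.Coprime.pow_right k
      ((Nat.Prime.coprime_iff_not_dvd Fact.out).mpr T.not_dvd_index).symm
  have hδ : ∀ g, α g * g⁻¹ ∈ Z := by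
    intro g
    rw [hZdef, Subgroup.mem_centralizer_iff]
    intro f hf
    have h1 : α (g⁻¹ * f * g) = g⁻¹ * f * g := hfixF _ (by
      have := hFn.conj_mem f hf g⁻¹
      rwa [inv_inv] at this)
    rw [map_mul, map_mul, map_inv, hfixF f hf] at h1
    calc f * (α g * g⁻¹) = α g * ((α g)⁻¹ * f * α g) * g⁻¹ := by group
      _ = α g * (g⁻¹ * f * g) * g⁻¹ := by rw [h1]
      _ = α g * g⁻¹ * f := by group
  obtain ⟨z, -, hz⟩ := inner_of_cocycle (T : Subgroup G) Z hZc hcop α hfixT hδ
  exact ⟨z, hz⟩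

end Cfsg.Agent.S1941
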