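import Cfsg.Statements.S1944
import Mathlib
import Cfsg.Agent.Helper13.Trace
import Cfsg.Agent.Helper13.PPrime2
import Cfsg.Agent.Helper17.Norm
import Cfsg.Agent.Helper17.SPE
import Cfsg.Agent.Helper10.PCons
import Cfsg.Agent.Helper10.NormP

set_option autoImplicit false
open Cfsg

open Cfsg.Agent.Helper13 Cfsg.Agent.Helper17
namespace Cfsg.Agent.S1944

/-- Let S be a Sylow p-subgroup of the finite group G and suppose that the centre Z(S) lies in O_{p',p}(G). The elements of S each of which is its only G-conjugate in S form a subgroup W of Z(S); W is then a direct factor of Z(S): there is a subgroup K of Z(S) with W ∩ K = 1 and WK = Z(S). -/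
theorem result {G : Type*} [Group G] [Finite G] {p : ℕ} [Fact p.Prime] (S : Sylow p G)
    (hZ : ((S : Subgroup G) ⊓ Subgroup.centralizer ((S : Subgroup G) : Set G)) ≤ Cfsg.pPrimePCore p G) :
    ∃ W K : Subgroup G, (∀ x : G, x ∈ W ↔ (x ∈ (S : Subgroup G) ∧ ∀ g : G, g * x * g⁻¹ ∈ (S : Subgroup G) → g * x * g⁻¹ = x)) ∧
      K ≤ ((S : Subgroup G) ⊓ Subgroup.centralizer ((S : Subgroup G) : Set G)) ∧ W ⊓ K = ⊥ ∧ W ⊔ K = ((S : Subgroup G) ⊓ Subgroup.centralizer ((S : Subgroup G) : Set G)) := by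
  classical
  have hp := (Fact.out : p.Prime)
  haveI hKn : (Cfsg.pPrimeCore p G).Normal := pPrimeCore_normal' p G
  haveI hLn : (Cfsg.pPrimePCore p G).Normal := Cfsg.Agent.Helper10.pPrimePCore_normal p G
  have hKc : (Nat.card (Cfsg.pPrimeCore p G)).Coprime p := pPrimeCore_card_coprime p
  have hKL : Cfsg.pPrimeCore p G ≤ Cfsg.pPrimePCore p G :=
    Cfsg.Agent.Helper10.pPrimeCore_le_pPrimePCore p G
  have hLP : Cfsg.pPrimePCore p G ≤ (S : Subgroup G) ⊔ Cfsg.pPrimeCore p G :=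
    pPrimePCore_le_sylow_sup S
  obtain ⟨Q, hQ⟩ : ∃ Q : Subgroup G, Q = (S : Subgroup G) ⊓ Cfsg.pPrimePCore p G := ⟨_, rfl⟩
  obtain ⟨N, hN⟩ : ∃ N : Subgroup G, N = Subgroup.normalizer (Q : Set G) := ⟨_, rfl⟩
  obtain ⟨Zs, hZs⟩ : ∃ Zs : Subgroup G,
      Zs = (S : Subgroup G) ⊓ Subgroup.centralizer ((S : Subgroup G) : Set G) := ⟨_, rfl⟩
  rw [← hZs] at hZ ⊢
  have hQS : Q ≤ (S : Subgroup G) := by rw [hQ]; exact inf_le_left
  have hZsS : Zs ≤ (S : Subgroup G) := by rw [hZs]; exact inf_le_left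
  have hZsQ : Zs ≤ Q := by rw [hQ]; exact le_inf hZsS hZ
  have hSN : (S : Subgroup G) ≤ N := by
    rw [hN]
    intro s hs
    apply mem_normalizer_of_cj_le
    rintro _ ⟨y, hy, rfl⟩
    rw [hQ] at hy ⊢
    obtain ⟨hy1, hy2⟩ := Subgroup.mem_inf.mp hy
    exact Subgroup.mem_inf.mpr ⟨Subgroup.mul_mem _ (Subgroup.mul_mem _ hs hy1)
      (Subgroup.inv_mem _ hs), hLn.conj_mem y hy2 s⟩
  have hiso : ∀ x ∈ Zs, (∀ n ∈ N, n * x = x * n) → ∀ g : G, g * x * g⁻¹ ∈ (S : Subgroup G) →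
      g * x * g⁻¹ = x := by
    intro x hx hxN g hg
    obtain ⟨n, hn, d, hd, rfl⟩ := pprime_frattini S (Cfsg.pPrimeCore p G) (Cfsg.pPrimePCore p G)
      hKc hLP hKL g
    rw [← hQ, ← hN] at hn
    have hxQ : x ∈ Q := hZsQ hx
    have hgQ : n * d * x * (n * d)⁻¹ ∈ Q := by
      rw [hQ]
      refine Subgroup.mem_inf.mpr ⟨hg, hLn.conj_mem x ?_ (n * d)⟩
      rw [hQ] at hxQ; exact (Subgroup.mem_inf.mp hxQ).2
    have hdQ : d * x * d⁻¹ ∈ Q := by
      have h1 : n⁻¹ * (n * d * x * (n * d)⁻¹) * n⁻¹⁻¹ ∈ Q := by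
        rw [hN] at hn
        exact (Subgroup.mem_normalizer_iff.mp (Subgroup.inv_mem _ hn) _).mp hgQ
      have e : n⁻¹ * (n * d * x * (n * d)⁻¹) * n⁻¹⁻¹ = d * x * d⁻¹ := by group
      rwa [e] at h1
    have hbot : x⁻¹ * (d * x * d⁻¹) ∈ (S : Subgroup G) ⊓ Cfsg.pPrimeCore p G := by
      refine Subgroup.mem_inf.mpr ⟨Subgroup.mul_mem _ (Subgroup.inv_mem _ (hQS hxQ)) (hQS hdQ), ?_⟩
      have e : x⁻¹ * (d * x * d⁻¹) = (x⁻¹ * d * x⁻¹⁻¹) * d⁻¹ := by group
      rw [e]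
      exact Subgroup.mul_mem _ (hKn.conj_mem d hd x⁻¹) (Subgroup.inv_mem _ hd)
    rw [pgroup_inf_coprime_eq_bot _ _ S.2 hKc, Subgroup.mem_bot] at hbot
    have hdx : d * x * d⁻¹ = x := by
      have : x * (x⁻¹ * (d * x * d⁻¹)) = d * x * d⁻¹ := by group
      rw [← this, hbot, mul_one]
    have e : n * d * x * (n * d)⁻¹ = n * (d * x * d⁻¹) * n⁻¹ := by group
    rw [e, hdx, hxN n hn]; group
  obtain ⟨V, hV⟩ : ∃ V : Subgroup G, V = Q ⊓ Subgroup.centralizer (Q : Set G) := ⟨_, rfl⟩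
  have hVQ : V ≤ Q := by rw [hV]; exact inf_le_left
  have hZsV : Zs ≤ V := by
    rw [hV]
    refine le_inf hZsQ ?_
    rw [hZs]
    exact inf_le_right.trans (Subgroup.centralizer_le hQS)
  have hVc : ∀ a ∈ V, ∀ b ∈ V, a * b = b * a := by
    intro a ha b hb
    rw [hV] at ha
    exact ((Subgroup.mem_centralizer_iff.mp (Subgroup.mem_inf.mp ha).2) b (hVQ hb)).symm
  have hNV : N ≤ Subgroup.normalizer (V : Set G) := by
    rw [hV]
    apply Cfsg.Agent.Helper10.le_normalizer_inf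
    · rw [hN]
    · intro n hn
      apply mem_normalizer_of_cj_eq_self
      rw [← centralizer_cj, cj_eq_self_of_mem_normalizer (by rw [hN] at hn; exact hn)]
  letI cg : CommGroup ↥V := { (inferInstance : Group ↥V) with
    mul_comm := fun a b => Subtype.ext (hVc a a.2 b b.2) }
  have hVp : IsPGroup p ↥V := S.2.to_le (hVQ.trans hQS)
  have hcop : Nat.Coprime ((S : Subgroup G).subgroupOf N).index (Nat.card ↥V) := by
    obtain ⟨k, hk⟩ := IsPGroup.iff_card.mp hVp
    rw [hk]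
    apply Nat.Coprime.pow_right
    apply Nat.Coprime.symm
    rw [Nat.Prime.coprime_iff_not_dvd hp]
    intro hdvd
    apply S.not_dvd_index
    exact hdvd.trans (Dvd.intro _ (Subgroup.relIndex_mul_index hSN))
  obtain ⟨K, hK1, hK2, hK3⟩ := exists_trace_complement (D := ↥N) (M := ↥V) (conjHom V N hNV)
    (conjHom_mul V N hNV) ((S : Subgroup G).subgroupOf N) hcop
  have hKZ : K.map V.subtype ≤ Zs := by
    rintro _ ⟨k, hk, rfl⟩
    rw [hZs]
    refine Subgroup.mem_inf.mpr ⟨hQS (hVQ k.2), ?_⟩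
    rw [Subgroup.mem_centralizer_iff]
    intro s hs
    have h1 := hK1 k hk ⟨s, hSN hs⟩ (Subgroup.mem_subgroupOf.mpr hs)
    have h2 := congrArg Subtype.val h1
    rw [conjHom_coe] at h2
    have h2' : s * (k : G) * s⁻¹ = k := h2
    calc s * (k : G) = (s * k * s⁻¹) * s := by group
      _ = k * s := by rw [h2']
  refine ⟨Zs ⊓ Subgroup.centralizer (N : Set G), K.map V.subtype, ?_, hKZ, ?_, ?_⟩
  · intro x
    constructor
    · intro hx
      obtain ⟨hx1, hx2⟩ := Subgroup.mem_inf.mp hx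
      exact ⟨hZsS hx1, hiso x hx1 (fun n hn => (Subgroup.mem_centralizer_iff.mp hx2) n hn)⟩
    · rintro ⟨hxS, hx⟩
      have hxZ : x ∈ Zs := by
        rw [hZs]
        refine Subgroup.mem_inf.mpr ⟨hxS, ?_⟩
        rw [Subgroup.mem_centralizer_iff]
        intro s hs
        have h1 := hx s (Subgroup.mul_mem _ (Subgroup.mul_mem _ hs hxS) (Subgroup.inv_mem _ hs))
        calc s * x = (s * x * s⁻¹) * s := by group
          _ = x * s := by rw [h1]
      refine Subgroup.mem_inf.mpr ⟨hxZ, ?_⟩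
      rw [Subgroup.mem_centralizer_iff]
      intro n hn
      have hxQ := hZsQ hxZ
      have h1 : n * x * n⁻¹ ∈ Q := by
        rw [hN] at hn; exact (Subgroup.mem_normalizer_iff.mp hn x).mp hxQ
      have h2 := hx n (hQS h1)
      calc n * x = (n * x * n⁻¹) * n := by group
        _ = x * n := by rw [h2]
  · rw [eq_bot_iff]
    rintro _ ⟨hx1, ⟨k, hk, rfl⟩⟩
    have hkD : ∀ d : ↥N, conjHom V N hNV d k = k := by
      intro d
      apply Subtype.ext
      rw [conjHom_coe]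
      have hx1' : (k : G) ∈ Zs ⊓ Subgroup.centralizer (N : Set G) := hx1
      have hdk : (d : G) * (k : G) = (k : G) * d :=
        (Subgroup.mem_centralizer_iff.mp (Subgroup.mem_inf.mp hx1').2) d d.2
      rw [hdk]; group
    have h1 := hK2 k hk hkD
    rw [h1]
    simp
  · apply le_antisymm (sup_le inf_le_left hKZ)
    intro z hz
    have hzV := hZsV hz
    have hzfix : ∀ s ∈ (S : Subgroup G).subgroupOf N,
        conjHom V N hNV s ⟨z, hzV⟩ = ⟨z, hzV⟩ := by
      intro s hs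
      apply Subtype.ext
      rw [conjHom_coe]
      show (s : G) * z * (s : G)⁻¹ = z
      have hzc : z ∈ Subgroup.centralizer ((S : Subgroup G) : Set G) := by
        rw [hZs] at hz; exact (Subgroup.mem_inf.mp hz).2
      have := (Subgroup.mem_centralizer_iff.mp hzc) (s : G) (Subgroup.mem_subgroupOf.mp hs)
      rw [this]; group
    obtain ⟨w, k, hwD, hkK, hvwk⟩ := hK3 ⟨z, hzV⟩ hzfix
    have hzwk : z = (w : G) * (k : G) := congrArg Subtype.val hvwk
    rw [hzwk]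
    refine Subgroup.mul_mem _ (Subgroup.mem_sup_left ?_) (Subgroup.mem_sup_right ⟨k, hkK, rfl⟩)
    have hwN : ∀ n ∈ N, n * (w : G) = w * n := by
      intro n hn
      have h1 := congrArg Subtype.val (hwD ⟨n, hn⟩)
      rw [conjHom_coe] at h1
      have h1' : n * (w : G) * n⁻¹ = w := h1
      calc n * (w : G) = (n * w * n⁻¹) * n := by group
        _ = w * n := by rw [h1']
    refine Subgroup.mem_inf.mpr ⟨?_, ?_⟩
    · rw [hZs]
      refine Subgroup.mem_inf.mpr ⟨hQS (hVQ w.2), ?_⟩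
      rw [Subgroup.mem_centralizer_iff]
      intro s hs
      exact hwN s (hSN hs)
    · rw [Subgroup.mem_centralizer_iff]
      exact hwN

end Cfsg.Agent.S1944
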