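import Cfsg.Statements.S1946
import Mathlib
import Cfsg.Agent.Helper13.Omega
import Cfsg.Agent.Helper13.Syl
import Cfsg.Agent.Helper13.AlpP
import Cfsg.Agent.Helper21.Frobenius

set_option autoImplicit false
open Cfsg

open Cfsg.Agent.Helper13 Cfsg.Agent.Helper21
open scoped commutatorElement
namespace Cfsg.Agent.S1946

universe u

theorem mem_normalizer_closure' {G : Type*} [Group G] (S : Set G) (g : G)
    (h1 : ∀ s ∈ S, g * s * g⁻¹ ∈ S) (h2 : ∀ s ∈ S, g⁻¹ * s * g ∈ S) :
    g ∈ Subgroup.normalizer (Subgroup.closure S : Set G) := by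
  have key : ∀ (c : G), (∀ s ∈ S, c * s * c⁻¹ ∈ S) → ∀ x ∈ Subgroup.closure S,
      c * x * c⁻¹ ∈ Subgroup.closure S := by
    intro c hc x hx
    induction hx using Subgroup.closure_induction with
    | mem s hs => exact Subgroup.subset_closure (hc s hs)
    | one => simp
    | mul x y _ _ ihx ihy =>
      have e : c * (x * y) * c⁻¹ = (c * x * c⁻¹) * (c * y * c⁻¹) := by group
      rw [e]; exact Subgroup.mul_mem _ ihx ihy
    | inv x _ ihx =>
      have e : c * x⁻¹ * c⁻¹ = (c * x * c⁻¹)⁻¹ := by group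
      rw [e]; exact Subgroup.inv_mem _ ihx
  rw [Subgroup.mem_normalizer_iff]
  intro x
  constructor
  · exact key g h1 x
  · intro hx
    have h3 := key g⁻¹ (by simpa using h2) _ hx
    have e : g⁻¹ * (g * x * g⁻¹) * g⁻¹⁻¹ = x := by group
    rwa [e] at h3

theorem ctl_aux {G : Type u} [Group G] [Finite G] {p : ℕ} [Fact p.Prime] (P : Sylow p G)
    (hctl : ∀ a ∈ (P : Subgroup G), (a ^ p = 1 ∨ (p = 2 ∧ a ^ 4 = 1)) → ∀ g : G,
      g * a * g⁻¹ ∈ (P : Subgroup G) → ∃ x ∈ (P : Subgroup G), g * a * g⁻¹ = x * a * x⁻¹) :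
    ∀ n : ℕ, ∀ Q : Subgroup G, Nat.card Q = n → Q ≤ (P : Subgroup G) →
      ∀ g ∈ Subgroup.normalizer (Q : Set G), (orderOf g).Coprime p →
        g ∈ Subgroup.centralizer (Q : Set G) := by
  intro n
  induction n using Nat.strong_induction_on with
  | _ n ih =>
    intro Q hn hQP g hg hcop
    have hQ : IsPGroup p Q := P.2.to_le hQP
    by_contra hgC
    have hgmem : ∀ x ∈ Q, g * x * g⁻¹ ∈ Q := fun x hx =>
      (Subgroup.mem_normalizer_iff.mp hg x).mp hx
    have hgmem' : ∀ x ∈ Q, g⁻¹ * x * g ∈ Q := fun x hx => by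
      have h1 := (Subgroup.mem_normalizer_iff.mp (Subgroup.inv_mem _ hg) x).mp hx
      simpa using h1
    have hprop : ∀ R : Subgroup G, R ≤ Q → R ≠ Q → g ∈ Subgroup.normalizer (R : Set G) →
        g ∈ Subgroup.centralizer (R : Set G) := by
      intro R hRQ hne hgR
      have hlt : Nat.card R < n := by
        rw [← hn]
        exact card_lt_of_lt' (lt_of_le_of_ne hRQ hne)
      exact ih _ hlt R rfl (hRQ.trans hQP) g hgR hcop
    -- Ω = Q
    obtain ⟨Om, hOm⟩ : ∃ Om : Subgroup G, Om =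
        Subgroup.closure {u | u ∈ Q ∧ (u ^ p = 1 ∨ (p = 2 ∧ u ^ 4 = 1))} := ⟨_, rfl⟩
    have hOmQ : Om ≤ Q := by
      rw [hOm]; exact (Subgroup.closure_le _).mpr (fun u hu => hu.1)
    have hgOm : g ∈ Subgroup.normalizer (Om : Set G) := by
      rw [hOm]
      apply mem_normalizer_closure'
      · rintro s ⟨hs, hord⟩
        refine ⟨hgmem s hs, ?_⟩
        rcases hord with h | ⟨h2, h4⟩
        · exact Or.inl (conj_pow_eq_one g s p h)
        · exact Or.inr ⟨h2, conj_pow_eq_one g s 4 h4⟩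
      · rintro s ⟨hs, hord⟩
        refine ⟨hgmem' s hs, ?_⟩
        rcases hord with h | ⟨h2, h4⟩
        · exact Or.inl (conj_pow_eq_one' g s p h)
        · exact Or.inr ⟨h2, conj_pow_eq_one' g s 4 h4⟩
    have hOmeq : Om = Q := by
      by_contra hne
      have h1 := hprop Om hOmQ hne hgOm
      apply hgC
      apply centralizes_of_omega Q hQ g hg hcop
      intro u hu hord
      have h2 : u ∈ Om := by rw [hOm]; exact Subgroup.subset_closure ⟨hu, hord⟩
      have h3 := Subgroup.mem_centralizer_iff.mp h1 u h2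
      calc g * u * g⁻¹ = u * g * g⁻¹ := by rw [h3]
        _ = u := by group
    -- K = Q
    obtain ⟨K, hK⟩ : ∃ K : Subgroup G, K =
        Subgroup.closure {k | ∃ x ∈ Q, k = x⁻¹ * (g * x * g⁻¹)} := ⟨_, rfl⟩
    have hKQ : K ≤ Q := by
      rw [hK]
      refine (Subgroup.closure_le _).mpr ?_
      rintro k ⟨x, hx, rfl⟩
      exact Q.mul_mem (Q.inv_mem hx) (hgmem x hx)
    have hgK : g ∈ Subgroup.normalizer (K : Set G) := by
      rw [hK]
      apply mem_normalizer_closure'
      · rintro s ⟨x, hx, rfl⟩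
        refine ⟨g * x * g⁻¹, hgmem x hx, ?_⟩
        group
      · rintro s ⟨x, hx, rfl⟩
        refine ⟨g⁻¹ * x * g, hgmem' x hx, ?_⟩
        group
    have hKeq : K = Q := by
      by_contra hne
      have h1 := hprop K hKQ hne hgK
      apply hgC
      apply centralizes_of_fixes_comm Q hQ g hg hcop
      intro x hx
      have h2 : x⁻¹ * (g * x * g⁻¹) ∈ K := by
        rw [hK]; exact Subgroup.subset_closure ⟨x, hx, rfl⟩
      have h3 := Subgroup.mem_centralizer_iff.mp h1 _ h2
      calc g * (x⁻¹ * (g * x * g⁻¹)) * g⁻¹ = (x⁻¹ * (g * x * g⁻¹)) * g * g⁻¹ := by rw [h3]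
        _ = x⁻¹ * (g * x * g⁻¹) := by group
    -- Q ≤ γ_m(P) for all m
    have hlcs : ∀ m : ℕ, Q ≤ (P : Subgroup G).lowerCentralSeries m := by
      intro m
      induction m with
      | zero => exact hQP
      | succ m ihm =>
        have hMconj : ∀ y ∈ (P : Subgroup G), ∀ w ∈ (P : Subgroup G).lowerCentralSeries (m + 1),
            y * w * y⁻¹ ∈ (P : Subgroup G).lowerCentralSeries (m + 1) := by
          intro y hy w hw
          have h1 := Subgroup.self_le_normalizer_lowerCentralSeries (S := (P : Subgroup G)) (m + 1) hy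
          exact (Subgroup.mem_normalizer_iff.mp h1 w).mp hw
        have hgen : ∀ u ∈ Q, (u ^ p = 1 ∨ (p = 2 ∧ u ^ 4 = 1)) →
            u⁻¹ * (g * u * g⁻¹) ∈ (P : Subgroup G).lowerCentralSeries (m + 1) := by
          intro u hu hord
          obtain ⟨y, hy, hyu⟩ := hctl u (hQP hu) hord g (hQP (hgmem u hu))
          rw [hyu, Subgroup.lowerCentralSeries_succ]
          have h1 : ⁅u⁻¹, y⁆ ∈ ⁅(P : Subgroup G).lowerCentralSeries m, (P : Subgroup G)⁆ :=
            Subgroup.commutator_mem_commutator (Subgroup.inv_mem _ (ihm hu)) hy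
          have e : u⁻¹ * (y * u * y⁻¹) = ⁅u⁻¹, y⁆ := by
            rw [commutatorElement_def]; group
          rw [e]; exact h1
        have hall : ∀ x ∈ Om, x⁻¹ * (g * x * g⁻¹) ∈ (P : Subgroup G).lowerCentralSeries (m + 1) := by
          intro x hx
          rw [hOm] at hx
          induction hx using Subgroup.closure_induction with
          | mem u hu => exact hgen u hu.1 hu.2
          | one => simp
          | mul x y hx hy ihx ihy =>
            have hyP : y ∈ (P : Subgroup G) := by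
              apply hQP; apply hOmQ; rw [hOm]; exact hy
            have e : (x * y)⁻¹ * (g * (x * y) * g⁻¹) =
                y⁻¹ * (x⁻¹ * (g * x * g⁻¹)) * y⁻¹⁻¹ * (y⁻¹ * (g * y * g⁻¹)) := by group
            rw [e]
            exact Subgroup.mul_mem _ (hMconj y⁻¹ (Subgroup.inv_mem _ hyP) _ ihx) ihy
          | inv x hx ihx =>
            have hxP : x ∈ (P : Subgroup G) := by
              apply hQP; apply hOmQ; rw [hOm]; exact hx
            have e : x⁻¹⁻¹ * (g * x⁻¹ * g⁻¹) = x * (x⁻¹ * (g * x * g⁻¹))⁻¹ * x⁻¹ := by group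
            rw [e]
            exact hMconj x hxP _ (Subgroup.inv_mem _ ihx)
        rw [← hKeq, hK]
        refine (Subgroup.closure_le _).mpr ?_
        rintro k ⟨x, hx, rfl⟩
        exact hall x (by rw [hOmeq]; exact hx)
    have hnil : Group.IsNilpotent ↥(P : Subgroup G) := P.2.isNilpotent
    obtain ⟨m, hm⟩ := (Subgroup.isNilpotent_iff_lowerCentralSeries (P : Subgroup G)).mp hnil
    have hQbot : Q = ⊥ := by
      have h1 := hlcs m
      rw [hm] at h1
      exact le_bot_iff.mp h1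
    apply hgC
    rw [hQbot, Subgroup.mem_centralizer_iff]
    intro u hu
    rw [Subgroup.mem_bot.mp hu]; simp

theorem frob_of_control {G : Type u} [Group G] [Finite G] {p : ℕ} [Fact p.Prime] (P : Sylow p G)
    (hctl : ∀ a ∈ (P : Subgroup G), (a ^ p = 1 ∨ (p = 2 ∧ a ^ 4 = 1)) → ∀ g : G,
      g * a * g⁻¹ ∈ (P : Subgroup G) → ∃ x ∈ (P : Subgroup G), g * a * g⁻¹ = x * a * x⁻¹) :
    FrobHyp p G := by
  intro Q hQ g hg hcop
  obtain ⟨h, hh⟩ := exists_conj_le_sylow P Q hQ
  have hQ'P : Q.map (MulAut.conj h).toMonoidHom ≤ (P : Subgroup G) := by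
    rintro _ ⟨q, hq, rfl⟩
    exact hh q hq
  have hg' : h * g * h⁻¹ ∈ Subgroup.normalizer ((Q.map (MulAut.conj h).toMonoidHom : Subgroup G) : Set G) := by
    rw [Subgroup.mem_normalizer_iff]
    intro x
    constructor
    · rintro ⟨q, hq, rfl⟩
      refine ⟨g * q * g⁻¹, (Subgroup.mem_normalizer_iff.mp hg q).mp hq, ?_⟩
      simp only [MulEquiv.coe_toMonoidHom, MulAut.conj_apply]
      group
    · rintro ⟨q, hq, hqe⟩
      have h1 : g⁻¹ * q * g ∈ Q := by
        have h2 := (Subgroup.mem_normalizer_iff.mp (Subgroup.inv_mem _ hg) q).mp hq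
        simpa using h2
      refine ⟨g⁻¹ * q * g, h1, ?_⟩
      simp only [MulEquiv.coe_toMonoidHom, MulAut.conj_apply] at hqe ⊢
      have e : x = (h * g * h⁻¹)⁻¹ * (h * q * h⁻¹) * (h * g * h⁻¹) := by
        rw [hqe]; group
      rw [e]; group
  have hord : (orderOf (h * g * h⁻¹)).Coprime p := by
    have e : h * g * h⁻¹ = (MulAut.conj h) g := by rw [MulAut.conj_apply]
    rw [e, MulEquiv.orderOf_eq]
    exact hcop
  have h3 := ctl_aux P hctl _ (Q.map (MulAut.conj h).toMonoidHom) rfl hQ'P (h * g * h⁻¹) hg' hord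
  rw [Subgroup.mem_centralizer_iff] at h3 ⊢
  intro q hq
  have h4 := h3 (h * q * h⁻¹) ⟨q, hq, rfl⟩
  have e1 : q * g = h⁻¹ * ((h * q * h⁻¹) * (h * g * h⁻¹)) * h := by group
  rw [e1, h4]; group

/-- Let P be a Sylow p-subgroup of the finite group G. Then G has a normal p-complement if and only if P controls the fusion of its elements of order dividing p (dividing 4 when p = 2): whenever such an element a of P has a G-conjugate g a g⁻¹ in P, that conjugate is already x a x⁻¹ for some x in P. -/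
theorem result {G : Type*} [Group G] [Finite G] {p : ℕ} [Fact p.Prime] (P : Sylow p G) :
    Cfsg.HasNormalPComplement p G ↔
      ∀ a ∈ (P : Subgroup G), (a ^ p = 1 ∨ (p = 2 ∧ a ^ 4 = 1)) → ∀ g : G, g * a * g⁻¹ ∈ (P : Subgroup G) →
        ∃ x ∈ (P : Subgroup G), g * a * g⁻¹ = x * a * x⁻¹ := by
  classical
  constructor
  · rintro ⟨P₀, N, hNn, hc⟩ a ha hord g hga
    have hcard : Nat.card N = (P₀ : Subgroup G).index := hc.index_eq_card.symm
    have hNp : ¬ p ∣ Nat.card N := by rw [hcard]; exact P₀.not_dvd_index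
    have hdisj : ∀ x ∈ (P : Subgroup G), x ∈ N → x = 1 := by
      intro x hxP hxN
      have h1 : orderOf x ∣ Nat.card N := by
        have := orderOf_dvd_natCard (⟨x, hxN⟩ : ↥N)
        rwa [Subgroup.orderOf_mk] at this
      obtain ⟨k, hk⟩ := (IsPGroup.iff_orderOf.mp P.2) ⟨x, hxP⟩
      rw [Subgroup.orderOf_mk] at hk
      rw [hk] at h1
      have h2 : k = 0 := by
        by_contra hk0
        exact hNp ((dvd_pow_self p hk0).trans h1)
      rw [h2, pow_zero] at hk
      exact orderOf_eq_one_iff.mp hk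
    have hidx : Nat.card (G ⧸ N) ≤ Nat.card (P : Subgroup G) := by
      have h1 : Nat.card (G ⧸ N) = N.index := rfl
      have h2 := hc.card_mul_card
      have h3 := N.card_mul_index
      have h4 : Nat.card (P₀ : Subgroup G) = Nat.card (P : Subgroup G) := sylow_card_eq P P₀
      have h5 : Nat.card N * N.index = Nat.card N * Nat.card (P₀ : Subgroup G) := by
        rw [h3, h2]
      have h6 : 0 < Nat.card N := Nat.card_pos
      have h7 := Nat.eq_of_mul_eq_mul_left h6 h5
      rw [h1, h7, h4]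
    have hinj : Function.Injective (fun x : ↥(P : Subgroup G) => (QuotientGroup.mk (x : G) : G ⧸ N)) := by
      intro x y hxy
      have h1 : (x : G)⁻¹ * (y : G) ∈ N := QuotientGroup.eq.mp hxy
      have h2 := hdisj _ ((P : Subgroup G).mul_mem ((P : Subgroup G).inv_mem x.2) y.2) h1
      apply Subtype.ext
      calc (x : G) = (x : G) * ((x : G)⁻¹ * (y : G)) := by rw [h2, mul_one]
        _ = y := by group
    have hbij := Function.Injective.bijective_of_nat_card_le hinj hidx
    obtain ⟨x, hx⟩ := hbij.2 (QuotientGroup.mk g)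
    have hxg : (x : G)⁻¹ * g ∈ N := QuotientGroup.eq.mp hx
    refine ⟨x, x.2, ?_⟩
    have hmemN : ((x : G) * a * (x : G)⁻¹)⁻¹ * (g * a * g⁻¹) ∈ N := by
      have e : ((x : G) * a * (x : G)⁻¹)⁻¹ * (g * a * g⁻¹) =
          (x : G) * ((a⁻¹ * ((x : G)⁻¹ * g) * a⁻¹⁻¹) * ((x : G)⁻¹ * g)⁻¹) * (x : G)⁻¹ := by group
      rw [e]
      exact hNn.conj_mem _ (N.mul_mem (hNn.conj_mem _ hxg a⁻¹) (N.inv_mem hxg)) _
    have hmemP : ((x : G) * a * (x : G)⁻¹)⁻¹ * (g * a * g⁻¹) ∈ (P : Subgroup G) :=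
      (P : Subgroup G).mul_mem ((P : Subgroup G).inv_mem
        ((P : Subgroup G).mul_mem ((P : Subgroup G).mul_mem x.2 ha) ((P : Subgroup G).inv_mem x.2))) hga
    have h1 := hdisj _ hmemP hmemN
    calc g * a * g⁻¹ = ((x : G) * a * (x : G)⁻¹) * (((x : G) * a * (x : G)⁻¹)⁻¹ * (g * a * g⁻¹)) := by group
      _ = (x : G) * a * (x : G)⁻¹ := by rw [h1, mul_one]
  · intro hctl
    exact frob_hasNormalPComplement (frob_of_control P hctl)

end Cfsg.Agent.S1946
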