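import Cfsg.Statements.S1948
import Cfsg.Agent.Helper13.PPrime2

set_option autoImplicit false
open Cfsg

namespace Cfsg.Agent.S1948

/-- Let S be a Sylow p-subgroup of the finite group G. Then G = N_G(S)·O_{p'}(G) if and only if G is p-constrained and N_G(S) controls fusion in S, in the sense that whenever a subgroup Q of S has a conjugate g Q g⁻¹ inside S, the element g is a product n c with n normalizing S and c centralizing Q. -/
theorem result {G : Type*} [Group G] [Finite G] {p : ℕ} [Fact p.Prime] (S : Sylow p G) :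
    Subgroup.normalizer ((S : Subgroup G) : Set G) ⊔ Cfsg.pPrimeCore p G = ⊤ ↔
      (Cfsg.IsPConstrained p G ∧
        ∀ Q : Subgroup G, Q ≤ (S : Subgroup G) → ∀ g : G, Q.map (MulAut.conj g).toMonoidHom ≤ (S : Subgroup G) →
          ∃ n ∈ Subgroup.normalizer ((S : Subgroup G) : Set G), ∃ c ∈ Subgroup.centralizer (Q : Set G), g = n * c) := by
  have hp := (Fact.out : p.Prime)
  have hD : (Nat.card (Cfsg.pPrimeCore p G)).Coprime p := Cfsg.Agent.Helper10.pPrimeCore_coprime p G
  haveI hKn : (Cfsg.pPrimePCore p G).Normal := Cfsg.Agent.Helper10.pPrimePCore_normal p G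
  haveI hDn : (Cfsg.pPrimeCore p G).Normal := Subgroup.sSup_normal _ (fun _ h => h.1)
  have hDK : Cfsg.pPrimeCore p G ≤ Cfsg.pPrimePCore p G :=
    Cfsg.Agent.Helper10.pPrimeCore_le_pPrimePCore p G
  have hKP : Cfsg.pPrimePCore p G ≤ (S : Subgroup G) ⊔ Cfsg.pPrimeCore p G :=
    Cfsg.Agent.Helper13.pPrimePCore_le_sylow_sup S
  obtain ⟨H', hH'⟩ := Cfsg.Agent.Helper13.exists_sylow_inf S _ _ hD hKP hDK
  constructor
  · intro htop
    -- S ≤ K
    have hSK : (S : Subgroup G) ≤ Cfsg.pPrimePCore p G := by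
      intro s hs
      show QuotientGroup.mk' (Cfsg.pPrimeCore p G) s ∈ Cfsg.pCore p (G ⧸ Cfsg.pPrimeCore p G)
      have hnorm : ((S : Subgroup G).map (QuotientGroup.mk' (Cfsg.pPrimeCore p G))).Normal := by
        constructor
        rintro _ ⟨s, hs, rfl⟩ gbar
        obtain ⟨g, rfl⟩ := QuotientGroup.mk'_surjective (Cfsg.pPrimeCore p G) gbar
        have hg : g ∈ Subgroup.normalizer ((S : Subgroup G) : Set G) ⊔ Cfsg.pPrimeCore p G := by
          rw [htop]; trivial
        obtain ⟨n, hn, d, hd, rfl⟩ := Subgroup.mem_sup_of_normal_right.mp hg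
        refine ⟨n * s * n⁻¹, (Subgroup.mem_normalizer_iff.mp hn s).mp hs, ?_⟩
        have hd1 : (QuotientGroup.mk' (Cfsg.pPrimeCore p G)) d = 1 :=
          (QuotientGroup.eq_one_iff d).mpr hd
        simp only [map_mul, map_inv, hd1, one_mul, inv_one, mul_one]
      exact (le_sSup ⟨hnorm, S.2.map _⟩ :
        (S : Subgroup G).map (QuotientGroup.mk' (Cfsg.pPrimeCore p G)) ≤
          Cfsg.pCore p (G ⧸ Cfsg.pPrimeCore p G)) ⟨s, hs, rfl⟩
    have hH'S : (H' : Subgroup (Cfsg.pPrimePCore p G)).map (Cfsg.pPrimePCore p G).subtype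
        = (S : Subgroup G) := by
      rw [hH']; exact inf_eq_left.mpr hSK
    -- C_G(S) ≤ K
    have hCK : Subgroup.centralizer ((S : Subgroup G) : Set G) ≤ Cfsg.pPrimePCore p G := by
      obtain ⟨X, hXC, hXc, hXmax, hdec⟩ := Cfsg.Agent.Helper13.centralizer_sylow_compl S
      have hXD : X ≤ Cfsg.pPrimeCore p G := by
        have hYc : (Nat.card (X ⊔ Cfsg.pPrimeCore p G : Subgroup G)).Coprime p :=
          Nat.Coprime.coprime_dvd_left (Cfsg.Agent.Helper10.card_sup_dvd_mul X _)
            (Nat.Coprime.mul_left hXc hD)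
        have hXn : ∀ n ∈ Subgroup.normalizer ((S : Subgroup G) : Set G), ∀ x ∈ X, n * x * n⁻¹ ∈ X := by
          intro n hn x hx
          have hle : X.map (MulAut.conj n).toMonoidHom ≤ X := by
            apply hXmax
            · rintro _ ⟨y, hy, rfl⟩
              rw [Subgroup.mem_centralizer_iff]
              intro s hs
              have hs' : n⁻¹ * s * n⁻¹⁻¹ ∈ (S : Subgroup G) :=
                (Subgroup.mem_normalizer_iff.mp (Subgroup.inv_mem _ hn) s).mp hs
              have hc := (Subgroup.mem_centralizer_iff.mp (hXC hy)) _ hs'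
              show s * (n * y * n⁻¹) = n * y * n⁻¹ * s
              calc s * (n * y * n⁻¹) = n * ((n⁻¹ * s * n⁻¹⁻¹) * y) * n⁻¹ := by group
                _ = n * (y * (n⁻¹ * s * n⁻¹⁻¹)) * n⁻¹ := by rw [hc]
                _ = n * y * n⁻¹ * s := by group
            · rw [Subgroup.card_map_of_injective (MulAut.conj n).injective]
              exact hXc
          exact hle ⟨x, hx, rfl⟩
        have hYn : (X ⊔ Cfsg.pPrimeCore p G : Subgroup G).Normal := by
          constructor
          intro y hy g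
          have hg : g ∈ Subgroup.normalizer ((S : Subgroup G) : Set G) ⊔ Cfsg.pPrimeCore p G := by
            rw [htop]; trivial
          obtain ⟨n, hn, d, hd, rfl⟩ := Subgroup.mem_sup_of_normal_right.mp hg
          obtain ⟨x, hx, e, he, rfl⟩ := Subgroup.mem_sup_of_normal_right.mp hy
          have e1 : n * d * (x * e) * (n * d)⁻¹ =
              (n * x * n⁻¹) * (n * ((x⁻¹ * d * x) * e * d⁻¹) * n⁻¹) := by group
          rw [e1]
          refine Subgroup.mul_mem_sup (hXn n hn x hx) (hDn.conj_mem _ ?_ n)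
          refine Subgroup.mul_mem _ (Subgroup.mul_mem _ ?_ he) (Subgroup.inv_mem _ hd)
          have := hDn.conj_mem d hd x⁻¹
          rwa [inv_inv] at this
        exact le_sup_left.trans (Cfsg.Agent.Helper10.le_pPrimeCore p hYn hYc)
      intro c hc
      obtain ⟨r, hr, x, hx, rfl⟩ := hdec c hc
      exact Subgroup.mul_mem _ (hSK hr) (hDK (hXD hx))
    refine ⟨?_, ?_⟩
    · intro P c hc
      obtain ⟨k, hk⟩ := MulAction.exists_smul_eq (Cfsg.pPrimePCore p G) H' P
      have hkc : (k : G)⁻¹ * c * k ∈ Subgroup.centralizer ((S : Subgroup G) : Set G) := by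
        rw [Subgroup.mem_centralizer_iff]
        intro s hs
        have hs' : (⟨s, hSK hs⟩ : Cfsg.pPrimePCore p G) ∈ H' := by
          have : s ∈ (H' : Subgroup (Cfsg.pPrimePCore p G)).map (Cfsg.pPrimePCore p G).subtype := by
            rw [hH'S]; exact hs
          obtain ⟨y, hy, hys⟩ := this
          have : y = ⟨s, hSK hs⟩ := Subtype.ext hys
          rw [← this]; exact hy
        have h1 : k * ⟨s, hSK hs⟩ * k⁻¹ ∈ P := by
          rw [← hk]
          exact Cfsg.Agent.Helper13.conj_mem_smul_sylow H' k _ hs'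
        have h2 : (k : G) * s * (k : G)⁻¹ ∈
            (P : Subgroup (Cfsg.pPrimePCore p G)).map (Cfsg.pPrimePCore p G).subtype :=
          ⟨_, h1, rfl⟩
        have h3 := (Subgroup.mem_centralizer_iff.mp hc) _ h2
        calc s * ((k : G)⁻¹ * c * k) = (k : G)⁻¹ * (((k : G) * s * (k : G)⁻¹) * c) * k := by group
          _ = (k : G)⁻¹ * (c * ((k : G) * s * (k : G)⁻¹)) * k := by rw [h3]
          _ = (k : G)⁻¹ * c * k * s := by group
      have h4 := hCK hkc
      have h5 := hKn.conj_mem _ h4 (k : G)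
      have e5 : (k : G) * ((k : G)⁻¹ * c * k) * (k : G)⁻¹ = c := by group
      rwa [e5] at h5
    · intro Q hQ g hg
      have hgm : g ∈ Subgroup.normalizer ((S : Subgroup G) : Set G) ⊔ Cfsg.pPrimeCore p G := by
        rw [htop]; trivial
      obtain ⟨n, hn, d, hd, rfl⟩ := Subgroup.mem_sup_of_normal_right.mp hgm
      refine ⟨n, hn, d, ?_, rfl⟩
      rw [Subgroup.mem_centralizer_iff]
      intro q hq
      have h1 : n * d * q * (n * d)⁻¹ ∈ (S : Subgroup G) := hg ⟨q, hq, rfl⟩
      have h2 : d * q * d⁻¹ ∈ (S : Subgroup G) := by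
        have := (Subgroup.mem_normalizer_iff.mp (Subgroup.inv_mem _ hn) _).mp h1
        have e2 : n⁻¹ * (n * d * q * (n * d)⁻¹) * n⁻¹⁻¹ = d * q * d⁻¹ := by group
        rwa [e2] at this
      have h3 : d * q * d⁻¹ * q⁻¹ ∈ (S : Subgroup G) ⊓ Cfsg.pPrimeCore p G := by
        refine Subgroup.mem_inf.mpr ⟨Subgroup.mul_mem _ h2 (Subgroup.inv_mem _ (hQ hq)), ?_⟩
        have e3 : d * q * d⁻¹ * q⁻¹ = d * (q * d⁻¹ * q⁻¹) := by group
        rw [e3]
        exact Subgroup.mul_mem _ hd (hDn.conj_mem d⁻¹ (Subgroup.inv_mem _ hd) q)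
      rw [Cfsg.Agent.Helper13.pgroup_inf_coprime_eq_bot _ _ S.2 hD, Subgroup.mem_bot] at h3
      calc q * d = (d * q * d⁻¹ * q⁻¹)⁻¹ * (d * q) := by group
        _ = d * q := by rw [h3]; group
  · rintro ⟨hcons, hfus⟩
    rw [eq_top_iff]
    intro g _
    obtain ⟨n, hn, d, hd, rfl⟩ := Cfsg.Agent.Helper13.pprime_frattini S _ _ hD hKP hDK g
    have hmap : ((S : Subgroup G) ⊓ Cfsg.pPrimePCore p G).map (MulAut.conj n).toMonoidHom
        ≤ (S : Subgroup G) := by
      rintro _ ⟨q, hq, rfl⟩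
      have := (Subgroup.mem_normalizer_iff.mp hn q).mp hq
      exact (Subgroup.mem_inf.mp this).1
    obtain ⟨m, hm, c, hc, rfl⟩ := hfus _ inf_le_left n hmap
    have hcK : c ∈ Cfsg.pPrimePCore p G := by
      have := hcons H'
      rw [hH'] at this
      exact this hc
    obtain ⟨u, hu, d', hd', rfl⟩ := Cfsg.Agent.Helper13.mem_K_decomp S _ _ hKP hDK c hcK
    have e : m * (u * d') * d = (m * u) * (d' * d) := by group
    rw [e]
    exact Subgroup.mul_mem_sup
      (Subgroup.mul_mem _ hm (Subgroup.le_normalizer (Subgroup.mem_inf.mp hu).1))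
      (Subgroup.mul_mem _ hd' hd)

end Cfsg.Agent.S1948
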