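import Cfsg.Statements.S1954
import Cfsg.Agent.Helper13.AG
import Cfsg.Agent.Helper13.PPrime
import Cfsg.Agent.Helper13.Fusion5

set_option autoImplicit false
open Cfsg

open Cfsg.Agent.Helper13 Cfsg.Agent.Helper17
namespace Cfsg.Agent.S1954

section Gen

variable {G : Type*} [Group G]

theorem ctl_finset (N R : Subgroup G) (S : Finset (Subgroup G))
    (hS : ∀ V' ∈ S, V' ≤ R ∧ ∀ A : Subgroup G, A ≤ R → ∀ n ∈ N, cj n A ≤ R →
      ∃ h ∈ N ⊓ Subgroup.normalizer (V' : Set G), ∃ c ∈ N ⊓ Subgroup.centralizer (A : Set G),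
        n = h * c) :
    ∀ A : Subgroup G, A ≤ R → ∀ n ∈ N, cj n A ≤ R →
      ∃ h ∈ N, (∀ V' ∈ S, cj h V' = V') ∧ ∃ c ∈ N ⊓ Subgroup.centralizer (A : Set G),
        n = h * c := by
  classical
  induction S using Finset.induction_on with
  | empty =>
    intro A hA n hn hnA
    exact ⟨n, hn, fun V' hV' => absurd hV' (Finset.notMem_empty _), 1, Subgroup.one_mem _,
      (mul_one n).symm⟩
  | insert V₀ S' hV₀ ih =>
    intro A hA n hn hnA
    obtain ⟨hV₀R, hctl⟩ := hS V₀ (Finset.mem_insert_self _ _)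
    obtain ⟨h₀, hh₀, c₀, hc₀, rfl⟩ := hctl A hA n hn hnA
    have hc₀A : cj c₀ A = A :=
      cj_eq_self_of_mem_normalizer (Subgroup.centralizer_le_normalizer _ hc₀.2)
    have hh₀A : cj h₀ A ≤ R := by rw [cj_mul, hc₀A] at hnA; exact hnA
    have hh₀V : cj h₀ V₀ = V₀ := cj_eq_self_of_mem_normalizer hh₀.2
    obtain ⟨h, hh, hhS, c, hc, rfl⟩ := ih (fun V' hV' => hS V' (Finset.mem_insert_of_mem hV'))
      (A ⊔ V₀) (sup_le hA hV₀R) h₀ hh₀.1 (by rw [cj_sup, hh₀V]; exact sup_le hh₀A hV₀R)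
    obtain ⟨hcN, hcC⟩ := Subgroup.mem_inf.mp hc
    have hcA : c ∈ Subgroup.centralizer (A : Set G) :=
      Subgroup.centralizer_le (show (A : Set G) ⊆ ((A ⊔ V₀ : Subgroup G) : Set G) from
        (le_sup_left : A ≤ A ⊔ V₀)) hcC
    have hcV₀ : c ∈ Subgroup.centralizer (V₀ : Set G) :=
      Subgroup.centralizer_le (show (V₀ : Set G) ⊆ ((A ⊔ V₀ : Subgroup G) : Set G) from
        (le_sup_right : V₀ ≤ A ⊔ V₀)) hcC
    refine ⟨h, hh, ?_, c * c₀, Subgroup.mem_inf.mpr ⟨N.mul_mem hcN hc₀.1, Subgroup.mul_mem _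
      hcA hc₀.2⟩, by rw [mul_assoc]⟩
    intro V' hV'
    rcases Finset.mem_insert.mp hV' with rfl | hV'
    · have hcV : cj c V' = V' := cj_eq_self_of_mem_normalizer
        (Subgroup.centralizer_le_normalizer _ hcV₀)
      rw [cj_mul, hcV] at hh₀V
      exact hh₀V
    · exact hhS V' hV'

theorem ctl_conj (N R V : Subgroup G) [hNn : N.Normal] (hV : V ≤ R)
    (hctrl : ∀ A : Subgroup G, A ≤ R → ∀ n ∈ N, cj n A ≤ R →
      ∃ h ∈ N ⊓ Subgroup.normalizer (V : Set G), ∃ c ∈ N ⊓ Subgroup.centralizer (A : Set G),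
        n = h * c)
    (x : G) (hx : x ∈ Subgroup.normalizer (R : Set G)) :
    cj x V ≤ R ∧ ∀ A : Subgroup G, A ≤ R → ∀ n ∈ N, cj n A ≤ R →
      ∃ h ∈ N ⊓ Subgroup.normalizer ((cj x V : Subgroup G) : Set G),
        ∃ c ∈ N ⊓ Subgroup.centralizer (A : Set G), n = h * c := by
  have hxR : cj x R = R := cj_eq_self_of_mem_normalizer hx
  have hxR' : cj x⁻¹ R = R := cj_eq_self_of_mem_normalizer (Subgroup.inv_mem _ hx)
  refine ⟨?_, ?_⟩
  · have := cj_mono (g := x) hV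
    rwa [hxR] at this
  intro A hA n hn hnA
  have h1 : cj x⁻¹ A ≤ R := by
    have := cj_mono (g := x⁻¹) hA
    rwa [hxR'] at this
  have h2 : x⁻¹ * n * x ∈ N := by
    have := hNn.conj_mem n hn x⁻¹
    simpa using this
  have h3 : cj (x⁻¹ * n * x) (cj x⁻¹ A) ≤ R := by
    rw [← cj_mul]
    have e : x⁻¹ * n * x * x⁻¹ = x⁻¹ * n := by group
    rw [e, cj_mul]
    have := cj_mono (g := x⁻¹) hnA
    rwa [hxR'] at this
  obtain ⟨h', hh', c', hc', heq⟩ := hctrl _ h1 _ h2 h3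
  refine ⟨x * h' * x⁻¹, ⟨hNn.conj_mem h' hh'.1 x, ?_⟩, x * c' * x⁻¹,
    ⟨hNn.conj_mem c' hc'.1 x, ?_⟩, ?_⟩
  · rw [normalizer_cj]; exact conj_mem_cj hh'.2
  · have e : Subgroup.centralizer (A : Set G)
        = cj x (Subgroup.centralizer ((cj x⁻¹ A : Subgroup G) : Set G)) := by
      rw [← centralizer_cj, cj_cj_inv]
    rw [e]; exact conj_mem_cj hc'.2
  · have e : x * h' * x⁻¹ * (x * c' * x⁻¹) = x * (h' * c') * x⁻¹ := by group
    rw [e, ← heq]; group

theorem W_le (R V W : Subgroup G) (hV : V ≤ R)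
    (hW : W = Subgroup.closure (⋃ x ∈ Subgroup.normalizer (R : Set G),
      ((cj x V : Subgroup G) : Set G))) : W ≤ R := by
  rw [hW, Subgroup.closure_le]
  intro y hy
  simp only [Set.mem_iUnion] at hy
  obtain ⟨x, hx, hy⟩ := hy
  have hxR : cj x R = R := cj_eq_self_of_mem_normalizer hx
  have := cj_mono (g := x) hV
  rw [hxR] at this
  exact this hy

theorem normalizer_le_W [Finite G] (R V W : Subgroup G)
    (hW : W = Subgroup.closure (⋃ x ∈ Subgroup.normalizer (R : Set G),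
      ((cj x V : Subgroup G) : Set G))) :
    Subgroup.normalizer (R : Set G) ≤ Subgroup.normalizer (W : Set G) := by
  intro y hy
  apply mem_normalizer_of_cj_le
  rw [hW]
  show Subgroup.map _ _ ≤ _
  rw [Subgroup.map_le_iff_le_comap, Subgroup.closure_le]
  intro z hz
  simp only [Set.mem_iUnion] at hz
  obtain ⟨x, hx, hz⟩ := hz
  rw [SetLike.mem_coe, Subgroup.mem_comap]
  show y * z * y⁻¹ ∈ Subgroup.closure _
  apply Subgroup.subset_closure
  simp only [Set.mem_iUnion]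
  refine ⟨y * x, Subgroup.mul_mem _ hy hx, ?_⟩
  rw [cj_mul]
  exact conj_mem_cj hz

theorem ctl_W [Finite G] (N R V W : Subgroup G) [N.Normal] (hV : V ≤ R)
    (hctrl : ∀ A : Subgroup G, A ≤ R → ∀ n ∈ N, cj n A ≤ R →
      ∃ h ∈ N ⊓ Subgroup.normalizer (V : Set G), ∃ c ∈ N ⊓ Subgroup.centralizer (A : Set G),
        n = h * c)
    (hW : W = Subgroup.closure (⋃ x ∈ Subgroup.normalizer (R : Set G),
      ((cj x V : Subgroup G) : Set G))) :
    ∀ A : Subgroup G, A ≤ R → ∀ n ∈ N, cj n A ≤ R →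
      ∃ h ∈ N ⊓ Subgroup.normalizer (W : Set G), ∃ c ∈ N ⊓ Subgroup.centralizer (A : Set G),
        n = h * c := by
  classical
  intro A hA n hn hnA
  have hfin : Set.Finite {V' : Subgroup G | ∃ x ∈ Subgroup.normalizer (R : Set G), V' = cj x V} :=
    Set.toFinite _
  obtain ⟨h, hh, hhS, c, hc, rfl⟩ := ctl_finset N R hfin.toFinset (by
    intro V' hV'
    obtain ⟨x, hx, rfl⟩ := hfin.mem_toFinset.mp hV'
    exact ctl_conj N R V hV hctrl x hx) A hA n hn hnA
  refine ⟨h, ⟨hh, ?_⟩, c, hc, rfl⟩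
  apply mem_normalizer_of_cj_le
  rw [hW]
  show Subgroup.map _ _ ≤ _
  rw [Subgroup.map_le_iff_le_comap, Subgroup.closure_le]
  intro y hy
  simp only [Set.mem_iUnion] at hy
  obtain ⟨x, hx, hy⟩ := hy
  rw [SetLike.mem_coe, Subgroup.mem_comap]
  show h * y * h⁻¹ ∈ Subgroup.closure _
  apply Subgroup.subset_closure
  simp only [Set.mem_iUnion]
  refine ⟨x, hx, ?_⟩
  have e := hhS (cj x V) (hfin.mem_toFinset.mpr ⟨x, hx, rfl⟩)
  have h1 : h * y * h⁻¹ ∈ cj h (cj x V) := conj_mem_cj hy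
  rw [e] at h1
  exact h1

theorem pow_mul_mem_of_normalizes (C : Subgroup G) (w c : G)
    (hw : w ∈ Subgroup.normalizer (C : Set G)) (hc : c ∈ C) (j : ℕ) :
    ∃ c' ∈ C, (c * w) ^ j = c' * w ^ j := by
  induction j with
  | zero => exact ⟨1, C.one_mem, by simp⟩
  | succ j ih =>
    obtain ⟨c', hc', h⟩ := ih
    refine ⟨c * (w * c' * w⁻¹), C.mul_mem hc ((Subgroup.mem_normalizer_iff.mp hw c').mp hc'), ?_⟩
    rw [pow_succ', h, pow_succ']; group

theorem stab_pow [Finite G] (N D : Subgroup G) [hNn : N.Normal] (m : G) (hmN : m ∈ N)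
    (hmD : m ∈ Subgroup.normalizer (D : Set G))
    (hmB : m ∈ Subgroup.centralizer ((D ⊓ N : Subgroup G) : Set G)) :
    m ^ Nat.card (D ⊓ N : Subgroup G) ∈ Subgroup.centralizer (D : Set G) := by
  rw [Subgroup.mem_centralizer_iff]
  intro d hd
  obtain ⟨b, hbdef⟩ : ∃ b : G, b = d⁻¹ * (m * d * m⁻¹) := ⟨_, rfl⟩
  have hb : b ∈ D ⊓ N := by
    rw [hbdef]
    refine Subgroup.mem_inf.mpr ⟨D.mul_mem (D.inv_mem hd)
      ((Subgroup.mem_normalizer_iff.mp hmD d).mp hd), ?_⟩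
    have e : d⁻¹ * (m * d * m⁻¹) = (d⁻¹ * m * d⁻¹⁻¹) * m⁻¹ := by group
    rw [e]
    exact N.mul_mem (hNn.conj_mem m hmN d⁻¹) (N.inv_mem hmN)
  have hcomm : Commute m b := ((Subgroup.mem_centralizer_iff.mp hmB) b hb).symm
  have hmd : m * d * m⁻¹ = d * b := by rw [hbdef]; group
  have key : ∀ j : ℕ, m ^ j * d * (m ^ j)⁻¹ = d * b ^ j := by
    intro j
    induction j with
    | zero => simp
    | succ j ih =>
      have hc2 : m * b ^ j * m⁻¹ = b ^ j := by
        rw [(hcomm.pow_right j).eq]; group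
      have e1 : m ^ (j + 1) * d * (m ^ (j + 1))⁻¹ = m * (m ^ j * d * (m ^ j)⁻¹) * m⁻¹ := by
        rw [pow_succ']; group
      have e2 : ∀ c : G, m * (d * c) * m⁻¹ = (m * d * m⁻¹) * (m * c * m⁻¹) := by
        intro c; group
      rw [e1, ih, e2, hc2, hmd, pow_succ, mul_assoc]
      rw [(Commute.pow_right (Commute.refl b) j).eq]
  have h1 := key (Nat.card (D ⊓ N : Subgroup G))
  have h2 : b ^ Nat.card (D ⊓ N : Subgroup G) = 1 := by
    have := pow_card_eq_one' (G := ↥(D ⊓ N : Subgroup G)) (x := ⟨b, hb⟩)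
    simpa using congrArg Subtype.val this
  rw [h2, mul_one] at h1
  have h3 : m ^ Nat.card (D ⊓ N : Subgroup G) * d
      = (m ^ Nat.card (D ⊓ N : Subgroup G) * d * (m ^ Nat.card (D ⊓ N : Subgroup G))⁻¹)
        * m ^ Nat.card (D ⊓ N : Subgroup G) := by group
  rw [h3, h1]

theorem sdec_mem {stp : Subgroup G → G → Prop} (H : Subgroup G)
    (hstep : ∀ D x, stp D x → x ∈ H) {R : Subgroup G} {g : G} (h : SDec stp R g) : g ∈ H := by
  induction h with
  | nil R => exact H.one_mem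
  | cons R D x g hD hRD _ ih => exact H.mul_mem (hstep D x hD) ih

end Gen

section Main

variable {G : Type*} [Group G] [Finite G] {p : ℕ} [Fact p.Prime]

theorem ctl_G (N : Subgroup G) [hNn : N.Normal] (P : Sylow p G) (W : Subgroup G)
    (hWn : Subgroup.normalizer (((P : Subgroup G) ⊓ N : Subgroup G) : Set G)
      ≤ Subgroup.normalizer (W : Set G))
    (hctlW : ∀ A : Subgroup G, A ≤ (P : Subgroup G) ⊓ N → ∀ n ∈ N, cj n A ≤ (P : Subgroup G) ⊓ N →
      ∃ h ∈ N ⊓ Subgroup.normalizer (W : Set G), ∃ c ∈ N ⊓ Subgroup.centralizer (A : Set G),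
        n = h * c) :
    ∀ B : Subgroup G, B ≤ (P : Subgroup G) ⊓ N → ∀ g : G, cj g B ≤ (P : Subgroup G) ⊓ N →
      ∃ h ∈ Subgroup.normalizer (W : Set G), ∃ c ∈ N ⊓ Subgroup.centralizer (B : Set G),
        g = h * c := by
  intro B hB g hgB
  have hidx : ¬ p ∣ ((P : Subgroup G) ⊓ N).relIndex N := by
    apply inf_normal_sylow_in ⊤ N (P : Subgroup G) le_top P.2 _ le_top
    · rw [Subgroup.normalizer_eq_top]
    · rw [Subgroup.relIndex_top_right]; exact P.not_dvd_index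
  obtain ⟨R, hR⟩ : ∃ R : Subgroup G, R = (P : Subgroup G) ⊓ N := ⟨_, rfl⟩
  rw [← hR] at hWn hctlW hB hgB hidx
  have hRN : R ≤ N := by rw [hR]; exact inf_le_right
  have hRp : IsPGroup p R := by rw [hR]; exact P.2.to_le inf_le_left
  obtain ⟨n, hn, hnq⟩ := exists_conj_le_of_relIndex N R (cj g R) hRp hidx
    (by have := cj_mono (g := g) hRN; rwa [cj_eq_of_normal g N] at this) (isPGroup_cj hRp)
  have hy : n * g ∈ Subgroup.normalizer (R : Set G) := by
    apply mem_normalizer_of_cj_le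
    rw [cj_mul]
    rintro _ ⟨q, hq, rfl⟩
    exact hnq q hq
  obtain ⟨y, hy_def⟩ : ∃ y : G, y = n * g := ⟨_, rfl⟩
  rw [← hy_def] at hy
  have hyB : cj y B ≤ R := by
    have := cj_mono (g := y) hB
    rwa [cj_eq_self_of_mem_normalizer hy] at this
  have hn' : cj n⁻¹ (cj y B) ≤ R := by
    rw [← cj_mul]
    have e : n⁻¹ * y = g := by rw [hy_def]; group
    rw [e]; exact hgB
  obtain ⟨h, hh, c, hc, heq⟩ := hctlW (cj y B) hyB n⁻¹ (N.inv_mem hn) hn'
  refine ⟨h * y, Subgroup.mul_mem _ hh.2 (hWn hy), y⁻¹ * c * y, ⟨?_, ?_⟩, ?_⟩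
  · have := hNn.conj_mem c hc.1 y⁻¹
    simpa using this
  · have h2 : c ∈ Subgroup.centralizer ((cj y B : Subgroup G) : Set G) := (Subgroup.mem_inf.mp hc).2
    rw [centralizer_cj, mem_cj] at h2
    exact h2
  · have e : g = n⁻¹ * y := by rw [hy_def]; group
    rw [e, heq]; group

theorem W_le_gstp (N : Subgroup G) [hNn : N.Normal] (P : Sylow p G) (W : Subgroup G)
    (hWR : W ≤ (P : Subgroup G) ⊓ N)
    (hPW : (P : Subgroup G) ≤ Subgroup.normalizer (W : Set G))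
    (hB : ∀ B : Subgroup G, B ≤ (P : Subgroup G) ⊓ N → ∀ g : G, cj g B ≤ (P : Subgroup G) ⊓ N →
      ∃ h ∈ Subgroup.normalizer (W : Set G), ∃ c ∈ N ⊓ Subgroup.centralizer (B : Set G),
        g = h * c)
    (D : Subgroup G) (x : G) (hD : gstp P D x) : W ≤ D := by
  obtain ⟨hDP, -, hC, hI, -⟩ := hD
  by_contra hWD
  have hDp : IsPGroup p D := P.2.to_le hDP
  have hWP : W ≤ (P : Subgroup G) := hWR.trans inf_le_left
  have hWN : W ≤ N := hWR.trans inf_le_right
  have hWp : IsPGroup p W := P.2.to_le hWP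
  have hDWp : IsPGroup p (D ⊔ W : Subgroup G) := P.2.to_le (sup_le hDP hWP)
  have hlt : D < D ⊔ W := lt_of_le_of_ne le_sup_left (fun h => hWD (le_sup_right.trans h.ge))
  have hlt2 := lt_normalizer_inf_of_lt hDWp hlt
  obtain ⟨y, hy, hyD⟩ := SetLike.exists_of_lt hlt2
  obtain ⟨hy1, hy2⟩ := Subgroup.mem_inf.mp hy
  have hyWD : y ∈ W ⊔ D := by rw [sup_comm]; exact hy2
  obtain ⟨w, hw, d, hd, rfl⟩ :=
    Cfsg.Agent.Helper13.mem_sup_of_le_normalizer (hDP.trans hPW) hyWD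
  have hwX : w ∈ Subgroup.normalizer (D : Set G) := by
    have := Subgroup.mul_mem _ hy1 (Subgroup.inv_mem _ (Subgroup.le_normalizer hd))
    simpa using this
  have hwD : w ∉ D := fun h => hyD (D.mul_mem h hd)
  apply hwD
  -- the subgroup T
  obtain ⟨B, hBdef⟩ : ∃ B : Subgroup G, B = D ⊓ N := ⟨_, rfl⟩
  have hBR : B ≤ (P : Subgroup G) ⊓ N := by rw [hBdef]; exact inf_le_inf_right N hDP
  have hBp : IsPGroup p B := P.2.to_le (hBR.trans inf_le_left)
  obtain ⟨T, hTdef⟩ : ∃ T : Subgroup G, T = (N ⊓ Subgroup.centralizer (B : Set G))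
      ⊔ (W ⊓ Subgroup.normalizer (B : Set G)) := ⟨_, rfl⟩
  have hXB : ∀ x' ∈ Subgroup.normalizer (D : Set G), cj x' B = B := by
    intro x' hx'
    rw [hBdef, cj_inf, cj_eq_self_of_mem_normalizer hx', cj_eq_of_normal]
  have hT_inv : ∀ x' ∈ Subgroup.normalizer (D : Set G), cj x' T = T := by
    intro x' hx'
    have hx'B : cj x' B = B := hXB x' hx'
    obtain ⟨h, hh, c, hc, rfl⟩ := hB B hBR x' (by rw [hx'B]; exact hBR)
    have hcB : cj c B = B :=
      cj_eq_self_of_mem_normalizer (Subgroup.centralizer_le_normalizer _ hc.2)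
    have hhB : cj h B = B := by rw [cj_mul, hcB] at hx'B; exact hx'B
    have hcT : cj c T = T := cj_eq_self_of_mem (by rw [hTdef]; exact Subgroup.mem_sup_left hc)
    rw [cj_mul, hcT, hTdef, cj_sup, cj_inf, cj_inf, ← normalizer_cj, ← centralizer_cj, hhB,
      cj_eq_of_normal, cj_eq_self_of_mem_normalizer hh]
  have hwT : w ∈ T := by
    rw [hTdef]
    refine Subgroup.mem_sup_right (Subgroup.mem_inf.mpr ⟨hw, ?_⟩)
    exact mem_normalizer_of_cj_eq_self (hXB w hwX)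
  have hTN : T ≤ N := by
    rw [hTdef]; exact sup_le inf_le_left (inf_le_left.trans hWN)
  have hTpow : ∀ t ∈ T, ∃ k : ℕ, t ^ p ^ k ∈ N ⊓ Subgroup.centralizer (B : Set G) := by
    intro t ht
    rw [hTdef] at ht
    have hnorm : W ⊓ Subgroup.normalizer (B : Set G)
        ≤ Subgroup.normalizer ((N ⊓ Subgroup.centralizer (B : Set G) : Subgroup G) : Set G) := by
      intro u hu
      apply mem_normalizer_of_cj_eq_self
      rw [cj_inf, cj_eq_of_normal, ← centralizer_cj,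
        cj_eq_self_of_mem_normalizer (Subgroup.mem_inf.mp hu).2]
    obtain ⟨c, hc, u, hu, rfl⟩ := Cfsg.Agent.Helper13.mem_sup_of_le_normalizer hnorm ht
    obtain ⟨k, hk⟩ := exists_pow_of_isPGroup hWp (Subgroup.mem_inf.mp hu).1
    obtain ⟨c', hc', he⟩ := pow_mul_mem_of_normalizes _ u c (hnorm hu) hc (p ^ k)
    refine ⟨k, ?_⟩
    rw [he, hk, mul_one]; exact hc'
  have hTC : ∀ m ∈ T, m ∈ Subgroup.normalizer (D : Set G) →
      ∃ k : ℕ, m ^ p ^ k ∈ Subgroup.centralizer (D : Set G) := by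
    intro m hm hmX
    obtain ⟨k, hk⟩ := hTpow m hm
    obtain ⟨b, hb⟩ := IsPGroup.iff_card.mp hBp
    have h1 := stab_pow N D (m ^ p ^ k) (Subgroup.mem_inf.mp hk).1 (Subgroup.pow_mem _ hmX _)
      (by rw [← hBdef]; exact (Subgroup.mem_inf.mp hk).2)
    rw [← hBdef, hb, ← pow_mul, ← pow_add] at h1
    exact ⟨k + b, h1⟩
  -- the quotient argument
  obtain ⟨X, hXdef⟩ : ∃ X : Subgroup G, X = Subgroup.normalizer (D : Set G) := ⟨_, rfl⟩
  rw [← hXdef] at hC hI hwX hT_inv hTC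
  have hM₀n : (T.subgroupOf X).Normal := by
    constructor
    intro m hm x'
    rw [Subgroup.mem_subgroupOf] at hm ⊢
    have h1 : (x' : G) * (m : G) * (x' : G)⁻¹ ∈ cj (x' : G) T := conj_mem_cj hm
    rw [hT_inv _ x'.2] at h1
    simpa using h1
  have hMbar : IsPGroup p ((T.subgroupOf X).map (QuotientGroup.mk' (pPrimeCore p ↥X))) := by
    rintro ⟨q, m, hm, rfl⟩
    obtain ⟨k, hk⟩ := hTC (m : G) (Subgroup.mem_subgroupOf.mp hm) m.2
    have h1 := hC hk
    obtain ⟨z, hz, hze⟩ := h1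
    have hz' : z = m ^ p ^ k := Subtype.ext (by rw [Subgroup.coe_pow]; exact hze)
    rw [hz'] at hz
    have h2 : QuotientGroup.mk' (pPrimeCore p ↥X) (m ^ p ^ k) ∈ pCore p (↥X ⧸ pPrimeCore p ↥X) := hz
    obtain ⟨j, hj⟩ := exists_pow_of_isPGroup (pCore_isPGroup p _) h2
    refine ⟨k + j, Subtype.ext ?_⟩
    rw [Subgroup.coe_pow, Subgroup.coe_one, pow_add, pow_mul, ← map_pow]
    exact hj
  have hle := le_pCore (hM₀n.map (QuotientGroup.mk' (pPrimeCore p ↥X))
    (QuotientGroup.mk'_surjective _)) hMbar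
  have hwL : w ∈ (pPrimePCore p ↥X).map X.subtype := by
    refine ⟨⟨w, hwX⟩, ?_, rfl⟩
    show QuotientGroup.mk' (pPrimeCore p ↥X) ⟨w, hwX⟩ ∈ pCore p (↥X ⧸ pPrimeCore p ↥X)
    exact hle ⟨⟨w, hwX⟩, Subgroup.mem_subgroupOf.mpr hwT, rfl⟩
  -- conclude
  obtain ⟨-, -, hcomm, -, hsup⟩ := hI
  rw [← hsup] at hwL
  have hDK : D ≤ Subgroup.normalizer
      (((pPrimeCore p ↥X).map X.subtype : Subgroup G) : Set G) := by
    intro d' hd'
    apply Subgroup.centralizer_le_normalizer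
    rw [Subgroup.mem_centralizer_iff]
    intro a ha
    exact hcomm a ha d' hd'
  obtain ⟨k, hk, d', hd', hwe⟩ := Cfsg.Agent.Helper13.mem_sup_of_le_normalizer hDK hwL
  have hkP : k ∈ (P : Subgroup G) := by
    have : k = w * d'⁻¹ := by rw [hwe]; group
    rw [this]
    exact Subgroup.mul_mem _ (hWP hw) (Subgroup.inv_mem _ (hDP hd'))
  have hKc : (Nat.card ((pPrimeCore p ↥X).map X.subtype : Subgroup G)).Coprime p := by
    rw [Subgroup.card_map_of_injective (Subgroup.subtype_injective X)]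
    exact pPrimeCore_card_coprime p
  have hbot := pgroup_inf_coprime_eq_bot (P : Subgroup G) _ P.2 hKc
  have hk1 : k = 1 := by
    have : k ∈ (P : Subgroup G) ⊓ (pPrimeCore p ↥X).map X.subtype := Subgroup.mem_inf.mpr ⟨hkP, hk⟩
    rw [hbot] at this
    exact Subgroup.mem_bot.mp this
  rw [hwe, hk1, one_mul]
  exact hd'

end Main

/-- Let N be a normal subgroup of the finite group G, P a Sylow p-subgroup of G, and V a subgroup of P ∩ N normal in P ∩ N such that N_N(V) controls strong fusion in P ∩ N with respect to N (whenever a subgroup A of P ∩ N has n A n⁻¹ ≤ P ∩ N for some n in N, then n = h c with h in N_N(V) and c in C_N(A)). Let W be the subgroup generated by the conjugates of V under N_G(P ∩ N). Then N_G(W) controls strong fusion in P with respect to G. -/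
theorem result {G : Type*} [Group G] [Finite G] {p : ℕ} [Fact p.Prime] (N : Subgroup G) [N.Normal] (P : Sylow p G) (V : Subgroup G)
    (hV : V ≤ (P : Subgroup G) ⊓ N) (hVn : ∀ x ∈ (P : Subgroup G) ⊓ N, V.map (MulAut.conj x).toMonoidHom = V)
    (hctrl : ∀ A : Subgroup G, A ≤ (P : Subgroup G) ⊓ N → ∀ n ∈ N, A.map (MulAut.conj n).toMonoidHom ≤ (P : Subgroup G) ⊓ N →
      ∃ h ∈ N ⊓ Subgroup.normalizer (V : Set G), ∃ c ∈ N ⊓ Subgroup.centralizer (A : Set G), n = h * c)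
    (W : Subgroup G) (hW : W = Subgroup.closure (⋃ x ∈ Subgroup.normalizer (((P : Subgroup G) ⊓ N : Subgroup G) : Set G),
      ((V.map (MulAut.conj x).toMonoidHom : Subgroup G) : Set G))) :
    ∀ A : Subgroup G, A ≤ (P : Subgroup G) → ∀ g : G, A.map (MulAut.conj g).toMonoidHom ≤ (P : Subgroup G) →
        ∃ h ∈ Subgroup.normalizer (W : Set G), ∃ c ∈ Subgroup.centralizer (A : Set G), g = h * c := by
  have hWR : W ≤ (P : Subgroup G) ⊓ N := W_le _ V W hV hW
  have hRW := normalizer_le_W ((P : Subgroup G) ⊓ N) V W hW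
  have hPR : (P : Subgroup G)
      ≤ Subgroup.normalizer (((P : Subgroup G) ⊓ N : Subgroup G) : Set G) := by
    intro u hu
    apply mem_normalizer_of_cj_eq_self
    rw [cj_inf, cj_eq_of_normal u N, cj_eq_self_of_mem hu]
  have hA := ctl_W N ((P : Subgroup G) ⊓ N) V W hV hctrl hW
  have hB := ctl_G N P W hRW hA
  have hstep : ∀ D x, gstp P D x → x ∈ Subgroup.normalizer (W : Set G) := by
    intro D x hD
    have hWD := W_le_gstp N P W hWR (hPR.trans hRW) hB D x hD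
    obtain ⟨hDP, hxD, -⟩ := hD
    have h1 : cj x W ≤ (P : Subgroup G) ⊓ N := by
      apply le_inf
      · have := cj_mono (g := x) hWD
        rw [cj_eq_self_of_mem_normalizer hxD] at this
        exact this.trans hDP
      · have := cj_mono (g := x) (hWR.trans inf_le_right)
        rwa [cj_eq_of_normal x N] at this
    obtain ⟨h, hh, c, hc, rfl⟩ := hB W hWR x h1
    exact Subgroup.mul_mem _ hh (Subgroup.centralizer_le_normalizer _ hc.2)
  intro A hA' g hg
  have hrc : rc g⁻¹ A ≤ (P : Subgroup G) := by rw [rc_eq_cj, inv_inv]; exact hg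
  have hcard : Nat.card A + (Nat.card (P : Subgroup G) - Nat.card A)
      = Nat.card (P : Subgroup G) := by
    have := Subgroup.card_le_of_le hA'; omega
  obtain ⟨c, hc, g', hdec, heq⟩ := ag_main P _ A hA' hcard g⁻¹ hrc
  have hg' : g' ∈ Subgroup.normalizer (W : Set G) := sdec_mem _ hstep hdec
  refine ⟨g'⁻¹, Subgroup.inv_mem _ hg', c⁻¹, Subgroup.inv_mem _ hc, ?_⟩
  have e : g = (g⁻¹)⁻¹ := (inv_inv g).symm
  rw [e, heq]; group

end Cfsg.Agent.S1954
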