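import Cfsg.Statements.S1956
import Cfsg.Agent.Helper13.Syl

set_option autoImplicit false
open Cfsg

namespace Cfsg.Agent.S1956

/-- Let P be a Sylow p-subgroup of the finite group G such that every element of P of order dividing p (dividing 4 when p = 2) is central in P. Then the fusion of these elements is controlled by N_G(P): if such an element a of P has g a g⁻¹ in P, then g = n c with n normalizing P and c commuting with a. -/
theorem result {G : Type*} [Group G] [Finite G] {p : ℕ} [Fact p.Prime] (P : Sylow p G)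
    (hcen : ∀ a ∈ (P : Subgroup G), (a ^ p = 1 ∨ (p = 2 ∧ a ^ 4 = 1)) → ∀ y ∈ (P : Subgroup G), a * y = y * a) :
    ∀ a ∈ (P : Subgroup G), (a ^ p = 1 ∨ (p = 2 ∧ a ^ 4 = 1)) → ∀ g : G, g * a * g⁻¹ ∈ (P : Subgroup G) →
      ∃ n ∈ Subgroup.normalizer ((P : Subgroup G) : Set G), ∃ c : G, c * a = a * c ∧ g = n * c := by
  intro a haP hord g hg
  have hord' : ((g * a * g⁻¹) ^ p = 1 ∨ (p = 2 ∧ (g * a * g⁻¹) ^ 4 = 1)) := by
    rcases hord with h | ⟨h2, h4⟩
    · left; rw [conj_pow, h]; group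
    · right; exact ⟨h2, by rw [conj_pow, h4]; group⟩
  have hcen_a := hcen a haP hord
  have hcen_a' := hcen _ hg hord'
  generalize ha' : g * a * g⁻¹ = a' at hg hcen_a'
  have hPC : (P : Subgroup G) ≤ Subgroup.centralizer ({a'} : Set G) := by
    intro y hy
    rw [Subgroup.mem_centralizer_iff]
    intro h0 hh0
    rw [Set.mem_singleton_iff.mp hh0]
    exact hcen_a' y hy
  have hP'C : ((g • P : Sylow p G) : Subgroup G) ≤ Subgroup.centralizer ({a'} : Set G) := by
    intro x hx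
    have hx' : g⁻¹ * x * g ∈ P := (Cfsg.Agent.Helper13.mem_smul_sylow P g x).mp hx
    have h1 := hcen_a _ hx'
    rw [Subgroup.mem_centralizer_iff]
    intro h0 hh0
    rw [Set.mem_singleton_iff.mp hh0]
    calc a' * x = g * (a * (g⁻¹ * x * g)) * g⁻¹ := by rw [← ha']; group
      _ = g * ((g⁻¹ * x * g) * a) * g⁻¹ := by rw [h1]
      _ = x * a' := by rw [← ha']; group
  obtain ⟨c', hc'C, hc'⟩ := Cfsg.Agent.Helper13.exists_smul_eq_in _ P (g • P) hPC hP'C
  have hn : c' * g ∈ Subgroup.normalizer ((P : Subgroup G) : Set G) :=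
    Sylow.smul_eq_iff_mem_normalizer.mp (by rw [mul_smul]; exact hc')
  refine ⟨c' * g, hn, g⁻¹ * c'⁻¹ * g, ?_, by group⟩
  have h7 : a' * c' = c' * a' := (Subgroup.mem_centralizer_iff.mp hc'C) a' rfl
  have h8 : c'⁻¹ * a' = a' * c'⁻¹ := by
    calc c'⁻¹ * a' = c'⁻¹ * (a' * c') * c'⁻¹ := by group
      _ = c'⁻¹ * (c' * a') * c'⁻¹ := by rw [h7]
      _ = a' * c'⁻¹ := by group
  calc g⁻¹ * c'⁻¹ * g * a = g⁻¹ * (c'⁻¹ * (g * a * g⁻¹)) * g := by group
    _ = g⁻¹ * ((g * a * g⁻¹) * c'⁻¹) * g := by rw [ha', h8]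
    _ = a * (g⁻¹ * c'⁻¹ * g) := by group

end Cfsg.Agent.S1956
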