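import Cfsg.Statements.S2001
import Cfsg.Agent.Helper13.Fusion6

set_option autoImplicit false
open Cfsg

open Cfsg.Agent.Helper13 Cfsg.Agent.Helper17
open scoped commutatorElement
namespace Cfsg.Agent.S2001

/-- Let p be a prime dividing the order of the finite group G, P a Sylow p-subgroup, W a conjugacy functor for p on G with Z(H) ≤ W(H) for every nontrivial p-subgroup H, and V a central functor: a conjugacy functor with V(H) ≤ Z(H), and V(H) ≤ V(K) whenever Z(H) ≤ Z(K), for nontrivial p-subgroups H, K. Say that W with V controls transfer in a subgroup L when some Sylow p-subgroup Q of L satisfies Q ∩ L' = (Q ∩ (N_L(W(Q)))')·(Q ∩ (C_L(V(Q)))') as a product of two subgroups. If W with V controls transfer in N_G(H) for every subgroup H with Z(P) ≤ H ≤ P, then W with V controls transfer in G. -/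
theorem result {G : Type*} [Group G] [Finite G] {p : ℕ} [Fact p.Prime] (hdiv : p ∣ Nat.card G) (P : Sylow p G) (W V : Subgroup G → Subgroup G) (hW : Cfsg.IsConjugacyFunctor p W) (hV : Cfsg.IsConjugacyFunctor p V) (hWZ : ∀ H : Subgroup G, IsPGroup p ↥H → H ⊓ Subgroup.centralizer ((H : Subgroup G) : Set G) ≤ W H) (hVZ : ∀ H : Subgroup G, IsPGroup p ↥H → V H ≤ H ⊓ Subgroup.centralizer ((H : Subgroup G) : Set G)) (hVmono : ∀ H K : Subgroup G, IsPGroup p ↥H → IsPGroup p ↥K → H ≠ ⊥ → K ≠ ⊥ → H ⊓ Subgroup.centralizer ((H : Subgroup G) : Set G) ≤ K ⊓ Subgroup.centralizer ((K : Subgroup G) : Set G) → V H ≤ V K) (hloc : ∀ H : Subgroup G, (P : Subgroup G) ⊓ Subgroup.centralizer (((P : Subgroup G) : Subgroup G) : Set G) ≤ H → H ≤ (P : Subgroup G) → ∃ Q : Subgroup G, Q ≤ Subgroup.normalizer ((H : Subgroup G) : Set G) ∧ IsPGroup p ↥Q ∧ ¬ p ∣ (Q).relIndex (Subgroup.normalizer ((H : Subgroup G) : Set G)) ∧ ∀ x : G, x ∈ Q ⊓ ⁅Subgroup.normalizer ((H :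 Subgroup G) : Set G), Subgroup.normalizer ((H : Subgroup G) : Set G)⁆ ↔ ∃ a ∈ Q ⊓ ⁅Subgroup.normalizer ((H : Subgroup G) : Set G) ⊓ Subgroup.normalizer ((W Q : Subgroup G) : Set G), Subgroup.normalizer ((H : Subgroup G) : Set G) ⊓ Subgroup.normalizer ((W Q : Subgroup G) : Set G)⁆, ∃ b ∈ Q ⊓ ⁅Subgroup.normalizer ((H : Subgroup G) : Set G) ⊓ Subgroup.centralizer ((V Q : Subgroup G) : Set G), Subgroup.normalizer ((H : Subgroup G) : Set G) ⊓ Subgroup.centralizer ((V Q : Subgroup G) : Set G)⁆, x = a * b) : ∃ Q : Subgroup G, IsPGroup p ↥Q ∧ ¬ p ∣ Q.index ∧ ∀ x : G, x ∈ Q ⊓ commutator G ↔ ∃ a ∈ Q ⊓ ⁅Subgroup.normalizer ((W Q : Subgroup G) : Set G), Subgroup.normalizer ((W Q : Subgroup G) : Set G)⁆, ∃ b ∈ Q ⊓ ⁅Subgroup.centralizer ((V Q : Subgroup G) : Set G), Subgroup.centralizer ((V Q : Subgroup G) : Set G)⁆, x = a * b := by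
  have hPne : (P : Subgroup G) ≠ ⊥ := P.ne_bot_of_dvd_card hdiv
  have hloc' : ∀ H : Subgroup G, (P : Subgroup G) ⊓ Subgroup.centralizer ((P : Subgroup G) : Set G) ≤ H →
      H ≤ (P : Subgroup G) →
      ¬ p ∣ ((P : Subgroup G) ⊓ Subgroup.normalizer ((H : Subgroup G) : Set G)).relIndex
        (Subgroup.normalizer ((H : Subgroup G) : Set G)) →
      pairTr W V (Subgroup.normalizer ((H : Subgroup G) : Set G))
        ((P : Subgroup G) ⊓ Subgroup.normalizer ((H : Subgroup G) : Set G)) := by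
    intro H hZH hHP htame
    obtain ⟨Q, hQN, hQp, hQi, hQ⟩ := hloc H hZH hHP
    refine pairTr_transfer hW hV ?_ hQN hQp hQi _ inf_le_right (P.2.to_le inf_le_left) htame
    intro x hx
    obtain ⟨a, ha, b, hb, rfl⟩ := (hQ x).mp hx
    exact Subgroup.mul_mem_sup ha hb
  have hmain := pair_tr_top P W V hW hWZ hVmono hPne hloc'
  refine ⟨P, P.2, P.not_dvd_index, fun x => ⟨fun hx => ?_, ?_⟩⟩
  · have hx' : x ∈ (P : Subgroup G) ⊓ ⁅(⊤ : Subgroup G), ⊤⁆ := by
      rw [← commutator_def]; exact hx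
    have hD := hmain hx'
    have hPN : (P : Subgroup G) ≤ (⊤ : Subgroup G) ⊓
        Subgroup.normalizer ((W (P : Subgroup G) : Subgroup G) : Set G) :=
      le_inf le_top (Subgroup.le_normalizer.trans (conjFunctor_normalizer_le hW P.2))
    have hB : (P : Subgroup G) ⊓ ⁅(⊤ : Subgroup G) ⊓ Subgroup.centralizer ((V (P : Subgroup G) : Subgroup G) : Set G),
        (⊤ : Subgroup G) ⊓ Subgroup.centralizer ((V (P : Subgroup G) : Subgroup G) : Set G)⁆ ≤
        Subgroup.normalizer ((((P : Subgroup G) ⊓ ⁅(⊤ : Subgroup G) ⊓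
          Subgroup.normalizer ((W (P : Subgroup G) : Subgroup G) : Set G),
          (⊤ : Subgroup G) ⊓ Subgroup.normalizer ((W (P : Subgroup G) : Subgroup G) : Set G)⁆ : Subgroup G)) : Set G) := by
      intro s hs
      have hsP : s ∈ (P : Subgroup G) := hs.1
      apply mem_normalizer_of_cj_eq_self
      rw [cj_inf, cj_commutator, cj_eq_self_of_mem hsP, cj_eq_self_of_mem (hPN hsP)]
    obtain ⟨a, ha, b, hb, rfl⟩ := mem_sup_of_le_normalizer hB hD
    exact ⟨a, ⟨ha.1, Subgroup.commutator_mono inf_le_right inf_le_right ha.2⟩, b,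
      ⟨hb.1, Subgroup.commutator_mono inf_le_right inf_le_right hb.2⟩, rfl⟩
  · rintro ⟨a, ha, b, hb, rfl⟩
    refine Subgroup.mem_inf.mpr ⟨Subgroup.mul_mem _ ha.1 hb.1, ?_⟩
    rw [commutator_def]
    exact Subgroup.mul_mem _ (Subgroup.commutator_mono le_top le_top ha.2)
      (Subgroup.commutator_mono le_top le_top hb.2)

end Cfsg.Agent.S2001
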