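import Cfsg.Statements.S2002
import Cfsg.Agent.Helper13.Fusion6

set_option autoImplicit false
open Cfsg

open Cfsg.Agent.Helper13 Cfsg.Agent.Helper17
namespace Cfsg.Agent.S2002

/-- Let p be a prime dividing the order of the finite group G, P a Sylow p-subgroup, W a conjugacy functor for p on G with Z(H) ≤ W(H) for every nontrivial p-subgroup H, and V a central functor (a conjugacy functor with V(H) ≤ Z(H), and V(H) ≤ V(K) whenever Z(H) ≤ Z(K)). Say that W with V controls strong fusion in a subgroup L when some Sylow p-subgroup Q of L has the property: whenever X ⊆ Q and a ∈ L with a⁻¹Xa ⊆ Q, then a = c b with c ∈ C_L(X) and b = b₁ ⋯ bₙ a product of elements each in N_L(W(Q)) or in C_L(V(Q)) such that every partial conjugate (b₁ ⋯ bₖ)⁻¹ X (b₁ ⋯ bₖ) lies in Q. If W with V controls strong fusion in N_G(H) for every subgroup H with Z(P) ≤ H ≤ P, then W with V controls strong fusion in G. -/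
theorem result {G : Type*} [Group G] [Finite G] {p : ℕ} [Fact p.Prime] (hdiv : p ∣ Nat.card G) (P : Sylow p G) (W V : Subgroup G → Subgroup G) (hW : Cfsg.IsConjugacyFunctor p W) (hV : Cfsg.IsConjugacyFunctor p V) (hWZ : ∀ H : Subgroup G, IsPGroup p ↥H → H ⊓ Subgroup.centralizer ((H : Subgroup G) : Set G) ≤ W H) (hVZ : ∀ H : Subgroup G, IsPGroup p ↥H → V H ≤ H ⊓ Subgroup.centralizer ((H : Subgroup G) : Set G)) (hVmono : ∀ H K : Subgroup G, IsPGroup p ↥H → IsPGroup p ↥K → H ≠ ⊥ → K ≠ ⊥ → H ⊓ Subgroup.centralizer ((H : Subgroup G) : Set G) ≤ K ⊓ Subgroup.centralizer ((K : Subgroup G) : Set G) → V H ≤ V K) (hloc : ∀ H : Subgroup G, (P : Subgroup G) ⊓ Subgroup.centralizer (((P : Subgroup G) : Subgroup G) : Set G) ≤ H → H ≤ (P : Subgroup G) → ∃ Q : Subgroup G, Q ≤ Subgroup.normalizer ((H : Subgroup G) : Set G) ∧ IsPGroup p ↥Q ∧ ¬ p ∣ (Q).relIndex (Subgroup.normalizer ((H : Subgroup G) : Set G)) ∧ ∀ (X : Set G) (a : G), X ⊆ Q → a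 ∈ Subgroup.normalizer ((H : Subgroup G) : Set G) → (fun x => a⁻¹ * x * a) '' X ⊆ Q → ∃ c ∈ Subgroup.normalizer ((H : Subgroup G) : Set G) ⊓ Subgroup.centralizer X, ∃ (n : ℕ) (b : Fin n → G), (∀ i, b i ∈ Subgroup.normalizer ((H : Subgroup G) : Set G) ⊓ Subgroup.normalizer ((W Q : Subgroup G) : Set G) ∨ b i ∈ Subgroup.normalizer ((H : Subgroup G) : Set G) ⊓ Subgroup.centralizer ((V Q : Subgroup G) : Set G)) ∧ a = c * (List.ofFn b).prod ∧ ∀ k : ℕ, k ≤ n → (fun x => (((List.ofFn b).take k).prod)⁻¹ * x * ((List.ofFn b).take k).prod) '' ((fun x => c⁻¹ * x * c) '' X) ⊆ Q) : ∃ Q : Subgroup G, IsPGroup p ↥Q ∧ ¬ p ∣ Q.index ∧ ∀ (X : Set G) (a : G), X ⊆ Q → (fun x => a⁻¹ * x * a) '' X ⊆ Q → ∃ c ∈ Subgroup.centralizer X, ∃ (n : ℕ) (b : Fin n → G), (∀ i, b i ∈ ⊤ ⊓ Subgroup.normalizer ((W Q : Subgroup G) : Set G) ∨ b i ∈ ⊤ ⊓ Subgroup.centralizer ((V Q : Subgroup G) : Set G)) ∧ a = c * (List.ofFn b).prod ∧ ∀ k : ℕ, k ≤ n → (fun x => (((List.ofFn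 b).take k).prod)⁻¹ * x * ((List.ofFn b).take k).prod) '' ((fun x => c⁻¹ * x * c) '' X) ⊆ Q := by
  have hPne : (P : Subgroup G) ≠ ⊥ := P.ne_bot_of_dvd_card hdiv
  have hloc' : ∀ H : Subgroup G, (P : Subgroup G) ⊓ Subgroup.centralizer ((P : Subgroup G) : Set G) ≤ H →
      H ≤ (P : Subgroup G) →
      ¬ p ∣ ((P : Subgroup G) ⊓ Subgroup.normalizer ((H : Subgroup G) : Set G)).relIndex
        (Subgroup.normalizer ((H : Subgroup G) : Set G)) →
      pairCtl W V (Subgroup.normalizer ((H : Subgroup G) : Set G))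
        ((P : Subgroup G) ⊓ Subgroup.normalizer ((H : Subgroup G) : Set G)) := by
    intro H hZH hHP htame
    obtain ⟨Q, hQN, hQp, hQi, hQ⟩ := hloc H hZH hHP
    refine pairCtl_transfer hW hV ?_ hQN hQp hQi _ inf_le_right (P.2.to_le inf_le_left) htame
    intro R hR a ha haR
    obtain ⟨c, hc, n, b, hb, hab, hpre⟩ := hQ (R : Set G) a⁻¹ hR (Subgroup.inv_mem _ ha) (by
      rintro _ ⟨x, hx, rfl⟩
      have := haR (conj_mem_cj (g := a) hx)
      simpa using this)
    have hcx : ∀ x ∈ R, c⁻¹ * x * c = x := by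
      intro x hx
      have := (Subgroup.mem_centralizer_iff.mp hc.2) x hx
      calc c⁻¹ * x * c = c⁻¹ * (x * c) := by group
        _ = c⁻¹ * (c * x) := by rw [this]
        _ = x := by group
    have hch := FChain.of_list (st := pst W V (Subgroup.normalizer ((H : Subgroup G) : Set G)) Q)
      (Q := Q) (List.ofFn b) R (by
        intro y hy
        obtain ⟨i, rfl⟩ := (List.mem_ofFn' _ _).mp hy
        exact pst_inv _ _ _ _ _ (hb i)) (by
        intro k hk
        rw [List.length_ofFn] at hk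
        rintro _ ⟨x, hx, rfl⟩
        have := hpre k hk ⟨c⁻¹ * x * c, ⟨x, hx, rfl⟩, rfl⟩
        rw [hcx x hx] at this
        simpa using this)
    refine ⟨_, hch, fun x hx => ?_⟩
    have ha' : a = ((List.ofFn b).prod)⁻¹ * c⁻¹ := by
      have : a⁻¹⁻¹ = (c * (List.ofFn b).prod)⁻¹ := by rw [hab]
      rw [inv_inv, mul_inv_rev] at this
      exact this
    rw [ha']
    have e : ((List.ofFn b).prod)⁻¹ * c⁻¹ * x * (((List.ofFn b).prod)⁻¹ * c⁻¹)⁻¹ =
        ((List.ofFn b).prod)⁻¹ * (c⁻¹ * x * c) * ((List.ofFn b).prod)⁻¹⁻¹ := by group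
    rw [e, hcx x hx]
  refine ⟨P, P.2, P.not_dvd_index, ?_⟩
  intro X a hX hXa
  have hR : Subgroup.closure X ≤ (P : Subgroup G) := (Subgroup.closure_le _).mpr hX
  have hRa : cj a⁻¹ (Subgroup.closure X) ≤ (P : Subgroup G) := by
    apply cj_closure_le
    rintro _ ⟨x, hx, rfl⟩
    have := hXa ⟨x, hx, rfl⟩
    simpa using this
  obtain ⟨g', hch, hag⟩ := pair_ctl_top P W V hW hWZ hVmono hPne hloc' (Subgroup.closure X) hR a⁻¹ hRa
  obtain ⟨l, hl, hg, hpre⟩ := hch.to_list (pst_inv W V ⊤ (P : Subgroup G))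
  have hcx : ∀ x ∈ X, (a * g')⁻¹ * x * (a * g') = x := by
    intro x hx
    have := hag x (Subgroup.subset_closure hx)
    calc (a * g')⁻¹ * x * (a * g') = g'⁻¹ * (a⁻¹ * x * a⁻¹⁻¹) * g' := by group
      _ = g'⁻¹ * (g' * x * g'⁻¹) * g' := by rw [this]
      _ = x := by group
  refine ⟨a * g', ?_, l.length, l.get, ?_, ?_, ?_⟩
  · rw [Subgroup.mem_centralizer_iff]
    intro x hx
    have := hcx x hx
    calc x * (a * g') = (a * g') * ((a * g')⁻¹ * x * (a * g')) := by group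
      _ = a * g' * x := by rw [this]
  · intro i
    exact hl _ (List.get_mem l i)
  · rw [List.ofFn_get, hg]; group
  · intro k hk
    rw [List.ofFn_get]
    rintro _ ⟨_, ⟨x, hx, rfl⟩, rfl⟩
    show ((l.take k).prod)⁻¹ * ((a * g')⁻¹ * x * (a * g')) * (l.take k).prod ∈ (P : Subgroup G)
    rw [hcx x hx]
    have := hpre k hk (conj_mem_cj (g := ((l.take k).prod)⁻¹) (Subgroup.subset_closure hx))
    simpa using this

end Cfsg.Agent.S2002
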