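import Cfsg.Statements.S2133
import Cfsg.Agent.Helper12.OctLin
import Cfsg.Agent.S1717

set_option autoImplicit false
open Cfsg

namespace Cfsg.Agent.S2133

open Cfsg.Agent.Helper12 Cfsg.Agent.Helper12.OctLin Cfsg.Agent.S1717

theorem card_GL3 : Nat.card (GL (Fin 3) (ZMod 2)) = 168 := by
  rw [Matrix.card_GL_field]
  simp [Fin.prod_univ_three, ZMod.card]

/-- the unit of the `3 × 3` block of an element of the transvection centraliser -/
def blkU {s : SL5} (hs : (s : M5) = Matrix.transvection 0 1 1)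
    (g : ↥(Subgroup.centralizer ({s} : Set SL5))) : (Matrix (Fin 3) (Fin 3) (ZMod 2))ˣ where
  val := blk (g.1 : M5)
  inv := blk ((g.1⁻¹ : SL5) : M5)
  val_inv := by
    rw [← blk_mul (inC_of_mem hs g.2) (inC_of_mem hs (inv_mem g.2)),
      ← Matrix.SpecialLinearGroup.coe_mul, mul_inv_cancel, Matrix.SpecialLinearGroup.coe_one,
      blk_one]
  inv_val := by
    rw [← blk_mul (inC_of_mem hs (inv_mem g.2)) (inC_of_mem hs g.2),
      ← Matrix.SpecialLinearGroup.coe_mul, inv_mul_cancel, Matrix.SpecialLinearGroup.coe_one,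
      blk_one]

theorem card_cent_le {s : SL5} (hs : (s : M5) = Matrix.transvection 0 1 1) :
    Nat.card ↥(Subgroup.centralizer ({s} : Set SL5)) ≤ 21504 := by
  have hinj : Function.Injective (fun g : ↥(Subgroup.centralizer ({s} : Set SL5)) =>
      ((fun k : Fin 4 => (g.1 : M5) 0 ⟨k.1 + 1, by omega⟩),
       (fun k : Fin 3 => (g.1 : M5) ⟨k.1 + 2, by omega⟩ 1), blkU hs g)) := by
    intro g h hgh
    simp only [Prod.mk.injEq] at hgh
    obtain ⟨h1, h2, h3⟩ := hgh
    apply Subtype.ext; apply Subtype.ext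
    have hg := inC_of_mem hs g.2
    have hh := inC_of_mem hs h.2
    have h3' : blk (g.1 : M5) = blk (h.1 : M5) := congrArg Units.val h3
    have hbl : ∀ a b : Fin 3, (g.1 : M5) ⟨a.1 + 2, by omega⟩ ⟨b.1 + 2, by omega⟩ =
        (h.1 : M5) ⟨a.1 + 2, by omega⟩ ⟨b.1 + 2, by omega⟩ :=
      fun a b => congrFun (congrFun h3' a) b
    have h00 : (g.1 : M5) 0 0 = (h.1 : M5) 0 0 := by
      rw [inC_00 hg g.1.2, inC_00 hh h.1.2]
    have h11 : (g.1 : M5) 1 1 = (h.1 : M5) 1 1 := by
      rw [← inC_diag hg, ← inC_diag hh]; exact h00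
    have hcol : ∀ k : Fin 5, k ≠ 0 → (g.1 : M5) k 0 = (h.1 : M5) k 0 := by
      intro k hk; rw [inC_col hg hk, inC_col hh hk]
    have hrow : ∀ k : Fin 5, k ≠ 1 → (g.1 : M5) 1 k = (h.1 : M5) 1 k := by
      intro k hk; rw [inC_row hg hk, inC_row hh hk]
    ext i j
    fin_cases i <;> fin_cases j
    · exact h00
    · exact congrFun h1 0
    · exact congrFun h1 1
    · exact congrFun h1 2
    · exact congrFun h1 3
    · exact hcol 1 (by decide)
    · exact h11
    · exact hrow 2 (by decide)
    · exact hrow 3 (by decide)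
    · exact hrow 4 (by decide)
    · exact hcol 2 (by decide)
    · exact congrFun h2 0
    · exact hbl 0 0
    · exact hbl 0 1
    · exact hbl 0 2
    · exact hcol 3 (by decide)
    · exact congrFun h2 1
    · exact hbl 1 0
    · exact hbl 1 1
    · exact hbl 1 2
    · exact hcol 4 (by decide)
    · exact congrFun h2 2
    · exact hbl 2 0
    · exact hbl 2 1
    · exact hbl 2 2
  have h := Nat.card_le_card_of_injective _ hinj
  have e : Nat.card ((Fin 4 → ZMod 2) × (Fin 3 → ZMod 2) × (Matrix (Fin 3) (Fin 3) (ZMod 2))ˣ)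
      = 21504 := by
    rw [Nat.card_prod, Nat.card_prod]
    have e3 : Nat.card (Matrix (Fin 3) (Fin 3) (ZMod 2))ˣ = 168 := card_GL3
    rw [e3]
    simp [Nat.card_eq_fintype_card, ZMod.card]
  rw [e] at h
  exact h

theorem mat_comm {g : ↥M24} (hg : g ∈ Subgroup.centralizer ({zM} : Set ↥M24)) :
    InC (mat (g : Equiv.Perm GolayPt)) := by
  have hO := cent_smul hg
  rw [Subgroup.mem_centralizer_singleton_iff] at hg
  have hc : (g : Equiv.Perm GolayPt) * z0 = z0 * (g : Equiv.Perm GolayPt) :=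
    congrArg Subtype.val hg
  show mat (g : Equiv.Perm GolayPt) * Matrix.transvection 0 1 1 =
    Matrix.transvection 0 1 1 * mat (g : Equiv.Perm GolayPt)
  rw [← mat_z0, ← mat_mul g.2 hO z0_mem z0_smul, ← mat_mul z0_mem z0_smul g.2 hO, hc]

/-- the linear action on the 5-dimensional subcode, as a homomorphism between centralisers -/
noncomputable def Phi {s : SL5} (hs : (s : M5) = Matrix.transvection 0 1 1) :
    ↥(Subgroup.centralizer ({zM} : Set ↥M24)) →* ↥(Subgroup.centralizer ({s} : Set SL5)) where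
  toFun g := ⟨⟨mat (g.1 : Equiv.Perm GolayPt), det_mat g.1.2 (cent_smul g.2)⟩,
    mem_of_inC hs (mat_comm g.2)⟩
  map_one' := by
    apply Subtype.ext; apply Subtype.ext
    exact mat_one
  map_mul' a b := by
    apply Subtype.ext; apply Subtype.ext
    exact mat_mul a.1.2 (cent_smul a.2) b.1.2 (cent_smul b.2)

theorem Phi_inj {s : SL5} (hs : (s : M5) = Matrix.transvection 0 1 1) :
    Function.Injective (Phi hs) := by
  rw [injective_iff_map_eq_one]
  intro g hg
  have h1 : mat (g.1 : Equiv.Perm GolayPt) = 1 :=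
    congrArg (fun x : ↥(Subgroup.centralizer ({s} : Set SL5)) => ((x.1 : SL5) : M5)) hg
  have h2 := mat_inj g.1.2 (cent_smul g.2) h1
  apply Subtype.ext; apply Subtype.ext
  exact h2

/-- The Mathieu group M₂₄ (the automorphism group of the length-24 binary code) has an involution whose centraliser is isomorphic to the centraliser of a transvection in SL(5, 2) (a group of shape 2^{1+6}:GL(3, 2)). -/
theorem result (s : Matrix.SpecialLinearGroup (Fin 5) (ZMod 2)) (hs : (s : Matrix (Fin 5) (Fin 5) (ZMod 2)) = Matrix.transvection 0 1 1) : ∃ z : ↥Cfsg.M24, orderOf z = 2 ∧ Nonempty (↥(Subgroup.centralizer ({z} : Set ↥Cfsg.M24)) ≃* ↥(Subgroup.centralizer ({s} : Set (Matrix.SpecialLinearGroup (Fin 5) (ZMod 2))))) := by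
  refine ⟨zM, ?_, ?_⟩
  · apply orderOf_eq_prime
    · rw [pow_two]
      apply Subtype.ext
      exact z0_sq
    · intro h
      exact z0_ne_one (congrArg Subtype.val h)
  · have hle : Nat.card ↥(Subgroup.centralizer ({s} : Set SL5)) ≤
        Nat.card ↥(Subgroup.centralizer ({zM} : Set ↥M24)) :=
      le_trans (card_cent_le hs) card_cent_ge
    have hbij := (Phi_inj hs).bijective_of_nat_card_le hle
    exact ⟨MulEquiv.ofBijective (Phi hs) hbij⟩

end Cfsg.Agent.S2133
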