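import Cfsg.Statements.S2162

set_option autoImplicit false
open Cfsg

namespace Cfsg.Agent.S2162

open Module

theorem two_zero (F : Type*) [Field F] [CharP F 2] : (2 : F) = 0 := by
  have := CharP.cast_eq_zero F 2
  exact_mod_cast this

theorem sq_inj {F : Type*} [Field F] [CharP F 2] (s t : F) (h : s ^ 2 = t ^ 2) : s = t := by
  have h2 := two_zero F
  have : (s - t) ^ 2 = 0 := by
    linear_combination h + (t ^ 2 - s * t) * h2
  have := pow_eq_zero_iff (two_ne_zero) |>.mp this
  exact sub_eq_zero.mp this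

theorem sq_surj {F : Type*} [Field F] [Finite F] [CharP F 2] (x : F) : ∃ s : F, s ^ 2 = x := by
  have hinj : Function.Injective (fun s : F => s ^ 2) := fun s t h => sq_inj s t h
  exact (Finite.injective_iff_surjective.mp hinj) x

/-- A square-zero endomorphism of rank `ℓ` has a basis of a standard shape. -/
theorem exists_shaped_basis {F : Type*} [Field F] {V : Type*} [AddCommGroup V] [Module F V]
    [FiniteDimensional F V] (f : V →ₗ[F] V) (hf : f ∘ₗ f = 0) (ℓ : ℕ)
    (hℓ : finrank F (LinearMap.range f) = ℓ) (n : ℕ) (hn : finrank F V = n) :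
    ∃ B : Basis (Fin ℓ ⊕ (Fin (n - 2 * ℓ) ⊕ Fin ℓ)) F V,
      (∀ i, f (B (Sum.inl i)) = B (Sum.inr (Sum.inr i))) ∧ (∀ j, f (B (Sum.inr j)) = 0) := by
  classical
  obtain ⟨R, hR⟩ : ∃ R : Submodule F V, R = LinearMap.range f := ⟨_, rfl⟩
  obtain ⟨K, hK⟩ : ∃ K : Submodule F V, K = LinearMap.ker f := ⟨_, rfl⟩
  rw [← hR] at hℓ
  have hRK : R ≤ K := by
    rw [hR, hK]
    rintro x ⟨y, rfl⟩
    rw [LinearMap.mem_ker]
    have := congrArg (fun g : V →ₗ[F] V => g y) hf
    simpa using this
  have hKdim : finrank F K = n - ℓ := by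
    have := LinearMap.finrank_range_add_finrank_ker f
    rw [← hR, ← hK] at this
    omega
  obtain ⟨R', hR'⟩ : ∃ R' : Submodule F K, R' = Submodule.comap K.subtype R := ⟨_, rfl⟩
  have hR'dim : finrank F R' = ℓ := by
    rw [← hℓ, hR']
    exact LinearEquiv.finrank_eq (Submodule.comapSubtypeEquivOfLe hRK)
  obtain ⟨W, hW⟩ := Submodule.exists_isCompl R'
  have hWdim : finrank F W = n - 2 * ℓ := by
    have := Submodule.finrank_add_eq_of_isCompl hW
    omega
  have h2 : 2 * ℓ ≤ n := by
    have h1 := Submodule.finrank_le R'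
    have h3 := Submodule.finrank_le R
    omega
  let bR : Basis (Fin ℓ) F R := Module.finBasisOfFinrankEq F R hℓ
  let bW : Basis (Fin (n - 2 * ℓ)) F W := Module.finBasisOfFinrankEq F W hWdim
  have hv : ∀ i, ∃ x, f x = (bR i : V) := by
    intro i
    exact hR.le (bR i).2
  choose v hv using hv
  have hfW : ∀ j, f ((bW j : K) : V) = 0 := by
    intro j
    exact hK.le ((bW j : K)).2
  have hfR : ∀ i, f (bR i : V) = 0 := by
    intro i
    exact hK.le (hRK (bR i).2)
  let b : Fin ℓ ⊕ (Fin (n - 2 * ℓ) ⊕ Fin ℓ) → V :=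
    Sum.elim v (Sum.elim (fun j => ((bW j : K) : V)) (fun i => (bR i : V)))
  have hli : LinearIndependent F b := by
    rw [Fintype.linearIndependent_iff]
    intro g hg
    simp only [Fintype.sum_sum_type, b, Sum.elim_inl, Sum.elim_inr] at hg
    have h1 : ∀ i, g (Sum.inl i) = 0 := by
      have := congrArg f hg
      simp only [map_add, map_sum, map_smul, hv, hfW, hfR, smul_zero, Finset.sum_const_zero,
        add_zero, map_zero] at this
      have h' : (∑ i, g (Sum.inl i) • bR i : R) = 0 := by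
        apply Subtype.ext
        simpa using this
      exact fun i => (Fintype.linearIndependent_iff.mp bR.linearIndependent) _ h' i
    simp only [h1, zero_smul, Finset.sum_const_zero, zero_add] at hg
    obtain ⟨x, hx⟩ : ∃ x : W, x = ∑ j, g (Sum.inr (Sum.inl j)) • bW j := ⟨_, rfl⟩
    obtain ⟨y, hy⟩ : ∃ y : R, y = ∑ i, g (Sum.inr (Sum.inr i)) • bR i := ⟨_, rfl⟩
    have hxy : ((x : K) : V) + (y : V) = 0 := by
      rw [hx, hy]
      simpa using hg
    have hxR' : (x : K) ∈ R' := by
      rw [hR']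
      show ((x : K) : V) ∈ R
      have : ((x : K) : V) = -(y : V) := eq_neg_of_add_eq_zero_left hxy
      rw [this]
      exact R.neg_mem y.2
    have hx0 : (x : K) = 0 := by
      have : (x : K) ∈ R' ⊓ W := ⟨hxR', x.2⟩
      rw [hW.inf_eq_bot] at this
      exact (Submodule.mem_bot F).mp this
    have hx0' : x = 0 := Subtype.ext hx0
    have hy0 : y = 0 := by
      apply Subtype.ext
      rw [hx0'] at hxy
      simpa using hxy
    intro i
    rcases i with i | j | i
    · exact h1 i
    · exact (Fintype.linearIndependent_iff.mp bW.linearIndependent) _ (hx ▸ hx0') j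
    · exact (Fintype.linearIndependent_iff.mp bR.linearIndependent) _ (hy ▸ hy0) i
  have hcard : Fintype.card (Fin ℓ ⊕ (Fin (n - 2 * ℓ) ⊕ Fin ℓ)) = finrank F V := by
    simp only [Fintype.card_sum, Fintype.card_fin]
    omega
  refine ⟨basisOfLinearIndependentOfCardEqFinrank' b hli hcard, ?_, ?_⟩
  · intro i
    simp [b, hv]
  · intro j
    rcases j with j | i <;> simp [b, hfW, hfR]

theorem result {F : Type*} [Field F] [Fintype F] [CharP F 2] {n : ℕ} (hn : 3 ≤ n) (a b : Matrix.SpecialLinearGroup (Fin n) F) (ha : orderOf a = 2) (hb : orderOf b = 2) :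
    IsConj a b ↔ ((a : Matrix (Fin n) (Fin n) F) - 1).rank = ((b : Matrix (Fin n) (Fin n) F) - 1).rank := by
  classical
  have h2 := two_zero F
  constructor
  · intro h
    obtain ⟨c, hc⟩ := isConj_iff.mp h
    have hc' : (b : Matrix (Fin n) (Fin n) F) - 1 = c.1 * (a.1 - 1) * (c⁻¹).1 := by
      rw [← hc]
      have e1 : (c * a * c⁻¹).1 = c.1 * a.1 * (c⁻¹).1 := rfl
      have e2 : c.1 * (c⁻¹).1 = 1 := by
        have : (c * c⁻¹).1 = c.1 * (c⁻¹).1 := rfl
        rw [← this, mul_inv_cancel]
        rfl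
      rw [e1, mul_sub, sub_mul, mul_one, e2]
    rw [hc']
    have hu1 : IsUnit (c.1).det := by rw [c.2]; exact isUnit_one
    have hu2 : IsUnit ((c⁻¹).1).det := by rw [(c⁻¹).2]; exact isUnit_one
    rw [Matrix.rank_mul_eq_left_of_isUnit_det _ _ hu2, Matrix.rank_mul_eq_right_of_isUnit_det _ _ hu1]
  · intro hrank
    -- the nilpotent parts
    have key : ∀ x : Matrix.SpecialLinearGroup (Fin n) F, orderOf x = 2 →
        (Matrix.toLin' (x.1 - 1)) ∘ₗ (Matrix.toLin' (x.1 - 1)) = 0 := by
      intro x hx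
      have hxx : x ^ 2 = 1 := by
        have := pow_orderOf_eq_one x
        rw [hx] at this
        exact this
      have hM : x.1 * x.1 = 1 := by
        have := congrArg (fun y : Matrix.SpecialLinearGroup (Fin n) F => y.1) hxx
        simpa [pow_two] using this
      rw [← Matrix.toLin'_mul]
      have : (x.1 - 1) * (x.1 - 1) = 0 := by
        rw [mul_sub, sub_mul, sub_mul, hM, mul_one, one_mul, one_mul]
        have e : (1 : Matrix (Fin n) (Fin n) F) - x.1 - (x.1 - 1) = (2 : F) • (1 - x.1) := by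
          rw [two_smul]; abel
        rw [e, h2, zero_smul]
      rw [this]
      simp
    obtain ⟨ℓ, hℓ⟩ : ∃ ℓ : ℕ, ℓ = ((a : Matrix (Fin n) (Fin n) F) - 1).rank := ⟨_, rfl⟩
    have hra : finrank F (LinearMap.range (Matrix.toLin' (a.1 - 1))) = ℓ := by
      rw [hℓ, Matrix.toLin'_apply']
      rfl
    have hrb : finrank F (LinearMap.range (Matrix.toLin' (b.1 - 1))) = ℓ := by
      rw [hℓ, hrank, Matrix.toLin'_apply']
      rfl
    have hV : finrank F (Fin n → F) = n := by simp
    obtain ⟨Ba, hBa1, hBa2⟩ := exists_shaped_basis _ (key a ha) ℓ hra n hV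
    obtain ⟨Bb, hBb1, hBb2⟩ := exists_shaped_basis _ (key b hb) ℓ hrb n hV
    -- ℓ is positive
    have hℓpos : 0 < ℓ := by
      rcases Nat.eq_zero_or_pos ℓ with h0 | h0
      · exfalso
        subst h0
        have hf0 : Matrix.toLin' (a.1 - 1) = 0 := by
          apply Ba.ext
          intro i
          rcases i with i | j
          · exact i.elim0
          · rw [hBa2 j]; simp
        have hN0 : a.1 - 1 = 0 := by
          have := congrArg LinearMap.toMatrix' hf0
          simpa using this
        have ha1 : a = 1 := by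
          apply Subtype.ext
          exact sub_eq_zero.mp hN0
        rw [ha1, orderOf_one] at ha
        omega
      · exact h0
    let i₀ : Fin ℓ := ⟨0, hℓpos⟩
    -- the determinant to correct
    have hδ : IsUnit (Ba.det Bb) := Ba.isUnit_det Bb
    obtain ⟨s, hs⟩ := sq_surj (Ba.det Bb)
    have hs0 : s ≠ 0 := by
      intro h0
      rw [h0] at hs
      have : Ba.det Bb = 0 := by rw [← hs]; ring
      exact hδ.ne_zero this
    let su : Fˣ := Units.mk0 s hs0
    let w : Fin ℓ ⊕ (Fin (n - 2 * ℓ) ⊕ Fin ℓ) → Fˣ :=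
      Sum.elim (fun i => if i = i₀ then su else 1)
        (Sum.elim (fun _ => 1) (fun i => if i = i₀ then su else 1))
    have hwprod : ((∏ i, w i : Fˣ) : F) = Ba.det Bb := by
      simp only [Fintype.prod_sum_type, w, Sum.elim_inl, Sum.elim_inr, Finset.prod_ite_eq',
        Finset.mem_univ, if_true, Finset.prod_const_one, one_mul]
      rw [Units.val_mul, ← hs, pow_two]
      rfl
    let Ba' := Ba.unitsSMul w
    have hBa'1 : ∀ i, Matrix.toLin' (a.1 - 1) (Ba' (Sum.inl i)) = Ba' (Sum.inr (Sum.inr i)) := by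
      intro i
      simp only [Ba', Basis.unitsSMul_apply, w, Sum.elim_inl, Sum.elim_inr, Units.smul_def]
      rw [map_smul, hBa1]
    have hBa'2 : ∀ j, Matrix.toLin' (a.1 - 1) (Ba' (Sum.inr j)) = 0 := by
      intro j
      simp only [Ba', Basis.unitsSMul_apply, Units.smul_def]
      rw [map_smul, hBa2, smul_zero]
    let φ : (Fin n → F) ≃ₗ[F] (Fin n → F) := Ba'.equiv Bb (Equiv.refl _)
    have hφ : ∀ i, φ (Ba' i) = Bb i := by
      intro i
      simp only [φ]
      rw [Basis.equiv_apply]
      rfl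
    have hcomm : φ.toLinearMap ∘ₗ Matrix.toLin' (a.1 - 1) = Matrix.toLin' (b.1 - 1) ∘ₗ φ.toLinearMap := by
      apply Ba'.ext
      intro i
      rcases i with i | j
      · simp only [LinearMap.comp_apply, LinearEquiv.coe_coe]
        rw [hBa'1, hφ, hφ, hBb1]
      · simp only [LinearMap.comp_apply, LinearEquiv.coe_coe]
        rw [hBa'2, hφ, hBb2, map_zero]
    have hdetφ : LinearMap.det φ.toLinearMap = 1 := by
      simp only [φ]
      rw [Basis.det_basis]
      simp only [Ba']
      rw [Basis.det_unitsSMul]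
      simp only [AlternatingMap.smul_apply, smul_eq_mul]
      rw [Units.val_inv_eq_inv_val, hwprod]
      exact inv_mul_cancel₀ hδ.ne_zero
    obtain ⟨P, hP⟩ : ∃ P : Matrix (Fin n) (Fin n) F, P = LinearMap.toMatrix' φ.toLinearMap := ⟨_, rfl⟩
    have hPdet : P.det = 1 := by
      rw [hP, LinearMap.det_toMatrix']
      exact hdetφ
    have hPN : P * (a.1 - 1) = (b.1 - 1) * P := by
      have := congrArg LinearMap.toMatrix' hcomm
      rw [LinearMap.toMatrix'_comp, LinearMap.toMatrix'_comp, LinearMap.toMatrix'_toLin',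
        LinearMap.toMatrix'_toLin', ← hP] at this
      exact this
    rw [isConj_iff]
    let c : Matrix.SpecialLinearGroup (Fin n) F := ⟨P, hPdet⟩
    refine ⟨c, ?_⟩
    rw [mul_inv_eq_iff_eq_mul]
    apply Subtype.ext
    show P * a.1 = b.1 * P
    have e1 : P * a.1 = P * (a.1 - 1) + P := by rw [mul_sub, mul_one]; abel
    have e2 : b.1 * P = (b.1 - 1) * P + P := by rw [sub_mul, one_mul]; abel
    rw [e1, e2, hPN]

end Cfsg.Agent.S2162
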