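import Cfsg.Statements.S2163

set_option autoImplicit false
open Cfsg

namespace Cfsg.Agent.S2163

/-- the nilpotent matrix with `ℓ` ones in the lower-left corner -/
def nil (F : Type*) [Field F] (n ℓ : ℕ) : Matrix (Fin n) (Fin n) F :=
  Matrix.of (fun i j : Fin n => if j.val < ℓ ∧ i.val = j.val + (n - ℓ) then (1 : F) else 0)

theorem nil_apply (F : Type*) [Field F] (n ℓ : ℕ) (i j : Fin n) :
    nil F n ℓ i j = if j.val < ℓ ∧ i.val = j.val + (n - ℓ) then (1 : F) else 0 := rfl

theorem nil_sq (F : Type*) [Field F] (n ℓ : ℕ) (h2 : 2 * ℓ ≤ n) : nil F n ℓ * nil F n ℓ = 0 := by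
  ext i k
  rw [Matrix.mul_apply]
  apply Finset.sum_eq_zero
  intro j _
  rw [nil_apply, nil_apply]
  by_cases h : j.val < ℓ ∧ i.val = j.val + (n - ℓ)
  · have : ¬ (k.val < ℓ ∧ j.val = k.val + (n - ℓ)) := by
      intro h'
      omega
    simp [this]
  · simp [h]

theorem nil_rank (F : Type*) [Field F] (n ℓ : ℕ) (h2 : ℓ ≤ n) : (nil F n ℓ).rank = ℓ := by
  classical
  set D : Matrix (Fin n) (Fin n) F := Matrix.diagonal (fun j : Fin n => if j.val < ℓ then (1 : F) else 0) with hD
  have e1 : nil F n ℓ = nil F n ℓ * D := by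
    ext i j
    rw [hD, Matrix.mul_diagonal, nil_apply]
    by_cases h : j.val < ℓ <;> simp [h]
  have e2 : D = (nil F n ℓ).transpose * nil F n ℓ := by
    ext j k
    rw [Matrix.mul_apply, hD, Matrix.diagonal_apply]
    by_cases hjk : j = k
    · subst hjk
      by_cases hj : j.val < ℓ
      · simp only [if_true, hj]
        have hlt : j.val + (n - ℓ) < n := by omega
        rw [Finset.sum_eq_single (⟨j.val + (n - ℓ), hlt⟩ : Fin n)]
        · simp [Matrix.transpose_apply, nil_apply, hj]
        · intro i _ hi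
          have : ¬ (j.val < ℓ ∧ i.val = j.val + (n - ℓ)) := by
            rintro ⟨_, h⟩
            exact hi (Fin.ext h)
          simp [Matrix.transpose_apply, nil_apply, this]
        · intro h; exact absurd (Finset.mem_univ _) h
      · simp only [if_true, hj, if_false]
        symm
        apply Finset.sum_eq_zero
        intro i _
        simp [Matrix.transpose_apply, nil_apply, hj]
    · simp only [hjk, if_false]
      symm
      apply Finset.sum_eq_zero
      intro i _
      rw [Matrix.transpose_apply, nil_apply, nil_apply]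
      by_cases h : j.val < ℓ ∧ i.val = j.val + (n - ℓ)
      · have : ¬ (k.val < ℓ ∧ i.val = k.val + (n - ℓ)) := by
          rintro ⟨_, h'⟩
          apply hjk
          apply Fin.ext
          omega
        simp [this]
      · simp [h]
  have hrD : D.rank = ℓ := by
    rw [hD, Matrix.rank_diagonal]
    have : Fintype.card {i : Fin n // (if i.val < ℓ then (1 : F) else 0) ≠ 0} = Fintype.card {i : Fin n // i < ℓ} := by
      apply Fintype.card_congr
      refine Equiv.subtypeEquivRight ?_
      intro i
      by_cases h : i.val < ℓ <;> simp [h]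
    rw [this]
    exact Fintype.card_fin_lt_of_le h2
  have i1 : (nil F n ℓ).rank ≤ D.rank := by
    calc (nil F n ℓ).rank = (nil F n ℓ * D).rank := by rw [← e1]
      _ ≤ D.rank := Matrix.rank_mul_le_right _ _
  have i2 : D.rank ≤ (nil F n ℓ).rank := by
    calc D.rank = ((nil F n ℓ).transpose * nil F n ℓ).rank := by rw [← e2]
      _ ≤ (nil F n ℓ).rank := Matrix.rank_mul_le_right _ _
  omega

theorem result {F : Type*} [Field F] [Fintype F] [CharP F 2] {n : ℕ} (hn : 3 ≤ n) (ℓ : ℕ) (h1 : 1 ≤ ℓ) (h2 : 2 * ℓ ≤ n) :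
    ∃ a : Matrix.SpecialLinearGroup (Fin n) F, (a : Matrix (Fin n) (Fin n) F) = 1 + Matrix.of (fun i j : Fin n => if j.val < ℓ ∧ i.val = j.val + (n - ℓ) then (1 : F) else 0) ∧ orderOf a = 2 ∧ ((a : Matrix (Fin n) (Fin n) F) - 1).rank = ℓ := by
  have hdet : (1 + nil F n ℓ).det = 1 := by
    rw [Matrix.det_of_isLowerTriangular]
    · apply Finset.prod_eq_one
      intro i _
      rw [Matrix.add_apply, Matrix.one_apply_eq, nil_apply]
      have : ¬ (i.val < ℓ ∧ i.val = i.val + (n - ℓ)) := by omega
      rw [if_neg this, add_zero]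
    · intro i j hij
      have hij' : i < j := hij
      rw [Matrix.add_apply, Matrix.one_apply_ne (ne_of_lt hij'), nil_apply]
      have : ¬ (j.val < ℓ ∧ i.val = j.val + (n - ℓ)) := by
        have := Fin.lt_def.mp hij'
        omega
      simp [this]
  let a : Matrix.SpecialLinearGroup (Fin n) F := ⟨1 + nil F n ℓ, hdet⟩
  have ha : (a : Matrix (Fin n) (Fin n) F) = 1 + nil F n ℓ := rfl
  refine ⟨a, rfl, ?_, ?_⟩
  · apply orderOf_eq_prime
    · apply Subtype.ext
      rw [pow_two]
      show (1 + nil F n ℓ) * (1 + nil F n ℓ) = 1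
      rw [mul_add, add_mul, add_mul, one_mul, mul_one, one_mul, nil_sq F n ℓ h2, add_zero,
        add_assoc]
      have : nil F n ℓ + nil F n ℓ = 0 := by
        ext i j
        simp [CharTwo.add_self_eq_zero]
      rw [this, add_zero]
    · intro h
      have h' := congrArg (fun M : Matrix.SpecialLinearGroup (Fin n) F => (M : Matrix (Fin n) (Fin n) F) ⟨n - ℓ, by omega⟩ ⟨0, by omega⟩) h
      simp only [Matrix.SpecialLinearGroup.coe_one] at h'
      have e : (1 + nil F n ℓ) ⟨n - ℓ, by omega⟩ ⟨0, by omega⟩ = (1 : F) := by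
        rw [Matrix.add_apply, Matrix.one_apply_ne (by
          intro hh
          have := congrArg Fin.val hh
          simp at this
          omega), nil_apply]
        simp
        omega
      have e' : (1 : Matrix (Fin n) (Fin n) F) ⟨n - ℓ, by omega⟩ ⟨0, by omega⟩ = 0 := by
        rw [Matrix.one_apply_ne]
        intro hh
        have := congrArg Fin.val hh
        simp at this
        omega
      change (1 + nil F n ℓ) ⟨n - ℓ, by omega⟩ ⟨0, by omega⟩ = (1 : Matrix (Fin n) (Fin n) F) ⟨n - ℓ, by omega⟩ ⟨0, by omega⟩ at h'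
      rw [e, e'] at h'
      exact one_ne_zero h'
  · show ((1 + nil F n ℓ) - 1).rank = ℓ
    rw [add_sub_cancel_left]
    exact nil_rank F n ℓ (by omega)

end Cfsg.Agent.S2163
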