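import Cfsg.Statements.S2164
import Cfsg.Agent.S0751
import Cfsg.Agent.S0755
import Cfsg.Agent.S2162

set_option autoImplicit false
open Cfsg

namespace Cfsg.Agent.S2164

open Module

universe u v

section families

variable {F : Type u} [Field F] {V : Type v} [AddCommGroup V] [Module F V] [FiniteDimensional F V]
variable {σ : F →+* F}

omit [FiniteDimensional F V] in
theorem li_of_family (B : V →ₛₗ[σ] V →ₗ[F] F) (N : V →ₗ[F] V) {ι : Type} [Fintype ι]
    (G : ι → ι → F) (hG : ∀ c : ι → F, (∀ j, ∑ i, c i * G j i = 0) → c = 0) (v : ι → V)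
    (hv : ∀ i j, B (v i) (N (v j)) = G i j) : LinearIndependent F (fun i => N (v i)) := by
  rw [Fintype.linearIndependent_iff]
  intro c hc
  have h0 : c = 0 := by
    apply hG
    intro j
    have := congrArg (fun z => B (v j) z) hc
    simp only [map_sum, map_smul, smul_eq_mul, map_zero, hv] at this
    exact this
  intro i
  rw [h0]; rfl

theorem finrank_of_family (B : V →ₛₗ[σ] V →ₗ[F] F) (N : V →ₗ[F] V) {ι : Type} [Fintype ι]
    (G : ι → ι → F) (hG : ∀ c : ι → F, (∀ j, ∑ i, c i * G j i = 0) → c = 0) (v : ι → V)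
    (hv : ∀ i j, B (v i) (N (v j)) = G i j)
    (hspan : ∀ x, ∃ c : ι → F, N x = ∑ i, c i • N (v i)) :
    finrank F (LinearMap.range N) = Fintype.card ι := by
  have hli := li_of_family B N G hG v hv
  have : LinearMap.range N = Submodule.span F (Set.range (fun i => N (v i))) := by
    apply le_antisymm
    · rintro _ ⟨x, rfl⟩
      obtain ⟨c, hc⟩ := hspan x
      rw [hc]
      exact Submodule.sum_mem _ (fun i _ => Submodule.smul_mem _ _ (Submodule.subset_span ⟨i, rfl⟩))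
    · apply Submodule.span_le.mpr
      rintro _ ⟨i, rfl⟩
      exact ⟨v i, rfl⟩
  rw [this, finrank_span_eq_card hli]

/-- two square-zero self-adjoint maps with matching adapted families are conjugate by an isometry -/
theorem conj_of_families [Finite F] (hσ : σ ≠ RingHom.id F) (hσ2 : ∀ a : F, σ (σ a) = a)
    (B : V →ₛₗ[σ] V →ₗ[F] F) (hS : B.IsSymm) (hB : B.Nondegenerate)
    (N N' : V →ₗ[F] V)
    (hiso : ∀ u w, B (N u) (N w) = 0) (hiso' : ∀ u w, B (N' u) (N' w) = 0)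
    (hadj : ∀ u w, B (N u) w = B u (N w)) (hadj' : ∀ u w, B (N' u) w = B u (N' w))
    {ι : Type} [Fintype ι] (G : ι → ι → F)
    (hG : ∀ c : ι → F, (∀ j, ∑ i, c i * G j i = 0) → c = 0)
    (v v' : ι → V)
    (hv : ∀ i j, B (v i) (N (v j)) = G i j) (hv' : ∀ i j, B (v' i) (N' (v' j)) = G i j)
    (hspan : ∀ x, ∃ c : ι → F, N x = ∑ i, c i • N (v i))
    (hspan' : ∀ x, ∃ c : ι → F, N' x = ∑ i, c i • N' (v' i)) :
    ∃ g : V ≃ₗ[F] V, (∀ u w, B (g u) (g w) = B u w) ∧ ∀ x, g (N x) = N' (g x) := by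
  classical
  have hli := li_of_family B N G hG v hv
  have hli' := li_of_family B N' G hG v' hv'
  let X := Submodule.span F (Set.range (fun i => N (v i)))
  let Y := Submodule.span F (Set.range (fun i => N' (v' i)))
  let bX : Basis ι F X := Basis.span hli
  let bY : Basis ι F Y := Basis.span hli'
  let φ : X ≃ₗ[F] Y := bX.equiv bY (Equiv.refl ι)
  have hX : ∀ x : X, ∃ u, (x : V) = N u := by
    intro x
    have hle : X ≤ LinearMap.range N := by
      apply Submodule.span_le.mpr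
      rintro _ ⟨i, rfl⟩
      exact ⟨v i, rfl⟩
    obtain ⟨u, hu⟩ := hle x.2
    exact ⟨u, hu.symm⟩
  have hY : ∀ y : Y, ∃ u, (y : V) = N' u := by
    intro y
    have hle : Y ≤ LinearMap.range N' := by
      apply Submodule.span_le.mpr
      rintro _ ⟨i, rfl⟩
      exact ⟨v' i, rfl⟩
    obtain ⟨u, hu⟩ := hle y.2
    exact ⟨u, hu.symm⟩
  have hφ : ∀ x x' : X, B (φ x : V) (φ x' : V) = B (x : V) (x' : V) := by
    intro x x'
    obtain ⟨u, hu⟩ := hX x
    obtain ⟨u', hu'⟩ := hX x'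
    obtain ⟨w, hw⟩ := hY (φ x)
    obtain ⟨w', hw'⟩ := hY (φ x')
    rw [hu, hu', hw, hw', hiso, hiso']
  obtain ⟨g, hg, hgφ⟩ := Cfsg.Agent.S0751.result σ hσ hσ2 B hS hB X Y φ hφ
  have hgv : ∀ i, g (N (v i)) = N' (v' i) := by
    intro i
    have h1 : ((bX i : X) : V) = N (v i) := congrArg Subtype.val (Basis.span_apply hli i)
    have h2 : ((bY i : Y) : V) = N' (v' i) := congrArg Subtype.val (Basis.span_apply hli' i)
    have h3 : φ (bX i) = bY i := by simp [φ]
    rw [← h1, hgφ, h3, h2]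
  refine ⟨g, hg, ?_⟩
  intro x
  obtain ⟨c, hc⟩ := hspan x
  obtain ⟨d, hd⟩ := hspan' (g x)
  have hgc : g (N x) = ∑ i, c i • N' (v' i) := by
    rw [hc, map_sum]
    simp [hgv]
  have hcd : c = d := by
    have : c - d = 0 := by
      apply hG
      intro j
      have e2 : B (v' j) (N' (g x)) = ∑ i, d i * G j i := by
        rw [hd]; simp [hv']
      have e3 : B (v' j) (N' (g x)) = ∑ i, c i * G j i := by
        rw [← hadj', ← hgv, hg, hadj, hc]; simp [hv]
      simp only [Pi.sub_apply, sub_mul, Finset.sum_sub_distrib]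
      rw [← e3, e2, sub_self]
    exact sub_eq_zero.mp this
  rw [hgc, hd, hcd]

theorem adapted_herm [Finite F] (hσ : σ ≠ RingHom.id F) (hσ2 : ∀ a : F, σ (σ a) = a)
    (B : V →ₛₗ[σ] V →ₗ[F] F) (hS : B.IsSymm) (hB : B.Nondegenerate)
    (N : V →ₗ[F] V) (hadj : ∀ u w, B (N u) w = B u (N w)) :
    ∃ (ℓ : ℕ) (v : Fin ℓ → V), (∀ i j, B (v i) (N (v j)) = if i = j then 1 else 0) ∧
      ∀ x, ∃ c : Fin ℓ → F, N x = ∑ i, c i • N (v i) := by
  classical
  obtain ⟨C, hC⟩ := Submodule.exists_isCompl (LinearMap.ker N)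
  have hdecomp : ∀ w : V, ∃ c : C, N w = N (c : V) := by
    intro w
    have hw : w ∈ LinearMap.ker N ⊔ C := by rw [hC.sup_eq_top]; trivial
    obtain ⟨k, hk, c, hc, rfl⟩ := Submodule.mem_sup.mp hw
    refine ⟨⟨c, hc⟩, ?_⟩
    rw [map_add, LinearMap.mem_ker.mp hk, zero_add]
  let h : C →ₛₗ[σ] C →ₗ[F] F := (B.compl₂ N).domRestrict₁₂ C C
  have hh : ∀ x y : C, h x y = B (x : V) (N (y : V)) := fun x y => rfl
  have hsymm : h.IsSymm := by
    constructor
    intro x y
    rw [hh, hh, hS.eq, hadj]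
  have hleft : ∀ x : C, (∀ y : C, h x y = 0) → x = 0 := by
    intro x hx
    have hNx : N (x : V) = 0 := by
      apply hB.1
      intro w
      obtain ⟨c, hc⟩ := hdecomp w
      rw [hadj, hc]
      exact hx c
    have : (x : V) ∈ LinearMap.ker N ⊓ C := ⟨LinearMap.mem_ker.mpr hNx, x.2⟩
    rw [hC.inf_eq_bot] at this
    exact Subtype.ext ((Submodule.mem_bot F).mp this)
  have hnd : h.Nondegenerate := by
    refine ⟨hleft, ?_⟩
    intro y hy
    apply hleft
    intro x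
    rw [← hsymm.eq, hy, map_zero]
  obtain ⟨b, hb⟩ := Cfsg.Agent.S0755.result σ hσ hσ2 h hsymm hnd
  refine ⟨finrank F C, fun i => (b i : V), fun i j => hb i j, ?_⟩
  intro x
  obtain ⟨c, hc⟩ := hdecomp x
  refine ⟨fun i => b.repr c i, ?_⟩
  have hcsum : (c : V) = ∑ i, b.repr c i • (b i : V) := by
    have := congrArg (fun z : C => (z : V)) (b.sum_repr c)
    simp only [Submodule.coe_sum, Submodule.coe_smul] at this
    exact this.symm
  rw [hc]
  conv_lhs => rw [hcsum]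
  simp [map_sum]

theorem conj_abstract [Finite F] (hσ : σ ≠ RingHom.id F) (hσ2 : ∀ a : F, σ (σ a) = a)
    (B : V →ₛₗ[σ] V →ₗ[F] F) (hS : B.IsSymm) (hB : B.Nondegenerate)
    (N N' : V →ₗ[F] V)
    (hiso : ∀ u w, B (N u) (N w) = 0) (hiso' : ∀ u w, B (N' u) (N' w) = 0)
    (hadj : ∀ u w, B (N u) w = B u (N w)) (hadj' : ∀ u w, B (N' u) w = B u (N' w))
    (hrank : finrank F (LinearMap.range N) = finrank F (LinearMap.range N')) :
    ∃ g : V ≃ₗ[F] V, (∀ u w, B (g u) (g w) = B u w) ∧ ∀ x, g (N x) = N' (g x) := by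
  classical
  obtain ⟨ℓ, v, hv, hs⟩ := adapted_herm hσ hσ2 B hS hB N hadj
  obtain ⟨ℓ', v', hv', hs'⟩ := adapted_herm hσ hσ2 B hS hB N' hadj'
  have hG : ∀ (n : ℕ) (c : Fin n → F),
      (∀ j, ∑ i, c i * (if j = i then (1 : F) else 0) = 0) → c = 0 := by
    intro n c hc
    funext j
    have := hc j
    simpa using this
  have e1 := finrank_of_family B N (fun i j => if i = j then (1 : F) else 0) (hG ℓ) v hv hs
  have e2 := finrank_of_family B N' (fun i j => if i = j then (1 : F) else 0) (hG ℓ') v' hv' hs'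
  have hll : ℓ = ℓ' := by
    rw [e1, e2] at hrank
    simpa using hrank
  subst hll
  exact conj_of_families hσ hσ2 B hS hB N N' hiso hiso' hadj hadj'
    (fun i j => if i = j then (1 : F) else 0) (hG ℓ) v v' hv hv' hs hs'

/-- a vector `e` with `B e (N e) = 1` exists when `N ≠ 0` -/
theorem exists_unit_vec [Finite F] (hσ : σ ≠ RingHom.id F) (hσ2 : ∀ a : F, σ (σ a) = a)
    (B : V →ₛₗ[σ] V →ₗ[F] F) (hS : B.IsSymm) (hB : B.Nondegenerate)
    (N : V →ₗ[F] V) (hadj : ∀ u w, B (N u) w = B u (N w)) (hN : N ≠ 0) :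
    ∃ e : V, B e (N e) = 1 := by
  obtain ⟨ℓ, v, hv, hs⟩ := adapted_herm hσ hσ2 B hS hB N hadj
  rcases Nat.eq_zero_or_pos ℓ with h0 | hpos
  · subst h0
    exfalso
    apply hN
    ext x
    obtain ⟨c, hc⟩ := hs x
    rw [hc]
    simp
  · refine ⟨v ⟨0, hpos⟩, ?_⟩
    rw [hv, if_pos rfl]

end families

section concrete

open Matrix

theorem exists_sigma {F : Type*} [Field F] [Fintype F] [CharP F 2] {q : ℕ}
    (hF : Fintype.card F = q ^ 2) :
    ∃ σ : F →+* F, (∀ x, σ x = x ^ q) ∧ σ ≠ RingHom.id F ∧ ∀ a, σ (σ a) = a := by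
  obtain ⟨k, _, hk⟩ := FiniteField.card F 2
  have hq : q ∣ 2 ^ (k : ℕ) := by
    rw [← hk, hF]
    exact dvd_pow_self q two_ne_zero
  obtain ⟨j, _, hj⟩ := (Nat.dvd_prime_pow Nat.prime_two).mp hq
  have hq2 : 2 ≤ q := by
    by_contra hlt
    have hcard : 1 < Fintype.card F := Fintype.one_lt_card
    rw [hF] at hcard
    interval_cases q <;> simp at hcard
  refine ⟨iterateFrobenius F 2 j, fun x => by rw [iterateFrobenius_def, hj], ?_, ?_⟩
  · intro hid
    have hall : ∀ x : F, x ^ q = x := fun x => by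
      have := congrArg (fun f : F →+* F => f x) hid
      simpa [iterateFrobenius_def, hj] using this
    obtain ⟨ζ, hζ⟩ := IsCyclic.exists_ofOrder_eq_natCard (α := Fˣ)
    have hcardU : Nat.card Fˣ = q ^ 2 - 1 := by
      rw [Nat.card_units, Nat.card_eq_fintype_card, hF]
    have h1 : ζ ^ (q - 1) = 1 := by
      apply Units.ext
      have h := hall (ζ : F)
      have hz : (ζ : F) ≠ 0 := ζ.ne_zero
      have e : (ζ : F) ^ q = (ζ : F) ^ (q - 1) * ζ := by
        rw [← pow_succ]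
        congr 1
        omega
      rw [e] at h
      have := mul_right_cancel₀ hz (h.trans (one_mul _).symm)
      simpa using this
    have hdvd := orderOf_dvd_of_pow_eq_one h1
    rw [hζ, hcardU] at hdvd
    have hle := Nat.le_of_dvd (by omega) hdvd
    have : q ^ 2 ≥ 2 * q := by nlinarith
    omega
  · intro a
    rw [iterateFrobenius_def, iterateFrobenius_def, ← hj, ← pow_mul, ← sq, ← hF, FiniteField.pow_card]

variable {F : Type*} [Field F] {n : ℕ}

/-- the hermitian form, semilinear in the first argument -/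
def Hf (σ : F →+* F) (n : ℕ) : (Fin n → F) →ₛₗ[σ] (Fin n → F) →ₗ[F] F :=
  LinearMap.mk₂'ₛₗ σ (RingHom.id F) (fun x y => ∑ i, y i * σ (x i))
    (by intro x x' y; simp [mul_add, Finset.sum_add_distrib])
    (by
      intro c x y
      simp only [Pi.smul_apply, smul_eq_mul, map_mul, Finset.mul_sum]
      apply Finset.sum_congr rfl
      intro i _
      ring)
    (by intro x y y'; simp [add_mul, Finset.sum_add_distrib])
    (by intro c x y; simp [Finset.mul_sum, mul_assoc])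

theorem Hf_apply (σ : F →+* F) (x y : Fin n → F) : Hf σ n x y = ∑ i, y i * σ (x i) := rfl

theorem Hf_symm (σ : F →+* F) (hσ2 : ∀ a, σ (σ a) = a) : (Hf σ n).IsSymm := by
  constructor
  intro x y
  simp [Hf_apply, map_sum, hσ2, mul_comm]

theorem Hf_nondeg (σ : F →+* F) : (Hf σ n).Nondegenerate := by
  classical
  constructor
  · intro x hx
    funext i
    have := hx (Pi.single i 1)
    simp [Hf_apply, Pi.single_apply] at this
    exact this
  · intro y hy
    funext i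
    have := hy (Pi.single i 1)
    simp [Hf_apply, Pi.single_apply, apply_ite σ] at this
    exact this

theorem Hf_herm (σ : F →+* F) (q : ℕ) (hσq : ∀ x, σ x = x ^ q) (x y : Fin n → F) :
    Hf σ n x y = Cfsg.hermForm n F q y x := by
  unfold Cfsg.hermForm
  rw [Hf_apply]
  simp [hσq]

theorem su_pres (σ : F →+* F) (q : ℕ) (hσq : ∀ x, σ x = x ^ q) (a : ↥(Cfsg.SU n F q))
    (x y : Fin n → F) : Hf σ n (a.1.1 *ᵥ x) (a.1.1 *ᵥ y) = Hf σ n x y := by
  rw [Hf_herm σ q hσq, Hf_herm σ q hσq]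
  exact a.2 y x

theorem mat_ext {n : Type*} [Fintype n] [DecidableEq n] (M M' : Matrix n n F)
    (h : ∀ x : n → F, M *ᵥ x = M' *ᵥ x) : M = M' := by
  apply Matrix.toLin'.injective
  apply LinearMap.ext
  intro x
  rw [Matrix.toLin'_apply, Matrix.toLin'_apply]
  exact h x

/-- `a - 1` as a linear map -/
noncomputable def Nm {q : ℕ} (a : ↥(Cfsg.SU n F q)) : (Fin n → F) →ₗ[F] (Fin n → F) :=
  Matrix.toLin' (a.1.1 - 1)

theorem Nm_apply {q : ℕ} (a : ↥(Cfsg.SU n F q)) (x : Fin n → F) :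
    Nm a x = a.1.1 *ᵥ x - x := by
  unfold Nm
  rw [Matrix.toLin'_apply, Matrix.sub_mulVec, Matrix.one_mulVec]

theorem Nm_adj (σ : F →+* F) {q : ℕ} (hσq : ∀ x, σ x = x ^ q) (a : ↥(Cfsg.SU n F q))
    (h2 : a.1.1 * a.1.1 = 1) (u w : Fin n → F) : Hf σ n (Nm a u) w = Hf σ n u (Nm a w) := by
  rw [Nm_apply, Nm_apply, map_sub, LinearMap.sub_apply, map_sub]
  congr 1
  have := su_pres σ q hσq a (a.1.1 *ᵥ u) w
  rw [Matrix.mulVec_mulVec, h2, Matrix.one_mulVec] at this
  exact this.symm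

theorem Nm_sq [CharP F 2] {q : ℕ} (a : ↥(Cfsg.SU n F q)) (h2 : a.1.1 * a.1.1 = 1)
    (w : Fin n → F) : Nm a (Nm a w) = 0 := by
  rw [Nm_apply, Nm_apply, Matrix.mulVec_sub, Matrix.mulVec_mulVec, h2, Matrix.one_mulVec]
  have : w - a.1.1 *ᵥ w - (a.1.1 *ᵥ w - w) = (2 : F) • (w - a.1.1 *ᵥ w) := by
    rw [two_smul]; abel
  rw [this, Cfsg.Agent.S2162.two_zero, zero_smul]

theorem Nm_iso [CharP F 2] (σ : F →+* F) {q : ℕ} (hσq : ∀ x, σ x = x ^ q) (a : ↥(Cfsg.SU n F q))
    (h2 : a.1.1 * a.1.1 = 1) (u w : Fin n → F) : Hf σ n (Nm a u) (Nm a w) = 0 := by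
  rw [Nm_adj σ hσq a h2, Nm_sq a h2, map_zero]

theorem sq_of_order {q : ℕ} (a : ↥(Cfsg.SU n F q)) (ha : orderOf a = 2) :
    a.1.1 * a.1.1 = 1 := by
  have := pow_orderOf_eq_one a
  rw [ha] at this
  have := congrArg (fun x : ↥(Cfsg.SU n F q) => x.1.1) this
  simpa [pow_two] using this

theorem rank_eq {q : ℕ} (a : ↥(Cfsg.SU n F q)) :
    (a.1.1 - 1).rank = finrank F (LinearMap.range (Nm a)) := rfl

/-- determinant of a form-preserving matrix -/
theorem det_of_pres (σ : F →+* F) (P : Matrix (Fin n) (Fin n) F)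
    (hP : ∀ x y, Hf σ n (P *ᵥ x) (P *ᵥ y) = Hf σ n x y) : σ P.det * P.det = 1 := by
  classical
  have h1 : (P.map σ).transpose * P = 1 := by
    ext j k
    have := hP (Pi.single j 1) (Pi.single k 1)
    rw [Hf_apply, Hf_apply] at this
    simp only [Matrix.mulVec_single_one] at this
    rw [Matrix.mul_apply]
    simp only [Matrix.transpose_apply, Matrix.map_apply]
    rw [Matrix.one_apply]
    have e : ∑ i, (Pi.single k (1 : F) : Fin n → F) i * σ ((Pi.single j (1 : F) : Fin n → F) i) =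
        if j = k then 1 else 0 := by
      simp [Pi.single_apply, apply_ite σ]
    rw [← e, ← this]
    apply Finset.sum_congr rfl
    intro i _
    simp [mul_comm]
  have h2 := congrArg Matrix.det h1
  rw [Matrix.det_mul, Matrix.det_transpose, Matrix.det_one] at h2
  rw [RingHom.map_det, RingHom.mapMatrix_apply]
  exact h2

/-- the correcting isometry -/
def Zm (σ : F →+* F) (e f : Fin n → F) (s μ : F) : Matrix (Fin n) (Fin n) F :=
  1 + (μ - 1) • (Matrix.vecMulVec e (fun j => σ (f j)) +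
    Matrix.vecMulVec f (fun j => σ (e j) - s * σ (f j)))

theorem Zm_mulVec (σ : F →+* F) (e f : Fin n → F) (s μ : F) (x : Fin n → F) :
    Zm σ e f s μ *ᵥ x =
      x + (μ - 1) • (Hf σ n f x • e + (Hf σ n e x - s * Hf σ n f x) • f) := by
  ext i
  simp only [Zm, Matrix.add_mulVec, Matrix.one_mulVec, Matrix.smul_mulVec, Pi.add_apply,
    Pi.smul_apply, smul_eq_mul, Hf_apply]
  simp only [Matrix.mulVec, dotProduct, Matrix.vecMulVec_apply]
  congr 2
  congr 1
  · rw [Finset.sum_mul]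
    apply Finset.sum_congr rfl
    intro j _
    ring
  · rw [Finset.mul_sum, ← Finset.sum_sub_distrib, Finset.sum_mul]
    apply Finset.sum_congr rfl
    intro j _
    ring

theorem Zm_comm (σ : F →+* F) (N : (Fin n → F) →ₗ[F] (Fin n → F))
    (hadj : ∀ u w, Hf σ n (N u) w = Hf σ n u (N w)) (hsq : ∀ w, N (N w) = 0)
    (e : Fin n → F) (s μ : F) (x : Fin n → F) :
    Zm σ e (N e) s μ *ᵥ (N x) = N (Zm σ e (N e) s μ *ᵥ x) := by
  rw [Zm_mulVec, Zm_mulVec]
  have h1 : Hf σ n (N e) (N x) = 0 := by rw [hadj, hsq, map_zero]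
  have h2 : Hf σ n e (N x) = Hf σ n (N e) x := (hadj e x).symm
  simp only [map_add, map_smul, hsq, h1, h2]
  simp

theorem Zm_pres (σ : F →+* F) (hσ2 : ∀ a, σ (σ a) = a) (e f : Fin n → F) (μ : F)
    (hμ : σ μ * μ = 1)
    (hef : Hf σ n e f = 1) (hfe : Hf σ n f e = 1) (hff : Hf σ n f f = 0) (x y : Fin n → F) :
    Hf σ n (Zm σ e f (Hf σ n e e) μ *ᵥ x) (Zm σ e f (Hf σ n e e) μ *ᵥ y) = Hf σ n x y := by
  have hS := Hf_symm (n := n) σ hσ2
  rw [Zm_mulVec, Zm_mulVec]
  obtain ⟨s, hs⟩ : ∃ s, s = Hf σ n e e := ⟨_, rfl⟩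
  have hss : σ s = s := by rw [hs]; exact hS.eq e e
  have hxe : Hf σ n x e = σ (Hf σ n e x) := (hS.eq e x).symm
  have hxf : Hf σ n x f = σ (Hf σ n f x) := (hS.eq f x).symm
  rw [← hs]
  simp only [map_add, map_smul, map_smulₛₗ, LinearMap.add_apply, LinearMap.smul_apply, smul_eq_mul,
    map_sub, map_mul, map_one, hef, hfe, hff, ← hs, hxe, hxf, hss]
  linear_combination (σ (Hf σ n f x) * Hf σ n e y +
    (σ (Hf σ n e x) - s * σ (Hf σ n f x)) * Hf σ n f y) * hμ

theorem Zm_det (σ : F →+* F) (e f : Fin n → F) (s μ : F)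
    (hef : Hf σ n e f = 1) (hfe : Hf σ n f e = 1) (hff : Hf σ n f f = 0) (hee : Hf σ n e e = s) :
    (Zm σ e f s μ).det = μ ^ 2 := by
  let U : Matrix (Fin n) (Fin 2) F := Matrix.of (fun i k => (μ - 1) * (![e, f] k i))
  let W : Matrix (Fin 2) (Fin n) F :=
    Matrix.of (fun k j => (![fun j => σ (f j), fun j => σ (e j) - s * σ (f j)] k) j)
  have hUW : Zm σ e f s μ = 1 + U * W := by
    unfold Zm
    congr 1
    ext i j
    simp [U, W, Matrix.mul_apply, Fin.sum_univ_two, Matrix.vecMulVec_apply]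
    ring
  have key : ∀ (g h : Fin n → F), ∑ i, σ (g i) * ((μ - 1) * h i) = (μ - 1) * Hf σ n g h := by
    intro g h
    rw [Hf_apply, Finset.mul_sum]
    apply Finset.sum_congr rfl
    intro i _
    ring
  have key2 : ∀ (h : Fin n → F), ∑ i, (σ (e i) - s * σ (f i)) * ((μ - 1) * h i) =
      (μ - 1) * (Hf σ n e h - s * Hf σ n f h) := by
    intro h
    rw [mul_sub, ← key, ← mul_assoc, mul_comm (μ - 1) s, mul_assoc, ← key, Finset.mul_sum,
      ← Finset.sum_sub_distrib]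
    apply Finset.sum_congr rfl
    intro i _
    ring
  have hWU : W * U = (μ - 1) • (1 : Matrix (Fin 2) (Fin 2) F) := by
    ext k l
    fin_cases k <;> fin_cases l
    · simp [U, W, Matrix.mul_apply, key, hfe]
    · simp [U, W, Matrix.mul_apply, key, hff]
    · simp [U, W, Matrix.mul_apply, key2, hfe, hee]
    · simp [U, W, Matrix.mul_apply, key2, hef, hff]
  rw [hUW, Matrix.det_one_add_mul_comm, hWU, Matrix.det_fin_two]
  simp
  ring

theorem main {F : Type*} [Field F] [Fintype F] [CharP F 2] {n q : ℕ}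
    (hF : Fintype.card F = q ^ 2) (a b : ↥(Cfsg.SU n F q)) (ha : orderOf a = 2) (hb : orderOf b = 2)
    (hrank : (a.1.1 - 1).rank = (b.1.1 - 1).rank) : IsConj a b := by
  classical
  obtain ⟨σ, hσq, hσ, hσ2⟩ := exists_sigma hF
  have ha2 := sq_of_order a ha
  have hb2 := sq_of_order b hb
  have hS := Hf_symm (n := n) σ hσ2
  have hnd := Hf_nondeg (n := n) σ
  obtain ⟨g, hg, hgN⟩ := conj_abstract hσ hσ2 (Hf σ n) hS hnd (Nm a) (Nm b)
    (Nm_iso σ hσq a ha2) (Nm_iso σ hσq b hb2) (Nm_adj σ hσq a ha2) (Nm_adj σ hσq b hb2) hrank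
  obtain ⟨P, hPdef⟩ : ∃ P, P = LinearMap.toMatrix' (g : (Fin n → F) →ₗ[F] (Fin n → F)) :=
    ⟨_, rfl⟩
  have hPv : ∀ x, P *ᵥ x = g x := by
    intro x
    rw [hPdef, ← Matrix.toLin'_apply, Matrix.toLin'_toMatrix']
    rfl
  have hPpres : ∀ x y, Hf σ n (P *ᵥ x) (P *ᵥ y) = Hf σ n x y := by
    intro x y
    rw [hPv, hPv]
    exact hg x y
  have hPN : ∀ x, P *ᵥ (Nm a x) = Nm b (P *ᵥ x) := by
    intro x
    rw [hPv, hPv]
    exact hgN x
  have hdet : σ P.det * P.det = 1 := det_of_pres σ P hPpres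
  have hdet0 : P.det ≠ 0 := by
    intro h0
    rw [h0, mul_zero] at hdet
    exact zero_ne_one hdet
  obtain ⟨μ, hμ⟩ := Cfsg.Agent.S2162.sq_surj (P.det)⁻¹
  have hμσ : σ μ * μ = 1 := by
    apply Cfsg.Agent.S2162.sq_inj
    have : (σ μ * μ) ^ 2 = σ (μ ^ 2) * μ ^ 2 := by rw [map_pow]; ring
    rw [this, hμ, map_inv₀, ← mul_inv, hdet]
    simp
  have hN0 : Nm a ≠ 0 := by
    intro h0
    have h1 : a.1.1 - 1 = 0 := by
      apply Matrix.toLin'.injective
      rw [map_zero]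
      exact h0
    have h2 : a = 1 := by
      apply Subtype.ext
      apply Subtype.ext
      exact sub_eq_zero.mp h1
    rw [h2, orderOf_one] at ha
    exact absurd ha (by norm_num)
  obtain ⟨e, he⟩ := exists_unit_vec hσ hσ2 (Hf σ n) hS hnd (Nm a) (Nm_adj σ hσq a ha2) hN0
  have hfe : Hf σ n (Nm a e) e = 1 := by rw [Nm_adj σ hσq a ha2]; exact he
  have hff : Hf σ n (Nm a e) (Nm a e) = 0 := Nm_iso σ hσq a ha2 e e
  obtain ⟨Z, hZdef⟩ : ∃ Z, Z = Zm σ e (Nm a e) (Hf σ n e e) μ := ⟨_, rfl⟩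
  have hZdet : Z.det = μ ^ 2 := by
    rw [hZdef]
    exact Zm_det σ e (Nm a e) (Hf σ n e e) μ he hfe hff rfl
  have hZpres : ∀ x y, Hf σ n (Z *ᵥ x) (Z *ᵥ y) = Hf σ n x y := by
    intro x y
    rw [hZdef]
    exact Zm_pres σ hσ2 e (Nm a e) μ hμσ he hfe hff x y
  have hZN : ∀ x, Z *ᵥ (Nm a x) = Nm a (Z *ᵥ x) := by
    intro x
    rw [hZdef]
    exact Zm_comm σ (Nm a) (Nm_adj σ hσq a ha2) (Nm_sq a ha2) e (Hf σ n e e) μ x
  have hQdet : (P * Z).det = 1 := by
    rw [Matrix.det_mul, hZdet, hμ]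
    field_simp
  have hQpres : ∀ x y, Hf σ n ((P * Z) *ᵥ x) ((P * Z) *ᵥ y) = Hf σ n x y := by
    intro x y
    rw [← Matrix.mulVec_mulVec, ← Matrix.mulVec_mulVec, hPpres, hZpres]
  have hQA : (P * Z) * a.1.1 = b.1.1 * (P * Z) := by
    apply mat_ext
    intro x
    have e1 : a.1.1 *ᵥ x = x + Nm a x := by rw [Nm_apply]; abel
    have e2 : ∀ y, b.1.1 *ᵥ y = y + Nm b y := by intro y; rw [Nm_apply]; abel
    rw [← Matrix.mulVec_mulVec, ← Matrix.mulVec_mulVec, ← Matrix.mulVec_mulVec, e1, e2,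
      Matrix.mulVec_add, Matrix.mulVec_add, hZN, hPN, Matrix.mulVec_mulVec]
  let c : ↥(Cfsg.SU n F q) := ⟨⟨P * Z, hQdet⟩, by
    intro u v
    show Cfsg.hermForm n F q ((P * Z) *ᵥ u) ((P * Z) *ᵥ v) = Cfsg.hermForm n F q u v
    rw [← Hf_herm σ q hσq, ← Hf_herm σ q hσq]
    exact hQpres v u⟩
  rw [isConj_iff]
  refine ⟨c, ?_⟩
  rw [mul_inv_eq_iff_eq_mul]
  apply Subtype.ext
  apply Subtype.ext
  exact hQA

end concrete

theorem rank_of_conj_sl {F : Type*} [Field F] {n : ℕ} (a b : Matrix.SpecialLinearGroup (Fin n) F)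
    (h : IsConj a b) : (a.1 - 1).rank = (b.1 - 1).rank := by
  obtain ⟨c, hc⟩ := isConj_iff.mp h
  rw [mul_inv_eq_iff_eq_mul] at hc
  have hcm : c.1 * a.1 = b.1 * c.1 := congrArg Subtype.val hc
  have hdet : IsUnit c.1.det := by
    rw [c.2]
    exact isUnit_one
  have e : c.1 * (a.1 - 1) = (b.1 - 1) * c.1 := by
    rw [mul_sub, sub_mul, hcm, mul_one, one_mul]
  rw [← Matrix.rank_mul_eq_right_of_isUnit_det c.1 (a.1 - 1) hdet, e,
    Matrix.rank_mul_eq_left_of_isUnit_det c.1 (b.1 - 1) hdet]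

/-- Conjugacy of involutions in the special unitary group SU_n(q), q even, n ≥ 3, realised over the field F with q² elements as the matrices of determinant 1 preserving the form Σ u_i v_i^q: for two elements of order 2 of SU_n(q) the following are equivalent — they are conjugate in SU_n(q); they are conjugate in SL_n(F); the matrices a − 1 and b − 1 have the same rank. -/
theorem result {F : Type*} [Field F] [Fintype F] [CharP F 2] {n q : ℕ} (hF : Fintype.card F = q ^ 2) (hn : 3 ≤ n) (a b : ↥(Cfsg.SU n F q)) (ha : orderOf a = 2) (hb : orderOf b = 2) :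
    (IsConj a b ↔ IsConj (a : Matrix.SpecialLinearGroup (Fin n) F) (b : Matrix.SpecialLinearGroup (Fin n) F)) ∧
    (IsConj a b ↔ (((a : Matrix.SpecialLinearGroup (Fin n) F) : Matrix (Fin n) (Fin n) F) - 1).rank = (((b : Matrix.SpecialLinearGroup (Fin n) F) : Matrix (Fin n) (Fin n) F) - 1).rank) := by
  have h1 : IsConj a b → IsConj (a : Matrix.SpecialLinearGroup (Fin n) F)
      (b : Matrix.SpecialLinearGroup (Fin n) F) :=
    fun h => (Cfsg.SU n F q).subtype.map_isConj h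
  have h2 : IsConj (a : Matrix.SpecialLinearGroup (Fin n) F)
      (b : Matrix.SpecialLinearGroup (Fin n) F) → (a.1.1 - 1).rank = (b.1.1 - 1).rank :=
    rank_of_conj_sl _ _
  have h3 : (a.1.1 - 1).rank = (b.1.1 - 1).rank → IsConj a b := main hF a b ha hb
  exact ⟨⟨h1, fun h => h3 (h2 h)⟩, ⟨fun h => h2 (h1 h), h3⟩⟩

end Cfsg.Agent.S2164
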