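import Cfsg.Statements.S2165

set_option autoImplicit false
open Cfsg
open Matrix

namespace Cfsg.Agent.S2165

/-- the swap `i ↔ i + (n - ℓ)` for `i < ℓ`. -/
def sw (n ℓ : ℕ) (i : Fin n) : Fin n :=
  if h : i.val < ℓ ∧ i.val + (n - ℓ) < n then ⟨i.val + (n - ℓ), h.2⟩
  else if h' : n - ℓ ≤ i.val then ⟨i.val - (n - ℓ), by omega⟩ else i

theorem sw_val (n ℓ : ℕ) (i : Fin n) :
    (sw n ℓ i).val = if i.val < ℓ ∧ i.val + (n - ℓ) < n then i.val + (n - ℓ)
      else if n - ℓ ≤ i.val then i.val - (n - ℓ) else i.val := by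
  unfold sw
  split_ifs <;> rfl

theorem sw_sw (n ℓ : ℕ) (_h1 : 1 ≤ ℓ) (h2 : 2 * ℓ ≤ n) (i : Fin n) : sw n ℓ (sw n ℓ i) = i := by
  apply Fin.ext
  rw [sw_val, sw_val]
  have := i.isLt
  split_ifs <;> omega

theorem sw_cond (n ℓ : ℕ) (h1 : 1 ≤ ℓ) (h2 : 2 * ℓ ≤ n) (i j : Fin n) :
    ((j.val < ℓ ∧ i.val = j.val + (n - ℓ)) ∨ (i.val < ℓ ∧ j.val = i.val + (n - ℓ)) ∨
      (i = j ∧ ℓ ≤ i.val ∧ i.val < n - ℓ)) ↔ sw n ℓ i = j := by
  rw [Fin.ext_iff, Fin.ext_iff, sw_val]
  have := i.isLt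
  have := j.isLt
  split_ifs <;> omega

/-- the swap as a permutation -/
def swPerm (n ℓ : ℕ) (h1 : 1 ≤ ℓ) (h2 : 2 * ℓ ≤ n) : Equiv.Perm (Fin n) :=
  Function.Involutive.toPerm (sw n ℓ) (sw_sw n ℓ h1 h2)

theorem result {F : Type*} [Field F] [Fintype F] [CharP F 2] {n q : ℕ} (hF : Fintype.card F = q ^ 2) (hn : 3 ≤ n) (ℓ : ℕ) (h1 : 1 ≤ ℓ) (h2 : 2 * ℓ ≤ n) :
    ∃ a : ↥(Cfsg.SU n F q), (((a : Matrix.SpecialLinearGroup (Fin n) F) : Matrix (Fin n) (Fin n) F) = Matrix.of (fun i j : Fin n => if (j.val < ℓ ∧ i.val = j.val + (n - ℓ)) ∨ (i.val < ℓ ∧ j.val = i.val + (n - ℓ)) ∨ (i = j ∧ ℓ ≤ i.val ∧ i.val < n - ℓ) then (1 : F) else 0)) ∧ orderOf a = 2 ∧ ((((a : Matrix.SpecialLinearGroup (Fin n) F) : Matrix (Fin n) (Fin n) F)) - 1).rank = ℓ := by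
  classical
  set M : Matrix (Fin n) (Fin n) F := Matrix.of (fun i j : Fin n => if (j.val < ℓ ∧ i.val = j.val + (n - ℓ)) ∨ (i.val < ℓ ∧ j.val = i.val + (n - ℓ)) ∨ (i = j ∧ ℓ ≤ i.val ∧ i.val < n - ℓ) then (1 : F) else 0) with hM
  have hMapp : ∀ i j, M i j = if sw n ℓ i = j then (1 : F) else 0 := by
    intro i j
    rw [hM, Matrix.of_apply]
    by_cases h : sw n ℓ i = j
    · rw [if_pos ((sw_cond n ℓ h1 h2 i j).mpr h), if_pos h]
    · rw [if_neg (fun h' => h ((sw_cond n ℓ h1 h2 i j).mp h')), if_neg h]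
  have hMperm : M = (swPerm n ℓ h1 h2).permMatrix F := by
    ext i j
    rw [hMapp, Equiv.Perm.permMatrix, PEquiv.toMatrix_apply]
    simp only [swPerm, Equiv.toPEquiv_apply, Option.mem_def, Option.some.injEq]
    rfl
  have hMv : ∀ u : Fin n → F, M *ᵥ u = u ∘ sw n ℓ := by
    intro u
    rw [hMperm, Matrix.permMatrix_mulVec]
    rfl
  have hdet : M.det = 1 := by
    rw [hMperm, Matrix.det_permutation]
    rcases Int.units_eq_one_or (Equiv.Perm.sign (swPerm n ℓ h1 h2)) with h | h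
    · rw [h]; simp
    · rw [h]; simp [CharTwo.neg_eq]
  have hMM : M * M = 1 := by
    rw [Matrix.ext_iff_mulVec]
    intro u
    rw [← Matrix.mulVec_mulVec, hMv, hMv, Matrix.one_mulVec]
    ext i
    simp [sw_sw n ℓ h1 h2]
  let a0 : Matrix.SpecialLinearGroup (Fin n) F := ⟨M, hdet⟩
  have ha0 : a0 ∈ Cfsg.SU n F q := by
    intro u v
    show hermForm n F q (M *ᵥ u) (M *ᵥ v) = hermForm n F q u v
    rw [hMv, hMv]
    unfold hermForm
    exact Equiv.sum_comp (swPerm n ℓ h1 h2) (fun i => u i * v i ^ q)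
  have hne : M ≠ 1 := by
    intro h
    have h0 := congrFun (congrFun h ⟨0, by omega⟩) ⟨0, by omega⟩
    rw [hMapp, Matrix.one_apply_eq] at h0
    have : sw n ℓ ⟨0, by omega⟩ ≠ ⟨0, by omega⟩ := by
      intro h'
      have := congrArg Fin.val h'
      rw [sw_val] at this
      simp at this
      omega
    rw [if_neg this] at h0
    exact zero_ne_one h0
  refine ⟨⟨a0, ha0⟩, rfl, ?_, ?_⟩
  · apply orderOf_eq_prime
    · apply Subtype.ext
      apply Subtype.ext
      rw [pow_two]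
      exact hMM
    · intro h
      apply hne
      have := congrArg (fun x : ↥(Cfsg.SU n F q) => ((x : Matrix.SpecialLinearGroup (Fin n) F) : Matrix (Fin n) (Fin n) F)) h
      exact this
  · show (M - 1).rank = ℓ
    set d : Fin n → F := fun j => if j.val < ℓ then (1 : F) else 0 with hd
    set D : Matrix (Fin n) (Fin n) F := Matrix.diagonal d with hD
    have hrD : D.rank = ℓ := by
      rw [hD, Matrix.rank_diagonal]
      have : Fintype.card {i : Fin n // d i ≠ 0} = Fintype.card {i : Fin n // i < ℓ} := by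
        apply Fintype.card_congr
        refine Equiv.subtypeEquivRight ?_
        intro i
        by_cases h : i.val < ℓ <;> simp [hd, h]
      rw [this]
      exact Fintype.card_fin_lt_of_le (by omega)
    have hAv : ∀ u : Fin n → F, (M - 1) *ᵥ u = u ∘ sw n ℓ - u := by
      intro u
      rw [Matrix.sub_mulVec, hMv, Matrix.one_mulVec]
    have hDv : ∀ u : Fin n → F, D *ᵥ u = fun i => d i * u i := by
      intro u
      ext i
      rw [hD, Matrix.mulVec_diagonal]
    have hsw_lt : ∀ i : Fin n, i.val < ℓ → ¬ (sw n ℓ i).val < ℓ := by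
      intro i hi
      rw [sw_val]
      have := i.isLt
      split_ifs <;> omega
    have hsw_ne : ∀ i : Fin n, sw n ℓ i ≠ i → (i.val < ℓ ∧ ¬ (sw n ℓ i).val < ℓ) ∨ (¬ i.val < ℓ ∧ (sw n ℓ i).val < ℓ) := by
      intro i hi
      have hi' : (sw n ℓ i).val ≠ i.val := fun h => hi (Fin.ext h)
      rw [sw_val] at hi' ⊢
      have := i.isLt
      split_ifs at hi' ⊢ <;> omega
    -- lower bound
    have e1 : D * (M - 1) * D = - D := by
      ext i j
      rw [hD, Matrix.mul_diagonal, Matrix.diagonal_mul, Matrix.neg_apply, Matrix.diagonal_apply,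
        Matrix.sub_apply, hMapp, Matrix.one_apply]
      by_cases hi : i.val < ℓ
      · by_cases hj : j.val < ℓ
        · have : sw n ℓ i ≠ j := by
            intro h
            rw [← h] at hj
            exact hsw_lt i hi hj
          by_cases hij : i = j
          · subst hij
            simp [hd, hi, this]
          · simp [hd, hi, hj, this, hij]
        · have hij : i ≠ j := by
            rintro rfl
            exact hj hi
          simp [hd, hj, hij]
      · by_cases hij : i = j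
        · subst hij
          simp [hd, hi]
        · simp [hd, hi, hij]
    -- upper bound
    have e2 : M - 1 = - ((M - 1) * D * (M - 1)) := by
      rw [Matrix.ext_iff_mulVec]
      intro u
      rw [Matrix.neg_mulVec, ← Matrix.mulVec_mulVec, ← Matrix.mulVec_mulVec, hAv, hAv, hDv]
      ext i
      simp only [Pi.sub_apply, Function.comp_apply, Pi.neg_apply, sw_sw n ℓ h1 h2]
      by_cases hi : sw n ℓ i = i
      · rw [hi]; ring
      · rcases hsw_ne i hi with ⟨ha, hb⟩ | ⟨ha, hb⟩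
        · simp only [hd, ha, hb, if_true, if_false]; ring
        · simp only [hd, ha, hb, if_true, if_false]; ring
    have e1' : D * (M - 1) * (-D) = D := by
      rw [Matrix.mul_neg, e1, neg_neg]
    have e2' : M - 1 = (M - 1) * D * (1 - M) := by
      conv_lhs => rw [e2]
      rw [← Matrix.mul_neg, neg_sub]
    have i1 : ℓ ≤ (M - 1).rank := by
      have h := Matrix.rank_mul_le_left (D * (M - 1)) (-D)
      have h' := Matrix.rank_mul_le_right D (M - 1)
      rw [e1', hrD] at h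
      omega
    have i2 : (M - 1).rank ≤ ℓ := by
      have h := Matrix.rank_mul_le_left ((M - 1) * D) (1 - M)
      have h' := Matrix.rank_mul_le_right (M - 1) D
      rw [← e2'] at h
      omega
    omega

end Cfsg.Agent.S2165
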