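import Cfsg.Statements.S2166
import Cfsg.Agent.S0749
import Cfsg.Agent.S0752
import Cfsg.Agent.S2162

set_option autoImplicit false
open Cfsg

namespace Cfsg.Agent.S2166

open Module

universe u v

section families

variable {F : Type u} [Field F] {V : Type v} [AddCommGroup V] [Module F V] [FiniteDimensional F V]

theorem li_of_family (B : LinearMap.BilinForm F V) (N : V →ₗ[F] V) {ι : Type} [Fintype ι]
    (G : ι → ι → F) (hG : ∀ c : ι → F, (∀ j, ∑ i, c i * G j i = 0) → c = 0) (v : ι → V)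
    (hv : ∀ i j, B (v i) (N (v j)) = G i j) : LinearIndependent F (fun i => N (v i)) := by
  rw [Fintype.linearIndependent_iff]
  intro c hc
  have h0 : c = 0 := by
    apply hG
    intro j
    have := congrArg (fun z => B (v j) z) hc
    simp only [map_sum, map_smul, smul_eq_mul, map_zero, hv] at this
    exact this
  intro i
  rw [h0]; rfl

theorem finrank_of_family (B : LinearMap.BilinForm F V) (N : V →ₗ[F] V) {ι : Type} [Fintype ι]
    (G : ι → ι → F) (hG : ∀ c : ι → F, (∀ j, ∑ i, c i * G j i = 0) → c = 0) (v : ι → V)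
    (hv : ∀ i j, B (v i) (N (v j)) = G i j)
    (hspan : ∀ x, ∃ c : ι → F, N x = ∑ i, c i • N (v i)) :
    finrank F (LinearMap.range N) = Fintype.card ι := by
  have hli := li_of_family B N G hG v hv
  have : LinearMap.range N = Submodule.span F (Set.range (fun i => N (v i))) := by
    apply le_antisymm
    · rintro _ ⟨x, rfl⟩
      obtain ⟨c, hc⟩ := hspan x
      rw [hc]
      exact Submodule.sum_mem _ (fun i _ => Submodule.smul_mem _ _ (Submodule.subset_span ⟨i, rfl⟩))
    · apply Submodule.span_le.mpr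
      rintro _ ⟨i, rfl⟩
      exact ⟨v i, rfl⟩
  rw [this, finrank_span_eq_card hli]

/-- two square-zero self-adjoint maps with matching adapted families are conjugate by an isometry -/
theorem conj_of_families (B : LinearMap.BilinForm F V) (hB : B.Nondegenerate) (hA : B.IsAlt)
    (N N' : V →ₗ[F] V)
    (hiso : ∀ u w, B (N u) (N w) = 0) (hiso' : ∀ u w, B (N' u) (N' w) = 0)
    (hadj : ∀ u w, B (N u) w = B u (N w)) (hadj' : ∀ u w, B (N' u) w = B u (N' w))
    {ι : Type} [Fintype ι] (G : ι → ι → F)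
    (hG : ∀ c : ι → F, (∀ j, ∑ i, c i * G j i = 0) → c = 0)
    (v v' : ι → V)
    (hv : ∀ i j, B (v i) (N (v j)) = G i j) (hv' : ∀ i j, B (v' i) (N' (v' j)) = G i j)
    (hspan : ∀ x, ∃ c : ι → F, N x = ∑ i, c i • N (v i))
    (hspan' : ∀ x, ∃ c : ι → F, N' x = ∑ i, c i • N' (v' i)) :
    ∃ g : V ≃ₗ[F] V, (∀ u w, B (g u) (g w) = B u w) ∧ ∀ x, g (N x) = N' (g x) := by
  classical
  have hli := li_of_family B N G hG v hv
  have hli' := li_of_family B N' G hG v' hv'
  let X := Submodule.span F (Set.range (fun i => N (v i)))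
  let Y := Submodule.span F (Set.range (fun i => N' (v' i)))
  let bX : Basis ι F X := Basis.span hli
  let bY : Basis ι F Y := Basis.span hli'
  let φ : X ≃ₗ[F] Y := bX.equiv bY (Equiv.refl ι)
  have hX : ∀ x : X, ∃ u, (x : V) = N u := by
    intro x
    have hle : X ≤ LinearMap.range N := by
      apply Submodule.span_le.mpr
      rintro _ ⟨i, rfl⟩
      exact ⟨v i, rfl⟩
    obtain ⟨u, hu⟩ := hle x.2
    exact ⟨u, hu.symm⟩
  have hY : ∀ y : Y, ∃ u, (y : V) = N' u := by
    intro y
    have hle : Y ≤ LinearMap.range N' := by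
      apply Submodule.span_le.mpr
      rintro _ ⟨i, rfl⟩
      exact ⟨v' i, rfl⟩
    obtain ⟨u, hu⟩ := hle y.2
    exact ⟨u, hu.symm⟩
  have hφ : ∀ x x' : X, B (φ x : V) (φ x' : V) = B (x : V) (x' : V) := by
    intro x x'
    obtain ⟨u, hu⟩ := hX x
    obtain ⟨u', hu'⟩ := hX x'
    obtain ⟨w, hw⟩ := hY (φ x)
    obtain ⟨w', hw'⟩ := hY (φ x')
    rw [hu, hu', hw, hw', hiso, hiso']
  obtain ⟨g, hg, hgφ⟩ := Cfsg.Agent.S0749.result B hB hA X Y φ hφ
  have hgv : ∀ i, g (N (v i)) = N' (v' i) := by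
    intro i
    have h1 : ((bX i : X) : V) = N (v i) := congrArg Subtype.val (Basis.span_apply hli i)
    have h2 : ((bY i : Y) : V) = N' (v' i) := congrArg Subtype.val (Basis.span_apply hli' i)
    have h3 : φ (bX i) = bY i := by simp [φ]
    rw [← h1, hgφ, h3, h2]
  refine ⟨g, hg, ?_⟩
  intro x
  obtain ⟨c, hc⟩ := hspan x
  obtain ⟨d, hd⟩ := hspan' (g x)
  have hgc : g (N x) = ∑ i, c i • N' (v' i) := by
    rw [hc, map_sum]
    simp [hgv]
  have hcd : c = d := by
    have : c - d = 0 := by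
      apply hG
      intro j
      have e2 : B (v' j) (N' (g x)) = ∑ i, d i * G j i := by
        rw [hd]; simp [hv']
      have e3 : B (v' j) (N' (g x)) = ∑ i, c i * G j i := by
        rw [← hadj', ← hgv, hg, hadj, hc]; simp [hv]
      simp only [Pi.sub_apply, sub_mul, Finset.sum_sub_distrib]
      rw [← e3, e2, sub_self]
    exact sub_eq_zero.mp this
  rw [hgc, hd, hcd]

theorem snoc_orthonormal (h : LinearMap.BilinForm F V) (hsymm : ∀ x y, h x y = h y x) (k : ℕ)
    (u : Fin k → V) (hu : ∀ i j, h (u i) (u j) = if i = j then 1 else 0) (w : V)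
    (hw : ∀ i, h (u i) w = 0) (hww : h w w = 1) :
    ∀ i j, h ((Fin.snoc u w : Fin (k + 1) → V) i) ((Fin.snoc u w : Fin (k + 1) → V) j) =
      if i = j then 1 else 0 := by
  intro i j
  induction i using Fin.lastCases with
  | last =>
    induction j using Fin.lastCases with
    | last => simpa using hww
    | cast j =>
      have : h w (u j) = 0 := by rw [hsymm]; exact hw j
      simp [Fin.snoc_castSucc, this, (Fin.castSucc_lt_last j).ne']
  | cast i =>
    induction j using Fin.lastCases with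
    | last => simp [Fin.snoc_castSucc, hw i, (Fin.castSucc_lt_last i).ne]
    | cast j => simp [Fin.snoc_castSucc, hu]

theorem exists_orthonormal [CharP F 2] (hsq : ∀ a : F, ∃ r : F, r * r = a)
    (h : LinearMap.BilinForm F V) (hsymm : ∀ x y, h x y = h y x) (hna : ∃ x, h x x ≠ 0) :
    ∃ (ℓ : ℕ) (v : Fin ℓ → V), (∀ i j, h (v i) (v j) = if i = j then 1 else 0) ∧
      ∀ x, (∀ i, h (v i) x = 0) → ∀ y, h x y = 0 := by
  classical
  have h11 : (1 : F) + 1 = 0 := CharTwo.add_self_eq_zero 1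
  let P : ℕ → Prop := fun k => ∃ v : Fin k → V, ∀ i j, h (v i) (v j) = if i = j then 1 else 0
  have hbound : ∀ k, P k → k ≤ finrank F V := by
    rintro k ⟨v, hv⟩
    have hli : LinearIndependent F v := by
      rw [Fintype.linearIndependent_iff]
      intro c hc j
      have := congrArg (fun z => h (v j) z) hc
      simpa [map_sum, hv] using this
    simpa using hli.fintype_card_le_finrank
  have hnorm : ∀ x, h x x ≠ 0 → ∃ r : F, h (r • x) (r • x) = 1 := by
    intro x hx
    obtain ⟨r, hr⟩ := hsq (h x x)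
    have hr0 : r ≠ 0 := by
      rintro rfl
      simp at hr
      exact hx hr.symm
    refine ⟨r⁻¹, ?_⟩
    simp only [map_smul, LinearMap.smul_apply, smul_eq_mul]
    rw [← hr]
    field_simp
  have hP1 : P 1 := by
    obtain ⟨x, hx⟩ := hna
    obtain ⟨r, hy⟩ := hnorm x hx
    exact ⟨fun _ => r • x, fun i j => by rw [if_pos (Subsingleton.elim i j)]; exact hy⟩
  obtain ⟨k, hk1, hPk, hPk'⟩ : ∃ k, 1 ≤ k ∧ P k ∧ ¬ P (k + 1) := by
    by_contra hcon
    push Not at hcon
    have hall : ∀ k, 1 ≤ k → P k := by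
      intro k hk
      induction k, hk using Nat.le_induction with
      | base => exact hP1
      | succ k hk ih => exact hcon k hk ih
    have := hbound _ (hall (finrank F V + 1) (by omega))
    omega
  obtain ⟨v, hv⟩ := hPk
  refine ⟨k, v, hv, ?_⟩
  have step1 : ∀ x, (∀ i, h (v i) x = 0) → h x x = 0 := by
    intro x hx
    by_contra hne
    obtain ⟨r, hy⟩ := hnorm x hne
    apply hPk'
    refine ⟨Fin.snoc v (r • x), snoc_orthonormal h hsymm k v hv (r • x) ?_ hy⟩
    intro i
    simp [hx i]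
  have step2 : ∀ e f, (∀ i, h (v i) e = 0) → (∀ i, h (v i) f = 0) → h e f = 0 := by
    intro e f he hf
    by_contra hne
    obtain ⟨a, ha⟩ : ∃ a, a = h e f := ⟨_, rfl⟩
    rw [← ha] at hne
    have hf' : ∀ i, h (v i) (a⁻¹ • f) = 0 := by
      intro i
      simp [hf i]
    have hef : h e (a⁻¹ • f) = 1 := by
      simp only [map_smul, smul_eq_mul]
      rw [← ha]
      field_simp
    have hee := step1 e he
    have hff := step1 (a⁻¹ • f) hf'
    obtain ⟨f', hf'def⟩ : ∃ f', f' = a⁻¹ • f := ⟨_, rfl⟩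
    rw [← hf'def] at hf' hef hff
    let i₀ : Fin k := ⟨0, hk1⟩
    have hev : ∀ i, h e (v i) = 0 := fun i => by rw [hsymm]; exact he i
    have hfv : ∀ i, h f' (v i) = 0 := fun i => by rw [hsymm]; exact hf' i
    apply hPk'
    refine ⟨Fin.snoc (Function.update v i₀ (v i₀ + e)) (v i₀ + f'),
      snoc_orthonormal h hsymm k _ ?_ _ ?_ ?_⟩
    · intro i j
      by_cases hi : i = i₀
      · by_cases hj : j = i₀
        · rw [hi, hj, Function.update_self, if_pos rfl]
          simp [hv, he, hev, hee]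
        · have hne' : ¬ i₀ = j := fun hh => hj hh.symm
          rw [hi, Function.update_self, Function.update_of_ne hj, if_neg hne']
          simp [hv, hev, hne']
      · by_cases hj : j = i₀
        · rw [hj, Function.update_self, Function.update_of_ne hi, if_neg hi]
          simp [hv, he, hi]
        · rw [Function.update_of_ne hi, Function.update_of_ne hj]
          exact hv i j
    · intro i
      by_cases hi : i = i₀
      · rw [hi, Function.update_self]
        simp [hv, hf', hev, hef, h11]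
      · rw [Function.update_of_ne hi]
        simp [hv, hf', hi]
    · simp [hv, hf', hfv, hff]
  intro x hx y
  have hsplit : h x y = h x (y - ∑ i, h (v i) y • v i) + ∑ i, h (v i) y * h x (v i) := by
    simp [map_sub, map_sum]
  rw [hsplit]
  have h1 : h x (y - ∑ i, h (v i) y • v i) = 0 := by
    apply step2 x _ hx
    intro j
    simp [map_sub, map_sum, hv]
  have h2 : ∀ i, h x (v i) = 0 := fun i => by rw [hsymm]; exact hx i
  simp [h1, h2]

theorem adapted_nonalt [CharP F 2] (hsq : ∀ a : F, ∃ r : F, r * r = a)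
    (B : LinearMap.BilinForm F V) (hB : B.Nondegenerate) (hA : B.IsAlt)
    (N : V →ₗ[F] V) (hadj : ∀ u w, B (N u) w = B u (N w)) (hna : ∃ x, B x (N x) ≠ 0) :
    ∃ (ℓ : ℕ) (v : Fin ℓ → V), (∀ i j, B (v i) (N (v j)) = if i = j then 1 else 0) ∧
      ∀ x, ∃ c : Fin ℓ → F, N x = ∑ i, c i • N (v i) := by
  let h : LinearMap.BilinForm F V := B.compl₂ N
  have hh : ∀ x y, h x y = B x (N y) := fun x y => rfl
  have hsymm : ∀ x y, h x y = h y x := by
    intro x y
    rw [hh, hh, ← hadj y x, ← hA.neg_eq x (N y)]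
    exact (CharTwo.neg_eq _).symm
  obtain ⟨ℓ, v, hv, hrad⟩ := exists_orthonormal hsq h hsymm hna
  refine ⟨ℓ, v, hv, ?_⟩
  intro x
  refine ⟨fun i => h (v i) x, ?_⟩
  have hy : ∀ w, h (x - ∑ i, h (v i) x • v i) w = 0 := by
    apply hrad
    intro j
    simp [map_sub, map_sum, hv]
  have hN : N (x - ∑ i, h (v i) x • v i) = 0 := by
    apply hB.1
    intro w
    rw [hadj]
    exact hy w
  rw [map_sub, sub_eq_zero, map_sum] at hN
  rw [hN]
  simp [map_smul]

/-- Gram matrix of a symplectic family -/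
def Galt (F : Type u) [Field F] (m : ℕ) : (Fin m ⊕ Fin m) → (Fin m ⊕ Fin m) → F
  | Sum.inl _, Sum.inl _ => 0
  | Sum.inl i, Sum.inr j => if i = j then 1 else 0
  | Sum.inr i, Sum.inl j => if j = i then -1 else 0
  | Sum.inr _, Sum.inr _ => 0

omit [AddCommGroup V] [Module F V] [FiniteDimensional F V] in
theorem Galt_nondeg (m : ℕ) (c : Fin m ⊕ Fin m → F) (hc : ∀ j, ∑ i, c i * Galt F m j i = 0) :
    c = 0 := by
  funext i
  rcases i with i | i
  · have := hc (Sum.inr i)
    simp [Fintype.sum_sum_type, Galt] at this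
    simpa using this
  · have := hc (Sum.inl i)
    simp [Fintype.sum_sum_type, Galt] at this
    simpa using this

theorem adapted_alt (B : LinearMap.BilinForm F V) (hB : B.Nondegenerate)
    (N : V →ₗ[F] V) (hadj : ∀ u w, B (N u) w = B u (N w)) (halt : ∀ x, B x (N x) = 0) :
    ∃ (m : ℕ) (v : Fin m ⊕ Fin m → V), (∀ i j, B (v i) (N (v j)) = Galt F m i j) ∧
      ∀ x, ∃ c : Fin m ⊕ Fin m → F, N x = ∑ i, c i • N (v i) := by
  classical
  let h : LinearMap.BilinForm F V := B.compl₂ N
  have hh : ∀ x y, h x y = B x (N y) := fun x y => rfl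
  have hAlt : h.IsAlt := fun x => halt x
  obtain ⟨m, k, b, h1, h2, h3, h4⟩ := Cfsg.Agent.S0752.result h hAlt
  refine ⟨m, fun i => b (Sum.inl i), ?_, ?_⟩
  · intro i j
    rcases i with i | i <;> rcases j with j | j
    · exact h2 i j
    · exact h1 i j
    · show h (b (Sum.inl (Sum.inr i))) (b (Sum.inl (Sum.inl j))) = if j = i then -1 else 0
      rw [← hAlt.neg_eq, h1]
      split_ifs <;> simp
    · exact h3 i j
  · intro x
    refine ⟨fun i => b.repr x (Sum.inl i), ?_⟩
    have hz : ∀ j : Fin k, N (b (Sum.inr j)) = 0 := by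
      intro j
      apply hB.1
      intro w
      rw [hadj]
      exact h4 j w
    conv_lhs => rw [← b.sum_repr x]
    rw [map_sum, Fintype.sum_sum_type]
    simp [hz]

theorem even_of_alt (B : LinearMap.BilinForm F V) (hB : B.Nondegenerate)
    (N : V →ₗ[F] V) (hadj : ∀ u w, B (N u) w = B u (N w)) (halt : ∀ x, B x (N x) = 0) :
    Even (finrank F (LinearMap.range N)) := by
  obtain ⟨m, v, hv, hs⟩ := adapted_alt B hB N hadj halt
  rw [finrank_of_family B N (Galt F m) (Galt_nondeg m) v hv hs]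
  simp

theorem conj_abstract [CharP F 2] (hsq : ∀ a : F, ∃ r : F, r * r = a)
    (B : LinearMap.BilinForm F V) (hB : B.Nondegenerate) (hA : B.IsAlt)
    (N N' : V →ₗ[F] V)
    (hiso : ∀ u w, B (N u) (N w) = 0) (hiso' : ∀ u w, B (N' u) (N' w) = 0)
    (hadj : ∀ u w, B (N u) w = B u (N w)) (hadj' : ∀ u w, B (N' u) w = B u (N' w))
    (hrank : finrank F (LinearMap.range N) = finrank F (LinearMap.range N'))
    (halt : (∀ x, B x (N x) = 0) ↔ (∀ x, B x (N' x) = 0)) :
    ∃ g : V ≃ₗ[F] V, (∀ u w, B (g u) (g w) = B u w) ∧ ∀ x, g (N x) = N' (g x) := by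
  classical
  by_cases ha : ∀ x, B x (N x) = 0
  · have ha' := halt.mp ha
    obtain ⟨m, v, hv, hs⟩ := adapted_alt B hB N hadj ha
    obtain ⟨m', v', hv', hs'⟩ := adapted_alt B hB N' hadj' ha'
    have e1 := finrank_of_family B N (Galt F m) (Galt_nondeg m) v hv hs
    have e2 := finrank_of_family B N' (Galt F m') (Galt_nondeg m') v' hv' hs'
    have hmm : m = m' := by
      rw [e1, e2] at hrank
      simp at hrank
      omega
    subst hmm
    exact conj_of_families B hB hA N N' hiso hiso' hadj hadj' (Galt F m) (Galt_nondeg m) v v' hv hv'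
      hs hs'
  · have ha' : ¬ ∀ x, B x (N' x) = 0 := fun hh => ha (halt.mpr hh)
    push Not at ha ha'
    obtain ⟨ℓ, v, hv, hs⟩ := adapted_nonalt hsq B hB hA N hadj ha
    obtain ⟨ℓ', v', hv', hs'⟩ := adapted_nonalt hsq B hB hA N' hadj' ha'
    have hG : ∀ (n : ℕ) (c : Fin n → F),
        (∀ j, ∑ i, c i * (if j = i then (1 : F) else 0) = 0) → c = 0 := by
      intro n c hc
      funext j
      have := hc j
      simpa using this
    have e1 := finrank_of_family B N (fun i j => if i = j then (1 : F) else 0) (hG ℓ) v hv hs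
    have e2 := finrank_of_family B N' (fun i j => if i = j then (1 : F) else 0) (hG ℓ') v' hv' hs'
    have hll : ℓ = ℓ' := by
      rw [e1, e2] at hrank
      simpa using hrank
    subst hll
    exact conj_of_families B hB hA N N' hiso hiso' hadj hadj' (fun i j => if i = j then (1 : F) else 0)
      (hG ℓ) v v' hv hv' hs hs'

end families

section concrete

open Matrix

variable {F : Type*} [Field F] {m : ℕ}

/-- the symplectic form as a bilinear form -/
noncomputable def Bf (F : Type*) [Field F] (m : ℕ) : LinearMap.BilinForm F (Fin m ⊕ Fin m → F) :=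
  Matrix.toLinearMap₂' F (Matrix.J (Fin m) F)

theorem Bf_apply (x y : Fin m ⊕ Fin m → F) : Bf F m x y = Cfsg.sympForm m F x y := by
  unfold Bf Cfsg.sympForm
  rw [Matrix.toLinearMap₂'_apply']

theorem Bf_alt : (Bf F m).IsAlt := by
  intro x
  show Bf F m x x = 0
  unfold Bf
  rw [Matrix.toLinearMap₂'_apply']
  simp [Matrix.J, Matrix.fromBlocks_mulVec, dotProduct, Fintype.sum_sum_type, mul_comm,
      Matrix.neg_mulVec, Matrix.one_mulVec, Finset.sum_neg_distrib]

theorem Bf_nondeg : (Bf F m).Nondegenerate := by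
  have hleft : ∀ x, (∀ w, Bf F m x w = 0) → x = 0 := by
    intro x hx
    have h : Matrix.vecMul x (Matrix.J (Fin m) F) = 0 := by
      apply dotProduct_eq_zero
      intro w
      have := hx w
      unfold Bf at this
      rw [Matrix.toLinearMap₂'_apply', Matrix.dotProduct_mulVec] at this
      exact this
    have h' : Matrix.vecMul x (Matrix.J (Fin m) F * Matrix.J (Fin m) F) = 0 := by
      rw [← Matrix.vecMul_vecMul, h, Matrix.zero_vecMul]
    rw [Matrix.J_squared, Matrix.vecMul_neg, Matrix.vecMul_one] at h'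
    exact neg_eq_zero.mp h'
  refine ⟨hleft, ?_⟩
  intro y hy
  apply hleft
  intro w
  rw [← Bf_alt.neg_eq, hy, neg_zero]

theorem Bf_inv (a : ↥(Matrix.symplecticGroup (Fin m) F)) (x y : Fin m ⊕ Fin m → F) :
    Bf F m (a.1 *ᵥ x) (a.1 *ᵥ y) = Bf F m x y := by
  unfold Bf
  rw [Matrix.toLinearMap₂'_apply', Matrix.toLinearMap₂'_apply', ← Matrix.vecMul_transpose a.1 x,
    ← Matrix.dotProduct_mulVec, Matrix.mulVec_mulVec, Matrix.mulVec_mulVec,
    SymplecticGroup.mem_iff'.mp a.2]

theorem mat_ext {n : Type*} [Fintype n] [DecidableEq n] (M M' : Matrix n n F)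
    (h : ∀ x y : n → F, x ⬝ᵥ (M *ᵥ y) = x ⬝ᵥ (M' *ᵥ y)) : M = M' := by
  ext i j
  have := h (Pi.single i 1) (Pi.single j 1)
  simpa using this

/-- `a - 1` as a linear map -/
noncomputable def Nm (a : ↥(Matrix.symplecticGroup (Fin m) F)) :
    (Fin m ⊕ Fin m → F) →ₗ[F] (Fin m ⊕ Fin m → F) :=
  Matrix.toLin' (a.1 - 1)

theorem Nm_apply (a : ↥(Matrix.symplecticGroup (Fin m) F)) (x : Fin m ⊕ Fin m → F) :
    Nm a x = a.1 *ᵥ x - x := by
  unfold Nm
  rw [Matrix.toLin'_apply, Matrix.sub_mulVec, Matrix.one_mulVec]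

theorem Nm_adj (a : ↥(Matrix.symplecticGroup (Fin m) F)) (h2 : a.1 * a.1 = 1)
    (u w : Fin m ⊕ Fin m → F) : Bf F m (Nm a u) w = Bf F m u (Nm a w) := by
  rw [Nm_apply, Nm_apply, map_sub, LinearMap.sub_apply, map_sub]
  congr 1
  have := Bf_inv a (a.1 *ᵥ u) w
  rw [Matrix.mulVec_mulVec, h2, Matrix.one_mulVec] at this
  exact this.symm

theorem Nm_sq [CharP F 2] (a : ↥(Matrix.symplecticGroup (Fin m) F)) (h2 : a.1 * a.1 = 1)
    (w : Fin m ⊕ Fin m → F) : Nm a (Nm a w) = 0 := by
  rw [Nm_apply, Nm_apply, Matrix.mulVec_sub, Matrix.mulVec_mulVec, h2, Matrix.one_mulVec]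
  have : w - a.1 *ᵥ w - (a.1 *ᵥ w - w) = (2 : F) • (w - a.1 *ᵥ w) := by
    rw [two_smul]; abel
  rw [this, Cfsg.Agent.S2162.two_zero, zero_smul]

theorem Nm_iso [CharP F 2] (a : ↥(Matrix.symplecticGroup (Fin m) F)) (h2 : a.1 * a.1 = 1)
    (u w : Fin m ⊕ Fin m → F) : Bf F m (Nm a u) (Nm a w) = 0 := by
  rw [Nm_adj a h2, Nm_sq a h2, map_zero]

theorem sq_of_order (a : ↥(Matrix.symplecticGroup (Fin m) F)) (ha : orderOf a = 2) :
    a.1 * a.1 = 1 := by
  have := pow_orderOf_eq_one a
  rw [ha] at this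
  have := congrArg (fun x : ↥(Matrix.symplecticGroup (Fin m) F) => x.1) this
  simpa [pow_two] using this

theorem rank_eq (a : ↥(Matrix.symplecticGroup (Fin m) F)) :
    (a.1 - 1).rank = finrank F (LinearMap.range (Nm a)) := rfl

theorem form_eq (a : ↥(Matrix.symplecticGroup (Fin m) F)) (v : Fin m ⊕ Fin m → F) :
    Cfsg.sympForm m F v (a.1 *ᵥ v) = Bf F m v (Nm a v) := by
  rw [Nm_apply, map_sub, ← Bf_apply, Bf_alt.self_eq_zero, sub_zero]

theorem card_V [Fintype F] [CharP F 2] (a : ↥(Matrix.symplecticGroup (Fin m) F))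
    (h2 : a.1 * a.1 = 1) :
    ((∀ x, Bf F m x (Nm a x) = 0) →
      Nat.card {v : Fin m ⊕ Fin m → F // Cfsg.sympForm m F v (a.1 *ᵥ v) = 0} =
        Fintype.card F ^ (2 * m)) ∧
    ((¬ ∀ x, Bf F m x (Nm a x) = 0) →
      Nat.card {v : Fin m ⊕ Fin m → F // Cfsg.sympForm m F v (a.1 *ᵥ v) = 0} * Fintype.card F =
        Fintype.card F ^ (2 * m)) := by
  classical
  have hV : Nat.card (Fin m ⊕ Fin m → F) = Fintype.card F ^ (2 * m) := by
    rw [Nat.card_eq_fintype_card, Fintype.card_fun, Fintype.card_sum, Fintype.card_fin, two_mul]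
  let ψ : (Fin m ⊕ Fin m → F) →+ F := AddMonoidHom.mk' (fun v => Bf F m v (Nm a v)) (by
    intro u w
    simp only [map_add, LinearMap.add_apply]
    have : Bf F m w (Nm a u) = - Bf F m u (Nm a w) := by
      rw [← Nm_adj a h2, Bf_alt.neg_eq]
    rw [this]; ring)
  have hψ : ∀ v, ψ v = Bf F m v (Nm a v) := fun v => rfl
  have hker : ∀ v, Cfsg.sympForm m F v (a.1 *ᵥ v) = 0 ↔ v ∈ ψ.ker := by
    intro v
    rw [form_eq, AddMonoidHom.mem_ker, hψ]
  have hcard : Nat.card {v : Fin m ⊕ Fin m → F // Cfsg.sympForm m F v (a.1 *ᵥ v) = 0} =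
      Nat.card ψ.ker := Nat.card_congr (Equiv.subtypeEquivRight hker)
  have hmul : Nat.card ψ.ker * Nat.card ψ.range = Fintype.card F ^ (2 * m) := by
    rw [← hV, ← AddSubgroup.index_ker]
    exact AddSubgroup.card_mul_index ψ.ker
  constructor
  · intro h0
    have : ψ.ker = ⊤ := by
      ext v
      simp only [AddMonoidHom.mem_ker, AddSubgroup.mem_top, iff_true]
      exact h0 v
    rw [hcard, this, AddSubgroup.card_top, hV]
  · intro h0
    push Not at h0
    obtain ⟨x, hx⟩ := h0
    have hsurj : ψ.range = ⊤ := by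
      rw [AddMonoidHom.range_eq_top]
      intro b
      obtain ⟨r, hr⟩ := Cfsg.Agent.S2162.sq_surj (b / Bf F m x (Nm a x))
      refine ⟨r • x, ?_⟩
      rw [hψ]
      simp only [map_smul, LinearMap.smul_apply, smul_eq_mul]
      rw [← mul_assoc, ← pow_two, hr]
      field_simp
    rw [hcard, ← hmul, hsurj, AddSubgroup.card_top, Nat.card_eq_fintype_card (α := F)]

end concrete

/-- Conjugacy of involutions in the symplectic group Sp_{2m}(F), F a finite field of characteristic two, m ≥ 2 (Sp taken as the matrices A with A J Aᵀ = J, acting on column vectors, with the alternating form f(u, v) = u ⬝ (J v)). For an involution t write V(t) for the set of vectors v with f(v, t v) = 0 (a subspace). Two involutions a, b are conjugate in Sp_{2m}(F) exactly when a − 1 and b − 1 have the same rank and, in case that rank is even, V(a) and V(b) have the same number of elements. -/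
theorem result {F : Type*} [Field F] [Fintype F] [CharP F 2] {m : ℕ} (hm : 2 ≤ m) (a b : ↥(Matrix.symplecticGroup (Fin m) F)) (ha : orderOf a = 2) (hb : orderOf b = 2) :
    IsConj a b ↔ ((((a : ↥(Matrix.symplecticGroup (Fin m) F)) : Matrix (Fin m ⊕ Fin m) (Fin m ⊕ Fin m) F) - 1).rank = (((b : ↥(Matrix.symplecticGroup (Fin m) F)) : Matrix (Fin m ⊕ Fin m) (Fin m ⊕ Fin m) F) - 1).rank ∧
      (Even (((a : ↥(Matrix.symplecticGroup (Fin m) F)) : Matrix (Fin m ⊕ Fin m) (Fin m ⊕ Fin m) F) - 1).rank → Nat.card {v : Fin m ⊕ Fin m → F // Cfsg.sympForm m F v (Matrix.mulVec ((a : ↥(Matrix.symplecticGroup (Fin m) F)) : Matrix (Fin m ⊕ Fin m) (Fin m ⊕ Fin m) F) v) = 0} = Nat.card {v : Fin m ⊕ Fin m → F // Cfsg.sympForm m F v (Matrix.mulVec ((b : ↥(Matrix.symplecticGroup (Fin m) F)) : Matrix (Fin m ⊕ Fin m) (Fin m ⊕ Fin m) F) v) = 0})) := by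
  classical
  have ha2 := sq_of_order a ha
  have hb2 := sq_of_order b hb
  have hsq : ∀ x : F, ∃ r : F, r * r = x := fun x => by
    obtain ⟨r, hr⟩ := Cfsg.Agent.S2162.sq_surj x
    exact ⟨r, by rw [← pow_two]; exact hr⟩
  constructor
  · intro hconj
    obtain ⟨c, hc⟩ := isConj_iff.mp hconj
    rw [mul_inv_eq_iff_eq_mul] at hc
    have hcm : c.1 * a.1 = b.1 * c.1 := congrArg Subtype.val hc
    have hcinv : c.1 * (c⁻¹).1 = 1 := congrArg Subtype.val (mul_inv_cancel c)
    have hcinv' : (c⁻¹).1 * c.1 = 1 := congrArg Subtype.val (inv_mul_cancel c)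
    have hdet : IsUnit c.1.det := Matrix.isUnit_det_of_right_inverse hcinv
    have hrank : (a.1 - 1).rank = (b.1 - 1).rank := by
      have e : c.1 * (a.1 - 1) = (b.1 - 1) * c.1 := by
        rw [mul_sub, sub_mul, hcm, mul_one, one_mul]
      rw [← Matrix.rank_mul_eq_right_of_isUnit_det c.1 (a.1 - 1) hdet, e,
        Matrix.rank_mul_eq_left_of_isUnit_det c.1 (b.1 - 1) hdet]
    refine ⟨hrank, fun _ => ?_⟩
    apply Nat.card_congr
    refine ⟨fun v => ⟨Matrix.mulVec c.1 v.1, ?_⟩, fun w => ⟨Matrix.mulVec (c⁻¹).1 w.1, ?_⟩, ?_, ?_⟩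
    · rw [Matrix.mulVec_mulVec, ← hcm, ← Matrix.mulVec_mulVec, ← Bf_apply, Bf_inv, Bf_apply]
      exact v.2
    · rw [← Bf_apply, ← Bf_inv c, Matrix.mulVec_mulVec, Matrix.mulVec_mulVec, Matrix.mulVec_mulVec,
        hcinv, Matrix.one_mulVec, hcm, mul_assoc, hcinv, mul_one, Bf_apply]
      exact w.2
    · intro v
      apply Subtype.ext
      simp [Matrix.mulVec_mulVec, hcinv']
    · intro w
      apply Subtype.ext
      simp [Matrix.mulVec_mulVec, hcinv]
  · rintro ⟨hrank, hV⟩
    have hq : 1 < Fintype.card F := Fintype.one_lt_card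
    have hpos : 0 < Fintype.card F ^ (2 * m) := pow_pos (by omega) _
    have halt : (∀ x, Bf F m x (Nm a x) = 0) ↔ (∀ x, Bf F m x (Nm b x) = 0) := by
      by_cases h1 : ∀ x, Bf F m x (Nm a x) = 0
      · by_cases h2 : ∀ x, Bf F m x (Nm b x) = 0
        · exact ⟨fun _ => h2, fun _ => h1⟩
        · exfalso
          have hev : Even (a.1 - 1).rank := even_of_alt (Bf F m) Bf_nondeg (Nm a) (Nm_adj a ha2) h1
          have e := hV hev
          have c1 := (card_V a ha2).1 h1
          have c2 := (card_V b hb2).2 h2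
          rw [← e, c1] at c2
          nlinarith
      · by_cases h2 : ∀ x, Bf F m x (Nm b x) = 0
        · exfalso
          have hev : Even (b.1 - 1).rank := even_of_alt (Bf F m) Bf_nondeg (Nm b) (Nm_adj b hb2) h2
          rw [← hrank] at hev
          have e := hV hev
          have c1 := (card_V a ha2).2 h1
          have c2 := (card_V b hb2).1 h2
          rw [e, c2] at c1
          nlinarith
        · exact ⟨fun h => absurd h h1, fun h => absurd h h2⟩
    obtain ⟨g, hg, hgN⟩ := conj_abstract hsq (Bf F m) Bf_nondeg Bf_alt (Nm a) (Nm b) (Nm_iso a ha2)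
      (Nm_iso b hb2) (Nm_adj a ha2) (Nm_adj b hb2) hrank halt
    obtain ⟨P, hPdef⟩ : ∃ P, P = LinearMap.toMatrix' (g : (Fin m ⊕ Fin m → F) →ₗ[F] (Fin m ⊕ Fin m → F)) :=
      ⟨_, rfl⟩
    have hPv : ∀ x, Matrix.mulVec P x = g x := by
      intro x
      rw [hPdef, ← Matrix.toLin'_apply, Matrix.toLin'_toMatrix']
      rfl
    have hPmem : P ∈ Matrix.symplecticGroup (Fin m) F := by
      rw [SymplecticGroup.mem_iff']
      apply mat_ext
      intro x y
      have := hg x y
      unfold Bf at this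
      rw [Matrix.toLinearMap₂'_apply', Matrix.toLinearMap₂'_apply', ← hPv, ← hPv] at this
      rw [← this, ← Matrix.vecMul_transpose P x, ← Matrix.dotProduct_mulVec, Matrix.mulVec_mulVec,
        Matrix.mulVec_mulVec]
    have hPa : P * a.1 = b.1 * P := by
      apply Matrix.toLin'.injective
      apply LinearMap.ext
      intro x
      rw [Matrix.toLin'_apply, Matrix.toLin'_apply, ← Matrix.mulVec_mulVec, ← Matrix.mulVec_mulVec]
      have := hgN x
      rw [Nm_apply, Nm_apply, map_sub, ← hPv, ← hPv] at this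
      exact sub_left_injective this
    rw [isConj_iff]
    refine ⟨⟨P, hPmem⟩, ?_⟩
    rw [mul_inv_eq_iff_eq_mul]
    apply Subtype.ext
    exact hPa

end Cfsg.Agent.S2166
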