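import Mathlib
import Cfsg.Statements.S2168
import Cfsg.Agent.Helper14.OConj

set_option autoImplicit false
open Cfsg

namespace Cfsg.Agent.S2168


open scoped Matrix MatrixGroups

noncomputable def QP (m : ℕ) (F : Type*) [Field F] : QuadraticForm F (Fin m ⊕ Fin m → F) :=
  ∑ i : Fin m, QuadraticMap.proj (Sum.inl i) (Sum.inr i)

theorem QP_apply (m : ℕ) (F : Type*) [Field F] (v : Fin m ⊕ Fin m → F) :
    QP m F v = Cfsg.quadFormPlus m F v := by
  unfold QP Cfsg.quadFormPlus
  rw [QuadraticMap.sum_apply]
  rfl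

theorem plus_nd (m : ℕ) (F : Type*) [Field F] (x : Fin m ⊕ Fin m → F)
    (h : ∀ y, Cfsg.quadFormPlus m F (x + y) - Cfsg.quadFormPlus m F x - Cfsg.quadFormPlus m F y = 0) :
    x = 0 := by
  funext j
  rcases j with j | j
  · have := h (Pi.single (Sum.inr j) 1)
    simp [Cfsg.quadFormPlus, mul_add, add_mul, Finset.sum_add_distrib, Pi.single_apply] at this
    exact this
  · have := h (Pi.single (Sum.inl j) 1)
    simp [Cfsg.quadFormPlus, mul_add, add_mul, Finset.sum_add_distrib, Pi.single_apply] at this
    exact this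


/-- Involutions in the full isometry group O of the hyperbolic quadratic form Σ x_i y_i in dimension 2m over a finite field F of characteristic two, m ≥ 4 (plus type): two elements of order 2 of O are conjugate in O exactly when they are conjugate under the group of all invertible matrices preserving the polar bilinear form (u, v) ↦ Q(u + v) − Q(u) − Q(v) (the symplectic group of that form). -/
theorem result {F : Type*} [Field F] [Fintype F] [CharP F 2] {m : ℕ} (hm : 4 ≤ m) (t s : ↥(Cfsg.isometryGroup F (Cfsg.quadFormPlus m F))) (ht : orderOf t = 2) (hs : orderOf s = 2) :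
    IsConj t s ↔ ∃ g ∈ Cfsg.preserving (Units.coeHom (Matrix (Fin m ⊕ Fin m) (Fin m ⊕ Fin m) F)) (fun u v => Cfsg.quadFormPlus m F (u + v) - Cfsg.quadFormPlus m F u - Cfsg.quadFormPlus m F v), g * ((t : ↥(Cfsg.isometryGroup F (Cfsg.quadFormPlus m F))) : GL (Fin m ⊕ Fin m) F) * g⁻¹ = ((s : ↥(Cfsg.isometryGroup F (Cfsg.quadFormPlus m F))) : GL (Fin m ⊕ Fin m) F) := by
  exact Cfsg.Agent.Helper14.OConj.conj_iff_general (Cfsg.quadFormPlus m F) (QP m F) (QP_apply m F)
    (plus_nd m F) t s

end Cfsg.Agent.S2168
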