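import Mathlib
import Cfsg.Statements.S2170
import Cfsg.Agent.Helper14.OConj
import Cfsg.Agent.S2162

set_option autoImplicit false
open Cfsg

namespace Cfsg.Agent.S2170


open scoped Matrix MatrixGroups

noncomputable def QM (m : ℕ) (F : Type*) [Field F] (c d : F) :
    QuadraticForm F ((Fin m ⊕ Fin m) ⊕ Fin 2 → F) :=
  (∑ i : Fin m, QuadraticMap.proj (Sum.inl (Sum.inl i)) (Sum.inl (Sum.inr i)))
    + (QuadraticMap.proj (Sum.inr 0) (Sum.inr 0) + c • QuadraticMap.proj (Sum.inr 0) (Sum.inr 1)
      + d • QuadraticMap.proj (Sum.inr 1) (Sum.inr 1))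

theorem QM_apply (m : ℕ) (F : Type*) [Field F] (c d : F) (v : (Fin m ⊕ Fin m) ⊕ Fin 2 → F) :
    QM m F c d v = Cfsg.quadFormMinus m F c d v := by
  unfold QM Cfsg.quadFormMinus
  rw [QuadraticMap.add_apply, QuadraticMap.sum_apply, QuadraticMap.add_apply,
    QuadraticMap.add_apply, QuadraticMap.smul_apply, QuadraticMap.smul_apply]
  simp only [QuadraticMap.proj_apply, smul_eq_mul]
  ring

theorem minus_nd (m : ℕ) (F : Type*) [Field F] [CharP F 2] (c d : F) (hc : c ≠ 0)
    (x : (Fin m ⊕ Fin m) ⊕ Fin 2 → F)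
    (h : ∀ y, Cfsg.quadFormMinus m F c d (x + y) - Cfsg.quadFormMinus m F c d x
      - Cfsg.quadFormMinus m F c d y = 0) :
    x = 0 := by
  have h2 : (2 : F) = 0 := by
    have := CharP.cast_eq_zero F 2
    exact_mod_cast this
  funext j
  rcases j with (j | j) | j
  · have := h (Pi.single (Sum.inl (Sum.inr j)) 1)
    simp [Cfsg.quadFormMinus, mul_add, add_mul, Finset.sum_add_distrib, Pi.single_apply] at this
    exact this
  · have := h (Pi.single (Sum.inl (Sum.inl j)) 1)
    simp [Cfsg.quadFormMinus, mul_add, add_mul, Finset.sum_add_distrib, Pi.single_apply] at this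
    exact this
  · fin_cases j
    · have := h (Pi.single (Sum.inr 1) 1)
      simp [Cfsg.quadFormMinus, mul_add, add_mul, Finset.sum_add_distrib, Pi.single_apply] at this
      have e : c * x (Sum.inr 0) = 0 := by
        linear_combination this - d * x (Sum.inr 1) * h2
      rcases mul_eq_zero.mp e with e | e
      · exact absurd e hc
      · exact e
    · have := h (Pi.single (Sum.inr 0) 1)
      simp [Cfsg.quadFormMinus, mul_add, add_mul, Finset.sum_add_distrib, Pi.single_apply] at this
      have e : c * x (Sum.inr 1) = 0 := by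
        linear_combination this - x (Sum.inr 0) * h2
      rcases mul_eq_zero.mp e with e | e
      · exact absurd e hc
      · exact e


/-- Involutions in the full isometry group O of the quadratic form Σ x_i y_i + (z₁² + c z₁ z₂ + d z₂²) in dimension 2m with anisotropic binary part over a finite field F of characteristic two, m ≥ 4 (minus type): two elements of order 2 of O are conjugate in O exactly when they are conjugate under the group of all invertible matrices preserving the polar bilinear form (u, v) ↦ Q(u + v) − Q(u) − Q(v) (the symplectic group of that form). -/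
theorem result {F : Type*} [Field F] [Fintype F] [CharP F 2] {m : ℕ} (hm : 4 ≤ m) (c d : F) (hcd : ∀ z₁ z₂ : F, z₁ ^ 2 + c * z₁ * z₂ + d * z₂ ^ 2 = 0 → z₁ = 0 ∧ z₂ = 0) (t s : ↥(Cfsg.isometryGroup F (Cfsg.quadFormMinus (m - 1) F c d))) (ht : orderOf t = 2) (hs : orderOf s = 2) :
    IsConj t s ↔ ∃ g ∈ Cfsg.preserving (Units.coeHom (Matrix ((Fin (m - 1) ⊕ Fin (m - 1)) ⊕ Fin 2) ((Fin (m - 1) ⊕ Fin (m - 1)) ⊕ Fin 2) F)) (fun u v => Cfsg.quadFormMinus (m - 1) F c d (u + v) - Cfsg.quadFormMinus (m - 1) F c d u - Cfsg.quadFormMinus (m - 1) F c d v), g * ((t : ↥(Cfsg.isometryGroup F (Cfsg.quadFormMinus (m - 1) F c d))) : GL ((Fin (m - 1) ⊕ Fin (m - 1)) ⊕ Fin 2) F) * g⁻¹ = ((s : ↥(Cfsg.isometryGroup F (Cfsg.quadFormMinus (m - 1) F c d))) : GL ((Fin (m - 1) ⊕ Fin (m - 1)) ⊕ Fin 2) F) := by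
  have h2 : (2 : F) = 0 := by
    have := CharP.cast_eq_zero F 2
    exact_mod_cast this
  have hc : c ≠ 0 := by
    rintro rfl
    obtain ⟨e, he⟩ := Cfsg.Agent.S2162.sq_surj d
    have := (hcd e 1 (by rw [he]; linear_combination d * h2)).2
    exact one_ne_zero this
  exact Cfsg.Agent.Helper14.OConj.conj_iff_general (Cfsg.quadFormMinus (m - 1) F c d)
    (QM (m - 1) F c d) (QM_apply (m - 1) F c d) (minus_nd (m - 1) F c d hc) t s

end Cfsg.Agent.S2170
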