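import Cfsg.Statements.S2171
import Cfsg.Agent.Helper16.Dickson
import Cfsg.Agent.Helper16.StdForms

set_option autoImplicit false
open Cfsg

namespace Cfsg.Agent.S2171

open Cfsg.Agent.Helper16 in
theorem aux {F : Type*} [Field F] [Fintype F] [CharP F 2] {m : ℕ} (hm : 4 ≤ m) (c d : F)
    (hcd : ∀ z₁ z₂ : F, z₁ ^ 2 + c * z₁ * z₂ + d * z₂ ^ 2 = 0 → z₁ = 0 ∧ z₂ = 0)
    (t : ↥(Cfsg.isometryGroup F ⇑(qfMinus (m - 1) F c d))) :
    t ∈ Cfsg.Omega F ⇑(qfMinus (m - 1) F c d) ↔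
      Even (((t : GL ((Fin (m - 1) ⊕ Fin (m - 1)) ⊕ Fin 2) F) :
        Matrix ((Fin (m - 1) ⊕ Fin (m - 1)) ⊕ Fin 2) ((Fin (m - 1) ⊕ Fin (m - 1)) ⊕ Fin 2) F) - 1).rank := by
  have hc : c ≠ 0 := by
    rintro rfl
    obtain ⟨e, he⟩ := FiniteField.isSquare_of_char_two (CharP.ringChar_of_prime_eq_zero Nat.prime_two
      (CharTwo.two_eq_zero (R := F))) d
    have := hcd e 1 (by
      rw [he]
      have h2 : (2 : F) = 0 := CharTwo.two_eq_zero
      linear_combination (e ^ 2) * h2)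
    exact one_ne_zero this.2
  have hnd : (QuadraticMap.polarBilin (qfMinus (m - 1) F c d)).Nondegenerate := by
    apply qfMinus_nondegenerate
    have h2 : (2 : F) = 0 := CharTwo.two_eq_zero
    have e : 4 * d - c ^ 2 = c ^ 2 := by linear_combination (2 * d - c ^ 2) * h2
    rw [e]
    exact pow_ne_zero 2 hc
  exact mem_Omega_iff_rank (qfMinus (m - 1) F c d) hnd
    (Or.inr (by rw [Fintype.card_sum, Fintype.card_sum, Fintype.card_fin, Fintype.card_fin]; omega))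
    (by rw [Fintype.card_sum, Fintype.card_sum, Fintype.card_fin, Fintype.card_fin]; omega) t

/-- For the quadratic form Σ x_i y_i + (z₁² + c z₁ z₂ + d z₂²) in dimension 2m with anisotropic binary part over a finite field F of characteristic two, m ≥ 4 (minus type): an element of order 2 of the full isometry group O lies in the commutator subgroup Ω of O exactly when t − 1 has even rank. -/
theorem result {F : Type*} [Field F] [Fintype F] [CharP F 2] {m : ℕ} (hm : 4 ≤ m) (c d : F) (hcd : ∀ z₁ z₂ : F, z₁ ^ 2 + c * z₁ * z₂ + d * z₂ ^ 2 = 0 → z₁ = 0 ∧ z₂ = 0) (t : ↥(Cfsg.isometryGroup F (Cfsg.quadFormMinus (m - 1) F c d))) (ht : orderOf t = 2) :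
    t ∈ Cfsg.Omega F (Cfsg.quadFormMinus (m - 1) F c d) ↔ Even ((((t : ↥(Cfsg.isometryGroup F (Cfsg.quadFormMinus (m - 1) F c d))) : GL ((Fin (m - 1) ⊕ Fin (m - 1)) ⊕ Fin 2) F) : Matrix ((Fin (m - 1) ⊕ Fin (m - 1)) ⊕ Fin 2) ((Fin (m - 1) ⊕ Fin (m - 1)) ⊕ Fin 2) F) - 1).rank := by
  have hco := Cfsg.Agent.Helper16.coe_qfMinus (m - 1) F c d
  revert t
  rw [← hco]
  intro t _
  exact aux hm c d hcd t

end Cfsg.Agent.S2171
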