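import Cfsg.Statements.S2172
import Cfsg.Agent.Helper16.InvolSplit

set_option autoImplicit false
open Cfsg

namespace Cfsg.Agent.S2172

open Cfsg.Agent.Helper16 QuadraticMap Module in
theorem aux {F : Type*} [Field F] [Fintype F] [CharP F 2] {m : ℕ} (hm : 4 ≤ m)
    (t s : ↥(Cfsg.isometryGroup F ⇑(qfPlus m F))) (ht : orderOf t = 2)
    (htO : t ∈ Cfsg.Omega F ⇑(qfPlus m F)) (hconj : IsConj t s) :
    (¬ (((((t : ↥(Cfsg.isometryGroup F ⇑(qfPlus m F))) : GL (Fin m ⊕ Fin m) F) : Matrix (Fin m ⊕ Fin m) (Fin m ⊕ Fin m) F) - 1).rank = m ∧ ∀ v : Fin m ⊕ Fin m → F, qfPlus m F (v + Matrix.mulVec (((t : ↥(Cfsg.isometryGroup F ⇑(qfPlus m F))) : GL (Fin m ⊕ Fin m) F) : Matrix (Fin m ⊕ Fin m) (Fin m ⊕ Fin m) F) v) = 0) →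
      ∃ g ∈ Cfsg.Omega F ⇑(qfPlus m F), g * t * g⁻¹ = s) ∧
    ((((((t : ↥(Cfsg.isometryGroup F ⇑(qfPlus m F))) : GL (Fin m ⊕ Fin m) F) : Matrix (Fin m ⊕ Fin m) (Fin m ⊕ Fin m) F) - 1).rank = m ∧ ∀ v : Fin m ⊕ Fin m → F, qfPlus m F (v + Matrix.mulVec (((t : ↥(Cfsg.isometryGroup F ⇑(qfPlus m F))) : GL (Fin m ⊕ Fin m) F) : Matrix (Fin m ⊕ Fin m) (Fin m ⊕ Fin m) F) v) = 0) →
      ((∃ g ∈ Cfsg.Omega F ⇑(qfPlus m F), g * t * g⁻¹ = s) ↔
        Even (Module.finrank F ↥(LinearMap.range (Matrix.toLin' ((((t : ↥(Cfsg.isometryGroup F ⇑(qfPlus m F))) : GL (Fin m ⊕ Fin m) F) : Matrix (Fin m ⊕ Fin m) (Fin m ⊕ Fin m) F) - 1)) ⊓ LinearMap.range (Matrix.toLin' ((((s : ↥(Cfsg.isometryGroup F ⇑(qfPlus m F))) : GL (Fin m ⊕ Fin m) F) : Matrix (Fin m ⊕ Fin m) (Fin m ⊕ Fin m) F) - 1)))))) := by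
  have hnd := qfPlus_nondegenerate (m := m) (F := F)
  have hcard : Fintype.card (Fin m ⊕ Fin m) = 2 * m := by
    rw [Fintype.card_sum, Fintype.card_fin]
    omega
  have hc : Fintype.card F ≠ 2 ∨ Fintype.card (Fin m ⊕ Fin m) ≠ 4 := Or.inr (by omega)
  have htt := sq_of_orderOf_two t ht
  constructor
  · intro hnot
    have hnTS : ¬ TS (qfPlus m F) (fixSub ⇑(qfPlus m F) t) := by
      intro hTS
      obtain ⟨h1, h2⟩ := fix_TS_finrank _ hnd t htt hTS
      apply hnot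
      constructor
      · have h3 := finrank_mov_add_fix ⇑(qfPlus m F) t
        rw [rank_sub_one]
        rw [h2] at h3 ⊢
        omega
      · intro v
        apply hTS
        rw [← h2, mem_movSub]
        exact ⟨v, add_comm _ _⟩
    unfold TS at hnTS
    push Not at hnTS
    obtain ⟨a, haf, ha⟩ := hnTS
    exact conj_in_Omega_of_fixed_nonsing _ hnd hc t s hconj a ha ((mem_fixSub _ _ _).1 haf)
  · rintro ⟨hrank, hsing⟩
    rw [range_toLin'_sub_one ⇑(qfPlus m F) t, range_toLin'_sub_one ⇑(qfPlus m F) s]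
    have hU : TS (qfPlus m F) (movSub ⇑(qfPlus m F) t) := by
      intro x hx
      obtain ⟨v, rfl⟩ := (mem_movSub _ _ _).1 hx
      rw [add_comm]
      exact hsing v
    have hUm : finrank F (movSub ⇑(qfPlus m F) t) = m := by
      rw [← rank_sub_one]
      exact hrank
    have hV : finrank F (Fin m ⊕ Fin m → F) = 2 * m := by
      rw [Module.finrank_fintype_fun_eq_card, hcard]
    have hmeven : Even m := by
      have := (mem_Omega_iff_rank _ hnd hc (by omega) t).1 htO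
      rwa [hrank] at this
    have hle : ∀ g : ↥(Cfsg.isometryGroup F ⇑(qfPlus m F)),
        finrank F (movSub ⇑(qfPlus m F) t ⊓ mapG (g : GL (Fin m ⊕ Fin m) F)
          (movSub ⇑(qfPlus m F) t) : Submodule F (Fin m ⊕ Fin m → F)) ≤ m := fun g =>
      le_trans (Submodule.finrank_mono inf_le_left) hUm.le
    constructor
    · rintro ⟨g, hg, rfl⟩
      rw [movSub_conj]
      have h1 := parIso_Omega _ hnd hV _ hU hUm g hg
      unfold lagDist at h1
      rw [Nat.even_sub (hle g)] at h1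
      exact h1.1 hmeven
    · intro hev
      obtain ⟨g, rfl⟩ := isConj_iff.1 hconj
      rw [movSub_conj] at hev
      refine ⟨g, mem_Omega_of_parIso_char2 _ hnd hc hV _ hU hUm (by omega) g ?_, rfl⟩
      rw [parIso_eq_one_iff]
      unfold lagDist
      rw [Nat.even_sub (hle g)]
      exact ⟨fun _ => hev, fun _ => hmeven⟩

/-- Splitting of involution classes from O to Ω for the hyperbolic quadratic form Q = Σ x_i y_i in dimension 2m over a finite field F of characteristic two, m ≥ 4. Let t, s be involutions of the commutator subgroup Ω that are conjugate in the full isometry group O. If it is not the case that t − 1 has rank m and Q(v + t v) = 0 for every vector v, then t and s are conjugate by an element of Ω. If t − 1 has rank m and Q(v + t v) = 0 for all v, then t and s are conjugate by an element of Ω exactly when the intersection of the images of t − 1 and s − 1 has even dimension (so the class of t in O meets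 at most two classes of Ω). -/
theorem result {F : Type*} [Field F] [Fintype F] [CharP F 2] {m : ℕ} (hm : 4 ≤ m) (t s : ↥(Cfsg.isometryGroup F (Cfsg.quadFormPlus m F))) (ht : orderOf t = 2) (hs : orderOf s = 2) (htO : t ∈ Cfsg.Omega F (Cfsg.quadFormPlus m F)) (hsO : s ∈ Cfsg.Omega F (Cfsg.quadFormPlus m F)) (hconj : IsConj t s) :
    (¬ (((((t : ↥(Cfsg.isometryGroup F (Cfsg.quadFormPlus m F))) : GL (Fin m ⊕ Fin m) F) : Matrix (Fin m ⊕ Fin m) (Fin m ⊕ Fin m) F) - 1).rank = m ∧ ∀ v : Fin m ⊕ Fin m → F, Cfsg.quadFormPlus m F (v + Matrix.mulVec (((t : ↥(Cfsg.isometryGroup F (Cfsg.quadFormPlus m F))) : GL (Fin m ⊕ Fin m) F) : Matrix (Fin m ⊕ Fin m) (Fin m ⊕ Fin m) F) v) = 0) →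
      ∃ g ∈ Cfsg.Omega F (Cfsg.quadFormPlus m F), g * t * g⁻¹ = s) ∧
    ((((((t : ↥(Cfsg.isometryGroup F (Cfsg.quadFormPlus m F))) : GL (Fin m ⊕ Fin m) F) : Matrix (Fin m ⊕ Fin m) (Fin m ⊕ Fin m) F) - 1).rank = m ∧ ∀ v : Fin m ⊕ Fin m → F, Cfsg.quadFormPlus m F (v + Matrix.mulVec (((t : ↥(Cfsg.isometryGroup F (Cfsg.quadFormPlus m F))) : GL (Fin m ⊕ Fin m) F) : Matrix (Fin m ⊕ Fin m) (Fin m ⊕ Fin m) F) v) = 0) →
      ((∃ g ∈ Cfsg.Omega F (Cfsg.quadFormPlus m F), g * t * g⁻¹ = s) ↔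
        Even (Module.finrank F ↥(LinearMap.range (Matrix.toLin' ((((t : ↥(Cfsg.isometryGroup F (Cfsg.quadFormPlus m F))) : GL (Fin m ⊕ Fin m) F) : Matrix (Fin m ⊕ Fin m) (Fin m ⊕ Fin m) F) - 1)) ⊓ LinearMap.range (Matrix.toLin' ((((s : ↥(Cfsg.isometryGroup F (Cfsg.quadFormPlus m F))) : GL (Fin m ⊕ Fin m) F) : Matrix (Fin m ⊕ Fin m) (Fin m ⊕ Fin m) F) - 1)))))) := by
  have hco := Cfsg.Agent.Helper16.coe_qfPlus m F
  revert t s
  rw [← hco]
  intro t s ht _ htO _ hconj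
  exact aux hm t s ht htO hconj

end Cfsg.Agent.S2172
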