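import Cfsg.Statements.S2173
import Cfsg.Agent.Helper16.InvolSplit

set_option autoImplicit false
open Cfsg

namespace Cfsg.Agent.S2173

open Cfsg.Agent.Helper16 QuadraticMap Module in
theorem aux {F : Type*} [Field F] [Fintype F] [CharP F 2] {m : ℕ} (hm : 4 ≤ m) (c d : F)
    (hcd : ∀ z₁ z₂ : F, z₁ ^ 2 + c * z₁ * z₂ + d * z₂ ^ 2 = 0 → z₁ = 0 ∧ z₂ = 0)
    (t s : ↥(Cfsg.isometryGroup F ⇑(qfMinus (m - 1) F c d))) (ht : orderOf t = 2)
    (hconj : IsConj t s) :
    ∃ g ∈ Cfsg.Omega F ⇑(qfMinus (m - 1) F c d), g * t * g⁻¹ = s := by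
  have hc : c ≠ 0 := by
    rintro rfl
    obtain ⟨e, he⟩ := FiniteField.isSquare_of_char_two (CharP.ringChar_of_prime_eq_zero Nat.prime_two
      (CharTwo.two_eq_zero (R := F))) d
    have := hcd e 1 (by
      rw [he]
      have h2 : (2 : F) = 0 := CharTwo.two_eq_zero
      linear_combination (e ^ 2) * h2)
    exact one_ne_zero this.2
  have hnd : (QuadraticMap.polarBilin (qfMinus (m - 1) F c d)).Nondegenerate := by
    apply qfMinus_nondegenerate
    have h2 : (2 : F) = 0 := CharTwo.two_eq_zero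
    have e : 4 * d - c ^ 2 = c ^ 2 := by linear_combination (2 * d - c ^ 2) * h2
    rw [e]
    exact pow_ne_zero 2 hc
  have hcard : Fintype.card ((Fin (m - 1) ⊕ Fin (m - 1)) ⊕ Fin 2) = 2 * m := by
    rw [Fintype.card_sum, Fintype.card_sum, Fintype.card_fin, Fintype.card_fin]
    omega
  have htt := sq_of_orderOf_two t ht
  have hnTS : ¬ TS (qfMinus (m - 1) F c d) (fixSub ⇑(qfMinus (m - 1) F c d) t) := by
    intro hTS
    have h1 := (fix_TS_finrank _ hnd t htt hTS).1
    have h2 := minus_TS_finrank_le (m - 1) F c d hcd hnd _ hTS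
    omega
  unfold TS at hnTS
  push Not at hnTS
  obtain ⟨a, haf, ha⟩ := hnTS
  exact conj_in_Omega_of_fixed_nonsing _ hnd (Or.inr (by rw [hcard]; omega)) t s hconj a ha
    ((mem_fixSub _ _ _).1 haf)

/-- For the quadratic form Σ x_i y_i + (z₁² + c z₁ z₂ + d z₂²) in dimension 2m with anisotropic binary part over a finite field F of characteristic two, m ≥ 4 (minus type): two involutions of the commutator subgroup Ω that are conjugate in the full isometry group O are conjugate by an element of Ω (no class of involutions of O inside Ω splits). -/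
theorem result {F : Type*} [Field F] [Fintype F] [CharP F 2] {m : ℕ} (hm : 4 ≤ m) (c d : F) (hcd : ∀ z₁ z₂ : F, z₁ ^ 2 + c * z₁ * z₂ + d * z₂ ^ 2 = 0 → z₁ = 0 ∧ z₂ = 0) (t s : ↥(Cfsg.isometryGroup F (Cfsg.quadFormMinus (m - 1) F c d))) (ht : orderOf t = 2) (hs : orderOf s = 2) (htO : t ∈ Cfsg.Omega F (Cfsg.quadFormMinus (m - 1) F c d)) (hsO : s ∈ Cfsg.Omega F (Cfsg.quadFormMinus (m - 1) F c d)) (hconj : IsConj t s) :
    ∃ g ∈ Cfsg.Omega F (Cfsg.quadFormMinus (m - 1) F c d), g * t * g⁻¹ = s := by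
  have hco := Cfsg.Agent.Helper16.coe_qfMinus (m - 1) F c d
  revert t s
  rw [← hco]
  intro t s ht _ _ _ hconj
  exact aux hm c d hcd t s ht hconj

end Cfsg.Agent.S2173
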