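import Cfsg.Statements.S2177
import Cfsg.Agent.Helper8.G2K
-- import your own Cfsg.Agent.* helpers here

set_option autoImplicit false
open Cfsg

namespace Cfsg.Agent.S2177

open Cfsg.Lie Cfsg.Agent.Helper8

/-- Conjugacy classes of involutions in the Chevalley group of type G₂ over a finite field F of characteristic two with at least four elements (the matrix group generated by the root elements x_r(t)). In this problem's root numbering for type G₂ (the Chevalley data module; p₁ = a short, p₂ = b long; roots indexed by coefficient vectors in increasing order) let 11 be the highest root 3a + 2b (long) and 9 the short root 2a + b; consider x_{3a+2b}(1) and x_{2a+b}(1). Then: each invertible matrix equal to one of these two products lies in the group and has order 2; every element of order 2 of the group is conjugate in the group to one of them; and no two of them are conjugate in the group (so, the two matrices being distinct, the group has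 exactly two conjugacy classes of involutions). -/
theorem result {F : Type*} [Field F] [Fintype F] [CharP F 2] (hF : 4 ≤ Fintype.card F) :
    (∀ y : GL Cfsg.Lie.chevG2.Idx F, ((y : GL Cfsg.Lie.chevG2.Idx F) : Matrix Cfsg.Lie.chevG2.Idx Cfsg.Lie.chevG2.Idx F) ∈ [Cfsg.Lie.chevG2.x F 11 1, Cfsg.Lie.chevG2.x F 9 1] → y ∈ Cfsg.Lie.chevG2.group F ∧ orderOf y = 2) ∧
    (∀ g ∈ Cfsg.Lie.chevG2.group F, orderOf g = 2 → ∃ y ∈ Cfsg.Lie.chevG2.group F, ((y : GL Cfsg.Lie.chevG2.Idx F) : Matrix Cfsg.Lie.chevG2.Idx Cfsg.Lie.chevG2.Idx F) ∈ [Cfsg.Lie.chevG2.x F 11 1, Cfsg.Lie.chevG2.x F 9 1] ∧ ∃ h ∈ Cfsg.Lie.chevG2.group F, h * g * h⁻¹ = y) ∧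
    (∀ y₁ ∈ Cfsg.Lie.chevG2.group F, ∀ y₂ ∈ Cfsg.Lie.chevG2.group F, ((y₁ : GL Cfsg.Lie.chevG2.Idx F) : Matrix Cfsg.Lie.chevG2.Idx Cfsg.Lie.chevG2.Idx F) ∈ [Cfsg.Lie.chevG2.x F 11 1, Cfsg.Lie.chevG2.x F 9 1] → ((y₂ : GL Cfsg.Lie.chevG2.Idx F) : Matrix Cfsg.Lie.chevG2.Idx Cfsg.Lie.chevG2.Idx F) ∈ [Cfsg.Lie.chevG2.x F 11 1, Cfsg.Lie.chevG2.x F 9 1] →
      (∃ h ∈ Cfsg.Lie.chevG2.group F, h * y₁ * h⁻¹ = y₂) → ((y₁ : GL Cfsg.Lie.chevG2.Idx F) : Matrix Cfsg.Lie.chevG2.Idx Cfsg.Lie.chevG2.Idx F) = ((y₂ : GL Cfsg.Lie.chevG2.Idx F) : Matrix Cfsg.Lie.chevG2.Idx Cfsg.Lie.chevG2.Idx F)) := by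
  have hord : ∀ (r : ℕ) (hr : r < chevG2.nroots) (y : GL chevG2.Idx F),
      (y : Matrix chevG2.Idx chevG2.Idx F) = chevG2.x F r 1 → y ∈ chevG2.group F ∧ orderOf y = 2 := by
    intro r hr y hy
    have ey : y = xGL chevG2 stdG2 F r hr 1 := Units.ext hy
    refine ⟨by rw [ey]; exact xGL_mem_group chevG2 stdG2 F r hr 1, ?_⟩
    have : Fact (Nat.Prime 2) := ⟨Nat.prime_two⟩
    apply orderOf_eq_prime
    · apply Units.ext
      rw [pow_two, Units.val_mul, hy, g2_add r hr, CharTwo.add_self_eq_zero, x_zero]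
      rfl
    · intro h1
      have h2 : chevG2.x F r 1 = 1 := by
        rw [← hy, h1]
        rfl
      exact one_ne_zero ((Cfsg.Agent.S1024.result chevG2 stdG2 r hr 1).mp h2)
  refine ⟨?_, ?_, ?_⟩
  · intro y hy
    simp only [List.mem_cons, List.mem_nil_iff, or_false] at hy
    rcases hy with hy | hy
    · exact hord 11 (by decide) y hy
    · exact hord 9 (by decide) y hy
  · intro g hg ho
    obtain ⟨h, hh, hu⟩ := g2_inv_in_U g hg ho
    obtain ⟨cu, hcu⟩ := uprod_exists chevG2 stdG2 (h * g * h⁻¹) hu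
    rw [g2_word] at hcu
    have hcu' : ((h * g * h⁻¹ : GL chevG2.Idx F) : Matrix chevG2.Idx chevG2.Idx F) =
        g2u F (cu 6) (cu 7) (cu 8) (cu 9) (cu 10) (cu 11) := hcu
    have hg2 : g * g = 1 := by
      rw [← pow_two, ← ho]
      exact pow_orderOf_eq_one g
    have hsq : g2u F (cu 6) (cu 7) (cu 8) (cu 9) (cu 10) (cu 11) *
        g2u F (cu 6) (cu 7) (cu 8) (cu 9) (cu 10) (cu 11) = 1 := by
      rw [← hcu', ← Units.val_mul]
      have e0 : h * g * h⁻¹ * (h * g * h⁻¹) = 1 := by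
        calc h * g * h⁻¹ * (h * g * h⁻¹) = h * (g * g) * h⁻¹ := by group
          _ = 1 := by
            rw [hg2]
            group
      rw [e0]
      rfl
    have hne : g2u F (cu 6) (cu 7) (cu 8) (cu 9) (cu 10) (cu 11) ≠ 1 := by
      intro e
      have e1 : h * g * h⁻¹ = 1 := Units.ext (hcu'.trans e)
      have e2 : g = 1 := by
        calc g = h⁻¹ * (h * g * h⁻¹) * h := by group
          _ = 1 := by
            rw [e1]
            group
      rw [e2, orderOf_one] at ho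
      exact absurd ho (by decide)
    have fin : ∀ (r : ℕ) (hr : r < chevG2.nroots),
        MConj F (g2u F (cu 6) (cu 7) (cu 8) (cu 9) (cu 10) (cu 11)) (chevG2.x F r 1) →
        ∃ y ∈ chevG2.group F, (y : Matrix chevG2.Idx chevG2.Idx F) = chevG2.x F r 1 ∧
          ∃ h' ∈ chevG2.group F, h' * g * h'⁻¹ = y := by
      rintro r hr ⟨k, hk, e⟩
      refine ⟨xGL chevG2 stdG2 F r hr 1, xGL_mem_group chevG2 stdG2 F r hr 1, rfl, k * h, mul_mem hk hh, ?_⟩
      have e1 : k * (h * g * h⁻¹) = xGL chevG2 stdG2 F r hr 1 * k := by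
        apply Units.ext
        show (k : Matrix chevG2.Idx chevG2.Idx F) * ((h * g * h⁻¹ : GL chevG2.Idx F) : Matrix chevG2.Idx chevG2.Idx F) =
          chevG2.x F r 1 * (k : Matrix chevG2.Idx chevG2.Idx F)
        rw [hcu']
        exact e
      calc k * h * g * (k * h)⁻¹ = k * (h * g * h⁻¹) * k⁻¹ := by group
        _ = xGL chevG2 stdG2 F r hr 1 := by
          rw [e1]
          group
    rcases g2_inv_conj _ _ _ _ _ _ hsq hne with hc | hc
    · obtain ⟨y, hy, hyv, h', hh', e⟩ := fin 11 (by decide) hc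
      exact ⟨y, hy, by rw [hyv]; simp, h', hh', e⟩
    · obtain ⟨y, hy, hyv, h', hh', e⟩ := fin 9 (by decide) hc
      exact ⟨y, hy, by rw [hyv]; simp, h', hh', e⟩
  · intro y₁ hy₁ y₂ hy₂ m₁ m₂ hc
    simp only [List.mem_cons, List.mem_nil_iff, or_false] at m₁ m₂
    obtain ⟨h, hh, e⟩ := hc
    rcases m₁ with m₁ | m₁ <;> rcases m₂ with m₂ | m₂
    · rw [m₁, m₂]
    · exact (g2_not_conj y₁ y₂ m₁ m₂ h hh e).elim
    · have e' : h⁻¹ * y₂ * h⁻¹⁻¹ = y₁ := by
        rw [← e]
        group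
      exact (g2_not_conj y₂ y₁ m₂ m₁ h⁻¹ (inv_mem hh) e').elim
    · rw [m₁, m₂]

end Cfsg.Agent.S2177
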