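import Cfsg.Statements.S2214
import Cfsg.Agent.Helper8.Cen3
-- import your own Cfsg.Agent.* helpers here

set_option autoImplicit false
open Cfsg

namespace Cfsg.Agent.S2214

open Cfsg.Lie Cfsg.Agent.Helper8

/-- Let k be an algebraically closed field of prime characteristic p, G the adjoint Chevalley group of type G₂, B₂, D₄, F₄, E₆, E₇ or E₈ over k (the matrix group generated by the root elements x_s(t), t ∈ k, acting on the Lie algebra), q = p^a with a ≥ 1, and K a subgroup of G containing every root element x_s(t) with t^q = t and consisting of matrices all of whose entries c satisfy c^q = c. Then the centralizer of K in G is trivial, and the normalizer of K in G is exactly the set of elements of G all of whose entries c satisfy c^q = c. -/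
theorem result {k : Type*} [Field k] [IsAlgClosed k] (p : ℕ) [Fact p.Prime] [CharP k p] (D : Cfsg.Lie.ChevalleyDatum) (hD : D ∈ [Cfsg.Lie.chevG2, Cfsg.Lie.chevB2, Cfsg.Lie.chevD4, Cfsg.Lie.chevF4, Cfsg.Lie.chevE6, Cfsg.Lie.chevE7, Cfsg.Lie.chevE8]) (a : ℕ) (ha : 1 ≤ a) (K : Subgroup (GL D.Idx k)) (hKG : K ≤ D.group k)
    (hLK : Subgroup.closure {g : GL D.Idx k | ∃ (s : ℕ) (t : k), t ^ (p ^ a) = t ∧ (g : Matrix D.Idx D.Idx k) = D.x k s t} ≤ K)
    (hKfix : ∀ g ∈ K, ∀ i j : D.Idx, ((g : Matrix D.Idx D.Idx k) i j) ^ (p ^ a) = (g : Matrix D.Idx D.Idx k) i j) :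
    D.group k ⊓ Subgroup.centralizer (K : Set (GL D.Idx k)) = ⊥ ∧
    ∀ g : GL D.Idx k, g ∈ D.group k → (g ∈ Subgroup.normalizer (K : Set (GL D.Idx k)) ↔ ∀ i j : D.Idx, ((g : Matrix D.Idx D.Idx k) i j) ^ (p ^ a) = (g : Matrix D.Idx D.Idx k) i j) := by
  have hS : Std7 D := hD
  let σ : k →+* k := iterateFrobenius k p a
  have hσ : ∀ t : k, σ t = t ^ p ^ a := fun t => rfl
  have hLK' : fixL D σ ≤ K := by
    refine le_trans ?_ hLK
    unfold fixL
    apply Subgroup.closure_mono
    rintro g ⟨s, t, ht, hg⟩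
    exact ⟨s, t, by rw [← hσ]; exact ht, hg⟩
  have hfixiff : ∀ g : GL D.Idx k, glMap D σ g = g ↔
      ∀ i j : D.Idx, ((g : GL D.Idx k) : Matrix D.Idx D.Idx k) i j ^ (p ^ a) = (g : Matrix D.Idx D.Idx k) i j := by
    intro g
    constructor
    · intro h i j
      have h1 : ((glMap D σ g : GL D.Idx k) : Matrix D.Idx D.Idx k) i j = (g : Matrix D.Idx D.Idx k) i j := by
        rw [h]
      rw [glMap_val, Matrix.map_apply, hσ] at h1
      exact h1
    · intro h
      apply Units.ext
      ext i j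
      rw [glMap_val, Matrix.map_apply, hσ]
      exact h i j
  have hKfix' : ∀ x ∈ K, glMap D σ x = x := fun x hx => (hfixiff x).mpr (hKfix x hx)
  have hcen : ∀ g ∈ D.group k, (∀ x ∈ K, g * x = x * g) → g = 1 := by
    intro g hg hc
    apply cen_all_one D hS g hg
    intro r hr
    apply hc
    apply hLK
    exact Subgroup.subset_closure ⟨r, 1, one_pow _, rfl⟩
  refine ⟨?_, ?_⟩
  · rw [eq_bot_iff]
    rintro g ⟨hg, hz⟩
    rw [Subgroup.mem_bot]
    apply hcen g hg
    intro x hx
    exact (Subgroup.mem_centralizer_iff.mp hz x hx).symm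
  · intro g hg
    rw [← hfixiff]
    constructor
    · intro hn
      have hc1 : g⁻¹ * glMap D σ g = 1 := by
        apply hcen _ (mul_mem (inv_mem hg) (glMap_group D σ g hg))
        intro x hx
        have hy : g * x * g⁻¹ ∈ K := (Subgroup.mem_normalizer_iff.mp hn x).mp hx
        have h1 := hKfix' _ hy
        rw [map_mul, map_mul, map_inv, hKfix' x hx] at h1
        calc g⁻¹ * glMap D σ g * x = g⁻¹ * (glMap D σ g * x * (glMap D σ g)⁻¹) * glMap D σ g := by group
          _ = g⁻¹ * (g * x * g⁻¹) * glMap D σ g := by rw [h1]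
          _ = x * (g⁻¹ * glMap D σ g) := by group
      exact (inv_mul_eq_one.mp hc1).symm
    · intro hfix
      rw [Subgroup.mem_normalizer_iff]
      intro x
      constructor
      · intro hx
        exact fix_conj_mem D hS σ K hKG hLK' hKfix' g hg hfix x hx
      · intro hx
        have hfix' : glMap D σ g⁻¹ = g⁻¹ := by rw [map_inv, hfix]
        have h1 := fix_conj_mem D hS σ K hKG hLK' hKfix' g⁻¹ (inv_mem hg) hfix' _ hx
        have e : g⁻¹ * (g * x * g⁻¹) * g⁻¹⁻¹ = x := by group
        rwa [e] at h1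

end Cfsg.Agent.S2214
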