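import Cfsg.Statements.S2231

set_option autoImplicit false
open Cfsg

namespace Cfsg.Agent.S2231

open Subgroup MulAction

/-- if a Sylow `p`-subgroup is abelian, every `p`-subgroup is abelian -/
theorem abelian_p_of_sylow {G : Type*} [Group G] [Finite G] (p : ℕ) [Fact p.Prime] (Q : Sylow p G)
    (hQ : ∀ a ∈ Q, ∀ b ∈ Q, a * b = b * a) :
    ∀ T : Subgroup G, IsPGroup p T → ∀ a ∈ T, ∀ b ∈ T, a * b = b * a := by
  intro T hT a ha b hb
  obtain ⟨Q', hQ'⟩ := hT.exists_le_sylow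
  obtain ⟨g, rfl⟩ := MulAction.exists_smul_eq G Q Q'
  have haQ : a ∈ ((g • Q : Sylow p G) : Subgroup G) := hQ' ha
  have hbQ : b ∈ ((g • Q : Sylow p G) : Subgroup G) := hQ' hb
  rw [Sylow.coe_subgroup_smul, Subgroup.mem_pointwise_smul_iff_inv_smul_mem] at haQ hbQ
  have hc := hQ _ haQ _ hbQ
  simp only [MulAut.smul_def, MulAut.conj_inv_apply] at hc
  calc a * b = g * ((g⁻¹ * a * g) * (g⁻¹ * b * g)) * g⁻¹ := by group
    _ = g * ((g⁻¹ * b * g) * (g⁻¹ * a * g)) * g⁻¹ := by rw [hc]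
    _ = b * a := by group

/-- abelian-ness of `p`-subgroups passes to homomorphic images -/
theorem abelian_p_of_surj {G H : Type*} [Group G] [Group H] [Finite G] (p : ℕ) [Fact p.Prime]
    (f : G →* H) (hf : Function.Surjective f)
    (hG : ∀ T : Subgroup G, IsPGroup p T → ∀ a ∈ T, ∀ b ∈ T, a * b = b * a) :
    ∀ T : Subgroup H, IsPGroup p T → ∀ a ∈ T, ∀ b ∈ T, a * b = b * a := by
  have hfin : Finite H := Finite.of_surjective f hf
  intro T hT a ha b hb
  obtain ⟨Q, hQ⟩ := hT.exists_le_sylow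
  obtain ⟨P, rfl⟩ := Sylow.mapSurjective_surjective hf p Q
  have haQ : a ∈ (P : Subgroup G).map f := hQ ha
  have hbQ : b ∈ (P : Subgroup G).map f := hQ hb
  obtain ⟨x, hx, rfl⟩ := haQ
  obtain ⟨y, hy, rfl⟩ := hbQ
  rw [← map_mul, ← map_mul, hG (P : Subgroup G) P.isPGroup' x hx y hy]

/-- abelian-ness of `p`-subgroups passes to subgroups -/
theorem abelian_p_of_subgroup {G : Type*} [Group G] (p : ℕ) (K : Subgroup G)
    (hG : ∀ T : Subgroup G, IsPGroup p T → ∀ a ∈ T, ∀ b ∈ T, a * b = b * a) :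
    ∀ T : Subgroup K, IsPGroup p T → ∀ a ∈ T, ∀ b ∈ T, a * b = b * a := by
  intro T hT a ha b hb
  have h := hG (T.map K.subtype) (hT.map K.subtype) a ⟨a, ha, rfl⟩ b ⟨b, hb, rfl⟩
  exact Subtype.ext h

/-- upper unitriangular matrices in `SL₂` -/
def uni {K : Type*} [Field K] (b : K) : Matrix.SpecialLinearGroup (Fin 2) K :=
  ⟨!![1, b; 0, 1], by simp [Matrix.det_fin_two]⟩

theorem uni_mul {K : Type*} [Field K] (a b : K) : uni a * uni b = uni (a + b) := by
  apply Subtype.ext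
  show (!![1, a; 0, 1] * !![1, b; 0, 1] : Matrix (Fin 2) (Fin 2) K) = !![1, a + b; 0, 1]
  rw [Matrix.mul_fin_two]
  simp [add_comm]

theorem uni_injective {K : Type*} [Field K] : Function.Injective (uni : K → Matrix.SpecialLinearGroup (Fin 2) K) := by
  intro a b h
  have := congrArg (fun M : Matrix.SpecialLinearGroup (Fin 2) K => (M : Matrix (Fin 2) (Fin 2) K) 0 1) h
  simpa [uni] using this

/-- every `p`-subgroup of `SL₂(K)` is abelian -/
theorem sl2_abelian {p : ℕ} [Fact p.Prime] {K : Type*} [Field K] [Fintype K] [CharP K p] :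
    ∀ T : Subgroup (Matrix.SpecialLinearGroup (Fin 2) K), IsPGroup p T →
      ∀ a ∈ T, ∀ b ∈ T, a * b = b * a := by
  classical
  have hpr : p.Prime := Fact.out
  obtain ⟨n, -, hq⟩ := FiniteField.card K p
  set q := Fintype.card K with hqdef
  -- the subgroup U
  let U : Subgroup (Matrix.SpecialLinearGroup (Fin 2) K) :=
    { carrier := Set.range uni
      mul_mem' := by
        rintro _ _ ⟨a, rfl⟩ ⟨b, rfl⟩
        exact ⟨a + b, (uni_mul a b).symm⟩
      one_mem' := ⟨0, by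
        apply Subtype.ext
        simp only [uni, Matrix.SpecialLinearGroup.coe_one]
        ext i j
        fin_cases i <;> fin_cases j <;> simp⟩
      inv_mem' := by
        rintro _ ⟨a, rfl⟩
        refine ⟨-a, ?_⟩
        rw [eq_inv_iff_mul_eq_one, uni_mul]
        apply Subtype.ext
        simp only [uni, Matrix.SpecialLinearGroup.coe_one]
        ext i j
        fin_cases i <;> fin_cases j <;> simp }
  have hUcomm : ∀ a ∈ U, ∀ b ∈ U, a * b = b * a := by
    rintro _ ⟨a, rfl⟩ _ ⟨b, rfl⟩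
    rw [uni_mul, uni_mul, add_comm]
  have hUcard : Nat.card U = q := by
    have : Nat.card U = Nat.card K := by
      apply Nat.card_congr
      exact (Equiv.ofInjective uni uni_injective).symm
    rw [this, Nat.card_eq_fintype_card]
  have hUp : IsPGroup p U := IsPGroup.of_card (n := n) (by rw [hUcard, hq])
  obtain ⟨Q, hQ⟩ := hUp.exists_le_sylow
  -- card Q divides q
  obtain ⟨k, hk⟩ := IsPGroup.iff_card.mp Q.isPGroup'
  have hGL : Nat.card (GL (Fin 2) K) = (q ^ 2 - 1) * (q ^ 2 - q) := by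
    rw [Matrix.card_GL_field, Fin.prod_univ_two]
    simp only [Fin.val_zero, Fin.val_one, pow_zero, pow_one]
    rfl
  have hdvd1 : Nat.card (Q : Subgroup (Matrix.SpecialLinearGroup (Fin 2) K)) ∣ (q ^ 2 - 1) * (q ^ 2 - q) := by
    rw [← hGL]
    exact (Subgroup.card_subgroup_dvd_card _).trans
      (Subgroup.card_dvd_of_injective Matrix.SpecialLinearGroup.toGL
        (by
          intro a b hab
          apply Subtype.ext
          have := congrArg (fun g : GL (Fin 2) K => (g : Matrix (Fin 2) (Fin 2) K)) hab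
          simpa using this))
  have hn0 : (n : ℕ) ≠ 0 := n.ne_zero
  have hpq : p ∣ q := by rw [hq]; exact dvd_pow_self p hn0
  have hq1 : 1 ≤ q := by rw [hq]; exact Nat.one_le_pow _ _ hpr.pos
  have hcop1 : ¬ p ∣ q - 1 := by
    intro h
    have : p ∣ q - (q - 1) := Nat.dvd_sub hpq h
    have h1 : q - (q - 1) = 1 := by omega
    rw [h1] at this
    exact hpr.one_lt.ne' (Nat.dvd_one.mp this)
  have hcop2 : ¬ p ∣ q ^ 2 - 1 := by
    intro h
    have hq2 : 1 ≤ q ^ 2 := Nat.one_le_pow _ _ hq1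
    have : p ∣ q ^ 2 - (q ^ 2 - 1) := Nat.dvd_sub (hpq.trans (dvd_pow_self q (by norm_num))) h
    have h1 : q ^ 2 - (q ^ 2 - 1) = 1 := by omega
    rw [h1] at this
    exact hpr.one_lt.ne' (Nat.dvd_one.mp this)
  have hfact : (q ^ 2 - 1) * (q ^ 2 - q) = q * ((q ^ 2 - 1) * (q - 1)) := by
    have : q ^ 2 - q = q * (q - 1) := by
      rw [Nat.mul_sub, mul_one, pow_two]
    rw [this]; ring
  have hcop : Nat.Coprime (p ^ k) ((q ^ 2 - 1) * (q - 1)) := by
    apply Nat.Coprime.pow_left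
    rw [Nat.Prime.coprime_iff_not_dvd hpr]
    intro h
    rcases (Nat.Prime.dvd_mul hpr).mp h with h | h
    · exact hcop2 h
    · exact hcop1 h
  have hdvd2 : Nat.card (Q : Subgroup (Matrix.SpecialLinearGroup (Fin 2) K)) ∣ q := by
    rw [hk] at hdvd1 ⊢
    rw [hfact] at hdvd1
    exact hcop.dvd_of_dvd_mul_right hdvd1
  have hUQ : U = (Q : Subgroup (Matrix.SpecialLinearGroup (Fin 2) K)) := by
    apply Subgroup.eq_of_le_of_card_ge hQ
    rw [hUcard]
    exact Nat.le_of_dvd (by omega) hdvd2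
  exact abelian_p_of_sylow p Q (by
    intro a ha b hb
    have ha' : a ∈ U := by rw [hUQ]; exact ha
    have hb' : b ∈ U := by rw [hUQ]; exact hb
    exact hUcomm a ha' b hb')

/-- matrices `1 + N` with `N * N = 0` have `p`-th power one in characteristic `p` -/
theorem pow_p_one {p : ℕ} [Fact p.Prime] (M : Matrix.SpecialLinearGroup (Fin 3) (ZMod p))
    (hN : ((M : Matrix (Fin 3) (Fin 3) (ZMod p)) - 1) * ((M : Matrix (Fin 3) (Fin 3) (ZMod p)) - 1) = 0) :
    M ^ p = 1 := by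
  apply Subtype.ext
  show ((M ^ p : Matrix.SpecialLinearGroup (Fin 3) (ZMod p)) : Matrix (Fin 3) (Fin 3) (ZMod p)) = 1
  rw [Matrix.SpecialLinearGroup.coe_pow]
  set N := (M : Matrix (Fin 3) (Fin 3) (ZMod p)) - 1 with hNdef
  have hM : (M : Matrix (Fin 3) (Fin 3) (ZMod p)) = 1 + N := by rw [hNdef]; abel
  have key : ∀ k : ℕ, (1 + N) ^ k = 1 + (k : ZMod p) • N := by
    intro k
    induction k with
    | zero => simp
    | succ k ih =>
      rw [pow_succ, ih]
      simp only [Nat.cast_add, Nat.cast_one, add_smul, one_smul, mul_add, mul_one, add_mul, one_mul,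
        Matrix.smul_mul, hN, smul_zero, add_zero]
      abel
  rw [hM, key p]
  simp

def mX (p : ℕ) : Matrix.SpecialLinearGroup (Fin 3) (ZMod p) :=
  ⟨!![1, 1, 0; 0, 1, 0; 0, 0, 1], by simp [Matrix.det_fin_three]⟩
def mY (p : ℕ) : Matrix.SpecialLinearGroup (Fin 3) (ZMod p) :=
  ⟨!![1, 0, 0; 0, 1, 1; 0, 0, 1], by simp [Matrix.det_fin_three]⟩
def mZ (p : ℕ) : Matrix.SpecialLinearGroup (Fin 3) (ZMod p) :=
  ⟨!![1, 0, 1; 0, 1, 0; 0, 0, 1], by simp [Matrix.det_fin_three]⟩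

theorem mXY (p : ℕ) : mX p * mY p = mZ p * mY p * mX p := by
  apply Subtype.ext
  show (!![1, 1, 0; 0, 1, 0; 0, 0, 1] * !![1, 0, 0; 0, 1, 1; 0, 0, 1] : Matrix (Fin 3) (Fin 3) (ZMod p))
    = !![1, 0, 1; 0, 1, 0; 0, 0, 1] * !![1, 0, 0; 0, 1, 1; 0, 0, 1] * !![1, 1, 0; 0, 1, 0; 0, 0, 1]
  ext i j
  fin_cases i <;> fin_cases j <;> simp [Matrix.mul_apply, Fin.sum_univ_three]

theorem mXZ (p : ℕ) : mX p * mZ p = mZ p * mX p := by
  apply Subtype.ext
  show (!![1, 1, 0; 0, 1, 0; 0, 0, 1] * !![1, 0, 1; 0, 1, 0; 0, 0, 1] : Matrix (Fin 3) (Fin 3) (ZMod p))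
    = !![1, 0, 1; 0, 1, 0; 0, 0, 1] * !![1, 1, 0; 0, 1, 0; 0, 0, 1]
  ext i j
  fin_cases i <;> fin_cases j <;> simp [Matrix.mul_apply, Fin.sum_univ_three]

theorem mYZ (p : ℕ) : mZ p * mY p = mY p * mZ p := by
  apply Subtype.ext
  show (!![1, 0, 1; 0, 1, 0; 0, 0, 1] * !![1, 0, 0; 0, 1, 1; 0, 0, 1] : Matrix (Fin 3) (Fin 3) (ZMod p))
    = !![1, 0, 0; 0, 1, 1; 0, 0, 1] * !![1, 0, 1; 0, 1, 0; 0, 0, 1]
  ext i j
  fin_cases i <;> fin_cases j <;> simp [Matrix.mul_apply, Fin.sum_univ_three]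

theorem mXY_ne (p : ℕ) [Fact p.Prime] : mX p * mY p ≠ mY p * mX p := by
  intro h
  have h1 := congrArg (fun M : Matrix.SpecialLinearGroup (Fin 3) (ZMod p) =>
    (M : Matrix (Fin 3) (Fin 3) (ZMod p)) 0 2) h
  have e1 : ((mX p * mY p : Matrix.SpecialLinearGroup (Fin 3) (ZMod p)) : Matrix (Fin 3) (Fin 3) (ZMod p)) 0 2 = 1 := by
    show ((!![1, 1, 0; 0, 1, 0; 0, 0, 1] * !![1, 0, 0; 0, 1, 1; 0, 0, 1] : Matrix (Fin 3) (Fin 3) (ZMod p))) 0 2 = 1
    simp [Matrix.mul_apply, Fin.sum_univ_three]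
  have e2 : ((mY p * mX p : Matrix.SpecialLinearGroup (Fin 3) (ZMod p)) : Matrix (Fin 3) (Fin 3) (ZMod p)) 0 2 = 0 := by
    show ((!![1, 0, 0; 0, 1, 1; 0, 0, 1] * !![1, 1, 0; 0, 1, 0; 0, 0, 1] : Matrix (Fin 3) (Fin 3) (ZMod p))) 0 2 = 0
    simp [Matrix.mul_apply, Fin.sum_univ_three]
  simp only [e1, e2] at h1
  exact one_ne_zero h1

theorem zpowers_pgroup {G : Type*} [Group G] {p : ℕ} [Fact p.Prime] (x : G) (hx : x ^ p = 1) :
    IsPGroup p (Subgroup.zpowers x) := by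
  have hdvd : orderOf x ∣ p ^ 1 := by rw [pow_one]; exact orderOf_dvd_of_pow_eq_one hx
  obtain ⟨m, -, hm⟩ := (Nat.dvd_prime_pow Fact.out).mp hdvd
  exact IsPGroup.of_card (n := m) (by rw [Nat.card_zpowers, hm])

/-- `Qd(p)` contains two non-commuting elements lying in a common `p`-subgroup -/
theorem qd_nonabelian (p : ℕ) [Fact p.Prime] :
    ∃ (T : Subgroup (Cfsg.qd p)) (a b : Cfsg.qd p), IsPGroup p T ∧ a ∈ T ∧ b ∈ T ∧ a * b ≠ b * a := by
  have hXp : mX p ^ p = 1 := pow_p_one _ (by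
    show (!![1, 1, 0; 0, 1, 0; 0, 0, 1] - 1 : Matrix (Fin 3) (Fin 3) (ZMod p)) * (!![1, 1, 0; 0, 1, 0; 0, 0, 1] - 1) = 0
    ext i j
    fin_cases i <;> fin_cases j <;> simp [Matrix.mul_apply, Fin.sum_univ_three, Matrix.one_apply])
  have hYp : mY p ^ p = 1 := pow_p_one _ (by
    show (!![1, 0, 0; 0, 1, 1; 0, 0, 1] - 1 : Matrix (Fin 3) (Fin 3) (ZMod p)) * (!![1, 0, 0; 0, 1, 1; 0, 0, 1] - 1) = 0
    ext i j
    fin_cases i <;> fin_cases j <;> simp [Matrix.mul_apply, Fin.sum_univ_three, Matrix.one_apply])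
  have hZp : mZ p ^ p = 1 := pow_p_one _ (by
    show (!![1, 0, 1; 0, 1, 0; 0, 0, 1] - 1 : Matrix (Fin 3) (Fin 3) (ZMod p)) * (!![1, 0, 1; 0, 1, 0; 0, 0, 1] - 1) = 0
    ext i j
    fin_cases i <;> fin_cases j <;> simp [Matrix.mul_apply, Fin.sum_univ_three, Matrix.one_apply])
  have hXmem : mX p ∈ Cfsg.qd p := Subgroup.subset_closure (by refine ⟨?_, ?_, ?_⟩ <;> rfl)
  have hYmem : mY p ∈ Cfsg.qd p := Subgroup.subset_closure (by refine ⟨?_, ?_, ?_⟩ <;> rfl)
  have hZmem : mZ p ∈ Cfsg.qd p := Subgroup.subset_closure (by refine ⟨?_, ?_, ?_⟩ <;> rfl)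
  set A : Subgroup (Matrix.SpecialLinearGroup (Fin 3) (ZMod p)) :=
    Subgroup.zpowers (mZ p) ⊔ Subgroup.zpowers (mY p) with hA
  have hZY : Subgroup.zpowers (mZ p) ≤ Subgroup.normalizer (Subgroup.zpowers (mY p) : Set (Matrix.SpecialLinearGroup (Fin 3) (ZMod p))) := by
    rw [Subgroup.zpowers_le]
    apply Subgroup.mem_normalizer_fintype
    rintro _ ⟨j, rfl⟩
    have hc : Commute (mZ p) (mY p) := mYZ p
    have : mZ p * mY p ^ j * (mZ p)⁻¹ = mY p ^ j := by
      rw [(hc.zpow_right j).eq, mul_inv_cancel_right]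
    rw [this]
    exact Subgroup.zpow_mem_zpowers _ j
  have hAp : IsPGroup p A := IsPGroup.to_sup_of_normal_right' (zpowers_pgroup _ hZp) (zpowers_pgroup _ hYp) hZY
  have hXA : Subgroup.zpowers (mX p) ≤ Subgroup.normalizer (A : Set (Matrix.SpecialLinearGroup (Fin 3) (ZMod p))) := by
    rw [Subgroup.zpowers_le]
    apply Subgroup.mem_normalizer_fintype
    have hle : A ≤ A.comap (MulAut.conj (mX p)).toMonoidHom := by
      rw [hA]
      apply sup_le
      · rw [Subgroup.zpowers_le, Subgroup.mem_comap]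
        have : mX p * mZ p * (mX p)⁻¹ = mZ p := by
          rw [mXZ, mul_inv_cancel_right]
        simp only [MulEquiv.coe_toMonoidHom, MulAut.conj_apply, this]
        exact Subgroup.mem_sup_left (Subgroup.mem_zpowers _)
      · rw [Subgroup.zpowers_le, Subgroup.mem_comap]
        have : mX p * mY p * (mX p)⁻¹ = mZ p * mY p := by
          rw [mXY, mul_inv_cancel_right]
        simp only [MulEquiv.coe_toMonoidHom, MulAut.conj_apply, this]
        exact Subgroup.mul_mem _ (Subgroup.mem_sup_left (Subgroup.mem_zpowers _))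
          (Subgroup.mem_sup_right (Subgroup.mem_zpowers _))
    intro n hn
    have := hle hn
    simpa [Subgroup.mem_comap] using this
  have hTp : IsPGroup p (Subgroup.zpowers (mX p) ⊔ A : Subgroup (Matrix.SpecialLinearGroup (Fin 3) (ZMod p))) :=
    IsPGroup.to_sup_of_normal_right' (zpowers_pgroup _ hXp) hAp hXA
  refine ⟨(Subgroup.zpowers (mX p) ⊔ A).subgroupOf (Cfsg.qd p), ⟨mX p, hXmem⟩, ⟨mY p, hYmem⟩,
    hTp.comap_subtype, ?_, ?_, ?_⟩
  · rw [Subgroup.mem_subgroupOf]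
    exact Subgroup.mem_sup_left (Subgroup.mem_zpowers _)
  · rw [Subgroup.mem_subgroupOf]
    exact Subgroup.mem_sup_right (Subgroup.mem_sup_right (Subgroup.mem_zpowers _))
  · intro h
    exact mXY_ne p (congrArg Subtype.val h)

theorem result {p : ℕ} [Fact p.Prime] (hp : p ≠ 2) {K : Type*} [Field K] [Fintype K] [CharP K p] : ¬ Cfsg.Involves ↥(Cfsg.qd p) (Matrix.ProjectiveSpecialLinearGroup (Fin 2) K) := by
  classical
  rintro ⟨K', R, hnorm, ⟨e⟩⟩
  have h1 : ∀ T : Subgroup (Matrix.ProjectiveSpecialLinearGroup (Fin 2) K), IsPGroup p T →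
      ∀ a ∈ T, ∀ b ∈ T, a * b = b * a :=
    abelian_p_of_surj p (QuotientGroup.mk' _) (QuotientGroup.mk'_surjective _) sl2_abelian
  have h2 := abelian_p_of_subgroup p K' h1
  have h3 := abelian_p_of_surj p (e.toMonoidHom.comp (QuotientGroup.mk' (R.subgroupOf K')))
    (e.surjective.comp (QuotientGroup.mk'_surjective _)) h2
  obtain ⟨T, a, b, hT, ha, hb, hab⟩ := qd_nonabelian p
  exact hab (h3 T hT a ha b hb)

end Cfsg.Agent.S2231
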