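import Mathlib
import Cfsg.Statements.S2250
import Cfsg.Agent.Helper6.SpSylC

set_option autoImplicit false
open Cfsg

namespace Cfsg.Agent.S2250

theorem main {F : Type*} [Field F] [Fintype F] (hF : Odd (Fintype.card F)) (n : ℕ)
    (S : Sylow 2 ↥(Matrix.symplecticGroup (Fin n) F)) :
    ((∃ E : Subgroup ↥(S : Subgroup ↥(Matrix.symplecticGroup (Fin n) F)), E.Normal ∧
        Cfsg.IsElementaryAbelian 2 E ∧ 2 ^ n ≤ Nat.card ↥E) ∧
      ∀ E : Subgroup ↥(S : Subgroup ↥(Matrix.symplecticGroup (Fin n) F)), E.Normal →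
        Cfsg.IsElementaryAbelian 2 E → Nat.card ↥E ≤ 2 ^ n) := by
  classical
  constructor
  · obtain ⟨T, D, hDT, hnorm, hcomm, hsq, hcard⟩ := Cfsg.Agent.H6SpSyl.exists_sylow_normal hF n
    obtain ⟨g, hg⟩ := MulAction.exists_smul_eq (Matrix.symplecticGroup (Fin n) F) T S
    have hS : ∀ x, x ∈ (S : Subgroup ↥(Matrix.symplecticGroup (Fin n) F)) ↔
        g⁻¹ * x * g ∈ (T : Subgroup ↥(Matrix.symplecticGroup (Fin n) F)) := by
      intro x
      rw [← hg, Sylow.coe_subgroup_smul, Subgroup.mem_pointwise_smul_iff_inv_smul_mem,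
        ← map_inv, MulAut.smul_def, MulAut.conj_apply, inv_inv]
    let φ : ↥(S : Subgroup ↥(Matrix.symplecticGroup (Fin n) F)) →*
        ↥(Matrix.symplecticGroup (Fin n) F) :=
      (MulAut.conj g⁻¹).toMonoidHom.comp
        (S : Subgroup ↥(Matrix.symplecticGroup (Fin n) F)).subtype
    have hφ : ∀ s : ↥(S : Subgroup ↥(Matrix.symplecticGroup (Fin n) F)),
        φ s = g⁻¹ * (s : ↥(Matrix.symplecticGroup (Fin n) F)) * g := by
      intro s
      show MulAut.conj g⁻¹ (s : ↥(Matrix.symplecticGroup (Fin n) F)) = _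
      rw [MulAut.conj_apply, inv_inv]
    have hφinj : Function.Injective φ := by
      intro s s' h
      rw [hφ, hφ] at h
      exact Subtype.ext (mul_left_cancel (mul_right_cancel h))
    have hφT : ∀ s, φ s ∈ (T : Subgroup ↥(Matrix.symplecticGroup (Fin n) F)) := by
      intro s
      rw [hφ]
      exact (hS _).mp s.2
    let E : Subgroup ↥(S : Subgroup ↥(Matrix.symplecticGroup (Fin n) F)) := D.comap φ
    have hmemS : ∀ d ∈ D, g * d * g⁻¹ ∈ (S : Subgroup ↥(Matrix.symplecticGroup (Fin n) F)) := by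
      intro d hd
      rw [hS]
      have h1 : g⁻¹ * (g * d * g⁻¹) * g = d := by group
      rw [h1]
      exact hDT hd
    have hmemE : ∀ (d : ↥(Matrix.symplecticGroup (Fin n) F)) (hd : d ∈ D),
        (⟨g * d * g⁻¹, hmemS d hd⟩ : ↥(S : Subgroup ↥(Matrix.symplecticGroup (Fin n) F))) ∈ E := by
      intro d hd
      rw [Subgroup.mem_comap, hφ]
      have h1 : g⁻¹ * (g * d * g⁻¹) * g = d := by group
      show g⁻¹ * (g * d * g⁻¹) * g ∈ D
      rw [h1]
      exact hd
    refine ⟨E, ?_, ⟨?_, ?_⟩, ?_⟩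
    · refine ⟨fun s hs t => ?_⟩
      rw [Subgroup.mem_comap, map_mul, map_mul, map_inv]
      exact hnorm (φ t) (hφT t) (φ s) hs
    · refine ⟨⟨fun a b => ?_⟩⟩
      apply Subtype.ext
      apply hφinj
      show φ ((a : ↥(S : Subgroup ↥(Matrix.symplecticGroup (Fin n) F))) * b) =
        φ ((b : ↥(S : Subgroup ↥(Matrix.symplecticGroup (Fin n) F))) * a)
      rw [map_mul, map_mul]
      exact hcomm _ a.2 _ b.2
    · intro a ha
      apply hφinj
      rw [map_pow, pow_two, map_one]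
      exact hsq _ ha
    · rw [← hcard]
      apply Nat.card_le_card_of_injective
        (fun d : D => (⟨⟨g * d.1 * g⁻¹, hmemS d.1 d.2⟩, hmemE d.1 d.2⟩ : E))
      intro d d' h
      have h1 : g * d.1 * g⁻¹ = g * d'.1 * g⁻¹ :=
        congrArg (fun e : E => ((e : ↥(S : Subgroup ↥(Matrix.symplecticGroup (Fin n) F))) :
          ↥(Matrix.symplecticGroup (Fin n) F))) h
      exact Subtype.ext (mul_left_cancel (mul_right_cancel h1))
  · intro E _ hEab
    have hinj : Function.Injective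
        (S : Subgroup ↥(Matrix.symplecticGroup (Fin n) F)).subtype :=
      Subgroup.subtype_injective _
    rw [← Subgroup.card_map_of_injective hinj]
    apply Cfsg.Agent.H6SpSyl.elab_le hF n
    · rintro _ ⟨a, ha, rfl⟩ _ ⟨b, hb, rfl⟩
      rw [← map_mul, ← map_mul]
      congr 1
      have h1 := hEab.1.is_comm.comm ⟨a, ha⟩ ⟨b, hb⟩
      exact congrArg Subtype.val h1
    · rintro _ ⟨a, ha, rfl⟩
      rw [← map_mul, ← pow_two, hEab.2 a ha, map_one]

/-- The normal 2-rank of the symplectic group over a finite field of odd order: for n ≥ 1 and S a Sylow 2-subgroup of Sp_{2n}(F), the largest rank of an elementary abelian subgroup of S that is normal in S equals n. -/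
theorem result {F : Type*} [Field F] [Fintype F] (hF : Odd (Fintype.card F)) (n : ℕ) (hn : 1 ≤ n) (S : Sylow 2 ↥(Matrix.symplecticGroup (Fin n) F)) :
    ((∃ E : Subgroup ↥(S : Subgroup ↥(Matrix.symplecticGroup (Fin n) F)), E.Normal ∧ Cfsg.IsElementaryAbelian 2 E ∧ 2 ^ (n) ≤ Nat.card ↥E) ∧
      ∀ E : Subgroup ↥(S : Subgroup ↥(Matrix.symplecticGroup (Fin n) F)), E.Normal → Cfsg.IsElementaryAbelian 2 E → Nat.card ↥E ≤ 2 ^ (n)) := by
  exact main hF n S

end Cfsg.Agent.S2250
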