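import Cfsg.Statements.S2257
import Cfsg.Agent.Helper9.Sb3

set_option autoImplicit false
open Cfsg

namespace Cfsg.Agent.S2257

open Cfsg.Agent.Helper9

theorem result (p : ℕ) (hp : p.Prime) {F : Type*} [Field F] [Fintype F]
    (hF : Fintype.card F = 2 ^ p) (x : Matrix.ProjectiveSpecialLinearGroup (Fin 2) F) :
    (orderOf x = 2 → Nat.card {y : Matrix.ProjectiveSpecialLinearGroup (Fin 2) F // Group.IsSolvable ↥(Subgroup.closure ({x, y} : Set (Matrix.ProjectiveSpecialLinearGroup (Fin 2) F)))} = 3 * 2 ^ p * (2 ^ p - 1)) ∧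
    (x ≠ 1 → orderOf x ∣ 2 ^ p - 1 → Nat.card {y : Matrix.ProjectiveSpecialLinearGroup (Fin 2) F // Group.IsSolvable ↥(Subgroup.closure ({x, y} : Set (Matrix.ProjectiveSpecialLinearGroup (Fin 2) F)))} = 2 * 2 ^ p * (2 ^ p - 1)) ∧
    (x ≠ 1 → orderOf x ∣ 2 ^ p + 1 → Nat.card {y : Matrix.ProjectiveSpecialLinearGroup (Fin 2) F // Group.IsSolvable ↥(Subgroup.closure ({x, y} : Set (Matrix.ProjectiveSpecialLinearGroup (Fin 2) F)))} = 2 * (2 ^ p + 1)) := by
  have heven : Fintype.card F % 2 = 0 := by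
    rw [hF]
    obtain ⟨m, hm⟩ : ∃ m, p = m + 1 := ⟨p - 1, by have := hp.pos; omega⟩
    rw [hm, pow_succ]
    omega
  haveI : CharP F 2 := ringChar.of_eq (FiniteField.even_card_iff_char_two.mpr heven)
  have h4 : 4 ≤ Fintype.card F := by
    rw [hF]
    calc 4 = 2 ^ 2 := by norm_num
      _ ≤ 2 ^ p := Nat.pow_le_pow_right (by norm_num) hp.two_le
  have hsub : ∀ q₁ r : ℕ, 4 ≤ q₁ → Fintype.card F = q₁ ^ r → r = 1 := fun q₁ r hq h =>
    prime_pow_eq_pow_h9 2 p q₁ r Nat.prime_two hp (by omega) (by rw [← hF]; exact h)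
  obtain ⟨-, -, hprop⟩ := psl2_minimal_of_list_h9 (F := F) (Or.inl ⟨p, hp, hF⟩)
  have hns : ¬ Group.IsSolvable (Matrix.ProjectiveSpecialLinearGroup (Fin 2) F) :=
    psl2_not_solvable_h9 (by rw [Nat.card_eq_fintype_card]; exact h4)
  have hsol : ∀ K : Subgroup (Matrix.ProjectiveSpecialLinearGroup (Fin 2) F),
      Group.IsSolvable K ↔ K ≠ ⊤ := by
    intro K
    constructor
    · rintro h rfl
      exact hns (solvable_of_equiv_h9 Subgroup.topEquiv.symm h)
    · exact hprop K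
  have hcount : ∀ x : Matrix.ProjectiveSpecialLinearGroup (Fin 2) F,
      Nat.card {y : Matrix.ProjectiveSpecialLinearGroup (Fin 2) F // Group.IsSolvable
        ↥(Subgroup.closure ({x, y} : Set (Matrix.ProjectiveSpecialLinearGroup (Fin 2) F)))}
      = Nat.card {y : Matrix.ProjectiveSpecialLinearGroup (Fin 2) F //
        Subgroup.closure ({x, y} : Set (Matrix.ProjectiveSpecialLinearGroup (Fin 2) F)) ≠ ⊤} :=
    fun x => Nat.card_congr (Equiv.subtypeEquivRight (fun y => hsol _))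
  refine ⟨fun ho => ?_, fun hx1 ho => ?_, fun hx1 ho => ?_⟩
  · rw [hcount, ← hF]
    exact invol_sol_card_h9 h4 hsub x ho
  · rw [hcount, ← hF]
    exact split_sol_card_h9 h4 hsub x hx1 (by rw [hF]; exact ho)
  · rw [hcount, ← hF]
    exact nonsplit_sol_card_h9 h4 hsub x hx1 (by rw [hF]; exact ho)

end Cfsg.Agent.S2257
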