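import Cfsg.Statements.S2258
import Cfsg.Agent.Helper9.Sc6

set_option autoImplicit false
open Cfsg

namespace Cfsg.Agent.S2258

open Cfsg.Agent.Helper9

theorem result (p : ℕ) (hp : p.Prime) (hodd : Odd p) {F : Type*} [Field F] [Fintype F]
    (hF : Fintype.card F = 3 ^ p) (x : Matrix.ProjectiveSpecialLinearGroup (Fin 2) F) :
    (orderOf x = 2 → Nat.card {y : Matrix.ProjectiveSpecialLinearGroup (Fin 2) F // Group.IsSolvable ↥(Subgroup.closure ({x, y} : Set (Matrix.ProjectiveSpecialLinearGroup (Fin 2) F)))} = 3 ^ p * (3 ^ p + 1)) ∧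
    (orderOf x = 3 → 2 * Nat.card {y : Matrix.ProjectiveSpecialLinearGroup (Fin 2) F // Group.IsSolvable ↥(Subgroup.closure ({x, y} : Set (Matrix.ProjectiveSpecialLinearGroup (Fin 2) F)))} = 3 ^ p * (3 ^ p + 5)) ∧
    (x ≠ 1 → orderOf x ≠ 2 → orderOf x ∣ 3 ^ p - 1 → Nat.card {y : Matrix.ProjectiveSpecialLinearGroup (Fin 2) F // Group.IsSolvable ↥(Subgroup.closure ({x, y} : Set (Matrix.ProjectiveSpecialLinearGroup (Fin 2) F)))} = 3 ^ p * (3 ^ p - 1)) ∧
    (x ≠ 1 → orderOf x ≠ 2 → orderOf x ∣ 3 ^ p + 1 → Nat.card {y : Matrix.ProjectiveSpecialLinearGroup (Fin 2) F // Group.IsSolvable ↥(Subgroup.closure ({x, y} : Set (Matrix.ProjectiveSpecialLinearGroup (Fin 2) F)))} = 3 ^ p + 1) := by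
  have hodd' : p % 2 = 1 := Nat.odd_iff.mp hodd
  have hq : Fintype.card F % 240 = 3 ∨ Fintype.card F % 240 = 27 := by
    rw [hF]; exact three_pow_odd_240_h9 p hodd'
  haveI : Fact (Nat.Prime 3) := ⟨Nat.prime_three⟩
  haveI : CharP F 3 := charP_of_card_eq_prime_pow hF
  have h4 : 4 ≤ Fintype.card F := by
    rw [hF]
    calc 4 ≤ 3 ^ 2 := by norm_num
      _ ≤ 3 ^ p := Nat.pow_le_pow_right (by norm_num) hp.two_le
  have hsub : ∀ q₁ r : ℕ, 4 ≤ q₁ → Fintype.card F = q₁ ^ r → r = 1 := fun q₁ r hq4 h =>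
    prime_pow_eq_pow_h9 3 p q₁ r Nat.prime_three hp (by omega) (by rw [← hF]; exact h)
  obtain ⟨-, -, hprop⟩ := psl2_minimal_of_list_h9 (F := F)
    (Or.inr (Or.inl ⟨p, hp, by omega, hF⟩))
  have hns : ¬ Group.IsSolvable (Matrix.ProjectiveSpecialLinearGroup (Fin 2) F) :=
    psl2_not_solvable_h9 (by rw [Nat.card_eq_fintype_card]; exact h4)
  have hsol : ∀ K : Subgroup (Matrix.ProjectiveSpecialLinearGroup (Fin 2) F),
      Group.IsSolvable K ↔ K ≠ ⊤ := by
    intro K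
    constructor
    · rintro h rfl
      exact hns (solvable_of_equiv_h9 Subgroup.topEquiv.symm h)
    · exact hprop K
  have hcount : ∀ x : Matrix.ProjectiveSpecialLinearGroup (Fin 2) F,
      Nat.card {y : Matrix.ProjectiveSpecialLinearGroup (Fin 2) F // Group.IsSolvable
        ↥(Subgroup.closure ({x, y} : Set (Matrix.ProjectiveSpecialLinearGroup (Fin 2) F)))}
      = Nat.card {y : Matrix.ProjectiveSpecialLinearGroup (Fin 2) F //
        Subgroup.closure ({x, y} : Set (Matrix.ProjectiveSpecialLinearGroup (Fin 2) F)) ≠ ⊤} :=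
    fun x => Nat.card_congr (Equiv.subtypeEquivRight (fun y => hsol _))
  refine ⟨fun ho => ?_, fun ho => ?_, fun hx1 hx2 ho => ?_, fun hx1 hx2 ho => ?_⟩
  · rw [hcount, ← hF]
    exact invol3_sol_card_h9 h4 hq hsub x ho
  · rw [hcount, ← hF]
    exact unip3_sol_card_h9 h4 hq hsub x ho
  · rw [hcount, ← hF]
    exact split3_sol_card_h9 h4 hq hsub x hx1 hx2 (by rw [hF]; exact ho)
  · rw [hcount, ← hF]
    exact nonsplit3_sol_card_h9 h4 hq hsub x hx1 hx2 (by rw [hF]; exact ho)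

end Cfsg.Agent.S2258
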