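import Cfsg.Statements.S2268

set_option autoImplicit false
open Cfsg

namespace Cfsg.Agent.S2268

open Subgroup MulAction

theorem result {G : Type*} [Group G] [Finite G] {p : ℕ} [Fact p.Prime]
    (P : Sylow p G) (hP : IsMulCommutative (P : Subgroup G)) (Q : Subgroup G) (hQ : Q ≤ (P : Subgroup G)) :
    Subgroup.normalizer (Q : Set G) =
      (Subgroup.normalizer (Q : Set G) ⊓ Subgroup.normalizer ((P : Subgroup G) : Set G)) ⊔ Subgroup.centralizer (Q : Set G) ∧
    ((Subgroup.centralizer (Q : Set G)).subgroupOf (Subgroup.normalizer (Q : Set G))).index ∣ ((Subgroup.centralizer ((P : Subgroup G) : Set G)).subgroupOf (Subgroup.normalizer ((P : Subgroup G) : Set G))).index := by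
  -- basic facts
  have hcomm : ∀ x ∈ (P : Subgroup G), ∀ y ∈ (P : Subgroup G), x * y = y * x := by
    intro x hx y hy
    have := hP.is_comm.comm (⟨x, hx⟩ : (P : Subgroup G)) ⟨y, hy⟩
    exact congrArg Subtype.val this
  have hCN : Subgroup.centralizer (Q : Set G) ≤ Subgroup.normalizer (Q : Set G) :=
    Subgroup.centralizer_le_normalizer _
  have hPC : (P : Subgroup G) ≤ Subgroup.centralizer (Q : Set G) := by
    intro x hx
    rw [Subgroup.mem_centralizer_iff]
    intro q hq
    exact hcomm q (hQ hq) x hx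
  have hCPCQ : Subgroup.centralizer ((P : Subgroup G) : Set G) ≤ Subgroup.centralizer (Q : Set G) :=
    Subgroup.centralizer_le hQ
  have hCPNP : Subgroup.centralizer ((P : Subgroup G) : Set G) ≤ Subgroup.normalizer ((P : Subgroup G) : Set G) :=
    Subgroup.centralizer_le_normalizer _
  have part1 : Subgroup.normalizer (Q : Set G) =
      (Subgroup.normalizer (Q : Set G) ⊓ Subgroup.normalizer ((P : Subgroup G) : Set G)) ⊔ Subgroup.centralizer (Q : Set G) := by
    apply le_antisymm
    · intro n hn
      -- n • P ≤ C(Q)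
      have h2 : ↑(n • P) ≤ Subgroup.centralizer (Q : Set G) := by
        intro y hy
        rw [Sylow.coe_subgroup_smul] at hy
        obtain ⟨x, hx, rfl⟩ := hy
        rw [Subgroup.mem_centralizer_iff]
        intro q hq
        have hq' : n⁻¹ * q * n ∈ Q := by
          have := (Subgroup.mem_normalizer_iff.mp (Subgroup.inv_mem _ hn) q).mp hq
          simpa using this
        have hc := hcomm (n⁻¹ * q * n) (hQ hq') x hx
        change q * (n * x * n⁻¹) = (n * x * n⁻¹) * q
        calc q * (n * x * n⁻¹) = n * ((n⁻¹ * q * n) * x) * n⁻¹ := by group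
          _ = n * (x * (n⁻¹ * q * n)) * n⁻¹ := by rw [hc]
          _ = n * x * n⁻¹ * q := by group
      obtain ⟨h, hh⟩ :=
        exists_smul_eq (Subgroup.centralizer (Q : Set G)) ((n • P).subtype h2) (P.subtype hPC)
      simp_rw [Sylow.smul_subtype, Subgroup.smul_def, smul_smul] at hh
      have hmem : (h : G) * n ∈ Subgroup.normalizer ((P : Subgroup G) : Set G) :=
        Sylow.smul_eq_iff_mem_normalizer.mp (Sylow.subtype_injective hh)
      have hmemQ : (h : G) * n ∈ Subgroup.normalizer (Q : Set G) :=
        Subgroup.mul_mem _ (hCN h.2) hn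
      have : n = (h : G)⁻¹ * ((h : G) * n) := by group
      rw [this]
      have h3 : (h : G)⁻¹ ∈ (Subgroup.normalizer (Q : Set G) ⊓ Subgroup.normalizer ((P : Subgroup G) : Set G)) ⊔ Subgroup.centralizer (Q : Set G) :=
        Subgroup.mem_sup_right (Subgroup.inv_mem _ h.2)
      have h4 : (h : G) * n ∈ (Subgroup.normalizer (Q : Set G) ⊓ Subgroup.normalizer ((P : Subgroup G) : Set G)) ⊔ Subgroup.centralizer (Q : Set G) :=
        Subgroup.mem_sup_left ⟨hmemQ, hmem⟩
      exact Subgroup.mul_mem _ h3 h4
    · exact sup_le inf_le_left hCN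
  refine ⟨part1, ?_⟩
  -- part 2
  set N := Subgroup.normalizer (Q : Set G) with hN
  set C := Subgroup.centralizer (Q : Set G) with hC
  set A := N ⊓ Subgroup.normalizer ((P : Subgroup G) : Set G) with hA
  have hAN : A ≤ N := inf_le_left
  have hnorm : (C.subgroupOf N).Normal := by
    constructor
    intro c hc n
    rw [Subgroup.mem_subgroupOf] at hc ⊢
    rw [Subgroup.mem_centralizer_iff] at hc ⊢
    intro q hq
    have hn : (n : G) ∈ Subgroup.normalizer (Q : Set G) := n.2
    have hq' : (n : G)⁻¹ * q * n ∈ Q := by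
      have := (Subgroup.mem_normalizer_iff.mp (Subgroup.inv_mem _ hn) q).mp hq
      simpa using this
    have hcq := hc _ hq'
    push_cast
    calc q * ((n : G) * c * (n : G)⁻¹) = n * (((n : G)⁻¹ * q * n) * c) * (n : G)⁻¹ := by group
      _ = n * (c * ((n : G)⁻¹ * q * n)) * (n : G)⁻¹ := by rw [hcq]
      _ = (n : G) * c * (n : G)⁻¹ * q := by group
  have htop : A.subgroupOf N ⊔ C.subgroupOf N = ⊤ := by
    rw [← Subgroup.subgroupOf_sup hAN hCN, ← part1]
    exact Subgroup.subgroupOf_self N
  have e1 : (C.subgroupOf N).index = C.relIndex A := by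
    rw [← Subgroup.relIndex_top_right, ← htop, Subgroup.relIndex_sup_right,
      Subgroup.relIndex_subgroupOf hAN]
  have hCPA : Subgroup.centralizer ((P : Subgroup G) : Set G) ≤ C ⊓ A :=
    le_inf hCPCQ (le_inf (hCPCQ.trans hCN) hCPNP)
  have e2 : C.relIndex A ∣ (Subgroup.centralizer ((P : Subgroup G) : Set G)).relIndex A := by
    rw [← Subgroup.inf_relIndex_right C A]
    exact Subgroup.relIndex_dvd_of_le_left A hCPA
  have e3 : (Subgroup.centralizer ((P : Subgroup G) : Set G)).relIndex A ∣
      (Subgroup.centralizer ((P : Subgroup G) : Set G)).relIndex (Subgroup.normalizer ((P : Subgroup G) : Set G)) := by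
    have := Subgroup.relIndex_mul_relIndex (Subgroup.centralizer ((P : Subgroup G) : Set G)) A
      (Subgroup.normalizer ((P : Subgroup G) : Set G)) (hCPA.trans inf_le_right) inf_le_right
    exact Dvd.intro _ this
  rw [e1]
  exact e2.trans e3

end Cfsg.Agent.S2268
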