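import Cfsg.Statements.S2269

set_option autoImplicit false
open Cfsg

namespace Cfsg.Agent.S2269

open Subgroup MulAction Equiv

/-- the centralizer of a subgroup is normal in its normalizer -/
theorem cent_normal_in_norm {G : Type*} [Group G] (Q : Subgroup G) :
    ((Subgroup.centralizer (Q : Set G)).subgroupOf (Subgroup.normalizer (Q : Set G))).Normal := by
  constructor
  intro c hc n
  rw [Subgroup.mem_subgroupOf] at hc ⊢
  rw [Subgroup.mem_centralizer_iff] at hc ⊢
  intro q hq
  have hn : (n : G) ∈ Subgroup.normalizer (Q : Set G) := n.2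
  have hq' : (n : G)⁻¹ * q * n ∈ Q := by
    have := (Subgroup.mem_normalizer_iff.mp (Subgroup.inv_mem _ hn) q).mp hq
    simpa using this
  have hcq := hc _ hq'
  push_cast
  calc q * ((n : G) * c * (n : G)⁻¹) = n * (((n : G)⁻¹ * q * n) * c) * (n : G)⁻¹ := by group
    _ = n * (c * ((n : G)⁻¹ * q * n)) * (n : G)⁻¹ := by rw [hcq]
    _ = (n : G) * c * (n : G)⁻¹ * q := by group

/-- general principle: if an element `x ≠ x⁻¹` of an abelian Sylow subgroup is conjugate to its inverse,
then `N(P)/C(P)` has even order. -/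
theorem even_index_of_real {G : Type*} [Group G] [Finite G] {p : ℕ} [Fact p.Prime]
    (P : Sylow p G) (hP : IsMulCommutative (P : Subgroup G)) (x : G) (hx : x ∈ P)
    (hne : x ≠ x⁻¹) (hconj : IsConj x x⁻¹) :
    2 ∣ ((Subgroup.centralizer ((P : Subgroup G) : Set G)).subgroupOf
      (Subgroup.normalizer ((P : Subgroup G) : Set G))).index := by
  obtain ⟨g', hg'⟩ := isConj_iff.mp hconj
  have hy : (g'⁻¹)⁻¹ * x * g'⁻¹ ∈ P := by
    rw [inv_inv, hg']
    exact Subgroup.inv_mem _ hx
  have hP' : IsMulCommutative P := hP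
  obtain ⟨m, hm, hmx⟩ := Sylow.conj_eq_normalizer_conj_of_mem P x g'⁻¹ hx hy
  rw [inv_inv, hg'] at hmx
  have hA : m * x⁻¹ = x * m := by
    rw [hmx]; group
  have h1 : m⁻¹ * x⁻¹ * m = x := by
    calc m⁻¹ * x⁻¹ * m = (m⁻¹ * x * m)⁻¹ := by group
      _ = x⁻¹⁻¹ := by rw [← hmx]
      _ = x := inv_inv x
  have hB : m * x = x⁻¹ * m := by
    calc m * x = m * (m⁻¹ * x⁻¹ * m) := by rw [h1]
      _ = x⁻¹ * m := by group
  have hm2 : Commute (m ^ 2) x := by
    show m ^ 2 * x = x * m ^ 2
    rw [pow_two, mul_assoc, hB, ← mul_assoc, hA, mul_assoc]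
  have hkey : ∀ k : ℕ, Commute (m ^ k) x → Even k := by
    intro k hk
    by_contra hodd
    rw [Nat.not_even_iff_odd] at hodd
    obtain ⟨j, rfl⟩ := hodd
    have h1 : Commute ((m ^ 2) ^ j) x := hm2.pow_left j
    have h2 : Commute (m ^ (2 * j + 1) * ((m ^ 2) ^ j)⁻¹) x := hk.mul_left h1.inv_left
    have h3 : m ^ (2 * j + 1) * ((m ^ 2) ^ j)⁻¹ = m := by
      rw [← pow_mul, pow_succ]; group
    rw [h3] at h2
    apply hne
    rw [hmx]
    have : m * x = x * m := h2
    calc x = m⁻¹ * (m * x) := by group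
      _ = m⁻¹ * x * m := by rw [this]; group
  have hnormal := cent_normal_in_norm (P : Subgroup G)
  set N := Subgroup.normalizer ((P : Subgroup G) : Set G) with hN
  set C' := (Subgroup.centralizer ((P : Subgroup G) : Set G)).subgroupOf N with hC'
  let m' : N := ⟨m, hm⟩
  have ho : (m' ^ orderOf (QuotientGroup.mk m' : N ⧸ C')) ∈ C' := by
    rw [← QuotientGroup.eq_one_iff, QuotientGroup.mk_pow]
    exact pow_orderOf_eq_one _
  have hcomm : Commute (m ^ orderOf (QuotientGroup.mk m' : N ⧸ C')) x := by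
    have ho' : (m' ^ orderOf (QuotientGroup.mk m' : N ⧸ C')) ∈
        (Subgroup.centralizer ((P : Subgroup G) : Set G)).subgroupOf N := ho
    rw [Subgroup.mem_subgroupOf, Subgroup.mem_centralizer_iff] at ho'
    have := ho' x hx
    show m ^ orderOf (QuotientGroup.mk m' : N ⧸ C') * x = x * m ^ orderOf (QuotientGroup.mk m' : N ⧸ C')
    simpa [m'] using this.symm
  have heven := hkey _ hcomm
  have h2 : 2 ∣ orderOf (QuotientGroup.mk m' : N ⧸ C') := heven.two_dvd
  exact h2.trans (orderOf_dvd_natCard _)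

/-- odd `p`: either `N/C` has even order or `P` is cyclic -/
theorem caseA (n : ℕ) {p : ℕ} [Fact p.Prime] (hp : p ≠ 2)
    (P : Sylow p (alternatingGroup (Fin n))) (hP : IsMulCommutative (P : Subgroup (alternatingGroup (Fin n)))) :
    2 ∣ ((Subgroup.centralizer ((P : Subgroup (alternatingGroup (Fin n))) : Set (alternatingGroup (Fin n)))).subgroupOf (Subgroup.normalizer ((P : Subgroup (alternatingGroup (Fin n))) : Set (alternatingGroup (Fin n))))).index ∨ IsCyclic (P : Subgroup (alternatingGroup (Fin n))) := by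
  have hpr : p.Prime := Fact.out
  rcases (P.isPGroup').card_eq_or_dvd with h1 | hdvd
  · right
    have : Subsingleton (P : Subgroup (alternatingGroup (Fin n))) :=
      (Nat.card_eq_one_iff_unique.mp h1).1
    exact isCyclic_of_subsingleton
  obtain ⟨x, hx⟩ := exists_prime_orderOf_dvd_card' p hdvd
  set σ : Perm (Fin n) := ((x : alternatingGroup (Fin n)) : Perm (Fin n)) with hσdef
  have hσ : orderOf σ = p := by
    rw [hσdef, Subgroup.orderOf_coe, Subgroup.orderOf_coe, hx]
  have hσne : σ ≠ σ⁻¹ := by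
    intro hxx
    have hsq : σ ^ 2 = 1 := by
      rw [pow_two]
      nth_rewrite 2 [hxx]
      exact mul_inv_cancel σ
    have h2 : orderOf σ ∣ 2 := orderOf_dvd_of_pow_eq_one hsq
    rw [hσ] at h2
    exact hp ((Nat.prime_dvd_prime_iff_eq hpr Nat.prime_two).mp h2)
  obtain ⟨k, hk⟩ := Equiv.Perm.cycleType_prime_order (σ := σ) (by rw [hσ]; exact hpr)
  rw [hσ] at hk
  by_cases hcent : Subgroup.centralizer {σ} ≤ alternatingGroup (Fin n)
  · right
    rw [Equiv.Perm.centralizer_le_alternating_iff] at hcent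
    obtain ⟨_, hcard, hcount⟩ := hcent
    have hk0 : k = 0 := by
      have := hcount p
      rw [hk, Multiset.count_replicate_self] at this
      omega
    subst hk0
    simp only [zero_add, Multiset.replicate_one] at hk
    have hnp : n ≤ p + 1 := by
      rw [hk] at hcard; simpa using hcard
    have hcardC : Nat.card (Subgroup.centralizer {σ}) = p := by
      rw [Equiv.Perm.nat_card_centralizer, hk]
      have : n - p = 0 ∨ n - p = 1 := by omega
      rcases this with h | h <;> simp [h]
    have hle : (P : Subgroup (alternatingGroup (Fin n))).map (alternatingGroup (Fin n)).subtype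
        ≤ Subgroup.centralizer {σ} := by
      rintro _ ⟨y, hy, rfl⟩
      rw [Subgroup.mem_centralizer_iff]
      intro z hz
      rw [Set.mem_singleton_iff] at hz
      subst hz
      have h1 := hP.is_comm.comm (⟨y, hy⟩ : (P : Subgroup (alternatingGroup (Fin n)))) x
      have h2 := congrArg (fun t : (P : Subgroup (alternatingGroup (Fin n))) =>
        ((t : alternatingGroup (Fin n)) : Perm (Fin n))) h1
      simpa using h2.symm
    have hdvd2 : Nat.card (P : Subgroup (alternatingGroup (Fin n))) ∣ p := by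
      rw [← Subgroup.card_subtype]
      have := Subgroup.card_dvd_of_le hle
      rwa [hcardC] at this
    have hcardP : Nat.card (P : Subgroup (alternatingGroup (Fin n))) = p := by
      rcases (Nat.dvd_prime hpr).mp hdvd2 with h | h
      · exfalso
        rw [h] at hdvd
        exact hpr.one_lt.ne' (Nat.dvd_one.mp hdvd)
      · exact h
    exact isCyclic_of_prime_card hcardP
  · left
    rw [SetLike.not_le_iff_exists] at hcent
    obtain ⟨h, hh, hhalt⟩ := hcent
    have hsign : Perm.sign h = -1 := by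
      rcases Int.units_eq_one_or (Perm.sign h) with h1 | h1
      · exact absurd (Perm.mem_alternatingGroup.mpr h1) hhalt
      · exact h1
    have hconjS : IsConj σ σ⁻¹ := by
      rw [Equiv.Perm.isConj_iff_cycleType_eq, Equiv.Perm.cycleType_inv]
    obtain ⟨g, hg⟩ := isConj_iff.mp hconjS
    have hcomm : h * σ = σ * h := (Subgroup.mem_centralizer_iff.mp hh σ rfl).symm
    obtain ⟨g', hg'sign, hg'⟩ : ∃ g' : Perm (Fin n), Perm.sign g' = 1 ∧ g' * σ * g'⁻¹ = σ⁻¹ := by
      rcases Int.units_eq_one_or (Perm.sign g) with h1 | h1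
      · exact ⟨g, h1, hg⟩
      · refine ⟨g * h, by simp [h1, hsign], ?_⟩
        calc g * h * σ * (g * h)⁻¹ = g * (h * σ) * h⁻¹ * g⁻¹ := by group
          _ = g * (σ * h) * h⁻¹ * g⁻¹ := by rw [hcomm]
          _ = g * σ * g⁻¹ := by group
          _ = σ⁻¹ := hg
    apply even_index_of_real P hP (x : alternatingGroup (Fin n)) x.2
    · intro hxx
      apply hσne
      have := congrArg Subtype.val hxx
      simpa using this
    · rw [isConj_iff]
      refine ⟨⟨g', Perm.mem_alternatingGroup.mpr hg'sign⟩, ?_⟩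
      apply Subtype.ext
      simpa using hg'

/-- embedding of `Perm (Fin 6)` into `Perm (Fin n)` for `6 + k = n` -/
noncomputable def emb (k n : ℕ) (h : 6 + k = n) : Perm (Fin 6) →* Perm (Fin n) :=
  ((finSumFinEquiv.trans (finCongr h)).permCongrHom.toMonoidHom).comp
    ((Perm.sumCongrHom (Fin 6) (Fin k)).comp (MonoidHom.prod (MonoidHom.id _) 1))

theorem emb_injective (k n : ℕ) (h : 6 + k = n) : Function.Injective (emb k n h) := by
  unfold emb
  rw [MonoidHom.coe_comp, MonoidHom.coe_comp]
  refine (MulEquiv.injective _).comp (Perm.sumCongrHom_injective.comp ?_)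
  intro a b hab
  exact congrArg Prod.fst hab

theorem emb_sign (k n : ℕ) (h : 6 + k = n) (σ : Perm (Fin 6)) :
    Perm.sign (emb k n h σ) = Perm.sign σ := by
  unfold emb
  simp only [MonoidHom.coe_comp, Function.comp_apply, MonoidHom.prod_apply, MonoidHom.id_apply,
    MonoidHom.one_apply, Perm.sumCongrHom_apply, MulEquiv.coe_toMonoidHom]
  erw [Perm.sign_permCongr]
  rw [Perm.sign_sumCongr]
  simp

def r6 : Perm (Fin 6) := swap 0 1 * swap 1 2 * swap 2 3 * swap 4 5
def s6 : Perm (Fin 6) := swap 0 2 * swap 4 5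

theorem r6_sign : Perm.sign r6 = 1 := by
  simp [r6, Perm.sign_swap']
theorem s6_sign : Perm.sign s6 = 1 := by
  simp [s6, Perm.sign_swap']
theorem r6_pow : r6 ^ 4 = 1 := by decide
theorem s6_pow : s6 ^ 2 = 1 := by decide
theorem s6_r6 : s6 * r6 * s6⁻¹ = r6⁻¹ := by decide
theorem r6_s6_ne : r6 * s6 ≠ s6 * r6 := by decide

/-- a Sylow 2-subgroup of `A_n`, `n ≥ 6`, is not abelian -/
theorem caseB2 (n : ℕ) (hn : 6 ≤ n)
    (P : Sylow 2 (alternatingGroup (Fin n))) (hP : IsMulCommutative (P : Subgroup (alternatingGroup (Fin n)))) :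
    False := by
  have h : 6 + (n - 6) = n := by omega
  let R : alternatingGroup (Fin n) := ⟨emb (n - 6) n h r6,
    Perm.mem_alternatingGroup.mpr (by rw [emb_sign, r6_sign])⟩
  let S : alternatingGroup (Fin n) := ⟨emb (n - 6) n h s6,
    Perm.mem_alternatingGroup.mpr (by rw [emb_sign, s6_sign])⟩
  have hR4 : R ^ 4 = 1 := by
    apply Subtype.ext
    simp only [R, Subgroup.coe_pow, Subgroup.coe_one]
    rw [← map_pow, r6_pow, map_one]
  have hS2 : S ^ 2 = 1 := by
    apply Subtype.ext
    simp only [S, Subgroup.coe_pow, Subgroup.coe_one]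
    rw [← map_pow, s6_pow, map_one]
  have hSR : S * R * S⁻¹ = R⁻¹ := by
    apply Subtype.ext
    simp only [S, R, Subgroup.coe_mul, Subgroup.coe_inv]
    rw [← map_inv, ← map_mul, ← map_mul, s6_r6, map_inv]
  have hRS : R * S ≠ S * R := by
    intro hc
    have := congrArg Subtype.val hc
    simp only [S, R, Subgroup.coe_mul] at this
    rw [← map_mul, ← map_mul] at this
    exact r6_s6_ne (emb_injective _ _ h this)
  have hpR : IsPGroup 2 (Subgroup.zpowers R) := by
    have hdvd : orderOf R ∣ 2 ^ 2 := orderOf_dvd_of_pow_eq_one hR4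
    obtain ⟨m, -, hm⟩ := (Nat.dvd_prime_pow Nat.prime_two).mp hdvd
    exact IsPGroup.of_card (n := m) (by rw [Nat.card_zpowers, hm])
  have hpS : IsPGroup 2 (Subgroup.zpowers S) := by
    have hdvd : orderOf S ∣ 2 ^ 1 := orderOf_dvd_of_pow_eq_one hS2
    obtain ⟨m, -, hm⟩ := (Nat.dvd_prime_pow Nat.prime_two).mp hdvd
    exact IsPGroup.of_card (n := m) (by rw [Nat.card_zpowers, hm])
  have hnorm : Subgroup.zpowers S ≤ Subgroup.normalizer (Subgroup.zpowers R : Set (alternatingGroup (Fin n))) := by
    rw [Subgroup.zpowers_le]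
    apply Subgroup.mem_normalizer_fintype
    rintro _ ⟨j, rfl⟩
    have : S * R ^ j * S⁻¹ = (R⁻¹) ^ j := by
      rw [← hSR]
      simp [conj_zpow]
    rw [this]
    exact Subgroup.zpow_mem _ (Subgroup.inv_mem _ (Subgroup.mem_zpowers R)) j
  have hpSR := IsPGroup.to_sup_of_normal_right' hpS hpR hnorm
  obtain ⟨Q, hQ⟩ := hpSR.exists_le_sylow
  obtain ⟨g, rfl⟩ := MulAction.exists_smul_eq (alternatingGroup (Fin n)) P Q
  have hRQ : R ∈ ((g • P : Sylow 2 (alternatingGroup (Fin n))) : Subgroup (alternatingGroup (Fin n))) :=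
    hQ (Subgroup.mem_sup_right (Subgroup.mem_zpowers R))
  have hSQ : S ∈ ((g • P : Sylow 2 (alternatingGroup (Fin n))) : Subgroup (alternatingGroup (Fin n))) :=
    hQ (Subgroup.mem_sup_left (Subgroup.mem_zpowers S))
  rw [Sylow.coe_subgroup_smul, Subgroup.mem_pointwise_smul_iff_inv_smul_mem] at hRQ hSQ
  have hc := hP.is_comm.comm (⟨_, hRQ⟩ : (P : Subgroup (alternatingGroup (Fin n)))) ⟨_, hSQ⟩
  have hc' := congrArg Subtype.val hc
  simp only [Subgroup.coe_mul, MulAut.smul_def, MulAut.conj_inv_apply] at hc'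
  apply hRS
  calc R * S = g * ((g⁻¹ * R * g) * (g⁻¹ * S * g)) * g⁻¹ := by group
    _ = g * ((g⁻¹ * S * g) * (g⁻¹ * R * g)) * g⁻¹ := by rw [hc']
    _ = S * R := by group

set_option maxRecDepth 100000 in
theorem no_order_four : ∀ σ : Perm (Fin 5), Perm.sign σ = 1 → σ ^ 4 = 1 → σ ^ 2 = 1 := by decide

theorem card_A5 : Nat.card (alternatingGroup (Fin 5)) = 60 := by
  rw [nat_card_alternatingGroup, Nat.card_fin]
  decide

/-- the case `n = 5`, `p = 2` -/
theorem caseB1 (P : Sylow 2 (alternatingGroup (Fin 5))) :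
    ((Subgroup.centralizer ((P : Subgroup (alternatingGroup (Fin 5))) : Set (alternatingGroup (Fin 5)))).subgroupOf (Subgroup.normalizer ((P : Subgroup (alternatingGroup (Fin 5))) : Set (alternatingGroup (Fin 5))))).index = 3 ∧ IsKleinFour (P : Subgroup (alternatingGroup (Fin 5))) := by
  have hsimple : IsSimpleGroup (alternatingGroup (Fin 5)) :=
    alternatingGroup.isSimpleGroup (by simp)
  have hG := card_A5
  -- card P = 4
  have hcardP : Nat.card (P : Subgroup (alternatingGroup (Fin 5))) = 4 := by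
    obtain ⟨k, hk⟩ := IsPGroup.iff_card.mp P.isPGroup'
    have h1 := (P : Subgroup (alternatingGroup (Fin 5))).card_mul_index
    have h2 := P.not_dvd_index
    rw [hG, hk] at h1
    have hk5 : k ≤ 5 := by
      by_contra hk5
      have : 2 ^ 6 ≤ 2 ^ k := Nat.pow_le_pow_right (by norm_num) (by omega)
      have hpos : 0 < (P : Subgroup (alternatingGroup (Fin 5))).index := by
        rcases Nat.eq_zero_or_pos (P : Subgroup (alternatingGroup (Fin 5))).index with h0 | h0
        · rw [h0] at h1; omega
        · exact h0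
      nlinarith
    rw [hk]
    interval_cases k <;> omega
  -- exponent
  have hsq : ∀ x : (P : Subgroup (alternatingGroup (Fin 5))), x ^ 2 = 1 := by
    intro x
    have h4 : x ^ 4 = 1 := by
      rw [← hcardP]; exact pow_card_eq_one'
    have h4' : ((x : alternatingGroup (Fin 5)) : Perm (Fin 5)) ^ 4 = 1 := by
      have := congrArg (fun t : (P : Subgroup (alternatingGroup (Fin 5))) =>
        ((t : alternatingGroup (Fin 5)) : Perm (Fin 5))) h4
      simpa using this
    have h2 := no_order_four _ (Perm.mem_alternatingGroup.mp (x : alternatingGroup (Fin 5)).2) h4'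
    apply Subtype.ext
    apply Subtype.ext
    simpa using h2
  have hK4 : IsKleinFour (P : Subgroup (alternatingGroup (Fin 5))) := by
    refine ⟨hcardP, ?_⟩
    have hd : Monoid.exponent (P : Subgroup (alternatingGroup (Fin 5))) ∣ 2 :=
      Monoid.exponent_dvd_of_forall_pow_eq_one hsq
    rcases (Nat.dvd_prime Nat.prime_two).mp hd with h | h
    · exfalso
      rw [Monoid.exp_eq_one_iff] at h
      have := Nat.card_eq_one_iff_unique.mpr ⟨h, ⟨1⟩⟩
      omega
    · exact h
  refine ⟨?_, hK4⟩
  have hPcomm : ∀ x ∈ (P : Subgroup (alternatingGroup (Fin 5))), ∀ y ∈ (P : Subgroup (alternatingGroup (Fin 5))), x * y = y * x := by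
    intro x hx y hy
    have hx2 := congrArg Subtype.val (hsq ⟨x, hx⟩)
    have hy2 := congrArg Subtype.val (hsq ⟨y, hy⟩)
    have hxy2 := congrArg Subtype.val (hsq (⟨x, hx⟩ * ⟨y, hy⟩))
    simp only [Subgroup.coe_pow, Subgroup.coe_one, Subgroup.coe_mul] at hx2 hy2 hxy2
    have hxi : x⁻¹ = x := by
      rw [inv_eq_iff_mul_eq_one, ← pow_two]; exact hx2
    have hyi : y⁻¹ = y := by
      rw [inv_eq_iff_mul_eq_one, ← pow_two]; exact hy2
    have : (x * y)⁻¹ = x * y := by
      rw [inv_eq_iff_mul_eq_one, ← pow_two]; exact hxy2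
    rw [mul_inv_rev, hxi, hyi] at this
    exact this.symm
  set N := Subgroup.normalizer ((P : Subgroup (alternatingGroup (Fin 5))) : Set (alternatingGroup (Fin 5))) with hN
  set C := Subgroup.centralizer ((P : Subgroup (alternatingGroup (Fin 5))) : Set (alternatingGroup (Fin 5))) with hC
  have hCN : C ≤ N := Subgroup.centralizer_le_normalizer _
  have hPC : (P : Subgroup (alternatingGroup (Fin 5))) ≤ C := by
    intro x hx
    rw [hC, Subgroup.mem_centralizer_iff]
    intro y hy
    exact hPcomm y hy x hx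
  show C.relIndex N = 3
  set k := C.relIndex N with hk
  -- numerical facts
  have e1 : k * N.index = C.index := Subgroup.relIndex_mul_index hCN
  have e2 : Nat.card C * C.index = 60 := by rw [Subgroup.card_mul_index, hG]
  have e3 : Nat.card N * N.index = 60 := by rw [Subgroup.card_mul_index, hG]
  have e4 : (4 : ℕ) ∣ Nat.card C := by
    rw [← hcardP]; exact Subgroup.card_dvd_of_le hPC
  -- k ≠ 1
  have hk1 : k ≠ 1 := by
    intro h1
    have hNC : N ≤ C := Subgroup.relIndex_eq_one.mp h1
    have hcomp := MonoidHom.ker_transferSylow_isComplement' P hNC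
    have hnormal : (MonoidHom.transferSylow P hNC).ker.Normal := inferInstance
    have hcm := hcomp.card_mul_card
    rw [hcardP, hG] at hcm
    rcases hnormal.eq_bot_or_eq_top with h | h
    · rw [h, Subgroup.card_bot] at hcm; omega
    · rw [h, Subgroup.card_top, hG] at hcm; omega
  -- N.index ∉ {1, 3}
  have hN1 : N.index ≠ 1 := by
    intro h1
    have htop : N = ⊤ := Subgroup.index_eq_one.mp h1
    have hnormal : (P : Subgroup (alternatingGroup (Fin 5))).Normal :=
      Subgroup.normalizer_eq_top_iff.mp htop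
    rcases hnormal.eq_bot_or_eq_top with h | h
    · rw [h, Subgroup.card_bot] at hcardP; omega
    · rw [h, Subgroup.card_top, hG] at hcardP; omega
  have hN3 : N.index ≠ 3 := by
    intro h3
    have hcore : N.normalCore = ⊥ := by
      rcases (N.normalCore_normal).eq_bot_or_eq_top with h | h
      · exact h
      · exfalso
        have : N = ⊤ := top_le_iff.mp (h ▸ N.normalCore_le)
        exact hN1 (Subgroup.index_eq_one.mpr this)
    have h : N.normalCore.index ∣ N.index.factorial := by
      rw [Subgroup.normalCore_eq_ker, Subgroup.index_ker, Subgroup.index_eq_card, ← Nat.card_perm]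
      exact Subgroup.card_subgroup_dvd_card (MulAction.toPermHom _ (_ ⧸ N)).range
    rw [hcore, Subgroup.index_bot, hG, h3] at h
    revert h
    decide
  -- conclude
  have hNidx : N.index ∣ 60 := Dvd.intro_left _ e3
  have hCidx : C.index ∣ 15 := by
    obtain ⟨c, hc⟩ := e4
    rw [hc] at e2
    exact Dvd.intro_left c (by linarith)
  have hkdvd : k ∣ 15 := (Dvd.intro _ e1).trans hCidx
  have hNidx15 : N.index ∣ 15 := (Dvd.intro_left _ e1).trans hCidx
  have hk15 : k ≤ 15 := Nat.le_of_dvd (by norm_num) hkdvd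
  have hN15 : N.index ≤ 15 := Nat.le_of_dvd (by norm_num) hNidx15
  have hC15 : C.index ≤ 15 := Nat.le_of_dvd (by norm_num) hCidx
  have hkpos : 0 < k := Nat.pos_of_dvd_of_pos hkdvd (by norm_num)
  have hNpos : 0 < N.index := Nat.pos_of_dvd_of_pos hNidx15 (by norm_num)
  generalize N.index = a at *
  generalize C.index = b at *
  clear_value k
  interval_cases k <;> interval_cases a <;> omega

theorem result (n : ℕ) (hn : 5 ≤ n) {p : ℕ} [Fact p.Prime]
    (P : Sylow p (alternatingGroup (Fin n))) (hP : IsMulCommutative (P : Subgroup (alternatingGroup (Fin n)))) :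
    (¬ (n = 5 ∧ p = 2) → 2 ∣ ((Subgroup.centralizer ((P : Subgroup (alternatingGroup (Fin n))) : Set (alternatingGroup (Fin n)))).subgroupOf (Subgroup.normalizer ((P : Subgroup (alternatingGroup (Fin n))) : Set (alternatingGroup (Fin n))))).index ∨ IsCyclic (P : Subgroup (alternatingGroup (Fin n)))) ∧
    ((n = 5 ∧ p = 2) → ((Subgroup.centralizer ((P : Subgroup (alternatingGroup (Fin n))) : Set (alternatingGroup (Fin n)))).subgroupOf (Subgroup.normalizer ((P : Subgroup (alternatingGroup (Fin n))) : Set (alternatingGroup (Fin n))))).index = 3 ∧ IsKleinFour (P : Subgroup (alternatingGroup (Fin n)))) := by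
  constructor
  · intro hne
    by_cases hp : p = 2
    · subst hp
      have hn6 : 6 ≤ n := by
        by_contra h
        exact hne ⟨by omega, rfl⟩
      exact (caseB2 n hn6 P hP).elim
    · exact caseA n hp P hP
  · rintro ⟨rfl, rfl⟩
    exact caseB1 P

end Cfsg.Agent.S2269
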