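import Cfsg.Statements.S2270

set_option autoImplicit false
open Cfsg

namespace Cfsg.Agent.S2270

open Subgroup MulAction

/-- the centralizer of a subgroup is normal in its normalizer -/
theorem cent_normal_in_norm {G : Type*} [Group G] (Q : Subgroup G) :
    ((Subgroup.centralizer (Q : Set G)).subgroupOf (Subgroup.normalizer (Q : Set G))).Normal := by
  constructor
  intro c hc n
  rw [Subgroup.mem_subgroupOf] at hc ⊢
  rw [Subgroup.mem_centralizer_iff] at hc ⊢
  intro q hq
  have hn : (n : G) ∈ Subgroup.normalizer (Q : Set G) := n.2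
  have hq' : (n : G)⁻¹ * q * n ∈ Q := by
    have := (Subgroup.mem_normalizer_iff.mp (Subgroup.inv_mem _ hn) q).mp hq
    simpa using this
  have hcq := hc _ hq'
  push_cast
  calc q * ((n : G) * c * (n : G)⁻¹) = n * (((n : G)⁻¹ * q * n) * c) * (n : G)⁻¹ := by group
    _ = n * (c * ((n : G)⁻¹ * q * n)) * (n : G)⁻¹ := by rw [hcq]
    _ = (n : G) * c * (n : G)⁻¹ * q := by group

/-- general principle: if an element `x ≠ x⁻¹` of an abelian Sylow subgroup is conjugate to its inverse,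
then `N(P)/C(P)` has even order. -/
theorem even_index_of_real {G : Type*} [Group G] [Finite G] {p : ℕ} [Fact p.Prime]
    (P : Sylow p G) (hP : IsMulCommutative (P : Subgroup G)) (x : G) (hx : x ∈ P)
    (hne : x ≠ x⁻¹) (hconj : IsConj x x⁻¹) :
    2 ∣ ((Subgroup.centralizer ((P : Subgroup G) : Set G)).subgroupOf
      (Subgroup.normalizer ((P : Subgroup G) : Set G))).index := by
  obtain ⟨g', hg'⟩ := isConj_iff.mp hconj
  have hy : (g'⁻¹)⁻¹ * x * g'⁻¹ ∈ P := by
    rw [inv_inv, hg']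
    exact Subgroup.inv_mem _ hx
  have hP' : IsMulCommutative P := hP
  obtain ⟨m, hm, hmx⟩ := Sylow.conj_eq_normalizer_conj_of_mem P x g'⁻¹ hx hy
  rw [inv_inv, hg'] at hmx
  -- hmx : x⁻¹ = m⁻¹ * x * m
  have hA : m * x⁻¹ = x * m := by
    rw [hmx]; group
  have h1 : m⁻¹ * x⁻¹ * m = x := by
    calc m⁻¹ * x⁻¹ * m = (m⁻¹ * x * m)⁻¹ := by group
      _ = x⁻¹⁻¹ := by rw [← hmx]
      _ = x := inv_inv x
  have hB : m * x = x⁻¹ * m := by
    calc m * x = m * (m⁻¹ * x⁻¹ * m) := by rw [h1]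
      _ = x⁻¹ * m := by group
  have hm2 : Commute (m ^ 2) x := by
    show m ^ 2 * x = x * m ^ 2
    rw [pow_two, mul_assoc, hB, ← mul_assoc, hA, mul_assoc]
  have hkey : ∀ k : ℕ, Commute (m ^ k) x → Even k := by
    intro k hk
    by_contra hodd
    rw [Nat.not_even_iff_odd] at hodd
    obtain ⟨j, rfl⟩ := hodd
    have h1 : Commute ((m ^ 2) ^ j) x := hm2.pow_left j
    have h2 : Commute (m ^ (2 * j + 1) * ((m ^ 2) ^ j)⁻¹) x := hk.mul_left h1.inv_left
    have h3 : m ^ (2 * j + 1) * ((m ^ 2) ^ j)⁻¹ = m := by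
      rw [← pow_mul, pow_succ]; group
    rw [h3] at h2
    apply hne
    rw [hmx]
    have : m * x = x * m := h2
    calc x = m⁻¹ * (m * x) := by group
      _ = m⁻¹ * x * m := by rw [this]; group
  have hnormal := cent_normal_in_norm (P : Subgroup G)
  set N := Subgroup.normalizer ((P : Subgroup G) : Set G) with hN
  set C' := (Subgroup.centralizer ((P : Subgroup G) : Set G)).subgroupOf N with hC'
  let m' : N := ⟨m, hm⟩
  have ho : (m' ^ orderOf (QuotientGroup.mk m' : N ⧸ C')) ∈ C' := by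
    rw [← QuotientGroup.eq_one_iff, QuotientGroup.mk_pow]
    exact pow_orderOf_eq_one _
  have hcomm : Commute (m ^ orderOf (QuotientGroup.mk m' : N ⧸ C')) x := by
    have ho' : (m' ^ orderOf (QuotientGroup.mk m' : N ⧸ C')) ∈
        (Subgroup.centralizer ((P : Subgroup G) : Set G)).subgroupOf N := ho
    rw [Subgroup.mem_subgroupOf, Subgroup.mem_centralizer_iff] at ho'
    have := ho' x hx
    show m ^ orderOf (QuotientGroup.mk m' : N ⧸ C') * x = x * m ^ orderOf (QuotientGroup.mk m' : N ⧸ C')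
    simpa [m'] using this.symm
  have heven := hkey _ hcomm
  have h2 : 2 ∣ orderOf (QuotientGroup.mk m' : N ⧸ C') := heven.two_dvd
  exact h2.trans (orderOf_dvd_natCard _)

theorem result (n : ℕ) (hn : 3 ≤ n) {p : ℕ} [Fact p.Prime] (hp : p ≠ 2) (hpn : p ≤ n)
    (P : Sylow p (Equiv.Perm (Fin n))) (hP : IsMulCommutative (P : Subgroup (Equiv.Perm (Fin n)))) :
    2 ∣ ((Subgroup.centralizer ((P : Subgroup (Equiv.Perm (Fin n))) : Set (Equiv.Perm (Fin n)))).subgroupOf (Subgroup.normalizer ((P : Subgroup (Equiv.Perm (Fin n))) : Set (Equiv.Perm (Fin n))))).index := by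
  have hpr : p.Prime := Fact.out
  have hdvd : p ∣ Nat.card (Equiv.Perm (Fin n)) := by
    rw [Nat.card_eq_fintype_card, Fintype.card_perm, Fintype.card_fin]
    exact Nat.dvd_factorial hpr.pos hpn
  have hne := P.ne_bot_of_dvd_card hdvd
  obtain ⟨⟨x, hx⟩, hx1⟩ := (Subgroup.ne_bot_iff_exists_ne_one).mp hne
  have hx1' : x ≠ 1 := by
    intro h; apply hx1; exact Subtype.ext h
  apply even_index_of_real P hP x hx
  · intro hxx
    have hsq : x ^ 2 = 1 := by
      rw [pow_two]
      nth_rewrite 2 [hxx]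
      exact mul_inv_cancel x
    have h2 : orderOf x ∣ 2 := orderOf_dvd_of_pow_eq_one hsq
    obtain ⟨k, hk⟩ := (IsPGroup.iff_orderOf.mp P.isPGroup') ⟨x, hx⟩
    rw [Subgroup.orderOf_mk] at hk
    rw [hk] at h2
    have hk0 : k = 0 := by
      by_contra hk0
      have : p ∣ 2 := (dvd_pow_self p hk0).trans h2
      exact hp ((Nat.prime_dvd_prime_iff_eq hpr Nat.prime_two).mp this)
    rw [hk0, pow_zero] at hk
    exact hx1' (orderOf_eq_one_iff.mp hk)
  · rw [Equiv.Perm.isConj_iff_cycleType_eq, Equiv.Perm.cycleType_inv]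

end Cfsg.Agent.S2270
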