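import Mathlib
import Cfsg.Statements.S2336
import Cfsg.Agent.Helper14.PermInd
import Cfsg.Agent.Helper14.SLVec


set_option autoImplicit false
open Cfsg

namespace Cfsg.Agent.S2336


open Cfsg.Agent.Helper14

/-- the non-zero vectors. -/
abbrev NZ (n : ℕ) (F : Type*) [Field F] := {v : Fin n → F // v ≠ 0}

section Act
variable {F : Type*} [Field F] [DecidableEq F] {n : ℕ}

theorem inv_mulVec (g : Matrix.SpecialLinearGroup (Fin n) F) (x : Fin n → F) :
    (↑(g⁻¹) : Matrix (Fin n) (Fin n) F).mulVec
      ((g : Matrix (Fin n) (Fin n) F).mulVec x) = x := by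
  rw [Matrix.mulVec_mulVec, ← Matrix.SpecialLinearGroup.coe_mul, inv_mul_cancel,
    Matrix.SpecialLinearGroup.coe_one, Matrix.one_mulVec]

instance actG : MulAction (Matrix.SpecialLinearGroup (Fin n) F) (NZ n F) where
  smul g v := ⟨(g : Matrix (Fin n) (Fin n) F).mulVec v.1, by
    intro h
    apply v.2
    rw [← inv_mulVec g v.1, h, Matrix.mulVec_zero]⟩
  one_smul v := Subtype.ext (by
    show (↑(1 : Matrix.SpecialLinearGroup (Fin n) F) : Matrix (Fin n) (Fin n) F).mulVec v.1 = v.1
    rw [Matrix.SpecialLinearGroup.coe_one, Matrix.one_mulVec])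
  mul_smul g h v := Subtype.ext (by
    show (↑(g * h) : Matrix (Fin n) (Fin n) F).mulVec v.1 =
      (g : Matrix (Fin n) (Fin n) F).mulVec ((h : Matrix (Fin n) (Fin n) F).mulVec v.1)
    rw [Matrix.SpecialLinearGroup.coe_mul, Matrix.mulVec_mulVec])

instance actA : MulAction Fˣ (NZ n F) where
  smul a v := ⟨(a : F) • v.1, smul_ne_zero a.ne_zero v.2⟩
  one_smul v := Subtype.ext (by
    show ((1 : Fˣ) : F) • v.1 = v.1
    rw [Units.val_one, one_smul])
  mul_smul a b v := Subtype.ext (by
    show ((a * b : Fˣ) : F) • v.1 = (a : F) • ((b : F) • v.1)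
    rw [Units.val_mul, mul_smul])

theorem smulG_val (g : Matrix.SpecialLinearGroup (Fin n) F) (v : NZ n F) :
    (g • v).1 = (g : Matrix (Fin n) (Fin n) F).mulVec v.1 := rfl

theorem smulA_val (a : Fˣ) (v : NZ n F) : (a • v).1 = (a : F) • v.1 := rfl

instance actComm : SMulCommClass (Matrix.SpecialLinearGroup (Fin n) F) Fˣ (NZ n F) where
  smul_comm g a v := Subtype.ext (by
    rw [smulG_val, smulA_val, smulA_val, smulG_val, Matrix.mulVec_smul])

end Act


/-- Let F be a finite field with q elements and n ≥ 3. The permutation character of SL_n(F) on the non-zero vectors of F^n (the function sending a matrix to the number of non-zero vectors it fixes) is the sum of the principal character and q − 1 pairwise distinct irreducible complex characters. -/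
theorem result {F : Type*} [Field F] [Fintype F] [DecidableEq F] (n : ℕ) (hn : 3 ≤ n) :
    ∃ χ : Fin (Fintype.card F - 1) → (Matrix.SpecialLinearGroup (Fin n) F → ℂ),
      (∀ i, Cfsg.IsIrrCharacter (Matrix.SpecialLinearGroup (Fin n) F) (χ i)) ∧ Function.Injective χ ∧
      ∀ g : Matrix.SpecialLinearGroup (Fin n) F,
        (Nat.card {v : Fin n → F // v ≠ 0 ∧ (g : Matrix (Fin n) (Fin n) F).mulVec v = v} : ℂ) = 1 + ∑ i, χ i g := by
  classical
  obtain ⟨m, rfl⟩ : ∃ m, n = m + 3 := ⟨n - 3, by omega⟩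
  have he0 : (Pi.single 0 1 : Fin (m + 3) → F) ≠ 0 := by
    intro h
    have := congrFun h 0
    simp at this
  have he1 : (Pi.single 1 1 : Fin (m + 3) → F) ≠ 0 := by
    intro h
    have := congrFun h 1
    simp at this
  let e : NZ (m + 3) F := ⟨Pi.single 0 1, he0⟩
  let w₀ : NZ (m + 3) F := ⟨Pi.single 1 1, he1⟩
  have hfree : ∀ a : Fˣ, a • e = e → a = 1 := by
    intro a ha
    have h1 := congrArg Subtype.val ha
    rw [smulA_val] at h1
    have h2 := congrFun h1 0
    simp [e] at h2
    exact h2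
  -- independence from `e`
  have hind : ∀ w : NZ (m + 3) F, (∀ c : Fˣ, w ≠ c • e) →
      LinearIndependent F ![(Pi.single 0 1 : Fin (m + 3) → F), w.1] := by
    intro w hw
    rw [LinearIndependent.pair_iff' he0]
    intro a ha
    by_cases ha0 : a = 0
    · rw [ha0, zero_smul] at ha
      exact w.2 ha.symm
    · apply hw (Units.mk0 a ha0)
      apply Subtype.ext
      rw [smulA_val]
      exact ha.symm
  have hw₀ : ∀ c : Fˣ, w₀ ≠ c • e := by
    intro c h
    have h1 := congrArg Subtype.val h
    rw [smulA_val] at h1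
    have h2 := congrFun h1 1
    simp [e, w₀] at h2
  have H2 : ∀ w w' : NZ (m + 3) F, (∀ c : Fˣ, w ≠ c • e) → (∀ c : Fˣ, w' ≠ c • e) → ∀ a : Fˣ,
      ∃ h : Matrix.SpecialLinearGroup (Fin (m + 3)) F, h • e = a • e ∧ h • w = w' := by
    intro w w' hw hw' a
    have h1 := hind w hw
    have h2 : LinearIndependent F ![(a : F) • (Pi.single 0 1 : Fin (m + 3) → F), w'.1] := by
      have h3 : (a : F) • (Pi.single 0 1 : Fin (m + 3) → F) ≠ 0 := smul_ne_zero a.ne_zero he0
      rw [LinearIndependent.pair_iff' h3]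
      intro t ht
      by_cases ht0 : t = 0
      · rw [ht0, zero_smul] at ht
        exact w'.2 ht.symm
      · apply hw' (Units.mk0 t ht0 * a)
        apply Subtype.ext
        rw [smulA_val, ← ht, Units.val_mul, Units.val_mk0, mul_smul]
    obtain ⟨g, hg1, hg2⟩ := SLVec.exists_sl m h1 h2
    exact ⟨g, Subtype.ext hg1, Subtype.ext hg2⟩
  have H1 : ∀ x : NZ (m + 3) F, ∃ g : Matrix.SpecialLinearGroup (Fin (m + 3)) F, g • e = x := by
    intro x
    by_cases hx : ∀ c : Fˣ, x ≠ c • e
    · -- move `w₀` to `x` fixing `e`, then swap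
      have hx' : LinearIndependent F ![x.1, (Pi.single 0 1 : Fin (m + 3) → F)] := by
        have := hind x hx
        rw [LinearIndependent.pair_symm_iff] at this
        exact this
      obtain ⟨g, hg1, _⟩ := SLVec.exists_sl m (hind w₀ hw₀) hx'
      exact ⟨g, Subtype.ext hg1⟩
    · push Not at hx
      obtain ⟨c, hc⟩ := hx
      obtain ⟨g, hg1, _⟩ := H2 w₀ w₀ hw₀ hw₀ c
      exact ⟨g, hg1.trans hc.symm⟩
  obtain ⟨χ, h1, h2, h3⟩ := PermInd.main (G := Matrix.SpecialLinearGroup (Fin (m + 3)) F)
    (A := Fˣ) e hfree H1 H2 hw₀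
  have hc : Fintype.card Fˣ = Fintype.card F - 1 := Fintype.card_units F
  refine ⟨fun i => χ (Fin.cast hc.symm i), fun i => h1 _, ?_, ?_⟩
  · intro i j hij
    have := h2 hij
    exact Fin.cast_injective _ this
  · intro g
    have hsum : ∑ i : Fin (Fintype.card F - 1), χ (Fin.cast hc.symm i) g = ∑ j, χ j g :=
      Fintype.sum_equiv (finCongr hc.symm) _ _ (fun i => rfl)
    rw [hsum, ← h3 g]
    congr 1
    rw [Nat.card_eq_fintype_card, Fintype.card_subtype,
      ← Finset.card_map (Function.Embedding.subtype _)]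
    apply congrArg Finset.card
    ext v
    simp only [Finset.mem_filter, Finset.mem_univ, true_and, Finset.mem_map,
      Function.Embedding.coe_subtype, Subtype.exists, exists_and_right, exists_eq_right]
    constructor
    · rintro ⟨hv, hgv⟩
      exact ⟨hv, Subtype.ext hgv⟩
    · rintro ⟨hv, hgv⟩
      exact ⟨hv, congrArg Subtype.val hgv⟩

end Cfsg.Agent.S2336
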