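import Cfsg.Statements.S2352

set_option autoImplicit false
open Cfsg

namespace Cfsg.Agent.S2352

open Equiv

/-- chain lemma: if the `i`-th permutation of the list sends `x (i+1)` to `x i`, the product sends
`x (length)` to `x 0`. -/
theorem chain_prod {X : Type*} : ∀ (L : List (Perm X)) (x : ℕ → X),
    (∀ i (hi : i < L.length), L[i] (x (i + 1)) = x i) → L.prod (x L.length) = x 0
  | [], x, _ => by simp
  | g :: L', x, h => by
    have ih := chain_prod L' (fun i => x (i + 1)) (by
      intro i hi
      have := h (i + 1) (by simpa using hi)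
      simpa using this)
    have h0 := h 0 (by simp)
    simp only [List.getElem_cons_zero] at h0
    simp only [List.prod_cons, List.length_cons, Perm.mul_apply]
    rw [ih]
    exact h0

/-- a nontrivial word does not vanish in a suitable finite symmetric group -/
theorem exists_perm_ne_one (w : FreeGroup ℕ) (hw : w ≠ 1) :
    ∃ (m : ℕ) (f : ℕ → Perm (Fin m)), FreeGroup.lift f w ≠ 1 := by
  classical
  set L := w.toWord with hL
  have hred : FreeGroup.IsReduced L := FreeGroup.isReduced_toWord
  have hLne : L ≠ [] := by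
    intro h
    exact hw (FreeGroup.toWord_eq_nil_iff.mp h)
  set ℓ := L.length with hℓ
  have hℓpos : 0 < ℓ := List.length_pos_iff.mpr hLne
  have hchain : ∀ (i : ℕ) (hi : i + 1 < L.length), (L[i]).1 = (L[i+1]).1 → (L[i]).2 = (L[i+1]).2 :=
    fun i hi => (List.isChain_iff_getElem.mp hred) i hi
  -- sources and targets
  let src : Fin ℓ → Fin (ℓ + 1) := fun i => ⟨i.val + (if (L[i.val]'i.2).2 then 1 else 0), by
    have := i.2; split <;> omega⟩
  let tgt : Fin ℓ → Fin (ℓ + 1) := fun i => ⟨i.val + (if (L[i.val]'i.2).2 then 0 else 1), by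
    have := i.2; split <;> omega⟩
  have hadj : ∀ (i j : Fin ℓ), j.val = i.val + 1 → (L[i.val]'i.2).1 = (L[j.val]'j.2).1 →
      (L[i.val]'i.2).2 = (L[j.val]'j.2).2 := by
    rintro ⟨i, hi⟩ ⟨j, hj⟩ hij h1
    simp only at hij
    subst hij
    exact hchain i hj h1
  have hperm : ∀ a : ℕ, ∃ σ : Perm (Fin (ℓ + 1)),
      ∀ i : Fin ℓ, (L[i.val]'i.2).1 = a → σ (src i) = tgt i := by
    intro a
    have hsrc : Function.Injective (fun i : {i : Fin ℓ // (L[i.val]'i.2).1 = a} => src i.1) := by
      rintro ⟨i, hi⟩ ⟨j, hj⟩ h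
      simp only [src, Fin.mk.injEq] at h
      apply Subtype.ext
      apply Fin.ext
      rcases hbi : (L[i.val]'i.2).2 with _ | _ <;> rcases hbj : (L[j.val]'j.2).2 with _ | _ <;>
        simp only [hbi, hbj] at h
      · simpa using h
      · exfalso
        have := hadj j i (by simp at h; omega) (by rw [hi, hj])
        rw [hbi, hbj] at this
        exact absurd this (by decide)
      · exfalso
        have := hadj i j (by simp at h; omega) (by rw [hi, hj])
        rw [hbi, hbj] at this
        exact absurd this (by decide)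
      · simpa using h
    have htgt : Function.Injective (fun i : {i : Fin ℓ // (L[i.val]'i.2).1 = a} => tgt i.1) := by
      rintro ⟨i, hi⟩ ⟨j, hj⟩ h
      simp only [tgt, Fin.mk.injEq] at h
      apply Subtype.ext
      apply Fin.ext
      rcases hbi : (L[i.val]'i.2).2 with _ | _ <;> rcases hbj : (L[j.val]'j.2).2 with _ | _ <;>
        simp only [hbi, hbj] at h
      · simpa using h
      · exfalso
        have := hadj i j (by simp at h; omega) (by rw [hi, hj])
        rw [hbi, hbj] at this
        exact absurd this (by decide)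
      · exfalso
        have := hadj j i (by simp at h; omega) (by rw [hi, hj])
        rw [hbi, hbj] at this
        exact absurd this (by decide)
      · simpa using h
    obtain ⟨σ, hσ⟩ := Equiv.Perm.exists_extending_pair _ _ hsrc htgt
    exact ⟨σ, fun i hi => hσ ⟨i, hi⟩⟩
  choose f hf using hperm
  refine ⟨ℓ + 1, f, ?_⟩
  have hw' : FreeGroup.lift f w = (L.map fun x => cond x.2 (f x.1) (f x.1)⁻¹).prod := by
    conv_lhs => rw [← FreeGroup.mk_toWord (x := w)]
    exact FreeGroup.lift_mk
  intro h1
  have key := chain_prod (L.map fun x => cond x.2 (f x.1) (f x.1)⁻¹)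
    (fun i => (⟨min i ℓ, by omega⟩ : Fin (ℓ + 1))) (by
      intro i hi
      have hi' : i < ℓ := by simpa using hi
      rw [List.getElem_map]
      have hfi := hf (L[i]'hi').1 ⟨i, hi'⟩ rfl
      simp only [src, tgt] at hfi
      rcases hb : (L[i]'hi').2 with _ | _
      · simp only [hb, cond_false] at hfi ⊢
        rw [Equiv.Perm.inv_eq_iff_eq]
        have e1 : (⟨min i ℓ, by omega⟩ : Fin (ℓ + 1)) = ⟨i + 0, by omega⟩ := by
          apply Fin.ext; simp; omega
        have e2 : (⟨min (i + 1) ℓ, by omega⟩ : Fin (ℓ + 1)) = ⟨i + 1, by omega⟩ := by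
          apply Fin.ext; simp; omega
        rw [e1, e2]
        simpa using hfi.symm
      · simp only [hb, cond_true] at hfi ⊢
        have e1 : (⟨min i ℓ, by omega⟩ : Fin (ℓ + 1)) = ⟨i + 0, by omega⟩ := by
          apply Fin.ext; simp; omega
        have e2 : (⟨min (i + 1) ℓ, by omega⟩ : Fin (ℓ + 1)) = ⟨i + 1, by omega⟩ := by
          apply Fin.ext; simp; omega
        rw [e1, e2]
        simpa using hfi)
  rw [← hw', h1] at key
  simp only [Perm.coe_one, id_eq, Fin.mk.injEq, List.length_map] at key
  omega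

/-- the doubling embedding of `Perm (Fin m)` into `Perm (Fin n)` for `m + m + k = n` -/
noncomputable def dbl (m k n : ℕ) (h : m + m + k = n) : Perm (Fin m) →* Perm (Fin n) :=
  (((Equiv.sumCongr finSumFinEquiv (Equiv.refl (Fin k))).trans
      (finSumFinEquiv.trans (finCongr h))).permCongrHom.toMonoidHom).comp
    ((Perm.sumCongrHom (Fin m ⊕ Fin m) (Fin k)).comp
      (MonoidHom.prod ((Perm.sumCongrHom (Fin m) (Fin m)).comp
        (MonoidHom.prod (MonoidHom.id _) (MonoidHom.id _))) 1))

theorem dbl_injective (m k n : ℕ) (h : m + m + k = n) : Function.Injective (dbl m k n h) := by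
  unfold dbl
  rw [MonoidHom.coe_comp, MonoidHom.coe_comp]
  refine (MulEquiv.injective _).comp (Perm.sumCongrHom_injective.comp ?_)
  intro a b hab
  have h1 := congrArg Prod.fst hab
  simp only [MonoidHom.prod_apply, MonoidHom.coe_comp, Function.comp_apply, MonoidHom.id_apply] at h1
  have h2 := Perm.sumCongrHom_injective h1
  exact congrArg Prod.fst h2

theorem dbl_sign (m k n : ℕ) (h : m + m + k = n) (σ : Perm (Fin m)) :
    Perm.sign (dbl m k n h σ) = 1 := by
  unfold dbl
  simp only [MonoidHom.coe_comp, Function.comp_apply, MonoidHom.prod_apply, MonoidHom.id_apply,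
    MonoidHom.one_apply, Perm.sumCongrHom_apply, MulEquiv.coe_toMonoidHom]
  erw [Perm.sign_permCongr]
  rw [Perm.sign_sumCongr, Perm.sign_sumCongr]
  simp

theorem result (w : FreeGroup ℕ) (hw : w ≠ 1) :
    ∃ N : ℕ, ∀ n : ℕ, N ≤ n → ∃ f : ℕ → alternatingGroup (Fin n), FreeGroup.lift f w ≠ 1 := by
  obtain ⟨m, f, hf⟩ := exists_perm_ne_one w hw
  refine ⟨m + m, fun n hn => ?_⟩
  have h : m + m + (n - (m + m)) = n := by omega
  let ψ : Perm (Fin m) →* alternatingGroup (Fin n) :=
    (dbl m (n - (m + m)) n h).codRestrict (alternatingGroup (Fin n))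
      (fun σ => Perm.mem_alternatingGroup.mpr (dbl_sign m _ n h σ))
  have hψ : Function.Injective ψ := by
    intro a b hab
    apply dbl_injective m _ n h
    have := congrArg Subtype.val hab
    simpa [ψ] using this
  refine ⟨fun a => ψ (f a), ?_⟩
  have hcomp : FreeGroup.lift (fun a => ψ (f a)) = ψ.comp (FreeGroup.lift f) := by
    apply FreeGroup.ext_hom
    intro a
    simp
  rw [hcomp, MonoidHom.comp_apply]
  intro h1
  apply hf
  apply hψ
  rw [h1, map_one]

end Cfsg.Agent.S2352
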