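import Cfsg.Statements.S2353
import Mathlib

set_option autoImplicit false
open Cfsg

namespace Cfsg.Agent.S2353

open Polynomial

section poly
variable {F : Type*} [Field F]

noncomputable def A (F : Type*) [Field F] (i : ℕ) : Matrix (Fin 2) (Fin 2) F[X] :=
  !![1, X ^ (i+1); X ^ (i+1), 1 + X ^ (i+1) * X ^ (i+1)]
noncomputable def B (F : Type*) [Field F] (i : ℕ) : Matrix (Fin 2) (Fin 2) F[X] :=
  !![1 + X ^ (i+1) * X ^ (i+1), -X ^ (i+1); -X ^ (i+1), 1]
noncomputable def letter (F : Type*) [Field F] (a : ℕ × Bool) : Matrix (Fin 2) (Fin 2) F[X] :=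
  cond a.2 (A F a.1) (B F a.1)
noncomputable def wordMat (F : Type*) [Field F] (l : List (ℕ × Bool)) :
    Matrix (Fin 2) (Fin 2) F[X] :=
  (l.map (letter F)).prod

def Pp (i : ℕ) (x y : F[X]) : Prop := x ≠ 0 ∧ (y - X ^ (i+1) * x).degree < x.degree
def Pm (i : ℕ) (x y : F[X]) : Prop := y ≠ 0 ∧ (x + X ^ (i+1) * y).degree ≤ y.degree
def P (a : ℕ × Bool) (x y : F[X]) : Prop :=
  (a.2 = true → Pp a.1 x y) ∧ (a.2 = false → Pm a.1 x y)

lemma Pp_sig {i : ℕ} {x y : F[X]} (h : Pp i x y) :
    x ≠ 0 ∧ y ≠ 0 ∧ y.natDegree = x.natDegree + (i+1) := by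
  obtain ⟨hx, hd⟩ := h
  have h1 : (y - X ^ (i+1) * x).degree < (X ^ (i+1) * x).degree := by
    rw [degree_mul, degree_X_pow]
    exact lt_of_lt_of_le hd (le_add_of_nonneg_left (Nat.cast_nonneg _))
  have h2 : y.degree = (X ^ (i+1) * x).degree := by
    have : y = X ^ (i+1) * x + (y - X ^ (i+1) * x) := by ring
    conv_lhs => rw [this]
    exact degree_add_eq_left_of_degree_lt h1
  rw [degree_mul, degree_X_pow, degree_eq_natDegree hx] at h2
  have hy : y ≠ 0 := by
    intro hy0
    rw [hy0, degree_zero] at h2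
    have h3 : ((i + 1 : ℕ) : WithBot ℕ) + (x.natDegree : WithBot ℕ) = ((i + 1 + x.natDegree : ℕ) : WithBot ℕ) := by
      push_cast; rfl
    rw [h3] at h2
    exact WithBot.bot_ne_coe h2
  rw [degree_eq_natDegree hy] at h2
  refine ⟨hx, hy, ?_⟩
  have h3 : y.natDegree = i + 1 + x.natDegree := by exact_mod_cast h2
  omega

lemma Pm_sig {i : ℕ} {x y : F[X]} (h : Pm i x y) :
    x ≠ 0 ∧ y ≠ 0 ∧ x.natDegree = y.natDegree + (i+1) := by
  obtain ⟨hy, hd⟩ := h
  have h0 : y.degree < (X ^ (i+1) * y).degree := by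
    rw [degree_mul, degree_X_pow, degree_eq_natDegree hy]
    exact_mod_cast (by omega : y.natDegree < i + 1 + y.natDegree)
  have h1 : (x + X ^ (i+1) * y).degree < (-(X ^ (i+1) * y)).degree := by
    rw [degree_neg]; exact lt_of_le_of_lt hd h0
  have h2 : x.degree = (-(X ^ (i+1) * y)).degree := by
    have : x = -(X ^ (i+1) * y) + (x + X ^ (i+1) * y) := by ring
    conv_lhs => rw [this]
    exact degree_add_eq_left_of_degree_lt h1
  rw [degree_neg, degree_mul, degree_X_pow, degree_eq_natDegree hy] at h2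
  have hx : x ≠ 0 := by
    intro hx0
    rw [hx0, degree_zero] at h2
    have h3 : ((i + 1 : ℕ) : WithBot ℕ) + (y.natDegree : WithBot ℕ) = ((i + 1 + y.natDegree : ℕ) : WithBot ℕ) := by
      push_cast; rfl
    rw [h3] at h2
    exact WithBot.bot_ne_coe h2
  rw [degree_eq_natDegree hx] at h2
  refine ⟨hx, hy, ?_⟩
  have h3 : x.natDegree = i + 1 + y.natDegree := by exact_mod_cast h2
  omega

lemma P_disjoint {a b : ℕ × Bool} {x y : F[X]} (ha : P a x y) (hb : P b x y) : a = b := by
  obtain ⟨i, s⟩ := a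
  obtain ⟨j, t⟩ := b
  cases s <;> cases t
  · have h1 := Pm_sig (ha.2 rfl)
    have h2 := Pm_sig (hb.2 rfl)
    have : i = j := by omega
    rw [this]
  · have h1 := Pm_sig (ha.2 rfl)
    have h2 := Pp_sig (hb.1 rfl)
    omega
  · have h1 := Pp_sig (ha.1 rfl)
    have h2 := Pm_sig (hb.2 rfl)
    omega
  · have h1 := Pp_sig (ha.1 rfl)
    have h2 := Pp_sig (hb.1 rfl)
    have : i = j := by omega
    rw [this]

lemma step_plus {i : ℕ} {x y : F[X]} (hne : x ≠ 0 ∨ y ≠ 0) (h : ¬ Pm i x y) :
    Pp i (x + X ^ (i+1) * y) (X ^ (i+1) * x + (1 + X ^ (i+1) * X ^ (i+1)) * y) := by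
  have e : X ^ (i+1) * x + (1 + X ^ (i+1) * X ^ (i+1)) * y - X ^ (i+1) * (x + X ^ (i+1) * y) = y := by
    ring
  unfold Pp
  rw [e]
  by_cases hy : y = 0
  · subst hy
    have hx : x ≠ 0 := by tauto
    simp only [mul_zero, add_zero, degree_zero]
    exact ⟨hx, bot_lt_iff_ne_bot.mpr (fun h0 => hx (degree_eq_bot.mp h0))⟩
  · have h2 : y.degree < (x + X ^ (i+1) * y).degree := by
      by_contra hcon
      exact h ⟨hy, not_lt.mp hcon⟩
    refine ⟨?_, h2⟩
    intro h0
    rw [h0, degree_zero] at h2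
    exact not_lt_bot h2

lemma step_minus {i : ℕ} {x y : F[X]} (hne : x ≠ 0 ∨ y ≠ 0) (h : ¬ Pp i x y) :
    Pm i ((1 + X ^ (i+1) * X ^ (i+1)) * x + (-X ^ (i+1)) * y) ((-X ^ (i+1)) * x + y) := by
  have e : (1 + X ^ (i+1) * X ^ (i+1)) * x + (-X ^ (i+1)) * y
      + X ^ (i+1) * ((-X ^ (i+1)) * x + y) = x := by ring
  unfold Pm
  rw [e]
  by_cases hx : x = 0
  · subst hx
    have hy : y ≠ 0 := by tauto
    simp only [mul_zero, zero_add, degree_zero]
    exact ⟨hy, bot_le⟩
  · have h2 : x.degree ≤ ((-X ^ (i+1)) * x + y).degree := by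
      by_contra hcon
      apply h
      refine ⟨hx, ?_⟩
      have : y - X ^ (i+1) * x = (-X ^ (i+1)) * x + y := by ring
      rw [this]; exact not_le.mp hcon
    refine ⟨?_, h2⟩
    intro h0
    rw [h0, degree_zero] at h2
    exact hx (degree_eq_bot.mp (le_bot_iff.mp h2))

lemma invariant : ∀ (l : List (ℕ × Bool)) (a : ℕ × Bool), FreeGroup.IsReduced (a :: l) →
    P a (wordMat F (a :: l) 0 0) (wordMat F (a :: l) 1 0) := by
  intro l
  induction l with
  | nil =>
    intro a _
    obtain ⟨i, s⟩ := a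
    have h10 : ¬ Pm (F := F) i 1 0 := fun h => h.1 rfl
    have h10' : ¬ Pp (F := F) i 1 0 := by
      intro h
      have := Pp_sig h
      exact this.2.1 rfl
    cases s
    · have := step_minus (i := i) (x := (1 : F[X])) (y := 0) (Or.inl one_ne_zero) h10'
      refine ⟨fun h => absurd h (by simp), fun _ => ?_⟩
      convert this using 1 <;> simp [wordMat, letter, B]
    · have := step_plus (i := i) (x := (1 : F[X])) (y := 0) (Or.inl one_ne_zero) h10
      refine ⟨fun _ => ?_, fun h => absurd h (by simp)⟩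
      convert this using 1 <;> simp [wordMat, letter, A]
  | cons b l ih =>
    intro a hred
    rw [FreeGroup.isReduced_cons_cons] at hred
    obtain ⟨hab, hred'⟩ := hred
    have hb := ih b hred'
    have hcol : ∀ r : Fin 2, wordMat F (a :: b :: l) r 0
        = letter F a r 0 * wordMat F (b :: l) 0 0 + letter F a r 1 * wordMat F (b :: l) 1 0 := by
      intro r
      show ((List.map (letter F) (a :: b :: l)).prod) r 0 = _
      rw [List.map_cons, List.prod_cons, Matrix.mul_apply, Fin.sum_univ_two]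
      rfl
    generalize wordMat F (b :: l) 0 0 = x at hb hcol
    generalize wordMat F (b :: l) 1 0 = y at hb hcol
    have hne : x ≠ 0 ∨ y ≠ 0 := by
      obtain ⟨j, t⟩ := b
      cases t
      · exact Or.inr (hb.2 rfl).1
      · exact Or.inl (hb.1 rfl).1
    obtain ⟨i, s⟩ := a
    cases s
    · have hnot : ¬ Pp i x y := by
        intro h
        have hP : P (i, true) x y := ⟨fun _ => h, fun h' => absurd h' (by simp)⟩
        have := P_disjoint hP hb
        subst this
        exact absurd (hab rfl) (by simp)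
      have := step_minus hne hnot
      refine ⟨fun h => absurd h (by simp), fun _ => ?_⟩
      rw [hcol 0, hcol 1]
      convert this using 1 <;> simp [letter, B]
    · have hnot : ¬ Pm i x y := by
        intro h
        have hP : P (i, false) x y := ⟨fun h' => absurd h' (by simp), fun _ => h⟩
        have := P_disjoint hP hb
        subst this
        exact absurd (hab rfl) (by simp)
      have := step_plus hne hnot
      refine ⟨fun _ => ?_, fun h => absurd h (by simp)⟩
      rw [hcol 0, hcol 1]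
      convert this using 1 <;> simp [letter, A]

def degBound (l : List (ℕ × Bool)) : ℕ := (l.map (fun a => 2 * (a.1 + 1))).sum

lemma letter_natDegree_le (a : ℕ × Bool) (r c : Fin 2) :
    (letter F a r c).natDegree ≤ 2 * (a.1 + 1) := by
  obtain ⟨i, s⟩ := a
  have h1 : (X ^ (i+1) : F[X]).natDegree ≤ 2 * (i + 1) := by
    rw [natDegree_X_pow]; omega
  have h2 : (-X ^ (i+1) : F[X]).natDegree ≤ 2 * (i + 1) := by
    rw [natDegree_neg]; exact h1
  have h3 : (1 + X ^ (i+1) * X ^ (i+1) : F[X]).natDegree ≤ 2 * (i + 1) := by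
    rw [← pow_add]
    refine (natDegree_add_le _ _).trans (max_le ?_ ?_)
    · rw [natDegree_one]; omega
    · rw [natDegree_X_pow]; omega
  have h4 : (1 : F[X]).natDegree ≤ 2 * (i + 1) := by rw [natDegree_one]; omega
  cases s <;> fin_cases r <;> fin_cases c <;> simp [letter, A, B] <;> assumption

lemma wordMat_natDegree_le (l : List (ℕ × Bool)) (r c : Fin 2) :
    (wordMat F l r c).natDegree ≤ degBound l := by
  induction l generalizing r c with
  | nil =>
    simp only [wordMat, List.map_nil, List.prod_nil, degBound, List.sum_nil, Matrix.one_apply]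
    split_ifs <;> simp
  | cons a l ih =>
    show ((List.map (letter F) (a :: l)).prod r c).natDegree ≤ _
    rw [List.map_cons, List.prod_cons, Matrix.mul_apply, Fin.sum_univ_two]
    have h1 : ∀ k, (letter F a r k * (List.map (letter F) l).prod k c).natDegree
        ≤ 2 * (a.1 + 1) + degBound l :=
      fun k => (natDegree_mul_le).trans (add_le_add (letter_natDegree_le a r k) (ih k c))
    have : degBound (a :: l) = 2 * (a.1 + 1) + degBound l := by simp [degBound]
    rw [this]
    exact (natDegree_add_le _ _).trans (max_le (h1 0) (h1 1))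

/-- the specialised generators in `SL₂(F)` -/
def gSL (t0 : F) (i : ℕ) : Matrix.SpecialLinearGroup (Fin 2) F :=
  ⟨!![1, t0 ^ (i+1); t0 ^ (i+1), 1 + t0 ^ (i+1) * t0 ^ (i+1)], by
    rw [Matrix.det_fin_two_of]; ring⟩

lemma coe_letter (t0 : F) (a : ℕ × Bool) :
    ((cond a.2 (gSL t0 a.1) (gSL t0 a.1)⁻¹ : Matrix.SpecialLinearGroup (Fin 2) F) :
      Matrix (Fin 2) (Fin 2) F) = (letter F a).map (eval t0) := by
  obtain ⟨i, s⟩ := a
  cases s
  · show (((gSL t0 i)⁻¹ : Matrix.SpecialLinearGroup (Fin 2) F) : Matrix (Fin 2) (Fin 2) F)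
      = (B F i).map (eval t0)
    rw [Matrix.SpecialLinearGroup.coe_inv]
    show Matrix.adjugate !![1, t0 ^ (i+1); t0 ^ (i+1), 1 + t0 ^ (i+1) * t0 ^ (i+1)] = _
    rw [Matrix.adjugate_fin_two_of]
    ext r c
    fin_cases r <;> fin_cases c <;> simp [B]
  · show !![1, t0 ^ (i+1); t0 ^ (i+1), 1 + t0 ^ (i+1) * t0 ^ (i+1)] = (A F i).map (eval t0)
    ext r c
    fin_cases r <;> fin_cases c <;> simp [A]

lemma coe_word (t0 : F) (l : List (ℕ × Bool)) :
    (((l.map (fun x => cond x.2 (gSL t0 x.1) (gSL t0 x.1)⁻¹)).prod :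
      Matrix.SpecialLinearGroup (Fin 2) F) : Matrix (Fin 2) (Fin 2) F)
      = (wordMat F l).map (eval t0) := by
  induction l with
  | nil =>
    simp only [List.map_nil, List.prod_nil, wordMat, Matrix.SpecialLinearGroup.coe_one]
    ext r c
    simp [Matrix.one_apply]
    split_ifs <;> simp
  | cons a l ih =>
    rw [List.map_cons, List.prod_cons, Matrix.SpecialLinearGroup.coe_mul, ih, coe_letter]
    show _ = ((List.map (letter F) (a :: l)).prod).map (eval t0)
    rw [List.map_cons, List.prod_cons]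
    have := Matrix.map_mul (L := letter F a) (M := (List.map (letter F) l).prod)
      (f := (evalRingHom t0 : F[X] →+* F))
    exact this.symm

end poly

/-- A non-trivial law holds in PSL_2 over only finitely many finite fields: for every non-trivial element w of the free group on countably many generators there is N such that over every finite field with at least N elements some substitution of elements of PSL_2 into w is not the identity. -/
theorem result (w : FreeGroup ℕ) (hw : w ≠ 1) :
    ∃ N : ℕ, ∀ (F : Type*) [Field F] [Fintype F], N ≤ Fintype.card F →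
      ∃ f : ℕ → Matrix.ProjectiveSpecialLinearGroup (Fin 2) F, FreeGroup.lift f w ≠ 1 := by
  refine ⟨degBound w.toWord + 1, ?_⟩
  intro F _ _ hcard
  obtain ⟨a, l, hl⟩ : ∃ a l, w.toWord = a :: l := by
    cases h : w.toWord with
    | nil => exact absurd (FreeGroup.toWord_eq_nil_iff.mp h) hw
    | cons a l => exact ⟨a, l, rfl⟩
  have hred : FreeGroup.IsReduced (a :: l) := hl ▸ FreeGroup.isReduced_toWord
  have hP := invariant (F := F) l a hred
  have hQ : wordMat F (a :: l) 1 0 ≠ 0 := by
    obtain ⟨i, s⟩ := a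
    cases s
    · exact (Pm_sig (hP.2 rfl)).2.1
    · exact (Pp_sig (hP.1 rfl)).2.1
  have hdeg : ((wordMat F (a :: l) 1 0).natDegree : Cardinal) < Cardinal.mk F := by
    have h1 := wordMat_natDegree_le (F := F) (a :: l) 1 0
    have h2 : degBound (a :: l) = degBound w.toWord := by rw [hl]
    rw [Cardinal.mk_fintype]
    exact_mod_cast (by omega : (wordMat F (a :: l) 1 0).natDegree < Fintype.card F)
  obtain ⟨t0, ht0⟩ := Polynomial.exists_eval_ne_zero_of_natDegree_lt_card _ hQ hdeg
  refine ⟨fun i => ((gSL t0 i : Matrix.SpecialLinearGroup (Fin 2) F) :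
    Matrix.ProjectiveSpecialLinearGroup (Fin 2) F), ?_⟩
  have h1 : FreeGroup.lift (fun i => ((gSL t0 i : Matrix.SpecialLinearGroup (Fin 2) F) :
      Matrix.ProjectiveSpecialLinearGroup (Fin 2) F)) w
      = ((FreeGroup.lift (gSL t0) w : Matrix.SpecialLinearGroup (Fin 2) F) :
        Matrix.ProjectiveSpecialLinearGroup (Fin 2) F) := by
    symm
    exact FreeGroup.lift_unique
      ((QuotientGroup.mk' (Subgroup.center (Matrix.SpecialLinearGroup (Fin 2) F))).comp
        (FreeGroup.lift (gSL t0))) (fun x => by simp)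
  rw [h1]
  intro h2
  have h3 : FreeGroup.lift (gSL t0) w ∈ Subgroup.center (Matrix.SpecialLinearGroup (Fin 2) F) :=
    (QuotientGroup.eq_one_iff _).mp h2
  obtain ⟨r, -, hr⟩ := Matrix.SpecialLinearGroup.mem_center_iff.mp h3
  have h4 : ((FreeGroup.lift (gSL t0) w : Matrix.SpecialLinearGroup (Fin 2) F) :
      Matrix (Fin 2) (Fin 2) F) 1 0 = 0 := by
    rw [← hr]; simp
  have h5 : FreeGroup.lift (gSL t0) w
      = ((a :: l).map (fun x => cond x.2 (gSL t0 x.1) (gSL t0 x.1)⁻¹)).prod := by
    conv_lhs => rw [← FreeGroup.mk_toWord (x := w), hl]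
    exact FreeGroup.lift_mk
  rw [h5, coe_word] at h4
  exact ht0 h4

end Cfsg.Agent.S2353
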