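import Cfsg.Statements.S2354
import Mathlib

set_option autoImplicit false
open Cfsg

namespace Cfsg.Agent.S2354

open Polynomial
open scoped Matrix

section poly
variable {F : Type*} [Field F]

/-- lower unipotent Suzuki element `u(X^k, 0)`, polynomial version; `ke` stands for `k * e` -/
noncomputable def Lm (F : Type*) [Field F] (k ke : ℕ) : Matrix (Fin 4) (Fin 4) F[X] :=
  !![1, 0, 0, 0; X ^ k, 1, 0, 0; X ^ (k + ke), X ^ ke, 1, 0; X ^ (2 * k + ke), 0, X ^ k, 1]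

/-- its inverse -/
noncomputable def Lm' (F : Type*) [Field F] (k ke : ℕ) : Matrix (Fin 4) (Fin 4) F[X] :=
  !![1, 0, 0, 0; X ^ k, 1, 0, 0; 0, X ^ ke, 1, 0; X ^ (2 * k + ke), X ^ (k + ke), X ^ k, 1]

/-- the Weyl element -/
def Wm (R : Type*) [CommRing R] : Matrix (Fin 4) (Fin 4) R :=
  !![0, 0, 0, 1; 0, 0, 1, 0; 0, 1, 0, 0; 1, 0, 0, 0]

lemma mulVec_L (k ke : ℕ) (v : Fin 4 → F[X]) : Lm F k ke *ᵥ v
    = ![v 0, X ^ k * v 0 + v 1, X ^ (k + ke) * v 0 + X ^ ke * v 1 + v 2,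
        X ^ (2 * k + ke) * v 0 + X ^ k * v 2 + v 3] := by
  ext r
  fin_cases r <;> simp [Lm, Matrix.mulVec, dotProduct, Fin.sum_univ_four]

lemma mulVec_L' (k ke : ℕ) (v : Fin 4 → F[X]) : Lm' F k ke *ᵥ v
    = ![v 0, X ^ k * v 0 + v 1, X ^ ke * v 1 + v 2,
        X ^ (2 * k + ke) * v 0 + X ^ (k + ke) * v 1 + X ^ k * v 2 + v 3] := by
  ext r
  fin_cases r <;> simp [Lm', Matrix.mulVec, dotProduct, Fin.sum_univ_four]

lemma mulVec_U (k ke : ℕ) (v : Fin 4 → F[X]) : (Wm F[X] * Lm F k ke * Wm F[X]) *ᵥ v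
    = ![X ^ (2 * k + ke) * v 3 + X ^ k * v 1 + v 0, X ^ (k + ke) * v 3 + X ^ ke * v 2 + v 1,
        X ^ k * v 3 + v 2, v 3] := by
  ext r
  fin_cases r <;>
    simp [Lm, Wm, Matrix.mulVec, dotProduct, Fin.sum_univ_four, Matrix.mul_apply] <;> ring

lemma mulVec_U' (k ke : ℕ) (v : Fin 4 → F[X]) : (Wm F[X] * Lm' F k ke * Wm F[X]) *ᵥ v
    = ![X ^ (2 * k + ke) * v 3 + X ^ (k + ke) * v 2 + X ^ k * v 1 + v 0, X ^ ke * v 2 + v 1,
        X ^ k * v 3 + v 2, v 3] := by
  ext r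
  fin_cases r <;>
    simp [Lm', Wm, Matrix.mulVec, dotProduct, Fin.sum_univ_four, Matrix.mul_apply] <;> ring

def H (k ke : ℕ) (x0 x1 x2 x3 : F[X]) : Prop :=
  x0 ≠ 0 ∧ x1.natDegree < x0.natDegree + k ∧ x2.natDegree < x0.natDegree + (k + ke) ∧
    x3.natDegree < x0.natDegree + (2 * k + ke)

def Qp (k ke : ℕ) (x0 x1 x2 x3 : F[X]) : Prop :=
  x0 ≠ 0 ∧ x3.natDegree = x0.natDegree + (2 * k + ke) ∧
    x1.natDegree + (k + ke) ≤ x3.natDegree ∧ x2.natDegree + k ≤ x3.natDegree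

lemma nd_mul (n : ℕ) (p : F[X]) : (X ^ n * p).natDegree ≤ n + p.natDegree := by
  refine natDegree_mul_le.trans ?_
  rw [natDegree_X_pow]

lemma nd_mul_eq (n : ℕ) {p : F[X]} (hp : p ≠ 0) : (X ^ n * p).natDegree = n + p.natDegree := by
  rw [natDegree_mul (pow_ne_zero n X_ne_zero) hp, natDegree_X_pow]

lemma le2 {p q : F[X]} {B : ℕ} (hp : p.natDegree ≤ B) (hq : q.natDegree ≤ B) :
    (p + q).natDegree ≤ B :=
  natDegree_add_le_of_degree_le hp hq

lemma le3 {p q r : F[X]} {B : ℕ} (hp : p.natDegree ≤ B) (hq : q.natDegree ≤ B)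
    (hr : r.natDegree ≤ B) : (p + q + r).natDegree ≤ B :=
  le2 (le2 hp hq) hr

lemma lt2 {p q : F[X]} {B : ℕ} (hp : p.natDegree < B) (hq : q.natDegree < B) :
    (p + q).natDegree < B :=
  lt_of_le_of_lt (natDegree_add_le _ _) (max_lt hp hq)

lemma lt3 {p q r : F[X]} {B : ℕ} (hp : p.natDegree < B) (hq : q.natDegree < B)
    (hr : r.natDegree < B) : (p + q + r).natDegree < B :=
  lt2 (lt2 hp hq) hr

lemma dom2 {p q : F[X]} {n : ℕ} (hp : p.natDegree = n) (hq : q.natDegree < n) :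
    (p + q).natDegree = n ∧ p + q ≠ 0 := by
  have h1 : (p + q).natDegree = n := by
    rw [natDegree_add_eq_left_of_natDegree_lt (by rw [hp]; exact hq), hp]
  refine ⟨h1, ?_⟩
  intro h0
  rw [h0, natDegree_zero] at h1
  omega

lemma dom3 {p q r : F[X]} {n : ℕ} (hp : p.natDegree = n) (hq : q.natDegree < n)
    (hr : r.natDegree < n) : (p + q + r).natDegree = n ∧ p + q + r ≠ 0 := by
  rw [add_assoc]
  exact dom2 hp (lt2 hq hr)

lemma dom4 {p q r s : F[X]} {n : ℕ} (hp : p.natDegree = n) (hq : q.natDegree < n)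
    (hr : r.natDegree < n) (hs : s.natDegree < n) :
    (p + q + r + s).natDegree = n ∧ p + q + r + s ≠ 0 := by
  rw [add_assoc, add_assoc]
  exact dom2 hp (lt2 hq (lt2 hr hs))

lemma dom_last {p q : F[X]} {n : ℕ} (hq : q.natDegree = n) (hp : p.natDegree < n) :
    (p + q).natDegree = n ∧ p + q ≠ 0 := by
  rw [add_comm]
  exact dom2 hq hp

lemma L_step {k ke : ℕ} (hk : 1 ≤ k) {x0 x1 x2 x3 : F[X]} (h : H k ke x0 x1 x2 x3) :
    Qp k ke x0 (X ^ k * x0 + x1) (X ^ (k + ke) * x0 + X ^ ke * x1 + x2)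
      (X ^ (2 * k + ke) * x0 + X ^ k * x2 + x3) := by
  obtain ⟨h0, h1, h2, h3⟩ := h
  have e0 := nd_mul_eq (2 * k + ke) h0
  have b2 := nd_mul k x2
  have b0 := nd_mul k x0
  have c0 := nd_mul (k + ke) x0
  have c1 := nd_mul ke x1
  have hd := dom3 e0 (q := X ^ k * x2) (r := x3) (by omega) (by omega)
  refine ⟨h0, by rw [hd.1]; omega, ?_, ?_⟩
  · rw [hd.1]
    have h5 : (X ^ k * x0 + x1).natDegree ≤ k + x0.natDegree := le2 b0 (by omega)
    omega
  · rw [hd.1]
    have h5 : (X ^ (k + ke) * x0 + X ^ ke * x1 + x2).natDegree ≤ k + ke + x0.natDegree :=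
      le3 c0 (by omega) (by omega)
    omega

lemma L'_step {k ke : ℕ} (hk : 1 ≤ k) {y0 y1 y2 y3 : F[X]} (h : H k ke y0 y1 y2 y3) :
    Qp k ke y0 (X ^ k * y0 + y1) (X ^ ke * y1 + y2)
      (X ^ (2 * k + ke) * y0 + X ^ (k + ke) * y1 + X ^ k * y2 + y3) := by
  obtain ⟨h0, h1, h2, h3⟩ := h
  have e0 := nd_mul_eq (2 * k + ke) h0
  have b1 := nd_mul (k + ke) y1
  have b2 := nd_mul k y2
  have b0 := nd_mul k y0
  have c1 := nd_mul ke y1
  have hd := dom4 e0 (q := X ^ (k + ke) * y1) (r := X ^ k * y2) (s := y3) (by omega) (by omega)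
    (by omega)
  refine ⟨h0, by rw [hd.1]; omega, ?_, ?_⟩
  · rw [hd.1]
    have h5 : (X ^ k * y0 + y1).natDegree ≤ k + y0.natDegree := le2 b0 (by omega)
    omega
  · rw [hd.1]
    have h5 : (X ^ ke * y1 + y2).natDegree ≤ k + ke + y0.natDegree :=
      le2 (by omega) (by omega)
    omega

lemma HA {j je k ke : ℕ} (hj : 1 ≤ j) (hk : 1 ≤ k) {v0 v1 v2 v3 : F[X]}
    (h : Qp j je v0 v1 v2 v3) :
    H k ke (X ^ (2 * k + ke) * v3 + X ^ k * v1 + v0) (X ^ (k + ke) * v3 + X ^ ke * v2 + v1)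
      (X ^ k * v3 + v2) v3 := by
  obtain ⟨h0, h3, h1, h2⟩ := h
  have hv3 : v3 ≠ 0 := ne_zero_of_natDegree_gt (n := 0) (by omega)
  have e3 := nd_mul_eq (2 * k + ke) hv3
  have b1 := nd_mul k v1
  have c1 := nd_mul (k + ke) v3
  have c2 := nd_mul ke v2
  have c3 := nd_mul k v3
  have hd := dom3 e3 (q := X ^ k * v1) (r := v0) (by omega) (by omega)
  refine ⟨hd.2, ?_, ?_, ?_⟩
  · rw [hd.1]
    exact lt3 (by omega) (by omega) (by omega)
  · rw [hd.1]
    exact lt2 (by omega) (by omega)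
  · rw [hd.1]
    omega

lemma HB {j je k ke : ℕ} (hj : 1 ≤ j) (hk : 1 ≤ k) (hne : j ≠ k) (hm1 : j < k → je ≤ ke)
    (hm2 : k < j → ke ≤ je) {v0 v1 v2 v3 : F[X]} (h : Qp j je v3 v2 v1 v0) :
    H k ke (X ^ (2 * k + ke) * v3 + X ^ k * v1 + v0) (X ^ (k + ke) * v3 + X ^ ke * v2 + v1)
      (X ^ k * v3 + v2) v3 := by
  obtain ⟨h3, h0, h2, h1⟩ := h
  have e3 := nd_mul_eq (2 * k + ke) h3
  have b1 := nd_mul k v1
  have c1 := nd_mul (k + ke) v3
  have c2 := nd_mul ke v2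
  have c3 := nd_mul k v3
  rcases Nat.lt_or_gt_of_ne hne with hlt | hgt
  · have hle := hm1 hlt
    have hd := dom3 e3 (q := X ^ k * v1) (r := v0) (by omega) (by omega)
    refine ⟨hd.2, ?_, ?_, ?_⟩
    · rw [hd.1]
      exact lt3 (by omega) (by omega) (by omega)
    · rw [hd.1]
      exact lt2 (by omega) (by omega)
    · rw [hd.1]
      omega
  · have hle := hm2 hgt
    have hd := dom_last (p := X ^ (2 * k + ke) * v3 + X ^ k * v1) (q := v0) rfl
      (lt2 (by omega) (by omega))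
    refine ⟨hd.2, ?_, ?_, ?_⟩
    · rw [hd.1]
      exact lt3 (by omega) (by omega) (by omega)
    · rw [hd.1]
      exact lt2 (by omega) (by omega)
    · rw [hd.1]
      omega

lemma HC1 {j je k ke : ℕ} (hj : 1 ≤ j) (hk : 1 ≤ k) {v0 v1 v2 v3 : F[X]}
    (h : Qp j je v3 v2 v1 v0) :
    H k ke (X ^ (2 * k + ke) * v0 + X ^ (k + ke) * v1 + X ^ k * v2 + v3) (X ^ ke * v1 + v2)
      (X ^ k * v0 + v1) v0 := by
  obtain ⟨h3, h0, h2, h1⟩ := h
  have hv0 : v0 ≠ 0 := ne_zero_of_natDegree_gt (n := 0) (by omega)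
  have e0 := nd_mul_eq (2 * k + ke) hv0
  have b1 := nd_mul (k + ke) v1
  have b2 := nd_mul k v2
  have c1 := nd_mul ke v1
  have c0 := nd_mul k v0
  have hd := dom4 e0 (q := X ^ (k + ke) * v1) (r := X ^ k * v2) (s := v3) (by omega) (by omega)
    (by omega)
  refine ⟨hd.2, ?_, ?_, ?_⟩
  · rw [hd.1]
    exact lt2 (by omega) (by omega)
  · rw [hd.1]
    exact lt2 (by omega) (by omega)
  · rw [hd.1]
    omega

lemma HC2 {j je k ke : ℕ} (hj : 1 ≤ j) (hk : 1 ≤ k) (hne : j ≠ k) (hm1 : j < k → je ≤ ke)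
    (hm2 : k < j → ke ≤ je) {v0 v1 v2 v3 : F[X]} (h : Qp j je v0 v1 v2 v3) :
    H k ke (X ^ (2 * k + ke) * v0 + X ^ (k + ke) * v1 + X ^ k * v2 + v3) (X ^ ke * v1 + v2)
      (X ^ k * v0 + v1) v0 := by
  obtain ⟨h0, h3, h1, h2⟩ := h
  have e0 := nd_mul_eq (2 * k + ke) h0
  have b1 := nd_mul (k + ke) v1
  have b2 := nd_mul k v2
  have c1 := nd_mul ke v1
  have c0 := nd_mul k v0
  rcases Nat.lt_or_gt_of_ne hne with hlt | hgt
  · have hle := hm1 hlt
    have hd := dom4 e0 (q := X ^ (k + ke) * v1) (r := X ^ k * v2) (s := v3) (by omega)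
      (by omega) (by omega)
    refine ⟨hd.2, ?_, ?_, ?_⟩
    · rw [hd.1]
      exact lt2 (by omega) (by omega)
    · rw [hd.1]
      exact lt2 (by omega) (by omega)
    · rw [hd.1]
      omega
  · have hle := hm2 hgt
    have hd := dom_last (p := X ^ (2 * k + ke) * v0 + X ^ (k + ke) * v1 + X ^ k * v2) (q := v3)
      rfl (lt3 (by omega) (by omega) (by omega))
    refine ⟨hd.2, ?_, ?_, ?_⟩
    · rw [hd.1]
      exact lt2 (by omega) (by omega)
    · rw [hd.1]
      exact lt2 (by omega) (by omega)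
    · rw [hd.1]
      omega

noncomputable def letter (F : Type*) [Field F] (e : ℕ) (a : ℕ × Bool) :
    Matrix (Fin 4) (Fin 4) F[X] :=
  cond a.2
    (Lm F (a.1 + 1) ((a.1 + 1) * e) * (Wm F[X] * Lm F (a.1 + 1) ((a.1 + 1) * e) * Wm F[X]))
    ((Wm F[X] * Lm' F (a.1 + 1) ((a.1 + 1) * e) * Wm F[X]) * Lm' F (a.1 + 1) ((a.1 + 1) * e))

noncomputable def wordMat (F : Type*) [Field F] (e : ℕ) (l : List (ℕ × Bool)) :
    Matrix (Fin 4) (Fin 4) F[X] :=
  (l.map (letter F e)).prod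

noncomputable def col (F : Type*) [Field F] (e : ℕ) (l : List (ℕ × Bool)) : Fin 4 → F[X] :=
  fun r => wordMat F e l r 0

lemma col_cons (e : ℕ) (a : ℕ × Bool) (l : List (ℕ × Bool)) :
    col F e (a :: l) = letter F e a *ᵥ col F e l := by
  funext r
  show ((List.map (letter F e) (a :: l)).prod) r 0 = _
  rw [List.map_cons, List.prod_cons, Matrix.mul_apply]
  rfl

def P (e : ℕ) (a : ℕ × Bool) (v : Fin 4 → F[X]) : Prop :=
  (a.2 = true → Qp (a.1 + 1) ((a.1 + 1) * e) (v 0) (v 1) (v 2) (v 3)) ∧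
  (a.2 = false → Qp (a.1 + 1) ((a.1 + 1) * e) (v 3) (v 2) (v 1) (v 0))

lemma step_true (e i : ℕ) (v : Fin 4 → F[X])
    (h : H (i + 1) ((i + 1) * e)
      (X ^ (2 * (i + 1) + (i + 1) * e) * v 3 + X ^ (i + 1) * v 1 + v 0)
      (X ^ ((i + 1) + (i + 1) * e) * v 3 + X ^ ((i + 1) * e) * v 2 + v 1)
      (X ^ (i + 1) * v 3 + v 2) (v 3)) :
    P e (i, true) (letter F e (i, true) *ᵥ v) := by
  have h1 := L_step (by omega) h
  refine ⟨fun _ => ?_, fun hf => absurd hf (by simp)⟩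
  have e1 : letter F e (i, true) *ᵥ v = Lm F (i + 1) ((i + 1) * e) *ᵥ
      ((Wm F[X] * Lm F (i + 1) ((i + 1) * e) * Wm F[X]) *ᵥ v) := by
    show (Lm F _ _ * _) *ᵥ v = _
    rw [Matrix.mulVec_mulVec]
  rw [e1, mulVec_U, mulVec_L]
  exact h1

lemma step_false (e i : ℕ) (v : Fin 4 → F[X])
    (h : H (i + 1) ((i + 1) * e)
      (X ^ (2 * (i + 1) + (i + 1) * e) * v 0 + X ^ ((i + 1) + (i + 1) * e) * v 1
        + X ^ (i + 1) * v 2 + v 3)
      (X ^ ((i + 1) * e) * v 1 + v 2) (X ^ (i + 1) * v 0 + v 1) (v 0)) :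
    P e (i, false) (letter F e (i, false) *ᵥ v) := by
  have h1 := L'_step (by omega) h
  refine ⟨fun hf => absurd hf (by simp), fun _ => ?_⟩
  have e1 : letter F e (i, false) *ᵥ v = (Wm F[X] * Lm' F (i + 1) ((i + 1) * e) * Wm F[X]) *ᵥ
      (Lm' F (i + 1) ((i + 1) * e) *ᵥ v) := by
    show (_ * Lm' F _ _) *ᵥ v = _
    rw [Matrix.mulVec_mulVec]
  rw [e1, mulVec_L', mulVec_U']
  exact h1

lemma invariant (e : ℕ) : ∀ (l : List (ℕ × Bool)) (a : ℕ × Bool),
    FreeGroup.IsReduced (a :: l) → P e a (col F e (a :: l)) := by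
  intro l
  induction l with
  | nil =>
    intro a _
    obtain ⟨i, s⟩ := a
    rw [col_cons]
    have hc : col F e [] = ![1, 0, 0, 0] := by
      ext r
      fin_cases r <;> simp [col, wordMat]
    rw [hc]
    cases s
    · apply step_false
      have h : H (F := F) (i + 1) ((i + 1) * e) (X ^ (2 * (i + 1) + (i + 1) * e)) 0
          (X ^ (i + 1)) 1 := by
        refine ⟨pow_ne_zero _ X_ne_zero, ?_, ?_, ?_⟩
        · rw [natDegree_zero, natDegree_X_pow]
          omega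
        · rw [natDegree_X_pow, natDegree_X_pow]
          omega
        · rw [natDegree_one, natDegree_X_pow]
          omega
      simpa using h
    · apply step_true
      have h : H (F := F) (i + 1) ((i + 1) * e) 1 0 0 0 := by
        refine ⟨one_ne_zero, ?_, ?_, ?_⟩ <;> rw [natDegree_zero, natDegree_one] <;> omega
      simpa using h
  | cons b l ih =>
    intro a hred
    rw [FreeGroup.isReduced_cons_cons] at hred
    obtain ⟨hab, hred'⟩ := hred
    have hb := ih b hred'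
    rw [col_cons]
    generalize col F e (b :: l) = v at hb
    obtain ⟨i, s⟩ := a
    obtain ⟨j, t⟩ := b
    have hmono1 : j + 1 < i + 1 → (j + 1) * e ≤ (i + 1) * e :=
      fun h => Nat.mul_le_mul_right e (le_of_lt h)
    have hmono2 : i + 1 < j + 1 → (i + 1) * e ≤ (j + 1) * e :=
      fun h => Nat.mul_le_mul_right e (le_of_lt h)
    cases s <;> cases t
    · apply step_false
      exact HC1 (by omega) (by omega) (hb.2 rfl)
    · apply step_false
      have hne : j + 1 ≠ i + 1 := by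
        intro h
        have hij : i = j := by omega
        exact absurd (hab hij) (by simp)
      exact HC2 (by omega) (by omega) hne hmono1 hmono2 (hb.1 rfl)
    · apply step_true
      have hne : j + 1 ≠ i + 1 := by
        intro h
        have hij : i = j := by omega
        exact absurd (hab hij) (by simp)
      exact HB (by omega) (by omega) hne hmono1 hmono2 (hb.2 rfl)
    · apply step_true
      exact HA (by omega) (by omega) (hb.1 rfl)

lemma mul_nd_le (A B : Matrix (Fin 4) (Fin 4) F[X]) (a b : ℕ)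
    (hA : ∀ r c, (A r c).natDegree ≤ a) (hB : ∀ r c, (B r c).natDegree ≤ b) :
    ∀ r c, ((A * B) r c).natDegree ≤ a + b := by
  intro r c
  rw [Matrix.mul_apply]
  apply natDegree_sum_le_of_forall_le
  intro j _
  exact natDegree_mul_le.trans (add_le_add (hA r j) (hB j c))

lemma Lm_nd (k ke : ℕ) : ∀ r c, (Lm F k ke r c).natDegree ≤ 2 * k + ke := by
  intro r c
  fin_cases r <;> fin_cases c <;> simp [Lm] <;> omega

lemma Lm'_nd (k ke : ℕ) : ∀ r c, (Lm' F k ke r c).natDegree ≤ 2 * k + ke := by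
  intro r c
  fin_cases r <;> fin_cases c <;> simp [Lm'] <;> omega

lemma Wm_nd : ∀ r c, (Wm F[X] r c).natDegree ≤ 0 := by
  intro r c
  fin_cases r <;> fin_cases c <;> simp [Wm]

def Sw (l : List (ℕ × Bool)) : ℕ := (l.map (fun a => a.1 + 1)).sum

lemma letter_nd (e : ℕ) (a : ℕ × Bool) (r c : Fin 4) :
    (letter F e a r c).natDegree ≤ 2 * (2 * (a.1 + 1) + (a.1 + 1) * e) := by
  obtain ⟨i, s⟩ := a
  cases s
  · have h1 := mul_nd_le _ _ _ _ (mul_nd_le _ _ _ _ (Wm_nd (F := F)) (Lm'_nd (i + 1) ((i + 1) * e)))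
      (Wm_nd (F := F))
    have h2 := mul_nd_le _ _ _ _ h1 (Lm'_nd (F := F) (i + 1) ((i + 1) * e)) r c
    show (((Wm F[X] * Lm' F (i + 1) ((i + 1) * e) * Wm F[X])
      * Lm' F (i + 1) ((i + 1) * e)) r c).natDegree ≤ 2 * (2 * (i + 1) + (i + 1) * e)
    omega
  · have h1 := mul_nd_le _ _ _ _ (mul_nd_le _ _ _ _ (Wm_nd (F := F)) (Lm_nd (i + 1) ((i + 1) * e)))
      (Wm_nd (F := F))
    have h2 := mul_nd_le _ _ _ _ (Lm_nd (F := F) (i + 1) ((i + 1) * e)) h1 r c
    show ((Lm F (i + 1) ((i + 1) * e)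
      * (Wm F[X] * Lm F (i + 1) ((i + 1) * e) * Wm F[X])) r c).natDegree
        ≤ 2 * (2 * (i + 1) + (i + 1) * e)
    omega

lemma wordMat_nd (e : ℕ) (l : List (ℕ × Bool)) (r c : Fin 4) :
    (wordMat F e l r c).natDegree ≤ 2 * (2 + e) * Sw l := by
  induction l generalizing r c with
  | nil =>
    simp only [wordMat, List.map_nil, List.prod_nil, Matrix.one_apply]
    split_ifs <;> simp
  | cons a l ih =>
    have h1 := mul_nd_le (letter F e a) (wordMat F e l) _ _ (letter_nd e a) ih r c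
    have h2 : wordMat F e (a :: l) = letter F e a * wordMat F e l := by
      show (List.map (letter F e) (a :: l)).prod = _
      rw [List.map_cons, List.prod_cons]
      rfl
    have h3 : Sw (a :: l) = (a.1 + 1) + Sw l := by simp [Sw]
    rw [h2, h3]
    refine h1.trans (le_of_eq ?_)
    ring

end poly

section field
variable {F : Type*} [Field F]

def LF (a d : F) : Matrix (Fin 4) (Fin 4) F :=
  !![1, 0, 0, 0; a, 1, 0, 0; a * d, d, 1, 0; a * a * d, 0, a, 1]

def LF' (a d : F) : Matrix (Fin 4) (Fin 4) F :=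
  !![1, 0, 0, 0; a, 1, 0, 0; 0, d, 1, 0; a * a * d, a * d, a, 1]

lemma LF_mul (h2 : (2 : F) = 0) (a d : F) : LF a d * LF' a d = 1 := by
  have h4 : (4 : F) = 0 := by linear_combination 2 * h2
  ext i j
  fin_cases i <;> fin_cases j <;>
    simp [LF, LF', Matrix.mul_apply, Fin.sum_univ_four, Matrix.one_apply]
  all_goals (ring_nf; simp [h2, h4])

lemma LF'_mul (h2 : (2 : F) = 0) (a d : F) : LF' a d * LF a d = 1 := by
  have h4 : (4 : F) = 0 := by linear_combination 2 * h2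
  ext i j
  fin_cases i <;> fin_cases j <;>
    simp [LF, LF', Matrix.mul_apply, Fin.sum_univ_four, Matrix.one_apply]
  all_goals (ring_nf; simp [h2, h4])

lemma Wm_mul : Wm F * Wm F = 1 := by
  ext i j
  fin_cases i <;> fin_cases j <;>
    simp [Wm, Matrix.mul_apply, Fin.sum_univ_four, Matrix.one_apply]

def LG (h2 : (2 : F) = 0) (a d : F) : Matrix.GeneralLinearGroup (Fin 4) F :=
  ⟨LF a d, LF' a d, LF_mul h2 a d, LF'_mul h2 a d⟩

def WG (F : Type*) [Field F] : Matrix.GeneralLinearGroup (Fin 4) F :=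
  ⟨Wm F, Wm F, Wm_mul, Wm_mul⟩

lemma LG_mem_Sp (h2 : (2 : F) = 0) (a d : F) : LG h2 a d ∈ Cfsg.Lie.Sp4 F := by
  change ∀ u v, Cfsg.Lie.altForm4 (LF a d *ᵥ u) (LF a d *ᵥ v) = Cfsg.Lie.altForm4 u v
  intro u v
  simp only [Cfsg.Lie.altForm4, LF, Matrix.mulVec, dotProduct, Fin.sum_univ_four]
  simp
  linear_combination (2 * a * a * d * u 0 * v 0 + a * u 0 * v 2 + a * d * u 0 * v 1
    + a * d * u 1 * v 0 + d * u 1 * v 1 + a * u 2 * v 0) * h2

lemma WG_mem_Sp : WG F ∈ Cfsg.Lie.Sp4 F := by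
  change ∀ u v, Cfsg.Lie.altForm4 (Wm F *ᵥ u) (Wm F *ᵥ v) = Cfsg.Lie.altForm4 u v
  intro u v
  simp only [Cfsg.Lie.altForm4, Wm, Matrix.mulVec, dotProduct, Fin.sum_univ_four]
  simp
  ring

lemma LF_star (h2 : (2 : F) = 0) (e : ℕ) (he : e ≠ 0) (a d : F) (h1 : a ^ e = d)
    (h3 : d ^ e = a * a) :
    Cfsg.Lie.star4 (LF a d) = (LF a d).map (fun x => x ^ e) := by
  have hneg : ∀ x : F, -x = x := by
    intro x
    linear_combination (-x) * h2
  ext p r
  fin_cases p <;> fin_cases r <;>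
    simp [Cfsg.Lie.star4, Cfsg.Lie.pairOf, LF, zero_pow he, mul_pow, h1, h3, hneg]
  all_goals ring

lemma Wm_star (h2 : (2 : F) = 0) (e : ℕ) (he : e ≠ 0) :
    Cfsg.Lie.star4 (Wm F) = (Wm F).map (fun x => x ^ e) := by
  have hneg : ∀ x : F, -x = x := by
    intro x
    linear_combination (-x) * h2
  ext p r
  fin_cases p <;> fin_cases r <;>
    simp [Cfsg.Lie.star4, Cfsg.Lie.pairOf, Wm, zero_pow he, hneg]

/-- the specialised generators -/
def gGL (h2 : (2 : F) = 0) (e : ℕ) (t : F) (i : ℕ) : Matrix.GeneralLinearGroup (Fin 4) F :=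
  LG h2 (t ^ (i + 1)) (t ^ ((i + 1) * e)) * (WG F * LG h2 (t ^ (i + 1)) (t ^ ((i + 1) * e)) * WG F)

lemma gGL_mem (h2 : (2 : F) = 0) (e : ℕ) (he : e ≠ 0) (hθ : ∀ x : F, x ^ (e * e) = x ^ 2)
    (t : F) (i : ℕ) : gGL h2 e t i ∈ Cfsg.Lie.Sz F e := by
  have hL : LG h2 (t ^ (i + 1)) (t ^ ((i + 1) * e)) ∈ Cfsg.Lie.Sz F e := by
    apply Subgroup.subset_closure
    refine ⟨LG_mem_Sp h2 _ _, ?_⟩
    show Cfsg.Lie.star4 (LF _ _) = (LF _ _).map _
    apply LF_star h2 e he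
    · rw [← pow_mul]
    · rw [← pow_mul, mul_assoc, mul_comm, pow_mul, hθ, ← pow_mul, ← pow_add]
      congr 1
      ring
  have hW : WG F ∈ Cfsg.Lie.Sz F e := by
    apply Subgroup.subset_closure
    exact ⟨WG_mem_Sp, Wm_star h2 e he⟩
  exact mul_mem hL (mul_mem (mul_mem hW hL) hW)

lemma map_Lm (t : F) (k ke : ℕ) : (Lm F k ke).map (eval t) = LF (t ^ k) (t ^ ke) := by
  ext r c
  fin_cases r <;> fin_cases c <;> simp [Lm, LF] <;> ring

lemma map_Lm' (t : F) (k ke : ℕ) : (Lm' F k ke).map (eval t) = LF' (t ^ k) (t ^ ke) := by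
  ext r c
  fin_cases r <;> fin_cases c <;> simp [Lm', LF'] <;> ring

lemma map_Wm (t : F) : (Wm F[X]).map (eval t) = Wm F := by
  ext r c
  fin_cases r <;> fin_cases c <;> simp [Wm]

lemma coe_letter (h2 : (2 : F) = 0) (e : ℕ) (t : F) (a : ℕ × Bool) :
    ((cond a.2 (gGL h2 e t a.1) (gGL h2 e t a.1)⁻¹ : Matrix.GeneralLinearGroup (Fin 4) F) :
      Matrix (Fin 4) (Fin 4) F) = (letter F e a).map (eval t) := by
  obtain ⟨i, s⟩ := a
  have hm : ∀ A B : Matrix (Fin 4) (Fin 4) F[X], (A * B).map (eval t)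
      = A.map (eval t) * B.map (eval t) := fun A B =>
    Matrix.map_mul (L := A) (M := B) (f := (evalRingHom t : F[X] →+* F))
  cases s
  · show (((gGL h2 e t i)⁻¹ : Matrix.GeneralLinearGroup (Fin 4) F) :
      Matrix (Fin 4) (Fin 4) F) = ((Wm F[X] * Lm' F (i + 1) ((i + 1) * e) * Wm F[X])
        * Lm' F (i + 1) ((i + 1) * e)).map (eval t)
    rw [hm, hm, hm, map_Lm', map_Wm]
    have e1 : (gGL h2 e t i)⁻¹ = (WG F)⁻¹ * ((LG h2 (t ^ (i + 1)) (t ^ ((i + 1) * e)))⁻¹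
        * (WG F)⁻¹) * (LG h2 (t ^ (i + 1)) (t ^ ((i + 1) * e)))⁻¹ := by
      unfold gGL
      rw [mul_inv_rev, mul_inv_rev, mul_inv_rev]
    rw [e1, Units.val_mul, Units.val_mul, Units.val_mul, Matrix.mul_assoc (Wm F)]
    rfl
  · show ((gGL h2 e t i : Matrix.GeneralLinearGroup (Fin 4) F) :
      Matrix (Fin 4) (Fin 4) F) = (Lm F (i + 1) ((i + 1) * e)
        * (Wm F[X] * Lm F (i + 1) ((i + 1) * e) * Wm F[X])).map (eval t)
    rw [hm, hm, hm, map_Lm, map_Wm]
    rfl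

lemma coe_word (h2 : (2 : F) = 0) (e : ℕ) (t : F) (l : List (ℕ × Bool)) :
    (((l.map (fun x => cond x.2 (gGL h2 e t x.1) (gGL h2 e t x.1)⁻¹)).prod :
      Matrix.GeneralLinearGroup (Fin 4) F) : Matrix (Fin 4) (Fin 4) F)
      = (wordMat F e l).map (eval t) := by
  induction l with
  | nil =>
    simp only [List.map_nil, List.prod_nil, wordMat, Units.val_one]
    ext r c
    simp [Matrix.one_apply]
    split_ifs <;> simp
  | cons a l ih =>
    rw [List.map_cons, List.prod_cons, Units.val_mul, ih, coe_letter]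
    show _ = ((List.map (letter F e) (a :: l)).prod).map (eval t)
    rw [List.map_cons, List.prod_cons]
    have := Matrix.map_mul (L := letter F e a) (M := (List.map (letter F e) l).prod)
      (f := (evalRingHom t : F[X] →+* F))
    exact this.symm

lemma two_eq_zero_of_card [Fintype F] {n : ℕ} (hF : Fintype.card F = 2 ^ n) (hn : n ≠ 0) :
    (2 : F) = 0 := by
  have h := FiniteField.cast_card_eq_zero F
  rw [hF] at h
  push_cast at h
  exact (pow_eq_zero_iff hn).mp h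

end field

/-- A non-trivial law holds in only finitely many Suzuki groups: for every non-trivial element w of the free group on countably many generators there is N such that for q = 2^(2m+1) with m ≥ N some substitution of elements of the Suzuki group over the field with q elements into w is not the identity. -/
theorem result (w : FreeGroup ℕ) (hw : w ≠ 1) :
    ∃ N : ℕ, ∀ (F : Type*) [Field F] [Fintype F] (m : ℕ), 1 ≤ m → N ≤ m →
      Fintype.card F = 2 ^ (2 * m + 1) →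
      ∃ f : ℕ → ↥(Cfsg.Lie.Sz F (2 ^ (m + 1))), FreeGroup.lift f w ≠ 1 := by
  refine ⟨4 * Sw w.toWord + 8, ?_⟩
  intro F _ _ m hm1 hNm hF
  classical
  obtain ⟨e, he⟩ : ∃ e, e = 2 ^ (m + 1) := ⟨_, rfl⟩
  rw [← he]
  have h2 : (2 : F) = 0 := two_eq_zero_of_card hF (by omega)
  have hee : e * e = Fintype.card F * 2 := by
    rw [he, hF, ← pow_add, ← pow_succ]
    congr 1
    omega
  have hθ : ∀ x : F, x ^ (e * e) = x ^ 2 := by
    intro x
    rw [hee, pow_mul, FiniteField.pow_card]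
  have he0 : e ≠ 0 := by
    rw [he]
    positivity
  have hem : m + 2 ≤ e := by
    rw [he]
    exact Nat.lt_two_pow_self
  obtain ⟨a, l, hl⟩ : ∃ a l, w.toWord = a :: l := by
    cases h : w.toWord with
    | nil => exact absurd (FreeGroup.toWord_eq_nil_iff.mp h) hw
    | cons a l => exact ⟨a, l, rfl⟩
  have hred : FreeGroup.IsReduced (a :: l) := hl ▸ FreeGroup.isReduced_toWord
  have hP := invariant (F := F) e l a hred
  have hQ : wordMat F e (a :: l) 3 0 ≠ 0 := by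
    obtain ⟨i, s⟩ := a
    cases s
    · exact (hP.2 rfl).1
    · obtain ⟨-, h3, -, -⟩ := hP.1 rfl
      have h4 : 0 < (col F e ((i, true) :: l) 3).natDegree := by
        rw [h3]
        omega
      exact ne_zero_of_natDegree_gt h4
  have hdeg : ((wordMat F e (a :: l) 3 0).natDegree : Cardinal) < Cardinal.mk F := by
    have h1 := wordMat_nd (F := F) e (a :: l) 3 0
    have hS : Sw (a :: l) = Sw w.toWord := by rw [hl]
    rw [hS] at h1
    rw [Cardinal.mk_fintype]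
    have h3 : 4 * Sw w.toWord + 10 ≤ e := by omega
    have h4 := Nat.mul_le_mul_left e h3
    have h5 : 2 * (2 * (2 + e) * Sw w.toWord) < Fintype.card F * 2 := by
      rw [← hee]
      nlinarith
    have h6 : (wordMat F e (a :: l) 3 0).natDegree < Fintype.card F := by omega
    exact_mod_cast h6
  obtain ⟨t, ht⟩ := Polynomial.exists_eval_ne_zero_of_natDegree_lt_card _ hQ hdeg
  refine ⟨fun i => ⟨gGL h2 e t i, gGL_mem h2 e he0 hθ t i⟩, ?_⟩
  intro h
  have h1 : FreeGroup.lift (gGL h2 e t) w = 1 := by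
    have h3 := congrArg (Subgroup.subtype (Cfsg.Lie.Sz F e)) h
    rw [map_one] at h3
    rw [← h3]
    symm
    exact FreeGroup.lift_unique
      ((Subgroup.subtype (Cfsg.Lie.Sz F e)).comp
        (FreeGroup.lift (fun i => (⟨gGL h2 e t i, gGL_mem h2 e he0 hθ t i⟩ :
          ↥(Cfsg.Lie.Sz F e))))) (fun x => by simp)
  have h5 : FreeGroup.lift (gGL h2 e t) w
      = ((a :: l).map (fun x => cond x.2 (gGL h2 e t x.1) (gGL h2 e t x.1)⁻¹)).prod := by
    conv_lhs => rw [← FreeGroup.mk_toWord (x := w), hl]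
    exact FreeGroup.lift_mk
  have h6 := coe_word h2 e t (a :: l)
  rw [← h5, h1] at h6
  have h7 := congrFun (congrFun h6 3) 0
  simp at h7
  exact ht h7.symm

end Cfsg.Agent.S2354
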