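import Cfsg.Statements.S2355
import Mathlib
import Cfsg.Agent.S2353
import Cfsg.Agent.S2540

set_option autoImplicit false
open Cfsg

namespace Cfsg.Agent.S2355

open Matrix

universe u v

/-- naturality of `FreeGroup.lift` -/
lemma lift_comp {G G' : Type*} [Group G] [Group G'] (g : G →* G') (f : ℕ → G) (w : FreeGroup ℕ) :
    FreeGroup.lift (fun i => g (f i)) w = g (FreeGroup.lift f w) := by
  have h : FreeGroup.lift (fun i => g (f i)) = g.comp (FreeGroup.lift f) := by
    ext i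
    simp
  rw [h]
  rfl

/-- some value of the word is non-central -/
def NC (w : FreeGroup ℕ) (G : Type*) [Group G] : Prop :=
  ∃ f : ℕ → G, FreeGroup.lift f w ∉ Subgroup.center G

lemma NC_of_injective {w : FreeGroup ℕ} {H S : Type*} [Group H] [Group S] (φ : H →* S)
    (hφ : Function.Injective φ) (h : NC w H) : NC w S := by
  obtain ⟨f, hf⟩ := h
  refine ⟨fun i => φ (f i), ?_⟩
  rw [lift_comp]
  intro hc
  apply hf
  rw [Subgroup.mem_center_iff] at hc ⊢
  intro x
  apply hφ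
  rw [map_mul, map_mul]
  exact hc (φ x)

lemma not_law_of_NC {w : FreeGroup ℕ} {S : Type*} [Group S] (h : NC w S) {G : Type*} [Group G]
    (e : G ≃* S ⧸ Subgroup.center S) : ¬ ∀ f : ℕ → G, FreeGroup.lift f w = 1 := by
  obtain ⟨f, hf⟩ := h
  intro hlaw
  apply hf
  have h1 := hlaw (fun i => (e.symm.toMonoidHom.comp (QuotientGroup.mk' (Subgroup.center S))) (f i))
  rw [lift_comp] at h1
  have h2 : (QuotientGroup.mk' (Subgroup.center S)) (FreeGroup.lift f w) = 1 := by
    have h3 : e.symm ((QuotientGroup.mk' (Subgroup.center S)) (FreeGroup.lift f w)) = 1 := h1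
    exact (MulEquiv.map_eq_one_iff e.symm).mp h3
  exact (QuotientGroup.eq_one_iff _).mp h2

lemma not_law_of_NC_sub {w : FreeGroup ℕ} {H : Type*} [Group H] (h : NC w H) {G : Type*} [Group G]
    (φ : H →* G) (hφ : Function.Injective φ) : ¬ ∀ f : ℕ → G, FreeGroup.lift f w = 1 := by
  obtain ⟨f, hf⟩ := h
  intro hlaw
  apply hf
  have h1 := hlaw (fun i => φ (f i))
  rw [lift_comp] at h1
  have h2 : FreeGroup.lift f w = 1 := by
    apply hφ
    rw [h1, map_one]
  rw [h2]
  exact Subgroup.one_mem _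

/-- a homomorphism from a perfect group to a commutative group is trivial -/
lemma perfect_hom_trivial {H A : Type*} [Group H] [CommGroup A] (hH : commutator H = ⊤)
    (φ : H →* A) (h : H) : φ h = 1 := by
  have h1 : commutator H ≤ φ.ker := Abelianization.commutator_subset_ker φ
  rw [hH] at h1
  exact h1 (Subgroup.mem_top h)

/-- non-central values in `SL₂` over large finite fields -/
lemma NC_SL2 (w : FreeGroup ℕ) (hw : w ≠ 1) :
    ∃ N : ℕ, ∀ (F : Type) [Field F] [Fintype F], N ≤ Fintype.card F →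
      NC w (Matrix.SpecialLinearGroup (Fin 2) F) := by
  obtain ⟨N, hN⟩ := Cfsg.Agent.S2353.result w hw
  refine ⟨N, ?_⟩
  intro F _ _ hF
  obtain ⟨f, hf⟩ := hN F hF
  refine ⟨fun i => (f i).out, ?_⟩
  intro hc
  apply hf
  have h1 := lift_comp (QuotientGroup.mk' (Subgroup.center (Matrix.SpecialLinearGroup (Fin 2) F)))
    (fun i => (f i).out) w
  have h2 : (fun i => (QuotientGroup.mk' (Subgroup.center (Matrix.SpecialLinearGroup (Fin 2) F)))
      ((f i).out)) = f := by
    funext i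
    exact QuotientGroup.out_eq' (f i)
  rw [h2] at h1
  rw [h1]
  exact (QuotientGroup.eq_one_iff _).mpr hc

lemma perfect_SL2 (F : Type) [Field F] [Fintype F] (hF : 4 ≤ Fintype.card F) :
    commutator (Matrix.SpecialLinearGroup (Fin 2) F) = ⊤ := by
  obtain ⟨a, ha, ha2⟩ := Cfsg.Agent.S2540.exists_sq_ne_one hF
  exact Matrix.SL2.commutator_eq_top ha ha2

section perm
variable {ι : Type} [Fintype ι] [DecidableEq ι] (F : Type) [Field F]

/-- permutation matrix sending `e_j` to `e_{σ j}` -/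
def pmat (σ : Equiv.Perm ι) : Matrix ι ι F := Matrix.of fun i j => if σ j = i then 1 else 0

lemma pmat_apply (σ : Equiv.Perm ι) (i j : ι) : pmat F σ i j = if σ j = i then 1 else 0 := rfl

lemma pmat_mulVec (σ : Equiv.Perm ι) (v : ι → F) (i : ι) : (pmat F σ *ᵥ v) i = v (σ⁻¹ i) := by
  simp only [Matrix.mulVec, dotProduct, pmat_apply]
  rw [Finset.sum_eq_single (σ⁻¹ i)]
  · simp
  · intro j _ hj
    have : σ j ≠ i := by
      intro h
      apply hj
      rw [← h]
      simp
    simp [this]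
  · intro h
    exact absurd (Finset.mem_univ _) h

def pmatHom : Equiv.Perm ι →* Matrix ι ι F where
  toFun := pmat F
  map_one' := by
    ext i j
    simp [pmat_apply, Matrix.one_apply, eq_comm]
  map_mul' σ τ := by
    ext i j
    rw [Matrix.mul_apply, Finset.sum_eq_single (τ j)]
    · rw [pmat_apply, pmat_apply, pmat_apply, if_pos rfl, mul_one]
      rfl
    · intro k _ hk
      rw [pmat_apply, pmat_apply, if_neg (Ne.symm hk), mul_zero]
    · intro h
      exact absurd (Finset.mem_univ _) h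

lemma pmatHom_apply (σ : Equiv.Perm ι) : pmatHom F σ = pmat F σ := rfl

lemma pmatHom_injective : Function.Injective (pmatHom (ι := ι) F) := by
  intro σ τ h
  ext j
  have := congrFun (congrFun h (σ j)) j
  rw [pmatHom_apply, pmatHom_apply, pmat_apply, pmat_apply, if_pos rfl] at this
  by_contra hne
  rw [if_neg (Ne.symm hne)] at this
  exact one_ne_zero this

end perm

lemma exists_perm_rep (H : Type) [Group H] [Finite H] (F : Type) [Field F] :
    ∃ ψ : H →* GL (Fin (Nat.card H)) F, Function.Injective ψ ∧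
      ∀ h, ∃ σ : Equiv.Perm (Fin (Nat.card H)),
        (ψ h : Matrix (Fin (Nat.card H)) (Fin (Nat.card H)) F) = pmat F σ := by
  classical
  have hc : Function.Injective ((Equiv.permCongrHom (Finite.equivFin H)).toMonoidHom.comp
      (MulAction.toPermHom H H)) := by
    intro a b hab
    exact MulAction.toPerm_injective ((Equiv.permCongrHom (Finite.equivFin H)).injective hab)
  refine ⟨((pmatHom F).comp ((Equiv.permCongrHom (Finite.equivFin H)).toMonoidHom.comp
      (MulAction.toPermHom H H))).toHomUnits, ?_, ?_⟩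
  · intro a b hab
    apply hc
    apply pmatHom_injective F
    exact congrArg Units.val hab
  · intro h
    exact ⟨((Equiv.permCongrHom (Finite.equivFin H)).toMonoidHom.comp
      (MulAction.toPermHom H H)) h, rfl⟩

section pad
variable {F : Type} [Field F] {κ κ' ι : Type} [Fintype κ] [DecidableEq κ] [Fintype κ']
  [DecidableEq κ'] [Fintype ι] [DecidableEq ι]

def blockHom (F : Type) [Field F] (κ κ' : Type) [Fintype κ] [DecidableEq κ] [Fintype κ']
    [DecidableEq κ'] : Matrix κ κ F →* Matrix (κ ⊕ κ') (κ ⊕ κ') F where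
  toFun A := Matrix.fromBlocks A 0 0 1
  map_one' := Matrix.fromBlocks_one
  map_mul' A B := by
    rw [Matrix.fromBlocks_multiply]
    simp

def padHom (e : κ ⊕ κ' ≃ ι) : Matrix κ κ F →* Matrix ι ι F :=
  (MonoidHomClass.toMonoidHom (Matrix.reindexAlgEquiv F F e)).comp (blockHom F κ κ')

lemma padHom_apply (e : κ ⊕ κ' ≃ ι) (A : Matrix κ κ F) :
    padHom e A = Matrix.reindex e e (Matrix.fromBlocks A 0 0 1) := by
  simp [padHom, blockHom]

lemma padHom_injective (e : κ ⊕ κ' ≃ ι) : Function.Injective (padHom (F := F) e) := by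
  intro A B h
  rw [padHom_apply, padHom_apply] at h
  have := (Matrix.reindex e e).injective h
  exact (Matrix.fromBlocks_inj.mp this).1

lemma padHom_det (e : κ ⊕ κ' ≃ ι) (A : Matrix κ κ F) : (padHom e A).det = A.det := by
  rw [padHom_apply, Matrix.det_reindex_self, Matrix.det_fromBlocks_zero₂₁, Matrix.det_one, mul_one]

lemma padHom_mulVec (e : κ ⊕ κ' ≃ ι) (A : Matrix κ κ F) (u : ι → F) :
    padHom e A *ᵥ u = (Sum.elim (A *ᵥ (u ∘ e ∘ Sum.inl)) (u ∘ e ∘ Sum.inr)) ∘ e.symm := by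
  rw [padHom_apply, Matrix.reindex_apply, Matrix.submatrix_mulVec_equiv, Matrix.fromBlocks_mulVec]
  simp [Function.comp_def]

def padGL (e : κ ⊕ κ' ≃ ι) : GL κ F →* GL ι F := Units.map (padHom e)

lemma padGL_injective (e : κ ⊕ κ' ≃ ι) : Function.Injective (padGL (F := F) e) :=
  Units.map_injective (padHom_injective e)

lemma padGL_coe (e : κ ⊕ κ' ≃ ι) (g : GL κ F) :
    (padGL e g : Matrix ι ι F) = padHom e (g : Matrix κ κ F) := rfl

end pad

/-- the index equivalence used for padding -/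
def padEquiv {k n : ℕ} (h : k ≤ n) : Fin k ⊕ Fin (n - k) ≃ Fin n :=
  finSumFinEquiv.trans (finCongr (by omega))

/-! ### families -/

lemma sl_of_gl {F : Type} [Field F] {n : ℕ} {G : Type*} [Group G] (K : G →* GL (Fin n) F)
    (hK : Function.Injective K) (hdet : ∀ x, (K x : Matrix (Fin n) (Fin n) F).det = 1) :
    ∃ K' : G →* Matrix.SpecialLinearGroup (Fin n) F, Function.Injective K' ∧
      ∀ x, (K' x : Matrix (Fin n) (Fin n) F) = (K x : Matrix (Fin n) (Fin n) F) := by
  refine ⟨{ toFun := fun x => ⟨(K x : Matrix (Fin n) (Fin n) F), hdet x⟩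
            map_one' := by apply Subtype.ext; simp
            map_mul' := fun x y => by
              apply Subtype.ext
              show ((K (x * y) : GL (Fin n) F) : Matrix (Fin n) (Fin n) F)
                = ((K x : GL (Fin n) F) : Matrix (Fin n) (Fin n) F)
                  * ((K y : GL (Fin n) F) : Matrix (Fin n) (Fin n) F)
              rw [map_mul]
              rfl }, ?_, fun x => rfl⟩
  intro x y h
  apply hK
  apply Units.ext
  exact congrArg Subtype.val h

lemma det_of_perfect {F : Type} [Field F] {n : ℕ} {H : Type*} [Group H] (hH : commutator H = ⊤)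
    (K : H →* GL (Fin n) F) (x : H) : (K x : Matrix (Fin n) (Fin n) F).det = 1 := by
  have h1 := perfect_hom_trivial hH (Matrix.GeneralLinearGroup.det.comp K) x
  exact congrArg Units.val h1

lemma NC_SL {w : FreeGroup ℕ} {F : Type} [Field F] {H : Type*} [Group H] (hH : commutator H = ⊤)
    (hNC : NC w H) {k n : ℕ} (ψ : H →* GL (Fin k) F) (hψ : Function.Injective ψ) (hkn : k ≤ n) :
    NC w (Matrix.SpecialLinearGroup (Fin n) F) := by
  obtain ⟨K', hK', -⟩ := sl_of_gl ((padGL (padEquiv hkn)).comp ψ)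
    ((padGL_injective (padEquiv hkn)).comp hψ) (det_of_perfect hH _)
  exact NC_of_injective K' hK' hNC

def spHom (F : Type) [Field F] (m : ℕ) : GL (Fin m) F →* ↥(Matrix.symplecticGroup (Fin m) F) where
  toFun g := ⟨Matrix.fromBlocks (g : Matrix (Fin m) (Fin m) F) 0 0
      ((g⁻¹ : GL (Fin m) F) : Matrix (Fin m) (Fin m) F)ᵀ, by
    have h1 : (g : Matrix (Fin m) (Fin m) F) * ((g⁻¹ : GL (Fin m) F) : Matrix (Fin m) (Fin m) F)
        = 1 := by
      rw [← Units.val_mul, mul_inv_cancel, Units.val_one]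
    rw [SymplecticGroup.mem_iff, Matrix.J, Matrix.fromBlocks_multiply, Matrix.fromBlocks_transpose,
      Matrix.fromBlocks_multiply]
    simp only [Matrix.transpose_zero,
      Matrix.transpose_transpose, Matrix.mul_one, Matrix.mul_zero, Matrix.zero_mul,
      add_zero, zero_add, Matrix.neg_mul, Matrix.mul_neg, ← Matrix.transpose_mul, h1, neg_zero,
      Matrix.transpose_one]⟩
  map_one' := by
    apply Subtype.ext
    show Matrix.fromBlocks ((1 : GL (Fin m) F) : Matrix (Fin m) (Fin m) F) 0 0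
      (((1 : GL (Fin m) F)⁻¹ : GL (Fin m) F) : Matrix (Fin m) (Fin m) F)ᵀ = 1
    rw [inv_one, Units.val_one, Matrix.transpose_one, Matrix.fromBlocks_one]
  map_mul' g h := by
    apply Subtype.ext
    show Matrix.fromBlocks ((g * h : GL (Fin m) F) : Matrix (Fin m) (Fin m) F) 0 0
        (((g * h)⁻¹ : GL (Fin m) F) : Matrix (Fin m) (Fin m) F)ᵀ
      = Matrix.fromBlocks (g : Matrix (Fin m) (Fin m) F) 0 0
          ((g⁻¹ : GL (Fin m) F) : Matrix (Fin m) (Fin m) F)ᵀ
        * Matrix.fromBlocks (h : Matrix (Fin m) (Fin m) F) 0 0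
          ((h⁻¹ : GL (Fin m) F) : Matrix (Fin m) (Fin m) F)ᵀ
    rw [Matrix.fromBlocks_multiply, _root_.mul_inv_rev, Units.val_mul, Units.val_mul, Matrix.transpose_mul]
    simp

lemma spHom_injective (F : Type) [Field F] (m : ℕ) : Function.Injective (spHom F m) := by
  intro g h hgh
  have h0 : Matrix.fromBlocks (g : Matrix (Fin m) (Fin m) F) 0 0
        ((g⁻¹ : GL (Fin m) F) : Matrix (Fin m) (Fin m) F)ᵀ
      = Matrix.fromBlocks (h : Matrix (Fin m) (Fin m) F) 0 0
        ((h⁻¹ : GL (Fin m) F) : Matrix (Fin m) (Fin m) F)ᵀ := congrArg Subtype.val hgh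
  exact Units.ext (Matrix.fromBlocks_inj.mp h0).1

lemma NC_Sp {w : FreeGroup ℕ} {F : Type} [Field F] {H : Type*} [Group H]
    (hNC : NC w H) {k m : ℕ} (ψ : H →* GL (Fin k) F) (hψ : Function.Injective ψ) (hkm : k ≤ m) :
    NC w ↥(Matrix.symplecticGroup (Fin m) F) :=
  NC_of_injective ((spHom F m).comp ((padGL (padEquiv hkm)).comp ψ))
    ((spHom_injective F m).comp ((padGL_injective (padEquiv hkm)).comp hψ)) hNC

/-- the hyperbolic embedding `g ↦ diag(g, g⁻ᵀ)` -/
def hypHom (F : Type) [Field F] (m : ℕ) :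
    GL (Fin m) F →* Matrix (Fin m ⊕ Fin m) (Fin m ⊕ Fin m) F where
  toFun g := Matrix.fromBlocks (g : Matrix (Fin m) (Fin m) F) 0 0
      ((g⁻¹ : GL (Fin m) F) : Matrix (Fin m) (Fin m) F)ᵀ
  map_one' := by
    rw [inv_one, Units.val_one, Matrix.transpose_one, Matrix.fromBlocks_one]
  map_mul' g h := by
    rw [Matrix.fromBlocks_multiply, _root_.mul_inv_rev, Units.val_mul, Units.val_mul, Matrix.transpose_mul]
    simp

lemma hypHom_injective (F : Type) [Field F] (m : ℕ) : Function.Injective (hypHom F m) := by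
  intro g h hgh
  have h0 : Matrix.fromBlocks (g : Matrix (Fin m) (Fin m) F) 0 0
        ((g⁻¹ : GL (Fin m) F) : Matrix (Fin m) (Fin m) F)ᵀ
      = Matrix.fromBlocks (h : Matrix (Fin m) (Fin m) F) 0 0
        ((h⁻¹ : GL (Fin m) F) : Matrix (Fin m) (Fin m) F)ᵀ := hgh
  exact Units.ext (Matrix.fromBlocks_inj.mp h0).1

lemma hyp_form {F : Type} [Field F] {m : ℕ} (g : GL (Fin m) F) (x : Fin m ⊕ Fin m → F) :
    ∑ i : Fin m, (hypHom F m g *ᵥ x) (Sum.inl i) * (hypHom F m g *ᵥ x) (Sum.inr i)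
      = ∑ i : Fin m, x (Sum.inl i) * x (Sum.inr i) := by
  have h1 : ((g⁻¹ : GL (Fin m) F) : Matrix (Fin m) (Fin m) F) * (g : Matrix (Fin m) (Fin m) F)
      = 1 := by
    rw [← Units.val_mul, inv_mul_cancel, Units.val_one]
  have h2 : hypHom F m g *ᵥ x = Sum.elim ((g : Matrix (Fin m) (Fin m) F) *ᵥ (x ∘ Sum.inl))
      (((g⁻¹ : GL (Fin m) F) : Matrix (Fin m) (Fin m) F)ᵀ *ᵥ (x ∘ Sum.inr)) := by
    show Matrix.fromBlocks (g : Matrix (Fin m) (Fin m) F) 0 0
      ((g⁻¹ : GL (Fin m) F) : Matrix (Fin m) (Fin m) F)ᵀ *ᵥ x = _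
    rw [Matrix.fromBlocks_mulVec]
    simp
  rw [h2]
  simp only [Sum.elim_inl, Sum.elim_inr]
  have h3 : ∑ i : Fin m, ((g : Matrix (Fin m) (Fin m) F) *ᵥ (x ∘ Sum.inl)) i
        * (((g⁻¹ : GL (Fin m) F) : Matrix (Fin m) (Fin m) F)ᵀ *ᵥ (x ∘ Sum.inr)) i
      = ((g : Matrix (Fin m) (Fin m) F) *ᵥ (x ∘ Sum.inl))
        ⬝ᵥ (((g⁻¹ : GL (Fin m) F) : Matrix (Fin m) (Fin m) F)ᵀ *ᵥ (x ∘ Sum.inr)) := rfl
  rw [h3, Matrix.dotProduct_mulVec, Matrix.vecMul_transpose, Matrix.mulVec_mulVec, h1,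
    Matrix.one_mulVec]
  rfl

def blockHomR (F : Type) [Field F] (κ κ' : Type) [Fintype κ] [DecidableEq κ] [Fintype κ']
    [DecidableEq κ'] : Matrix κ κ F →* Matrix (κ' ⊕ κ) (κ' ⊕ κ) F where
  toFun A := Matrix.fromBlocks 1 0 0 A
  map_one' := Matrix.fromBlocks_one
  map_mul' A B := by
    rw [Matrix.fromBlocks_multiply]
    simp

lemma perfect_map_mem_commutator {H O : Type*} [Group H] [Group O] (hH : commutator H = ⊤)
    (θ : H →* O) (h : H) : θ h ∈ commutator O := by
  have h1 : θ h ∈ Subgroup.map θ (commutator H) :=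
    Subgroup.mem_map_of_mem θ (by rw [hH]; exact Subgroup.mem_top h)
  rw [commutator_def, Subgroup.map_commutator] at h1
  rw [commutator_def]
  exact Subgroup.commutator_mono le_top le_top h1

lemma NC_commutator {w : FreeGroup ℕ} {H O : Type*} [Group H] [Group O] (hH : commutator H = ⊤)
    (hNC : NC w H) (θ : H →* O) (hθ : Function.Injective θ) : NC w ↥(commutator O) := by
  refine NC_of_injective (θ.codRestrict (commutator O) (perfect_map_mem_commutator hH θ)) ?_ hNC
  intro a b hab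
  apply hθ
  exact congrArg Subtype.val hab

/-- embedding into the isometry group of the plus form -/
lemma exists_oPlus (F : Type) [Field F] (m : ℕ) :
    ∃ θ : GL (Fin m) F →* ↥(Cfsg.isometryGroup F (Cfsg.quadFormPlus m F)), Function.Injective θ := by
  refine ⟨(hypHom F m).toHomUnits.codRestrict _ ?_, ?_⟩
  · intro g u v
    show Cfsg.quadFormPlus m F (hypHom F m g *ᵥ u) = Cfsg.quadFormPlus m F u
    unfold Cfsg.quadFormPlus
    exact hyp_form g u
  · intro a b hab
    apply hypHom_injective F m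
    have h1 := congrArg Subtype.val hab
    exact congrArg Units.val h1

lemma exists_oMinus (F : Type) [Field F] (m : ℕ) (a b : F) :
    ∃ θ : GL (Fin m) F →* ↥(Cfsg.isometryGroup F (Cfsg.quadFormMinus m F a b)),
      Function.Injective θ := by
  refine ⟨((blockHom F (Fin m ⊕ Fin m) (Fin 2)).comp (hypHom F m)).toHomUnits.codRestrict _ ?_, ?_⟩
  · intro g u v
    show Cfsg.quadFormMinus m F a b (Matrix.fromBlocks (hypHom F m g) 0 0 1 *ᵥ u)
      = Cfsg.quadFormMinus m F a b u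
    have h2 : Matrix.fromBlocks (hypHom F m g) 0 0 (1 : Matrix (Fin 2) (Fin 2) F) *ᵥ u
        = Sum.elim (hypHom F m g *ᵥ (u ∘ Sum.inl)) (u ∘ Sum.inr) := by
      rw [Matrix.fromBlocks_mulVec]
      simp
    rw [h2]
    unfold Cfsg.quadFormMinus
    simp only [Sum.elim_inl, Sum.elim_inr, Function.comp_apply]
    rw [hyp_form g (u ∘ Sum.inl)]
    rfl
  · intro x y hab
    apply hypHom_injective F m
    have h1 := congrArg Units.val (congrArg Subtype.val hab)
    have h2 : Matrix.fromBlocks (hypHom F m x) 0 0 (1 : Matrix (Fin 2) (Fin 2) F)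
        = Matrix.fromBlocks (hypHom F m y) 0 0 (1 : Matrix (Fin 2) (Fin 2) F) := h1
    exact (Matrix.fromBlocks_inj.mp h2).1

lemma exists_oOdd (F : Type) [Field F] (m : ℕ) :
    ∃ θ : GL (Fin m) F →* ↥(Cfsg.isometryGroup F (Cfsg.quadFormOdd m F)), Function.Injective θ := by
  refine ⟨((blockHomR F (Fin m ⊕ Fin m) Unit).comp (hypHom F m)).toHomUnits.codRestrict _ ?_, ?_⟩
  · intro g u v
    show Cfsg.quadFormOdd m F (Matrix.fromBlocks 1 0 0 (hypHom F m g) *ᵥ u)
      = Cfsg.quadFormOdd m F u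
    have h2 : Matrix.fromBlocks (1 : Matrix Unit Unit F) 0 0 (hypHom F m g) *ᵥ u
        = Sum.elim (u ∘ Sum.inl) (hypHom F m g *ᵥ (u ∘ Sum.inr)) := by
      rw [Matrix.fromBlocks_mulVec]
      simp
    rw [h2]
    unfold Cfsg.quadFormOdd
    simp only [Sum.elim_inl, Sum.elim_inr, Function.comp_apply]
    rw [hyp_form g (u ∘ Sum.inr)]
    rfl
  · intro x y hab
    apply hypHom_injective F m
    have h1 := congrArg Units.val (congrArg Subtype.val hab)
    have h2 : Matrix.fromBlocks (1 : Matrix Unit Unit F) 0 0 (hypHom F m x)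
        = Matrix.fromBlocks (1 : Matrix Unit Unit F) 0 0 (hypHom F m y) := h1
    exact (Matrix.fromBlocks_inj.mp h2).2.2.2

/-- the general orthogonal transfer -/
lemma NC_Omega {w : FreeGroup ℕ} {F : Type} [Field F] {H : Type*} [Group H]
    (hH : commutator H = ⊤) (hNC : NC w H) {k m : ℕ} (ψ : H →* GL (Fin k) F)
    (hψ : Function.Injective ψ) (hkm : k ≤ m) {O : Type*} [Group O]
    (θ : GL (Fin m) F →* O) (hθ : Function.Injective θ) : NC w ↥(commutator O) :=
  NC_commutator hH hNC (θ.comp ((padGL (padEquiv hkm)).comp ψ))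
    (hθ.comp ((padGL_injective (padEquiv hkm)).comp hψ))

/-! ### unitary -/

lemma herm_split {F : Type} [Field F] (q : ℕ) {k k' n : ℕ} (e : Fin k ⊕ Fin k' ≃ Fin n)
    (X Y : Fin n → F) :
    Cfsg.hermForm n F q X Y = Cfsg.hermForm k F q (X ∘ e ∘ Sum.inl) (Y ∘ e ∘ Sum.inl)
      + ∑ b : Fin k', X (e (Sum.inr b)) * (Y (e (Sum.inr b))) ^ q := by
  unfold Cfsg.hermForm
  rw [← Equiv.sum_comp e, Fintype.sum_sum_type]
  rfl

lemma NC_SU {w : FreeGroup ℕ} {F : Type} [Field F] (q : ℕ) {H : Type*} [Group H]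
    (hH : commutator H = ⊤) (hNC : NC w H) {k n : ℕ}
    (ψ : H →* GL (Fin k) F) (hψ : Function.Injective ψ)
    (hU : ∀ h u v, Cfsg.hermForm k F q ((ψ h : Matrix (Fin k) (Fin k) F) *ᵥ u)
      ((ψ h : Matrix (Fin k) (Fin k) F) *ᵥ v) = Cfsg.hermForm k F q u v)
    (hkn : k ≤ n) : NC w ↥(Cfsg.SU n F q) := by
  obtain ⟨K', hK', hK'coe⟩ := sl_of_gl ((padGL (padEquiv hkn)).comp ψ)
    ((padGL_injective (padEquiv hkn)).comp hψ) (det_of_perfect hH _)
  have hmem : ∀ x, K' x ∈ Cfsg.SU n F q := by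
    intro x u v
    show Cfsg.hermForm n F q ((K' x : Matrix (Fin n) (Fin n) F) *ᵥ u)
      ((K' x : Matrix (Fin n) (Fin n) F) *ᵥ v) = Cfsg.hermForm n F q u v
    rw [hK'coe x]
    show Cfsg.hermForm n F q (padHom (padEquiv hkn) (ψ x : Matrix (Fin k) (Fin k) F) *ᵥ u)
      (padHom (padEquiv hkn) (ψ x : Matrix (Fin k) (Fin k) F) *ᵥ v) = _
    rw [padHom_mulVec, padHom_mulVec, herm_split q (padEquiv hkn), herm_split q (padEquiv hkn) u v]
    have h1 : ∀ z : Fin n → F,
        ((Sum.elim ((ψ x : Matrix (Fin k) (Fin k) F) *ᵥ (z ∘ ⇑(padEquiv hkn) ∘ Sum.inl))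
          (z ∘ ⇑(padEquiv hkn) ∘ Sum.inr)) ∘ ⇑(padEquiv hkn).symm) ∘ ⇑(padEquiv hkn) ∘ Sum.inl
          = (ψ x : Matrix (Fin k) (Fin k) F) *ᵥ (z ∘ ⇑(padEquiv hkn) ∘ Sum.inl) := by
      intro z
      funext a
      simp
    rw [h1 u, h1 v, hU]
    congr 1
    apply Finset.sum_congr rfl
    intro b _
    simp
  refine NC_of_injective (K'.codRestrict (Cfsg.SU n F q) hmem) ?_ hNC
  intro a b hab
  apply hK'
  exact congrArg Subtype.val hab

lemma pmat_unitary {F : Type} [Field F] (q k : ℕ) (σ : Equiv.Perm (Fin k)) (u v : Fin k → F) :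
    Cfsg.hermForm k F q (pmat F σ *ᵥ u) (pmat F σ *ᵥ v) = Cfsg.hermForm k F q u v := by
  unfold Cfsg.hermForm
  simp only [pmat_mulVec]
  exact Equiv.sum_comp σ⁻¹ (fun i => u i * v i ^ q)

lemma herm_P {F : Type} [Field F] (q : ℕ) (hadd : ∀ x y : F, (x + y) ^ q = x ^ q + y ^ q)
    (hqq : ∀ x : F, (x ^ q) ^ q = x) (ζ ζ' τ : F) (hζ : ζ * ζ ^ q = -1) (hζ' : ζ' * ζ' ^ q = -1)
    (hτ : τ ^ q = -τ) (α β : Fin 2 → F) :
    Cfsg.hermForm 2 F q (!![1, τ * (1 + ζ * ζ' ^ q); ζ, τ * (1 + ζ * ζ' ^ q) * ζ'] *ᵥ α)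
        (!![1, τ * (1 + ζ * ζ' ^ q); ζ, τ * (1 + ζ * ζ' ^ q) * ζ'] *ᵥ β)
      = -(τ * (1 + ζ * ζ' ^ q) * (1 + ζ ^ q * ζ')) * (α 0 * (β 1) ^ q - α 1 * (β 0) ^ q) := by
  unfold Cfsg.hermForm
  simp only [Fin.sum_univ_two, Matrix.mulVec, dotProduct, Matrix.of_apply, Matrix.cons_val_zero,
    Matrix.cons_val_one, Matrix.cons_val', Matrix.cons_val_fin_one, hadd, mul_pow, one_pow, hqq, hτ,
    one_mul]
  linear_combination (α 0 * (β 0) ^ q) * hζ
    + (-(τ ^ 2 * (1 + ζ * ζ' ^ q) * (1 + ζ ^ q * ζ') * α 1 * (β 1) ^ q)) * hζ'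

lemma herm_conj {F : Type} [Field F] (q : ℕ) (hadd : ∀ x y : F, (x + y) ^ q = x ^ q + y ^ q)
    (hqq : ∀ x : F, (x ^ q) ^ q = x) (ζ ζ' τ : F) (hζ : ζ * ζ ^ q = -1) (hζ' : ζ' * ζ' ^ q = -1)
    (hτ : τ ^ q = -τ) (P : GL (Fin 2) F)
    (hP : (P : Matrix (Fin 2) (Fin 2) F) = !![1, τ * (1 + ζ * ζ' ^ q); ζ, τ * (1 + ζ * ζ' ^ q) * ζ'])
    (A : Matrix (Fin 2) (Fin 2) F) (hA : ∀ i j, (A i j) ^ q = A i j) (hdet : A.det = 1)
    (u v : Fin 2 → F) :
    Cfsg.hermForm 2 F q (((P : Matrix (Fin 2) (Fin 2) F) * A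
        * ((P⁻¹ : GL (Fin 2) F) : Matrix (Fin 2) (Fin 2) F)) *ᵥ u)
      (((P : Matrix (Fin 2) (Fin 2) F) * A
        * ((P⁻¹ : GL (Fin 2) F) : Matrix (Fin 2) (Fin 2) F)) *ᵥ v)
      = Cfsg.hermForm 2 F q u v := by
  have hPP : (P : Matrix (Fin 2) (Fin 2) F) * ((P⁻¹ : GL (Fin 2) F) : Matrix (Fin 2) (Fin 2) F)
      = 1 := by
    rw [← Units.val_mul, mul_inv_cancel, Units.val_one]
  have hu : ∀ z : Fin 2 → F, (P : Matrix (Fin 2) (Fin 2) F)
      *ᵥ (((P⁻¹ : GL (Fin 2) F) : Matrix (Fin 2) (Fin 2) F) *ᵥ z) = z := by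
    intro z
    rw [Matrix.mulVec_mulVec, hPP, Matrix.one_mulVec]
  have hM : ∀ z : Fin 2 → F, ((P : Matrix (Fin 2) (Fin 2) F) * A
        * ((P⁻¹ : GL (Fin 2) F) : Matrix (Fin 2) (Fin 2) F)) *ᵥ z
      = (P : Matrix (Fin 2) (Fin 2) F)
        *ᵥ (A *ᵥ (((P⁻¹ : GL (Fin 2) F) : Matrix (Fin 2) (Fin 2) F) *ᵥ z)) := by
    intro z
    rw [Matrix.mulVec_mulVec, Matrix.mulVec_mulVec]
  have hdet' : A 0 0 * A 1 1 - A 0 1 * A 1 0 = 1 := by
    rw [← Matrix.det_fin_two]; exact hdet
  rw [hM u, hM v]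
  conv_rhs => rw [← hu u, ← hu v]
  rw [hP, herm_P q hadd hqq ζ ζ' τ hζ hζ' hτ, herm_P q hadd hqq ζ ζ' τ hζ hζ' hτ]
  congr 1
  obtain ⟨u', hu'⟩ : ∃ u' : Fin 2 → F,
      u' = ((P⁻¹ : GL (Fin 2) F) : Matrix (Fin 2) (Fin 2) F) *ᵥ u := ⟨_, rfl⟩
  obtain ⟨v', hv'⟩ : ∃ v' : Fin 2 → F,
      v' = ((P⁻¹ : GL (Fin 2) F) : Matrix (Fin 2) (Fin 2) F) *ᵥ v := ⟨_, rfl⟩
  rw [← hu', ← hv']
  simp only [Matrix.mulVec, dotProduct, Fin.sum_univ_two, hadd, mul_pow, hA]
  linear_combination (u' 0 * v' 1 ^ q - u' 1 * v' 0 ^ q) * hdet'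

lemma exists_params (F : Type) [Field F] [Fintype F] (q : ℕ) (hF : Fintype.card F = q ^ 2)
    (hq : 2 ≤ q) :
    ∃ ζ ζ' τ : F, ζ * ζ ^ q = -1 ∧ ζ' * ζ' ^ q = -1 ∧ ζ ≠ ζ' ∧ τ ≠ 0 ∧ τ ^ q = -τ := by
  classical
  obtain ⟨γ, hγ⟩ := IsCyclic.exists_generator (α := Fˣ)
  have hord : orderOf γ = q ^ 2 - 1 := by
    rw [orderOf_eq_card_of_forall_mem_zpowers hγ, Nat.card_units, Nat.card_eq_fintype_card, hF]
  by_cases h2 : (2 : F) = 0
  · have hneg : (-1 : F) = 1 := by linear_combination (-1 : F) * h2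
    refine ⟨1, ((γ ^ (q - 1) : Fˣ) : F), 1, by simp [hneg], ?_, ?_, one_ne_zero, by simp [hneg]⟩
    · rw [hneg, ← pow_succ', ← Units.val_pow_eq_pow_val, ← pow_mul]
      have he : (q - 1) * (q + 1) = q ^ 2 - 1 := by
        obtain ⟨s, rfl⟩ : ∃ s, q = s + 1 := ⟨q - 1, by omega⟩
        simp only [Nat.add_sub_cancel]
        ring_nf
        omega
      rw [he, ← hord, pow_orderOf_eq_one, Units.val_one]
    · intro h1
      have h3 : γ ^ (q - 1) = 1 := Units.ext h1.symm
      have h4 := orderOf_dvd_of_pow_eq_one h3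
      rw [hord] at h4
      have h5 := Nat.le_of_dvd (by omega) h4
      have h6 : q < q ^ 2 := by nlinarith
      omega
  · have hqodd : Odd q := by
      rw [← Nat.not_even_iff_odd]
      intro heven
      apply h2
      have h3 : Fintype.card F % 2 = 0 := by
        rw [hF]
        obtain ⟨s, rfl⟩ := heven
        ring_nf
        omega
      have h4 : ringChar F = 2 := FiniteField.even_card_iff_char_two.mpr h3
      haveI : CharP F 2 := ringChar.of_eq h4
      exact_mod_cast CharP.cast_eq_zero F 2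
    obtain ⟨t, rfl⟩ := hqodd
    have ht : 1 ≤ t := by omega
    have hord' : orderOf γ = 2 * (2 * t * (t + 1)) := by
      rw [hord]
      have : (2 * t + 1) ^ 2 = 2 * (2 * t * (t + 1)) + 1 := by ring
      omega
    have hδ2 : ((γ ^ (2 * t * (t + 1)) : Fˣ) : F) ^ 2 = 1 := by
      rw [← Units.val_pow_eq_pow_val, ← pow_mul, mul_comm, ← hord', pow_orderOf_eq_one,
        Units.val_one]
    have hδ1 : ((γ ^ (2 * t * (t + 1)) : Fˣ) : F) ≠ 1 := by
      intro h1
      have h3 : γ ^ (2 * t * (t + 1)) = 1 := Units.ext h1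
      have h4 := orderOf_dvd_of_pow_eq_one h3
      rw [hord'] at h4
      have hpos : 0 < 2 * t * (t + 1) := by positivity
      have h5 := Nat.le_of_dvd hpos h4
      omega
    have hδ : ((γ ^ (2 * t * (t + 1)) : Fˣ) : F) = -1 := by
      have h3 : (((γ ^ (2 * t * (t + 1)) : Fˣ) : F) - 1) * (((γ ^ (2 * t * (t + 1)) : Fˣ) : F) + 1)
          = 0 := by linear_combination hδ2
      rcases mul_eq_zero.mp h3 with h4 | h4
      · exact absurd (sub_eq_zero.mp h4) hδ1
      · exact eq_neg_of_add_eq_zero_left h4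
    have hζ : ((γ ^ t : Fˣ) : F) * ((γ ^ t : Fˣ) : F) ^ (2 * t + 1) = -1 := by
      rw [← hδ, ← pow_succ', ← Units.val_pow_eq_pow_val, ← pow_mul]
      congr 2
      ring
    refine ⟨((γ ^ t : Fˣ) : F), -((γ ^ t : Fˣ) : F), ((γ ^ (t + 1) : Fˣ) : F), hζ, ?_, ?_,
      Units.ne_zero _, ?_⟩
    · have : (-((γ ^ t : Fˣ) : F)) * (-((γ ^ t : Fˣ) : F)) ^ (2 * t + 1)
          = ((γ ^ t : Fˣ) : F) * ((γ ^ t : Fˣ) : F) ^ (2 * t + 1) := by
        rw [Odd.neg_pow ⟨t, rfl⟩]
        ring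
      rw [this, hζ]
    · intro h
      have h3 : (2 : F) * ((γ ^ t : Fˣ) : F) = 0 := by linear_combination h
      rcases mul_eq_zero.mp h3 with h4 | h4
      · exact h2 h4
      · exact Units.ne_zero _ h4
    · have : ((γ ^ (t + 1) : Fˣ) : F) ^ (2 * t + 1)
          = ((γ ^ (t + 1) : Fˣ) : F) * ((γ ^ (2 * t * (t + 1)) : Fˣ) : F) := by
        rw [← Units.val_pow_eq_pow_val, ← Units.val_mul, ← pow_mul, ← pow_add]
        congr 2
        ring
      rw [this, hδ]
      ring

/-- the twisted embedding of `SL₂` of the subfield into the unitary group -/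
lemma exists_unitary_SL2 (F : Type) [Field F] [Fintype F] (q : ℕ) (hF : Fintype.card F = q ^ 2)
    (hq : 2 ≤ q) :
    ∃ (F₀ : Type) (_ : Field F₀) (_ : Fintype F₀), Fintype.card F₀ = q ∧
      ∃ ψ : Matrix.SpecialLinearGroup (Fin 2) F₀ →* GL (Fin 2) F, Function.Injective ψ ∧
        ∀ g u v, Cfsg.hermForm 2 F q ((ψ g : Matrix (Fin 2) (Fin 2) F) *ᵥ u)
          ((ψ g : Matrix (Fin 2) (Fin 2) F) *ᵥ v) = Cfsg.hermForm 2 F q u v := by
  classical
  haveI : CharP F (ringChar F) := ringChar.charP F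
  haveI : Fact (ringChar F).Prime := ⟨CharP.char_is_prime F _⟩
  have hp : (ringChar F).Prime := Fact.out
  obtain ⟨e, -, he⟩ := FiniteField.card F (ringChar F)
  rw [hF] at he
  obtain ⟨a, -, hqa⟩ := (Nat.dvd_prime_pow hp).mp (Dvd.intro_left (q ^ 1) (by rw [← he]; ring) : q ∣ ringChar F ^ (e : ℕ))
  have ha0 : a ≠ 0 := by
    intro h0
    rw [h0, pow_zero] at hqa
    omega
  -- Frobenius facts
  have hadd : ∀ x y : F, (x + y) ^ q = x ^ q + y ^ q := by
    intro x y
    rw [hqa]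
    exact add_pow_char_pow ..
  have hqq : ∀ x : F, (x ^ q) ^ q = x := by
    intro x
    rw [← pow_mul, ← sq, ← hF, FiniteField.pow_card]
  -- the subfield
  letI : Algebra (ZMod (ringChar F)) F := ZMod.algebra F (ringChar F)
  letI : Fintype (GaloisField (ringChar F) a) := Fintype.ofFinite _
  have hcard0 : Fintype.card (GaloisField (ringChar F) a) = q := by
    rw [← Nat.card_eq_fintype_card, GaloisField.card _ _ ha0, hqa]
  have hfr : Module.finrank (ZMod (ringChar F)) F = 2 * a := by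
    have h1 := Module.card_eq_pow_finrank (K := ZMod (ringChar F)) (V := F)
    rw [ZMod.card, hF, hqa, ← pow_mul] at h1
    exact (Nat.pow_right_injective hp.two_le h1).symm.trans (mul_comm a 2)
  obtain ⟨ι⟩ := FiniteField.nonempty_algHom_of_finrank_dvd (F := ZMod (ringChar F))
    (K := GaloisField (ringChar F) a) (L := F)
    (by rw [GaloisField.finrank _ ha0, hfr]; exact Dvd.intro_left 2 rfl)
  have hι : ∀ y : GaloisField (ringChar F) a, (ι y) ^ q = ι y := by
    intro y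
    rw [← map_pow, ← hcard0, FiniteField.pow_card]
  -- the parameters
  obtain ⟨ζ, ζ', τ, hζ, hζ', hne, hτ0, hτ⟩ := exists_params F q hF hq
  have hζ'0 : ζ' ^ q ≠ 0 := by
    intro h0
    rw [h0, mul_zero] at hζ'
    exact one_ne_zero (neg_eq_zero.mp hζ'.symm)
  have hκ : 1 + ζ * ζ' ^ q ≠ 0 := by
    have : 1 + ζ * ζ' ^ q = (ζ - ζ') * ζ' ^ q := by linear_combination hζ'
    rw [this]
    exact mul_ne_zero (sub_ne_zero.mpr hne) hζ'0
  have hdetP : (!![1, τ * (1 + ζ * ζ' ^ q); ζ, τ * (1 + ζ * ζ' ^ q) * ζ']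
      : Matrix (Fin 2) (Fin 2) F).det ≠ 0 := by
    rw [Matrix.det_fin_two_of]
    have : 1 * (τ * (1 + ζ * ζ' ^ q) * ζ') - τ * (1 + ζ * ζ' ^ q) * ζ
        = τ * (1 + ζ * ζ' ^ q) * (ζ' - ζ) := by ring
    rw [this]
    exact mul_ne_zero (mul_ne_zero hτ0 hκ) (sub_ne_zero.mpr (Ne.symm hne))
  refine ⟨GaloisField (ringChar F) a, inferInstance, inferInstance, hcard0,
    (MulAut.conj (Matrix.GeneralLinearGroup.mkOfDetNeZero _ hdetP)).toMonoidHom.comp
      (Matrix.SpecialLinearGroup.toGL.comp (Matrix.SpecialLinearGroup.map ι.toRingHom)), ?_, ?_⟩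
  · intro g h hgh
    have h1 := (MulAut.conj (Matrix.GeneralLinearGroup.mkOfDetNeZero _ hdetP)).injective hgh
    have h2 := Matrix.SpecialLinearGroup.toGL_injective h1
    apply Subtype.ext
    ext i j
    have h3 := congrFun (congrFun (congrArg Subtype.val h2) i) j
    exact ι.toRingHom.injective h3
  · intro g u v
    exact herm_conj q hadd hqq ζ ζ' τ hζ hζ' hτ (Matrix.GeneralLinearGroup.mkOfDetNeZero _ hdetP) rfl
      ((Matrix.SpecialLinearGroup.map ι.toRingHom g : Matrix.SpecialLinearGroup (Fin 2) F) :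
        Matrix (Fin 2) (Fin 2) F)
      (fun i j => hι (g i j))
      (Matrix.SpecialLinearGroup.map ι.toRingHom g).2 u v

/-! ### alternating -/

lemma exists_alt_embedding (H : Type) [Group H] [Finite H] (n : ℕ) (hn : 2 * Nat.card H ≤ n) :
    ∃ φ : H →* ↥(alternatingGroup (Fin n)), Function.Injective φ := by
  classical
  haveI : Fintype H := Fintype.ofFinite H
  have hcard : Fintype.card (H ⊕ H) ≤ Fintype.card (Fin n) := by
    rw [Fintype.card_sum, Fintype.card_fin, ← Nat.card_eq_fintype_card]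
    omega
  obtain ⟨ε⟩ := Function.Embedding.nonempty_of_card_le hcard
  let f : H ⊕ H ≃ {x : Fin n // x ∈ Set.range ε} := Equiv.ofInjective ε ε.injective
  let φ₀ : H →* Equiv.Perm (Fin n) := (Equiv.Perm.extendDomainHom f).comp
    ((Equiv.Perm.sumCongrHom H H).comp
      ((MulAction.toPermHom H H).prod (MulAction.toPermHom H H)))
  have hmem : ∀ h, φ₀ h ∈ alternatingGroup (Fin n) := by
    intro h
    rw [Equiv.Perm.mem_alternatingGroup]
    show Equiv.Perm.sign (Equiv.Perm.extendDomain (Equiv.Perm.sumCongr (MulAction.toPermHom H H h)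
      (MulAction.toPermHom H H h)) f) = 1
    rw [Equiv.Perm.sign_extendDomain]
    have := Equiv.Perm.sign_sumCongr (MulAction.toPermHom H H h) (MulAction.toPermHom H H h)
    rw [Int.units_mul_self] at this
    exact this
  refine ⟨φ₀.codRestrict _ hmem, ?_⟩
  intro a b hab
  have h1 : φ₀ a = φ₀ b := congrArg Subtype.val hab
  have h2 := Equiv.Perm.extendDomainHom_injective f h1
  have h3 := Equiv.Perm.sumCongrHom_injective h2
  have h4 : MulAction.toPermHom H H a = MulAction.toPermHom H H b := congrArg Prod.fst h3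
  exact MulAction.toPerm_injective h4

/-! ### order bounds -/

lemma card_bound {G : Type*} {S : Type} [Group G] [Group S] (e : G ≃* S ⧸ Subgroup.center S)
    {ι : Type} [Fintype ι] [DecidableEq ι] {F : Type} [Field F] [Fintype F]
    (j : S → Matrix ι ι F) (hj : Function.Injective j) {D Q : ℕ} (hD : Fintype.card ι ≤ D)
    (hQ : Fintype.card F ≤ Q) : Nat.card G ≤ Q ^ (D * D) := by
  classical
  haveI : Finite S := Finite.of_injective j hj
  have hQpos : 0 < Q := lt_of_lt_of_le Fintype.card_pos hQ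
  calc Nat.card G = Nat.card (S ⧸ Subgroup.center S) := Nat.card_congr e.toEquiv
    _ ≤ Nat.card S := Nat.card_le_card_of_surjective _ (QuotientGroup.mk_surjective)
    _ ≤ Nat.card (Matrix ι ι F) := Nat.card_le_card_of_injective j hj
    _ = Fintype.card F ^ (Fintype.card ι * Fintype.card ι) := by
        rw [Nat.card_eq_fintype_card]
        show Fintype.card (ι → ι → F) = _
        rw [Fintype.card_fun, Fintype.card_fun, ← pow_mul]
    _ ≤ Q ^ (Fintype.card ι * Fintype.card ι) := Nat.pow_le_pow_left hQ _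
    _ ≤ Q ^ (D * D) := Nat.pow_le_pow_right hQpos (Nat.mul_le_mul hD hD)

/-- A non-trivial law is satisfied by only finitely many finite simple groups that are alternating or classical, up to isomorphism: for every non-trivial element w of the free group on countably many generators there is a bound N such that every alternating group of degree ≥ 5 and every simple classical group (linear, symplectic, unitary or orthogonal, in this problem's sense) in which w is a law has order at most N. -/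
theorem result (w : FreeGroup ℕ) (hw : w ≠ 1) :
    ∃ N : ℕ, ∀ (G : Type*) [Group G] [Finite G],
      (Cfsg.IsAlternating G ∨ Cfsg.IsPSL G ∨ Cfsg.IsPSp G ∨ Cfsg.IsPSU G ∨ Cfsg.IsPOmegaOdd G ∨
          Cfsg.IsPOmegaPlus G ∨ Cfsg.IsPOmegaMinus G) →
      (∀ f : ℕ → G, FreeGroup.lift f w = 1) → Nat.card G ≤ N := by
  classical
  obtain ⟨N₀, hN₀⟩ := NC_SL2 w hw
  obtain ⟨p, hp5, hp⟩ := Nat.exists_infinite_primes (max (max N₀ 4) 5)
  haveI : Fact p.Prime := ⟨hp⟩
  have hp1 : N₀ ≤ p := le_trans (le_trans (le_max_left _ _) (le_max_left _ _)) hp5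
  have hp2 : 4 ≤ p := le_trans (le_trans (le_max_right _ _) (le_max_left _ _)) hp5
  have hcardZ : Fintype.card (ZMod p) = p := ZMod.card p
  have hNCH : NC w (Matrix.SpecialLinearGroup (Fin 2) (ZMod p)) :=
    hN₀ (ZMod p) (by rw [hcardZ]; exact hp1)
  have hperfH : commutator (Matrix.SpecialLinearGroup (Fin 2) (ZMod p)) = ⊤ :=
    perfect_SL2 (ZMod p) (by rw [hcardZ]; exact hp2)
  obtain ⟨k, hk⟩ : ∃ k, k = Nat.card (Matrix.SpecialLinearGroup (Fin 2) (ZMod p)) := ⟨_, rfl⟩
  obtain ⟨N₁, hN₁⟩ : ∃ N₁, N₁ = max N₀ 4 := ⟨_, rfl⟩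
  have hN₁0 : N₀ ≤ N₁ := by rw [hN₁]; exact le_max_left _ _
  have hN₁4 : 4 ≤ N₁ := by rw [hN₁]; exact le_max_right _ _
  refine ⟨max (2 * k).factorial ((N₁ ^ 2) ^ ((2 * k + 1) * (2 * k + 1))), ?_⟩
  intro G _ _ hfam hlaw
  have hfield : ∀ (F : Type) [Field F] [Fintype F], N₁ ≤ Fintype.card F →
      NC w (Matrix.SpecialLinearGroup (Fin 2) F) ∧
        commutator (Matrix.SpecialLinearGroup (Fin 2) F) = ⊤ := by
    intro F _ _ hF
    exact ⟨hN₀ F (le_trans hN₁0 hF), perfect_SL2 F (le_trans hN₁4 hF)⟩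
  have hN₁sq : N₁ ≤ N₁ ^ 2 := Nat.le_self_pow two_ne_zero _
  rcases hfam with h | h | h | h | h | h | h
  · -- alternating
    obtain ⟨n, hn5, ⟨e⟩⟩ := h
    refine le_trans ?_ (le_max_left _ _)
    have hn : n < 2 * k := by
      by_contra hcon
      obtain ⟨φ, hφ⟩ := exists_alt_embedding (Matrix.SpecialLinearGroup (Fin 2) (ZMod p)) n
        (by rw [← hk]; omega)
      exact not_law_of_NC_sub hNCH (e.symm.toMonoidHom.comp φ) (e.symm.injective.comp hφ) hlaw
    calc Nat.card G = Nat.card (alternatingGroup (Fin n)) := Nat.card_congr e.toEquiv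
      _ ≤ Nat.card (Equiv.Perm (Fin n)) :=
          Nat.card_le_card_of_injective Subtype.val Subtype.val_injective
      _ = n.factorial := by rw [Nat.card_eq_fintype_card, Fintype.card_perm, Fintype.card_fin]
      _ ≤ (2 * k).factorial := Nat.factorial_le hn.le
  · -- PSL
    obtain ⟨F, _, _, n, hn2, hn4, ⟨e⟩⟩ := h
    refine le_trans ?_ (le_max_right _ _)
    have hnc : ¬ NC w (Matrix.SpecialLinearGroup (Fin n) F) := fun hc => not_law_of_NC hc e hlaw
    have hn : n < k := by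
      by_contra hcon
      obtain ⟨ψ, hψ, -⟩ := exists_perm_rep (Matrix.SpecialLinearGroup (Fin 2) (ZMod p)) F
      exact hnc (NC_SL hperfH hNCH ψ hψ (by rw [← hk]; omega))
    have hF : Fintype.card F < N₁ := by
      by_contra hcon
      obtain ⟨h1, h2⟩ := hfield F (by omega)
      exact hnc (NC_SL h2 h1 Matrix.SpecialLinearGroup.toGL
        Matrix.SpecialLinearGroup.toGL_injective hn2)
    exact card_bound e (fun A => (A : Matrix (Fin n) (Fin n) F)) Subtype.val_injective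
      (by rw [Fintype.card_fin]; omega) (hF.le.trans hN₁sq)
  · -- PSp
    obtain ⟨F, _, _, m, hm2, -, ⟨e⟩⟩ := h
    refine le_trans ?_ (le_max_right _ _)
    have hnc : ¬ NC w ↥(Matrix.symplecticGroup (Fin m) F) := fun hc => not_law_of_NC hc e hlaw
    have hm : m < k := by
      by_contra hcon
      obtain ⟨ψ, hψ, -⟩ := exists_perm_rep (Matrix.SpecialLinearGroup (Fin 2) (ZMod p)) F
      exact hnc (NC_Sp hNCH ψ hψ (by rw [← hk]; omega))
    have hF : Fintype.card F < N₁ := by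
      by_contra hcon
      obtain ⟨h1, h2⟩ := hfield F (by omega)
      exact hnc (NC_Sp h1 Matrix.SpecialLinearGroup.toGL
        Matrix.SpecialLinearGroup.toGL_injective hm2)
    exact card_bound e (fun A => (A : Matrix (Fin m ⊕ Fin m) (Fin m ⊕ Fin m) F))
      Subtype.val_injective
      (by rw [Fintype.card_sum, Fintype.card_fin]; omega) (hF.le.trans hN₁sq)
  · -- PSU
    obtain ⟨F, _, _, n, q, hFq, hn3, -, ⟨e⟩⟩ := h
    refine le_trans ?_ (le_max_right _ _)
    have hnc : ¬ NC w ↥(Cfsg.SU n F q) := fun hc => not_law_of_NC hc e hlaw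
    have hn : n < k := by
      by_contra hcon
      obtain ⟨ψ, hψ, hσ⟩ := exists_perm_rep (Matrix.SpecialLinearGroup (Fin 2) (ZMod p)) F
      refine hnc (NC_SU q hperfH hNCH ψ hψ ?_ (by rw [← hk]; omega))
      intro h u v
      obtain ⟨σ, hσ'⟩ := hσ h
      rw [hσ']
      exact pmat_unitary q _ σ u v
    have hq : q < N₁ := by
      by_contra hcon
      obtain ⟨F₀, _, _, hF₀, ψ, hψ, hU⟩ := exists_unitary_SL2 F q hFq (by omega)
      obtain ⟨h1, h2⟩ := hfield F₀ (by omega)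
      exact hnc (NC_SU q h2 h1 ψ hψ hU (by omega))
    exact card_bound e
      (fun A => ((A : Matrix.SpecialLinearGroup (Fin n) F) : Matrix (Fin n) (Fin n) F))
      (Subtype.val_injective.comp Subtype.val_injective)
      (by rw [Fintype.card_fin]; omega) (by rw [hFq]; exact Nat.pow_le_pow_left hq.le 2)
  · -- odd orthogonal
    obtain ⟨F, _, _, m, hm3, -, ⟨e⟩⟩ := h
    refine le_trans ?_ (le_max_right _ _)
    have hnc : ¬ NC w ↥(Cfsg.Omega F (Cfsg.quadFormOdd m F)) :=
      fun hc => not_law_of_NC hc e hlaw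
    obtain ⟨θ, hθ⟩ := exists_oOdd F m
    have hm : m < k := by
      by_contra hcon
      obtain ⟨ψ, hψ, -⟩ := exists_perm_rep (Matrix.SpecialLinearGroup (Fin 2) (ZMod p)) F
      exact hnc (NC_Omega hperfH hNCH ψ hψ (by rw [← hk]; omega) θ hθ)
    have hF : Fintype.card F < N₁ := by
      by_contra hcon
      obtain ⟨h1, h2⟩ := hfield F (by omega)
      exact hnc (NC_Omega h2 h1 Matrix.SpecialLinearGroup.toGL
        Matrix.SpecialLinearGroup.toGL_injective (by omega) θ hθ)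
    exact card_bound e
      (fun A => (((A : ↥(Cfsg.isometryGroup F (Cfsg.quadFormOdd m F))) :
        GL (Unit ⊕ (Fin m ⊕ Fin m)) F) : Matrix (Unit ⊕ (Fin m ⊕ Fin m)) (Unit ⊕ (Fin m ⊕ Fin m)) F))
      (Units.val_injective.comp (Subtype.val_injective.comp Subtype.val_injective))
      (by simp only [Fintype.card_sum, Fintype.card_fin, Fintype.card_unit]; omega)
      (hF.le.trans hN₁sq)
  · -- plus orthogonal
    obtain ⟨F, _, _, m, hm4, ⟨e⟩⟩ := h
    refine le_trans ?_ (le_max_right _ _)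
    have hnc : ¬ NC w ↥(Cfsg.Omega F (Cfsg.quadFormPlus m F)) :=
      fun hc => not_law_of_NC hc e hlaw
    obtain ⟨θ, hθ⟩ := exists_oPlus F m
    have hm : m < k := by
      by_contra hcon
      obtain ⟨ψ, hψ, -⟩ := exists_perm_rep (Matrix.SpecialLinearGroup (Fin 2) (ZMod p)) F
      exact hnc (NC_Omega hperfH hNCH ψ hψ (by rw [← hk]; omega) θ hθ)
    have hF : Fintype.card F < N₁ := by
      by_contra hcon
      obtain ⟨h1, h2⟩ := hfield F (by omega)
      exact hnc (NC_Omega h2 h1 Matrix.SpecialLinearGroup.toGL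
        Matrix.SpecialLinearGroup.toGL_injective (by omega) θ hθ)
    exact card_bound e
      (fun A => (((A : ↥(Cfsg.isometryGroup F (Cfsg.quadFormPlus m F))) :
        GL (Fin m ⊕ Fin m) F) : Matrix (Fin m ⊕ Fin m) (Fin m ⊕ Fin m) F))
      (Units.val_injective.comp (Subtype.val_injective.comp Subtype.val_injective))
      (by simp only [Fintype.card_sum, Fintype.card_fin]; omega)
      (hF.le.trans hN₁sq)
  · -- minus orthogonal
    obtain ⟨F, _, _, m, a, b, hm4, -, ⟨e⟩⟩ := h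
    refine le_trans ?_ (le_max_right _ _)
    have hnc : ¬ NC w ↥(Cfsg.Omega F (Cfsg.quadFormMinus (m - 1) F a b)) :=
      fun hc => not_law_of_NC hc e hlaw
    obtain ⟨θ, hθ⟩ := exists_oMinus F (m - 1) a b
    have hm : m - 1 < k := by
      by_contra hcon
      obtain ⟨ψ, hψ, -⟩ := exists_perm_rep (Matrix.SpecialLinearGroup (Fin 2) (ZMod p)) F
      exact hnc (NC_Omega hperfH hNCH ψ hψ (by rw [← hk]; omega) θ hθ)
    have hF : Fintype.card F < N₁ := by
      by_contra hcon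
      obtain ⟨h1, h2⟩ := hfield F (by omega)
      exact hnc (NC_Omega h2 h1 Matrix.SpecialLinearGroup.toGL
        Matrix.SpecialLinearGroup.toGL_injective (by omega) θ hθ)
    exact card_bound e
      (fun A => (((A : ↥(Cfsg.isometryGroup F (Cfsg.quadFormMinus (m - 1) F a b))) :
        GL ((Fin (m - 1) ⊕ Fin (m - 1)) ⊕ Fin 2) F) :
          Matrix ((Fin (m - 1) ⊕ Fin (m - 1)) ⊕ Fin 2) ((Fin (m - 1) ⊕ Fin (m - 1)) ⊕ Fin 2) F))
      (Units.val_injective.comp (Subtype.val_injective.comp Subtype.val_injective))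
      (by simp only [Fintype.card_sum, Fintype.card_fin]; omega)
      (hF.le.trans hN₁sq)

end Cfsg.Agent.S2355
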