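import Cfsg.Statements.S2450
import Mathlib
import Cfsg.Agent.S2540

set_option autoImplicit false
open Cfsg

namespace Cfsg.Agent.S2450

open Matrix Polynomial

/-- upper unipotent -/
def U {F : Type*} [Field F] (u : F) : Matrix.SpecialLinearGroup (Fin 2) F :=
  ⟨!![1, u; 0, 1], by simp [Matrix.det_fin_two]⟩

lemma conj_entry {F : Type*} [Field F] (P A : Matrix.SpecialLinearGroup (Fin 2) F) :
    (P * A * P⁻¹).1 = P.1 * A.1 * !![P.1 1 1, -P.1 0 1; -P.1 1 0, P.1 0 0] := by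
  rw [Matrix.SpecialLinearGroup.coe_mul, Matrix.SpecialLinearGroup.coe_mul,
    Matrix.SpecialLinearGroup.coe_inv, Matrix.adjugate_fin_two]

lemma exists_conj_lower_ne {F : Type*} [Field F] (A : Matrix.SpecialLinearGroup (Fin 2) F)
    (hA : A ∉ Subgroup.center (Matrix.SpecialLinearGroup (Fin 2) F)) :
    ∃ P : Matrix.SpecialLinearGroup (Fin 2) F, (P * A * P⁻¹).1 1 0 ≠ 0 := by
  by_cases h10 : A.1 1 0 = 0
  swap
  · exact ⟨1, by simpa using h10⟩
  by_cases h01 : A.1 0 1 = 0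
  swap
  · obtain ⟨P, hP⟩ : ∃ P : Matrix.SpecialLinearGroup (Fin 2) F, P.1 = !![0, -1; 1, 0] :=
      ⟨⟨_, by simp [Matrix.det_fin_two]⟩, rfl⟩
    refine ⟨P, ?_⟩
    rw [conj_entry, hP]
    simp only [Matrix.mul_apply, Fin.sum_univ_two]
    simp
    exact h01
  · have hne : A.1 0 0 ≠ A.1 1 1 := by
      intro h
      apply hA
      rw [Matrix.SpecialLinearGroup.mem_center_iff]
      refine ⟨A.1 0 0, ?_, ?_⟩
      · have hdet := A.2
        rw [Matrix.det_fin_two, h10, h01, ← h] at hdet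
        rw [Fintype.card_fin]
        linear_combination hdet
      · ext i j
        fin_cases i <;> fin_cases j <;> simp [h10, h01, h]
    obtain ⟨P, hP⟩ : ∃ P : Matrix.SpecialLinearGroup (Fin 2) F, P.1 = !![1, 0; 1, 1] :=
      ⟨⟨_, by simp [Matrix.det_fin_two]⟩, rfl⟩
    refine ⟨P, ?_⟩
    rw [conj_entry, hP]
    simp only [Matrix.mul_apply, Fin.sum_univ_two]
    simp [h10, h01]
    rw [← sub_eq_add_neg]
    exact sub_ne_zero.mpr hne

lemma trace_formula {F : Type*} [Field F] (A B : Matrix.SpecialLinearGroup (Fin 2) F) (u : F) :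
    ((U u * A * (U u)⁻¹ * B).1).trace
      = -(A.1 1 0 * B.1 1 0) * u ^ 2
        + (A.1 1 0 * B.1 0 0 + (A.1 1 1 - A.1 0 0) * B.1 1 0 - A.1 1 0 * B.1 1 1) * u
        + (A.1 0 0 * B.1 0 0 + A.1 0 1 * B.1 1 0 + A.1 1 0 * B.1 0 1 + A.1 1 1 * B.1 1 1) := by
  rw [Matrix.SpecialLinearGroup.coe_mul, conj_entry, Matrix.trace_fin_two]
  simp only [Matrix.mul_apply, Fin.sum_univ_two]
  simp [U]
  ring

lemma trace_sq_of_isConj {F : Type*} [Field F] (C X : Matrix.SpecialLinearGroup (Fin 2) F)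
    (h : IsConj (QuotientGroup.mk C : Matrix.ProjectiveSpecialLinearGroup (Fin 2) F)
      (QuotientGroup.mk X)) :
    X.1.trace ^ 2 = C.1.trace ^ 2 := by
  rw [isConj_iff] at h
  obtain ⟨k, hk⟩ := h
  obtain ⟨Q, rfl⟩ := QuotientGroup.mk_surjective k
  have h1 : (QuotientGroup.mk (Q * C * Q⁻¹) : Matrix.ProjectiveSpecialLinearGroup (Fin 2) F)
      = QuotientGroup.mk X := hk
  rw [QuotientGroup.eq, Matrix.SpecialLinearGroup.mem_center_iff] at h1
  obtain ⟨z, hz, hzX⟩ := h1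
  have hX : X.1 = z • (Q * C * Q⁻¹).1 := by
    have h2 : (Q * C * Q⁻¹).1 * ((Q * C * Q⁻¹)⁻¹ * X).1 = X.1 := by
      rw [← Matrix.SpecialLinearGroup.coe_mul, mul_inv_cancel_left]
    rw [← h2, ← hzX]
    simp [Matrix.scalar_apply, ← Matrix.smul_one_eq_diagonal]
  have htr : (Q * C * Q⁻¹).1.trace = C.1.trace := by
    rw [Matrix.SpecialLinearGroup.coe_mul, Matrix.trace_mul_comm,
      ← Matrix.SpecialLinearGroup.coe_mul, inv_mul_cancel_left]
  rw [hX, Matrix.trace_smul, smul_eq_mul, mul_pow, htr]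
  rw [Fintype.card_fin] at hz
  rw [hz, one_mul]

lemma quartic_contra {F : Type*} [Field F] [Fintype F] (h5 : 5 ≤ Fintype.card F) (α β γ τ : F)
    (hα : α ≠ 0) (h : ∀ u : F, (-α * u ^ 2 + β * u + γ) ^ 2 = τ ^ 2) : False := by
  classical
  obtain ⟨p, hp⟩ : ∃ p : F[X], p = (C (-α) * X ^ 2 + C β * X + C γ) ^ 2 - C (τ ^ 2) := ⟨_, rfl⟩
  have hdeg : p.natDegree ≤ 4 := by
    rw [hp]
    compute_degree
  have hev : ∀ u : F, p.eval (id u) = 0 := by
    intro u
    rw [hp]
    simp only [id, eval_sub, eval_pow, eval_add, eval_mul, eval_C, eval_X]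
    rw [h u, sub_self]
  have hp0 : p = 0 :=
    eq_zero_of_natDegree_lt_card_of_eval_eq_zero p Function.injective_id hev (by omega)
  have hc : p.coeff 4 = α ^ 2 := by
    have hp' : p = C (α ^ 2) * X ^ 4 + C (-(2 * α * β)) * X ^ 3 + C (β ^ 2 - 2 * α * γ) * X ^ 2
        + C (2 * β * γ) * X ^ 1 + C (γ ^ 2 - τ ^ 2) * X ^ 0 := by
      rw [hp]
      simp only [C_neg, C_mul, C_pow, C_add, C_sub, C_ofNat]
      ring
    rw [hp']
    simp only [coeff_add, coeff_C_mul_X_pow]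
    simp
  rw [hp0, coeff_zero] at hc
  exact hα ((pow_eq_zero_iff two_ne_zero).mp hc.symm)

lemma quad_contra4 {F : Type*} [Field F] [Fintype F] (h4 : Fintype.card F = 4) (α β γ τ : F)
    (hα : α ≠ 0) (h : ∀ u : F, (-α * u ^ 2 + β * u + γ) ^ 2 = τ ^ 2) : False := by
  have h2 : (2 : F) = 0 := by
    have h3 : ringChar F = 2 := FiniteField.even_card_iff_char_two.mpr (by rw [h4])
    haveI : CharP F 2 := ringChar.of_eq h3
    exact_mod_cast CharP.cast_eq_zero F 2
  have h' : ∀ u : F, -α * u ^ 2 + β * u + γ = τ := by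
    intro u
    have h3 : (-α * u ^ 2 + β * u + γ - τ) ^ 2 = 0 := by
      linear_combination h u - (τ * (-α * u ^ 2 + β * u + γ - τ)) * h2
    exact sub_eq_zero.mp ((pow_eq_zero_iff two_ne_zero).mp h3)
  obtain ⟨w, hw0, hw1⟩ := Cfsg.Agent.S2540.exists_sq_ne_one (F := F) (by omega)
  have e0 := h' 0
  have e1 := h' 1
  have ew := h' w
  have h5 : α * w * (1 - w) = 0 := by linear_combination ew - e0 - w * (e1 - e0)
  have hw1' : (1 : F) - w ≠ 0 := by
    intro h6
    apply hw1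
    have : w = 1 := (sub_eq_zero.mp h6).symm
    rw [this, one_pow]
  exact mul_ne_zero (mul_ne_zero hα hw0) hw1' h5

/-- The Arad–Herzog conjecture for PSL(2,q): let F be a finite field with q ≥ 4 elements. For any two non-identity elements a, b of PSL(2,F), the set of products of a conjugate of a with a conjugate of b is not a single conjugacy class. -/
theorem result {F : Type*} [Field F] [Fintype F] (h4 : 4 ≤ Fintype.card F)
    (a b : Matrix.ProjectiveSpecialLinearGroup (Fin 2) F) (ha : a ≠ 1) (hb : b ≠ 1) (c : Matrix.ProjectiveSpecialLinearGroup (Fin 2) F) :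
    {g : Matrix.ProjectiveSpecialLinearGroup (Fin 2) F | ∃ u v : Matrix.ProjectiveSpecialLinearGroup (Fin 2) F, g = (u * a * u⁻¹) * (v * b * v⁻¹)} ≠ {g | IsConj c g} := by
  classical
  intro heq
  obtain ⟨A, rfl⟩ := QuotientGroup.mk_surjective a
  obtain ⟨B, rfl⟩ := QuotientGroup.mk_surjective b
  obtain ⟨C, rfl⟩ := QuotientGroup.mk_surjective c
  have hA : A ∉ Subgroup.center (Matrix.SpecialLinearGroup (Fin 2) F) :=
    fun h => ha ((QuotientGroup.eq_one_iff A).mpr h)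
  have hB : B ∉ Subgroup.center (Matrix.SpecialLinearGroup (Fin 2) F) :=
    fun h => hb ((QuotientGroup.eq_one_iff B).mpr h)
  obtain ⟨P, hP⟩ := exists_conj_lower_ne A hA
  obtain ⟨R, hR⟩ := exists_conj_lower_ne B hB
  have key : ∀ u : F, ((U u * (P * A * P⁻¹) * (U u)⁻¹ * (R * B * R⁻¹)).1).trace ^ 2
      = C.1.trace ^ 2 := by
    intro u
    apply trace_sq_of_isConj
    have hmem : (QuotientGroup.mk (U u * (P * A * P⁻¹) * (U u)⁻¹ * (R * B * R⁻¹)) :
        Matrix.ProjectiveSpecialLinearGroup (Fin 2) F) ∈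
        {g : Matrix.ProjectiveSpecialLinearGroup (Fin 2) F |
          ∃ u v : Matrix.ProjectiveSpecialLinearGroup (Fin 2) F,
            g = (u * QuotientGroup.mk A * u⁻¹) * (v * QuotientGroup.mk B * v⁻¹)} := by
      refine ⟨QuotientGroup.mk (U u * P), QuotientGroup.mk R, ?_⟩
      show (QuotientGroup.mk (U u * (P * A * P⁻¹) * (U u)⁻¹ * (R * B * R⁻¹)) :
        Matrix.ProjectiveSpecialLinearGroup (Fin 2) F)
        = QuotientGroup.mk ((U u * P) * A * (U u * P)⁻¹ * (R * B * R⁻¹))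
      congr 1
      group
    rw [heq] at hmem
    exact hmem
  simp only [trace_formula] at key
  have hα : (P * A * P⁻¹).1 1 0 * (R * B * R⁻¹).1 1 0 ≠ 0 := mul_ne_zero hP hR
  by_cases h5 : 5 ≤ Fintype.card F
  · exact quartic_contra h5 _ _ _ _ hα key
  · exact quad_contra4 (by omega) _ _ _ _ hα key

end Cfsg.Agent.S2450
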