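import Cfsg.Statements.S2466
import Mathlib

set_option autoImplicit false
open Cfsg

namespace Cfsg.Agent.S2466

theorem prime_dvd_lcm_multiset {p : ℕ} (hp : p.Prime) (m : Multiset ℕ) (h : p ∣ m.lcm) :
    ∃ a ∈ m, p ∣ a := by
  induction m using Multiset.induction_on with
  | empty =>
    simp at h
    exact absurd h hp.one_lt.ne'
  | cons a s ih =>
    rw [Multiset.lcm_cons] at h
    have h2 : p ∣ a * s.lcm := dvd_trans h (Nat.lcm_dvd_mul a s.lcm)
    rcases (Nat.Prime.dvd_mul hp).mp h2 with h3 | h3
    · exact ⟨a, Multiset.mem_cons_self a s, h3⟩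
    · obtain ⟨b, hb, hpb⟩ := ih h3
      exact ⟨b, Multiset.mem_cons_of_mem hb, hpb⟩

/-- Adjacency of odd primes in the prime graph of the alternating groups: let r ≠ s be odd primes at most n. The alternating group of degree n has an element of order r·s if and only if r + s ≤ n. -/
theorem result (n r s : ℕ) (hr : r.Prime) (hs : s.Prime) (hr2 : r ≠ 2) (hs2 : s ≠ 2) (hrs : r ≠ s) (hrn : r ≤ n) (hsn : s ≤ n) :
    (r * s ∈ Set.range (orderOf : alternatingGroup (Fin n) → ℕ)) ↔ r + s ≤ n := by
  constructor
  · rintro ⟨g, hg⟩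
    rw [← Subgroup.orderOf_coe, ← Equiv.Perm.lcm_cycleType] at hg
    have hsum := Equiv.Perm.sum_cycleType_le (g : Equiv.Perm (Fin n))
    rw [Fintype.card_fin] at hsum
    set m := (g : Equiv.Perm (Fin n)).cycleType with hm
    have hrm : r ∣ m.lcm := by rw [hg]; exact dvd_mul_right r s
    have hsm : s ∣ m.lcm := by rw [hg]; exact dvd_mul_left s r
    obtain ⟨a, ha, hra⟩ := prime_dvd_lcm_multiset hr m hrm
    obtain ⟨b, hb, hsb⟩ := prime_dvd_lcm_multiset hs m hsm
    have hcop : Nat.Coprime r s := (Nat.coprime_primes hr hs).mpr hrs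
    have ha2 : 2 ≤ a := Equiv.Perm.two_le_of_mem_cycleType ha
    have hb2 : 2 ≤ b := Equiv.Perm.two_le_of_mem_cycleType hb
    have hr2' : 2 ≤ r := hr.two_le
    have hs2' : 2 ≤ s := hs.two_le
    by_cases hab : a = b
    · subst hab
      have h1 : r * s ∣ a := hcop.mul_dvd_of_dvd_of_dvd hra hsb
      have h2 : r * s ≤ a := Nat.le_of_dvd (by omega) h1
      have h3 : a ≤ m.sum := Multiset.le_sum_of_mem ha
      have h4 : r + s ≤ r * s := by nlinarith
      omega
    · obtain ⟨m', hm'⟩ := Multiset.exists_cons_of_mem ha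
      have hb' : b ∈ m' := by
        rw [hm'] at hb
        rcases Multiset.mem_cons.mp hb with h | h
        · exact absurd h.symm hab
        · exact h
      have h3 : b ≤ m'.sum := Multiset.le_sum_of_mem hb'
      have h4 : m.sum = a + m'.sum := by rw [hm', Multiset.sum_cons]
      have h5 : r ≤ a := Nat.le_of_dvd (by omega) hra
      have h6 : s ≤ b := Nat.le_of_dvd (by omega) hsb
      omega
  · intro h
    have hex : ∃ g : Equiv.Perm (Fin n), g.cycleType = ({r, s} : Multiset ℕ) := by
      rw [Equiv.Perm.exists_with_cycleType_iff]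
      refine ⟨?_, ?_⟩
      · simp only [Multiset.insert_eq_cons, Multiset.sum_cons, Multiset.sum_singleton, Fintype.card_fin]
        exact h
      · intro a ha
        simp only [Multiset.insert_eq_cons, Multiset.mem_cons, Multiset.mem_singleton] at ha
        rcases ha with rfl | rfl
        · exact hr.two_le
        · exact hs.two_le
    obtain ⟨g, hg⟩ := hex
    have hodd_r : Odd r := hr.odd_of_ne_two hr2
    have hodd_s : Odd s := hs.odd_of_ne_two hs2
    have hsign : Equiv.Perm.sign g = 1 := by
      rw [Equiv.Perm.sign_of_cycleType, hg]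
      simp only [Multiset.insert_eq_cons, Multiset.sum_cons, Multiset.sum_singleton, Multiset.card_cons,
        Multiset.card_singleton]
      have : Even (r + s + (1 + 1)) := by
        have := hodd_r.add_odd hodd_s
        exact this.add (by decide)
      exact this.neg_one_pow
    refine ⟨⟨g, Equiv.Perm.mem_alternatingGroup.mpr hsign⟩, ?_⟩
    rw [← Subgroup.orderOf_coe, ← Equiv.Perm.lcm_cycleType]
    show g.cycleType.lcm = r * s
    rw [hg]
    simp only [Multiset.insert_eq_cons, Multiset.lcm_cons, Multiset.lcm_singleton]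
    have hcop : Nat.Coprime r s := (Nat.coprime_primes hr hs).mpr hrs
    simp [lcm_eq_nat_lcm, hcop.lcm_eq_mul]

end Cfsg.Agent.S2466
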