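import Cfsg.Statements.S2467
import Mathlib

set_option autoImplicit false
open Cfsg

namespace Cfsg.Agent.S2467

theorem prime_dvd_lcm_multiset {p : ℕ} (hp : p.Prime) (m : Multiset ℕ) (h : p ∣ m.lcm) :
    ∃ a ∈ m, p ∣ a := by
  induction m using Multiset.induction_on with
  | empty =>
    simp at h
    exact absurd h hp.one_lt.ne'
  | cons a s ih =>
    rw [Multiset.lcm_cons] at h
    have h2 : p ∣ a * s.lcm := dvd_trans h (Nat.lcm_dvd_mul a s.lcm)
    rcases (Nat.Prime.dvd_mul hp).mp h2 with h3 | h3
    · exact ⟨a, Multiset.mem_cons_self a s, h3⟩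
    · obtain ⟨b, hb, hpb⟩ := ih h3
      exact ⟨b, Multiset.mem_cons_of_mem hb, hpb⟩

theorem exists_even_of_prod_ne_one (m : Multiset ℕ)
    (h : (m.map fun n => -(-1 : ℤˣ) ^ n).prod ≠ 1) : ∃ b ∈ m, Even b := by
  by_contra hcon
  push_neg at hcon
  apply h
  apply Multiset.prod_eq_one
  intro x hx
  rw [Multiset.mem_map] at hx
  obtain ⟨b, hb, rfl⟩ := hx
  have hodd : Odd b := Nat.not_even_iff_odd.mp (hcon b hb)
  rw [hodd.neg_one_pow]
  simp

/-- Adjacency of 2 and an odd prime in the prime graph of the alternating groups: let r be an odd prime at most n, with n ≥ 4. The alternating group of degree n has an element of order 2r if and only if r + 4 ≤ n. -/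
theorem result (n r : ℕ) (hn : 4 ≤ n) (hr : r.Prime) (hr2 : r ≠ 2) (hrn : r ≤ n) :
    (2 * r ∈ Set.range (orderOf : alternatingGroup (Fin n) → ℕ)) ↔ r + 4 ≤ n := by
  have hodd_r : Odd r := hr.odd_of_ne_two hr2
  have hr3 : 3 ≤ r := by
    have := hr.two_le
    omega
  have hcop : Nat.Coprime 2 r := (Nat.coprime_primes Nat.prime_two hr).mpr (Ne.symm hr2)
  have hneg : (-1 : ℤˣ) ≠ 1 := by decide
  constructor
  · rintro ⟨g, hg⟩
    have hsign : Equiv.Perm.sign (g : Equiv.Perm (Fin n)) = 1 := Equiv.Perm.mem_alternatingGroup.mp g.2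
    rw [← Subgroup.orderOf_coe, ← Equiv.Perm.lcm_cycleType] at hg
    have hsum := Equiv.Perm.sum_cycleType_le (g : Equiv.Perm (Fin n))
    rw [Fintype.card_fin] at hsum
    rw [Equiv.Perm.sign_of_cycleType'] at hsign
    have h2le : ∀ x ∈ (g : Equiv.Perm (Fin n)).cycleType, 2 ≤ x :=
      fun x hx => Equiv.Perm.two_le_of_mem_cycleType hx
    set m := (g : Equiv.Perm (Fin n)).cycleType with hm
    have hrm : r ∣ m.lcm := by rw [hg]; exact dvd_mul_left r 2
    have h2m : 2 ∣ m.lcm := by rw [hg]; exact dvd_mul_right 2 r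
    obtain ⟨a, ha, hra⟩ := prime_dvd_lcm_multiset hr m hrm
    obtain ⟨b, hb, h2b⟩ := prime_dvd_lcm_multiset Nat.prime_two m h2m
    obtain ⟨m', hm'⟩ := Multiset.exists_cons_of_mem ha
    have hsum' : m.sum = a + m'.sum := by rw [hm', Multiset.sum_cons]
    rw [hm', Multiset.map_cons, Multiset.prod_cons] at hsign
    have ha2 := h2le a ha
    by_cases hae : Even a
    · -- a even, so 2r ∣ a
      have h1 : 2 * r ∣ a := hcop.mul_dvd_of_dvd_of_dvd hae.two_dvd hra
      have h2 : 2 * r ≤ a := Nat.le_of_dvd (by omega) h1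
      rw [hae.neg_one_pow] at hsign
      have hprod : (m'.map fun n => -(-1 : ℤˣ) ^ n).prod ≠ 1 := by
        intro h
        rw [h] at hsign
        simp at hsign
      obtain ⟨c, hc, hce⟩ := exists_even_of_prod_ne_one m' hprod
      have hc2 : 2 ≤ c := h2le c (by rw [hm']; exact Multiset.mem_cons_of_mem hc)
      have h3 : c ≤ m'.sum := Multiset.le_sum_of_mem hc
      omega
    · have hao : Odd a := Nat.not_even_iff_odd.mp hae
      rw [hao.neg_one_pow] at hsign
      simp only [neg_neg, one_mul] at hsign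
      have hba : b ≠ a := by
        rintro rfl
        exact hae (even_iff_two_dvd.mpr h2b)
      have hb' : b ∈ m' := by
        rw [hm'] at hb
        rcases Multiset.mem_cons.mp hb with h | h
        · exact absurd h hba
        · exact h
      obtain ⟨m'', hm''⟩ := Multiset.exists_cons_of_mem hb'
      rw [hm'', Multiset.map_cons, Multiset.prod_cons, (even_iff_two_dvd.mpr h2b).neg_one_pow] at hsign
      have hprod : (m''.map fun n => -(-1 : ℤˣ) ^ n).prod ≠ 1 := by
        intro h
        rw [h] at hsign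
        simp at hsign
      obtain ⟨c, hc, hce⟩ := exists_even_of_prod_ne_one m'' hprod
      have hc2 : 2 ≤ c := h2le c (by rw [hm', hm'']; exact Multiset.mem_cons_of_mem (Multiset.mem_cons_of_mem hc))
      have hb2 : 2 ≤ b := h2le b hb
      have h3 : c ≤ m''.sum := Multiset.le_sum_of_mem hc
      have h4 : m'.sum = b + m''.sum := by rw [hm'', Multiset.sum_cons]
      have h5 : r ≤ a := Nat.le_of_dvd (by omega) hra
      omega
  · intro h
    have hex : ∃ g : Equiv.Perm (Fin n), g.cycleType = ({r, 2, 2} : Multiset ℕ) := by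
      rw [Equiv.Perm.exists_with_cycleType_iff]
      refine ⟨?_, ?_⟩
      · simp only [Multiset.insert_eq_cons, Multiset.sum_cons, Multiset.sum_singleton, Fintype.card_fin]
        omega
      · intro a ha
        simp only [Multiset.insert_eq_cons, Multiset.mem_cons, Multiset.mem_singleton] at ha
        rcases ha with rfl | rfl | rfl
        · exact hr.two_le
        · exact le_refl 2
        · exact le_refl 2
    obtain ⟨g, hg⟩ := hex
    have hsign : Equiv.Perm.sign g = 1 := by
      rw [Equiv.Perm.sign_of_cycleType, hg]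
      simp only [Multiset.insert_eq_cons, Multiset.sum_cons, Multiset.sum_singleton, Multiset.card_cons,
        Multiset.card_singleton]
      have : Even (r + (2 + 2) + (1 + 1 + 1)) := by
        obtain ⟨k, hk⟩ := hodd_r
        exact ⟨k + 4, by omega⟩
      exact this.neg_one_pow
    refine ⟨⟨g, Equiv.Perm.mem_alternatingGroup.mpr hsign⟩, ?_⟩
    rw [← Subgroup.orderOf_coe, ← Equiv.Perm.lcm_cycleType]
    show g.cycleType.lcm = 2 * r
    rw [hg]
    simp only [Multiset.insert_eq_cons, Multiset.lcm_cons, Multiset.lcm_singleton]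
    simp only [lcm_eq_nat_lcm, Nat.lcm_self, normalize_eq]
    rw [Nat.lcm_comm, hcop.lcm_eq_mul]

end Cfsg.Agent.S2467
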