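import Cfsg.Statements.S2471
import Mathlib

set_option autoImplicit false
open Cfsg

namespace Cfsg.Agent.S2471

theorem cayley_hamilton_two {F : Type*} [Field F] (A : Matrix (Fin 2) (Fin 2) F) (hdet : A.det = 1) :
    A * A = A.trace • A - 1 := by
  rw [Matrix.det_fin_two] at hdet
  ext i j
  fin_cases i <;> fin_cases j
  · simp [Matrix.mul_apply, Fin.sum_univ_two, Matrix.trace_fin_two]
    linear_combination (-1 : F) * hdet
  · simp [Matrix.mul_apply, Fin.sum_univ_two, Matrix.trace_fin_two]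
    ring
  · simp [Matrix.mul_apply, Fin.sum_univ_two, Matrix.trace_fin_two]
    ring
  · simp [Matrix.mul_apply, Fin.sum_univ_two, Matrix.trace_fin_two]
    linear_combination (-1 : F) * hdet

theorem matrix_key {F : Type*} [Field F] (p : ℕ) [Fact p.Prime] [CharP F p] (hp : p ≠ 2)
    (A : Matrix (Fin 2) (Fin 2) F) (hdet : A.det = 1)
    (ε : F) (hε : ε ^ 2 = 1) (h2p : A ^ (2 * p) = Matrix.scalar (Fin 2) ε)
    (hA2 : A ^ 2 ≠ Matrix.scalar (Fin 2) (-1)) :
    ∃ r : F, r ^ 2 = 1 ∧ A ^ p = Matrix.scalar (Fin 2) r := by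
  have hpp : p.Prime := Fact.out
  have hp2 : 2 ≤ p := hpp.two_le
  have hodd : Odd p := hpp.odd_of_ne_two hp
  set t := A.trace with ht
  have CH : A * A = t • A - 1 := cayley_hamilton_two A hdet
  have hsc : ∀ r : F, Matrix.scalar (Fin 2) r = r • (1 : Matrix (Fin 2) (Fin 2) F) := by
    intro r
    rw [Matrix.smul_one_eq_diagonal]
    rfl
  -- B' = ε • (A * A) is unipotent
  have hB'p : (ε • (A * A)) ^ p = 1 := by
    rw [smul_pow, ← pow_two, ← pow_mul, h2p, hsc, smul_smul, ← pow_succ]
    obtain ⟨k, hk⟩ := hodd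
    have : p + 1 = 2 * (k + 1) := by omega
    rw [this, pow_mul, hε, one_pow, one_smul]
  have hNp : (ε • (A * A) - 1) ^ p = 0 := by
    rw [sub_pow_char_of_commute p (Commute.one_right _), hB'p, one_pow, sub_self]
  have hNil : IsNilpotent (ε • (A * A) - 1) := ⟨p, hNp⟩
  have htr0 : (ε • (A * A) - 1).trace = 0 :=
    (Matrix.isNilpotent_trace_of_isNilpotent hNil).eq_zero
  have htr : ε * (t * t - 2) - 2 = 0 := by
    rw [CH] at htr0
    simp only [Matrix.trace_sub, Matrix.trace_smul, Matrix.trace_one, Fintype.card_fin, smul_eq_mul] at htr0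
    push_cast at htr0
    linear_combination htr0
  have hε' : ε = 1 ∨ ε = -1 := by
    have : (ε - 1) * (ε + 1) = 0 := by linear_combination hε
    rcases mul_eq_zero.mp this with h | h
    · left; linear_combination h
    · right; linear_combination h
  have ht4 : t = 2 ∨ t = -2 := by
    rcases hε' with h | h
    · rw [h] at htr
      have : (t - 2) * (t + 2) = 0 := by linear_combination htr
      rcases mul_eq_zero.mp this with h' | h'
      · left; linear_combination h'
      · right; linear_combination h'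
    · exfalso
      rw [h] at htr
      have ht0 : t * t = 0 := by linear_combination (-1 : F) * htr
      have ht0' : t = 0 := by simpa using ht0
      apply hA2
      rw [pow_two, CH, ht0', hsc]
      simp
  -- t = 2 δ with δ = ±1
  obtain ⟨δ, hδ, htδ⟩ : ∃ δ : F, δ ^ 2 = 1 ∧ t = 2 * δ := by
    rcases ht4 with h | h
    · exact ⟨1, by ring, by rw [h]; ring⟩
    · exact ⟨-1, by ring, by rw [h]; ring⟩
  have hMM : (δ • A - 1) * (δ • A - 1) = 0 := by
    have e1 : (δ • A - 1) * (δ • A - 1) = (δ ^ 2) • (A * A) - (2 * δ) • A + 1 := by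
      simp only [sub_mul, mul_sub, Matrix.smul_mul, Matrix.mul_smul, one_mul, mul_one, smul_smul]
      rw [two_mul, add_smul, pow_two]
      abel
    rw [e1, hδ, one_smul, CH, htδ]
    abel
  have hA : A = δ • (1 + (δ • A - 1)) := by
    rw [add_sub_cancel, smul_smul, ← pow_two, hδ, one_smul]
  have hMp : (δ • A - 1) ^ p = 0 := by
    have : p = 2 + (p - 2) := by omega
    rw [this, pow_add, pow_two, hMM, zero_mul]
  refine ⟨δ ^ p, ?_, ?_⟩
  · rw [← pow_mul, mul_comm, pow_mul, hδ, one_pow]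
  · conv_lhs => rw [hA]
    rw [smul_pow, add_pow_char_of_commute p (Commute.one_left _), one_pow, hMp, add_zero, hsc]

/-- In PSL(2,q) with q odd, the characteristic p is isolated from 2 in the prime graph: for F a finite field of odd characteristic p with at least 5 elements, PSL(2,F) has no element of order 2p. -/
theorem result {F : Type*} [Field F] [Fintype F] (p : ℕ) [Fact p.Prime] [CharP F p] (hp : p ≠ 2) (h5 : 5 ≤ Fintype.card F) (g : Matrix.ProjectiveSpecialLinearGroup (Fin 2) F) :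
    orderOf g ≠ 2 * p := by
  classical
  intro hord
  have hpp : p.Prime := Fact.out
  have hp2 : 2 ≤ p := hpp.two_le
  obtain ⟨A, rfl⟩ := QuotientGroup.mk_surjective g
  have hcard : Fintype.card (Fin 2) = 2 := Fintype.card_fin 2
  have hmk : ∀ k : ℕ, (QuotientGroup.mk A : Matrix.ProjectiveSpecialLinearGroup (Fin 2) F) ^ k = 1 ↔
      ∃ r : F, r ^ 2 = 1 ∧ Matrix.scalar (Fin 2) r = (A : Matrix (Fin 2) (Fin 2) F) ^ k := by
    intro k
    rw [← QuotientGroup.mk_pow, QuotientGroup.eq_one_iff, Matrix.SpecialLinearGroup.mem_center_iff, hcard,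
      Matrix.SpecialLinearGroup.coe_pow]
  have h1 : (QuotientGroup.mk A : Matrix.ProjectiveSpecialLinearGroup (Fin 2) F) ^ (2 * p) = 1 := by
    rw [← hord]; exact pow_orderOf_eq_one _
  have h2 : (QuotientGroup.mk A : Matrix.ProjectiveSpecialLinearGroup (Fin 2) F) ^ 2 ≠ 1 := by
    apply pow_ne_one_of_lt_orderOf (by norm_num)
    rw [hord]; omega
  have h3 : (QuotientGroup.mk A : Matrix.ProjectiveSpecialLinearGroup (Fin 2) F) ^ p ≠ 1 := by
    apply pow_ne_one_of_lt_orderOf (by omega)
    rw [hord]; omega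
  rw [hmk] at h1
  obtain ⟨ε, hε, hεA⟩ := h1
  have hA2 : (A : Matrix (Fin 2) (Fin 2) F) ^ 2 ≠ Matrix.scalar (Fin 2) (-1) := by
    intro h
    apply h2
    rw [hmk]
    exact ⟨-1, by ring, h.symm⟩
  obtain ⟨r, hr, hrA⟩ := matrix_key p hp (A : Matrix (Fin 2) (Fin 2) F) A.2 ε hε hεA.symm hA2
  apply h3
  rw [hmk]
  exact ⟨r, hr, hrA.symm⟩

end Cfsg.Agent.S2471
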