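import Cfsg.Statements.S2485
import Mathlib

set_option autoImplicit false
open scoped Pointwise
open Cfsg

namespace Cfsg.Agent.S2485

open Matrix

section
variable {F : Type*} [Field F]

lemma mulVec2 (A : Matrix (Fin 2) (Fin 2) F) (v : Fin 2 → F) (i : Fin 2) :
    (A *ᵥ v) i = A i 0 * v 0 + A i 1 * v 1 := by
  simp [Matrix.mulVec, dotProduct, Fin.sum_univ_two]

lemma exists_cyclic (A : Matrix (Fin 2) (Fin 2) F)
    (hA : ¬ ∃ c : F, A = c • (1 : Matrix (Fin 2) (Fin 2) F)) :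
    ∃ v : Fin 2 → F, v 0 * (A *ᵥ v) 1 - v 1 * (A *ᵥ v) 0 ≠ 0 := by
  by_cases hc : A 1 0 = 0
  · by_cases hb : A 0 1 = 0
    · refine ⟨![1, 1], ?_⟩
      rw [mulVec2, mulVec2]
      intro h
      simp [hc, hb] at h
      apply hA
      refine ⟨A 0 0, ?_⟩
      have h11 : A 1 1 = A 0 0 := by linear_combination h
      ext i j
      fin_cases i <;> fin_cases j <;> simp [hc, hb, h11]
    · refine ⟨![0, 1], ?_⟩
      rw [mulVec2, mulVec2]
      intro h
      simp at h
      exact hb h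
  · refine ⟨![1, 0], ?_⟩
    rw [mulVec2, mulVec2]
    intro h
    simp at h
    exact hc h

lemma inj_of_cyclic (A : Matrix (Fin 2) (Fin 2) F) (ε : F) (v : Fin 2 → F)
    (hv : v 0 * (A *ᵥ v) 1 - v 1 * (A *ᵥ v) 0 ≠ 0)
    (M M' : Matrix (Fin 2) (Fin 2) F) (hM : M * A = ε • (A * M)) (hM' : M' * A = ε • (A * M'))
    (h : M *ᵥ v = M' *ᵥ v) : M = M' := by
  have hNA : (M - M') * A = ε • (A * (M - M')) := by
    rw [Matrix.sub_mul, hM, hM', Matrix.mul_sub, smul_sub]
  have hNv : (M - M') *ᵥ v = 0 := by rw [Matrix.sub_mulVec, h, sub_self]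
  have hNu : (M - M') *ᵥ (A *ᵥ v) = 0 := by
    rw [Matrix.mulVec_mulVec, hNA, Matrix.smul_mulVec, ← Matrix.mulVec_mulVec, hNv, Matrix.mulVec_zero,
      smul_zero]
  have key : ∀ i, (M - M') i 0 = 0 ∧ (M - M') i 1 = 0 := by
    intro i
    have e1 := congrFun hNv i
    have e2 := congrFun hNu i
    rw [mulVec2] at e1 e2
    simp only [Pi.zero_apply] at e1 e2
    constructor
    · have : (M - M') i 0 * (v 0 * (A *ᵥ v) 1 - v 1 * (A *ᵥ v) 0) = 0 := by
        linear_combination (A *ᵥ v) 1 * e1 - v 1 * e2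
      exact (mul_eq_zero.mp this).resolve_right hv
    · have : (M - M') i 1 * (v 0 * (A *ᵥ v) 1 - v 1 * (A *ᵥ v) 0) = 0 := by
        linear_combination v 0 * e2 - (A *ᵥ v) 0 * e1
      exact (mul_eq_zero.mp this).resolve_right hv
  have : M - M' = 0 := by
    ext i j
    fin_cases j
    · exact (key i).1
    · exact (key i).2
  exact sub_eq_zero.mp this

lemma traceless_sq (A : Matrix (Fin 2) (Fin 2) F) (h : A.trace = 0) :
    A * A = (-A.det) • (1 : Matrix (Fin 2) (Fin 2) F) := by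
  have h' : A 1 1 = -A 0 0 := by
    rw [Matrix.trace_fin_two] at h; linear_combination h
  ext i j
  fin_cases i <;> fin_cases j <;>
    simp [Matrix.mul_apply, Fin.sum_univ_two, Matrix.det_fin_two, h'] <;> ring

lemma comm_anti (A A' : Matrix (Fin 2) (Fin 2) F) (l : F) (hA : A * A = l • (1 : Matrix (Fin 2) (Fin 2) F)) :
    (A * A' - A' * A) * A = (-1 : F) • (A * (A * A' - A' * A)) := by
  rw [Matrix.sub_mul, Matrix.mul_sub, Matrix.mul_assoc A' A A, hA, ← Matrix.mul_assoc A A A', hA]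
  simp only [Matrix.mul_smul, Matrix.smul_mul, Matrix.mul_one, Matrix.one_mul, neg_smul, one_smul, neg_sub,
    Matrix.mul_assoc]

lemma comm_anti' (A A' : Matrix (Fin 2) (Fin 2) F) (l : F) (hA : A' * A' = l • (1 : Matrix (Fin 2) (Fin 2) F)) :
    (A * A' - A' * A) * A' = (-1 : F) • (A' * (A * A' - A' * A)) := by
  rw [Matrix.sub_mul, Matrix.mul_sub, Matrix.mul_assoc A A' A', hA, ← Matrix.mul_assoc A' A' A, hA]
  simp only [Matrix.mul_smul, Matrix.smul_mul, Matrix.mul_one, Matrix.one_mul, neg_smul, one_smul, neg_sub,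
    Matrix.mul_assoc]

def Tset (A : Matrix (Fin 2) (Fin 2) F) (ε : F) : Set (GL (Fin 2) F) :=
  {g | (g : Matrix (Fin 2) (Fin 2) F) * A = ε • (A * (g : Matrix (Fin 2) (Fin 2) F))}

lemma T_inj (A : Matrix (Fin 2) (Fin 2) F) (ε : F) (v : Fin 2 → F)
    (hv : v 0 * (A *ᵥ v) 1 - v 1 * (A *ᵥ v) 0 ≠ 0) :
    ∃ f : Tset A ε → {u : Fin 2 → F // u ≠ 0}, Function.Injective f ∧
      ∀ g, (f g).1 = (g.1 : Matrix (Fin 2) (Fin 2) F) *ᵥ v := by
  have hv0 : v ≠ 0 := by
    rintro rfl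
    apply hv; simp
  have hnz : ∀ g : Tset A ε, (g.1 : Matrix (Fin 2) (Fin 2) F) *ᵥ v ≠ 0 := by
    intro g h0
    apply hv0
    have : ((g.1⁻¹ : GL (Fin 2) F) : Matrix (Fin 2) (Fin 2) F) *ᵥ
        ((g.1 : Matrix (Fin 2) (Fin 2) F) *ᵥ v) = v := by
      rw [Matrix.mulVec_mulVec, ← Units.val_mul, inv_mul_cancel, Units.val_one, Matrix.one_mulVec]
    rw [h0, Matrix.mulVec_zero] at this
    exact this.symm
  refine ⟨fun g => ⟨_, hnz g⟩, ?_, fun g => rfl⟩
  intro g g' h
  have h' : (g.1 : Matrix (Fin 2) (Fin 2) F) *ᵥ v = (g'.1 : Matrix (Fin 2) (Fin 2) F) *ᵥ v :=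
    congrArg Subtype.val h
  exact Subtype.ext (Units.ext (inj_of_cyclic A ε v hv _ _ g.2 g'.2 h'))

abbrev PG (F : Type*) [Field F] := GL (Fin 2) F ⧸ Subgroup.center (GL (Fin 2) F)

lemma comap_centralizer_subset (a : GL (Fin 2) F) :
    (((Subgroup.centralizer {(QuotientGroup.mk a : PG F)}).comap
      (QuotientGroup.mk' (Subgroup.center (GL (Fin 2) F))) : Subgroup (GL (Fin 2) F)) : Set (GL (Fin 2) F)) ⊆
      Tset (a : Matrix (Fin 2) (Fin 2) F) 1 ∪ Tset (a : Matrix (Fin 2) (Fin 2) F) (-1) := by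
  intro g hg
  rw [SetLike.mem_coe, Subgroup.mem_comap, Subgroup.mem_centralizer_iff] at hg
  have h1 := hg _ (Set.mem_singleton _)
  rw [QuotientGroup.mk'_apply, ← QuotientGroup.mk_mul, ← QuotientGroup.mk_mul, QuotientGroup.eq] at h1
  obtain ⟨c, hc⟩ := Matrix.GeneralLinearGroup.mem_center_iff_val_mem_range_scalar.mp h1
  have hmat : (g : Matrix (Fin 2) (Fin 2) F) * (a : Matrix (Fin 2) (Fin 2) F) =
      c • ((a : Matrix (Fin 2) (Fin 2) F) * (g : Matrix (Fin 2) (Fin 2) F)) := by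
    have h3 : g * a = (a * g) * ((a * g)⁻¹ * (g * a)) := by group
    have h2 := congrArg Units.val h3
    rw [Units.val_mul (a * g), ← hc] at h2
    rw [← Units.val_mul, h2, Units.val_mul, Matrix.scalar_apply, ← Matrix.smul_one_eq_diagonal,
      Matrix.mul_smul, Matrix.mul_one]
  have hdet := congrArg Matrix.det hmat
  rw [Matrix.det_mul, Matrix.det_smul, Matrix.det_mul, Fintype.card_fin] at hdet
  have hg0 : (g : Matrix (Fin 2) (Fin 2) F).det ≠ 0 :=
    ((Matrix.isUnit_iff_isUnit_det _).mp g.isUnit).ne_zero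
  have ha0 : (a : Matrix (Fin 2) (Fin 2) F).det ≠ 0 :=
    ((Matrix.isUnit_iff_isUnit_det _).mp a.isUnit).ne_zero
  have hc2 : (c - 1) * (c + 1) = 0 := by
    have h4 : (g : Matrix (Fin 2) (Fin 2) F).det * (a : Matrix (Fin 2) (Fin 2) F).det * ((c - 1) * (c + 1)) = 0 := by
      linear_combination -hdet
    exact (mul_eq_zero.mp h4).resolve_left (mul_ne_zero hg0 ha0)
  rcases mul_eq_zero.mp hc2 with h | h
  · left
    have hc1 : c = 1 := by linear_combination h
    rw [hc1] at hmat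
    exact hmat
  · right
    have hc1 : c = -1 := by linear_combination h
    rw [hc1] at hmat
    exact hmat

variable [Fintype F] [DecidableEq F]

lemma card_nonzero' : Nat.card {u : Fin 2 → F // u ≠ 0} = Fintype.card F ^ 2 - 1 := by
  classical
  rw [Nat.card_eq_fintype_card]
  have h1 : Fintype.card {u : Fin 2 → F // u ≠ 0} = Fintype.card (Fin 2 → F) - 1 :=
    Set.card_ne_eq (0 : Fin 2 → F)
  rw [h1, Fintype.card_fun, Fintype.card_fin]

lemma T_card_le (A : Matrix (Fin 2) (Fin 2) F)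
    (hA : ¬ ∃ c : F, A = c • (1 : Matrix (Fin 2) (Fin 2) F)) (ε : F) :
    Nat.card (Tset A ε) ≤ Fintype.card F ^ 2 - 1 := by
  obtain ⟨v, hv⟩ := exists_cyclic A hA
  obtain ⟨f, hf, -⟩ := T_inj A ε v hv
  have := Nat.card_le_card_of_injective f hf
  rwa [card_nonzero'] at this

lemma T_det (A : Matrix (Fin 2) (Fin 2) F)
    (hA : ¬ ∃ c : F, A = c • (1 : Matrix (Fin 2) (Fin 2) F)) (ε : F)
    (hcard : Fintype.card F ^ 2 - 1 ≤ Nat.card (Tset A ε))
    (B : Matrix (Fin 2) (Fin 2) F) (hB0 : B ≠ 0) (hB : B * A = ε • (A * B)) : B.det ≠ 0 := by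
  obtain ⟨v, hv⟩ := exists_cyclic A hA
  obtain ⟨f, hf, hfv⟩ := T_inj A ε v hv
  have hbij := hf.bijective_of_nat_card_le (by rw [card_nonzero']; exact hcard)
  have hBv : B *ᵥ v ≠ 0 := by
    intro h0
    apply hB0
    exact inj_of_cyclic A ε v hv B 0 hB (by simp) (by rw [h0, Matrix.zero_mulVec])
  obtain ⟨g, hg⟩ := hbij.2 ⟨B *ᵥ v, hBv⟩
  have h1 : (g.1 : Matrix (Fin 2) (Fin 2) F) *ᵥ v = B *ᵥ v := by rw [← hfv g, hg]
  have h2 : (g.1 : Matrix (Fin 2) (Fin 2) F) = B := inj_of_cyclic A ε v hv _ _ g.2 hB h1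
  rw [← h2]
  exact ((Matrix.isUnit_iff_isUnit_det _).mp g.1.isUnit).ne_zero

lemma card_center : Nat.card (Subgroup.center (GL (Fin 2) F)) = Fintype.card F - 1 := by
  rw [Matrix.GeneralLinearGroup.center_eq_range_scalar]
  have hinj : Function.Injective (Matrix.GeneralLinearGroup.scalar (Fin 2) : Fˣ →* GL (Fin 2) F) := by
    intro u u' h
    have h' := congrArg (fun g : GL (Fin 2) F => (g : Matrix (Fin 2) (Fin 2) F) 0 0) h
    simp only [Matrix.GeneralLinearGroup.coe_scalar, Matrix.scalar_apply, Matrix.diagonal_apply_eq] at h'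
    exact Units.ext h'
  rw [← Nat.card_congr (MonoidHom.ofInjective hinj).toEquiv, Nat.card_units, Nat.card_eq_fintype_card]

lemma card_comap (C : Subgroup (PG F)) :
    Nat.card (C.comap (QuotientGroup.mk' (Subgroup.center (GL (Fin 2) F)))) =
      Nat.card C * (Fintype.card F - 1) := by
  have hi := Subgroup.index_comap_of_surjective C (QuotientGroup.mk'_surjective (Subgroup.center (GL (Fin 2) F)))
  have h1 := Subgroup.card_mul_index (C.comap (QuotientGroup.mk' (Subgroup.center (GL (Fin 2) F))))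
  have h2 := Subgroup.card_mul_index C
  have h3 := Subgroup.card_eq_card_quotient_mul_card_subgroup (Subgroup.center (GL (Fin 2) F))
  rw [hi] at h1
  rw [card_center] at h3
  have hpos : 0 < C.index := Nat.pos_of_ne_zero Subgroup.index_ne_zero_of_finite
  apply Nat.eq_of_mul_eq_mul_right hpos
  rw [h1, h3, ← h2]; ring

lemma sylow_struct (h2 : (2 : F) ≠ 0) (k : ℕ) (hk : Fintype.card F + 1 = 2 ^ k) (hq : 7 ≤ Fintype.card F)
    (H : Sylow 2 (PG F)) :
    ∃ a : GL (Fin 2) F, (¬ ∃ c : F, (a : Matrix (Fin 2) (Fin 2) F) = c • (1 : Matrix (Fin 2) (Fin 2) F)) ∧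
      (H : Subgroup (PG F)) = Subgroup.centralizer {(QuotientGroup.mk a : PG F)} ∧
      (a : Matrix (Fin 2) (Fin 2) F).trace = 0 ∧
      ∀ B : Matrix (Fin 2) (Fin 2) F, B ≠ 0 →
        B * (a : Matrix (Fin 2) (Fin 2) F) = (-1 : F) • ((a : Matrix (Fin 2) (Fin 2) F) * B) → B.det ≠ 0 := by
  obtain ⟨r, hr⟩ : ∃ r, Fintype.card F = r + 1 := ⟨Fintype.card F - 1, by omega⟩
  have hr6 : 6 ≤ r := by omega
  have hqq : Fintype.card F ^ 2 - 1 = r * (r + 2) := by
    rw [hr]
    have : (r + 1) ^ 2 = r * (r + 2) + 1 := by ring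
    omega
  have hq1 : Fintype.card F - 1 = r := by omega
  -- order of PG
  have hPG : Nat.card (PG F) = (r + 2) * r * (r + 1) := by
    have h3 := Subgroup.card_eq_card_quotient_mul_card_subgroup (Subgroup.center (GL (Fin 2) F))
    rw [card_center, Matrix.card_GL_field, Fin.prod_univ_two, hq1] at h3
    simp only [Fin.val_zero, Fin.val_one, pow_zero, pow_one] at h3
    rw [hqq] at h3
    have h4 : Fintype.card F ^ 2 - Fintype.card F = r * (r + 1) := by
      rw [hr]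
      have : (r + 1) ^ 2 = r * (r + 1) + (r + 1) := by ring
      omega
    rw [h4] at h3
    have hr0 : 0 < r := by omega
    apply Nat.eq_of_mul_eq_mul_right hr0
    rw [← h3]; ring
  have hdvd : 2 ^ (k + 1) ∣ Nat.card (PG F) := by
    obtain ⟨k', rfl⟩ : ∃ k', k = k' + 1 := by
      rcases k with _ | k'
      · simp at hk
      · exact ⟨k', rfl⟩
    obtain ⟨m, hm⟩ : ∃ m, 2 ^ k' = m + 1 := ⟨2 ^ k' - 1, by have := Nat.one_le_two_pow (n := k'); omega⟩
    have hr2 : r = 2 * m := by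
      rw [hr, pow_succ, hm] at hk
      omega
    rw [hPG]
    subst hr2
    refine ⟨m * (2 * m + 1), ?_⟩
    rw [pow_succ, pow_succ, hm]
    ring
  have hHdvd : 2 ^ (k + 1) ∣ Nat.card H := H.pow_dvd_card_of_pow_dvd_card hdvd
  have hHle : 2 * (r + 2) ≤ Nat.card H := by
    have h5 : 2 ^ (k + 1) = 2 * (r + 2) := by rw [pow_succ, ← hk, hr]; ring
    rw [← h5]
    exact Nat.le_of_dvd Nat.card_pos hHdvd
  haveI : Nontrivial H := Finite.one_lt_card_iff_nontrivial.mp (by omega)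
  have hp : IsPGroup 2 H := H.isPGroup'
  haveI := hp.center_nontrivial
  obtain ⟨z, hz⟩ := exists_ne (1 : Subgroup.center H)
  have hw1 : ((z : H) : PG F) ≠ 1 := by
    intro h
    apply hz
    apply Subtype.ext
    apply Subtype.ext
    exact h
  obtain ⟨a, ha⟩ := QuotientGroup.mk_surjective ((z : H) : PG F)
  have hns : ¬ ∃ c : F, (a : Matrix (Fin 2) (Fin 2) F) = c • (1 : Matrix (Fin 2) (Fin 2) F) := by
    rintro ⟨c, hc⟩
    apply hw1
    rw [← ha]
    apply (QuotientGroup.eq_one_iff a).mpr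
    apply Matrix.GeneralLinearGroup.mem_center_iff_val_mem_range_scalar.mpr
    exact ⟨c, by rw [hc, Matrix.scalar_apply, Matrix.smul_one_eq_diagonal]⟩
  have hHC : (H : Subgroup (PG F)) ≤ Subgroup.centralizer {(QuotientGroup.mk a : PG F)} := by
    intro h hh
    rw [Subgroup.mem_centralizer_iff]
    intro y hy
    rw [Set.mem_singleton_iff] at hy
    subst hy
    rw [ha]
    have h6 := Subgroup.mem_center_iff.mp z.2 ⟨h, hh⟩
    have h7 := congrArg Subtype.val h6
    exact h7.symm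
  have hcomap := card_comap (Subgroup.centralizer {(QuotientGroup.mk a : PG F)})
  have hsub := comap_centralizer_subset a
  have hT1 := T_card_le (a : Matrix (Fin 2) (Fin 2) F) hns 1
  have hT2 := T_card_le (a : Matrix (Fin 2) (Fin 2) F) hns (-1)
  rw [hqq] at hT1 hT2
  rw [hq1] at hcomap
  have hle : Nat.card (Subgroup.centralizer {(QuotientGroup.mk a : PG F)}) * r ≤
      Nat.card (Tset (a : Matrix (Fin 2) (Fin 2) F) 1) + Nat.card (Tset (a : Matrix (Fin 2) (Fin 2) F) (-1)) := by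
    rw [← hcomap]
    have e1 := Set.ncard_le_ncard hsub (Set.toFinite _)
    have e2 := Set.ncard_union_le (Tset (a : Matrix (Fin 2) (Fin 2) F) 1) (Tset (a : Matrix (Fin 2) (Fin 2) F) (-1))
    rw [Nat.card_coe_set_eq, Nat.card_coe_set_eq]
    have e3 : Nat.card ((Subgroup.centralizer {(QuotientGroup.mk a : PG F)}).comap
      (QuotientGroup.mk' (Subgroup.center (GL (Fin 2) F)))) = (((Subgroup.centralizer {(QuotientGroup.mk a : PG F)}).comap
      (QuotientGroup.mk' (Subgroup.center (GL (Fin 2) F))) : Subgroup (GL (Fin 2) F)) : Set (GL (Fin 2) F)).ncard :=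
      Nat.card_coe_set_eq _
    rw [e3]
    exact e1.trans e2
  have hHC' : Nat.card H ≤ Nat.card (Subgroup.centralizer {(QuotientGroup.mk a : PG F)}) :=
    Subgroup.card_le_of_le hHC
  have hr0 : 0 < r := by omega
  have hmul : 2 * (r + 2) * r ≤ Nat.card (Subgroup.centralizer {(QuotientGroup.mk a : PG F)}) * r :=
    Nat.mul_le_mul_right r (hHle.trans hHC')
  have hT : Fintype.card F ^ 2 - 1 ≤ Nat.card (Tset (a : Matrix (Fin 2) (Fin 2) F) (-1)) := by
    rw [hqq]
    nlinarith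
  have hCle : Nat.card (Subgroup.centralizer {(QuotientGroup.mk a : PG F)}) ≤ 2 * (r + 2) := by
    apply Nat.le_of_mul_le_mul_right _ hr0
    nlinarith
  have hEq : (H : Subgroup (PG F)) = Subgroup.centralizer {(QuotientGroup.mk a : PG F)} :=
    Subgroup.eq_of_le_of_card_ge hHC (hCle.trans hHle)
  have hne : Nonempty (Tset (a : Matrix (Fin 2) (Fin 2) F) (-1)) := by
    by_contra hne
    rw [not_nonempty_iff] at hne
    have := Nat.card_of_isEmpty (α := Tset (a : Matrix (Fin 2) (Fin 2) F) (-1))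
    rw [this, hqq] at hT
    nlinarith
  obtain ⟨⟨g, hg⟩⟩ := hne
  have hg' : (g : Matrix (Fin 2) (Fin 2) F) * (a : Matrix (Fin 2) (Fin 2) F) =
      (-1 : F) • ((a : Matrix (Fin 2) (Fin 2) F) * (g : Matrix (Fin 2) (Fin 2) F)) := hg
  have htr : (a : Matrix (Fin 2) (Fin 2) F).trace = 0 := by
    have e : (a : Matrix (Fin 2) (Fin 2) F) = (-1 : F) • (((g⁻¹ : GL (Fin 2) F) : Matrix (Fin 2) (Fin 2) F) *
        ((a : Matrix (Fin 2) (Fin 2) F) * (g : Matrix (Fin 2) (Fin 2) F))) := by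
      rw [← Matrix.mul_smul, ← hg', ← Matrix.mul_assoc, ← Units.val_mul, inv_mul_cancel, Units.val_one,
        Matrix.one_mul]
    have e2 := congrArg Matrix.trace e
    rw [Matrix.trace_smul, Matrix.trace_mul_comm, Matrix.mul_assoc, ← Units.val_mul, mul_inv_cancel,
      Units.val_one, Matrix.mul_one, smul_eq_mul] at e2
    have e3 : (2 : F) * (a : Matrix (Fin 2) (Fin 2) F).trace = 0 := by linear_combination e2
    exact (mul_eq_zero.mp e3).resolve_left h2
  exact ⟨a, hns, hEq, htr, fun B hB0 hB => T_det _ hns (-1) hT B hB0 hB⟩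

end

/-- Let q = 2^k − 1 ≥ 7 be a prime and let G = PGL(2,q), the general linear group of degree 2 over the field with q elements modulo its centre. Then any two Sylow 2-subgroups of G have a non-trivial intersection: for a Sylow 2-subgroup H and every x ∈ G, H ∩ H^x ≠ 1. -/
theorem result {q k : ℕ} [Fact q.Prime] (hk : q + 1 = 2 ^ k) (hq : 7 ≤ q)
    (H : Sylow 2 (GL (Fin 2) (ZMod q) ⧸ Subgroup.center (GL (Fin 2) (ZMod q))))
    (x : GL (Fin 2) (ZMod q) ⧸ Subgroup.center (GL (Fin 2) (ZMod q))) :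
    (H : Subgroup (GL (Fin 2) (ZMod q) ⧸ Subgroup.center (GL (Fin 2) (ZMod q)))) ⊓ MulAut.conj x • (H : Subgroup _) ≠ ⊥ := by
  have hcard : Fintype.card (ZMod q) = q := ZMod.card q
  have h2 : (2 : ZMod q) ≠ 0 := by
    intro h
    have h' : ((2 : ℕ) : ZMod q) = 0 := by exact_mod_cast h
    rw [ZMod.natCast_eq_zero_iff] at h'
    have := Nat.le_of_dvd (by norm_num) h'
    omega
  obtain ⟨a₁, hns₁, hH₁, htr₁, hdet₁⟩ :=
    sylow_struct h2 k (by rw [hcard]; exact hk) (by rw [hcard]; exact hq) H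
  obtain ⟨a₂, hns₂, hH₂, htr₂, hdet₂⟩ :=
    sylow_struct h2 k (by rw [hcard]; exact hk) (by rw [hcard]; exact hq) (x • H)
  rw [← Sylow.coe_subgroup_smul, hH₁, hH₂]
  have hsq₁ := traceless_sq (a₁ : Matrix (Fin 2) (Fin 2) (ZMod q)) htr₁
  have hsq₂ := traceless_sq (a₂ : Matrix (Fin 2) (Fin 2) (ZMod q)) htr₂
  have hB1 := comm_anti (a₁ : Matrix (Fin 2) (Fin 2) (ZMod q)) (a₂ : Matrix (Fin 2) (Fin 2) (ZMod q)) _ hsq₁
  have hB2 := comm_anti' (a₁ : Matrix (Fin 2) (Fin 2) (ZMod q)) (a₂ : Matrix (Fin 2) (Fin 2) (ZMod q)) _ hsq₂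
  intro hbot
  by_cases hB0 : (a₁ : Matrix (Fin 2) (Fin 2) (ZMod q)) * (a₂ : Matrix (Fin 2) (Fin 2) (ZMod q)) -
      (a₂ : Matrix (Fin 2) (Fin 2) (ZMod q)) * (a₁ : Matrix (Fin 2) (Fin 2) (ZMod q)) = 0
  · have hmem : (QuotientGroup.mk a₂ : PG (ZMod q)) ∈
        Subgroup.centralizer {(QuotientGroup.mk a₁ : PG (ZMod q))} ⊓
          Subgroup.centralizer {(QuotientGroup.mk a₂ : PG (ZMod q))} := by
      refine Subgroup.mem_inf.mpr ⟨?_, ?_⟩
      · rw [Subgroup.mem_centralizer_iff]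
        intro y hy
        rw [Set.mem_singleton_iff] at hy
        subst hy
        rw [← QuotientGroup.mk_mul, ← QuotientGroup.mk_mul]
        congr 1
        apply Units.ext
        rw [Units.val_mul, Units.val_mul]
        exact sub_eq_zero.mp hB0
      · rw [Subgroup.mem_centralizer_iff]
        intro y hy
        rw [Set.mem_singleton_iff] at hy
        subst hy
        rfl
    rw [hbot, Subgroup.mem_bot] at hmem
    have h3 := (QuotientGroup.eq_one_iff a₂).mp hmem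
    obtain ⟨c, hc⟩ := Matrix.GeneralLinearGroup.mem_center_iff_val_mem_range_scalar.mp h3
    apply hns₂
    exact ⟨c, by rw [← hc, Matrix.scalar_apply, Matrix.smul_one_eq_diagonal]⟩
  · have hdB := hdet₁ _ hB0 hB1
    obtain ⟨b, hbv⟩ : ∃ b : GL (Fin 2) (ZMod q), (b : Matrix (Fin 2) (Fin 2) (ZMod q)) =
        (a₁ : Matrix (Fin 2) (Fin 2) (ZMod q)) * (a₂ : Matrix (Fin 2) (Fin 2) (ZMod q)) -
      (a₂ : Matrix (Fin 2) (Fin 2) (ZMod q)) * (a₁ : Matrix (Fin 2) (Fin 2) (ZMod q)) :=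
      ⟨Matrix.GeneralLinearGroup.mkOfDetNeZero _ hdB, rfl⟩
    rw [← hbv] at hB1 hB2 hB0
    have hcomm : ∀ (a : GL (Fin 2) (ZMod q)),
        (b : Matrix (Fin 2) (Fin 2) (ZMod q)) * (a : Matrix (Fin 2) (Fin 2) (ZMod q)) =
          (-1 : ZMod q) • ((a : Matrix (Fin 2) (Fin 2) (ZMod q)) * (b : Matrix (Fin 2) (Fin 2) (ZMod q))) →
        (QuotientGroup.mk b : PG (ZMod q)) ∈ Subgroup.centralizer {(QuotientGroup.mk a : PG (ZMod q))} := by
      intro a ha
      rw [Subgroup.mem_centralizer_iff]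
      intro y hy
      rw [Set.mem_singleton_iff] at hy
      subst hy
      rw [← QuotientGroup.mk_mul, ← QuotientGroup.mk_mul, QuotientGroup.eq]
      have h5 : (a * b)⁻¹ * (b * a) = Matrix.GeneralLinearGroup.scalar (Fin 2) (-1 : (ZMod q)ˣ) := by
        rw [inv_mul_eq_iff_eq_mul]
        apply Units.ext
        rw [Units.val_mul, Units.val_mul, Units.val_mul, Matrix.GeneralLinearGroup.coe_scalar, ha,
          Matrix.scalar_apply, ← Matrix.smul_one_eq_diagonal, Matrix.mul_smul, Matrix.mul_one]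
        simp
      rw [h5, Matrix.GeneralLinearGroup.center_eq_range_scalar]
      exact ⟨_, rfl⟩
    have hmem : (QuotientGroup.mk b : PG (ZMod q)) ∈
        Subgroup.centralizer {(QuotientGroup.mk a₁ : PG (ZMod q))} ⊓
          Subgroup.centralizer {(QuotientGroup.mk a₂ : PG (ZMod q))} :=
      Subgroup.mem_inf.mpr ⟨hcomm a₁ hB1, hcomm a₂ hB2⟩
    rw [hbot, Subgroup.mem_bot] at hmem
    obtain ⟨c, hc⟩ := Matrix.GeneralLinearGroup.mem_center_iff_val_mem_range_scalar.mp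
      ((QuotientGroup.eq_one_iff b).mp hmem)
    have hBc : (b : Matrix (Fin 2) (Fin 2) (ZMod q)) = c • (1 : Matrix (Fin 2) (Fin 2) (ZMod q)) := by
      rw [← hc, Matrix.scalar_apply, Matrix.smul_one_eq_diagonal]
    rw [hBc] at hB1 hB0
    simp only [Matrix.smul_mul, Matrix.mul_smul, Matrix.one_mul, Matrix.mul_one, neg_smul, one_smul] at hB1
    have h6 : (2 * c) • (a₁ : Matrix (Fin 2) (Fin 2) (ZMod q)) = 0 := by
      rw [mul_smul, two_smul]
      nth_rewrite 2 [hB1]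
      exact add_neg_cancel _
    have hA0 : (a₁ : Matrix (Fin 2) (Fin 2) (ZMod q)) ≠ 0 := by
      intro h0
      apply hns₁
      exact ⟨0, by rw [h0, zero_smul]⟩
    rcases smul_eq_zero.mp h6 with h | h
    · have hc0 : c = 0 := (mul_eq_zero.mp h).resolve_left h2
      apply hB0
      rw [hc0, zero_smul]
    · exact hA0 h

end Cfsg.Agent.S2485
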