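import Cfsg.Statements.S2487
import Cfsg.Agent.Lead.S2487F
import Cfsg.Agent.Helper9.S2487K
import Cfsg.Agent.Helper18.S2487R
import Cfsg.Agent.Helper3.S2487D

set_option autoImplicit false
open scoped Pointwise
open Cfsg

namespace Cfsg.Agent.S2487

/-- Let m ≥ 4 and let G be the full isometry group of the hyperbolic quadratic form x₁y₁ + ⋯ + x_m y_m on the 2m-dimensional space over the field with 2 elements (the orthogonal group O⁺(2m,2), which contains Ω⁺(2m,2) with index 2). Then any two Sylow 2-subgroups of G have a non-trivial intersection: for a Sylow 2-subgroup H and every x ∈ G, H ∩ H^x ≠ 1. -/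
theorem result {F : Type*} [Field F] [Fintype F] (hF : Fintype.card F = 2) {m : ℕ} (hm : 4 ≤ m)
    (H : Sylow 2 (Cfsg.isometryGroup F (Cfsg.quadFormPlus m F)))
    (x : Cfsg.isometryGroup F (Cfsg.quadFormPlus m F)) :
    (H : Subgroup (Cfsg.isometryGroup F (Cfsg.quadFormPlus m F))) ⊓ MulAut.conj x • (H : Subgroup _) ≠ ⊥ := by
  obtain ⟨n, rfl⟩ : ∃ n, m = n + 1 := ⟨m - 1, by omega⟩
  exact Cfsg.Agent.S2487P.lead_final n
    (fun g hg hfix => Cfsg.Agent.S2487P.h3_pow_eight hF n g hg hfix)
    (fun w => Cfsg.Agent.S2487P.h9_fix_family hF (n + 1) w (by simp; omega)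
      (fun v hv => Cfsg.Agent.S2487P.h18_refl hF (n + 1) v hv)
      (fun a b ha hb hab ha0 hb0 hne =>
        Cfsg.Agent.S2487P.h3_siegel hF (n + 1) a b ha hb hab ha0 hb0 hne)) H x

end Cfsg.Agent.S2487
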