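import Cfsg.Statements.S2505
import Mathlib

set_option autoImplicit false
open Cfsg

namespace Cfsg.Agent.S2505

/-- the maximal product of a partition of `n` -/
def g : ℕ → ℕ
  | 0 => 1
  | 1 => 1
  | 2 => 2
  | 3 => 3
  | 4 => 4
  | (n+5) => 3 * g (n+2)

lemma g_add_three (j : ℕ) (hj : 2 ≤ j) : g (j + 3) = 3 * g j := by
  obtain ⟨n, rfl⟩ : ∃ n, j = n + 2 := ⟨j - 2, by omega⟩
  show g (n + 5) = 3 * g (n + 2)
  rw [g]

lemma g_pos (n : ℕ) : 1 ≤ g n := by
  induction n using Nat.strong_induction_on with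
  | _ n ih =>
    rcases Nat.lt_or_ge n 5 with h | h
    · interval_cases n <;> decide
    · obtain ⟨j, rfl⟩ : ∃ j, n = j + 3 := ⟨n - 3, by omega⟩
      rw [g_add_three j (by omega)]
      have := ih j (by omega)
      omega

lemma g_small (c r : ℕ) (hc : c ≤ 4) : c * g r ≤ g (r + c) := by
  induction r using Nat.strong_induction_on with
  | _ r ih =>
    rcases Nat.lt_or_ge r 5 with h | h
    · interval_cases r <;> interval_cases c <;> decide
    · obtain ⟨j, rfl⟩ : ∃ j, r = j + 3 := ⟨r - 3, by omega⟩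
      have h1 := ih j (by omega)
      rw [g_add_three j (by omega), show j + 3 + c = (j + c) + 3 by omega,
        g_add_three (j + c) (by omega)]
      nlinarith

lemma g_mul (m r : ℕ) (hm : 1 ≤ m) : m * g r ≤ g (m + r) := by
  induction m using Nat.strong_induction_on generalizing r with
  | _ m ih =>
    rcases Nat.lt_or_ge m 5 with h | h
    · have := g_small m r (by omega)
      rwa [add_comm] at this
    · have h1 := ih (m - 3) (by omega) r (by omega)
      have h2 : g (m + r) = 3 * g (m - 3 + r) := by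
        rw [show m + r = (m - 3 + r) + 3 by omega, g_add_three _ (by omega)]
      rw [h2]
      have h3 : m ≤ 3 * (m - 3) := by omega
      calc m * g r ≤ 3 * (m - 3) * g r := Nat.mul_le_mul_right _ h3
        _ = 3 * ((m - 3) * g r) := by ring
        _ ≤ 3 * g (m - 3 + r) := Nat.mul_le_mul_left _ h1

lemma g_closed (k : ℕ) (hk : 1 ≤ k) :
    g (3 * k) = 3 ^ k ∧ g (3 * k + 1) = 4 * 3 ^ (k - 1) ∧ g (3 * k + 2) = 2 * 3 ^ k := by
  induction k, hk using Nat.le_induction with
  | base => decide
  | succ k hk ih =>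
    obtain ⟨h1, h2, h3⟩ := ih
    refine ⟨?_, ?_, ?_⟩
    · rw [show 3 * (k + 1) = 3 * k + 3 by ring, g_add_three _ (by omega), h1, pow_succ]; ring
    · rw [show 3 * (k + 1) + 1 = (3 * k + 1) + 3 by ring, g_add_three _ (by omega), h2]
      obtain ⟨j, rfl⟩ : ∃ j, k = j + 1 := ⟨k - 1, by omega⟩
      simp only [Nat.add_sub_cancel, pow_succ]; ring
    · rw [show 3 * (k + 1) + 2 = (3 * k + 2) + 3 by ring, g_add_three _ (by omega), h3, pow_succ]
      ring

theorem card_le_g : ∀ (n : ℕ) (X : Type) [Finite X], Nat.card X = n →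
    ∀ A : Subgroup (Equiv.Perm X), IsMulCommutative A → Nat.card A ≤ g n := by
  intro n
  induction n using Nat.strong_induction_on with
  | _ n ih =>
    intro X _ hX A hA
    classical
    haveI := hA
    rcases isEmpty_or_nonempty X with hemp | ⟨⟨x⟩⟩
    · have h1 : Nat.card A ≤ 1 := Finite.card_le_one_iff_subsingleton.mpr inferInstance
      exact h1.trans (g_pos n)
    · have hos := Nat.card_congr (MulAction.orbitProdStabilizerEquivGroup A x)
      rw [Nat.card_prod] at hos
      have hinv : ∀ (a : A) (y : X),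
          (a : Equiv.Perm X) y ∈ MulAction.orbit A x ↔ y ∈ MulAction.orbit A x := by
        intro a y
        show a • y ∈ MulAction.orbit A x ↔ y ∈ MulAction.orbit A x
        rw [← MulAction.orbit_eq_iff, ← MulAction.orbit_eq_iff, MulAction.orbit_smul]
      have hfix : ∀ (a : A), a ∈ MulAction.stabilizer A x → ∀ y ∈ MulAction.orbit A x,
          (a : Equiv.Perm X) y = y := by
        rintro a ha _ ⟨b, rfl⟩
        have hax : a • x = x := ha
        show a • (b • x) = b • x
        rw [← mul_smul, mul_comm' a b, mul_smul, hax]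
      let φ : MulAction.stabilizer A x →* Equiv.Perm {y : X // y ∉ MulAction.orbit A x} :=
        { toFun := fun a => Equiv.Perm.subtypePerm ((a : A) : Equiv.Perm X)
            (fun y => not_congr (hinv a y))
          map_one' := by ext y; rfl
          map_mul' := fun a b => by ext y; rfl }
      have hφinj : Function.Injective φ := by
        rw [injective_iff_map_eq_one]
        intro a ha
        apply Subtype.ext
        apply Subtype.ext
        ext y
        by_cases hy : y ∈ MulAction.orbit A x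
        · exact hfix a a.2 y hy
        · have := congrArg
            (fun σ : Equiv.Perm {y : X // y ∉ MulAction.orbit A x} => (σ ⟨y, hy⟩ : X)) ha
          exact this
      have hcardS : Nat.card φ.range = Nat.card (MulAction.stabilizer A x) :=
        (Nat.card_congr (MonoidHom.ofInjective hφinj).toEquiv).symm
      have hYcard : Nat.card {y : X // y ∉ MulAction.orbit A x}
          = n - Nat.card (MulAction.orbit A x) := by
        haveI := Fintype.ofFinite X
        rw [Nat.card_eq_fintype_card, Fintype.card_subtype_compl, ← Nat.card_eq_fintype_card,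
          ← Nat.card_eq_fintype_card, hX]
      haveI : Nonempty (MulAction.orbit A x) := ⟨⟨x, MulAction.mem_orbit_self x⟩⟩
      have hOpos : 1 ≤ Nat.card (MulAction.orbit A x) := Nat.card_pos
      have hOle : Nat.card (MulAction.orbit A x) ≤ n :=
        hX ▸ Nat.card_le_card_of_injective _ Subtype.val_injective
      have hB := ih (n - Nat.card (MulAction.orbit A x)) (by omega)
        {y : X // y ∉ MulAction.orbit A x} hYcard φ.range inferInstance
      rw [hcardS] at hB
      calc Nat.card A = Nat.card (MulAction.orbit A x) * Nat.card (MulAction.stabilizer A x) :=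
            hos.symm
        _ ≤ Nat.card (MulAction.orbit A x) * g (n - Nat.card (MulAction.orbit A x)) :=
            Nat.mul_le_mul_left _ hB
        _ ≤ g (Nat.card (MulAction.orbit A x) + (n - Nat.card (MulAction.orbit A x))) :=
            g_mul _ _ hOpos
        _ = g n := by congr 1; omega

def Q (X : Type) (c : ℕ) : Prop :=
  ∃ A : Subgroup (Equiv.Perm X), IsMulCommutative A ∧ Nat.card A = c

lemma Q_congr {X Y : Type} (e : X ≃ Y) {c : ℕ} (h : Q X c) : Q Y c := by
  obtain ⟨A, hA, hc⟩ := h
  haveI := hA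
  refine ⟨A.map (e.permCongrHom : Equiv.Perm X ≃* Equiv.Perm Y).toMonoidHom, inferInstance, ?_⟩
  rw [Subgroup.card_map_of_injective (MulEquiv.injective _), hc]

lemma Q_sum {X Y : Type} {c d : ℕ} (hX : Q X c) (hY : Q Y d) : Q (X ⊕ Y) (c * d) := by
  obtain ⟨A, hA, hc⟩ := hX
  obtain ⟨B, hB, hd⟩ := hY
  haveI := hA
  haveI := hB
  haveI : IsMulCommutative (A.prod B) := ⟨⟨fun x y => by
    apply Subtype.ext
    apply Prod.ext
    · exact setLike_mul_comm (s := A) x.2.1 y.2.1
    · exact setLike_mul_comm (s := B) x.2.2 y.2.2⟩⟩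
  refine ⟨(A.prod B).map (Equiv.Perm.sumCongrHom X Y), inferInstance, ?_⟩
  rw [Subgroup.card_map_of_injective Equiv.Perm.sumCongrHom_injective,
    Nat.card_congr (Subgroup.prodEquiv A B).toEquiv, Nat.card_prod, hc, hd]

lemma Q_cyclic (c : ℕ) (hc : 1 ≤ c) : Q (Fin c) c := by
  haveI : NeZero c := ⟨by omega⟩
  have h1 : Q (Multiplicative (ZMod c)) c := by
    refine ⟨(MulAction.toPermHom (Multiplicative (ZMod c)) (Multiplicative (ZMod c))).range,
      inferInstance, ?_⟩
    rw [← Nat.card_congr (MonoidHom.ofInjective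
      (f := MulAction.toPermHom (Multiplicative (ZMod c)) (Multiplicative (ZMod c)))
      MulAction.toPerm_injective).toEquiv]
    rw [Nat.card_congr Multiplicative.toAdd, Nat.card_eq_fintype_card, ZMod.card]
  exact Q_congr (Multiplicative.toAdd.trans (ZMod.finEquiv c).symm.toEquiv) h1

lemma Q_empty : Q (Fin 0) 1 := ⟨⊥, inferInstance, by simp⟩

lemma Q_three_pow (k : ℕ) : Q (Fin (3 * k)) (3 ^ k) := by
  induction k with
  | zero => exact Q_empty
  | succ k ih =>
    have h1 := Q_sum ih (Q_cyclic 3 (by norm_num))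
    have e : Fin (3 * k) ⊕ Fin 3 ≃ Fin (3 * (k + 1)) := finSumFinEquiv.trans (finCongr (by ring))
    have h2 := Q_congr e h1
    rwa [← pow_succ] at h2

/-- The largest order of an abelian subgroup of the symmetric group of degree n is 3^k when n = 3k, 4·3^(k−1) when n = 3k + 1, and 2·3^k when n = 3k + 2, for every k ≥ 1. -/
theorem result (k : ℕ) (hk : 1 ≤ k) :
    IsGreatest {c : ℕ | ∃ A : Subgroup (Equiv.Perm (Fin (3 * k))), IsMulCommutative A ∧ Nat.card A = c} (3 ^ k) ∧
    IsGreatest {c : ℕ | ∃ A : Subgroup (Equiv.Perm (Fin (3 * k + 1))), IsMulCommutative A ∧ Nat.card A = c}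
      (4 * 3 ^ (k - 1)) ∧
    IsGreatest {c : ℕ | ∃ A : Subgroup (Equiv.Perm (Fin (3 * k + 2))), IsMulCommutative A ∧ Nat.card A = c}
      (2 * 3 ^ k) := by
  obtain ⟨h1, h2, h3⟩ := g_closed k hk
  refine ⟨⟨?_, ?_⟩, ⟨?_, ?_⟩, ⟨?_, ?_⟩⟩
  · exact Q_three_pow k
  · rintro c ⟨A, hA, rfl⟩
    have := card_le_g (3 * k) (Fin (3 * k)) (by simp) A hA
    rwa [h1] at this
  · obtain ⟨j, rfl⟩ : ∃ j, k = j + 1 := ⟨k - 1, by omega⟩
    have h4 := Q_sum (Q_three_pow j) (Q_cyclic 4 (by norm_num))
    have e : Fin (3 * j) ⊕ Fin 4 ≃ Fin (3 * (j + 1) + 1) :=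
      finSumFinEquiv.trans (finCongr (by ring))
    have h5 := Q_congr e h4
    have h6 : 3 ^ j * 4 = 4 * 3 ^ (j + 1 - 1) := by rw [Nat.add_sub_cancel, mul_comm]
    rw [h6] at h5
    exact h5
  · rintro c ⟨A, hA, rfl⟩
    have := card_le_g (3 * k + 1) (Fin (3 * k + 1)) (by simp) A hA
    rwa [h2] at this
  · have h4 := Q_sum (Q_three_pow k) (Q_cyclic 2 (by norm_num))
    have h5 := Q_congr (finSumFinEquiv : Fin (3 * k) ⊕ Fin 2 ≃ Fin (3 * k + 2)) h4
    rw [mul_comm (3 ^ k) 2] at h5
    exact h5
  · rintro c ⟨A, hA, rfl⟩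
    have := card_le_g (3 * k + 2) (Fin (3 * k + 2)) (by simp) A hA
    rwa [h3] at this

end Cfsg.Agent.S2505
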