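import Cfsg.Statements.S2504
import Mathlib
import Cfsg.Agent.S2505

set_option autoImplicit false
open Cfsg

namespace Cfsg.Agent.S2504

open Cfsg.Agent.S2505

/-- the maximal order of an abelian subgroup of the alternating group of degree `n` -/
def h : ℕ → ℕ
  | 0 => 1
  | 1 => 1
  | 2 => 1
  | 3 => 3
  | 4 => 4
  | 5 => 5
  | 6 => 9
  | 7 => 12
  | 8 => 16
  | (n+9) => 3 * h (n+6)

lemma h_add_three (j : ℕ) (hj : 6 ≤ j) : h (j + 3) = 3 * h j := by
  obtain ⟨n, rfl⟩ : ∃ n, j = n + 6 := ⟨j - 6, by omega⟩
  show h (n + 9) = 3 * h (n + 6)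
  rw [h]

lemma h_pos (n : ℕ) : 1 ≤ h n := by
  induction n using Nat.strong_induction_on with
  | _ n ih =>
    rcases Nat.lt_or_ge n 9 with h9 | h9
    · interval_cases n <;> decide
    · obtain ⟨j, rfl⟩ : ∃ j, n = j + 3 := ⟨n - 3, by omega⟩
      rw [h_add_three j (by omega)]
      have := ih j (by omega)
      omega

lemma h_base (c : ℕ) (hc : c = 1 ∨ c = 3 ∨ c = 4 ∨ c = 5) (r : ℕ) : c * h r ≤ h (r + c) := by
  induction r using Nat.strong_induction_on with
  | _ r ih =>
    rcases Nat.lt_or_ge r 9 with hr | hr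
    · interval_cases r <;> rcases hc with rfl | rfl | rfl | rfl <;> decide
    · obtain ⟨j, rfl⟩ : ∃ j, r = j + 3 := ⟨r - 3, by omega⟩
      have h1 := ih j (by omega)
      rw [h_add_three j (by omega), show j + 3 + c = (j + c) + 3 by omega,
        h_add_three (j + c) (by omega)]
      nlinarith

lemma three_h_le (j : ℕ) (hj : 2 ≤ j) : 3 * h j ≤ h (j + 3) := by
  rcases Nat.lt_or_ge j 6 with h6 | h6
  · interval_cases j <;> decide
  · rw [h_add_three j h6]

lemma h_mul (m r : ℕ) (hm : 1 ≤ m) (hm2 : m ≠ 2) : m * h r ≤ h (m + r) := by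
  induction m using Nat.strong_induction_on generalizing r with
  | _ m ih =>
    rcases Nat.lt_or_ge m 6 with h6 | h6
    · have := h_base m (by omega) r
      rwa [add_comm] at this
    · have h1 := ih (m - 3) (by omega) r (by omega) (by omega)
      have h2 : 3 * h (m - 3 + r) ≤ h (m + r) := by
        have := three_h_le (m - 3 + r) (by omega)
        rwa [show m - 3 + r + 3 = m + r by omega] at this
      have h3 : m ≤ 3 * (m - 3) := by omega
      calc m * h r ≤ 3 * (m - 3) * h r := Nat.mul_le_mul_right _ h3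
        _ = 3 * ((m - 3) * h r) := by ring
        _ ≤ 3 * h (m - 3 + r) := Nat.mul_le_mul_left _ h1
        _ ≤ h (m + r) := h2

lemma g_le_h (j : ℕ) : g j ≤ h (j + 2) := by
  induction j using Nat.strong_induction_on with
  | _ j ih =>
    rcases Nat.lt_or_ge j 9 with hj | hj
    · interval_cases j <;> decide
    · obtain ⟨i, rfl⟩ : ∃ i, j = i + 3 := ⟨j - 3, by omega⟩
      have h1 := ih i (by omega)
      rw [g_add_three i (by omega), show i + 3 + 2 = (i + 2) + 3 by omega,
        h_add_three (i + 2) (by omega)]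
      omega

lemma h_closed (k : ℕ) (hk : 2 ≤ k) :
    h (3 * k) = 3 ^ k ∧ h (3 * k + 1) = 4 * 3 ^ (k - 1) ∧ h (3 * k + 2) = 16 * 3 ^ (k - 2) := by
  induction k, hk using Nat.le_induction with
  | base => decide
  | succ k hk ih =>
    obtain ⟨h1, h2, h3⟩ := ih
    obtain ⟨j, rfl⟩ : ∃ j, k = j + 2 := ⟨k - 2, by omega⟩
    refine ⟨?_, ?_, ?_⟩
    · rw [show 3 * (j + 2 + 1) = 3 * (j + 2) + 3 by ring, h_add_three _ (by omega), h1, pow_succ]
      ring
    · rw [show 3 * (j + 2 + 1) + 1 = (3 * (j + 2) + 1) + 3 by ring, h_add_three _ (by omega), h2]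
      simp only [show j + 2 + 1 - 1 = (j + 1) + 1 by omega, show j + 2 - 1 = j + 1 by omega,
        pow_succ]
      ring
    · rw [show 3 * (j + 2 + 1) + 2 = (3 * (j + 2) + 2) + 3 by ring, h_add_three _ (by omega), h3]
      simp only [show j + 2 + 1 - 2 = j + 1 by omega, show j + 2 - 2 = j by omega, pow_succ]
      ring

theorem card_le_h : ∀ (n : ℕ) (X : Type) [Fintype X] [DecidableEq X], Nat.card X = n →
    ∀ A : Subgroup (Equiv.Perm X), IsMulCommutative A → A ≤ alternatingGroup X →
      Nat.card A ≤ h n := by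
  intro n
  induction n using Nat.strong_induction_on with
  | _ n ih =>
    intro X _ _ hX A hA hAalt
    classical
    haveI := hA
    rcases isEmpty_or_nonempty X with hemp | ⟨⟨x⟩⟩
    · have h1 : Nat.card A ≤ 1 := Finite.card_le_one_iff_subsingleton.mpr inferInstance
      exact h1.trans (h_pos n)
    · have hos := Nat.card_congr (MulAction.orbitProdStabilizerEquivGroup A x)
      rw [Nat.card_prod] at hos
      have hinv : ∀ (a : A) (y : X),
          (a : Equiv.Perm X) y ∈ MulAction.orbit A x ↔ y ∈ MulAction.orbit A x := by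
        intro a y
        show a • y ∈ MulAction.orbit A x ↔ y ∈ MulAction.orbit A x
        rw [← MulAction.orbit_eq_iff, ← MulAction.orbit_eq_iff, MulAction.orbit_smul]
      have hYcard : Nat.card {y : X // y ∉ MulAction.orbit A x}
          = n - Nat.card (MulAction.orbit A x) := by
        rw [Nat.card_eq_fintype_card, Fintype.card_subtype_compl, ← Nat.card_eq_fintype_card,
          ← Nat.card_eq_fintype_card, hX]
      haveI : Nonempty (MulAction.orbit A x) := ⟨⟨x, MulAction.mem_orbit_self x⟩⟩
      have hOpos : 1 ≤ Nat.card (MulAction.orbit A x) := Nat.card_pos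
      have hOle : Nat.card (MulAction.orbit A x) ≤ n :=
        hX ▸ Nat.card_le_card_of_injective _ Subtype.val_injective
      by_cases h2 : Nat.card (MulAction.orbit A x) = 2
      · let ψ : A →* Equiv.Perm {y : X // y ∉ MulAction.orbit A x} :=
          { toFun := fun a => Equiv.Perm.subtypePerm (a : Equiv.Perm X)
              (fun y => not_congr (hinv a y))
            map_one' := by ext y; rfl
            map_mul' := fun a b => by ext y; rfl }
        have hψinj : Function.Injective ψ := by
          rw [injective_iff_map_eq_one]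
          intro a ha
          by_contra hne
          have hne' : (a : Equiv.Perm X) ≠ 1 := fun h => hne (Subtype.ext h)
          have hfixY : ∀ y, y ∉ MulAction.orbit A x → (a : Equiv.Perm X) y = y := by
            intro y hy
            have := congrArg
              (fun σ : Equiv.Perm {y : X // y ∉ MulAction.orbit A x} => (σ ⟨y, hy⟩ : X)) ha
            exact this
          have hsupp : (a : Equiv.Perm X).support ⊆ (MulAction.orbit A x).toFinset := by
            intro y hy
            rw [Set.mem_toFinset]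
            by_contra hy'
            exact (Equiv.Perm.mem_support.mp hy) (hfixY y hy')
          have hc1 : (a : Equiv.Perm X).support.card ≤ 2 := by
            refine le_trans (Finset.card_le_card hsupp) ?_
            rw [Set.toFinset_card, ← Nat.card_eq_fintype_card, h2]
          have hc2 := Equiv.Perm.two_le_card_support_of_ne_one hne'
          have hswap : (a : Equiv.Perm X).IsSwap :=
            Equiv.Perm.card_support_eq_two.mp (by omega)
          have hsign := hswap.sign_eq
          have heven : Equiv.Perm.sign (a : Equiv.Perm X) = 1 :=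
            Equiv.Perm.mem_alternatingGroup.mp (hAalt a.2)
          rw [heven] at hsign
          exact absurd hsign (by decide)
        have hcardA : Nat.card ψ.range = Nat.card A :=
          (Nat.card_congr (MonoidHom.ofInjective hψinj).toEquiv).symm
        have hB := card_le_g (n - 2) {y : X // y ∉ MulAction.orbit A x}
          (by rw [hYcard, h2]) ψ.range inferInstance
        rw [hcardA] at hB
        have := g_le_h (n - 2)
        rw [show n - 2 + 2 = n by omega] at this
        exact hB.trans this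
      · have hfix : ∀ (a : A), a ∈ MulAction.stabilizer A x → ∀ y ∈ MulAction.orbit A x,
            (a : Equiv.Perm X) y = y := by
          rintro a ha _ ⟨b, rfl⟩
          have hax : a • x = x := ha
          show a • (b • x) = b • x
          rw [← mul_smul, mul_comm' a b, mul_smul, hax]
        let φ : MulAction.stabilizer A x →* Equiv.Perm {y : X // y ∉ MulAction.orbit A x} :=
          { toFun := fun a => Equiv.Perm.subtypePerm ((a : A) : Equiv.Perm X)
              (fun y => not_congr (hinv a y))
            map_one' := by ext y; rfl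
            map_mul' := fun a b => by ext y; rfl }
        have hφinj : Function.Injective φ := by
          rw [injective_iff_map_eq_one]
          intro a ha
          apply Subtype.ext
          apply Subtype.ext
          ext y
          by_cases hy : y ∈ MulAction.orbit A x
          · exact hfix a a.2 y hy
          · have := congrArg
              (fun σ : Equiv.Perm {y : X // y ∉ MulAction.orbit A x} => (σ ⟨y, hy⟩ : X)) ha
            exact this
        have hcardS : Nat.card φ.range = Nat.card (MulAction.stabilizer A x) :=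
          (Nat.card_congr (MonoidHom.ofInjective hφinj).toEquiv).symm
        have hφalt : φ.range ≤ alternatingGroup {y : X // y ∉ MulAction.orbit A x} := by
          rintro _ ⟨a, rfl⟩
          rw [Equiv.Perm.mem_alternatingGroup]
          show Equiv.Perm.sign (Equiv.Perm.subtypePerm ((a : A) : Equiv.Perm X)
            (fun y => not_congr (hinv a y))) = 1
          rw [Equiv.Perm.sign_subtypePerm]
          · exact Equiv.Perm.mem_alternatingGroup.mp (hAalt (a : A).2)
          · intro y hy hmem
            exact hy (hfix a a.2 y hmem)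
        have hB := ih (n - Nat.card (MulAction.orbit A x)) (by omega)
          {y : X // y ∉ MulAction.orbit A x} hYcard φ.range inferInstance hφalt
        rw [hcardS] at hB
        calc Nat.card A = Nat.card (MulAction.orbit A x) * Nat.card (MulAction.stabilizer A x) :=
              hos.symm
          _ ≤ Nat.card (MulAction.orbit A x) * h (n - Nat.card (MulAction.orbit A x)) :=
              Nat.mul_le_mul_left _ hB
          _ ≤ h (Nat.card (MulAction.orbit A x) + (n - Nat.card (MulAction.orbit A x))) :=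
              h_mul _ _ hOpos h2
          _ = h n := by congr 1; omega

/-- existence of an abelian group of even permutations of a given order -/
def Qa (X : Type) [Fintype X] [DecidableEq X] (c : ℕ) : Prop :=
  ∃ A : Subgroup (Equiv.Perm X), IsMulCommutative A ∧ A ≤ alternatingGroup X ∧ Nat.card A = c

lemma Qa_congr {X Y : Type} [Fintype X] [DecidableEq X] [Fintype Y] [DecidableEq Y]
    (e : X ≃ Y) {c : ℕ} (hq : Qa X c) : Qa Y c := by
  obtain ⟨A, hA, halt, hc⟩ := hq
  haveI := hA
  refine ⟨A.map (e.permCongrHom : Equiv.Perm X ≃* Equiv.Perm Y).toMonoidHom, inferInstance,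
    ?_, ?_⟩
  · rintro _ ⟨σ, hσ, rfl⟩
    rw [Equiv.Perm.mem_alternatingGroup]
    show Equiv.Perm.sign (e.permCongr σ) = 1
    rw [Equiv.Perm.sign_permCongr]
    exact Equiv.Perm.mem_alternatingGroup.mp (halt hσ)
  · rw [Subgroup.card_map_of_injective (MulEquiv.injective _), hc]

lemma Qa_sum {X Y : Type} [Fintype X] [DecidableEq X] [Fintype Y] [DecidableEq Y] {c d : ℕ}
    (hX : Qa X c) (hY : Qa Y d) : Qa (X ⊕ Y) (c * d) := by
  obtain ⟨A, hA, haltA, hc⟩ := hX
  obtain ⟨B, hB, haltB, hd⟩ := hY
  haveI := hA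
  haveI := hB
  haveI : IsMulCommutative (A.prod B) := ⟨⟨fun x y => by
    apply Subtype.ext
    apply Prod.ext
    · exact setLike_mul_comm (s := A) x.2.1 y.2.1
    · exact setLike_mul_comm (s := B) x.2.2 y.2.2⟩⟩
  refine ⟨(A.prod B).map (Equiv.Perm.sumCongrHom X Y), inferInstance, ?_, ?_⟩
  · rintro _ ⟨⟨σ, τ⟩, hστ, rfl⟩
    rw [Equiv.Perm.mem_alternatingGroup]
    show Equiv.Perm.sign (Equiv.Perm.sumCongr σ τ) = 1
    rw [Equiv.Perm.sign_sumCongr, Equiv.Perm.mem_alternatingGroup.mp (haltA hστ.1),
      Equiv.Perm.mem_alternatingGroup.mp (haltB hστ.2), one_mul]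
  · rw [Subgroup.card_map_of_injective Equiv.Perm.sumCongrHom_injective,
      Nat.card_congr (Subgroup.prodEquiv A B).toEquiv, Nat.card_prod, hc, hd]

lemma Qa_three : Qa (Fin 3) 3 := by
  have h3c : Equiv.Perm.IsThreeCycle (Equiv.swap (0 : Fin 3) 1 * Equiv.swap (0 : Fin 3) 2) :=
    Equiv.Perm.isThreeCycle_swap_mul_swap_same (by decide) (by decide) (by decide)
  refine ⟨Subgroup.zpowers (Equiv.swap (0 : Fin 3) 1 * Equiv.swap (0 : Fin 3) 2), inferInstance, ?_, ?_⟩
  · rw [Subgroup.zpowers_le]; exact h3c.mem_alternatingGroup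
  · rw [Nat.card_zpowers, h3c.orderOf]

/-- first double transposition -/
def va : Equiv.Perm (Fin 4) := Equiv.swap 0 1 * Equiv.swap 2 3
/-- second double transposition -/
def vb : Equiv.Perm (Fin 4) := Equiv.swap 0 2 * Equiv.swap 1 3
/-- third double transposition -/
def vc : Equiv.Perm (Fin 4) := Equiv.swap 0 3 * Equiv.swap 1 2

/-- the Klein four-group inside `Perm (Fin 4)` -/
def V4 : Subgroup (Equiv.Perm (Fin 4)) where
  carrier := {σ | σ = 1 ∨ σ = va ∨ σ = vb ∨ σ = vc}
  mul_mem' := by
    rintro x y (rfl | rfl | rfl | rfl) (rfl | rfl | rfl | rfl) <;>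
      show _ = 1 ∨ _ = va ∨ _ = vb ∨ _ = vc <;> decide
  one_mem' := Or.inl rfl
  inv_mem' := by
    rintro x (rfl | rfl | rfl | rfl) <;> show _ = 1 ∨ _ = va ∨ _ = vb ∨ _ = vc <;> decide

lemma Qa_four : Qa (Fin 4) 4 := by
  refine ⟨V4, ⟨⟨?_⟩⟩, ?_, ?_⟩
  · rintro ⟨x, (rfl | rfl | rfl | rfl)⟩ ⟨y, (rfl | rfl | rfl | rfl)⟩ <;>
      apply Subtype.ext <;> show _ * _ = _ * _ <;> decide
  · rintro σ (rfl | rfl | rfl | rfl) <;> rw [Equiv.Perm.mem_alternatingGroup] <;>
      simp [va, vb, vc, Equiv.Perm.sign_mul, Equiv.Perm.sign_swap']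
  · have hset : (V4 : Set (Equiv.Perm (Fin 4)))
        = ↑({1, va, vb, vc} : Finset (Equiv.Perm (Fin 4))) := by
      ext σ
      simp only [Finset.coe_insert, Finset.coe_singleton, Set.mem_insert_iff,
        Set.mem_singleton_iff]
      rfl
    have h1 : Nat.card V4 = Set.ncard (V4 : Set (Equiv.Perm (Fin 4))) := rfl
    rw [h1, hset, Set.ncard_coe_finset]
    decide

lemma Qa_three_pow (k : ℕ) : Qa (Fin (3 * k)) (3 ^ k) := by
  induction k with
  | zero => exact ⟨⊥, inferInstance, bot_le, by simp⟩
  | succ k ih =>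
    have h1 := Qa_sum ih Qa_three
    have e : Fin (3 * k) ⊕ Fin 3 ≃ Fin (3 * (k + 1)) := finSumFinEquiv.trans (finCongr (by ring))
    have h2 := Qa_congr e h1
    rwa [← pow_succ] at h2

lemma Qa_to_alt {n c : ℕ} (hq : Qa (Fin n) c) :
    ∃ A : Subgroup (alternatingGroup (Fin n)), IsMulCommutative A ∧ Nat.card A = c := by
  obtain ⟨A, hA, halt, hc⟩ := hq
  haveI := hA
  refine ⟨A.subgroupOf (alternatingGroup (Fin n)), inferInstance, ?_⟩
  rw [Nat.card_congr (Subgroup.subgroupOfEquivOfLe halt).toEquiv, hc]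

lemma alt_bound (n : ℕ) (A : Subgroup (alternatingGroup (Fin n))) (hA : IsMulCommutative A) :
    Nat.card A ≤ h n := by
  haveI := hA
  have h1 := card_le_h n (Fin n) (by simp) (A.map (alternatingGroup (Fin n)).subtype)
    inferInstance (by rintro _ ⟨a, _, rfl⟩; exact a.2)
  rwa [Subgroup.card_map_of_injective (Subgroup.subtype_injective _)] at h1

/-- The largest order of an abelian subgroup of the alternating group of degree n is 3^k when n = 3k, 4·3^(k−1) when n = 3k + 1, and 16·3^(k−2) when n = 3k + 2, for every k ≥ 2 (so for all degrees n ≥ 6). -/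
theorem result (k : ℕ) (hk : 2 ≤ k) :
    IsGreatest {c : ℕ | ∃ A : Subgroup (alternatingGroup (Fin (3 * k))), IsMulCommutative A ∧ Nat.card A = c} (3 ^ k) ∧
    IsGreatest {c : ℕ | ∃ A : Subgroup (alternatingGroup (Fin (3 * k + 1))), IsMulCommutative A ∧ Nat.card A = c}
      (4 * 3 ^ (k - 1)) ∧
    IsGreatest {c : ℕ | ∃ A : Subgroup (alternatingGroup (Fin (3 * k + 2))), IsMulCommutative A ∧ Nat.card A = c}
      (16 * 3 ^ (k - 2)) := by
  obtain ⟨h1, h2, h3⟩ := h_closed k hk
  refine ⟨⟨?_, ?_⟩, ⟨?_, ?_⟩, ⟨?_, ?_⟩⟩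
  · exact Qa_to_alt (Qa_three_pow k)
  · rintro c ⟨A, hA, rfl⟩
    have := alt_bound (3 * k) A hA
    rwa [h1] at this
  · obtain ⟨j, rfl⟩ : ∃ j, k = j + 1 := ⟨k - 1, by omega⟩
    have h4 := Qa_sum (Qa_three_pow j) Qa_four
    have e : Fin (3 * j) ⊕ Fin 4 ≃ Fin (3 * (j + 1) + 1) :=
      finSumFinEquiv.trans (finCongr (by ring))
    have h5 := Qa_congr e h4
    have h6 : 3 ^ j * 4 = 4 * 3 ^ (j + 1 - 1) := by rw [Nat.add_sub_cancel, mul_comm]
    rw [h6] at h5
    exact Qa_to_alt h5
  · rintro c ⟨A, hA, rfl⟩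
    have := alt_bound (3 * k + 1) A hA
    rwa [h2] at this
  · obtain ⟨j, rfl⟩ : ∃ j, k = j + 2 := ⟨k - 2, by omega⟩
    have h4 := Qa_sum (Qa_three_pow j) (Qa_sum Qa_four Qa_four)
    have e : Fin (3 * j) ⊕ (Fin 4 ⊕ Fin 4) ≃ Fin (3 * (j + 2) + 2) :=
      (Equiv.sumCongr (Equiv.refl _) finSumFinEquiv).trans
        (finSumFinEquiv.trans (finCongr (by ring)))
    have h5 := Qa_congr e h4
    have h6 : 3 ^ j * (4 * 4) = 16 * 3 ^ (j + 2 - 2) := by rw [Nat.add_sub_cancel]; ring
    rw [h6] at h5
    exact Qa_to_alt h5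
  · rintro c ⟨A, hA, rfl⟩
    have := alt_bound (3 * k + 2) A hA
    rwa [h3] at this

end Cfsg.Agent.S2504
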