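import Cfsg.Statements.S2513
import Mathlib
import Cfsg.Agent.Helper15.PO

set_option autoImplicit false
open Cfsg

namespace Cfsg.Agent.S2513

open Cfsg.Agent.Helper15.PO

section two
variable {F : Type*} [Field F] [Fintype F] {n : ℕ}

theorem eq_one_of_ne_zero (hF : Fintype.card F = 2) {x : F} (hx : x ≠ 0) : x = 1 := by
  classical
  have h1 : Fintype.card Fˣ = 1 := by rw [Fintype.card_units, hF]
  haveI : Subsingleton Fˣ := Fintype.card_le_one_iff_subsingleton.mp h1.le
  have := Subsingleton.elim (Units.mk0 x hx) 1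
  simpa using congrArg Units.val this

theorem two_eq_zero' (hF : Fintype.card F = 2) : (2 : F) = 0 := by
  have := Nat.cast_card_eq_zero F
  rw [hF] at this
  exact_mod_cast this

theorem odd_cast_ne_zero (hF : Fintype.card F = 2) {r : ℕ} (hr : ¬ 2 ∣ r) : (r : F) ≠ 0 := by
  have h2 := two_eq_zero' hF
  obtain ⟨k, hk⟩ : ∃ k, r = 2 * k + 1 := ⟨r / 2, by omega⟩
  rw [hk]; push_cast; rw [h2]; simp

theorem center_eq_bot (hF : Fintype.card F = 2) :
    Subgroup.center (Matrix.SpecialLinearGroup (Fin n) F) = ⊥ := by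
  rw [eq_bot_iff]
  intro A hA
  rw [Matrix.SpecialLinearGroup.mem_center_iff] at hA
  obtain ⟨r, hr, hrA⟩ := hA
  rw [Subgroup.mem_bot]
  by_cases h0 : r = 0
  · subst h0
    have hn : n = 0 := by
      by_contra hn
      simp [zero_pow hn] at hr
    subst hn
    ext i j; exact i.elim0
  · have := eq_one_of_ne_zero hF h0
    subst this
    ext i j
    rw [← hrA]; simp

theorem sl_order (A : Matrix.SpecialLinearGroup (Fin n) F) :
    orderOf A = orderOf (A : Matrix (Fin n) (Fin n) F) := by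
  rw [orderOf_eq_orderOf_iff]
  intro k
  rw [← Matrix.SpecialLinearGroup.coe_pow]
  constructor
  · intro h; rw [h]; rfl
  · intro h; exact Subtype.ext h

theorem psl_order_of_mk (hF : Fintype.card F = 2) (A : Matrix.SpecialLinearGroup (Fin n) F) :
    orderOf (QuotientGroup.mk A : Matrix.ProjectiveSpecialLinearGroup (Fin n) F) =
      orderOf (A : Matrix (Fin n) (Fin n) F) := by
  rw [← sl_order]
  apply orderOf_injective
    (QuotientGroup.mk' (Subgroup.center (Matrix.SpecialLinearGroup (Fin n) F)))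
  intro x y hxy
  have := QuotientGroup.eq.mp hxy
  rw [center_eq_bot hF, Subgroup.mem_bot] at this
  exact inv_mul_eq_one.mp this

theorem psl_to_matrix (hF : Fintype.card F = 2)
    (x : Matrix.ProjectiveSpecialLinearGroup (Fin n) F) :
    ∃ M : Matrix (Fin n) (Fin n) F, orderOf M = orderOf x := by
  obtain ⟨A, rfl⟩ := QuotientGroup.mk_surjective x
  exact ⟨A, (psl_order_of_mk hF A).symm⟩

theorem matrix_to_psl (hF : Fintype.card F = 2) (M : Matrix (Fin n) (Fin n) F)
    (hM : orderOf M ≠ 0) :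
    ∃ x : Matrix.ProjectiveSpecialLinearGroup (Fin n) F, orderOf x = orderOf M := by
  have hdet : M.det = 1 := by
    apply eq_one_of_ne_zero hF
    intro h0
    have h1 : M ^ orderOf M = 1 := pow_orderOf_eq_one M
    have h2 := congrArg Matrix.det h1
    rw [Matrix.det_pow, h0, zero_pow hM, Matrix.det_one] at h2
    exact zero_ne_one h2
  exact ⟨QuotientGroup.mk ⟨M, hdet⟩, psl_order_of_mk hF ⟨M, hdet⟩⟩

theorem psl_prime_pow (hF : Fintype.card F = 2)
    (x : Matrix.ProjectiveSpecialLinearGroup (Fin n) F)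
    {r a : ℕ} (hr : r.Prime) (hr2 : r ≠ 2) (hx : r ^ (a + 1) ∣ orderOf x) :
    ∃ c, n / 2 < c ∧ c ≤ n ∧ r ^ (a + 1) ∣ 2 ^ c - 1 := by
  have hx0 : orderOf x ≠ 0 := (orderOf_pos x).ne'
  have h1 : orderOf (x ^ (orderOf x / r ^ (a + 1))) = r ^ (a + 1) :=
    orderOf_pow_orderOf_div hx0 hx
  obtain ⟨M, hM⟩ := psl_to_matrix hF (x ^ (orderOf x / r ^ (a + 1)))
  rw [h1] at hM
  have hr' : ¬ 2 ∣ r := fun h => hr2 ((Nat.prime_dvd_prime_iff_eq Nat.prime_two hr).mp h).symm
  obtain ⟨d, hd1, hdn, hdvd⟩ := matrix_order_prime_pow M hr (odd_cast_ne_zero hF hr') hM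
  rw [hF] at hdvd
  refine ⟨d * (n / d), ?_, Nat.mul_div_le n d, ?_⟩
  · have h2 : n < d * (n / d + 1) := Nat.lt_mul_div_succ n (by omega)
    rw [mul_add, mul_one] at h2
    have h3 : 1 ≤ n / d := Nat.div_pos hdn (by omega)
    have h4 : d ≤ d * (n / d) := Nat.le_mul_of_pos_right d h3
    omega
  · refine hdvd.trans ?_
    have := Nat.sub_dvd_pow_sub_pow (2 ^ d) 1 (n / d)
    rwa [one_pow, ← pow_mul] at this

theorem psl_exists_order (hF : Fintype.card F = 2) {c e : ℕ} (hc1 : 1 ≤ c) (hcn : c ≤ n)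
    (he : e ∣ 2 ^ c - 1) :
    ∃ x : Matrix.ProjectiveSpecialLinearGroup (Fin n) F, orderOf x = e := by
  obtain ⟨M, hM⟩ := exists_matrix_order (F := F) (n := n) (e := e) hc1 hcn (by rw [hF]; exact he)
  have he0 : e ≠ 0 := by
    rintro rfl
    have h1 := Nat.eq_zero_of_zero_dvd he
    have h2 : 2 ^ 1 ≤ 2 ^ c := Nat.pow_le_pow_right (by norm_num) hc1
    omega
  obtain ⟨x, hx⟩ := matrix_to_psl hF M (by rw [hM]; exact he0)
  exact ⟨x, hx.trans hM⟩

end two

/-- Let F be the field with two elements, n ≥ 2, L = PSL(n, F) and k₀ = ⌊(n + 3)/2⌋. Then for every k ≥ k₀ the direct product of k copies of L has the same set of element orders as the direct product of k₀ copies of L. -/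
theorem result {F : Type*} [Field F] [Fintype F] (hF : Fintype.card F = 2) (n k : ℕ) (hn : 2 ≤ n) (hk : (n + 3) / 2 ≤ k) :
    Set.range (orderOf : (Fin k → Matrix.ProjectiveSpecialLinearGroup (Fin n) F) → ℕ) = Set.range (orderOf : (Fin ((n + 3) / 2) → Matrix.ProjectiveSpecialLinearGroup (Fin n) F) → ℕ) := by
  classical
  apply Set.Subset.antisymm
  · rintro m ⟨g, rfl⟩
    have hm0 : orderOf g ≠ 0 := (orderOf_pos g).ne'
    obtain ⟨u0, hu0⟩ : ∃ u0 : Matrix.ProjectiveSpecialLinearGroup (Fin n) F,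
        orderOf u0 = 2 ^ ((orderOf g).factorization 2) := by
      by_cases h2 : 2 ∣ orderOf g
      · obtain ⟨i, hi⟩ := exists_coord_prime_pow g hm0 Nat.prime_two h2
        exact ⟨_, orderOf_pow_orderOf_div (orderOf_pos (g i)).ne' hi⟩
      · refine ⟨1, ?_⟩
        rw [Nat.factorization_eq_zero_of_not_dvd h2]; simp
    have hu : ∀ c : ℕ, ∃ x : Matrix.ProjectiveSpecialLinearGroup (Fin n) F,
        (1 ≤ c → c ≤ n → orderOf x = Nat.gcd (orderOf g) (2 ^ c - 1)) := by
      intro c
      by_cases hc : 1 ≤ c ∧ c ≤ n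
      · obtain ⟨x, hx⟩ := psl_exists_order hF hc.1 hc.2 (Nat.gcd_dvd_right (orderOf g) (2 ^ c - 1))
        exact ⟨x, fun _ _ => hx⟩
      · exact ⟨1, fun h1 h2 => absurd ⟨h1, h2⟩ hc⟩
    choose u hu using hu
    obtain ⟨w, hw⟩ : ∃ w : Fin ((n + 3) / 2) → Matrix.ProjectiveSpecialLinearGroup (Fin n) F,
        ∀ i, w i = if i.val = 0 then u0 else u (i.val + n / 2) := ⟨_, fun _ => rfl⟩
    refine ⟨w, ?_⟩
    apply Nat.dvd_antisymm
    · apply orderOf_dvd_of_pow_eq_one
      rw [pi_pow_eq_one_iff]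
      intro i
      rw [hw i]
      by_cases hi : i.val = 0
      · rw [if_pos hi, hu0]; exact Nat.ordProj_dvd _ 2
      · rw [if_neg hi]
        have hi2 := i.2
        rw [hu _ (by omega) (by omega)]
        exact Nat.gcd_dvd_left _ _
    · have hw0 : orderOf w ≠ 0 := (orderOf_pos w).ne'
      rw [← Nat.factorization_prime_le_iff_dvd hm0 hw0]
      intro r hr
      rw [← hr.pow_dvd_iff_le_factorization hw0]
      by_cases hrm : r ∣ orderOf g
      · by_cases hr2 : r = 2
        · subst hr2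
          have h0 : (0 : ℕ) < (n + 3) / 2 := by omega
          have h1 := orderOf_coord_dvd w ⟨0, h0⟩
          rw [hw, if_pos rfl, hu0] at h1
          exact h1
        · obtain ⟨i, hi⟩ := exists_coord_prime_pow g hm0 hr hrm
          have hv : 0 < (orderOf g).factorization r := hr.factorization_pos_of_dvd hm0 hrm
          obtain ⟨a, ha⟩ : ∃ a, (orderOf g).factorization r = a + 1 :=
            ⟨(orderOf g).factorization r - 1, by omega⟩
          have hdm : r ^ (a + 1) ∣ orderOf g := by rw [← ha]; exact Nat.ordProj_dvd _ r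
          rw [ha] at hi ⊢
          obtain ⟨c, hc1, hc2, hc3⟩ := psl_prime_pow hF (g i) hr hr2 hi
          have hlt : c - n / 2 < (n + 3) / 2 := by omega
          have h1 := orderOf_coord_dvd w ⟨c - n / 2, hlt⟩
          have h2 : w ⟨c - n / 2, hlt⟩ = u c := by
            rw [hw, if_neg (by simp only; omega)]
            congr 1
            simp only
            omega
          rw [h2, hu c (by omega) hc2] at h1
          exact dvd_trans (Nat.dvd_gcd hdm hc3) h1
      · rw [Nat.factorization_eq_zero_of_not_dvd hrm]; simp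
  · rintro m ⟨w, rfl⟩
    refine ⟨fun i => if h : i.val < (n + 3) / 2 then w ⟨i.val, h⟩ else 1, ?_⟩
    rw [orderOf_eq_orderOf_iff]
    intro j
    rw [pi_pow_eq_one_iff, pi_pow_eq_one_iff]
    constructor
    · intro h i
      have h1 := h ⟨i.val, lt_of_lt_of_le i.2 hk⟩
      simpa using h1
    · intro h i
      by_cases hi : i.val < (n + 3) / 2
      · simp only [hi, dif_pos]; exact h _
      · simp only [hi, dif_neg, not_false_iff, orderOf_one, one_dvd]

end Cfsg.Agent.S2513
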