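import Cfsg.Statements.S2514
import Mathlib

set_option autoImplicit false
open Cfsg

namespace Cfsg.Agent.S2514

theorem exists_max_order {X : Type*} [Group X] [Finite X] (a : ℕ) (ha : a ∈ Set.range (orderOf : X → ℕ)) :
    ∃ M, (M ∈ Set.range (orderOf : X → ℕ) ∧ ∀ m ∈ Set.range (orderOf : X → ℕ), M ∣ m → m = M) ∧ a ∣ M := by
  classical
  have hfin : (Set.range (orderOf : X → ℕ)).Finite := Set.finite_range _
  let s : Finset ℕ := hfin.toFinset.filter (fun m => a ∣ m)
  have hs : s.Nonempty := ⟨a, by simp [s, ha]⟩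
  obtain ⟨M, hM, hmax⟩ := Finset.exists_max_image s id hs
  have hM' : M ∈ Set.range (orderOf : X → ℕ) ∧ a ∣ M := by simpa [s] using hM
  refine ⟨M, ⟨hM'.1, ?_⟩, hM'.2⟩
  intro m hm hMm
  have hms : m ∈ s := by
    simp only [s, Finset.mem_filter, Set.Finite.mem_toFinset]
    exact ⟨hm, dvd_trans hM'.2 hMm⟩
  have h1 : m ≤ M := hmax m hms
  obtain ⟨g, rfl⟩ := hm
  have hpos : 0 < orderOf g := orderOf_pos g
  exact le_antisymm h1 (Nat.le_of_dvd hpos hMm)

theorem order_of_dvd {X : Type*} [Group X] [Finite X] (a d : ℕ) (ha : a ∈ Set.range (orderOf : X → ℕ))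
    (hd : d ∣ a) : d ∈ Set.range (orderOf : X → ℕ) := by
  obtain ⟨g, rfl⟩ := ha
  exact ⟨g ^ (orderOf g / d), orderOf_pow_orderOf_div (orderOf_pos g).ne' hd⟩

theorem pi_pow_eq_one_iff {ι X : Type*} [Group X] (x : ι → X) (n : ℕ) :
    x ^ n = 1 ↔ ∀ i, orderOf (x i) ∣ n := by
  simp only [funext_iff, Pi.pow_apply, Pi.one_apply, orderOf_dvd_iff_pow_eq_one]

/-- For a finite group X write μ(X) for the set of element orders of X that are maximal under divisibility. Let G and H be finite groups and k ≥ 1 such that μ(H) ⊆ μ(G) and μ(G) has fewer than k elements outside μ(H). Then the direct product of k copies of G has the same set of element orders as the direct product of k − 1 copies of G with H. -/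
theorem result {G H : Type*} [Group G] [Finite G] [Group H] [Finite H] (k : ℕ) (hk : 1 ≤ k)
    (hsub : {n : ℕ | n ∈ Set.range (orderOf : H → ℕ) ∧ ∀ m ∈ Set.range (orderOf : H → ℕ), n ∣ m → m = n} ⊆ {n : ℕ | n ∈ Set.range (orderOf : G → ℕ) ∧ ∀ m ∈ Set.range (orderOf : G → ℕ), n ∣ m → m = n})
    (hfew : ({n : ℕ | n ∈ Set.range (orderOf : G → ℕ) ∧ ∀ m ∈ Set.range (orderOf : G → ℕ), n ∣ m → m = n} \ {n : ℕ | n ∈ Set.range (orderOf : H → ℕ) ∧ ∀ m ∈ Set.range (orderOf : H → ℕ), n ∣ m → m = n}).ncard < k) :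
    Set.range (orderOf : (Fin k → G) → ℕ) = Set.range (orderOf : (Fin (k - 1) → G) × H → ℕ) := by
  classical
  obtain ⟨k', rfl⟩ : ∃ k', k = k' + 1 := ⟨k - 1, by omega⟩
  change Set.range (orderOf : (Fin (k' + 1) → G) → ℕ) = Set.range (orderOf : (Fin k' → G) × H → ℕ)
  set μG := {n : ℕ | n ∈ Set.range (orderOf : G → ℕ) ∧ ∀ m ∈ Set.range (orderOf : G → ℕ), n ∣ m → m = n} with hμG
  set μH := {n : ℕ | n ∈ Set.range (orderOf : H → ℕ) ∧ ∀ m ∈ Set.range (orderOf : H → ℕ), n ∣ m → m = n} with hμH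
  apply Set.eq_of_subset_of_subset
  · rintro _ ⟨x, rfl⟩
    have hM : ∀ i : Fin (k' + 1), ∃ M, M ∈ μG ∧ orderOf (x i) ∣ M := fun i =>
      exists_max_order (orderOf (x i)) ⟨x i, rfl⟩
    choose M hMμ hMdvd using hM
    by_cases hA : ∃ i, M i ∈ μH
    · obtain ⟨i, hi⟩ := hA
      obtain ⟨h, hh⟩ := order_of_dvd (X := H) (M i) (orderOf (x i)) hi.1 (hMdvd i)
      refine ⟨(fun j => x (i.succAbove j), h), ?_⟩
      rw [orderOf_eq_orderOf_iff]
      intro n
      rw [pi_pow_eq_one_iff, Prod.ext_iff]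
      simp only [Prod.pow_fst, Prod.pow_snd, Prod.fst_one, Prod.snd_one]
      rw [pi_pow_eq_one_iff, ← orderOf_dvd_iff_pow_eq_one, hh, i.forall_iff_succAbove]
      tauto
    · push Not at hA
      have hnotinj : ¬ Function.Injective M := by
        intro hinj
        have h1 : (Set.range M).ncard = k' + 1 := by
          rw [Set.ncard_range_of_injective hinj, Nat.card_eq_fintype_card, Fintype.card_fin]
        have hfin : (μG \ μH).Finite := by
          apply Set.Finite.subset (Set.finite_range (orderOf : G → ℕ))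
          intro n hn
          exact hn.1.1
        have h2 : (Set.range M).ncard ≤ (μG \ μH).ncard := by
          apply Set.ncard_le_ncard _ hfin
          rintro _ ⟨i, rfl⟩
          exact ⟨hMμ i, hA i⟩
        omega
      rw [Function.Injective] at hnotinj
      push Not at hnotinj
      obtain ⟨i, j, hMij, hij⟩ := hnotinj
      obtain ⟨j', hj'⟩ := Fin.exists_succAbove_eq (Ne.symm hij)
      have hc : Nat.lcm (orderOf (x i)) (orderOf (x j)) ∣ M i :=
        Nat.lcm_dvd (hMdvd i) (hMij ▸ hMdvd j)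
      obtain ⟨g, hg⟩ := order_of_dvd (X := G) (M i) _ (hMμ i).1 hc
      refine ⟨(Function.update (fun l => x (i.succAbove l)) j' g, 1), ?_⟩
      rw [orderOf_eq_orderOf_iff]
      intro n
      rw [pi_pow_eq_one_iff, Prod.ext_iff]
      simp only [Prod.pow_fst, Prod.pow_snd, Prod.fst_one, Prod.snd_one, one_pow, and_true]
      rw [pi_pow_eq_one_iff, i.forall_iff_succAbove]
      constructor
      · intro h
        have hj := h j'
        rw [Function.update_self, hg] at hj
        refine ⟨dvd_trans (Nat.dvd_lcm_left _ _) hj, ?_⟩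
        intro l
        by_cases hl : l = j'
        · subst hl
          rw [hj']
          exact dvd_trans (Nat.dvd_lcm_right _ _) hj
        · have := h l
          rwa [Function.update_of_ne hl] at this
      · rintro ⟨h1, h2⟩ l
        by_cases hl : l = j'
        · subst hl
          rw [Function.update_self, hg]
          exact Nat.lcm_dvd h1 (hj' ▸ h2 l)
        · rw [Function.update_of_ne hl]
          exact h2 l
  · rintro _ ⟨⟨x', h⟩, rfl⟩
    obtain ⟨M, hMμ, hMdvd⟩ := exists_max_order (X := H) (orderOf h) ⟨h, rfl⟩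
    have hMG : M ∈ μG := hsub hMμ
    obtain ⟨g, hg⟩ := order_of_dvd (X := G) M (orderOf h) hMG.1 hMdvd
    refine ⟨Fin.cons g x', ?_⟩
    rw [orderOf_eq_orderOf_iff]
    intro n
    rw [pi_pow_eq_one_iff, Prod.ext_iff]
    simp only [Prod.pow_fst, Prod.pow_snd, Prod.fst_one, Prod.snd_one]
    rw [pi_pow_eq_one_iff, ← orderOf_dvd_iff_pow_eq_one, Fin.forall_fin_succ]
    simp only [Fin.cons_zero, Fin.cons_succ, hg]
    tauto

end Cfsg.Agent.S2514
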