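import Cfsg.Statements.S2516

set_option autoImplicit false
open Cfsg

namespace Cfsg.Agent.S2516

section
variable {F : Type*} [Field F] {V : Type*} [AddCommGroup V] [Module F V] {G : Type*} [Group G]

/-- the action used in the statement -/
abbrev act (ρ : Representation F G V) : G →* MulAut (Multiplicative V) :=
  (MulAutMultiplicative V).symm.toMonoidHom.comp
    ((DistribMulAction.toAddAut ((V →ₗ[F] V)ˣ) V).comp ρ.asGroupHom)

theorem act_apply (ρ : Representation F G V) (h : G) (w : Multiplicative V) :
    act ρ h w = Multiplicative.ofAdd (ρ h (Multiplicative.toAdd w)) := rfl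

theorem pow_right' (ρ : Representation F G V) (x : Multiplicative V ⋊[act ρ] G) (n : ℕ) :
    (x ^ n).right = x.right ^ n := by
  induction n with
  | zero => simp
  | succ n ih => rw [pow_succ, SemidirectProduct.mul_right, ih, pow_succ]

theorem pow_left' (ρ : Representation F G V) (x : Multiplicative V ⋊[act ρ] G) (n : ℕ) :
    (x ^ n).left = Multiplicative.ofAdd
      (∑ i ∈ Finset.range n, (ρ x.right ^ i) (Multiplicative.toAdd x.left)) := by
  induction n with
  | zero => simp
  | succ n ih =>
    rw [pow_succ, SemidirectProduct.mul_left, ih, pow_right', act_apply, Finset.sum_range_succ, map_pow]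
    rfl

end

/-- Let F be a field of characteristic p > 0, V a non-zero finite-dimensional F-vector space, G a finite group and ρ a representation of G on V; form the semidirect product V ⋊ G. For g ∈ G of order k, the coset Vg contains an element of order pk if and only if the minimal polynomial of ρ(g) does not divide 1 + X + ⋯ + X^(k−1). -/
theorem result {F : Type*} [Field F] (p : ℕ) [Fact p.Prime] [CharP F p] {V : Type*} [AddCommGroup V] [Module F V] [FiniteDimensional F V] [Nontrivial V]
    {G : Type*} [Group G] [Finite G] (ρ : Representation F G V) (g : G) :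
    (∃ x : Multiplicative V ⋊[(MulAutMultiplicative V).symm.toMonoidHom.comp
        ((DistribMulAction.toAddAut ((V →ₗ[F] V)ˣ) V).comp ρ.asGroupHom)] G,
        x.right = g ∧ orderOf x = p * orderOf g) ↔
      ¬ (minpoly F (ρ g) ∣ ∑ i ∈ Finset.range (orderOf g), (Polynomial.X : Polynomial F) ^ i) := by
  classical
  set k := orderOf g with hk
  have hkpos : 0 < k := orderOf_pos g
  have hp : p.Prime := Fact.out
  set Nk : V →ₗ[F] V := ∑ i ∈ Finset.range k, (ρ g) ^ i with hNk
  have haeval : Polynomial.aeval (ρ g) (∑ i ∈ Finset.range k, (Polynomial.X : Polynomial F) ^ i) = Nk := by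
    simp [hNk]
  rw [minpoly.dvd_iff, haeval]
  -- the k-th power of an element of the coset
  have hxk : ∀ x : Multiplicative V ⋊[act ρ] G, x.right = g →
      (x ^ k).right = 1 ∧ (x ^ k).left = Multiplicative.ofAdd (Nk (Multiplicative.toAdd x.left)) := by
    intro x hx
    refine ⟨?_, ?_⟩
    · rw [pow_right', hx, hk, pow_orderOf_eq_one]
    · rw [pow_left', hx, hNk]
      simp [LinearMap.sum_apply]
  constructor
  · rintro ⟨x, hxg, hxord⟩ hN
    have h1 : x ^ k = 1 := by
      obtain ⟨hr, hl⟩ := hxk x hxg
      apply SemidirectProduct.ext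
      · rw [hl, hN]; rfl
      · rw [hr]; rfl
    have h2 : orderOf x ∣ k := orderOf_dvd_of_pow_eq_one h1
    rw [hxord] at h2
    have h3 : p * k ≤ k := Nat.le_of_dvd hkpos h2
    have h4 : 2 ≤ p := hp.two_le
    nlinarith
  · intro hN
    have hex : ∃ v : V, Nk v ≠ 0 := by
      by_contra hcon
      push Not at hcon
      exact hN (LinearMap.ext hcon)
    obtain ⟨v, hv⟩ := hex
    let x : Multiplicative V ⋊[act ρ] G := ⟨Multiplicative.ofAdd v, g⟩
    refine ⟨x, rfl, ?_⟩
    obtain ⟨hr, hl⟩ := hxk x rfl
    -- k divides the order of x
    have hkdvd : k ∣ orderOf x := by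
      rw [hk, orderOf_dvd_iff_pow_eq_one]
      have := pow_right' ρ x (orderOf x)
      rw [pow_orderOf_eq_one] at this
      exact this.symm
    -- x^k has order p
    have hy1 : x ^ k ≠ 1 := by
      intro h
      have := congrArg SemidirectProduct.left h
      rw [hl] at this
      exact hv this
    have hyp : (x ^ k) ^ p = 1 := by
      apply SemidirectProduct.ext
      · rw [pow_left', hr]
        simp only [map_one, one_pow]
        rw [hl]
        simp only [Module.End.one_apply, toAdd_ofAdd, Finset.sum_const, Finset.card_range]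
        have : (p : F) = 0 := CharP.cast_eq_zero F p
        have h0 : p • Nk v = 0 := by
          rw [← Nat.cast_smul_eq_nsmul F, this, zero_smul]
        change Multiplicative.ofAdd (p • Nk v) = _
        rw [h0]; rfl
      · rw [pow_right', hr, one_pow]; rfl
    have hord : orderOf (x ^ k) = p := orderOf_eq_prime hyp hy1
    rw [orderOf_pow_of_dvd hkpos.ne' hkdvd] at hord
    rw [← hord, mul_comm]
    exact (Nat.mul_div_cancel' hkdvd).symm

end Cfsg.Agent.S2516
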