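import Cfsg.Statements.S2907
import Cfsg.Agent.Helper17.Basic
-- import your own Cfsg.Agent.* helpers here

set_option autoImplicit false
open Cfsg

namespace Cfsg.Agent.S2907

open Cfsg.Agent.Helper17
open scoped commutatorElement


/-- Let X be a finite semi-extraspecial p-group and x an element of X outside the centre. Then the index of C_X(x) in X equals the order of Z(X), and the commutators [x, y], y ∈ X, form exactly the centre Z(X). -/
theorem result {X : Type*} [Group X] [Finite X] {p : ℕ} [Fact p.Prime] (hX : Cfsg.IsSemiExtraspecial p X) (x : X) (hx : x ∉ Subgroup.center X) : (Subgroup.centralizer ({x} : Set X)).index = Nat.card ↥(Subgroup.center X) ∧ {z : X | ∃ y : X, z = x * y * x⁻¹ * y⁻¹} = (Subgroup.center X : Set X) := by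
  classical
  obtain ⟨⟨hp, hfr, hcomm⟩, hsemi⟩ := hX
  have hmemc : ∀ y : X, x * y * x⁻¹ * y⁻¹ ∈ Subgroup.center X := by
    intro y
    rw [← hcomm, commutator_def]
    exact Subgroup.commutator_mem_commutator (Subgroup.mem_top x) (Subgroup.mem_top y)
  let f : X →* Subgroup.center X :=
    { toFun := fun y => ⟨x * y * x⁻¹ * y⁻¹, hmemc y⟩
      map_one' := by
        apply Subtype.ext
        show x * 1 * x⁻¹ * (1 : X)⁻¹ = 1
        group
      map_mul' := by
        intro y₁ y₂
        apply Subtype.ext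
        show x * (y₁ * y₂) * x⁻¹ * (y₁ * y₂)⁻¹ = (x * y₁ * x⁻¹ * y₁⁻¹) * (x * y₂ * x⁻¹ * y₂⁻¹)
        have hc : y₁⁻¹ * (x * y₂ * x⁻¹ * y₂⁻¹) = (x * y₂ * x⁻¹ * y₂⁻¹) * y₁⁻¹ :=
          (Subgroup.mem_center_iff.mp (hmemc y₂) y₁⁻¹)
        calc x * (y₁ * y₂) * x⁻¹ * (y₁ * y₂)⁻¹
            = x * y₁ * x⁻¹ * ((x * y₂ * x⁻¹ * y₂⁻¹) * y₁⁻¹) := by group
          _ = x * y₁ * x⁻¹ * (y₁⁻¹ * (x * y₂ * x⁻¹ * y₂⁻¹)) := by rw [hc]
          _ = (x * y₁ * x⁻¹ * y₁⁻¹) * (x * y₂ * x⁻¹ * y₂⁻¹) := by group }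
  have hf : ∀ y : X, ((f y : Subgroup.center X) : X) = x * y * x⁻¹ * y⁻¹ := fun y => rfl
  have hker : f.ker = Subgroup.centralizer ({x} : Set X) := by
    ext y
    rw [MonoidHom.mem_ker, Subgroup.mem_centralizer_iff]
    constructor
    · intro h z hz
      rw [Set.mem_singleton_iff] at hz
      subst hz
      have h1 : z * y * z⁻¹ * y⁻¹ = 1 := by
        have := congrArg Subtype.val h
        simpa [hf] using this
      calc z * y = (z * y * z⁻¹ * y⁻¹) * (y * z) := by group
        _ = y * z := by rw [h1, one_mul]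
    · intro h
      have h1 := h x (Set.mem_singleton x)
      apply Subtype.ext
      rw [hf]
      show x * y * x⁻¹ * y⁻¹ = 1
      rw [h1]; group
  have hsurj : f.range = ⊤ := by
    rcases IsCoatomic.eq_top_or_exists_le_coatom f.range with h | ⟨M, hM, hle⟩
    · exact h
    · exfalso
      apply hx
      have hYle : M.map (Subgroup.center X).subtype ≤ Subgroup.center X := by
        rintro _ ⟨m, -, rfl⟩
        exact m.2
      have hYM : (M.map (Subgroup.center X).subtype).subgroupOf (Subgroup.center X) = M :=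
        Subgroup.comap_map_eq_self_of_injective (Subgroup.subtype_injective _) M
      obtain ⟨hYn, hES⟩ := hsemi (M.map (Subgroup.center X).subtype) hYle (by rw [hYM]; exact hM)
      have hcq : commutator (X ⧸ M.map (Subgroup.center X).subtype) =
          Subgroup.center (X ⧸ M.map (Subgroup.center X).subtype) := hES.1.2.2
      have hxc : (QuotientGroup.mk x : X ⧸ M.map (Subgroup.center X).subtype) ∈
          Subgroup.center (X ⧸ M.map (Subgroup.center X).subtype) := by
        rw [Subgroup.mem_center_iff]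
        intro q
        obtain ⟨y, rfl⟩ := QuotientGroup.mk_surjective q
        rw [← QuotientGroup.mk_mul, ← QuotientGroup.mk_mul, QuotientGroup.eq]
        have h1 : f y⁻¹ ∈ M := hle ⟨y⁻¹, rfl⟩
        have h2 : (y * x)⁻¹ * (x * y) = (x * y⁻¹ * x⁻¹ * y⁻¹⁻¹)⁻¹ := by
          have hc := Subgroup.mem_center_iff.mp (inv_mem (hmemc y⁻¹)) x⁻¹
          calc (y * x)⁻¹ * (x * y) = x⁻¹ * (x * y⁻¹ * x⁻¹ * y⁻¹⁻¹)⁻¹ * x := by group
            _ = (x * y⁻¹ * x⁻¹ * y⁻¹⁻¹)⁻¹ * x⁻¹ * x := by rw [hc]
            _ = (x * y⁻¹ * x⁻¹ * y⁻¹⁻¹)⁻¹ := by group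
        rw [h2]
        exact ⟨(f y⁻¹)⁻¹, inv_mem h1, rfl⟩
      rw [← hcq, commutator_def, ← Subgroup.map_top_of_surjective (QuotientGroup.mk' (M.map (Subgroup.center X).subtype))
        (QuotientGroup.mk'_surjective _), ← Subgroup.map_commutator] at hxc
      obtain ⟨z, hz, hzx⟩ := hxc
      have hz' : z ∈ Subgroup.center X := by rw [← hcomm, commutator_def]; exact hz
      have h3 : z⁻¹ * x ∈ M.map (Subgroup.center X).subtype := by
        rw [← QuotientGroup.eq]; exact hzx
      have h4 : z⁻¹ * x ∈ Subgroup.center X := hYle h3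
      have : x = z * (z⁻¹ * x) := by group
      rw [this]
      exact mul_mem hz' h4
  constructor
  · rw [← hker, Subgroup.index_ker, hsurj, Subgroup.card_top]
  · ext z
    constructor
    · rintro ⟨y, rfl⟩
      exact hmemc y
    · intro hz
      have : (⟨z, hz⟩ : Subgroup.center X) ∈ f.range := by rw [hsurj]; trivial
      obtain ⟨y, hy⟩ := this
      exact ⟨y, by rw [← hf y, hy]⟩

end Cfsg.Agent.S2907
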