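import Cfsg.Statements.S2908
import Cfsg.Agent.Helper17.Comm3
import Cfsg.Agent.S0027
-- import your own Cfsg.Agent.* helpers here

set_option autoImplicit false
open Cfsg

namespace Cfsg.Agent.S2908

open Cfsg.Agent.Helper17
open scoped commutatorElement
open Subgroup


/-- Let P be a p-subgroup of a finite group, normalized by a p-subgroup A and by a subgroup B of order prime to p that commutes elementwise with A. If [P, B] ≤ [P, A], then B centralizes P. -/
theorem result {G : Type*} [Group G] [Finite G] {p : ℕ} [Fact p.Prime] (P A B : Subgroup G) (hP : IsPGroup p ↥P) (hA : IsPGroup p ↥A) (hB : ¬ p ∣ Nat.card ↥B) (hnA : A ≤ Subgroup.normalizer (P : Set G)) (hnB : B ≤ Subgroup.normalizer (P : Set G)) (hAB : ⁅A, B⁆ = ⊥) (hcomm : ⁅P, B⁆ ≤ ⁅P, A⁆) : ⁅P, B⁆ = ⊥ := by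
  classical
  obtain ⟨n, hn⟩ := hP.exists_card_eq
  have hcop : (Nat.card B).Coprime (Nat.card P) := by
    rw [hn]
    exact Nat.Coprime.pow_right n ((Nat.Prime.coprime_iff_not_dvd Fact.out).mpr hB).symm
  haveI : Group.IsNilpotent ↥P := hP.isNilpotent
  have hstab : ⁅⁅P, B⁆, B⁆ = ⁅P, B⁆ :=
    Cfsg.Agent.S0027.result B P hnB hcop (Or.inr inferInstance)
  obtain ⟨Q, hQ⟩ : ∃ Q : Subgroup G, Q = ⁅P, B⁆ := ⟨_, rfl⟩
  rw [← hQ] at hstab hcomm ⊢
  have hQP : Q ≤ P := by rw [hQ]; exact commutator_le_left_of_le_normalizer hnB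
  have hAnB : A ≤ normalizer (B : Set G) := le_normalizer_of_commutator_eq_bot hAB
  have hBnA : B ≤ normalizer (A : Set G) := le_normalizer_of_commutator_eq_bot' hAB
  have hPnQ : P ≤ normalizer (Q : Set G) := by rw [hQ]; exact le_normalizer_commutator_left P B
  have hBnQ : B ≤ normalizer (Q : Set G) := by rw [hQ]; exact le_normalizer_commutator_right P B
  have hAnQ : A ≤ normalizer (Q : Set G) := by
    rw [hQ]; exact le_normalizer_commutator' hnA hAnB
  obtain ⟨R, hR⟩ : ∃ R : Subgroup G, R = P ⊔ A := ⟨_, rfl⟩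
  have hPR : P ≤ R := hR ▸ le_sup_left
  have hAR : A ≤ R := hR ▸ le_sup_right
  have hRp : IsPGroup p R := by
    rw [hR, sup_comm]; exact IsPGroup.to_sup_of_normal_right' hA hP hnA
  have hRnQ : R ≤ normalizer (Q : Set G) := by rw [hR]; exact sup_le hPnQ hAnQ
  have hRnR : R ≤ normalizer (R : Set G) := Subgroup.le_normalizer
  have hBnR : B ≤ normalizer (R : Set G) := by
    rw [hR]; exact le_normalizer_sup hnB hBnA
  have h3 : ⁅⁅P, A⁆, B⁆ ≤ ⁅Q, R⁆ := by
    apply three_subgroups_mod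
    · exact le_normalizer_commutator' hPnQ (hPR.trans hRnR)
    · exact le_normalizer_commutator' hAnQ (hAR.trans hRnR)
    · exact le_normalizer_commutator' hBnQ hBnR
    · rw [hAB, Subgroup.commutator_bot_left]; exact bot_le
    · rw [Subgroup.commutator_comm B P, ← hQ]
      exact Subgroup.commutator_mono le_rfl hAR
  have h4 : Q ≤ ⁅Q, R⁆ := by
    calc Q = ⁅Q, B⁆ := hstab.symm
      _ ≤ ⁅⁅P, A⁆, B⁆ := Subgroup.commutator_mono hcomm le_rfl
      _ ≤ ⁅Q, R⁆ := h3
  exact eq_bot_of_le_commutator_pGroup (hP.to_le hQP) hRp hRnQ h4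

end Cfsg.Agent.S2908
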