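import Cfsg.Statements.S2909
import Cfsg.Agent.Helper17.DualPQ
-- import your own Cfsg.Agent.* helpers here

set_option autoImplicit false
open Cfsg

namespace Cfsg.Agent.S2909

open Cfsg.Agent.Helper17
open scoped commutatorElement
open Subgroup


/-- Let p be a prime, E a normal p-subgroup of the finite group G, and U a non-cyclic elementary abelian p-subgroup of G such that either C_E(U) = C_E(u) for every nontrivial u ∈ U, or [E, U] = [E, ⟨u⟩] for every nontrivial u ∈ U. If R is a subgroup of order prime to p normalized by U, then [R, U] centralizes E. -/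
theorem result {G : Type*} [Group G] [Finite G] {p : ℕ} [Fact p.Prime] (E : Subgroup G) [E.Normal] (hE : IsPGroup p ↥E) (U : Subgroup G) (hU : Cfsg.IsElementaryAbelian p U) (hnc : ¬ IsCyclic ↥U) (hcond : (∀ u ∈ U, u ≠ 1 → E ⊓ Subgroup.centralizer (U : Set G) = E ⊓ Subgroup.centralizer ({u} : Set G)) ∨ (∀ u ∈ U, u ≠ 1 → ⁅E, U⁆ = ⁅E, Subgroup.zpowers u⁆)) (R : Subgroup G) (hR : ¬ p ∣ Nat.card ↥R) (hRU : U ≤ Subgroup.normalizer (R : Set G)) : ⁅R, U⁆ ≤ Subgroup.centralizer (E : Set G) := by
  have hUp : IsPGroup p U := isPGroup_of_isElementaryAbelian hU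
  have hU2 := sq_le_card_of_not_isCyclic hUp hnc
  have hEn : ∀ X : Subgroup G, X ≤ normalizer (E : Set G) := fun X => by
    rw [Subgroup.normalizer_eq_top]; exact le_top
  obtain ⟨Q, hQ⟩ : ∃ Q : Subgroup G, Q = ⁅R, U⁆ := ⟨_, rfl⟩
  have hQR : Q ≤ R := hQ ▸ commutator_le_left_of_le_normalizer hRU
  have hQp : ¬ p ∣ Nat.card Q := fun hd => hR (hd.trans (Subgroup.card_dvd_of_le hQR))
  have hUQ : U ≤ normalizer (Q : Set G) := hQ ▸ le_normalizer_commutator_right R U
  rw [← hQ]
  have hzp : ∀ u ∈ U, IsPGroup p (zpowers u) := fun u hu => hUp.to_le (Subgroup.zpowers_le.mpr hu)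
  have hcopr : ∀ X : Subgroup G, X ≤ R → (Nat.card X).Coprime p := by
    intro X hX
    rw [Nat.coprime_comm, (Fact.out : p.Prime).coprime_iff_not_dvd]
    exact fun hd => hR (hd.trans (Subgroup.card_dvd_of_le hX))
  have hcz : ∀ u : G, centralizer ((zpowers u : Subgroup G) : Set G) = centralizer ({u} : Set G) := by
    intro u
    apply le_antisymm
    · exact Subgroup.centralizer_le (Set.singleton_subset_iff.mpr (Subgroup.mem_zpowers u))
    · intro x hx
      rw [Subgroup.mem_centralizer_iff]
      intro h hh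
      obtain ⟨k, rfl⟩ := Subgroup.mem_zpowers_iff.mp hh
      have h1 : Commute x u := Subgroup.mem_centralizer_singleton_iff.mp hx
      exact (h1.zpow_right k).eq.symm
  have hzc : ∀ u : G, zpowers u ≤ centralizer ((Q ⊓ centralizer ({u} : Set G) : Subgroup G) : Set G) := by
    intro u
    rw [Subgroup.zpowers_le, Subgroup.mem_centralizer_iff]
    intro x hx
    have hx' : x ∈ centralizer ({u} : Set G) := hx.2
    exact Subgroup.mem_centralizer_singleton_iff.mp hx'
  rcases hcond with hc | hc
  · obtain ⟨E₀, hE₀⟩ : ∃ E₀ : Subgroup G, E₀ = E ⊓ centralizer (U : Set G) := ⟨_, rfl⟩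
    have hRN : R ≤ normalizer (E₀ : Set G) := by
      apply le_of_centralizers_le hU hU2 hR hRU
      intro u hu hu1
      rw [hE₀, hc u hu hu1]
      exact le_normalizer_inf' (hEn _) (inf_le_right.trans Subgroup.le_normalizer)
    have hQC : Q ≤ centralizer (E₀ : Set G) := by
      rw [hQ, Subgroup.commutator_le]
      intro r hr u hu
      rw [Subgroup.mem_centralizer_iff]
      intro e he
      have he' : r⁻¹ * e * r ∈ E₀ := by
        have := (Subgroup.mem_normalizer_iff.mp (hRN (R.inv_mem hr)) e).mp he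
        simpa using this
      have hUc : ∀ x ∈ E₀, u * x = x * u := by
        intro x hx
        have hx' : x ∈ centralizer (U : Set G) := (hE₀ ▸ hx : x ∈ E ⊓ centralizer (U : Set G)).2
        exact Subgroup.mem_centralizer_iff.mp hx' u hu
      have e1 := hUc _ he'
      have e2 := hUc _ he
      have e2' : u⁻¹ * e = e * u⁻¹ := by
        have : Commute u e := e2
        exact this.inv_left.eq
      rw [commutatorElement_def]
      calc e * (r * u * r⁻¹ * u⁻¹) = r * ((r⁻¹ * e * r) * u) * r⁻¹ * u⁻¹ := by group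
        _ = r * (u * (r⁻¹ * e * r)) * r⁻¹ * u⁻¹ := by rw [e1]
        _ = r * u * r⁻¹ * (e * u⁻¹) := by group
        _ = r * u * r⁻¹ * (u⁻¹ * e) := by rw [e2']
        _ = r * u * r⁻¹ * u⁻¹ * e := by group
    apply le_of_centralizers_le hU hU2 hQp hUQ
    intro u hu hu1
    apply Cfsg.Agent.S0028.result p (zpowers u) (Q ⊓ centralizer ({u} : Set G)) E (hzp u hu)
      (hcopr _ (inf_le_left.trans hQR)) hE (hzc u) (hEn _) (hEn _) ?_
    rw [hcz u, ← hc u hu hu1, ← hE₀]
    exact (Subgroup.le_centralizer_iff.mp hQC).trans (Subgroup.centralizer_le inf_le_left)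
  · obtain ⟨E₁, hE₁⟩ : ∃ E₁ : Subgroup G, E₁ = ⁅E, U⁆ := ⟨_, rfl⟩
    have hRN : R ≤ normalizer (E₁ : Set G) := by
      apply le_of_centralizers_le hU hU2 hR hRU
      intro u hu hu1
      rw [hE₁, hc u hu hu1]
      apply le_normalizer_commutator' (hEn _)
      rw [← hcz u]
      exact inf_le_right.trans (Subgroup.centralizer_le_normalizer _)
    have hEE₁ : ⁅E, Q⁆ ≤ E₁ := by
      rw [Subgroup.commutator_comm, hQ]
      apply three_subgroups_mod hRN ?_ ?_ ?_ ?_
      · exact hE₁ ▸ le_normalizer_commutator_right E U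
      · exact hE₁ ▸ le_normalizer_commutator_left E U
      · rw [Subgroup.commutator_comm U E, ← hE₁]
        exact commutator_le_left_of_le_normalizer hRN
      · have : ⁅E, R⁆ ≤ E := commutator_le_left_of_le_normalizer (hEn R)
        rw [hE₁]
        exact Subgroup.commutator_mono this le_rfl
    apply le_of_centralizers_le hU hU2 hQp hUQ
    intro u hu hu1
    apply dual_PxQ (hzp u hu) (hcopr _ (inf_le_left.trans hQR)) hE (hzc u) (hEn _) (hEn _) ?_
    rw [← hc u hu hu1, ← hE₁]
    exact (Subgroup.commutator_mono le_rfl inf_le_left).trans hEE₁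

end Cfsg.Agent.S2909
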