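import Cfsg.Statements.S2912
import Cfsg.Agent.Helper1.XSpB
import Mathlib

set_option autoImplicit false
open Cfsg

namespace Cfsg.Agent.S2912

open scoped commutatorElement

/-- a maximal subgroup of a finite `p`-group has index `p` -/
theorem index_coatom_aux {X : Type*} [Group X] [Finite X] {p : ℕ} [Fact p.Prime]
    (hX : IsPGroup p X) {H : Subgroup X} (hH : IsCoatom H) : H.index = p := by
  have hp : p.Prime := Fact.out
  obtain ⟨k, hk⟩ := IsPGroup.iff_card.mp (hX.to_subgroup H)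
  obtain ⟨n, hn⟩ := IsPGroup.iff_card.mp hX
  have hkn : k < n := by
    by_contra hc
    have h1 : Nat.card X ≤ Nat.card H := by
      rw [hk, hn]; exact Nat.pow_le_pow_right hp.pos (not_lt.mp hc)
    exact hH.1 (Subgroup.eq_top_of_card_eq H (le_antisymm (Subgroup.card_le_card_group H) h1))
  have hdvd : p ^ (k + 1) ∣ Nat.card X := by rw [hn]; exact pow_dvd_pow p hkn
  obtain ⟨K, hK, hHK⟩ := Sylow.exists_subgroup_card_pow_succ hdvd hk
  have hlt : H < K := by
    refine lt_of_le_of_ne hHK ?_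
    intro heq
    rw [heq, hK] at hk
    have := Nat.pow_right_injective hp.two_le hk
    omega
  have hKt : K = ⊤ := hH.2 K hlt
  have h1 := H.card_mul_index
  rw [hKt, Subgroup.card_top] at hK
  rw [hk, hK, pow_succ] at h1
  exact Nat.eq_of_mul_eq_mul_left (pow_pos hp.pos k) h1

/-- in a finite `p`-group, `p`-th powers lie in the Frattini subgroup -/
theorem pow_mem_frattini_aux {X : Type*} [Group X] [Finite X] {p : ℕ} [Fact p.Prime]
    (hX : IsPGroup p X) (g : X) : g ^ p ∈ frattini X := by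
  simp only [frattini, Order.radical, Subgroup.mem_iInf, Set.mem_ofPred_eq]
  intro M hM
  have hnil : Group.IsNilpotent X := hX.isNilpotent
  have hN : M.Normal :=
    Subgroup.NormalizerCondition.normal_of_coatom M Group.normalizerCondition_of_isNilpotent hM
  have h1 := Subgroup.pow_index_mem M g
  rwa [index_coatom_aux hX hM] at h1

theorem nrm_comm_aux {W : Type*} [CommGroup W] (p : ℕ) (a b : MulAut W) (hab : a * b = b * a)
    (w : W) : Helper1.XSp.nrm p a (b w) = b (Helper1.XSp.nrm p a w) := by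
  unfold Helper1.XSp.nrm
  rw [map_prod]
  refine Finset.prod_congr rfl (fun j _ => ?_)
  rw [← MulAut.mul_apply, ← MulAut.mul_apply, ((show Commute a b from hab).pow_left j).eq]

/-- the kernel of the norm map -/
def normKerAux {W : Type*} [CommGroup W] (p : ℕ) (a : MulAut W) : Subgroup W where
  carrier := {u | Helper1.XSp.nrm p a u = 1}
  mul_mem' := by
    intro x y hx hy
    have hx' : Helper1.XSp.nrm p a x = 1 := hx
    have hy' : Helper1.XSp.nrm p a y = 1 := hy
    show Helper1.XSp.nrm p a (x * y) = 1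
    rw [Helper1.XSp.nrm_mul, hx', hy', mul_one]
  one_mem' := by
    show Helper1.XSp.nrm p a 1 = 1
    simp [Helper1.XSp.nrm]
  inv_mem' := by
    intro x hx
    have hx' : Helper1.XSp.nrm p a x = 1 := hx
    show Helper1.XSp.nrm p a x⁻¹ = 1
    rw [Helper1.XSp.nrm_inv, hx', inv_one]

/-- the conjugation action of `E` on a subgroup `A` it normalizes -/
def conjHomAux {G : Type*} [Group G] (E A : Subgroup G)
    (hnorm : E ≤ Subgroup.normalizer (A : Set G)) : ↥E →* MulAut ↥A where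
  toFun g :=
    { toFun := fun a => ⟨(g : G) * a * (g : G)⁻¹,
        (Subgroup.mem_normalizer_iff.mp (hnorm g.2) a).mp a.2⟩
      invFun := fun a => ⟨(g : G)⁻¹ * a * (g : G), by
        have h1 := (Subgroup.mem_normalizer_iff.mp (hnorm (E.inv_mem g.2)) a).mp a.2
        simpa using h1⟩
      left_inv := fun a => by apply Subtype.ext; simp [mul_assoc]
      right_inv := fun a => by apply Subtype.ext; simp [mul_assoc]
      map_mul' := fun a b => by apply Subtype.ext; simp [mul_assoc] }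
  map_one' := by ext a; simp
  map_mul' := fun g h => by ext a; simp [mul_assoc]

theorem conjHomAux_apply {G : Type*} [Group G] (E A : Subgroup G)
    (hnorm : E ≤ Subgroup.normalizer (A : Set G)) (g : ↥E) (a : ↥A) :
    ((conjHomAux E A hnorm g a : ↥A) : G) = (g : G) * a * (g : G)⁻¹ := rfl

open scoped IsMulCommutative in
theorem main_aux {G : Type*} [Group G] [Finite G] {p r : ℕ} [Fact p.Prime] [Fact r.Prime]
    (hpr : p ≠ r) (E A : Subgroup G) [IsMulCommutative A] (w : ℕ)
    (hE : Cfsg.IsExtraspecial p ↥E) (hEcard : Nat.card ↥E = p ^ (2 * w + 1))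
    (hAr : ∀ a ∈ A, a ^ r = 1)
    (hnorm : E ≤ Subgroup.normalizer (A : Set G))
    (hfaith : E ⊓ Subgroup.centralizer (A : Set G) = ⊥) (n : ℕ) (hn : 1 ≤ n)
    (hmin : ∀ k : ℕ, 1 ≤ k → p ∣ r ^ k - 1 → n ≤ k) : r ^ (n * p ^ w) ≤ Nat.card ↥A := by
  have hp : p.Prime := Fact.out
  have hrp : r.Prime := Fact.out
  obtain ⟨⟨hEp, hfr, hcm⟩, hZc⟩ := hE
  have hZcent : ∀ c ∈ Subgroup.center ↥E, ∀ g : ↥E, c * g = g * c :=
    fun c hc g => (Subgroup.mem_center_iff.mp hc g).symm
  have hcomm : ∀ g h : ↥E, ⁅g, h⁆ ∈ Subgroup.center ↥E := by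
    intro g h
    rw [← hcm, commutator_def]
    exact Subgroup.commutator_mem_commutator (Subgroup.mem_top g) (Subgroup.mem_top h)
  have hpow : ∀ g : ↥E, g ^ p ∈ Subgroup.center ↥E := by
    intro g
    rw [← hfr]
    exact pow_mem_frattini_aux hEp g
  obtain ⟨φ, hφ⟩ : ∃ φ : ↥E →* MulAut ↥A, φ = conjHomAux E A hnorm := ⟨_, rfl⟩
  have hφa : ∀ (g : ↥E) (a : ↥A), ((φ g a : ↥A) : G) = (g : G) * a * (g : G)⁻¹ := by
    intro g a; rw [hφ]; rfl
  have hW : ∀ u : ↥A, u ^ r = 1 := by
    intro u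
    exact Subtype.ext ((Subgroup.coe_pow A u r).trans (hAr u u.2))
  have hcop : ∀ u : ↥A, u ^ p = 1 → u = 1 := by
    intro u hu
    have h1 := pow_gcd_eq_one.mpr ⟨hu, hW u⟩
    rwa [(Nat.coprime_primes hp hrp).mpr hpr, pow_one] at h1
  obtain ⟨c, hcZ, hc1⟩ : ∃ c ∈ Subgroup.center ↥E, c ≠ 1 := by
    by_contra hcon
    push Not at hcon
    have h1 : Subgroup.center ↥E = ⊥ := (Subgroup.eq_bot_iff_forall _).mpr hcon
    rw [h1, Subgroup.card_bot] at hZc
    exact hp.one_lt.ne hZc
  have hcp : (φ c) ^ p = 1 := by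
    rw [← map_pow, ← hZc, Helper1.XSp.pow_card_Z _ c hcZ, map_one]
  obtain ⟨U, hUmem⟩ : ∃ U : Subgroup ↥A, ∀ u : ↥A, u ∈ U ↔ Helper1.XSp.nrm p (φ c) u = 1 :=
    ⟨normKerAux p (φ c), fun u => Iff.rfl⟩
  have hUinv : ∀ g : ↥E, ∀ u ∈ U, φ g u ∈ U := by
    intro g u hu
    rw [hUmem] at hu ⊢
    rw [nrm_comm_aux p (φ c) (φ g) (by rw [← map_mul, ← map_mul, hZcent c hcZ g]), hu, map_one]
  have hUne : U ≠ ⊥ := by
    intro hbot
    have hcn : (c : G) ∉ Subgroup.centralizer (A : Set G) := by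
      intro hcc
      have h1 : (c : G) ∈ E ⊓ Subgroup.centralizer (A : Set G) := ⟨c.2, hcc⟩
      rw [hfaith, Subgroup.mem_bot] at h1
      exact hc1 (Subtype.ext h1)
    rw [Subgroup.mem_centralizer_iff] at hcn
    push Not at hcn
    obtain ⟨a, haA, hac⟩ := hcn
    have hmem : (⟨a, haA⟩ : ↥A)⁻¹ * φ c ⟨a, haA⟩ ∈ U := by
      rw [hUmem, Helper1.XSp.nrm_mul, Helper1.XSp.nrm_inv, nrm_comm_aux p (φ c) (φ c) rfl,
        Helper1.XSp.nrm_fix p (φ c) hcp, inv_mul_cancel]
    rw [hbot, Subgroup.mem_bot] at hmem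
    have h2 : φ c ⟨a, haA⟩ = ⟨a, haA⟩ := by
      have h3 := congrArg (fun t => (⟨a, haA⟩ : ↥A) * t) hmem
      simpa using h3
    have h4 := congrArg Subtype.val h2
    rw [hφa] at h4
    apply hac
    have h5 : (c : G) * a * (c : G)⁻¹ = a := h4
    calc a * (c : G) = (c : G) * a * (c : G)⁻¹ * (c : G) := by rw [h5]
      _ = (c : G) * a := by rw [inv_mul_cancel_right]
  have hUfpf : ∀ c' ∈ Subgroup.center ↥E, c' ≠ 1 → ∀ u ∈ U, φ c' u = u → u = 1 := by
    intro c' hc' hc'1 u hu hfix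
    obtain ⟨k, hk⟩ := Helper1.XSp.exists_zpow_Z _ hZc c' c hc' hc'1 hcZ
    have hst : φ c' ∈ MulAction.stabilizer (MulAut ↥A) u := by
      rw [MulAction.mem_stabilizer_iff, MulAut.smul_def]; exact hfix
    have h1 := Subgroup.zpow_mem _ hst k
    rw [← map_zpow, hk, MulAction.mem_stabilizer_iff, MulAut.smul_def] at h1
    have h2 := Helper1.XSp.nrm_fixed p (φ c) u h1
    rw [(hUmem u).mp hu] at h2
    exact hcop u h2.symm
  have hcore := Helper1.XSp.core p r n hpr φ hW (Subgroup.center ↥E) hZc hZcent hcomm hpow hn hmin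
    w ⊤ le_top
    (fun g _ hg => Subgroup.mem_center_iff.mpr (fun h => (hg h (Subgroup.mem_top h)).symm))
    (by rw [Subgroup.card_top, hEcard]) U (fun g _ u hu => hUinv g u hu) hUne hUfpf
  exact hcore.trans (Subgroup.card_le_card_group U)

/-- Let p and r be distinct primes, let E be an extraspecial subgroup of order p^(2w+1) of a finite group, and let A be an elementary abelian r-subgroup normalized by E on which E acts faithfully (C_E(A) = 1). If n ≥ 1 is least with p dividing rⁿ − 1 (the smallest dimension of a faithful representation of a group of order p over the field with r elements), then the order of A is at least r^(n·p^w). -/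
theorem result {G : Type*} [Group G] [Finite G] {p r : ℕ} [Fact p.Prime] [hr : Fact r.Prime] (hpr : p ≠ r) (E A : Subgroup G) (w : ℕ) (hE : Cfsg.IsExtraspecial p ↥E) (hEcard : Nat.card ↥E = p ^ (2 * w + 1)) (hA : Cfsg.IsElementaryAbelian r A) (hnorm : E ≤ Subgroup.normalizer (A : Set G)) (hfaith : E ⊓ Subgroup.centralizer (A : Set G) = ⊥) (n : ℕ) (hn : 1 ≤ n) (hdiv : p ∣ r ^ n - 1) (hmin : ∀ k : ℕ, 1 ≤ k → p ∣ r ^ k - 1 → n ≤ k) : r ^ (n * p ^ w) ≤ Nat.card ↥A := by
  have hAc : IsMulCommutative A := hA.1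
  exact main_aux hpr E A w hE hEcard hA.2 hnorm hfaith n hn hmin

end Cfsg.Agent.S2912
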