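import Mathlib
import Cfsg.Statements.S2923
import Cfsg.Agent.Helper18.CharP

set_option autoImplicit false
open Cfsg

namespace Cfsg.Agent.S2923

/-- Let p be a prime and X a finite group of characteristic p, that is C_X(O_p(X)) ≤ O_p(X). Then every subnormal subgroup of X has characteristic p. -/
theorem result {X : Type*} [Group X] [Finite X] {p : ℕ} [Fact p.Prime] (hX : Subgroup.centralizer (Cfsg.pCore p X : Set X) ≤ Cfsg.pCore p X) (Y : Subgroup X) (hY : Y.IsSubnormal) : Subgroup.centralizer (Cfsg.pCore p ↥Y : Set ↥Y) ≤ Cfsg.pCore p ↥Y := by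
  apply Cfsg.Agent.Helper18.charP_of_CP
  induction hY with
  | top =>
    apply Cfsg.Agent.Helper18.CP_of_normalized_top hX
    intro x _
    rw [Subgroup.mem_normalizer_iff]
    intro h
    simp
  | step H K h_le hSubn hN ih =>
    apply Cfsg.Agent.Helper18.CP_of_normalized K H h_le ih
    intro n _
    exact ((Subgroup.normal_subgroupOf_iff_le_normalizer h_le).mp hN) n.2

end Cfsg.Agent.S2923
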