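import Mathlib
import Cfsg.Statements.S2925
import Cfsg.Agent.S0542
import Cfsg.Agent.Helper10.FStar
import Cfsg.Agent.Helper10.PComp

set_option autoImplicit false
open scoped Pointwise
open Cfsg

namespace Cfsg.Agent.S2925

open scoped commutatorElement

theorem key {X : Type*} [Group X] (K : Subgroup X) (y : X)
    (hcomm : ∀ k ∈ K, ∀ k' ∈ K, k * (y * k' * y⁻¹) = (y * k' * y⁻¹) * k)
    (s t : X) (hs : s ∈ K) (ht : t ∈ K)
    (hab : (t * y * t⁻¹ * y⁻¹) * (s * y * s⁻¹ * y⁻¹) = (s * y * s⁻¹ * y⁻¹) * (t * y * t⁻¹ * y⁻¹)) :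
    ∀ k ∈ K, ((s * t)⁻¹ * (t * s)) * k = k * ((s * t)⁻¹ * (t * s)) := by
  have hA := hcomm s hs t⁻¹ (K.inv_mem ht)
  have hB := hcomm t ht s⁻¹ (K.inv_mem hs)
  have h1 : t * s * ((y * t⁻¹ * y⁻¹) * (y * s⁻¹ * y⁻¹)) = s * t * ((y * s⁻¹ * y⁻¹) * (y * t⁻¹ * y⁻¹)) := by
    calc t * s * ((y * t⁻¹ * y⁻¹) * (y * s⁻¹ * y⁻¹))
        = t * (s * (y * t⁻¹ * y⁻¹)) * (y * s⁻¹ * y⁻¹) := by group
      _ = t * ((y * t⁻¹ * y⁻¹) * s) * (y * s⁻¹ * y⁻¹) := by rw [hA]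
      _ = (t * y * t⁻¹ * y⁻¹) * (s * y * s⁻¹ * y⁻¹) := by group
      _ = (s * y * s⁻¹ * y⁻¹) * (t * y * t⁻¹ * y⁻¹) := hab
      _ = s * ((y * s⁻¹ * y⁻¹) * t) * (y * t⁻¹ * y⁻¹) := by group
      _ = s * (t * (y * s⁻¹ * y⁻¹)) * (y * t⁻¹ * y⁻¹) := by rw [hB]
      _ = s * t * ((y * s⁻¹ * y⁻¹) * (y * t⁻¹ * y⁻¹)) := by group
  have e : (s * t)⁻¹ * (t * s) = y * (s⁻¹ * t⁻¹ * s * t) * y⁻¹ := by
    calc (s * t)⁻¹ * (t * s)
        = (s * t)⁻¹ * (t * s * ((y * t⁻¹ * y⁻¹) * (y * s⁻¹ * y⁻¹))) *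
            ((y * t⁻¹ * y⁻¹) * (y * s⁻¹ * y⁻¹))⁻¹ := by group
      _ = (s * t)⁻¹ * (s * t * ((y * s⁻¹ * y⁻¹) * (y * t⁻¹ * y⁻¹))) *
            ((y * t⁻¹ * y⁻¹) * (y * s⁻¹ * y⁻¹))⁻¹ := by rw [h1]
      _ = y * (s⁻¹ * t⁻¹ * s * t) * y⁻¹ := by group
  intro k hk
  rw [e]
  exact (hcomm k hk _ (K.mul_mem (K.mul_mem (K.mul_mem (K.inv_mem hs) (K.inv_mem ht)) hs) ht)).symm

/-- Let K be a component of the finite group X and T a Sylow 2-subgroup of X. If some abelian normal subgroup Y of T does not normalize K, then K ⧸ Z(K) has abelian Sylow 2-subgroups. -/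
theorem result {X : Type*} [Group X] [Finite X] (K : Subgroup X) (hK : Cfsg.IsComponent K) (T : Sylow 2 X) (Y : Subgroup X) (hYT : Y ≤ (T : Subgroup X)) (hYn : (Y.subgroupOf (T : Subgroup X)).Normal) (hYab : IsMulCommutative ↥Y) (hnot : ¬ Y ≤ Subgroup.normalizer (K : Set X)) (P : Sylow 2 (↥K ⧸ Subgroup.center ↥K)) : IsMulCommutative ↥(P : Subgroup (↥K ⧸ Subgroup.center ↥K)) := by
  classical
  obtain ⟨y, hyY, hyN⟩ := SetLike.not_le_iff_exists.mp hnot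
  have hK' := Cfsg.Agent.Helper10.comp_conj hK y
  have hne : K.map (MulAut.conj y).toMonoidHom ≠ K :=
    fun h => hyN (Cfsg.Agent.Helper10.mem_normalizer_of_map_conj_eq h)
  have hcomm0 : ⁅K, K.map (MulAut.conj y).toMonoidHom⁆ = ⊥ :=
    (Cfsg.Agent.Helper10.comp_eq_or_comm hK hK').resolve_left (Ne.symm hne)
  have hcomm : ∀ k ∈ K, ∀ k' ∈ K, k * (y * k' * y⁻¹) = (y * k' * y⁻¹) * k := by
    intro k hk k' hk'
    have hmem : y * k' * y⁻¹ ∈ K.map (MulAut.conj y).toMonoidHom :=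
      ⟨k', hk', by simp [MulAut.conj_apply]⟩
    have := Subgroup.commutator_mem_commutator hk hmem
    rw [hcomm0, Subgroup.mem_bot, commutatorElement_eq_one_iff_mul_comm] at this
    exact this
  have hYn' : (T : Subgroup X) ≤ Subgroup.normalizer (Y : Set X) :=
    (Subgroup.normal_subgroupOf_iff_le_normalizer hYT).mp hYn
  have hY1 : ∀ t ∈ (T : Subgroup X), t * y * t⁻¹ * y⁻¹ ∈ Y := fun t ht =>
    Y.mul_mem ((Subgroup.mem_normalizer_iff.mp (hYn' ht) y).mp hyY) (Y.inv_mem hyY)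
  have hYc : ∀ a ∈ Y, ∀ b ∈ Y, a * b = b * a := by
    intro a ha b hb
    have := mul_comm' (⟨a, ha⟩ : Y) ⟨b, hb⟩
    exact congrArg Subtype.val this
  obtain ⟨Q, hQ⟩ := Cfsg.Agent.S0542.result 2 K hK.1 T
  have hsurj := QuotientGroup.mk'_surjective (Subgroup.center ↥K)
  obtain ⟨g, hg⟩ := MulAction.exists_smul_eq (↥K ⧸ Subgroup.center ↥K) (Q.mapSurjective hsurj) P
  have hQab : ∀ a ∈ ((Q.mapSurjective hsurj : Sylow 2 (↥K ⧸ Subgroup.center ↥K)) :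
      Subgroup (↥K ⧸ Subgroup.center ↥K)),
      ∀ b ∈ ((Q.mapSurjective hsurj : Sylow 2 (↥K ⧸ Subgroup.center ↥K)) :
      Subgroup (↥K ⧸ Subgroup.center ↥K)), a * b = b * a := by
    intro a ha b hb
    rw [Sylow.coe_mapSurjective] at ha hb
    obtain ⟨s, hs, rfl⟩ := ha
    obtain ⟨t, ht, rfl⟩ := hb
    have hs' : (s : X) ∈ (T : Subgroup X) := by
      have : s ∈ (Q : Subgroup ↥K) := hs
      rw [hQ] at this
      exact this
    have ht' : (t : X) ∈ (T : Subgroup X) := by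
      have : t ∈ (Q : Subgroup ↥K) := ht
      rw [hQ] at this
      exact this
    rw [← map_mul, ← map_mul]
    apply (QuotientGroup.eq).mpr
    rw [Subgroup.mem_center_iff]
    intro k
    apply Subtype.ext
    have := key K y hcomm (s : X) (t : X) s.2 t.2
      (hYc _ (hY1 _ ht') _ (hY1 _ hs')) k k.2
    simpa using this.symm
  subst hg
  have hPab : ∀ a ∈ ((g • Q.mapSurjective hsurj : Sylow 2 (↥K ⧸ Subgroup.center ↥K)) :
      Subgroup (↥K ⧸ Subgroup.center ↥K)),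
      ∀ b ∈ ((g • Q.mapSurjective hsurj : Sylow 2 (↥K ⧸ Subgroup.center ↥K)) :
      Subgroup (↥K ⧸ Subgroup.center ↥K)), a * b = b * a := by
    intro a ha b hb
    rw [Sylow.coe_subgroup_smul, Subgroup.mem_pointwise_smul_iff_inv_smul_mem] at ha hb
    have h := hQab _ ha _ hb
    simp only [MulAut.smul_def, MulAut.inv_apply, MulAut.conj_symm_apply] at h
    have h2 : g⁻¹ * (a * b) * g = g⁻¹ * (b * a) * g := by
      calc g⁻¹ * (a * b) * g = (g⁻¹ * a * g) * (g⁻¹ * b * g) := by group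
        _ = (g⁻¹ * b * g) * (g⁻¹ * a * g) := h
        _ = g⁻¹ * (b * a) * g := by group
    exact mul_left_cancel (mul_right_cancel h2)
  exact ⟨⟨fun a b => Subtype.ext (hPab a.1 a.2 b.1 b.2)⟩⟩

end Cfsg.Agent.S2925
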