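import Mathlib
import Cfsg.Statements.S2956
import Cfsg.Agent.Helper18.SylChain
-- import your own Cfsg.Agent.* helpers here

set_option autoImplicit false
open Cfsg

namespace Cfsg.Agent.S2956

open Relation
open Cfsg.Agent.Helper18
open Cfsg.Agent.Helper17 (cj mem_cj cj_mul cj_inv_cj cj_cj_inv cj_mono cj_inf cj_bot sylow_conj
  exists_sylow_cj card_cj lt_normalizer_inf_of_lt)

/-- The family of the statement. -/
def fam {G : Type*} [Group G] (p : ℕ) (f : Subgroup G → Set (Subgroup G)) : Set (Subgroup G) :=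
  functorFamily p f ⊤ ∪ {M | IsMaximalPLocal p M ∧ ¬ IsFunctorRegular p f M}

/-- Two Sylow subgroups joined by a chain of links of the family, keeping `D`. -/
def Conn {G : Type*} [Group G] (p : ℕ) (f : Subgroup G → Set (Subgroup G)) (D : Subgroup G)
    (S T : Sylow p G) : Prop :=
  ReflTransGen (SLink p (fam p f) D) S T

/-- Sylow subgroups with an intersection properly larger than `D` are joined. -/
def Big {G : Type*} [Group G] (p : ℕ) (f : Subgroup G → Set (Subgroup G)) (D : Subgroup G) : Prop :=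
  ∀ (S' T' : Sylow p G) (B : Subgroup G), B ≤ (S' : Subgroup G) → B ≤ (T' : Subgroup G) → D ≤ B →
    Nat.card D < Nat.card B → Conn p f D S' T'

/-- Conjugation by elements of `M` is realised by chains. -/
def Good {G : Type*} [Group G] (p : ℕ) (f : Subgroup G → Set (Subgroup G)) (D M : Subgroup G) :
    Prop :=
  ∀ (Q : Subgroup G) (P P' : Sylow p G) (m : G), SylIn p M Q → Q ≤ (P : Subgroup G) → m ∈ M →
    D ≤ Q → D ≤ cj m Q → Nat.card D < Nat.card Q → (P' : Subgroup G) = cj m (P : Subgroup G) →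
    Conn p f D P P'

theorem slink_mono {G : Type*} [Group G] {p : ℕ} {𝒢 : Set (Subgroup G)} {D D' : Subgroup G}
    (h : D' ≤ D) {S₀ S₁ : Sylow p G} (hl : SLink p 𝒢 D S₀ S₁) : SLink p 𝒢 D' S₀ S₁ := by
  obtain ⟨X, x, h0, h1, hx, hc, hD⟩ := hl
  exact ⟨X, x, h0, h1, hx, hc, h.trans hD⟩

theorem slink_of_le {G : Type*} [Group G] {p : ℕ} {𝒢 : Set (Subgroup G)} {X D : Subgroup G}
    (hX : X ∈ 𝒢) {S₀ S₁ : Sylow p G} {x : G} (h0 : (S₀ : Subgroup G) ≤ X)
    (h1 : (S₁ : Subgroup G) ≤ X) (hx : x ∈ X)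
    (hconj : subgroupConjRight x (S₁ : Subgroup G) = (S₀ : Subgroup G))
    (hD : D ≤ (S₁ : Subgroup G)) : SLink p 𝒢 D S₀ S₁ := by
  have hsm : ∀ S₂ : Sylow p G, (S₂ : Subgroup G) ≤ X →
      X ∈ sylowMembers p 𝒢 (S₂ : Subgroup G) := by
    intro S₂ h2
    refine ⟨hX, S₂.subtype h2, ?_⟩
    rw [Sylow.coe_subtype, Subgroup.map_subgroupOf_eq_of_le h2, inf_eq_left.mpr h2]
  exact ⟨X, x, hsm S₀ h0, hsm S₁ h1, hx, hconj, le_inf hD (hD.trans h1)⟩

theorem exists_max_plocal {G : Type*} [Group G] [Finite G] {p : ℕ} {N : Subgroup G}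
    (hN : IsPLocal p N) : ∃ M, IsMaximalPLocal p M ∧ N ≤ M := by
  have hfin : {N : Subgroup G | IsPLocal p N}.Finite := Set.toFinite _
  obtain ⟨M, hNM, hM⟩ := hfin.exists_le_maximal hN
  exact ⟨M, ⟨hM.prop, fun N' hN' hMN' => le_antisymm (hM.le_of_ge hN' hMN') hMN'⟩, hNM⟩

theorem card_lt_of_lt {G : Type*} [Group G] [Finite G] {A B : Subgroup G} (hAB : A < B) :
    Nat.card A < Nat.card B := by
  by_contra hle
  rw [not_lt] at hle
  exact absurd (Subgroup.eq_of_le_of_card_ge hAB.le hle) hAB.ne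

theorem good_of_singular {G : Type*} [Group G] [Finite G] {p : ℕ} [Fact p.Prime]
    {f : Subgroup G → Set (Subgroup G)} {D M : Subgroup G} (hM : IsMaximalPLocal p M)
    (hs : ¬ IsFunctorRegular p f M) : Good p f D M := by
  intro Q P P' m hQ hQP hm hDQ hDQ' _ hP'
  have hMfam : M ∈ fam p f := Or.inr ⟨hM, hs⟩
  have e0 : (P : Subgroup G) ⊓ M = Q :=
    hQ.eq_of_le (le_inf hQP hQ.le) inf_le_right (P.isPGroup'.to_le inf_le_left)
  have hQ' : SylIn p M (cj m Q) := hQ.cj_mem hm
  have hQ'P' : cj m Q ≤ (P' : Subgroup G) := by rw [hP']; exact cj_mono hQP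
  have e1 : (P' : Subgroup G) ⊓ M = cj m Q :=
    hQ'.eq_of_le (le_inf hQ'P' hQ'.le) inf_le_right (P'.isPGroup'.to_le inf_le_left)
  have s0 : SylIn p M ((P : Subgroup G) ⊓ M) := by rw [e0]; exact hQ
  have s1 : SylIn p M ((P' : Subgroup G) ⊓ M) := by rw [e1]; exact hQ'
  apply ReflTransGen.single
  refine ⟨M, m, ⟨hMfam, s0⟩, ⟨hMfam, s1⟩, hm, ?_, ?_⟩
  · rw [hP']
    show cj m⁻¹ (cj m (P : Subgroup G)) = (P : Subgroup G)
    rw [cj_inv_cj]
  · rw [e1]; exact hDQ'

theorem chain_props {G : Type*} [Group G] {p : ℕ} {f : Subgroup G → Set (Subgroup G)}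
    {M D₀ Q B : Subgroup G} (h : ReflTransGen (MStep p f M D₀) Q B) (hQ : SylIn p M Q)
    (hDQ : D₀ ≤ Q) : SylIn p M B ∧ D₀ ≤ B := by
  induction h with
  | refl => exact ⟨hQ, hDQ⟩
  | tail _ hbc _ =>
    obtain ⟨-, h1, F, x, -, -, -, -, -, -, hD⟩ := hbc
    exact ⟨h1, hD⟩

theorem good_of_regular {G : Type*} [Group G] [Finite G] {p : ℕ} [Fact p.Prime]
    {f : Subgroup G → Set (Subgroup G)} (hf : IsNormalizerFunctor p f)
    (hf1 : ∀ P : Subgroup G, IsPGroup p ↥P → P ≠ ⊥ → ∀ F ∈ f P, F ≠ ⊥) {D : Subgroup G}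
    (hD : D ≠ ⊥) (hBig : Big p f D) {M : Subgroup G} (hreg : IsFunctorRegular p f M)
    (hIH : ∀ M' Q' : Subgroup G, IsMaximalPLocal p M' → SylIn p M' Q' →
      (∀ Q, SylIn p M Q → Nat.card Q < Nat.card Q') → Good p f D M') : Good p f D M := by
  intro Q P P' m hQ hQP hm hDQ hDQ' hcard hP'
  have hQ' : SylIn p M (cj m Q) := hQ.cj_mem hm
  have hQ'P' : cj m Q ≤ (P' : Subgroup G) := by rw [hP']; exact cj_mono hQP
  by_cases heq : Q = cj m Q
  · have hQP' : Q ≤ (P' : Subgroup G) := by rw [heq]; exact hQ'P'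
    exact hBig P P' Q hQP hQP' hDQ hcard
  have hDD : D ≤ Q ⊓ cj m Q := le_inf hDQ hDQ'
  have hne : Q ⊓ cj m Q ≠ ⊥ := by
    intro h0
    apply hD
    rw [eq_bot_iff, ← h0]
    exact hDD
  have hch := regular_unpack hf hreg hQ hQ' heq hne
  have hD0 : 0 < Nat.card D := Nat.card_pos
  have key : ∀ B : Subgroup G, ReflTransGen (MStep p f M (Q ⊓ cj m Q)) Q B →
      ∀ B' : Sylow p G, B ≤ (B' : Subgroup G) → Conn p f D P B' := by
    intro B hB
    induction hB with
    | refl =>
      intro B' hB'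
      exact hBig P B' Q hQP hB' hDQ hcard
    | @tail B C hQB hbc ih =>
      intro C' hCC'
      obtain ⟨hBs, hDB⟩ := chain_props hQB hQ inf_le_left
      obtain ⟨-, hCs, F, x, ⟨P₁, hP₁, hF⟩, hxM, hxF, hBF, hCF, hconj, hDC⟩ := hbc
      have hcB : Nat.card B = Nat.card Q := hBs.card.trans hQ.card.symm
      have hcC : Nat.card C = Nat.card Q := hCs.card.trans hQ.card.symm
      have hcP₁ : Nat.card P₁ = Nat.card Q := hP₁.card.trans hQ.card.symm
      have hcardB : Nat.card D < Nat.card B := by rw [hcB]; exact hcard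
      have hcardC : Nat.card D < Nat.card C := by rw [hcC]; exact hcard
      have hCx : C = cj x B := by
        rw [← hconj]
        show C = cj x (cj x⁻¹ C)
        rw [cj_cj_inv]
      obtain ⟨B₀, hB₀⟩ := hBs.isPGroup.exists_le_sylow
      have h1 := ih B₀ hB₀
      have hDB' : D ≤ B := hDD.trans hDB
      have hDC' : D ≤ C := hDD.trans hDC
      by_cases hfull : B = (B₀ : Subgroup G)
      · have hcG : Nat.card Q = p ^ (Nat.card G).factorization p := by
          rw [← hcB, hfull]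
          exact B₀.card_eq_multiplicity
        have hCeq : C = (C' : Subgroup G) :=
          Subgroup.eq_of_le_of_card_ge hCC' (by rw [hcC, hcG, C'.card_eq_multiplicity])
        obtain ⟨P₀, hP₀⟩ : ∃ P₀ : Sylow p G, (P₀ : Subgroup G) = P₁ :=
          ⟨Sylow.ofCard P₁ (hcP₁.trans hcG), Sylow.coe_ofCard _ _⟩
        have hX : (⊤ ⊓ Subgroup.normalizer (F : Set G) : Subgroup G) ∈ fam p f := by
          left
          refine ⟨P₀.subtype le_top, F, ?_, rfl⟩
          rw [Sylow.coe_subtype, Subgroup.map_subgroupOf_eq_of_le le_top, hP₀]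
          exact hF
        refine ReflTransGen.tail h1 ?_
        apply slink_of_le hX (x := x)
        · rw [← hfull]; exact le_inf le_top hBF
        · rw [← hCeq]; exact le_inf le_top hCF
        · exact Subgroup.mem_inf.mpr ⟨Subgroup.mem_top x, hxF⟩
        · rw [← hCeq, ← hfull]; exact hconj
        · rw [← hCeq]; exact hDC'
      · have hP₁p : IsPGroup p P₁ := hP₁.isPGroup
        have hP₁ne : P₁ ≠ ⊥ := by
          intro h0
          have h2 : Nat.card P₁ = 1 := by rw [h0]; exact Subgroup.card_bot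
          omega
        have hfP := (hf P₁ hP₁p).1 F hF
        have hF1 : F ≠ ⊥ := hf1 P₁ hP₁p hP₁ne F hF
        have hFp : IsPGroup p F := hP₁p.to_le hfP.1
        obtain ⟨M', hM', hNM'⟩ := exists_max_plocal (p := p)
          (N := Subgroup.normalizer (F : Set G)) ⟨F, hFp, hF1, rfl⟩
        obtain ⟨P₂, hP₂⟩ := hP₁p.exists_le_sylow
        have hlt : P₁ < (P₂ : Subgroup G) := by
          refine lt_of_le_of_ne hP₂ ?_
          intro h0
          apply hfull
          apply Subgroup.eq_of_le_of_card_ge hB₀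
          rw [hcB, ← hcP₁, h0, P₂.card_eq_multiplicity, B₀.card_eq_multiplicity]
        have hN := lt_normalizer_inf_of_lt P₂.isPGroup' hlt
        have hNM : Subgroup.normalizer (P₁ : Set G) ⊓ (P₂ : Subgroup G) ≤ M' :=
          (inf_le_left.trans hfP.2).trans hNM'
        obtain ⟨Q₂, hQ₂, hNQ₂⟩ := SylIn.exists_ge hNM (P₂.isPGroup'.to_le inf_le_right)
        have hbig : ∀ Q₃, SylIn p M Q₃ → Nat.card Q₃ < Nat.card Q₂ := by
          intro Q₃ hQ₃
          rw [hQ₃.card.trans hP₁.card.symm]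
          exact lt_of_lt_of_le (card_lt_of_lt hN) (Subgroup.card_le_of_le hNQ₂)
        have hgood := hIH M' Q₂ hM' hQ₂ hbig
        obtain ⟨Bs, hBs', hBBs⟩ := SylIn.exists_ge (hBF.trans hNM') hBs.isPGroup
        obtain ⟨B₁, hB₁⟩ := hBs'.isPGroup.exists_le_sylow
        obtain ⟨B₂, hB₂⟩ := exists_sylow_cj x B₁
        have hcBs : Nat.card D < Nat.card Bs :=
          lt_of_lt_of_le hcardB (Subgroup.card_le_of_le hBBs)
        have hCBs : C ≤ cj x Bs := by rw [hCx]; exact cj_mono hBBs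
        have h2 : Conn p f D B₀ B₁ := hBig B₀ B₁ B hB₀ (hBBs.trans hB₁) hDB' hcardB
        have h3 : Conn p f D B₁ B₂ :=
          hgood Bs B₁ B₂ x hBs' hB₁ (hNM' hxF) (hDB'.trans hBBs) (hDC'.trans hCBs) hcBs hB₂
        have hCB₂ : C ≤ (B₂ : Subgroup G) := by
          rw [hB₂]
          exact hCBs.trans (cj_mono hB₁)
        have h4 : Conn p f D B₂ C' := hBig B₂ C' C hCB₂ hCC' hDC' hcardC
        exact ((h1.trans h2).trans h3).trans h4
  exact key _ hch P' hQ'P'

theorem good_all {G : Type*} [Group G] [Finite G] {p : ℕ} [Fact p.Prime]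
    {f : Subgroup G → Set (Subgroup G)} (hf : IsNormalizerFunctor p f)
    (hf1 : ∀ P : Subgroup G, IsPGroup p ↥P → P ≠ ⊥ → ∀ F ∈ f P, F ≠ ⊥) {D : Subgroup G}
    (hD : D ≠ ⊥) (hBig : Big p f D) :
    ∀ (n : ℕ) (M Q₀ : Subgroup G), IsMaximalPLocal p M → SylIn p M Q₀ →
      Nat.card G - Nat.card Q₀ = n → Good p f D M := by
  intro n
  induction n using Nat.strong_induction_on with
  | _ n ih =>
    intro M Q₀ hM hQ₀ hn
    by_cases hreg : IsFunctorRegular p f M
    · apply good_of_regular hf hf1 hD hBig hreg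
      intro M' Q' hM' hQ' hlt
      have h1 := hlt Q₀ hQ₀
      have h2 : Nat.card Q' ≤ Nat.card G := Subgroup.card_le_card_group Q'
      exact ih (Nat.card G - Nat.card Q') (by omega) M' Q' hM' hQ' rfl
    · exact good_of_singular hM hreg

theorem outer {G : Type*} [Group G] [Finite G] {p : ℕ} [Fact p.Prime]
    {f : Subgroup G → Set (Subgroup G)} (hf : IsNormalizerFunctor p f)
    (hf1 : ∀ P : Subgroup G, IsPGroup p ↥P → P ≠ ⊥ → ∀ F ∈ f P, F ≠ ⊥) :
    ∀ (d : ℕ) (S T : Sylow p G), (S : Subgroup G) ⊓ (T : Subgroup G) ≠ ⊥ →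
      Nat.card (S : Subgroup G) - Nat.card ((S : Subgroup G) ⊓ (T : Subgroup G) : Subgroup G) = d →
      Conn p f ((S : Subgroup G) ⊓ (T : Subgroup G)) S T := by
  intro d
  induction d using Nat.strong_induction_on with
  | _ d ih =>
    intro S T hD hd
    by_cases hST : S = T
    · rw [hST]
      exact ReflTransGen.refl
    obtain ⟨D, hDdef⟩ : ∃ D : Subgroup G, D = (S : Subgroup G) ⊓ (T : Subgroup G) := ⟨_, rfl⟩
    rw [← hDdef] at hD hd ⊢
    have hDS : D ≤ (S : Subgroup G) := by rw [hDdef]; exact inf_le_left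
    have hDT : D ≤ (T : Subgroup G) := by rw [hDdef]; exact inf_le_right
    have hcST : Nat.card (S : Subgroup G) = Nat.card (T : Subgroup G) := by
      rw [S.card_eq_multiplicity, T.card_eq_multiplicity]
    have hDltS : D < (S : Subgroup G) := by
      refine lt_of_le_of_ne hDS ?_
      intro h0
      apply hST
      apply Sylow.ext
      have h1 : (S : Subgroup G) ≤ (T : Subgroup G) := by rw [← h0]; exact hDT
      exact Subgroup.eq_of_le_of_card_ge h1 (le_of_eq hcST.symm)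
    have hDltT : D < (T : Subgroup G) := by
      refine lt_of_le_of_ne hDT ?_
      intro h0
      apply hST
      apply Sylow.ext
      have h1 : (T : Subgroup G) ≤ (S : Subgroup G) := by rw [← h0]; exact hDS
      exact (Subgroup.eq_of_le_of_card_ge h1 (le_of_eq hcST)).symm
    have hDp : IsPGroup p D := S.isPGroup'.to_le hDS
    have hBig : Big p f D := by
      intro S' T' B hBS hBT hDB hcB
      have h3 : 0 < Nat.card D := Nat.card_pos
      have hB1 : (S' : Subgroup G) ⊓ (T' : Subgroup G) ≠ ⊥ := by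
        intro h0
        have h1 : B ≤ (⊥ : Subgroup G) := by rw [← h0]; exact le_inf hBS hBT
        have h2 : Nat.card B ≤ 1 := by
          have h2' := Subgroup.card_le_of_le h1
          rwa [Subgroup.card_bot] at h2'
        omega
      have hcS' : Nat.card (S' : Subgroup G) = Nat.card (S : Subgroup G) := by
        rw [S'.card_eq_multiplicity, S.card_eq_multiplicity]
      have h4 : Nat.card B ≤ Nat.card ((S' : Subgroup G) ⊓ (T' : Subgroup G) : Subgroup G) :=
        Subgroup.card_le_of_le (le_inf hBS hBT)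
      have h5 : Nat.card ((S' : Subgroup G) ⊓ (T' : Subgroup G) : Subgroup G) ≤
          Nat.card (S' : Subgroup G) := Subgroup.card_le_of_le inf_le_left
      have h6 : Nat.card D < Nat.card (S : Subgroup G) := card_lt_of_lt hDltS
      have h7 := ih (Nat.card (S' : Subgroup G) -
        Nat.card ((S' : Subgroup G) ⊓ (T' : Subgroup G) : Subgroup G)) (by omega) S' T' hB1 rfl
      exact ReflTransGen.mono
        (fun _ _ h => slink_mono (hDB.trans (le_inf hBS hBT)) h) _ _ h7
    have hNS := lt_normalizer_inf_of_lt S.isPGroup' hDltS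
    have hNT := lt_normalizer_inf_of_lt T.isPGroup' hDltT
    obtain ⟨M, hM, hNM⟩ := exists_max_plocal (p := p)
      (N := Subgroup.normalizer (D : Set G)) ⟨D, hDp, hD, rfl⟩
    obtain ⟨Q₁, hQ₁, hNQ₁⟩ := SylIn.exists_ge (inf_le_left.trans hNM)
      (S.isPGroup'.to_le (inf_le_right : Subgroup.normalizer (D : Set G) ⊓ (S : Subgroup G) ≤ _))
    obtain ⟨Q₂, hQ₂, hNQ₂⟩ := SylIn.exists_ge (inf_le_left.trans hNM)
      (T.isPGroup'.to_le (inf_le_right : Subgroup.normalizer (D : Set G) ⊓ (T : Subgroup G) ≤ _))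
    obtain ⟨P₁, hP₁⟩ := hQ₁.isPGroup.exists_le_sylow
    obtain ⟨m, hm, hQ₂m⟩ := hQ₁.conj hQ₂
    obtain ⟨P₂, hP₂⟩ := exists_sylow_cj m P₁
    have hgood := good_all hf hf1 hD hBig _ M Q₁ hM hQ₁ rfl
    have c1 : Conn p f D S P₁ :=
      hBig S P₁ _ inf_le_right (hNQ₁.trans hP₁) hNS.le (card_lt_of_lt hNS)
    have hDQ₂ : D ≤ cj m Q₁ := by rw [← hQ₂m]; exact hNT.le.trans hNQ₂
    have c2 : Conn p f D P₁ P₂ :=
      hgood Q₁ P₁ P₂ m hQ₁ hP₁ hm (hNS.le.trans hNQ₁) hDQ₂
        (lt_of_lt_of_le (card_lt_of_lt hNS) (Subgroup.card_le_of_le hNQ₁)) hP₂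
    have hNP₂ : Subgroup.normalizer (D : Set G) ⊓ (T : Subgroup G) ≤ (P₂ : Subgroup G) := by
      rw [hP₂]
      refine hNQ₂.trans ?_
      rw [hQ₂m]
      exact cj_mono hP₁
    have c3 : Conn p f D P₂ T := hBig P₂ T _ hNP₂ inf_le_right hNT.le (card_lt_of_lt hNT)
    exact (c1.trans c2).trans c3

/-- Let p be a prime dividing the order of the finite group G, and f an assignment to every p-subgroup P of a set f(P) of subgroups of P, each normalized by N_G(P), compatible with conjugation, such that for P ≠ 1 the members of f(P) are nontrivial. Let 𝓕 be the family of the normalizers N_G(F) of the members F of f(S) over the Sylow p-subgroups S of G, and 𝓕' the family of the maximal p-local subgroups M of G that are singular for f (the corresponding family of normalizers inside M does not control Sylow p-intersections in M). Then 𝓕 ∪ 𝓕' controls Sylow p-intersections in G. -/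
theorem result {G : Type*} [Group G] [Finite G] (p : ℕ) [Fact p.Prime] (hdiv : p ∣ Nat.card G)
    (f : Subgroup G → Set (Subgroup G)) (hf : Cfsg.IsNormalizerFunctor p f)
    (hf1 : ∀ P : Subgroup G, IsPGroup p ↥P → P ≠ ⊥ → ∀ F ∈ f P, F ≠ ⊥)
    (𝓕 𝓕' : Set (Subgroup G)) (h𝓕 : 𝓕 = Cfsg.functorFamily p f ⊤)
    (h𝓕' : 𝓕' = {M | Cfsg.IsMaximalPLocal p M ∧ ¬ Cfsg.IsFunctorRegular p f M}) :
    Cfsg.ControlsSylowIntersections p (𝓕 ∪ 𝓕') := by
  rw [h𝓕, h𝓕', controls_iff_rtg]
  intro S T _ hD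
  exact outer hf hf1 _ S T hD rfl

end Cfsg.Agent.S2956
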