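import Cfsg.Statements.S2958

set_option autoImplicit false
open Cfsg

namespace Cfsg.Agent.S2958

theorem conj_map_map {G : Type*} [Group G] (X : Subgroup G) (a g : G) :
    (X.map (MulAut.conj g).toMonoidHom).map (MulAut.conj a).toMonoidHom =
      X.map (MulAut.conj (a * g)).toMonoidHom := by
  rw [Subgroup.map_map]
  congr 1
  ext x
  simp [MulAut.conj_apply, mul_assoc]

/-- If G is generated by a conjugacy class of subgroups each member of which lies in A or in B, then A = G or B = G. -/
theorem result {G : Type*} [Group G] (X A B : Subgroup G) (hgen : (⨆ g : G, X.map (MulAut.conj g).toMonoidHom) = ⊤) (hcover : ∀ g : G, X.map (MulAut.conj g).toMonoidHom ≤ A ∨ X.map (MulAut.conj g).toMonoidHom ≤ B) : A = ⊤ ∨ B = ⊤ := by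
  by_cases h : ∀ g : G, X.map (MulAut.conj g).toMonoidHom ≤ A
  · left
    rw [eq_top_iff, ← hgen]
    exact iSup_le h
  · right
    obtain ⟨g₀, hg₀⟩ := not_forall.mp h
    -- the subgroup generated by the conjugates not inside A
    set B₀ : Subgroup G := ⨆ g : {g : G // ¬ X.map (MulAut.conj g).toMonoidHom ≤ A},
      X.map (MulAut.conj (g : G)).toMonoidHom with hB₀
    have hB₀B : B₀ ≤ B := by
      refine iSup_le ?_
      rintro ⟨g, hg⟩
      exact (hcover g).resolve_left hg
    have hmem : ∀ g : G, ¬ X.map (MulAut.conj g).toMonoidHom ≤ A →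
        X.map (MulAut.conj g).toMonoidHom ≤ B₀ := fun g hg =>
      le_iSup (fun g : {g : G // ¬ X.map (MulAut.conj g).toMonoidHom ≤ A} =>
        X.map (MulAut.conj (g : G)).toMonoidHom) ⟨g, hg⟩
    -- A normalizes B₀
    have hA : ∀ a ∈ A, B₀.map (MulAut.conj a).toMonoidHom ≤ B₀ := by
      intro a ha
      rw [hB₀, Subgroup.map_iSup]
      refine iSup_le ?_
      rintro ⟨g, hg⟩
      rw [conj_map_map]
      apply hmem
      intro hle
      apply hg
      intro y hy
      have : a * y * a⁻¹ ∈ X.map (MulAut.conj (a * g)).toMonoidHom := by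
        rw [← conj_map_map]
        exact ⟨y, hy, by simp [MulAut.conj_apply]⟩
      have h2 := hle this
      have h3 : a⁻¹ * (a * y * a⁻¹) * a ∈ A := A.mul_mem (A.mul_mem (A.inv_mem ha) h2) ha
      simpa [mul_assoc] using h3
    -- the set of elements normalizing B₀ (one-sided) is a subgroup containing A and B₀
    have hN : ∀ x : G, B₀.map (MulAut.conj x).toMonoidHom ≤ B₀ := by
      intro x
      have hx : x ∈ (⨆ g : G, X.map (MulAut.conj g).toMonoidHom) := by rw [hgen]; trivial
      induction hx using Subgroup.iSup_induction' with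
      | hp g y hy =>
        by_cases hg : X.map (MulAut.conj g).toMonoidHom ≤ A
        · exact hA y (hg hy)
        · have hyB : y ∈ B₀ := hmem g hg hy
          rintro _ ⟨b, hb, rfl⟩
          simp only [MulEquiv.toMonoidHom_eq_coe, MonoidHom.coe_coe, MulAut.conj_apply]
          exact B₀.mul_mem (B₀.mul_mem hyB hb) (B₀.inv_mem hyB)
      | h1 =>
        rintro _ ⟨b, hb, rfl⟩
        simpa using hb
      | hmul x y _ _ ihx ihy =>
        rintro _ ⟨b, hb, rfl⟩
        have h1 : y * b * y⁻¹ ∈ B₀ := ihy ⟨b, hb, by simp [MulAut.conj_apply]⟩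
        have h2 : x * (y * b * y⁻¹) * x⁻¹ ∈ B₀ := ihx ⟨_, h1, by simp [MulAut.conj_apply]⟩
        simpa [MulAut.conj_apply, mul_assoc] using h2
    have htop : B₀ = ⊤ := by
      rw [eq_top_iff, ← hgen]
      refine iSup_le ?_
      intro g
      have h1 : X.map (MulAut.conj g₀).toMonoidHom ≤ B₀ := hmem g₀ hg₀
      have h2 : (X.map (MulAut.conj g₀).toMonoidHom).map (MulAut.conj (g * g₀⁻¹)).toMonoidHom ≤ B₀ :=
        le_trans (Subgroup.map_mono h1) (hN (g * g₀⁻¹))
      rw [conj_map_map] at h2
      simpa [mul_assoc] using h2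
    rw [eq_top_iff, ← htop]
    exact hB₀B

end Cfsg.Agent.S2958
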