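import Mathlib
import Cfsg.Statements.S2963

set_option autoImplicit false
open Cfsg

namespace Cfsg.Agent.S2963

open scoped Pointwise

/-- Let n be odd. If the symmetric group of degree n is a minimal parabolic group for the prime 2, that is, a Sylow 2-subgroup is not normal and lies in exactly one maximal subgroup, then n = 2^m + 1 for some natural number m. -/
theorem result (n : ℕ) (hn : Odd n) (h : Cfsg.IsPMinimal 2 (Equiv.Perm (Fin n))) : ∃ m : ℕ, n = 2 ^ m + 1 := by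
  classical
  have h2p : Fact (Nat.Prime 2) := ⟨Nat.prime_two⟩
  obtain ⟨S⟩ : Nonempty (Sylow 2 (Equiv.Perm (Fin n))) := inferInstance
  obtain ⟨hnn, M, ⟨hMco, hSM⟩, hMuniq⟩ := h S
  -- n ≠ 1
  have hn1 : n ≠ 1 := by
    rintro rfl
    apply hnn
    have hsub : Subsingleton (Equiv.Perm (Fin 1)) := inferInstance
    have : (S : Subgroup (Equiv.Perm (Fin 1))) = ⊥ := Subgroup.eq_bot_of_subsingleton _
    rw [this]
    infer_instance
  have hn3 : 3 ≤ n := by
    obtain ⟨k, hk⟩ := hn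
    omega
  -- a fixed point
  have hfix : (MulAction.fixedPoints ↥(S : Subgroup (Equiv.Perm (Fin n))) (Fin n)).Nonempty := by
    apply IsPGroup.nonempty_fixed_point_of_prime_not_dvd_card S.isPGroup'
    rw [Nat.card_eq_fintype_card, Fintype.card_fin]
    intro h2
    exact (Nat.not_even_iff_odd.mpr hn) (even_iff_two_dvd.mpr h2)
  obtain ⟨x, hx⟩ := hfix
  have hxS : ∀ s ∈ (S : Subgroup (Equiv.Perm (Fin n))), s x = x := by
    intro s hs
    exact hx ⟨s, hs⟩
  -- another point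
  obtain ⟨y, hy⟩ : ∃ y : Fin n, y ≠ x := by
    by_cases h0 : x = ⟨0, by omega⟩
    · exact ⟨⟨1, by omega⟩, by rw [h0]; simp [Fin.ext_iff]⟩
    · exact ⟨⟨0, by omega⟩, fun h => h0 h.symm⟩
  obtain ⟨Δ, hΔ⟩ : ∃ Δ : Set (Fin n),
      Δ = MulAction.orbit ↥(S : Subgroup (Equiv.Perm (Fin n))) y := ⟨_, rfl⟩
  have hΔmem : ∀ z, z ∈ Δ ↔ ∃ s ∈ (S : Subgroup (Equiv.Perm (Fin n))), s y = z := by
    intro z
    rw [hΔ]
    constructor
    · rintro ⟨s, rfl⟩
      exact ⟨s.1, s.2, rfl⟩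
    · rintro ⟨s, hs, rfl⟩
      exact ⟨⟨s, hs⟩, rfl⟩
  have hyΔ : y ∈ Δ := (hΔmem y).mpr ⟨1, Subgroup.one_mem _, rfl⟩
  have hxΔ : x ∉ Δ := by
    intro hxd
    obtain ⟨s, hs, hsy⟩ := (hΔmem x).mp hxd
    apply hy
    have h1 := hxS s hs
    exact s.injective (hsy.trans h1.symm)
  have hcard : ∀ s : Set (Fin n), Nat.card (Fin n) ≠ 2 * s.ncard := by
    intro s
    rw [Nat.card_eq_fintype_card, Fintype.card_fin]
    intro h2
    exact (Nat.not_even_iff_odd.mpr hn) (even_iff_two_dvd.mpr ⟨_, h2⟩)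
  have hco1 : IsCoatom (MulAction.stabilizer (Equiv.Perm (Fin n)) ({x} : Set (Fin n))) := by
    apply Equiv.Perm.isCoatom_stabilizer (Set.singleton_nonempty x) ⟨y, hy⟩ (hcard _)
  have hco2 : IsCoatom (MulAction.stabilizer (Equiv.Perm (Fin n)) Δ) := by
    apply Equiv.Perm.isCoatom_stabilizer ⟨y, hyΔ⟩ ⟨x, hxΔ⟩ (hcard _)
  have hS1 : (S : Subgroup (Equiv.Perm (Fin n))) ≤
      MulAction.stabilizer (Equiv.Perm (Fin n)) ({x} : Set (Fin n)) := by
    intro s hs
    rw [MulAction.mem_stabilizer_set]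
    intro b
    simp only [Set.mem_singleton_iff, Equiv.Perm.smul_def]
    constructor
    · intro hb
      exact s.injective (hb.trans (hxS s hs).symm)
    · intro hb
      rw [hb]; exact hxS s hs
  have hS2 : (S : Subgroup (Equiv.Perm (Fin n))) ≤
      MulAction.stabilizer (Equiv.Perm (Fin n)) Δ := by
    intro s hs
    rw [MulAction.mem_stabilizer_set]
    intro b
    rw [hΔmem, hΔmem, Equiv.Perm.smul_def]
    constructor
    · rintro ⟨t, ht, hty⟩
      refine ⟨s⁻¹ * t, Subgroup.mul_mem _ (Subgroup.inv_mem _ hs) ht, ?_⟩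
      rw [Equiv.Perm.mul_apply, hty]
      simp
    · rintro ⟨t, ht, hty⟩
      refine ⟨s * t, Subgroup.mul_mem _ hs ht, ?_⟩
      rw [Equiv.Perm.mul_apply, hty]
  have heq : MulAction.stabilizer (Equiv.Perm (Fin n)) ({x} : Set (Fin n)) =
      MulAction.stabilizer (Equiv.Perm (Fin n)) Δ := by
    rw [hMuniq _ ⟨hco1, hS1⟩, hMuniq _ ⟨hco2, hS2⟩]
  have hall : ∀ z, z ≠ x → z ∈ Δ := by
    intro z hz
    by_contra hzΔ
    have hsw : Equiv.swap y z ∈ MulAction.stabilizer (Equiv.Perm (Fin n)) ({x} : Set (Fin n)) := by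
      rw [MulAction.mem_stabilizer_set]
      intro b
      simp only [Set.mem_singleton_iff, Equiv.Perm.smul_def]
      have hsx : Equiv.swap y z x = x := Equiv.swap_apply_of_ne_of_ne (Ne.symm hy) (Ne.symm hz)
      constructor
      · intro hb
        exact (Equiv.swap y z).injective (hb.trans hsx.symm)
      · intro hb
        rw [hb]; exact hsx
    rw [heq, MulAction.mem_stabilizer_set] at hsw
    have := (hsw y).mpr hyΔ
    rw [Equiv.Perm.smul_def, Equiv.swap_apply_left] at this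
    exact hzΔ this
  have hΔeq : Δ = ({x} : Set (Fin n))ᶜ := by
    ext z
    simp only [Set.mem_compl_iff, Set.mem_singleton_iff]
    constructor
    · intro hz hzx
      rw [hzx] at hz
      exact hxΔ hz
    · exact hall z
  obtain ⟨m, hm⟩ := IsPGroup.card_orbit S.isPGroup' y
  refine ⟨m, ?_⟩
  rw [← hm, ← hΔ]
  have h1 : Nat.card ↥Δ = Δ.ncard := rfl
  rw [h1, hΔeq, Set.ncard_compl, Set.ncard_singleton, Nat.card_eq_fintype_card, Fintype.card_fin]
  omega

end Cfsg.Agent.S2963
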