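import Mathlib
import Cfsg.Statements.S3011
import Cfsg.Agent.Helper21.BaerSuzuki

set_option autoImplicit false
open Cfsg

namespace Cfsg.Agent.S3011

theorem eq_one_of_odd_of_sq {G : Type*} [Group G] (g : G) (ho : Odd (orderOf g))
    (h2 : g * g = 1) : g = 1 := by
  have hd : orderOf g ∣ 2 := by
    apply orderOf_dvd_of_pow_eq_one
    rw [sq]; exact h2
  have h1 : orderOf g = 1 := by
    rcases (Nat.dvd_prime Nat.prime_two).mp hd with h | h
    · exact h
    · rw [h] at ho
      exact absurd ho (by decide)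
  exact orderOf_eq_one_iff.mp h1

/-- If `g` commutes with `h` and inverts it, with `h` of odd order, then `h = 1`. -/
theorem eq_one_of_comm_of_inv {G : Type*} [Group G] (g h : G) (ho : Odd (orderOf h))
    (hc : g * h = h * g) (hi : g * h * g⁻¹ = h⁻¹) : h = 1 := by
  apply eq_one_of_odd_of_sq h ho
  have : g * h * g⁻¹ = h := by rw [hc]; group
  rw [this] at hi
  calc h * h = h * h⁻¹ := by rw [← hi]
    _ = 1 := by group

/-- An odd-order element whose conjugation inverts `k` commutes with `k`... so `k * k = 1`. -/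
theorem sq_eq_one_of_odd_inverts {G : Type*} [Group G] (h k : G) (n : ℕ)
    (hn : orderOf h = 2 * n + 1) (hi : h * k * h⁻¹ = k⁻¹) : k * k = 1 := by
  have h2 : (h * h) * k = k * (h * h) := by
    have e : h * h * k = h * (h * k * h⁻¹) * h := by group
    rw [e, hi]
    have e2 : h * k⁻¹ * h = (h * k * h⁻¹)⁻¹ * (h * h) := by group
    rw [e2, hi]; group
  have h3 : Commute (h * h) k := h2
  have h4 : Commute ((h * h) ^ (n + 1)) k := h3.pow_left (n + 1)
  have h5 : (h * h) ^ (n + 1) = h := by
    rw [← sq, ← pow_mul]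
    have : 2 * (n + 1) = (2 * n + 1) + 1 := by ring
    rw [this, pow_succ, ← hn, pow_orderOf_eq_one, one_mul]
  rw [h5] at h4
  have h6 : h * k * h⁻¹ = k := by rw [h4.eq]; group
  rw [h6] at hi
  calc k * k = k * k⁻¹ := by rw [← hi]
    _ = 1 := by group

theorem core {G : Type*} [Group G] (V : Subgroup G) (hS : Cfsg.IsSidkiPair V) (a b : G)
    (haV : a ∈ V) (hbV : b ∈ V) (ha2 : a * a = 1) (hb2 : b * b = 1) (hab : a * b = b * a)
    (hV4 : ∀ w ∈ V, w = 1 ∨ w = a ∨ w = b ∨ w = a * b) (h k : G) (hh1 : h ≠ 1)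
    (hho : Odd (orderOf h)) (hk1 : k ≠ 1) (hko : Odd (orderOf k)) (hah : a * h * a⁻¹ = h⁻¹)
    (hbh : b * h = h * b) (hbk : b * k * b⁻¹ = k⁻¹) (hak : a * k = k * a) : False := by
  have hainv : a⁻¹ = a := inv_eq_of_mul_eq_one_left ha2
  have hbinv : b⁻¹ = b := inv_eq_of_mul_eq_one_left hb2
  obtain ⟨n, hn⟩ := hho
  obtain ⟨x, hx⟩ : ∃ x, x = h ^ n := ⟨_, rfl⟩
  have hxa : a * x * a⁻¹ = x⁻¹ := by
    rw [hx, ← conj_pow, hah, inv_pow]
  have hxb : b * x = x * b := by
    rw [hx]; exact (Commute.pow_right (show Commute b h from hbh) n).eq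
  have hx2 : x * x * h = 1 := by
    rw [hx, ← pow_add, ← pow_succ]
    have : n + n + 1 = 2 * n + 1 := by ring
    rw [this, ← hn, pow_orderOf_eq_one]
  have hhx : h = (x * x)⁻¹ := by
    rw [eq_comm, inv_eq_iff_mul_eq_one]; exact hx2
  -- Sidki applied to the conjugate of k
  have hk'o : Odd (orderOf (x⁻¹ * k * x)) := by
    have : orderOf (x⁻¹ * k * x) = orderOf k := by
      have := MulEquiv.orderOf_eq (MulAut.conj x⁻¹) k
      simpa using this
    rw [this]; exact hko
  have hk'1 : x⁻¹ * k * x ≠ 1 := by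
    intro hc
    apply hk1
    have : k = x * (x⁻¹ * k * x) * x⁻¹ := by group
    rw [this, hc]; group
  have hbk' : b * (x⁻¹ * k * x) * b⁻¹ = (x⁻¹ * k * x)⁻¹ := by
    have hxb' : b * x⁻¹ = x⁻¹ * b := by
      have : b * x⁻¹ = x⁻¹ * (x * b) * x⁻¹ := by group
      rw [this, ← hxb]; group
    calc b * (x⁻¹ * k * x) * b⁻¹ = (b * x⁻¹) * k * b⁻¹ * (b * x) * b⁻¹ := by group
      _ = (x⁻¹ * b) * k * b⁻¹ * (x * b) * b⁻¹ := by rw [hxb', hxb]
      _ = x⁻¹ * (b * k * b⁻¹) * x := by group
      _ = (x⁻¹ * k * x)⁻¹ := by rw [hbk]; group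
  have hcomm : h * k = k * h := by
    obtain ⟨w, hwV, hw1, hwk⟩ := hS (x⁻¹ * k * x) b hbV hk'o hbk'
    rcases hV4 w hwV with rfl | rfl | rfl | rfl
    · exact absurd rfl hw1
    · -- w = a
      have hax : w * x⁻¹ = x * w := by
        have : w * x⁻¹ = (w * x * w⁻¹)⁻¹ * w := by group
        rw [this, hxa]; group
      have hax' : w * x = x⁻¹ * w := by
        have : w * x = (w * x * w⁻¹) * w := by group
        rw [this, hxa]
      have e1 : w * (x⁻¹ * k * x) = x * k * x⁻¹ * w := by
        calc w * (x⁻¹ * k * x) = (w * x⁻¹) * k * x := by group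
          _ = x * (w * k) * x := by rw [hax]; group
          _ = x * k * (w * x) := by rw [hak]; group
          _ = x * k * x⁻¹ * w := by rw [hax']; group
      rw [e1] at hwk
      have e2 : x * k * x⁻¹ = x⁻¹ * k * x := mul_right_cancel hwk
      have e3 : (x * x) * k = k * (x * x) := by
        calc (x * x) * k = x * (x * k * x⁻¹) * x := by group
          _ = x * (x⁻¹ * k * x) * x := by rw [e2]
          _ = k * (x * x) := by group
      rw [hhx]
      have e4 : Commute (x * x) k := e3
      exact (e4.inv_left).eq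
    · -- w = b
      exfalso
      exact hk'1 (eq_one_of_comm_of_inv w _ hk'o hwk hbk')
    · -- w = a * b
      exfalso
      have hax : a * x⁻¹ = x * a := by
        have : a * x⁻¹ = (a * x * a⁻¹)⁻¹ * a := by group
        rw [this, hxa]; group
      have hax' : a * x = x⁻¹ * a := by
        have : a * x = (a * x * a⁻¹) * a := by group
        rw [this, hxa]
      have hxb' : b * x⁻¹ = x⁻¹ * b := by
        have : b * x⁻¹ = x⁻¹ * (x * b) * x⁻¹ := by group
        rw [this, ← hxb]; group
      have hbk2 : b * k = k⁻¹ * b := by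
        have : b * k = (b * k * b⁻¹) * b := by group
        rw [this, hbk]
      have e1 : a * b * (x⁻¹ * k * x) = x * k⁻¹ * x⁻¹ * (a * b) := by
        calc a * b * (x⁻¹ * k * x) = a * (b * x⁻¹) * k * x := by group
          _ = (a * x⁻¹) * (b * k) * x := by rw [hxb']; group
          _ = x * (a * k⁻¹) * (b * x) := by rw [hax, hbk2]; group
          _ = x * k⁻¹ * (a * x) * b := by
              have : a * k⁻¹ = k⁻¹ * a := by
                have : a * k⁻¹ = k⁻¹ * (k * a) * k⁻¹ := by group
                rw [this, ← hak]; group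
              rw [this, hxb]; group
          _ = x * k⁻¹ * x⁻¹ * (a * b) := by rw [hax']; group
      rw [e1] at hwk
      have e2 : x * k⁻¹ * x⁻¹ = x⁻¹ * k * x := mul_right_cancel hwk
      have e3 : h * k * h⁻¹ = k⁻¹ := by
        rw [hhx]
        calc (x * x)⁻¹ * k * (x * x)⁻¹⁻¹ = x⁻¹ * (x⁻¹ * k * x) * x := by simp [mul_assoc]
          _ = x⁻¹ * (x * k⁻¹ * x⁻¹) * x := by rw [e2]
          _ = k⁻¹ := by group
      have := sq_eq_one_of_odd_inverts h k n hn e3
      exact hk1 (eq_one_of_odd_of_sq k hko this)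
  -- the diagonal element
  have hzo : Odd (orderOf (h * k)) := by
    have hd : orderOf (h * k) ∣ orderOf h * orderOf k := by
      apply orderOf_dvd_of_pow_eq_one
      rw [(show Commute h k from hcomm).mul_pow, pow_mul, pow_orderOf_eq_one, one_pow, mul_comm,
        pow_mul, pow_orderOf_eq_one, one_pow, mul_one]
    have : Odd (orderOf h * orderOf k) := Odd.mul ⟨n, hn⟩ hko
    exact Odd.of_dvd_nat this hd
  have hak' : a * k⁻¹ = k⁻¹ * a := by
    have : a * k⁻¹ = k⁻¹ * (k * a) * k⁻¹ := by group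
    rw [this, ← hak]; group
  have hzinv : (a * b) * (h * k) * (a * b)⁻¹ = (h * k)⁻¹ := by
    calc (a * b) * (h * k) * (a * b)⁻¹ = a * (b * h) * k * b⁻¹ * a⁻¹ := by group
      _ = a * (h * b) * k * b⁻¹ * a⁻¹ := by rw [hbh]
      _ = (a * h * a⁻¹) * (a * (b * k * b⁻¹) * a⁻¹) := by group
      _ = h⁻¹ * (a * k⁻¹ * a⁻¹) := by rw [hah, hbk]
      _ = h⁻¹ * k⁻¹ := by rw [hak']; group
      _ = (h * k)⁻¹ := by rw [hcomm]; group
  obtain ⟨w, hwV, hw1, hwz⟩ := hS (h * k) (a * b) (V.mul_mem haV hbV) hzo hzinv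
  rcases hV4 w hwV with rfl | rfl | rfl | rfl
  · exact hw1 rfl
  · -- w = a
    have hah2 : w * h = h⁻¹ * w := by
      have : w * h = (w * h * w⁻¹) * w := by group
      rw [this, hah]
    have e1 : w * (h * k) = h⁻¹ * k * w := by
      calc w * (h * k) = (w * h) * k := by group
        _ = h⁻¹ * (w * k) := by rw [hah2]; group
        _ = h⁻¹ * k * w := by rw [hak]; group
    rw [e1] at hwz
    have e2 : h⁻¹ * k = h * k := mul_right_cancel hwz
    have e3 : h⁻¹ = h := mul_right_cancel e2
    apply hh1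
    apply eq_one_of_odd_of_sq h ⟨n, hn⟩
    calc h * h = h * h⁻¹ := by rw [e3]
      _ = 1 := by group
  · -- w = b
    have hbk2 : w * k = k⁻¹ * w := by
      have : w * k = (w * k * w⁻¹) * w := by group
      rw [this, hbk]
    have e1 : w * (h * k) = h * k⁻¹ * w := by
      calc w * (h * k) = (w * h) * k := by group
        _ = h * (w * k) := by rw [hbh]; group
        _ = h * k⁻¹ * w := by rw [hbk2]; group
    rw [e1] at hwz
    have e2 : h * k⁻¹ = h * k := mul_right_cancel hwz
    have e3 : k⁻¹ = k := mul_left_cancel e2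
    apply hk1
    apply eq_one_of_odd_of_sq k hko
    calc k * k = k * k⁻¹ := by rw [e3]
      _ = 1 := by group
  · -- w = a * b
    have hz1 : h * k = 1 := eq_one_of_comm_of_inv (a * b) _ hzo hwz hzinv
    have hk : k = h⁻¹ := by
      rw [eq_comm, inv_eq_iff_mul_eq_one]; exact hz1
    rw [hk] at hak
    have hc : a * h = h * a := by
      have : a * h = h * (a * h⁻¹) * h := by rw [hak]; group
      rw [this]; group
    exact hh1 (eq_one_of_comm_of_inv a h ⟨n, hn⟩ hc hah)

/-- Let G be a finite group and V a nontrivial elementary abelian 2-subgroup of G of order at most 4 such that, whenever an element of V inverts an element h of G of odd order, some nontrivial element of V commutes with h. Then V meets O₂(G) nontrivially. (The case of order at most 4 has a short argument from the Baer–Suzuki theorem.) -/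
theorem result {G : Type*} [Group G] [Finite G] (V : Subgroup G) (hV : Cfsg.IsElementaryAbelian 2 V) (hV1 : V ≠ ⊥) (hS : Cfsg.IsSidkiPair V) (h4 : Nat.card V ≤ 4) : V ⊓ Cfsg.pCore 2 G ≠ ⊥ := by
  intro hbot
  have hsq : ∀ v ∈ V, v * v = 1 := fun v hv => by rw [← sq]; exact hV.2 v hv
  have hcomm : ∀ v ∈ V, ∀ w ∈ V, v * w = w * v := by
    intro v hv w hw
    have := hV.1.is_comm.comm ⟨v, hv⟩ ⟨w, hw⟩
    exact congrArg Subtype.val this
  have hnotO : ∀ v ∈ V, v ≠ 1 → ∀ N : Subgroup G, N.Normal → IsPGroup 2 N → v ∉ N := by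
    intro v hv hv1 N hN hNp hvN
    have : v ∈ V ⊓ Cfsg.pCore 2 G :=
      ⟨hv, le_sSup (show N ∈ {N : Subgroup G | N.Normal ∧ IsPGroup 2 N} from ⟨hN, hNp⟩) hvN⟩
    rw [hbot, Subgroup.mem_bot] at this
    exact hv1 this
  have hord : ∀ v ∈ V, v ≠ 1 → orderOf v = 2 := by
    intro v hv hv1
    have : Fact (Nat.Prime 2) := ⟨Nat.prime_two⟩
    exact orderOf_eq_prime (by rw [sq]; exact hsq v hv) hv1
  have key : ∀ v ∈ V, v ≠ 1 → ∃ h : G, h ≠ 1 ∧ Odd (orderOf h) ∧ v * h * v⁻¹ = h⁻¹ ∧
      ∃ w ∈ V, w ≠ 1 ∧ w ≠ v ∧ w * h = h * w := by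
    intro v hv hv1
    obtain ⟨h, hh1, hho, hinv⟩ :=
      Cfsg.Agent.Helper21.involution_inverts_odd v (hord v hv hv1) (hnotO v hv hv1)
    obtain ⟨w, hwV, hw1, hwh⟩ := hS h v hv hho hinv
    refine ⟨h, hh1, hho, hinv, w, hwV, hw1, ?_, hwh⟩
    rintro rfl
    exact hh1 (eq_one_of_comm_of_inv w h hho hwh hinv)
  obtain ⟨a, haV, ha1⟩ : ∃ a ∈ V, a ≠ 1 := by
    by_contra hc
    apply hV1
    rw [eq_bot_iff]
    intro v hv
    rw [Subgroup.mem_bot]
    by_contra hv1
    exact hc ⟨v, hv, hv1⟩
  obtain ⟨h, hh1, hho, hah, b, hbV, hb1, hba, hbh⟩ := key a haV ha1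
  have hab1 : a * b ≠ 1 := by
    intro hc
    apply hba
    have : b = a⁻¹ := by rw [eq_comm, inv_eq_iff_mul_eq_one]; exact hc
    rw [this]; exact inv_eq_of_mul_eq_one_left (hsq a haV)
  have hV4 : ∀ w ∈ V, w = 1 ∨ w = a ∨ w = b ∨ w = a * b := by
    intro w hw
    by_contra hc
    have hw1 : w ≠ 1 := fun e => hc (Or.inl e)
    have hwa : w ≠ a := fun e => hc (Or.inr (Or.inl e))
    have hwb : w ≠ b := fun e => hc (Or.inr (Or.inr (Or.inl e)))
    have hwab : w ≠ a * b := fun e => hc (Or.inr (Or.inr (Or.inr e)))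
    have hbab : b ≠ a * b := by
      intro e
      have e' : 1 * b = a * b := by rw [one_mul]; exact e
      exact ha1 (mul_right_cancel e').symm
    have haab : a ≠ a * b := by
      intro e
      have e' : a * 1 = a * b := by rw [mul_one]; exact e
      exact hb1 (mul_left_cancel e').symm
    classical
    have h1 : ({w} : Finset G).card = 1 := Finset.card_singleton w
    have h2 : ({a * b, w} : Finset G).card = 2 := by
      rw [Finset.card_insert_of_notMem, h1]
      rw [Finset.mem_singleton]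
      exact fun e => hwab e.symm
    have h3 : ({b, a * b, w} : Finset G).card = 3 := by
      rw [Finset.card_insert_of_notMem, h2]
      rw [Finset.mem_insert, Finset.mem_singleton]
      rintro (e | e)
      · exact hbab e
      · exact hwb e.symm
    have h4' : ({a, b, a * b, w} : Finset G).card = 4 := by
      rw [Finset.card_insert_of_notMem, h3]
      rw [Finset.mem_insert, Finset.mem_insert, Finset.mem_singleton]
      rintro (e | e | e)
      · exact hba e.symm
      · exact haab e
      · exact hwa e.symm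
    have h5 : ({1, a, b, a * b, w} : Finset G).card = 5 := by
      rw [Finset.card_insert_of_notMem, h4']
      rw [Finset.mem_insert, Finset.mem_insert, Finset.mem_insert, Finset.mem_singleton]
      rintro (e | e | e | e)
      · exact ha1 e.symm
      · exact hb1 e.symm
      · exact hab1 e.symm
      · exact hw1 e.symm
    have hsub : ((({1, a, b, a * b, w} : Finset G) : Set G)) ⊆ (V : Set G) := by
      intro y hy
      rw [Finset.mem_coe, Finset.mem_insert, Finset.mem_insert, Finset.mem_insert,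
        Finset.mem_insert, Finset.mem_singleton] at hy
      rcases hy with rfl | rfl | rfl | rfl | rfl
      · exact V.one_mem
      · exact haV
      · exact hbV
      · exact V.mul_mem haV hbV
      · exact hw
    have hle := Set.ncard_le_ncard hsub (Set.toFinite _)
    rw [Set.ncard_coe_finset, h5] at hle
    have hVc : Nat.card ↥V = (V : Set G).ncard := Nat.card_coe_set_eq (V : Set G)
    omega
  obtain ⟨k, hk1, hko, hbk, c, hcV, hc1, hcb, hck⟩ := key b hbV hb1
  rcases hV4 c hcV with rfl | rfl | rfl | rfl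
  · exact hc1 rfl
  · exact core V hS c b haV hbV (hsq c haV) (hsq b hbV) (hcomm c haV b hbV) hV4 h k hh1 hho hk1
      hko hah hbh hbk hck
  · exact hcb rfl
  · have hV4' : ∀ w ∈ V, w = 1 ∨ w = a * b ∨ w = b ∨ w = a * b * b := by
      intro w hw
      rcases hV4 w hw with e | e | e | e
      · exact Or.inl e
      · right; right; right
        rw [e, mul_assoc, hsq b hbV, mul_one]
      · exact Or.inr (Or.inr (Or.inl e))
      · exact Or.inr (Or.inl e)
    have hah' : (a * b) * h * (a * b)⁻¹ = h⁻¹ := by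
      calc (a * b) * h * (a * b)⁻¹ = a * (b * h) * b⁻¹ * a⁻¹ := by group
        _ = a * (h * b) * b⁻¹ * a⁻¹ := by rw [hbh]
        _ = a * h * a⁻¹ := by group
        _ = h⁻¹ := hah
    exact core V hS (a * b) b hcV hbV (hsq _ hcV) (hsq b hbV) (hcomm _ hcV b hbV) hV4' h k hh1
      hho hk1 hko hah' hbh hbk hck

end Cfsg.Agent.S3011
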