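import Mathlib
import Cfsg.Statements.S3012

set_option autoImplicit false
open Cfsg

namespace Cfsg.Agent.S3012

/-- An element commuting with a power `x ^ n`, `n` coprime to the order of `x`, commutes with `x`. -/
theorem commute_of_pow {G : Type*} [Monoid G] {w x : G} {n : ℕ} (hn : n.Coprime (orderOf x))
    (h : w * x ^ n = x ^ n * w) : w * x = x * w := by
  obtain ⟨m, hm⟩ := exists_pow_eq_self_of_coprime hn
  have hc : Commute w (x ^ n) := h
  have := (hc.pow_right m).eq
  rw [hm] at this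
  exact this

/-- Let G be a finite group, V a nontrivial elementary abelian 2-subgroup of G satisfying the Sidki pair condition (every odd-order element inverted by an element of V commutes with a nontrivial element of V), and K a normal subgroup of G with V ∩ K = 1. Then the image of V in G/K satisfies the Sidki pair condition in G/K. -/
theorem result {G : Type*} [Group G] [Finite G] (V K : Subgroup G) [K.Normal] (hV : Cfsg.IsElementaryAbelian 2 V) (hV1 : V ≠ ⊥) (hS : Cfsg.IsSidkiPair V) (hVK : V ⊓ K = ⊥) : Cfsg.IsSidkiPair (V.map (QuotientGroup.mk' K)) := by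
  intro hbar vbar hvbar hodd hinv
  obtain ⟨v, hv, rfl⟩ := hvbar
  obtain ⟨h, rfl⟩ := QuotientGroup.mk'_surjective K hbar
  have hv2 : v * v = 1 := by
    have := hV.2 v hv
    rwa [pow_two] at this
  have hvinv : v⁻¹ = v := inv_eq_of_mul_eq_one_left hv2
  set u := h * (v * h * v⁻¹)⁻¹ with hu
  have huinv : v * u * v⁻¹ = u⁻¹ := by
    have e1 : v * u * v⁻¹ = v * h * v * h⁻¹ * (v * v)⁻¹ := by rw [hu]; group
    have e2 : u⁻¹ = v * h * v⁻¹ * h⁻¹ := by rw [hu]; group
    rw [e1, e2, hv2, hvinv]; group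
  have hn0 : orderOf u ≠ 0 := (orderOf_pos u).ne'
  obtain ⟨a, r, hr, hn⟩ := Nat.exists_eq_pow_mul_and_not_dvd hn0 2 (by norm_num)
  have hrodd : Odd r := Nat.not_even_iff_odd.mp (fun he => hr (even_iff_two_dvd.mp he))
  set u' := u ^ 2 ^ a with hu'
  have hu'odd : Odd (orderOf u') := by
    apply hrodd.of_dvd_nat
    apply orderOf_dvd_of_pow_eq_one
    rw [hu', ← pow_mul, ← hn, pow_orderOf_eq_one]
  have hu'inv : v * u' * v⁻¹ = u'⁻¹ := by
    rw [hu', ← conj_pow, huinv, inv_pow]
  obtain ⟨w, hw, hw1, hwu⟩ := hS u' v hv hu'odd hu'inv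
  refine ⟨QuotientGroup.mk' K w, ⟨w, hw, rfl⟩, ?_, ?_⟩
  · intro h1
    apply hw1
    have h2 : w ∈ K := (QuotientGroup.eq_one_iff w).mp h1
    have h3 : w ∈ V ⊓ K := Subgroup.mem_inf.mpr ⟨hw, h2⟩
    rw [hVK, Subgroup.mem_bot] at h3
    exact h3
  · -- image of u is h̄²
    have himg : QuotientGroup.mk' K u = (QuotientGroup.mk' K h) ^ 2 := by
      rw [hu, map_mul, map_inv, map_mul, map_mul, map_inv, hinv, inv_inv, pow_two]
    have himg' : QuotientGroup.mk' K u' = (QuotientGroup.mk' K h) ^ (2 ^ (a + 1)) := by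
      rw [hu', map_pow, himg, ← pow_mul, pow_succ']
    have hcomm : QuotientGroup.mk' K w * (QuotientGroup.mk' K h) ^ (2 ^ (a + 1)) =
        (QuotientGroup.mk' K h) ^ (2 ^ (a + 1)) * QuotientGroup.mk' K w := by
      rw [← himg', ← map_mul, ← map_mul, hwu]
    have hcop : (2 ^ (a + 1)).Coprime (orderOf (QuotientGroup.mk' K h)) := by
      apply Nat.Coprime.pow_left
      exact Nat.coprime_two_left.mpr hodd
    exact commute_of_pow hcop hcomm

end Cfsg.Agent.S3012
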