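import Mathlib
import Cfsg.Statements.S3013
import Cfsg.Agent.S3012

set_option autoImplicit false
open Cfsg

namespace Cfsg.Agent.S3013

open Cfsg.Agent.S3012

/-- Let G be a finite group and V a nontrivial elementary abelian 2-subgroup of G satisfying the Sidki pair condition. Let v ∈ V and let x be an element of odd order inverted by v, and put C = C_G(v) ∩ C_G(x), the centralizer of the dihedral subgroup generated by v and x. Then C ∩ V is nontrivial and satisfies the Sidki pair condition inside C: every odd-order element of C inverted by an element of C ∩ V commutes with a nontrivial element of C ∩ V. -/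
theorem result {G : Type*} [Group G] [Finite G] (V : Subgroup G) (hV : Cfsg.IsElementaryAbelian 2 V) (hV1 : V ≠ ⊥) (hS : Cfsg.IsSidkiPair V) (v x : G) (hv : v ∈ V) (hx : Odd (orderOf x)) (hinv : v * x * v⁻¹ = x⁻¹) (C : Subgroup G) (hC : C = Subgroup.centralizer ({v} : Set G) ⊓ Subgroup.centralizer ({x} : Set G)) : C ⊓ V ≠ ⊥ ∧ Cfsg.IsSidkiPair ((C ⊓ V).subgroupOf C) := by
  have hVc : ∀ a ∈ V, ∀ b ∈ V, a * b = b * a := by
    intro a ha b hb
    have := hV.1.is_comm.comm ⟨a, ha⟩ ⟨b, hb⟩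
    exact congrArg Subtype.val this
  have hCmem : ∀ c : G, c ∈ C ↔ (v * c = c * v ∧ x * c = c * x) := by
    intro c
    rw [hC, Subgroup.mem_inf, Subgroup.mem_centralizer_iff, Subgroup.mem_centralizer_iff]
    constructor
    · rintro ⟨h1, h2⟩
      exact ⟨h1 v rfl, h2 x rfl⟩
    · rintro ⟨h1, h2⟩
      refine ⟨?_, ?_⟩
      · intro y hy; rw [Set.mem_singleton_iff] at hy; rw [hy]; exact h1
      · intro y hy; rw [Set.mem_singleton_iff] at hy; rw [hy]; exact h2
  refine ⟨?_, ?_⟩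
  · obtain ⟨w, hw, hw1, hwx⟩ := hS x v hv hx hinv
    intro hbot
    apply hw1
    have : w ∈ C ⊓ V := Subgroup.mem_inf.mpr ⟨(hCmem w).mpr ⟨hVc v hv w hw, hwx.symm⟩, hw⟩
    rw [hbot, Subgroup.mem_bot] at this
    exact this
  · intro h u hu hodd hinv'
    rw [Subgroup.mem_subgroupOf] at hu
    have huV : (u : G) ∈ V := (Subgroup.mem_inf.mp hu).2
    obtain ⟨huv, hux⟩ := (hCmem (u : G)).mp u.2
    obtain ⟨hhv, hhx⟩ := (hCmem (h : G)).mp h.2
    have hodd' : Odd (orderOf (h : G)) := by rw [Subgroup.orderOf_coe]; exact hodd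
    have hinv'' : (u : G) * (h : G) * (u : G)⁻¹ = (h : G)⁻¹ := by
      have := congrArg Subtype.val hinv'
      simpa using this
    set h₀ := (h : G) with hh₀
    set u₀ := (u : G) with hu₀
    -- y = h₀ x
    have hcomm : Commute h₀ x := hhx.symm
    have hyodd : Odd (orderOf (h₀ * x)) := by
      apply (hodd'.mul hx).of_dvd_nat
      exact dvd_trans hcomm.orderOf_mul_dvd_lcm (Nat.lcm_dvd_mul _ _)
    have hyinv : (u₀ * v) * (h₀ * x) * (u₀ * v)⁻¹ = (h₀ * x)⁻¹ := by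
      have e1 : (u₀ * v) * (h₀ * x) * (u₀ * v)⁻¹ = u₀ * ((v * h₀) * (v⁻¹ * (v * x * v⁻¹))) * u₀⁻¹ := by
        group
      rw [e1, hinv, hhv]
      have e2 : u₀ * (h₀ * v * (v⁻¹ * x⁻¹)) * u₀⁻¹ = (u₀ * h₀ * u₀⁻¹) * (u₀ * x⁻¹ * u₀⁻¹) := by group
      rw [e2, hinv'']
      have e3 : u₀ * x⁻¹ * u₀⁻¹ = x⁻¹ := by
        have hc : Commute u₀ x := hux.symm
        rw [hc.inv_right.eq]; group
      rw [e3, mul_inv_rev, hcomm.inv_inv.eq]
    obtain ⟨w, hw, hw1, hwy⟩ := hS (h₀ * x) (u₀ * v) (V.mul_mem huV hv) hyodd hyinv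
    have hwu : w * u₀ = u₀ * w := hVc w hw u₀ huV
    have hwv : w * v = v * w := hVc w hw v hv
    -- w commutes with u₀ y u₀⁻¹ = h₀⁻¹ x
    have hwy' : w * (h₀⁻¹ * x) = (h₀⁻¹ * x) * w := by
      have e : h₀⁻¹ * x = u₀ * (h₀ * x) * u₀⁻¹ := by
        have e3 : u₀ * x * u₀⁻¹ = x := by
          have hc : Commute u₀ x := hux.symm
          rw [hc.eq]; group
        calc h₀⁻¹ * x = (u₀ * h₀ * u₀⁻¹) * (u₀ * x * u₀⁻¹) := by rw [hinv'', e3]
          _ = u₀ * (h₀ * x) * u₀⁻¹ := by group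
      rw [e]
      calc w * (u₀ * (h₀ * x) * u₀⁻¹) = (w * u₀) * (h₀ * x) * u₀⁻¹ := by group
        _ = u₀ * (w * (h₀ * x)) * u₀⁻¹ := by rw [hwu]; group
        _ = u₀ * ((h₀ * x) * w) * u₀⁻¹ := by rw [hwy]
        _ = u₀ * (h₀ * x) * (w * u₀⁻¹) := by group
        _ = u₀ * (h₀ * x) * (u₀⁻¹ * w) := by
            have hc : Commute w u₀ := hwu
            rw [hc.inv_right.eq]
        _ = u₀ * (h₀ * x) * u₀⁻¹ * w := by group
    have c1 : Commute w (h₀ * x) := hwy
    have c2 : Commute w (h₀⁻¹ * x) := hwy'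
    have hwh2 : w * h₀ ^ 2 = h₀ ^ 2 * w := by
      have e : h₀ ^ 2 = (h₀ * x) * (h₀⁻¹ * x)⁻¹ := by
        rw [mul_inv_rev, inv_inv, pow_two]; group
      rw [e]
      exact (c1.mul_right c2.inv_right).eq
    have hwx2 : w * x ^ 2 = x ^ 2 * w := by
      have e : x ^ 2 = (h₀⁻¹ * x) * (h₀ * x) := by
        rw [pow_two]
        calc x * x = h₀⁻¹ * (h₀ * x) * x := by group
          _ = h₀⁻¹ * (x * h₀) * x := by rw [hcomm.eq]
          _ = (h₀⁻¹ * x) * (h₀ * x) := by group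
      rw [e]
      exact (c2.mul_right c1).eq
    have hwh : w * h₀ = h₀ * w := commute_of_pow (Nat.coprime_two_left.mpr hodd') hwh2
    have hwx : w * x = x * w := commute_of_pow (Nat.coprime_two_left.mpr hx) hwx2
    have hwC : w ∈ C := (hCmem w).mpr ⟨hwv.symm, hwx.symm⟩
    refine ⟨⟨w, hwC⟩, ?_, ?_, ?_⟩
    · rw [Subgroup.mem_subgroupOf]
      exact Subgroup.mem_inf.mpr ⟨hwC, hw⟩
    · intro h1
      apply hw1
      exact congrArg Subtype.val h1
    · apply Subtype.ext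
      exact hwh

end Cfsg.Agent.S3013
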