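import Mathlib
import Cfsg.Statements.S3027

set_option autoImplicit false
open scoped Pointwise
open Cfsg

namespace Cfsg.Agent.S3027

open scoped commutatorElement

theorem commutator_sup_le {G : Type*} [Group G] (D : Subgroup G) [D.Normal] (X Y : Subgroup G) :
    ⁅X ⊔ D, Y ⊔ D⁆ ≤ ⁅X, Y⁆ ⊔ D := by
  have h : (⁅X ⊔ D, Y ⊔ D⁆).map (QuotientGroup.mk' D) = (⁅X, Y⁆).map (QuotientGroup.mk' D) := by
    rw [Subgroup.map_commutator, Subgroup.map_commutator, Subgroup.map_sup, Subgroup.map_sup,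
      QuotientGroup.map_mk'_self, sup_bot_eq, sup_bot_eq]
  calc ⁅X ⊔ D, Y ⊔ D⁆
      ≤ ((⁅X ⊔ D, Y ⊔ D⁆).map (QuotientGroup.mk' D)).comap (QuotientGroup.mk' D) :=
        Subgroup.le_comap_map _ _
    _ = ((⁅X, Y⁆).map (QuotientGroup.mk' D)).comap (QuotientGroup.mk' D) := by rw [h]
    _ = ⁅X, Y⁆ ⊔ D := by rw [Subgroup.comap_map_eq, QuotientGroup.ker_mk']

theorem nc {G : Type*} [Group G] (D : Subgroup G) [D.Normal]
    (hperf : ⁅(⊤ : Subgroup G), (⊤ : Subgroup G)⁆ ⊔ D = ⊤) (X Y : Subgroup G)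
    (hX : X ⊔ D = ⊤) (hY : Y ⊔ D = ⊤) (hXY : X ≤ Subgroup.normalizer (Y : Set G))
    (hYX : Y ≤ Subgroup.normalizer (X : Set G)) : (X ⊓ Y) ⊔ D = ⊤ := by
  have h1 : ⁅X, Y⁆ ≤ X ⊓ Y := by
    rw [Subgroup.commutator_le]
    intro x hx y hy
    refine Subgroup.mem_inf.mpr ⟨?_, ?_⟩
    · have : ⁅x, y⁆ = x * (y * x⁻¹ * y⁻¹) := by rw [commutatorElement_def]; group
      rw [this]
      exact X.mul_mem hx ((Subgroup.mem_normalizer_iff.mp (hYX hy) x⁻¹).mp (X.inv_mem hx))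
    · have : ⁅x, y⁆ = (x * y * x⁻¹) * y⁻¹ := by rw [commutatorElement_def]
      rw [this]
      exact Y.mul_mem ((Subgroup.mem_normalizer_iff.mp (hXY hx) y).mp hy) (Y.inv_mem hy)
  have h2 := commutator_sup_le D X Y
  rw [hX, hY] at h2
  apply top_le_iff.mp
  calc (⊤ : Subgroup G) = ⁅(⊤ : Subgroup G), (⊤ : Subgroup G)⁆ ⊔ D := hperf.symm
    _ ≤ (⁅X, Y⁆ ⊔ D) ⊔ D := sup_le_sup_right h2 D
    _ = ⁅X, Y⁆ ⊔ D := by rw [sup_assoc, sup_idem]
    _ ≤ (X ⊓ Y) ⊔ D := sup_le_sup_right h1 D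

theorem normalizer_inf_le {G : Type*} [Group G] (K B : Subgroup G) :
    Subgroup.normalizer (K : Set G) ⊓ Subgroup.normalizer (B : Set G) ≤
      Subgroup.normalizer ((K ⊓ B : Subgroup G) : Set G) := by
  intro x hx
  obtain ⟨h1, h2⟩ := Subgroup.mem_inf.mp hx
  rw [Subgroup.mem_normalizer_iff] at h1 h2 ⊢
  intro n
  rw [Subgroup.mem_inf, Subgroup.mem_inf, h1 n, h2 n]

theorem inter_good {G : Type*} [Group G] (D : Subgroup G) [D.Normal]
    (hperf : ⁅(⊤ : Subgroup G), (⊤ : Subgroup G)⁆ ⊔ D = ⊤) :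
    ∀ B₁ : Subgroup G, B₁.IsSubnormal → B₁ ⊔ D = ⊤ →
      ∀ B₂ : Subgroup G, B₂.IsSubnormal → B₂ ⊔ D = ⊤ → (B₁ ⊓ B₂) ⊔ D = ⊤ := by
  intro B₁ h₁
  induction h₁ with
  | top =>
    intro _ B₂ _ h
    rwa [top_inf_eq]
  | step B₁ K hle hK hN ih =>
    intro hB₁
    have hKgood : K ⊔ D = ⊤ := top_le_iff.mp (hB₁ ▸ sup_le_sup_right hle D)
    have ihK := ih hKgood
    have hn1 : K ≤ Subgroup.normalizer (B₁ : Set G) :=
      (Subgroup.normal_subgroupOf_iff_le_normalizer hle).mp hN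
    intro B₂ h₂
    induction h₂ with
    | top =>
      intro _
      rwa [inf_top_eq]
    | step B₂ K₂ hle₂ hK₂ hN₂ ih₂ =>
      intro hB₂
      have hK₂good : K₂ ⊔ D = ⊤ := top_le_iff.mp (hB₂ ▸ sup_le_sup_right hle₂ D)
      have e1 : (B₁ ⊓ K₂) ⊔ D = ⊤ := ih₂ hK₂good
      have e2 : (K ⊓ B₂) ⊔ D = ⊤ :=
        ihK B₂ (Subgroup.IsSubnormal.step _ _ hle₂ hK₂ hN₂) hB₂
      have hn2 : K₂ ≤ Subgroup.normalizer (B₂ : Set G) :=
        (Subgroup.normal_subgroupOf_iff_le_normalizer hle₂).mp hN₂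
      have hA : B₁ ⊓ K₂ ≤ Subgroup.normalizer ((K ⊓ B₂ : Subgroup G) : Set G) := by
        refine le_trans ?_ (normalizer_inf_le K B₂)
        exact le_inf (inf_le_left.trans (hle.trans Subgroup.le_normalizer))
          (inf_le_right.trans hn2)
      have hB : K ⊓ B₂ ≤ Subgroup.normalizer ((B₁ ⊓ K₂ : Subgroup G) : Set G) := by
        refine le_trans ?_ (normalizer_inf_le B₁ K₂)
        exact le_inf (inf_le_left.trans hn1)
          (inf_le_right.trans (hle₂.trans Subgroup.le_normalizer))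
      have h := nc D hperf (B₁ ⊓ K₂) (K ⊓ B₂) e1 e2 hA hB
      have e : (B₁ ⊓ K₂) ⊓ (K ⊓ B₂) = B₁ ⊓ B₂ := by
        apply le_antisymm
        · exact le_inf (inf_le_left.trans inf_le_left) (inf_le_right.trans inf_le_right)
        · exact le_inf (le_inf inf_le_left (inf_le_right.trans hle₂))
            (le_inf (inf_le_left.trans hle) inf_le_right)
      rwa [e] at h

theorem sInf_good {G : Type*} [Group G] [Finite G] (D : Subgroup G) [D.Normal]
    (hperf : ⁅(⊤ : Subgroup G), (⊤ : Subgroup G)⁆ ⊔ D = ⊤) (t : Set (Subgroup G))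
    (ht : ∀ B ∈ t, B.IsSubnormal ∧ B ⊔ D = ⊤) :
    (sInf t).IsSubnormal ∧ sInf t ⊔ D = ⊤ := by
  have hfin : t.Finite := Set.toFinite t
  induction t, hfin using Set.Finite.induction_on with
  | empty =>
    rw [sInf_empty]
    exact ⟨Subgroup.IsSubnormal.top, top_sup_eq D⟩
  | insert ha hs ih =>
    rename_i a s
    rw [sInf_insert]
    have h1 := ht a (Set.mem_insert a s)
    have h2 := ih (fun B hB => ht B (Set.mem_insert_of_mem a hB))
    exact ⟨h1.1.inf h2.1, inter_good D hperf a h1.1 h1.2 _ h2.1 h2.2⟩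

/-- Let G be a finite group and D a normal subgroup of G such that G/D is perfect (that is, G = G′D). Then among the subnormal subgroups B of G with BD = G there is a least one, and it is normal in G. -/
theorem result {G : Type*} [Group G] [Finite G] (D : Subgroup G) [D.Normal] (hperf : ⁅(⊤ : Subgroup G), (⊤ : Subgroup G)⁆ ⊔ D = ⊤) :
    ∃ B : Subgroup G, B.Normal ∧ B ⊔ D = ⊤ ∧ ∀ B' : Subgroup G, B'.IsSubnormal → B' ⊔ D = ⊤ → B ≤ B' := by
  obtain ⟨hsub, hgood⟩ := sInf_good D hperf {B : Subgroup G | B.IsSubnormal ∧ B ⊔ D = ⊤}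
    (fun B hB => hB)
  refine ⟨sInf {B : Subgroup G | B.IsSubnormal ∧ B ⊔ D = ⊤}, ?_, hgood,
    fun B' h1 h2 => sInf_le ⟨h1, h2⟩⟩
  constructor
  intro b hb g
  rw [Subgroup.mem_sInf]
  rintro B' ⟨hB'1, hB'2⟩
  have hconj : (MulAut.conj g⁻¹ • B').IsSubnormal ∧ (MulAut.conj g⁻¹ • B') ⊔ D = ⊤ := by
    refine ⟨hB'1.smul _, ?_⟩
    rw [eq_top_iff]
    intro x _
    have hx : g * x * g⁻¹ ∈ ((B' ⊔ D : Subgroup G) : Set G) := by rw [hB'2]; trivial
    rw [Subgroup.mul_normal] at hx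
    obtain ⟨b', hb', d, hd, hbd⟩ := Set.mem_mul.mp hx
    have hx' : x = (g⁻¹ * b' * g) * (g⁻¹ * d * g) := by
      have : g⁻¹ * (b' * d) * g = x := by rw [hbd]; group
      rw [← this]; group
    rw [hx']
    refine Subgroup.mul_mem_sup ?_ ?_
    · rw [Subgroup.mem_pointwise_smul_iff_inv_smul_mem]
      simpa [MulAut.smul_def, mul_assoc] using hb'
    · have := ‹D.Normal›.conj_mem d hd g⁻¹
      simpa using this
  have hb' := (Subgroup.mem_sInf.mp hb) _ hconj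
  rw [Subgroup.mem_pointwise_smul_iff_inv_smul_mem] at hb'
  simpa [MulAut.smul_def] using hb'

end Cfsg.Agent.S3027
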