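import Mathlib
import Cfsg.Statements.S3061
import Cfsg.Agent.S0015

set_option autoImplicit false
open Cfsg

namespace Cfsg.Agent.S3061

/-- If the commutators of a generating set lie in a subgroup `W` that is centralized by the
generated subgroup, then the whole commutator subgroup lies in `W`. -/
theorem comm_closure_le {S : Type*} [Group S] {s : Set S} {W : Subgroup S}
    (hcent : ∀ w ∈ W, ∀ k ∈ Subgroup.closure s, w * k = k * w)
    (hs : ∀ a ∈ s, ∀ b ∈ s, a * b * a⁻¹ * b⁻¹ ∈ W) :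
    ⁅Subgroup.closure s, Subgroup.closure s⁆ ≤ W := by
  have step1 : ∀ g ∈ Subgroup.closure s, ∀ b ∈ s, g * b * g⁻¹ * b⁻¹ ∈ W := by
    intro g hg
    induction hg using Subgroup.closure_induction with
    | mem x hx => exact fun b hb => hs x hx b hb
    | one => intro b _; simp
    | mul x y hx hy ihx ihy =>
      intro b hb
      have h1 := hcent _ (ihy b hb) x hx
      have h2 : x * y * b * (x * y)⁻¹ * b⁻¹ = x * (y * b * y⁻¹ * b⁻¹) * x⁻¹ * (x * b * x⁻¹ * b⁻¹) := by
        group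
      rw [h2, ← h1]
      have h3 : y * b * y⁻¹ * b⁻¹ * x * x⁻¹ * (x * b * x⁻¹ * b⁻¹)
          = (y * b * y⁻¹ * b⁻¹) * (x * b * x⁻¹ * b⁻¹) := by group
      rw [h3]
      exact W.mul_mem (ihy b hb) (ihx b hb)
    | inv x hx ihx =>
      intro b hb
      have h1 := hcent _ (ihx b hb) x hx
      have h2 : x⁻¹ * b * x⁻¹⁻¹ * b⁻¹ = x⁻¹ * (x * b * x⁻¹ * b⁻¹)⁻¹ * x := by group
      rw [h2]
      have h3 : x⁻¹ * (x * b * x⁻¹ * b⁻¹)⁻¹ * x = (x * b * x⁻¹ * b⁻¹)⁻¹ := by
        have h4 : (x * b * x⁻¹ * b⁻¹)⁻¹ * x = x * (x * b * x⁻¹ * b⁻¹)⁻¹ := by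
          calc (x * b * x⁻¹ * b⁻¹)⁻¹ * x
              = (x * b * x⁻¹ * b⁻¹)⁻¹ * (x * (x * b * x⁻¹ * b⁻¹)) * (x * b * x⁻¹ * b⁻¹)⁻¹ := by group
            _ = (x * b * x⁻¹ * b⁻¹)⁻¹ * (x * b * x⁻¹ * b⁻¹ * x) * (x * b * x⁻¹ * b⁻¹)⁻¹ := by
                rw [h1]
            _ = x * (x * b * x⁻¹ * b⁻¹)⁻¹ := by group
        rw [mul_assoc, h4]; group
      rw [h3]
      exact W.inv_mem (ihx b hb)
  rw [Subgroup.commutator_le]
  intro g hg h hh
  rw [commutatorElement_def]
  induction hh using Subgroup.closure_induction with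
  | mem x hx => exact step1 g hg x hx
  | one => simp
  | mul x y hx hy ihx ihy =>
    have h1 := hcent _ ihy x hx
    have h2 : g * (x * y) * g⁻¹ * (x * y)⁻¹ = (g * x * g⁻¹ * x⁻¹) * (x * (g * y * g⁻¹ * y⁻¹) * x⁻¹) := by
      group
    rw [h2]
    have h3 : x * (g * y * g⁻¹ * y⁻¹) * x⁻¹ = g * y * g⁻¹ * y⁻¹ := by
      rw [← h1]; group
    rw [h3]
    exact W.mul_mem ihx ihy
  | inv x hx ihx =>
    have h1 := hcent _ ihx x hx
    have h2 : g * x⁻¹ * g⁻¹ * x⁻¹⁻¹ = x⁻¹ * (g * x * g⁻¹ * x⁻¹)⁻¹ * x := by group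
    rw [h2]
    have h3 : x⁻¹ * (g * x * g⁻¹ * x⁻¹)⁻¹ * x = (g * x * g⁻¹ * x⁻¹)⁻¹ := by
      have h4 : (g * x * g⁻¹ * x⁻¹)⁻¹ * x = x * (g * x * g⁻¹ * x⁻¹)⁻¹ := by
        calc (g * x * g⁻¹ * x⁻¹)⁻¹ * x
            = (g * x * g⁻¹ * x⁻¹)⁻¹ * (x * (g * x * g⁻¹ * x⁻¹)) * (g * x * g⁻¹ * x⁻¹)⁻¹ := by group
          _ = (g * x * g⁻¹ * x⁻¹)⁻¹ * (g * x * g⁻¹ * x⁻¹ * x) * (g * x * g⁻¹ * x⁻¹)⁻¹ := by
              rw [h1]
          _ = x * (g * x * g⁻¹ * x⁻¹)⁻¹ := by group
      rw [mul_assoc, h4]; group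
    rw [h3]
    exact W.inv_mem ihx

/-- Criterion for `⟨A, x⟩` to have class at most two. -/
theorem class_two_of_gens {S : Type*} [Group S] (A : Subgroup S) (x : S) (W : Subgroup S)
    (hAc : ∀ a ∈ A, ∀ b ∈ A, a * b = b * a)
    (hW : ∀ a ∈ A, a * x * a⁻¹ * x⁻¹ ∈ W)
    (hWA : ∀ w ∈ W, ∀ a ∈ A, w * a = a * w) (hWx : ∀ w ∈ W, w * x = x * w) :
    ⁅⁅A ⊔ Subgroup.zpowers x, A ⊔ Subgroup.zpowers x⁆, A ⊔ Subgroup.zpowers x⁆ = ⊥ := by
  have hK : A ⊔ Subgroup.zpowers x = Subgroup.closure ((A : Set S) ∪ {x}) := by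
    rw [Subgroup.closure_union, Subgroup.closure_eq, Subgroup.zpowers_eq_closure]
  have hcent : ∀ w ∈ W, ∀ k ∈ Subgroup.closure ((A : Set S) ∪ {x}), w * k = k * w := by
    intro w hw k hk
    have hle : Subgroup.closure ((A : Set S) ∪ {x}) ≤ Subgroup.centralizer ({w} : Set S) := by
      rw [Subgroup.closure_le]
      rintro y (hy | hy)
      · rw [SetLike.mem_coe, Subgroup.mem_centralizer_iff]
        intro z hz
        rw [Set.mem_singleton_iff] at hz
        rw [hz]; exact hWA w hw y hy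
      · rw [Set.mem_singleton_iff] at hy
        rw [SetLike.mem_coe, Subgroup.mem_centralizer_iff]
        intro z hz
        rw [Set.mem_singleton_iff] at hz
        rw [hz, hy]; exact hWx w hw
    exact Subgroup.mem_centralizer_iff.mp (hle hk) w rfl
  have h1 : ⁅Subgroup.closure ((A : Set S) ∪ {x}), Subgroup.closure ((A : Set S) ∪ {x})⁆ ≤ W := by
    apply comm_closure_le hcent
    rintro a (ha | ha) b (hb | hb)
    · rw [hAc a ha b hb]; simp
    · rw [Set.mem_singleton_iff] at hb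
      rw [hb]; exact hW a ha
    · rw [Set.mem_singleton_iff] at ha
      rw [ha]
      have : x * b * x⁻¹ * b⁻¹ = (b * x * b⁻¹ * x⁻¹)⁻¹ := by group
      rw [this]; exact W.inv_mem (hW b hb)
    · rw [Set.mem_singleton_iff] at ha hb
      rw [ha, hb]; simp
  rw [hK, Subgroup.commutator_eq_bot_iff_le_centralizer]
  intro w hw
  rw [Subgroup.mem_centralizer_iff]
  intro k hk
  exact (hcent w (h1 hw) k hk).symm

/-- A member of the `D*` family centralizes every abelian normal subgroup. -/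
theorem dfam_centralizes {S : Type*} [Group S] [Group.IsNilpotent S] (A : Subgroup S)
    (hA : A ∈ Cfsg.dStarFamily S) (B : Subgroup S) [B.Normal]
    (hBc : ∀ a ∈ B, ∀ b ∈ B, a * b = b * a) : ∀ a ∈ A, ∀ b ∈ B, a * b = b * a := by
  have hAc : ∀ a ∈ A, ∀ b ∈ A, a * b = b * a := by
    intro a ha b hb
    have := hA.1.is_comm.comm ⟨a, ha⟩ ⟨b, hb⟩
    exact congrArg Subtype.val this
  have key : ∀ n : ℕ, ∀ b ∈ B ⊓ Subgroup.upperCentralSeries S n, ∀ a ∈ A, a * b = b * a := by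
    intro n
    induction n with
    | zero =>
      intro b hb a _
      have := (Subgroup.mem_inf.mp hb).2
      rw [Subgroup.upperCentralSeries_zero, Subgroup.mem_bot] at this
      rw [this]; simp
    | succ n ih =>
      intro b hb
      obtain ⟨hbB, hbZ⟩ := Subgroup.mem_inf.mp hb
      rw [Subgroup.mem_upperCentralSeries_succ_iff] at hbZ
      apply hA.2 b
      apply class_two_of_gens A b (B ⊓ Subgroup.upperCentralSeries S n) hAc
      · intro a ha
        refine Subgroup.mem_inf.mpr ⟨?_, ?_⟩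
        · exact B.mul_mem ((inferInstance : B.Normal).conj_mem b hbB a) (B.inv_mem hbB)
        · have h1 := hbZ a
          rw [commutatorElement_def] at h1
          have h2 : a * b * a⁻¹ * b⁻¹ = (b * a * b⁻¹ * a⁻¹)⁻¹ := by group
          rw [h2]
          exact Subgroup.inv_mem _ h1
      · intro w hw a ha
        exact (ih w hw a ha).symm
      · intro w hw
        exact hBc w (Subgroup.mem_inf.mp hw).1 b hbB
  obtain ⟨n, hn⟩ := Group.IsNilpotent.nilpotent S
  intro a ha b hb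
  apply key n b _ a ha
  rw [hn]
  exact Subgroup.mem_inf.mpr ⟨hb, Subgroup.mem_top b⟩

/-- Existence of maximal normal abelian subgroups. -/
theorem exists_maxNormalAbelian (S : Type*) [Group S] [Finite S] :
    ∃ B : Subgroup S, B.Normal ∧ IsMulCommutative B ∧
      ∀ M : Subgroup S, M.Normal → IsMulCommutative M → B ≤ M → M = B := by
  have h0 : (fun M : Subgroup S => M.Normal ∧ IsMulCommutative M) ⊥ :=
    ⟨inferInstance, Subgroup.le_centralizer_iff_isMulCommutative.mp bot_le⟩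
  obtain ⟨B, _, hB⟩ := Finite.exists_le_maximal
    (p := fun M : Subgroup S => M.Normal ∧ IsMulCommutative M) (a := ⊥) h0
  refine ⟨B, hB.1.1, hB.1.2, ?_⟩
  intro M hM1 hM2 hBM
  exact le_antisymm (hB.2 ⟨hM1, hM2⟩ hBM) hBM

/-- Every member of the `D*` family lies in every maximal normal abelian subgroup. -/
theorem dfam_le_maxNormalAbelian {S : Type*} [Group S] [Finite S] [Group.IsNilpotent S]
    (A : Subgroup S) (hA : A ∈ Cfsg.dStarFamily S) (B : Subgroup S) (hBn : B.Normal)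
    (hBc : IsMulCommutative B)
    (hmax : ∀ M : Subgroup S, M.Normal → IsMulCommutative M → B ≤ M → M = B) : A ≤ B := by
  have hBc' : ∀ a ∈ B, ∀ b ∈ B, a * b = b * a := by
    intro a ha b hb
    have := hBc.is_comm.comm ⟨a, ha⟩ ⟨b, hb⟩
    exact congrArg Subtype.val this
  have h1 := dfam_centralizes A hA B hBc'
  have h2 : Subgroup.centralizer (B : Set S) = B := Cfsg.Agent.S0015.result B hmax
  intro a ha
  rw [← h2, Subgroup.mem_centralizer_iff]
  intro b hb
  exact (h1 a ha b hb).symm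

theorem dStar_le_maxNormalAbelian {S : Type*} [Group S] [Finite S] [Group.IsNilpotent S]
    (B : Subgroup S) (hBn : B.Normal) (hBc : IsMulCommutative B)
    (hmax : ∀ M : Subgroup S, M.Normal → IsMulCommutative M → B ≤ M → M = B) :
    Cfsg.dStar S ≤ B :=
  sSup_le (fun A hA => dfam_le_maxNormalAbelian A hA B hBn hBc hmax)

theorem dStar_mem {S : Type*} [Group S] [Finite S] [Group.IsNilpotent S] :
    Cfsg.dStar S ∈ Cfsg.dStarFamily S := by
  obtain ⟨B, hBn, hBc, hmax⟩ := exists_maxNormalAbelian S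
  have hle := dStar_le_maxNormalAbelian B hBn hBc hmax
  refine ⟨⟨⟨?_⟩⟩, ?_⟩
  · rintro ⟨a, ha⟩ ⟨b, hb⟩
    apply Subtype.ext
    have := hBc.is_comm.comm ⟨a, hle ha⟩ ⟨b, hle hb⟩
    show a * b = b * a
    exact congrArg Subtype.val this
  · intro x hx
    have hle2 : Cfsg.dStar S ≤ Subgroup.centralizer ({x} : Set S) := by
      apply sSup_le
      intro A hA a ha
      rw [Subgroup.mem_centralizer_iff]
      intro y hy
      rw [Set.mem_singleton_iff] at hy
      rw [hy]
      refine (hA.2 x ?_ a ha).symm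
      have hAle : A ⊔ Subgroup.zpowers x ≤ Cfsg.dStar S ⊔ Subgroup.zpowers x :=
        sup_le_sup_right (le_sSup hA) _
      rw [eq_bot_iff, ← hx]
      exact Subgroup.commutator_mono (Subgroup.commutator_mono hAle hAle) hAle
    intro a ha
    exact (Subgroup.mem_centralizer_iff.mp (hle2 ha) x rfl).symm

/-- Let S be a finite p-group. Then D*(S) itself belongs to the family that generates it: D*(S) is abelian, and every x ∈ S with ⟨D*(S), x⟩ of class at most two centralizes D*(S). Hence D*(S) is the unique maximal member of that family. -/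
theorem result {S : Type*} [Group S] [Finite S] {p : ℕ} [Fact p.Prime] (hS : IsPGroup p S) :
    Cfsg.dStar S ∈ Cfsg.dStarFamily S := by
  have : Group.IsNilpotent S := hS.isNilpotent
  exact dStar_mem

end Cfsg.Agent.S3061
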