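import Mathlib
import Cfsg.Statements.S3075

set_option autoImplicit false
open Cfsg

namespace Cfsg.Agent.S3075

open Matrix in
/-- The central involution of `SL₂(F)`. -/
def zmat (F : Type*) [Field F] : Matrix.SpecialLinearGroup (Fin 2) F :=
  ⟨!![-1, 0; 0, -1], by simp [Matrix.det_fin_two]⟩

open Matrix in
def umat (F : Type*) [Field F] : Matrix.SpecialLinearGroup (Fin 2) F :=
  ⟨!![1, 1; 0, 1], by simp [Matrix.det_fin_two]⟩

open Matrix in
def lmat (F : Type*) [Field F] : Matrix.SpecialLinearGroup (Fin 2) F :=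
  ⟨!![1, 0; 1, 1], by simp [Matrix.det_fin_two]⟩

theorem zmat_mul_self (F : Type*) [Field F] : zmat F * zmat F = 1 := by
  ext i j
  rw [Matrix.SpecialLinearGroup.coe_mul]
  fin_cases i <;> fin_cases j <;>
    simp [zmat, Matrix.mul_apply, Fin.sum_univ_two]

theorem zmat_comm (F : Type*) [Field F] (m : Matrix.SpecialLinearGroup (Fin 2) F) :
    zmat F * m = m * zmat F := by
  ext i j
  rw [Matrix.SpecialLinearGroup.coe_mul, Matrix.SpecialLinearGroup.coe_mul]
  fin_cases i <;> fin_cases j <;>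
    simp [zmat, Matrix.mul_apply, Fin.sum_univ_two]

theorem zmat_ne_one (F : Type*) [Field F] (h2 : (2 : F) ≠ 0) : zmat F ≠ 1 := by
  intro h
  have h1 := congrArg (fun m : Matrix.SpecialLinearGroup (Fin 2) F =>
    (m : Matrix (Fin 2) (Fin 2) F) 0 0) h
  simp [zmat] at h1
  apply h2
  have : (2 : F) = 1 + 1 := by norm_num
  rw [this]
  linear_combination -h1

theorem umat_lmat (F : Type*) [Field F] : umat F * lmat F ≠ lmat F * umat F := by
  intro h
  have h1 := congrArg (fun m : Matrix.SpecialLinearGroup (Fin 2) F =>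
    (m : Matrix (Fin 2) (Fin 2) F) 0 0) h
  simp only [Matrix.SpecialLinearGroup.coe_mul] at h1
  simp [umat, lmat, Matrix.mul_apply, Fin.sum_univ_two] at h1

/-- A normal subgroup of prime order: commutators act trivially on it. -/
theorem comm_act_trivial {N : Type*} [Group N] {p : ℕ} (hp : p.Prime) (W : Subgroup N)
    (hW : Nat.card W = p) (hn : ∀ g : N, ∀ a ∈ W, g * a * g⁻¹ ∈ W) (g h : N) (a : N) (ha : a ∈ W) :
    (g * h) * a * (g * h)⁻¹ = (h * g) * a * (h * g)⁻¹ := by
  have hfin : Finite W := Nat.finite_of_card_ne_zero (by rw [hW]; exact hp.ne_zero)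
  have hne : W ≠ ⊥ := by
    intro hb
    rw [hb, Subgroup.card_bot] at hW
    exact hp.ne_one hW.symm
  obtain ⟨⟨w, hw⟩, hw1'⟩ := (Subgroup.ne_bot_iff_exists_ne_one).mp hne
  have hw1 : w ≠ 1 := fun h => hw1' (Subtype.ext h)
  have hZ : Subgroup.zpowers w = W := by
    have hle : Subgroup.zpowers w ≤ W := by rw [Subgroup.zpowers_le]; exact hw
    have hdvd := Subgroup.card_dvd_of_le hle
    rw [hW] at hdvd
    rcases (Nat.dvd_prime hp).mp hdvd with h1 | h1
    · exfalso
      have := Subgroup.card_eq_one.mp h1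
      have hmem : w ∈ Subgroup.zpowers w := Subgroup.mem_zpowers w
      rw [this, Subgroup.mem_bot] at hmem
      exact hw1 hmem
    · exact Subgroup.eq_of_le_of_card_ge hle (by rw [hW, h1])
  have hgw := hn g w hw
  have hhw := hn h w hw
  rw [← hZ] at hgw hhw ha
  obtain ⟨i, hi⟩ := Subgroup.mem_zpowers_iff.mp hgw
  obtain ⟨j, hj⟩ := Subgroup.mem_zpowers_iff.mp hhw
  obtain ⟨k, rfl⟩ := Subgroup.mem_zpowers_iff.mp ha
  have e1 : (g * h) * w ^ k * (g * h)⁻¹ = (g * (h * w * h⁻¹) * g⁻¹) ^ k := by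
    rw [← conj_zpow]; group
  have e2 : (h * g) * w ^ k * (h * g)⁻¹ = (h * (g * w * g⁻¹) * h⁻¹) ^ k := by
    rw [← conj_zpow]; group
  have e3 : g * (h * w * h⁻¹) * g⁻¹ = w ^ (i * j) := by
    rw [← hj, ← conj_zpow, ← hi, ← zpow_mul]
  have e4 : h * (g * w * g⁻¹) * h⁻¹ = w ^ (i * j) := by
    rw [← hi, ← conj_zpow, ← hj, ← zpow_mul, mul_comm]
  rw [e1, e2, e3, e4]

/-- Let p be an odd prime and N a finite group with a normal elementary abelian subgroup A of order p² that is its own centralizer in N, such that N/A is isomorphic to SL₂(p) (over any field F with p elements). Then N splits over A: some subgroup U of N satisfies A ∩ U = 1 and AU = N. -/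
theorem result {N : Type*} [Group N] [Finite N] {p : ℕ} [Fact p.Prime] (hp : p ≠ 2)
    (A : Subgroup N) [A.Normal] (hAcomm : IsMulCommutative A) (hAcard : Nat.card A = p ^ 2) (hAexp : Monoid.exponent ↥A = p)
    (hAself : Subgroup.centralizer (A : Set N) = A)
    {F : Type*} [Field F] [Fintype F] (hF : Fintype.card F = p) (e : N ⧸ A ≃* Matrix.SpecialLinearGroup (Fin 2) F) :
    ∃ U : Subgroup N, A ⊓ U = ⊥ ∧ A ⊔ U = ⊤ := by
  have hpp : p.Prime := Fact.out
  have hAn : A.Normal := inferInstance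
  obtain ⟨k, hk⟩ : ∃ k, p = 2 * k + 1 := by
    rcases hpp.eq_two_or_odd with h | h
    · exact absurd h hp
    · exact ⟨p / 2, by omega⟩
  -- 2 ≠ 0 in F
  have h2F : (2 : F) ≠ 0 := by
    intro h2
    have h1 : ((Fintype.card F : ℕ) : F) = 0 := Nat.cast_card_eq_zero F
    rw [hF, hk] at h1
    push_cast at h1
    rw [h2, zero_mul, zero_add] at h1
    exact one_ne_zero h1
  -- commutativity of A
  have hcomm : ∀ a ∈ A, ∀ b ∈ A, a * b = b * a := by
    intro a ha b hb
    have := hAcomm.is_comm.comm ⟨a, ha⟩ ⟨b, hb⟩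
    exact congrArg Subtype.val this
  have hexp : ∀ a ∈ A, a ^ p = 1 := by
    intro a ha
    have := Monoid.pow_exponent_eq_one (⟨a, ha⟩ : ↥A)
    rw [hAexp] at this
    exact congrArg Subtype.val this
  -- the element t
  obtain ⟨t, ht⟩ := QuotientGroup.mk_surjective (e.symm (zmat F))
  have hmk : ∀ g : N, (QuotientGroup.mk g : N ⧸ A) = 1 ↔ g ∈ A := fun g => QuotientGroup.eq_one_iff g
  have ht2 : t * t ∈ A := by
    rw [← hmk, QuotientGroup.mk_mul, ht, ← map_mul, zmat_mul_self, map_one]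
  have htA : t ∉ A := by
    intro h
    rw [← hmk, ht] at h
    have : zmat F = 1 := by
      have := congrArg e h
      simpa using this
    exact zmat_ne_one F h2F this
  have hcent : ∀ g : N, g * t * g⁻¹ * t⁻¹ ∈ A := by
    intro g
    rw [← hmk]
    apply e.injective
    simp only [QuotientGroup.mk_mul, QuotientGroup.mk_inv, map_mul, map_inv, map_one, ht,
      MulEquiv.apply_symm_apply]
    rw [← zmat_comm, mul_assoc (zmat F), mul_inv_cancel, mul_one, mul_inv_cancel]
  have hnorm : ∀ g : N, ∀ a ∈ A, g * a * g⁻¹ ∈ A := fun g a ha => hAn.conj_mem a ha g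
  -- τ is an involution on A
  have hτA : ∀ a ∈ A, t * a * t⁻¹ ∈ A := hnorm t
  have hττ : ∀ a ∈ A, t * (t * a * t⁻¹) * t⁻¹ = a := by
    intro a ha
    have h1 := hcomm (t * t) ht2 a ha
    calc t * (t * a * t⁻¹) * t⁻¹ = (t * t * a) * (t * t)⁻¹ := by group
      _ = (a * (t * t)) * (t * t)⁻¹ := by rw [h1]
      _ = a := by group
  -- conjugation commutes with τ on A
  have hgτ : ∀ g : N, ∀ a ∈ A, t * (g * a * g⁻¹) * t⁻¹ = g * (t * a * t⁻¹) * g⁻¹ := by
    intro g a ha
    obtain ⟨b, hb⟩ : ∃ b, b = g⁻¹ * t * g⁻¹⁻¹ * t⁻¹ := ⟨_, rfl⟩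
    have hbA : b ∈ A := by rw [hb]; exact hcent g⁻¹
    have h1 : g⁻¹ * t = b * t * g⁻¹ := by rw [hb]; group
    have h2 := hcomm b hbA (t * a * t⁻¹) (hτA a ha)
    have h3 : g⁻¹ * (t * (g * a * g⁻¹) * t⁻¹) * g = b * (t * a * t⁻¹) * b⁻¹ := by
      calc g⁻¹ * (t * (g * a * g⁻¹) * t⁻¹) * g
          = (g⁻¹ * t) * (g * a * g⁻¹) * (g⁻¹ * t)⁻¹ := by group
        _ = (b * t * g⁻¹) * (g * a * g⁻¹) * (b * t * g⁻¹)⁻¹ := by rw [h1]
        _ = b * (t * a * t⁻¹) * b⁻¹ := by group
    have h4 : b * (t * a * t⁻¹) * b⁻¹ = t * a * t⁻¹ := by rw [h2]; group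
    rw [h4] at h3
    calc t * (g * a * g⁻¹) * t⁻¹ = g * (g⁻¹ * (t * (g * a * g⁻¹) * t⁻¹) * g) * g⁻¹ := by group
      _ = g * (t * a * t⁻¹) * g⁻¹ := by rw [h3]
  -- the fixed points W
  obtain ⟨W, hWdef⟩ : ∃ W : Subgroup N, W = A ⊓ Subgroup.centralizer ({t} : Set N) := ⟨_, rfl⟩
  have hWmem : ∀ a : N, a ∈ W ↔ a ∈ A ∧ t * a * t⁻¹ = a := by
    intro a
    rw [hWdef, Subgroup.mem_inf, Subgroup.mem_centralizer_iff]
    constructor
    · rintro ⟨ha, hc⟩
      refine ⟨ha, ?_⟩
      have := hc t rfl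
      rw [this]; group
    · rintro ⟨ha, hc⟩
      refine ⟨ha, ?_⟩
      intro y hy
      rw [Set.mem_singleton_iff.mp hy]
      calc t * a = (t * a * t⁻¹) * t := by group
        _ = a * t := by rw [hc]
  have hWA : W ≤ A := fun a ha => ((hWmem a).mp ha).1
  have hφ : ∀ a ∈ A, a * (t * a * t⁻¹) ∈ W := by
    intro a ha
    rw [hWmem]
    refine ⟨Subgroup.mul_mem _ ha (hτA a ha), ?_⟩
    have h1 : t * (a * (t * a * t⁻¹)) * t⁻¹ = (t * a * t⁻¹) * (t * (t * a * t⁻¹) * t⁻¹) := by group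
    rw [h1, hττ a ha]
    exact hcomm _ (hτA a ha) a ha
  -- the inverted points
  let Am : Subgroup N :=
    { carrier := {a | a ∈ A ∧ t * a * t⁻¹ = a⁻¹}
      one_mem' := ⟨Subgroup.one_mem _, by group⟩
      mul_mem' := by
        rintro a b ⟨ha, hat⟩ ⟨hb, hbt⟩
        refine ⟨Subgroup.mul_mem _ ha hb, ?_⟩
        have h1 : t * (a * b) * t⁻¹ = (t * a * t⁻¹) * (t * b * t⁻¹) := by group
        rw [h1, hat, hbt, mul_inv_rev]
        exact hcomm _ (Subgroup.inv_mem _ ha) _ (Subgroup.inv_mem _ hb)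
      inv_mem' := by
        rintro a ⟨ha, hat⟩
        refine ⟨Subgroup.inv_mem _ ha, ?_⟩
        have h1 : t * a⁻¹ * t⁻¹ = (t * a * t⁻¹)⁻¹ := by group
        rw [h1, hat] }
  have hAmmem : ∀ a : N, a ∈ Am ↔ a ∈ A ∧ t * a * t⁻¹ = a⁻¹ := fun a => Iff.rfl
  have hAmA : Am ≤ A := fun a ha => ((hAmmem a).mp ha).1
  -- odd order
  have hsq : ∀ a ∈ A, a * a = 1 → a = 1 := by
    intro a ha haa
    have h1 := hexp a ha
    rw [hk, pow_succ, pow_mul, pow_two, haa, one_pow, one_mul] at h1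
    exact h1
  have hWAm : ∀ a, a ∈ W → a ∈ Am → a = 1 := by
    intro a haW haAm
    obtain ⟨ha, h1⟩ := (hWmem a).mp haW
    obtain ⟨_, h2⟩ := (hAmmem a).mp haAm
    apply hsq a ha
    have : a = a⁻¹ := h1.symm.trans h2
    calc a * a = a * a⁻¹ := by rw [← this]
      _ = 1 := by group
  -- W is trivial
  have hW1 : W = ⊥ := by
    by_contra hWne
    have hWneA : W ≠ A := by
      intro hWA'
      apply htA
      rw [← hAself, Subgroup.mem_centralizer_iff]
      intro a ha
      rw [← hWA'] at ha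
      have := ((hWmem a).mp ha).2
      calc a * t = (t * a * t⁻¹) * t := by rw [this]
        _ = t * a := by group
    have hcardOf : ∀ B : Subgroup N, B ≤ A → B ≠ ⊥ → B ≠ A → Nat.card B = p := by
      intro B hBA hB1 hBA'
      have hdvd := Subgroup.card_dvd_of_le hBA
      rw [hAcard] at hdvd
      obtain ⟨i, hi2, hi⟩ := (Nat.dvd_prime_pow hpp).mp hdvd
      interval_cases i
      · exfalso
        rw [pow_zero] at hi
        exact hB1 (Subgroup.card_eq_one.mp hi)
      · rw [hi, pow_one]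
      · exfalso
        exact hBA' (Subgroup.eq_of_le_of_card_ge hBA (by rw [hi, hAcard]))
    have hWcard : Nat.card W = p := hcardOf W hWA hWne hWneA
    have hAm1 : Am ≠ ⊥ := by
      intro hAm
      -- then a ↦ a * τ a is injective A → W
      have hinj : Function.Injective (fun a : ↥A => (⟨(a : N) * (t * (a : N) * t⁻¹), hφ a a.2⟩ : ↥W)) := by
        intro a b hab
        have hab' : (a : N) * (t * (a : N) * t⁻¹) = (b : N) * (t * (b : N) * t⁻¹) :=
          congrArg Subtype.val hab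
        have hmem : (a : N) * (b : N)⁻¹ ∈ Am := by
          rw [hAmmem]
          refine ⟨Subgroup.mul_mem _ a.2 (Subgroup.inv_mem _ b.2), ?_⟩
          have h1 : t * ((a : N) * (b : N)⁻¹) * t⁻¹ = (t * (a : N) * t⁻¹) * (t * (b : N) * t⁻¹)⁻¹ := by
            group
          have h2 : t * (a : N) * t⁻¹ = (a : N)⁻¹ * ((b : N) * (t * (b : N) * t⁻¹)) := by
            rw [← hab']; group
          rw [h1, h2]
          have h3 := hcomm _ (Subgroup.inv_mem _ a.2) _ b.2
          calc (a : N)⁻¹ * ((b : N) * (t * (b : N) * t⁻¹)) * (t * (b : N) * t⁻¹)⁻¹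
              = (a : N)⁻¹ * (b : N) := by group
            _ = (b : N) * (a : N)⁻¹ := h3
            _ = ((a : N) * (b : N)⁻¹)⁻¹ := by group
        rw [hAm, Subgroup.mem_bot] at hmem
        apply Subtype.ext
        calc (a : N) = ((a : N) * (b : N)⁻¹) * (b : N) := by group
          _ = (b : N) := by rw [hmem, one_mul]
      have hle := Nat.card_le_card_of_injective _ hinj
      rw [hAcard, hWcard] at hle
      have : p < p ^ 2 := by
        have h2 : 2 ≤ p := hpp.two_le
        nlinarith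
      omega
    have hAmneA : Am ≠ A := by
      intro hAmA'
      apply hWne
      rw [eq_bot_iff]
      intro a ha
      rw [Subgroup.mem_bot]
      exact hWAm a ha (by rw [hAmA']; exact hWA ha)
    have hAmcard : Nat.card Am = p := hcardOf Am hAmA hAm1 hAmneA
    have hWn : ∀ g : N, ∀ a ∈ W, g * a * g⁻¹ ∈ W := by
      intro g a ha
      obtain ⟨haA, hat⟩ := (hWmem a).mp ha
      rw [hWmem]
      refine ⟨hnorm g a haA, ?_⟩
      rw [hgτ g a haA, hat]
    have hAmn : ∀ g : N, ∀ a ∈ Am, g * a * g⁻¹ ∈ Am := by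
      intro g a ha
      obtain ⟨haA, hat⟩ := (hAmmem a).mp ha
      rw [hAmmem]
      refine ⟨hnorm g a haA, ?_⟩
      rw [hgτ g a haA, hat]; group
    -- N / A is commutative
    have hab : ∀ g h : N, (h * g)⁻¹ * (g * h) ∈ A := by
      intro g h
      rw [← hAself, Subgroup.mem_centralizer_iff]
      intro a ha
      -- c commutes with elements of W and Am
      have hc : ∀ B : Subgroup N, Nat.card B = p → (∀ g : N, ∀ a ∈ B, g * a * g⁻¹ ∈ B) →
          ∀ b ∈ B, b * ((h * g)⁻¹ * (g * h)) = (h * g)⁻¹ * (g * h) * b := by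
        intro B hB hBn b hb
        have h1 := comm_act_trivial hpp B hB hBn g h b hb
        calc b * ((h * g)⁻¹ * (g * h))
            = (h * g)⁻¹ * ((h * g) * b * (h * g)⁻¹) * (g * h) := by group
          _ = (h * g)⁻¹ * ((g * h) * b * (g * h)⁻¹) * (g * h) := by rw [h1]
          _ = (h * g)⁻¹ * (g * h) * b := by group
      obtain ⟨c, hcdef⟩ : ∃ c, c = (h * g)⁻¹ * (g * h) := ⟨_, rfl⟩
      rw [← hcdef] at hc ⊢
      have h1 := hc W hWcard hWn _ (hφ a ha)
      have hψ : a * (t * a * t⁻¹)⁻¹ ∈ Am := by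
        rw [hAmmem]
        refine ⟨Subgroup.mul_mem _ ha (Subgroup.inv_mem _ (hτA a ha)), ?_⟩
        have e1 : t * (a * (t * a * t⁻¹)⁻¹) * t⁻¹ = (t * a * t⁻¹) * (t * (t * a * t⁻¹) * t⁻¹)⁻¹ := by
          group
        rw [e1, hττ a ha]
        group
      have h2 := hc Am hAmcard hAmn _ hψ
      -- a * a = φ a * ψ a
      have haa : a * a = (a * (t * a * t⁻¹)) * (a * (t * a * t⁻¹)⁻¹) := by
        have := hcomm _ (hτA a ha) a ha
        calc a * a = a * (a * (t * a * t⁻¹)) * (t * a * t⁻¹)⁻¹ := by group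
          _ = a * ((t * a * t⁻¹) * a) * (t * a * t⁻¹)⁻¹ := by rw [this]
          _ = (a * (t * a * t⁻¹)) * (a * (t * a * t⁻¹)⁻¹) := by group
      have h3 : (a * a) * c = c * (a * a) := by
        rw [haa, mul_assoc, h2, ← mul_assoc, h1, mul_assoc]
      -- a = (a*a)^(k+1)
      have h4 : a = (a * a) ^ (k + 1) := by
        have h5 := hexp a ha
        rw [← pow_two, ← pow_mul]
        have : 2 * (k + 1) = p + 1 := by omega
        rw [this, pow_succ, h5, one_mul]
      have h6 : Commute (a * a) c := h3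
      have h7 : Commute ((a * a) ^ (k + 1)) c := h6.pow_left _
      rw [← h4] at h7
      exact h7.eq
    apply umat_lmat F
    obtain ⟨g, hg⟩ := QuotientGroup.mk_surjective (e.symm (umat F))
    obtain ⟨h, hh⟩ := QuotientGroup.mk_surjective (e.symm (lmat F))
    have h1 := hab g h
    rw [← hmk] at h1
    have h2 : (QuotientGroup.mk (g * h) : N ⧸ A) = QuotientGroup.mk (h * g) := by
      have : (QuotientGroup.mk ((h * g)⁻¹ * (g * h)) : N ⧸ A) =
          (QuotientGroup.mk (h * g) : N ⧸ A)⁻¹ * QuotientGroup.mk (g * h) := by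
        simp
      rw [this] at h1
      exact (inv_mul_eq_one.mp h1).symm
    rw [QuotientGroup.mk_mul, QuotientGroup.mk_mul, hg, hh, ← map_mul, ← map_mul] at h2
    exact e.symm.injective h2
  -- t inverts A
  have hinv : ∀ a ∈ A, t * a * t⁻¹ = a⁻¹ := by
    intro a ha
    have h1 := hφ a ha
    rw [hW1, Subgroup.mem_bot] at h1
    exact eq_inv_of_mul_eq_one_right h1
  refine ⟨Subgroup.centralizer ({t} : Set N), ?_, ?_⟩
  · rw [← hWdef]; exact hW1
  · rw [eq_top_iff]
    intro g _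
    obtain ⟨b, hb⟩ : ∃ b, b = g * t * g⁻¹ * t⁻¹ := ⟨_, rfl⟩
    have hbA : b ∈ A := by rw [hb]; exact hcent g
    obtain ⟨a, ha⟩ : ∃ a, a = b ^ k := ⟨_, rfl⟩
    have haA : a ∈ A := by rw [ha]; exact Subgroup.pow_mem _ hbA _
    have hbaa : b * a * a = 1 := by
      have := hexp b hbA
      rw [ha, mul_assoc, ← pow_add, ← pow_succ', ← two_mul, ← hk]
      exact this
    have hag : a * g ∈ Subgroup.centralizer ({t} : Set N) := by
      rw [Subgroup.mem_centralizer_iff]
      intro y hy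
      rw [Set.mem_singleton_iff.mp hy]
      have h1 : g * t * g⁻¹ = b * t := by rw [hb]; group
      have h2 : t * a⁻¹ * t⁻¹ = a := by
        rw [hinv a⁻¹ (Subgroup.inv_mem _ haA), inv_inv]
      have h3 : a * b = b * a := hcomm a haA b hbA
      have h4 : (a * g) * t * (a * g)⁻¹ = t := by
        calc (a * g) * t * (a * g)⁻¹ = a * (g * t * g⁻¹) * a⁻¹ := by group
          _ = a * (b * t) * a⁻¹ := by rw [h1]
          _ = (a * b) * (t * a⁻¹ * t⁻¹) * t := by group
          _ = (b * a) * a * t := by rw [h2, h3]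
          _ = t := by rw [hbaa, one_mul]
      calc t * (a * g) = ((a * g) * t * (a * g)⁻¹) * (a * g) := by rw [h4]
        _ = a * g * t := by group
    have : g = a⁻¹ * (a * g) := by group
    rw [this]
    exact Subgroup.mul_mem _ (Subgroup.mem_sup_left (Subgroup.inv_mem _ haA))
      (Subgroup.mem_sup_right hag)

end Cfsg.Agent.S3075
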