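import Cfsg.Statements.S3076
-- import your own Cfsg.Agent.* helpers here
import Cfsg.Agent.S0010
import Cfsg.Agent.Helper10.PComp

set_option autoImplicit false
open Cfsg

namespace Cfsg.Agent.S3076

open scoped Pointwise

section internal

variable {X : Type*} [Group X] [Finite X] {p : ℕ} [Fact p.Prime]

theorem card_mul_relIndex' (A B : Subgroup X) (h : A ≤ B) :
    Nat.card A * A.relIndex B = Nat.card B := by
  have h1 := Subgroup.relIndex_mul_relIndex ⊥ A B bot_le h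
  rwa [Subgroup.relIndex_bot_left, Subgroup.relIndex_bot_left] at h1

theorem relIndex_of_normal (Q N : Subgroup X) [N.Normal] :
    Q.relIndex (Q ⊔ N) = Q.relIndex N := by
  have h1 := card_mul_relIndex' Q (Q ⊔ N) le_sup_left
  have h2 := card_mul_relIndex' N (Q ⊔ N) le_sup_right
  rw [Subgroup.relIndex_sup_right] at h2
  have h3 := card_mul_relIndex' (Q ⊓ N) Q inf_le_left
  rw [Subgroup.inf_relIndex_left] at h3
  have h4 := card_mul_relIndex' (Q ⊓ N) N inf_le_right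
  rw [Subgroup.inf_relIndex_right] at h4
  have hq : 0 < Nat.card Q := Nat.card_pos
  apply Nat.eq_of_mul_eq_mul_left hq
  calc Nat.card Q * Q.relIndex (Q ⊔ N) = Nat.card (Q ⊔ N : Subgroup X) := h1
    _ = Nat.card N * N.relIndex Q := h2.symm
    _ = Nat.card (Q ⊓ N : Subgroup X) * Q.relIndex N * N.relIndex Q := by rw [h4]
    _ = Nat.card (Q ⊓ N : Subgroup X) * N.relIndex Q * Q.relIndex N := by ring
    _ = Nat.card Q * Q.relIndex N := by rw [h3]

theorem pPrimeCore_comm (Hh : Subgroup X) (hHn : Hh.Normal) (hHp : IsPGroup p Hh) :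
    ∀ k ∈ pPrimeCore p X, ∀ h ∈ Hh, h * k = k * h := by
  intro k hk h hh
  have hcomm : h * k * h⁻¹ * k⁻¹ ∈ Hh ⊓ pPrimeCore p X := by
    constructor
    · have h1 : k * h⁻¹ * k⁻¹ ∈ Hh := hHn.conj_mem _ (Hh.inv_mem hh) k
      have e : h * k * h⁻¹ * k⁻¹ = h * (k * h⁻¹ * k⁻¹) := by group
      rw [e]; exact Hh.mul_mem hh h1
    · have h1 : h * k * h⁻¹ ∈ pPrimeCore p X :=
        (inferInstance : (pPrimeCore p X).Normal).conj_mem _ hk h
      exact (pPrimeCore p X).mul_mem h1 ((pPrimeCore p X).inv_mem hk)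
  have hbot : Hh ⊓ pPrimeCore p X = ⊥ := by
    apply Subgroup.inf_eq_bot_of_coprime
    obtain ⟨n, hn⟩ := IsPGroup.iff_card.mp hHp
    rw [hn]
    exact Nat.Coprime.pow_left n (Cfsg.Agent.Helper10.pPrimeCore_coprime p X).symm
  rw [hbot, Subgroup.mem_bot] at hcomm
  calc h * k = (h * k * h⁻¹ * k⁻¹) * (k * h) := by group
    _ = k * h := by rw [hcomm, one_mul]

theorem cent_le_sup (Hh Cc : Subgroup X) [hCn : Cc.Normal] (hHp : IsPGroup p Hh)
    (hCc : ∀ x, x ∈ Cc ↔ ∀ h ∈ Hh, h * x = x * h)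
    (hZ : ¬ p ∣ (Hh ⊓ Cc).relIndex Cc) : Cc ≤ Hh ⊔ pPrimeCore p X := by
  have hZp : IsPGroup p ↥((Hh ⊓ Cc).subgroupOf Cc) :=
    (hHp.to_le inf_le_left).comap_of_injective Cc.subtype Cc.subtype_injective
  obtain ⟨Ps, hPs⟩ : ∃ Ps : Sylow p ↥Cc, (Ps : Subgroup ↥Cc) = (Hh ⊓ Cc).subgroupOf Cc :=
    ⟨hZp.toSylow hZ, IsPGroup.toSylow_coe hZp hZ⟩
  have hcen : Subgroup.normalizer ((Ps : Subgroup ↥Cc) : Set ↥Cc) ≤
      Subgroup.centralizer ((Ps : Subgroup ↥Cc) : Set ↥Cc) := by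
    intro c _
    rw [Subgroup.mem_centralizer_iff]
    intro z hz
    have hz' : z ∈ (Ps : Subgroup ↥Cc) := hz
    rw [hPs, Subgroup.mem_subgroupOf] at hz'
    apply Subtype.ext
    show (z : X) * (c : X) = (c : X) * (z : X)
    exact (hCc c.1).mp c.2 z.1 hz'.1
  have hcompl := MonoidHom.ker_transferSylow_isComplement' Ps hcen
  have hcop : ¬ p ∣ Nat.card (MonoidHom.transferSylow Ps hcen).ker :=
    MonoidHom.not_dvd_card_ker_transferSylow Ps hcen
  have hp := (Fact.out : p.Prime)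
  have h1 : (MonoidHom.transferSylow Ps hcen).ker.map Cc.subtype ≤ pPrimeCore p X := by
    apply Cfsg.Agent.Helper10.subnormal_coprime_le_pPrimeCore
    · refine Subgroup.IsSubnormal.step _ Cc (Subgroup.map_subtype_le _) hCn.isSubnormal ?_
      show (((MonoidHom.transferSylow Ps hcen).ker.map Cc.subtype).comap Cc.subtype).Normal
      rw [Subgroup.comap_map_eq_self_of_injective Cc.subtype_injective]
      infer_instance
    · rw [Subgroup.card_map_of_injective Cc.subtype_injective]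
      exact ((Nat.Prime.coprime_iff_not_dvd hp).mpr hcop).symm
  have h2 : (Ps : Subgroup ↥Cc).map Cc.subtype ≤ Hh := by
    rintro _ ⟨z, hz, rfl⟩
    have hz' : z ∈ (Ps : Subgroup ↥Cc) := hz
    rw [hPs, Subgroup.mem_subgroupOf] at hz'
    exact hz'.1
  intro c hc
  have htop : (⟨c, hc⟩ : ↥Cc) ∈ (MonoidHom.transferSylow Ps hcen).ker ⊔ (Ps : Subgroup ↥Cc) := by
    rw [hcompl.sup_eq_top]; trivial
  have hmap : c ∈ ((MonoidHom.transferSylow Ps hcen).ker ⊔ (Ps : Subgroup ↥Cc)).map Cc.subtype :=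
    ⟨⟨c, hc⟩, htop, rfl⟩
  rw [Subgroup.map_sup] at hmap
  exact (sup_le (h1.trans le_sup_right) (h2.trans le_sup_left)) hmap

/-- `O_{p',p}(X) ≤ N` whenever `O_{p'}(X) ≤ C`. -/
theorem ppcore_le (Cc : Subgroup X) [hCn : Cc.Normal] (hF3 : pPrimeCore p X ≤ Cc) :
    pPrimePCore p X ≤ (pCore p (X ⧸ Cc)).comap (QuotientGroup.mk' Cc) := by
  rw [← Subgroup.map_le_iff_le_comap]
  have hRn : (pPrimePCore p X).Normal :=
    (inferInstance : (pCore p (X ⧸ pPrimeCore p X)).Normal).comap _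
  apply Cfsg.Agent.S0010.le_pCore p _ (hRn.map _ (QuotientGroup.mk'_surjective Cc))
  rintro ⟨y, x, hx, rfl⟩
  have hx' : QuotientGroup.mk' (pPrimeCore p X) x ∈ pCore p (X ⧸ pPrimeCore p X) := hx
  obtain ⟨k, hk⟩ := (Cfsg.Agent.S0010.pCore_isPGroup p) ⟨_, hx'⟩
  have hk' : (QuotientGroup.mk' (pPrimeCore p X) x) ^ p ^ k = 1 :=
    congrArg Subtype.val hk
  rw [← map_pow] at hk'
  have hmem : x ^ p ^ k ∈ Cc := hF3 ((QuotientGroup.eq_one_iff _).mp hk')
  refine ⟨k, Subtype.ext ?_⟩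
  show (QuotientGroup.mk' Cc x) ^ p ^ k = 1
  rw [← map_pow]
  exact (QuotientGroup.eq_one_iff _).mpr hmem

/-- `N ≤ O_{p',p}(X)` whenever `C ≤ H O_{p'}(X)`. -/
theorem le_ppcore (Hh Cc : Subgroup X) [hCn : Cc.Normal] (hHp : IsPGroup p Hh)
    (hC : Cc ≤ Hh ⊔ pPrimeCore p X) :
    (pCore p (X ⧸ Cc)).comap (QuotientGroup.mk' Cc) ≤ pPrimePCore p X := by
  show _ ≤ (pCore p (X ⧸ pPrimeCore p X)).comap (QuotientGroup.mk' (pPrimeCore p X))
  rw [← Subgroup.map_le_iff_le_comap]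
  have hNn : ((pCore p (X ⧸ Cc)).comap (QuotientGroup.mk' Cc)).Normal :=
    (inferInstance : (pCore p (X ⧸ Cc)).Normal).comap _
  apply Cfsg.Agent.S0010.le_pCore p _ (hNn.map _ (QuotientGroup.mk'_surjective _))
  rintro ⟨y, x, hx, rfl⟩
  have hx' : QuotientGroup.mk' Cc x ∈ pCore p (X ⧸ Cc) := hx
  obtain ⟨k, hk⟩ := (Cfsg.Agent.S0010.pCore_isPGroup p) ⟨_, hx'⟩
  have hk' : (QuotientGroup.mk' Cc x) ^ p ^ k = 1 := congrArg Subtype.val hk
  rw [← map_pow] at hk'
  have hmem : x ^ p ^ k ∈ Hh ⊔ pPrimeCore p X := hC ((QuotientGroup.eq_one_iff _).mp hk')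
  have hmem' : x ^ p ^ k ∈ ((Hh : Set X) * (pPrimeCore p X : Set X)) := by
    rw [← Subgroup.mul_normal]; exact hmem
  obtain ⟨h, hh, k', hk'mem, e⟩ := Set.mem_mul.mp hmem'
  have e2 : QuotientGroup.mk' (pPrimeCore p X) (x ^ p ^ k) = QuotientGroup.mk' (pPrimeCore p X) h := by
    rw [← e, map_mul]
    have : QuotientGroup.mk' (pPrimeCore p X) k' = 1 := (QuotientGroup.eq_one_iff _).mpr hk'mem
    rw [this, mul_one]
  obtain ⟨j, hj⟩ := hHp ⟨h, hh⟩
  have hj' : h ^ p ^ j = 1 := congrArg Subtype.val hj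
  refine ⟨k + j, Subtype.ext ?_⟩
  show (QuotientGroup.mk' (pPrimeCore p X) x) ^ p ^ (k + j) = 1
  rw [pow_add, pow_mul, ← map_pow, e2, ← map_pow, hj', map_one]

theorem dvd_pow_coprime_eq_one {a b k : ℕ} (hp : p.Prime) (h1 : a ∣ p ^ k) (h2 : a ∣ b)
    (h3 : ¬ p ∣ b) : a = 1 := by
  obtain ⟨j, -, hj2⟩ := (Nat.dvd_prime_pow hp).mp h1
  have hj0 : j = 0 := by
    by_contra hne
    exact h3 ((dvd_pow_self p hne).trans (hj2 ▸ h2))
  rw [hj0, pow_zero] at hj2
  exact hj2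

theorem internal (Hh Cc Qq : Subgroup X) [hCn : Cc.Normal] (hHn : Hh.Normal) (hHQ : Hh ≤ Qq)
    (hQp : IsPGroup p Qq) (hQi : ¬ p ∣ Qq.index)
    (hCc : ∀ x, x ∈ Cc ↔ ∀ h ∈ Hh, h * x = x * h) :
    (Hh ≤ (pCore p (X ⧸ Cc)).comap (QuotientGroup.mk' Cc) ∧
      ¬ p ∣ Hh.relIndex ((pCore p (X ⧸ Cc)).comap (QuotientGroup.mk' Cc))) ↔
    (Qq ⊓ Cc ≤ Hh ∧ pPrimePCore p X = Hh ⊔ Cc) := by
  have hp := (Fact.out : p.Prime)
  have hHp : IsPGroup p Hh := hQp.to_le hHQ
  haveI := hHn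
  have hF0 : Cc ≤ (pCore p (X ⧸ Cc)).comap (QuotientGroup.mk' Cc) := by
    intro x hx
    show QuotientGroup.mk' Cc x ∈ pCore p (X ⧸ Cc)
    have : QuotientGroup.mk' Cc x = 1 := (QuotientGroup.eq_one_iff x).mpr hx
    rw [this]; exact Subgroup.one_mem _
  have hF1 : Hh ≤ (pCore p (X ⧸ Cc)).comap (QuotientGroup.mk' Cc) := by
    rw [← Subgroup.map_le_iff_le_comap]
    exact Cfsg.Agent.S0010.le_pCore p _ (hHn.map _ (QuotientGroup.mk'_surjective Cc)) (hHp.map _)
  have hF3 : pPrimeCore p X ≤ Cc := fun k hk =>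
    (hCc k).mpr (fun h hh => pPrimeCore_comm Hh hHn hHp k hk h hh)
  obtain ⟨kN, hkN⟩ : ∃ k, Cc.relIndex ((pCore p (X ⧸ Cc)).comap (QuotientGroup.mk' Cc)) = p ^ k := by
    have h1 := Subgroup.relIndex_comap (H := (⊥ : Subgroup (X ⧸ Cc))) (f := QuotientGroup.mk' Cc)
      (K := (pCore p (X ⧸ Cc)).comap (QuotientGroup.mk' Cc))
    rw [Subgroup.relIndex_bot_left,
      Subgroup.map_comap_eq_self_of_surjective (QuotientGroup.mk'_surjective Cc),
      MonoidHom.comap_bot, QuotientGroup.ker_mk'] at h1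
    rw [h1]
    exact IsPGroup.iff_card.mp (Cfsg.Agent.S0010.pCore_isPGroup p)
  have hsupN : Hh ⊔ Cc ≤ (pCore p (X ⧸ Cc)).comap (QuotientGroup.mk' Cc) := sup_le hF1 hF0
  have e1 : Hh.relIndex (Hh ⊔ Cc) = Hh.relIndex Cc := Subgroup.relIndex_sup_left Cc Hh
  constructor
  · rintro ⟨-, hidx⟩
    have ha : Qq ⊓ Cc ≤ Hh := by
      have hJ2 : Hh ⊔ (Qq ⊓ Cc) ≤ (pCore p (X ⧸ Cc)).comap (QuotientGroup.mk' Cc) :=
        sup_le hF1 (inf_le_right.trans hF0)
      have hJp : IsPGroup p ↥(Hh ⊔ (Qq ⊓ Cc)) := hQp.to_le (sup_le hHQ inf_le_left)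
      have hdvd : Hh.relIndex (Hh ⊔ (Qq ⊓ Cc)) ∣
          Hh.relIndex ((pCore p (X ⧸ Cc)).comap (QuotientGroup.mk' Cc)) :=
        Dvd.intro _ (Subgroup.relIndex_mul_relIndex _ _ _ le_sup_left hJ2)
      obtain ⟨k, hk⟩ := IsPGroup.iff_card.mp hJp
      have hdvd2 : Hh.relIndex (Hh ⊔ (Qq ⊓ Cc)) ∣ p ^ k := hk ▸ Subgroup.relIndex_dvd_card _ _
      have h1 := dvd_pow_coprime_eq_one hp hdvd2 hdvd hidx
      exact le_sup_right.trans (Subgroup.relIndex_eq_one.mp h1)
    have hZ : ¬ p ∣ (Hh ⊓ Cc).relIndex Cc := by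
      rw [Subgroup.inf_relIndex_right, ← e1]
      intro hd
      exact hidx (hd.trans (Dvd.intro _ (Subgroup.relIndex_mul_relIndex _ _ _ le_sup_left hsupN)))
    have hC := cent_le_sup Hh Cc hHp hCc hZ
    have hNeq : (pCore p (X ⧸ Cc)).comap (QuotientGroup.mk' Cc) = Hh ⊔ Cc := by
      apply le_antisymm _ hsupN
      have d1 : (Hh ⊔ Cc).relIndex ((pCore p (X ⧸ Cc)).comap (QuotientGroup.mk' Cc)) ∣ p ^ kN :=
        hkN ▸ Subgroup.relIndex_dvd_of_le_left _ le_sup_right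
      have d2 : (Hh ⊔ Cc).relIndex ((pCore p (X ⧸ Cc)).comap (QuotientGroup.mk' Cc)) ∣
          Hh.relIndex ((pCore p (X ⧸ Cc)).comap (QuotientGroup.mk' Cc)) :=
        Subgroup.relIndex_dvd_of_le_left _ le_sup_left
      exact Subgroup.relIndex_eq_one.mp (dvd_pow_coprime_eq_one hp d1 d2 hidx)
    refine ⟨ha, ?_⟩
    rw [← hNeq]
    exact le_antisymm (ppcore_le Cc hF3) (le_ppcore Hh Cc hHp hC)
  · rintro ⟨h1, h2⟩
    have hZeq : Hh ⊓ Cc = Qq ⊓ Cc :=
      le_antisymm (inf_le_inf_right Cc hHQ) (le_inf h1 inf_le_right)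
    have hZ : ¬ p ∣ (Hh ⊓ Cc).relIndex Cc := by
      rw [hZeq, Subgroup.inf_relIndex_right, ← relIndex_of_normal Qq Cc]
      intro hd
      exact hQi (hd.trans (Subgroup.relIndex_dvd_index_of_le le_sup_left))
    have hC := cent_le_sup Hh Cc hHp hCc hZ
    have hNeq : (pCore p (X ⧸ Cc)).comap (QuotientGroup.mk' Cc) = Hh ⊔ Cc :=
      le_antisymm (h2 ▸ le_ppcore Hh Cc hHp hC) hsupN
    refine ⟨hF1, ?_⟩
    rw [hNeq, e1, ← Subgroup.inf_relIndex_right]
    exact hZ

end internal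

/-- Let P be a Sylow p-subgroup of the finite group G and H ≤ P a subgroup with N_P(H) a Sylow p-subgroup of N_G(H). Let N be the preimage in N_G(H) of O_p(N_G(H)/C_G(H)). Then H is a Sylow p-subgroup of N if and only if C_P(H) ≤ H and O_{p',p}(N_G(H)) = H·C_G(H). -/
theorem result {G : Type*} [Group G] [Finite G] {p : ℕ} [Fact p.Prime]
    (P : Sylow p G) (H : Subgroup G) (hHP : H ≤ (P : Subgroup G))
    (hSyl : ¬ p ∣ ((P : Subgroup G) ⊓ Subgroup.normalizer (H : Set G)).relIndex (Subgroup.normalizer (H : Set G)))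
    [hC : ((Subgroup.centralizer (H : Set G)).subgroupOf (Subgroup.normalizer (H : Set G))).Normal] :
    (H ≤ ((Cfsg.pCore p (↥(Subgroup.normalizer (H : Set G)) ⧸
              (Subgroup.centralizer (H : Set G)).subgroupOf (Subgroup.normalizer (H : Set G)))).comap
            (QuotientGroup.mk' _)).map (Subgroup.normalizer (H : Set G)).subtype ∧
      ¬ p ∣ H.relIndex (((Cfsg.pCore p (↥(Subgroup.normalizer (H : Set G)) ⧸
              (Subgroup.centralizer (H : Set G)).subgroupOf (Subgroup.normalizer (H : Set G)))).comap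
            (QuotientGroup.mk' _)).map (Subgroup.normalizer (H : Set G)).subtype)) ↔
    ((P : Subgroup G) ⊓ Subgroup.centralizer (H : Set G) ≤ H ∧
      (Cfsg.pPrimePCore p ↥(Subgroup.normalizer (H : Set G))).map (Subgroup.normalizer (H : Set G)).subtype =
        H ⊔ Subgroup.centralizer (H : Set G)) := by
  have hHM : H ≤ Subgroup.normalizer (H : Set G) := Subgroup.le_normalizer
  have hCM : Subgroup.centralizer (H : Set G) ≤ Subgroup.normalizer (H : Set G) :=
    Subgroup.centralizer_le_normalizer _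
  have key := internal (p := p) (H.subgroupOf (Subgroup.normalizer (H : Set G)))
    ((Subgroup.centralizer (H : Set G)).subgroupOf (Subgroup.normalizer (H : Set G)))
    ((P : Subgroup G).subgroupOf (Subgroup.normalizer (H : Set G)))
    Subgroup.normal_in_normalizer
    (fun x hx => hHP hx)
    (P.2.comap_of_injective _ (Subgroup.subtype_injective _))
    (by rw [Subgroup.inf_relIndex_right] at hSyl; exact hSyl)
    (by
      intro x
      rw [Subgroup.mem_subgroupOf, Subgroup.mem_centralizer_iff]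
      constructor
      · intro hx h hh
        apply Subtype.ext
        exact hx h.1 hh
      · intro hx h hh
        have := hx ⟨h, hHM hh⟩ hh
        exact congrArg Subtype.val this)
  have A1 : H ≤ ((Cfsg.pCore p (↥(Subgroup.normalizer (H : Set G)) ⧸
      (Subgroup.centralizer (H : Set G)).subgroupOf (Subgroup.normalizer (H : Set G)))).comap
      (QuotientGroup.mk' _)).map (Subgroup.normalizer (H : Set G)).subtype ↔
      H.subgroupOf (Subgroup.normalizer (H : Set G)) ≤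
        (Cfsg.pCore p (↥(Subgroup.normalizer (H : Set G)) ⧸
      (Subgroup.centralizer (H : Set G)).subgroupOf (Subgroup.normalizer (H : Set G)))).comap
      (QuotientGroup.mk' _) := by
    constructor
    · intro h x hx
      obtain ⟨y, hy, e⟩ := h hx
      have : y = x := Subtype.ext e
      rwa [this] at hy
    · intro h g hg
      exact ⟨⟨g, hHM hg⟩, h hg, rfl⟩
  have A2 : H.relIndex (((Cfsg.pCore p (↥(Subgroup.normalizer (H : Set G)) ⧸
      (Subgroup.centralizer (H : Set G)).subgroupOf (Subgroup.normalizer (H : Set G)))).comap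
      (QuotientGroup.mk' _)).map (Subgroup.normalizer (H : Set G)).subtype) =
      (H.subgroupOf (Subgroup.normalizer (H : Set G))).relIndex
        ((Cfsg.pCore p (↥(Subgroup.normalizer (H : Set G)) ⧸
      (Subgroup.centralizer (H : Set G)).subgroupOf (Subgroup.normalizer (H : Set G)))).comap
      (QuotientGroup.mk' _)) :=
    (Subgroup.relIndex_comap (H := H) (f := (Subgroup.normalizer (H : Set G)).subtype) _).symm
  have B1 : (P : Subgroup G) ⊓ Subgroup.centralizer (H : Set G) ≤ H ↔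
      (P : Subgroup G).subgroupOf (Subgroup.normalizer (H : Set G)) ⊓
        (Subgroup.centralizer (H : Set G)).subgroupOf (Subgroup.normalizer (H : Set G)) ≤
        H.subgroupOf (Subgroup.normalizer (H : Set G)) := by
    constructor
    · intro h x hx
      exact h ⟨hx.1, hx.2⟩
    · intro h g hg
      exact h (x := ⟨g, hCM hg.2⟩) ⟨hg.1, hg.2⟩
  have B2 : (H.subgroupOf (Subgroup.normalizer (H : Set G)) ⊔
      (Subgroup.centralizer (H : Set G)).subgroupOf (Subgroup.normalizer (H : Set G))).map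
        (Subgroup.normalizer (H : Set G)).subtype = H ⊔ Subgroup.centralizer (H : Set G) := by
    rw [Subgroup.map_sup, Subgroup.subgroupOf_map_subtype, Subgroup.subgroupOf_map_subtype,
      inf_eq_left.mpr hHM, inf_eq_left.mpr hCM]
  rw [A1, A2, B1]
  constructor
  · intro h
    obtain ⟨h1, h2⟩ := key.mp h
    exact ⟨h1, by rw [h2, B2]⟩
  · rintro ⟨h1, h2⟩
    apply key.mpr
    refine ⟨h1, ?_⟩
    apply Subgroup.map_injective (Subgroup.subtype_injective _)
    rw [h2, B2]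

end Cfsg.Agent.S3076
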