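import Mathlib
import Cfsg.Statements.S3087

set_option autoImplicit false
open Cfsg

namespace Cfsg.Agent.S3087

theorem add_card_mul_relIndex {G : Type*} [AddGroup G] {A B : AddSubgroup G} (h : A ≤ B) :
    Nat.card A * A.relIndex B = Nat.card B := by
  have := AddSubgroup.relIndex_mul_relIndex ⊥ A B bot_le h
  rwa [AddSubgroup.relIndex_bot_left, AddSubgroup.relIndex_bot_left] at this

/-- Product formula, inequality form, additive version. -/
theorem add_card_mul_card_le {G : Type*} [AddGroup G] [Finite G] (X Y : AddSubgroup G) :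
    Nat.card X * Nat.card Y ≤
      Nat.card (X ⊔ Y : AddSubgroup G) * Nat.card (X ⊓ Y : AddSubgroup G) := by
  have h1 : Nat.card (X ⊓ Y : AddSubgroup G) * (X ⊓ Y).relIndex X = Nat.card X :=
    add_card_mul_relIndex inf_le_left
  have h2 : (X ⊓ Y).relIndex X = Y.relIndex X := AddSubgroup.inf_relIndex_left X Y
  have h3 : Y.relIndex X ≤ Y.relIndex (X ⊔ Y) :=
    AddSubgroup.relIndex_le_of_le_right le_sup_left
      (by unfold AddSubgroup.relIndex; exact AddSubgroup.index_ne_zero_of_finite)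
  have h4 : Nat.card Y * Y.relIndex (X ⊔ Y) = Nat.card (X ⊔ Y : AddSubgroup G) :=
    add_card_mul_relIndex le_sup_right
  calc Nat.card X * Nat.card Y
      = (Nat.card (X ⊓ Y : AddSubgroup G) * Y.relIndex X) * Nat.card Y := by rw [← h2, h1]
    _ ≤ (Nat.card (X ⊓ Y : AddSubgroup G) * Y.relIndex (X ⊔ Y)) * Nat.card Y :=
        Nat.mul_le_mul_right _ (Nat.mul_le_mul_left _ h3)
    _ = (Nat.card Y * Y.relIndex (X ⊔ Y)) * Nat.card (X ⊓ Y : AddSubgroup G) := by ring
    _ = _ := by rw [h4]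

/-- The fixed points of a subgroup, as an additive subgroup. -/
def fixedAdd {G V : Type*} [Group G] [AddCommGroup V] (p : ℕ) [Module (ZMod p) V]
    (ρ : Representation (ZMod p) G V) (S : Subgroup G) : AddSubgroup V where
  carrier := {v | ∀ b ∈ S, ρ b v = v}
  zero_mem' := by intro b _; simp
  add_mem' := by
    intro x y hx hy b hb
    rw [map_add, hx b hb, hy b hb]
  neg_mem' := by
    intro x hx b hb
    rw [map_neg, hx b hb]

/-- Let p be a prime, G a finite group acting linearly on a finite vector space V over the field with p elements, W a G-invariant subspace, and A a subgroup of G with |A|·|C_V(A)| ≥ |B|·|C_V(B)| for every subgroup B of A. Then |A|·|C_W(A)| ≥ |B|·|C_W(B)| for every subgroup B of A that contains C_A(W); that is, the image of A in the group induced on W satisfies the same maximality condition. -/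
theorem result {G V : Type*} [Group G] [Finite G] [AddCommGroup V] [Finite V] (p : ℕ) [Fact p.Prime] [Module (ZMod p) V]
    (ρ : Representation (ZMod p) G V) (W : Submodule (ZMod p) V) (hW : ∀ g : G, ∀ w ∈ W, ρ g w ∈ W)
    (A : Subgroup G)
    (hP : ∀ B : Subgroup G, B ≤ A →
      Nat.card ↥B * Nat.card {v : V // ∀ b ∈ B, ρ b v = v} ≤ Nat.card ↥A * Nat.card {v : V // ∀ a ∈ A, ρ a v = v})
    (B : Subgroup G) (hBA : B ≤ A) (hCB : ∀ a ∈ A, (∀ w ∈ W, ρ a w = w) → a ∈ B) :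
    Nat.card ↥B * Nat.card {w : W // ∀ b ∈ B, ρ b w = w} ≤ Nat.card ↥A * Nat.card {w : W // ∀ a ∈ A, ρ a w = w} := by
  have hV : ∀ S : Subgroup G, Nat.card {v : V // ∀ b ∈ S, ρ b v = v} =
      Nat.card ↥(fixedAdd p ρ S) := fun S => rfl
  have hWc : ∀ S : Subgroup G, Nat.card {w : W // ∀ b ∈ S, ρ b w = w} =
      Nat.card ↥(fixedAdd p ρ S ⊓ W.toAddSubgroup) := by
    intro S
    apply Nat.card_congr
    refine ⟨fun w => ⟨(w.1 : V), ⟨w.2, w.1.2⟩⟩, fun v => ⟨⟨v.1, v.2.2⟩, v.2.1⟩, ?_, ?_⟩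
    · intro w; rfl
    · intro v; rfl
  rw [hWc, hWc]
  have h1 := hP B hBA
  rw [hV, hV] at h1
  have h2 := add_card_mul_card_le (fixedAdd p ρ B ⊓ W.toAddSubgroup) (fixedAdd p ρ A)
  have hAB : fixedAdd p ρ A ≤ fixedAdd p ρ B := by
    intro v hv b hb
    exact hv b (hBA hb)
  have h3 : (fixedAdd p ρ B ⊓ W.toAddSubgroup) ⊔ fixedAdd p ρ A ≤ fixedAdd p ρ B :=
    sup_le inf_le_left hAB
  have h4 : (fixedAdd p ρ B ⊓ W.toAddSubgroup) ⊓ fixedAdd p ρ A ≤
      fixedAdd p ρ A ⊓ W.toAddSubgroup :=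
    le_inf inf_le_right (le_trans inf_le_left inf_le_right)
  have h5 : Nat.card ↥(fixedAdd p ρ B ⊓ W.toAddSubgroup) * Nat.card ↥(fixedAdd p ρ A) ≤
      Nat.card ↥(fixedAdd p ρ B) * Nat.card ↥(fixedAdd p ρ A ⊓ W.toAddSubgroup) :=
    le_trans h2 (Nat.mul_le_mul (AddSubgroup.card_le_of_le h3) (AddSubgroup.card_le_of_le h4))
  have hpos : 0 < Nat.card ↥(fixedAdd p ρ A) := Nat.card_pos
  have key : Nat.card ↥B * Nat.card ↥(fixedAdd p ρ B ⊓ W.toAddSubgroup) *
      Nat.card ↥(fixedAdd p ρ A) ≤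
      Nat.card ↥A * Nat.card ↥(fixedAdd p ρ A ⊓ W.toAddSubgroup) * Nat.card ↥(fixedAdd p ρ A) := by
    calc Nat.card ↥B * Nat.card ↥(fixedAdd p ρ B ⊓ W.toAddSubgroup) * Nat.card ↥(fixedAdd p ρ A)
        = Nat.card ↥B * (Nat.card ↥(fixedAdd p ρ B ⊓ W.toAddSubgroup) *
            Nat.card ↥(fixedAdd p ρ A)) := by ring
      _ ≤ Nat.card ↥B * (Nat.card ↥(fixedAdd p ρ B) *
            Nat.card ↥(fixedAdd p ρ A ⊓ W.toAddSubgroup)) := Nat.mul_le_mul_left _ h5
      _ = (Nat.card ↥B * Nat.card ↥(fixedAdd p ρ B)) *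
            Nat.card ↥(fixedAdd p ρ A ⊓ W.toAddSubgroup) := by ring
      _ ≤ (Nat.card ↥A * Nat.card ↥(fixedAdd p ρ A)) *
            Nat.card ↥(fixedAdd p ρ A ⊓ W.toAddSubgroup) := Nat.mul_le_mul_right _ h1
      _ = _ := by ring
  exact Nat.le_of_mul_le_mul_right key hpos

end Cfsg.Agent.S3087
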