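import Cfsg.Statements.S3155
import Mathlib
-- import your own Cfsg.Agent.* helpers here

set_option autoImplicit false
open Cfsg

namespace Cfsg.Agent.S3155

theorem no_sq (d : ZMod 4) : d * d ≠ -1 := by revert d; decide


/-- Let B be the direct product of three cyclic groups of order 4. Then the automorphism of B inverting every element is not the square of any automorphism of B. -/
theorem result {B : Type*} [CommGroup B] [Finite B] (hB : Nonempty (B ≃* Multiplicative (ZMod 4 × ZMod 4 × ZMod 4)))
    (τ : B ≃* B) : τ.trans τ ≠ MulEquiv.inv B := by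
  intro hτ
  obtain ⟨e⟩ := hB
  let c : (ZMod 4 × ZMod 4 × ZMod 4) ≃+ (Fin 3 → ZMod 4) :=
    { toFun := fun a => ![a.1, a.2.1, a.2.2]
      invFun := fun v => (v 0, v 1, v 2)
      left_inv := fun a => rfl
      right_inv := fun v => by ext i; fin_cases i <;> rfl
      map_add' := fun a b => by ext i; fin_cases i <;> rfl }
  let φ : (Fin 3 → ZMod 4) →+ (Fin 3 → ZMod 4) :=
    { toFun := fun v => c (Multiplicative.toAdd (e (τ (e.symm (Multiplicative.ofAdd (c.symm v))))))
      map_zero' := by simp
      map_add' := fun v w => by simp only [map_add, ofAdd_add, map_mul, toAdd_mul] }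
  have hφ : ∀ v, φ (φ v) = -v := by
    intro v
    show c (Multiplicative.toAdd (e (τ (e.symm (Multiplicative.ofAdd (c.symm
      (c (Multiplicative.toAdd (e (τ (e.symm (Multiplicative.ofAdd (c.symm v))))))))))))) = -v
    rw [AddEquiv.symm_apply_apply, ofAdd_toAdd, MulEquiv.symm_apply_apply]
    have h1 : τ (τ (e.symm (Multiplicative.ofAdd (c.symm v)))) =
        (e.symm (Multiplicative.ofAdd (c.symm v)))⁻¹ := by
      have := congrArg (fun f => f (e.symm (Multiplicative.ofAdd (c.symm v)))) hτ
      simpa using this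
    rw [h1, map_inv, MulEquiv.apply_symm_apply, toAdd_inv, toAdd_ofAdd, map_neg,
      AddEquiv.apply_symm_apply]
  let L : (Fin 3 → ZMod 4) →ₗ[ZMod 4] (Fin 3 → ZMod 4) := φ.toZModLinearMap 4
  have hL : L.comp L = -LinearMap.id := by
    apply LinearMap.ext
    intro v
    exact hφ v
  have hA : LinearMap.toMatrix' L * LinearMap.toMatrix' L = -1 := by
    rw [← LinearMap.toMatrix'_comp, hL, map_neg, LinearMap.toMatrix'_id]
  have hdet := congrArg Matrix.det hA
  rw [Matrix.det_mul, Matrix.det_neg, Matrix.det_one] at hdet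
  have h3 : ((-1 : ZMod 4) ^ Fintype.card (Fin 3)) * 1 = -1 := by rw [Fintype.card_fin]; decide
  rw [h3] at hdet
  exact no_sq _ hdet

end Cfsg.Agent.S3155
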