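import Cfsg.Statements.S3156
import Mathlib
import Cfsg.Agent.Helper19.U34Aut
-- import your own Cfsg.Agent.* helpers here

set_option autoImplicit false
open Cfsg

namespace Cfsg.Agent.S3156

/-- If a finite group T is isomorphic to a Sylow 2-subgroup of the projective special unitary group of dimension 3 with parameter 4 (realised over the field with 16 elements), then no subgroup of the automorphism group of T is isomorphic to the symmetric group of degree 3. -/
theorem result {T : Type*} [Group T] [Finite T] (hT : (∃ (F : Type) (_ : Field F) (_ : Fintype F), Fintype.card F = 16 ∧ ∃ S : Sylow 2 (Cfsg.PSU 3 F 4), Nonempty (T ≃* ↥(S : Subgroup (Cfsg.PSU 3 F 4))))) (H : Subgroup (MulAut T)) : ¬ Nonempty (↥H ≃* Equiv.Perm (Fin 3)) := by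
  obtain ⟨F, _, _, hF, S, ⟨e⟩⟩ := hT
  rintro ⟨eH⟩
  haveI : Fact (Fintype.card F = 16) := ⟨hF⟩
  obtain ⟨m⟩ := Cfsg.Agent.Helper19.U34Aut.model_iso S
  exact Cfsg.Agent.Helper19.U34Aut.no_S3_sub (e.trans m.symm) H eH

end Cfsg.Agent.S3156
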