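import Cfsg.Statements.S3179
-- import your own Cfsg.Agent.* helpers here
import Cfsg.Agent.S0243
import Cfsg.Agent.S1163
import Cfsg.Agent.Helper3.Unitary

set_option autoImplicit false
open Cfsg

namespace Cfsg.Agent.S3179

open scoped MatrixGroups

/-- order of `GL₅(2)`. -/
theorem card_GL5 : Nat.card (GL (Fin 5) (ZMod 2)) = 9999360 := by
  rw [Matrix.card_GL_field, ZMod.card, Fin.prod_univ_five]
  rfl

/-- an element of order three. -/
def MA : Matrix (Fin 5) (Fin 5) (ZMod 2) :=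
  !![0,1,0,0,0; 1,1,0,0,0; 0,0,1,0,0; 0,0,0,1,0; 0,0,0,0,1]

/-- a second element of order three commuting with the first. -/
def MB : Matrix (Fin 5) (Fin 5) (ZMod 2) :=
  !![1,0,0,0,0; 0,1,0,0,0; 0,0,0,1,0; 0,0,1,1,0; 0,0,0,0,1]

theorem MA3 : MA * (MA * MA) = 1 := by decide
theorem MA3' : (MA * MA) * MA = 1 := by decide
theorem MB3 : MB * (MB * MB) = 1 := by decide
theorem MB3' : (MB * MB) * MB = 1 := by decide
theorem MAB : MA * MB = MB * MA := by decide
theorem MA_ne : MA ≠ 1 := by decide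
theorem MB_ne : MB ≠ 1 := by decide
theorem MB_ne_A : MB ≠ MA := by decide
theorem MB_ne_A2 : MB ≠ MA * MA := by decide

/-- `MA` as an element of `GL`. -/
def ga : GL (Fin 5) (ZMod 2) := ⟨MA, MA * MA, MA3, MA3'⟩

/-- `MB` as an element of `GL`. -/
def gb : GL (Fin 5) (ZMod 2) := ⟨MB, MB * MB, MB3, MB3'⟩

theorem ga_pow : ga ^ 3 = 1 := by
  apply Units.ext
  rw [Units.val_pow_eq_pow_val, Units.val_one]
  show MA ^ 3 = 1
  rw [pow_succ, pow_two]
  exact MA3'

theorem gb_pow : gb ^ 3 = 1 := by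
  apply Units.ext
  rw [Units.val_pow_eq_pow_val, Units.val_one]
  show MB ^ 3 = 1
  rw [pow_succ, pow_two]
  exact MB3'

theorem ga_ne : ga ≠ 1 := fun h => MA_ne (congrArg Units.val h)

theorem gb_ne : gb ≠ 1 := fun h => MB_ne (congrArg Units.val h)

theorem gb_ne_ga : gb ≠ ga := fun h => MB_ne_A (congrArg Units.val h)

theorem gb_ne_ga2 : gb ≠ ga * ga := fun h => MB_ne_A2 (congrArg Units.val h)

theorem comm_ab : Commute ga gb := Units.ext MAB

theorem cyc9 {G : Type*} [Group G] [Finite G] (g x : G) (hg : orderOf g = 9)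
    (hx : x ∈ Subgroup.zpowers g) (hx3 : x ^ 3 = 1) : x = 1 ∨ x = g ^ 3 ∨ x = g ^ 6 := by
  obtain ⟨i, hi⟩ : ∃ i : ℕ, g ^ i = x := mem_powers_iff_mem_zpowers.mpr hx
  subst hi
  have h9 : g ^ 9 = 1 := by rw [← hg]; exact pow_orderOf_eq_one g
  have hd : 9 ∣ i * 3 := by
    rw [← hg]; apply orderOf_dvd_of_pow_eq_one; rw [pow_mul]; exact hx3
  have h3 : 3 ∣ i := by omega
  obtain ⟨k, rfl⟩ := h3
  have hk : g ^ (3 * k) = g ^ (3 * (k % 3)) := by
    conv_lhs => rw [← Nat.div_add_mod k 3]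
    rw [mul_add, ← mul_assoc, pow_add, show 3 * 3 = 9 from rfl, pow_mul, h9, one_pow, one_mul]
  rw [hk]
  have hlt : k % 3 < 3 := Nat.mod_lt _ (by norm_num)
  obtain ⟨r, hr⟩ : ∃ r, r = k % 3 := ⟨_, rfl⟩
  rw [← hr] at hlt ⊢
  interval_cases r
  · left; simp
  · right; left; rfl
  · right; right; rfl

theorem conj3 {G : Type*} [Group G] (x a : G) : (x⁻¹ * a * x) ^ 3 = x⁻¹ * a ^ 3 * x := by
  have := conj_pow (a := x⁻¹) (b := a) (i := 3)
  rwa [inv_inv] at this

theorem no_ord9 (g : GL (Fin 5) (ZMod 2)) : orderOf g ≠ 9 := by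
  intro hg
  haveI : Fact (Nat.Prime 3) := ⟨Nat.prime_three⟩
  have hgp : IsPGroup 3 ↥(Subgroup.zpowers g) := by
    apply IsPGroup.of_card (n := 2)
    rw [Nat.card_zpowers, hg]
    norm_num
  obtain ⟨Q, hQ⟩ := hgp.exists_le_sylow
  have hQcard : Nat.card ↥(Q : Subgroup (GL (Fin 5) (ZMod 2))) = 9 := by
    obtain ⟨k, hk⟩ := IsPGroup.iff_card.mp Q.isPGroup'
    have hdvd : Nat.card ↥(Q : Subgroup (GL (Fin 5) (ZMod 2))) ∣ 9999360 := by
      rw [← card_GL5]; exact Subgroup.card_subgroup_dvd_card _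
    have hge : 9 ∣ Nat.card ↥(Q : Subgroup (GL (Fin 5) (ZMod 2))) := by
      have := Subgroup.card_dvd_of_le hQ
      rwa [Nat.card_zpowers, hg] at this
    rw [hk] at hdvd hge ⊢
    have hk2 : k ≤ 2 := by
      by_contra h
      have h3 : 3 ≤ k := by omega
      have : 3 ^ 3 ∣ 9999360 := (pow_dvd_pow 3 h3).trans hdvd
      norm_num at this
    have hk2' : 2 ≤ k := by
      by_contra h
      have : k = 0 ∨ k = 1 := by omega
      rcases this with rfl | rfl <;> norm_num at hge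
    have : k = 2 := le_antisymm hk2 hk2'
    rw [this]; norm_num
  have hQeq : Subgroup.zpowers g = (Q : Subgroup (GL (Fin 5) (ZMod 2))) := by
    apply Subgroup.eq_of_le_of_card_ge hQ
    rw [hQcard, Nat.card_zpowers, hg]
  have hoa : orderOf ga = 3 := orderOf_eq_prime ga_pow ga_ne
  have hob : orderOf gb = 3 := orderOf_eq_prime gb_pow gb_ne
  have hab : IsPGroup 3 ↥(Subgroup.zpowers ga ⊔ Subgroup.zpowers gb) := by
    apply IsPGroup.to_sup_of_normal_right'
    · apply IsPGroup.of_card (n := 1); rw [Nat.card_zpowers, hoa]; norm_num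
    · apply IsPGroup.of_card (n := 1); rw [Nat.card_zpowers, hob]; norm_num
    · rw [Subgroup.zpowers_le, Subgroup.mem_normalizer_iff]
      intro h
      have hc : ∀ w ∈ Subgroup.zpowers gb, ga * w * ga⁻¹ = w := by
        intro w hw
        obtain ⟨k, rfl⟩ := Subgroup.mem_zpowers_iff.mp hw
        have : Commute ga (gb ^ k) := comm_ab.zpow_right k
        rw [this.eq, mul_inv_cancel_right]
      constructor
      · intro hh; rw [hc h hh]; exact hh
      · intro hh
        have h1 := hc _ hh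
        have e : ga * h * ga⁻¹ = h := by
          calc ga * h * ga⁻¹ = ga⁻¹ * (ga * (ga * h * ga⁻¹) * ga⁻¹) * ga := by group
            _ = ga⁻¹ * (ga * h * ga⁻¹) * ga := by rw [h1]
            _ = h := by group
        rw [e] at hh
        exact hh
  obtain ⟨P, hP⟩ := hab.exists_le_sylow
  obtain ⟨x, hx⟩ := MulAction.exists_smul_eq (GL (Fin 5) (ZMod 2)) Q P
  have key : ∀ y ∈ (P : Subgroup (GL (Fin 5) (ZMod 2))), x⁻¹ * y * x ∈ Subgroup.zpowers g := by
    intro y hy
    rw [hQeq]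
    rw [← hx, Sylow.coe_subgroup_smul, Subgroup.mem_pointwise_smul_iff_inv_smul_mem] at hy
    simpa [MulAut.smul_def, MulAut.conj_apply] using hy
  have ha := key ga (hP (Subgroup.mem_sup_left (Subgroup.mem_zpowers ga)))
  have hb := key gb (hP (Subgroup.mem_sup_right (Subgroup.mem_zpowers gb)))
  have ha3 : (x⁻¹ * ga * x) ^ 3 = 1 := by
    rw [conj3, ga_pow]; group
  have hb3 : (x⁻¹ * gb * x) ^ 3 = 1 := by
    rw [conj3, gb_pow]; group
  have h9 : g ^ 9 = 1 := by rw [← hg]; exact pow_orderOf_eq_one g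
  have hcan : ∀ u v : GL (Fin 5) (ZMod 2), x⁻¹ * u * x = x⁻¹ * v * x → u = v := by
    intro u v h
    exact mul_left_cancel (mul_right_cancel h)
  have hsq : (x⁻¹ * ga * x) * (x⁻¹ * ga * x) = x⁻¹ * (ga * ga) * x := by group
  rcases cyc9 g _ hg ha ha3 with h | h | h
  · apply ga_ne
    apply hcan
    rw [h]; group
  · rcases cyc9 g _ hg hb hb3 with h' | h' | h'
    · apply gb_ne
      apply hcan
      rw [h']; group
    · exact gb_ne_ga (hcan _ _ (h'.trans h.symm))
    · apply gb_ne_ga2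
      apply hcan
      rw [← hsq, h, h', ← pow_add]
  · rcases cyc9 g _ hg hb hb3 with h' | h' | h'
    · apply gb_ne
      apply hcan
      rw [h']; group
    · apply gb_ne_ga2
      apply hcan
      rw [← hsq, h, h', ← pow_add]
      have : g ^ (6 + 6) = g ^ 9 * g ^ 3 := by rw [← pow_add]
      rw [this, h9, one_mul]
    · exact gb_ne_ga (hcan _ _ (h'.trans h.symm))

theorem m2_eq {R : Type*} {a b c d a' b' c' d' : R} (h1 : a = a') (h2 : b = b') (h3 : c = c')
    (h4 : d = d') : (!![a, b; c, d] : Matrix (Fin 2) (Fin 2) R) = !![a', b'; c', d'] := by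
  subst h1 h2 h3 h4; rfl

theorem exists_ord9 {F : Type} [Field F] [Fintype F] (hF : Fintype.card F = 8) :
    ∃ y : Matrix.ProjectiveSpecialLinearGroup (Fin 2) F, orderOf y = 9 := by
  have h2 : (2 : F) = 0 := by
    have h8 : ((Fintype.card F : ℕ) : F) = 0 := Nat.cast_card_eq_zero F
    rw [hF] at h8
    have : (2 : F) ^ 3 = 0 := by
      have e : (2 : F) ^ 3 = ((8 : ℕ) : F) := by norm_num
      rw [e]; exact h8
    exact (pow_eq_zero_iff (by norm_num)).mp this
  obtain ⟨t, ht⟩ : ∃ t : F, t ^ 3 + t + 1 = 0 := by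
    obtain ⟨u, hu0, hu1⟩ : ∃ u : F, u ≠ 0 ∧ u ≠ 1 := by
      have h3 : 2 < Fintype.card F := by rw [hF]; norm_num
      obtain ⟨a, b, c, hab, hac, hbc⟩ := Fintype.two_lt_card_iff.mp h3
      by_cases ha : a ≠ 0 ∧ a ≠ 1
      · exact ⟨a, ha⟩
      · by_cases hb : b ≠ 0 ∧ b ≠ 1
        · exact ⟨b, hb⟩
        · have ha' : a ≠ 0 → a = 1 := fun h => by
            by_contra h1; exact ha ⟨h, h1⟩
          have hb' : b ≠ 0 → b = 1 := fun h => by
            by_contra h1; exact hb ⟨h, h1⟩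
          refine ⟨c, ?_, ?_⟩
          · intro hc
            rw [hc] at hac hbc
            exact hab ((ha' hac).trans (hb' hbc).symm)
          · intro hc
            rw [hc] at hac hbc
            have ha0 : a = 0 := by
              by_contra h; exact hac (ha' h)
            have hb0 : b = 0 := by
              by_contra h; exact hbc (hb' h)
            exact hab (ha0.trans hb0.symm)
    have h7 : u ^ 7 = 1 := by
      have := FiniteField.pow_card_sub_one_eq_one u hu0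
      rwa [hF] at this
    have hprod : (u ^ 3 + u + 1) * (u ^ 3 + u ^ 2 + 1) = 0 := by
      have h6 : (u - 1) * (u ^ 6 + u ^ 5 + u ^ 4 + u ^ 3 + u ^ 2 + u + 1) = 0 := by
        linear_combination h7
      have h6' : u ^ 6 + u ^ 5 + u ^ 4 + u ^ 3 + u ^ 2 + u + 1 = 0 := by
        rcases mul_eq_zero.mp h6 with h | h
        · exact absurd (sub_eq_zero.mp h) hu1
        · exact h
      linear_combination h6' + u ^ 3 * h2
    rcases mul_eq_zero.mp hprod with h | h
    · exact ⟨u, h⟩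
    · refine ⟨u⁻¹, ?_⟩
      field_simp
      linear_combination h
  have hdet : (!![0, 1; 1, t] : Matrix (Fin 2) (Fin 2) F).det = 1 := by
    rw [Matrix.det_fin_two_of]; linear_combination (-1 : F) * h2
  obtain ⟨x, hxdef⟩ : ∃ x : Matrix.SpecialLinearGroup (Fin 2) F, x = ⟨!![0, 1; 1, t], hdet⟩ :=
    ⟨_, rfl⟩
  have hx1 : x.1 = !![0, 1; 1, t] := by rw [hxdef]
  have e2 : x.1 * x.1 = !![1, t; t, 1 + t ^ 2] := by
    rw [hx1, Matrix.mul_fin_two]
    exact m2_eq (by ring) (by ring) (by ring) (by ring)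
  have e3 : x.1 * x.1 * x.1 = !![t, 1 + t ^ 2; 1 + t ^ 2, t + 1] := by
    rw [e2, hx1, Matrix.mul_fin_two]
    exact m2_eq (by ring) (by ring) (by ring) (by linear_combination ht - h2)
  have e6 : (x.1 * x.1 * x.1) * (x.1 * x.1 * x.1) = !![1 + t, 1 + t ^ 2; 1 + t ^ 2, t] := by
    rw [e3, Matrix.mul_fin_two]
    exact m2_eq (by linear_combination t * ht + (t ^ 2 - t) * h2)
      (by linear_combination (t * (1 + t ^ 2)) * h2)
      (by linear_combination (t * (1 + t ^ 2)) * h2)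
      (by linear_combination t * ht + (t ^ 2 + 1) * h2)
  have e9 : (x.1 * x.1 * x.1) * (x.1 * x.1 * x.1) * (x.1 * x.1 * x.1) = 1 := by
    rw [e6, e3, Matrix.mul_fin_two, Matrix.one_fin_two]
    exact m2_eq (by linear_combination t * ht + t ^ 2 * h2)
      (by linear_combination ((1 + t) * (1 + t ^ 2)) * h2)
      (by linear_combination (t * (1 + t ^ 2)) * h2)
      (by linear_combination t * ht + t ^ 2 * h2)
  have p3 : x.1 ^ 3 = x.1 * x.1 * x.1 := by rw [pow_succ, pow_two]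
  have p9 : x.1 ^ 9 = x.1 ^ 3 * x.1 ^ 3 * x.1 ^ 3 := by rw [← pow_add, ← pow_add]
  have hx9 : x ^ 9 = 1 := by
    apply Subtype.ext
    rw [Matrix.SpecialLinearGroup.coe_pow, Matrix.SpecialLinearGroup.coe_one, p9, p3]
    exact e9
  have hx3 : x ^ 3 ∉ Subgroup.center (Matrix.SpecialLinearGroup (Fin 2) F) := by
    intro hc
    rw [Matrix.SpecialLinearGroup.mem_center_iff] at hc
    obtain ⟨r, -, hr⟩ := hc
    have h01 : (x ^ 3).1 0 1 = 0 := by
      rw [← hr]; simp [Matrix.scalar_apply]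
    rw [Matrix.SpecialLinearGroup.coe_pow, p3, e3] at h01
    have h01' : 1 + t ^ 2 = 0 := by simpa using h01
    have : (1 : F) = 0 := by linear_combination ht - t * h01'
    exact one_ne_zero this
  refine ⟨(QuotientGroup.mk x : Matrix.ProjectiveSpecialLinearGroup (Fin 2) F), ?_⟩
  haveI : Fact (Nat.Prime 3) := ⟨Nat.prime_three⟩
  have hfin := orderOf_eq_prime_pow (p := 3) (n := 1)
    (x := (QuotientGroup.mk x : Matrix.ProjectiveSpecialLinearGroup (Fin 2) F)) (by
      rw [pow_one, ← QuotientGroup.mk_pow, QuotientGroup.eq_one_iff]; exact hx3) (by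
      show (QuotientGroup.mk x : Matrix.ProjectiveSpecialLinearGroup (Fin 2) F) ^ 9 = 1
      rw [← QuotientGroup.mk_pow, hx9]; rfl)
  exact hfin

theorem lift9 {G : Type*} [Group G] [Finite G] (K : Subgroup G) [K.Normal] (y : G ⧸ K)
    (hy : orderOf y = 9) : ∃ h : G, orderOf h = 9 := by
  obtain ⟨h, rfl⟩ := QuotientGroup.mk_surjective y
  have hd : 9 ∣ orderOf h := by
    rw [← hy]
    apply orderOf_dvd_of_pow_eq_one
    rw [← QuotientGroup.mk_pow, pow_orderOf_eq_one]; rfl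
  have hpos : 0 < orderOf h := orderOf_pos h
  have hne : orderOf h / 9 ≠ 0 := (Nat.div_pos (Nat.le_of_dvd hpos hd) (by norm_num)).ne'
  refine ⟨h ^ (orderOf h / 9), ?_⟩
  rw [orderOf_pow_of_dvd hne (Nat.div_dvd_of_dvd hd)]
  exact Nat.div_div_self hd (by omega)

theorem card_psl2 {F : Type} [Field F] [Fintype F] (n : ℕ) (hF : Fintype.card F = 2 ^ n) :
    Nat.gcd 2 (2 ^ n - 1) *
        ((2 ^ n - 1) * Nat.card (Matrix.ProjectiveSpecialLinearGroup (Fin 2) F))
      = ((2 ^ n) ^ 2 - 1) * ((2 ^ n) ^ 2 - 2 ^ n) := by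
  have h := Cfsg.Agent.S0243.result (F := F) hF 2 (le_refl 2)
  rw [Fin.prod_univ_two] at h
  simpa using h

theorem card_psu3 {F : Type} [Field F] [Fintype F] {q : ℕ} (hF : Fintype.card F = q ^ 2) :
    Nat.gcd 3 (q + 1) * ((q + 1) * Nat.card (Cfsg.PSU 3 F q))
      = q ^ 3 * ((q + 1) * (q ^ 2 - 1) * (q ^ 3 + 1)) := by
  have h := Cfsg.Agent.Helper3.card_PSU (F := F) (q := q) hF (n := 3) (by norm_num)
  rw [Cfsg.Agent.Helper3.card_GU hF 3] at h
  rw [h]
  have e0 : Even 0 := ⟨0, rfl⟩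
  have e1 : ¬ Even 1 := by decide
  have e2 : Even 2 := ⟨1, rfl⟩
  rw [Finset.prod_range_succ, Finset.prod_range_succ, Finset.prod_range_succ,
    Finset.prod_range_zero, if_pos e0, if_neg e1, if_pos e2]
  norm_num

theorem nd (c a : ℕ) (h : c = a) (hN : c ∣ 9999360) (ha : ¬ a ∣ 9999360) : False :=
  ha (h ▸ hN)

/-- Let X be a section of the general linear group GL(5, 2), that is, a quotient of a subgroup of it. If X is isomorphic to PSL(2, 2^n) for some n ≥ 2, to a Suzuki group over the field with 2^(2m+1) elements for some m ≥ 1, or to PSU(3, 2^n) for some n ≥ 2, then X is isomorphic to PSL(2, 4). -/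
theorem result {H : Subgroup (GL (Fin 5) (ZMod 2))}
    {K : Subgroup ↥H} [K.Normal]
    (hX : (∃ (n : ℕ) (F : Type) (_ : Field F) (_ : Fintype F), 2 ≤ n ∧ Fintype.card F = 2 ^ n ∧
        Nonempty (↥H ⧸ K ≃* Matrix.ProjectiveSpecialLinearGroup (Fin 2) F)) ∨
      (∃ (m : ℕ) (F : Type) (_ : Field F) (_ : Fintype F), 1 ≤ m ∧ Fintype.card F = 2 ^ (2 * m + 1) ∧
        Nonempty (↥H ⧸ K ≃* ↥(Cfsg.Lie.Sz F (2 ^ (m + 1))))) ∨
      (∃ (n : ℕ) (F : Type) (_ : Field F) (_ : Fintype F), 2 ≤ n ∧ Fintype.card F = 4 ^ n ∧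
        Nonempty (↥H ⧸ K ≃* Cfsg.PSU 3 F (2 ^ n)))) :
    ∃ (F : Type) (_ : Field F) (_ : Fintype F), Fintype.card F = 4 ∧
      Nonempty (↥H ⧸ K ≃* Matrix.ProjectiveSpecialLinearGroup (Fin 2) F) := by
  have hN : Nat.card (↥H ⧸ K) ∣ 9999360 := by
    have h1 : Nat.card (↥H ⧸ K) ∣ Nat.card ↥H := Subgroup.card_quotient_dvd_card K
    have h2 : Nat.card ↥H ∣ Nat.card (GL (Fin 5) (ZMod 2)) := Subgroup.card_subgroup_dvd_card H
    rw [card_GL5] at h2
    exact h1.trans h2
  have hle : Nat.card (↥H ⧸ K) ≤ 9999360 := Nat.le_of_dvd (by norm_num) hN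
  rcases hX with ⟨n, F, iF, iFt, hn, hF, ⟨e⟩⟩ | ⟨m, F, iF, iFt, hm, hF, ⟨e⟩⟩ |
    ⟨n, F, iF, iFt, hn, hF, ⟨e⟩⟩
  · have hc : Nat.card (↥H ⧸ K) = Nat.card (Matrix.ProjectiveSpecialLinearGroup (Fin 2) F) :=
      Nat.card_congr e.toEquiv
    have hcard := card_psl2 n hF
    rw [← hc] at hcard
    by_cases hn9 : 9 ≤ n
    · exfalso
      have hq : 512 ≤ 2 ^ n := by
        calc 512 = 2 ^ 9 := by norm_num
          _ ≤ 2 ^ n := Nat.pow_le_pow_right (by norm_num) hn9
      obtain ⟨q, hqdef⟩ : ∃ q, q = 2 ^ n := ⟨_, rfl⟩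
      rw [← hqdef] at hcard hq
      have hg : Nat.gcd 2 (q - 1) ≤ 2 := Nat.gcd_le_left _ (by norm_num)
      have hA : 262143 ≤ q ^ 2 - 1 := by
        have : 512 ^ 2 ≤ q ^ 2 := Nat.pow_le_pow_left hq 2
        omega
      have hB : q ^ 2 - q = q * (q - 1) := by rw [sq, Nat.mul_sub_one]
      rw [hB] at hcard
      have hC : 0 < q - 1 := by omega
      have h1 : (q - 1) * (Nat.gcd 2 (q - 1) * Nat.card (↥H ⧸ K))
          = (q - 1) * ((q ^ 2 - 1) * q) := by
        calc (q - 1) * (Nat.gcd 2 (q - 1) * Nat.card (↥H ⧸ K))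
            = Nat.gcd 2 (q - 1) * ((q - 1) * Nat.card (↥H ⧸ K)) := by ring
          _ = (q ^ 2 - 1) * (q * (q - 1)) := hcard
          _ = (q - 1) * ((q ^ 2 - 1) * q) := by ring
      have h2' := Nat.eq_of_mul_eq_mul_left hC h1
      have h3 : 262143 * 512 ≤ (q ^ 2 - 1) * q := Nat.mul_le_mul hA hq
      have h4 : Nat.gcd 2 (q - 1) * Nat.card (↥H ⧸ K) ≤ 2 * Nat.card (↥H ⧸ K) :=
        Nat.mul_le_mul_right _ hg
      omega
    · have hn8 : n ≤ 8 := by omega
      interval_cases n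
      · exact ⟨F, iF, iFt, by rw [hF]; norm_num, ⟨e⟩⟩
      · exfalso
        obtain ⟨y, hy⟩ := exists_ord9 (F := F) (by rw [hF]; norm_num)
        obtain ⟨h, hh⟩ := lift9 K (e.symm y) (by rw [MulEquiv.orderOf_eq]; exact hy)
        exact no_ord9 (h : GL (Fin 5) (ZMod 2)) (by rw [Subgroup.orderOf_coe]; exact hh)
      · exfalso
        norm_num at hcard
        exact nd _ 4080 (by omega) hN (by norm_num)
      · exfalso
        norm_num at hcard
        exact nd _ 32736 (by omega) hN (by norm_num)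
      · exfalso
        norm_num at hcard
        exact nd _ 262080 (by omega) hN (by norm_num)
      · exfalso
        norm_num at hcard
        exact nd _ 2097024 (by omega) hN (by norm_num)
      · exfalso
        norm_num at hcard
        omega
  · exfalso
    have hc : Nat.card (↥H ⧸ K) = Nat.card ↥(Cfsg.Lie.Sz F (2 ^ (m + 1))) :=
      Nat.card_congr e.toEquiv
    have hcard := (Cfsg.Agent.S1163.result (F := F) hm hF).1
    rw [← hc] at hcard
    by_cases hm2 : 2 ≤ m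
    · have hq : 32 ≤ 2 ^ (2 * m + 1) := by
        calc 32 = 2 ^ 5 := by norm_num
          _ ≤ 2 ^ (2 * m + 1) := Nat.pow_le_pow_right (by norm_num) (by omega)
      obtain ⟨q, hqdef⟩ : ∃ q, q = 2 ^ (2 * m + 1) := ⟨_, rfl⟩
      rw [← hqdef] at hcard hq
      have h1 : 1024 ≤ q ^ 2 := by
        have : 32 ^ 2 ≤ q ^ 2 := Nat.pow_le_pow_left hq 2
        omega
      have h2 : 1024 * 31 * 1025 ≤ q ^ 2 * (q - 1) * (q ^ 2 + 1) :=
        Nat.mul_le_mul (Nat.mul_le_mul h1 (by omega)) (by omega)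
      omega
    · have hm1 : m = 1 := by omega
      subst hm1
      norm_num at hcard
      exact nd _ 29120 hcard hN (by norm_num)
  · exfalso
    have hc : Nat.card (↥H ⧸ K) = Nat.card (Cfsg.PSU 3 F (2 ^ n)) := Nat.card_congr e.toEquiv
    have hF' : Fintype.card F = (2 ^ n) ^ 2 := by
      rw [hF, ← pow_mul, mul_comm, pow_mul]; norm_num
    have hcard := card_psu3 (F := F) (q := 2 ^ n) hF'
    rw [← hc] at hcard
    by_cases hn4 : 4 ≤ n
    · have hq : 16 ≤ 2 ^ n := by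
        calc 16 = 2 ^ 4 := by norm_num
          _ ≤ 2 ^ n := Nat.pow_le_pow_right (by norm_num) hn4
      obtain ⟨q, hqdef⟩ : ∃ q, q = 2 ^ n := ⟨_, rfl⟩
      rw [← hqdef] at hcard hq
      have hg : Nat.gcd 3 (q + 1) ≤ 3 := Nat.gcd_le_left _ (by norm_num)
      have hA : 4096 ≤ q ^ 3 := by
        have : 16 ^ 3 ≤ q ^ 3 := Nat.pow_le_pow_left hq 3
        omega
      have hB : 255 ≤ q ^ 2 - 1 := by
        have : 16 ^ 2 ≤ q ^ 2 := Nat.pow_le_pow_left hq 2
        omega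
      have h1 : (q + 1) * (Nat.gcd 3 (q + 1) * Nat.card (↥H ⧸ K))
          = (q + 1) * (q ^ 3 * ((q ^ 2 - 1) * (q ^ 3 + 1))) := by
        calc (q + 1) * (Nat.gcd 3 (q + 1) * Nat.card (↥H ⧸ K))
            = Nat.gcd 3 (q + 1) * ((q + 1) * Nat.card (↥H ⧸ K)) := by ring
          _ = q ^ 3 * ((q + 1) * (q ^ 2 - 1) * (q ^ 3 + 1)) := hcard
          _ = (q + 1) * (q ^ 3 * ((q ^ 2 - 1) * (q ^ 3 + 1))) := by ring
      have h2' := Nat.eq_of_mul_eq_mul_left (by omega : 0 < q + 1) h1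
      have h3 : 4096 * (255 * 4097) ≤ q ^ 3 * ((q ^ 2 - 1) * (q ^ 3 + 1)) :=
        Nat.mul_le_mul hA (Nat.mul_le_mul hB (by omega))
      have h4 : Nat.gcd 3 (q + 1) * Nat.card (↥H ⧸ K) ≤ 3 * Nat.card (↥H ⧸ K) :=
        Nat.mul_le_mul_right _ hg
      omega
    · have hn3 : n ≤ 3 := by omega
      interval_cases n
      · norm_num at hcard
        exact nd _ 62400 (by omega) hN (by norm_num)
      · norm_num at hcard
        exact nd _ 5515776 (by omega) hN (by norm_num)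

end Cfsg.Agent.S3179
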