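import Cfsg.Statements.S3195
import Mathlib
import Cfsg.Agent.Helper21.BaerSuzuki
-- import your own Cfsg.Agent.* helpers here

set_option autoImplicit false
open Cfsg

namespace Cfsg.Agent.S3195


theorem four_elems (K : Type*) [Group K] (hcard : Nat.card K = 4)
    (x y : K) (hx : x ≠ 1) (hy : y ≠ 1) (hxy : x ≠ y) (hxy1 : x * y ≠ 1) (w : K) :
    w = 1 ∨ w = x ∨ w = y ∨ w = x * y := by
  classical
  haveI : Finite K := Nat.finite_of_card_ne_zero (by omega)
  haveI : Fintype K := Fintype.ofFinite K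
  have hc : Fintype.card K = 4 := by rw [← Nat.card_eq_fintype_card]; exact hcard
  have hxyx : x * y ≠ x := by
    intro h; apply hy; exact mul_left_cancel (h.trans (mul_one x).symm)
  have hxyy : x * y ≠ y := by
    intro h; apply hx; exact mul_right_cancel (h.trans (one_mul y).symm)
  have hT : ({1, x, y, x * y} : Finset K).card = 4 := by
    rw [Finset.card_insert_of_notMem, Finset.card_insert_of_notMem,
      Finset.card_insert_of_notMem, Finset.card_singleton]
    · simp only [Finset.mem_singleton]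
      exact fun h => hxyy h.symm
    · simp only [Finset.mem_insert, Finset.mem_singleton, not_or]
      exact ⟨hxy, fun h => hxyx h.symm⟩
    · simp only [Finset.mem_insert, Finset.mem_singleton, not_or]
      exact ⟨fun h => hx h.symm, fun h => hy h.symm, fun h => hxy1 h.symm⟩
  have hU : ({1, x, y, x * y} : Finset K) = Finset.univ :=
    Finset.eq_univ_of_card _ (by rw [hT, hc])
  have hw : w ∈ ({1, x, y, x * y} : Finset K) := by rw [hU]; exact Finset.mem_univ w
  simpa using hw

theorem sq_one_odd {G : Type*} [Group G] (u : G) (hu : Odd (orderOf u)) (h : u * u = 1) : u = 1 := by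
  have h2 : orderOf u ∣ 2 := orderOf_dvd_of_pow_eq_one (by rw [pow_two]; exact h)
  rcases (Nat.dvd_prime Nat.prime_two).mp h2 with h1 | h1
  · exact orderOf_eq_one_iff.mp h1
  · rw [h1] at hu; exact absurd hu (by decide)

theorem odd_inv_comm {G : Type*} [Group G] (x u : G) (hu : Odd (orderOf u))
    (hinv : x * u * x⁻¹ = u⁻¹) (hcomm : x * u = u * x) : u = 1 := by
  have h1 : x * u * x⁻¹ = u := by rw [hcomm]; group
  have h2 : u = u⁻¹ := h1.symm.trans hinv
  apply sq_one_odd u hu
  calc u * u = u⁻¹ * u := by rw [← h2]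
    _ = 1 := inv_mul_cancel u

theorem half {G : Type*} [Group G] (u : G) (hu : Odd (orderOf u)) :
    ∃ s : G, s * s = u ∧ (∀ x : G, x * u * x⁻¹ = u⁻¹ → x * s * x⁻¹ = s⁻¹) ∧
      (∀ x : G, x * u = u * x → x * s = s * x) := by
  obtain ⟨k, hk⟩ := hu
  refine ⟨u ^ (k + 1), ?_, ?_, ?_⟩
  · rw [← pow_add]
    have e : k + 1 + (k + 1) = orderOf u + 1 := by omega
    rw [e, pow_succ, pow_orderOf_eq_one, one_mul]
  · intro x hx
    rw [← conj_pow, hx, inv_pow]
  · intro x hx
    exact (Commute.pow_right (show Commute x u from hx) (k + 1)).eq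

theorem conj_half {G : Type*} [Group G] (x s u : G) (hss : s * s = u) (hxs : x * s * x⁻¹ = s⁻¹) :
    s⁻¹ * x * s⁻¹⁻¹ = x * u := by
  have e1 : x * s = s⁻¹ * x := mul_inv_eq_iff_eq_mul.mp hxs
  rw [inv_inv, ← hss, ← mul_assoc, e1]

theorem odd_inverts {G : Type*} [Group G] (w v : G) (hw : Odd (orderOf w))
    (h : w * v * w⁻¹ = v⁻¹) : v * v = 1 := by
  have e1 : w * v = v⁻¹ * w := mul_inv_eq_iff_eq_mul.mp h
  have e2 : w * v⁻¹ = v * w := by
    have h' := congrArg Inv.inv h
    rw [inv_inv] at h'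
    have e3 : w * v⁻¹ * w⁻¹ = v := by
      calc w * v⁻¹ * w⁻¹ = (w * v * w⁻¹)⁻¹ := by group
        _ = v := h'
    exact mul_inv_eq_iff_eq_mul.mp e3
  have h2 : Commute (w * w) v := by
    show (w * w) * v = v * (w * w)
    calc (w * w) * v = w * (w * v) := by group
      _ = w * (v⁻¹ * w) := by rw [e1]
      _ = (w * v⁻¹) * w := by group
      _ = v * w * w := by rw [e2]
      _ = v * (w * w) := by group
  obtain ⟨k, hk⟩ := hw
  have h3 : (w * w) ^ (k + 1) = w := by
    rw [← pow_two, ← pow_mul]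
    have e : 2 * (k + 1) = orderOf w + 1 := by omega
    rw [e, pow_succ, pow_orderOf_eq_one, one_mul]
  have h4 : Commute w v := by rw [← h3]; exact h2.pow_left (k + 1)
  have h5 : w * v * w⁻¹ = v := by rw [h4.eq]; group
  have h6 : v = v⁻¹ := h5.symm.trans h
  calc v * v = v⁻¹ * v := by rw [← h6]
    _ = 1 := inv_mul_cancel v

/-- an involution of `A` inverting an odd-order element: some nontrivial element of `A` centralizes it -/
theorem star {G : Type*} [Group G] (A : Subgroup G)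
    (hcomm : ∀ x ∈ A, ∀ y ∈ A, x * y = y * x)
    (h : ∀ a ∈ A, a ≠ 1 → ∀ g : G, A ⊓ Subgroup.centralizer ({g * a * g⁻¹} : Set G) ≠ ⊥)
    (x : G) (hx : x ∈ A) (hx1 : x ≠ 1) (u : G) (hu : Odd (orderOf u)) (hxu : x * u * x⁻¹ = u⁻¹) :
    ∃ y ∈ A, y ≠ 1 ∧ y * u = u * y := by
  obtain ⟨s, hss, hsinv, -⟩ := half u hu
  have hc := conj_half x s u hss (hsinv x hxu)
  obtain ⟨⟨y, hy⟩, hy1⟩ := (Subgroup.ne_bot_iff_exists_ne_one).mp (h x hx hx1 s⁻¹)
  have hyA : y ∈ A := hy.1
  have hyc : (s⁻¹ * x * s⁻¹⁻¹) * y = y * (s⁻¹ * x * s⁻¹⁻¹) :=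
    (Subgroup.mem_centralizer_iff.mp hy.2) _ rfl
  rw [hc] at hyc
  refine ⟨y, hyA, fun h1 => hy1 (Subtype.ext h1), ?_⟩
  have hyx : y * x = x * y := hcomm y hyA x hx
  have e : x * (u * y) = x * (y * u) := by
    rw [← mul_assoc, hyc, ← mul_assoc, hyx, mul_assoc]
  exact (mul_left_cancel e).symm

theorem keyL {G : Type*} [Group G] (A : Subgroup G) (hcard : Nat.card A = 4)
    (hsq : ∀ x ∈ A, x * x = 1)
    (hcomm : ∀ x ∈ A, ∀ y ∈ A, x * y = y * x)
    (h : ∀ a ∈ A, a ≠ 1 → ∀ g : G, A ⊓ Subgroup.centralizer ({g * a * g⁻¹} : Set G) ≠ ⊥)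
    (x y : G) (hx : x ∈ A) (hy : y ∈ A) (hx1 : x ≠ 1) (hy1 : y ≠ 1) (hne : x ≠ y)
    (u v : G) (hu : Odd (orderOf u)) (hv : Odd (orderOf v)) (hu1 : u ≠ 1) (hv1 : v ≠ 1)
    (hxu : x * u = u * x) (hxv : x * v * x⁻¹ = v⁻¹) (hyu : y * u * y⁻¹ = u⁻¹) (hyv : y * v = v * y) :
    False := by
  have hxx := hsq x hx
  have hyy := hsq y hy
  have hxy := hcomm x hx y hy
  have hz1 : x * y ≠ 1 := by
    intro h1
    exact hne (mul_right_cancel (h1.trans hyy.symm))
  have hE : ∀ w ∈ A, w = 1 ∨ w = x ∨ w = y ∨ w = x * y := by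
    intro w hw
    have h4 := four_elems A hcard ⟨x, hx⟩ ⟨y, hy⟩ (fun h1 => hx1 (congrArg Subtype.val h1))
      (fun h1 => hy1 (congrArg Subtype.val h1)) (fun h1 => hne (congrArg Subtype.val h1))
      (fun h1 => hz1 (congrArg Subtype.val h1)) ⟨w, hw⟩
    rcases h4 with h4 | h4 | h4 | h4
    · exact Or.inl (congrArg Subtype.val h4)
    · exact Or.inr (Or.inl (congrArg Subtype.val h4))
    · exact Or.inr (Or.inr (Or.inl (congrArg Subtype.val h4)))
    · exact Or.inr (Or.inr (Or.inr (congrArg Subtype.val h4)))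
  obtain ⟨s, hss, hsinv, hscomm⟩ := half u hu
  obtain ⟨r, hrr, hrinv, -⟩ := half v hv
  have hxs : x * s = s * x := hscomm x hxu
  have hys : y * s * y⁻¹ = s⁻¹ := hsinv y hyu
  have hxr : x * r * x⁻¹ = r⁻¹ := hrinv x hxv
  have C1 : r⁻¹ * x * r⁻¹⁻¹ = x * v := conj_half x r v hrr hxr
  have C2 : s⁻¹ * y * s = y * u := by
    have := conj_half y s u hss hys
    rwa [inv_inv] at this
  obtain ⟨⟨a', ha'⟩, ha'1⟩ := (Subgroup.ne_bot_iff_exists_ne_one).mp (h x hx hx1 (s * r⁻¹))
  have ha'A : a' ∈ A := ha'.1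
  have ha'1' : a' ≠ 1 := fun h1 => ha'1 (Subtype.ext h1)
  have hc0 : ((s * r⁻¹) * x * (s * r⁻¹)⁻¹) * a' = a' * ((s * r⁻¹) * x * (s * r⁻¹)⁻¹) :=
    (Subgroup.mem_centralizer_iff.mp ha'.2) _ rfl
  have hg : (s * r⁻¹) * x * (s * r⁻¹)⁻¹ = s * (x * v) * s⁻¹ := by
    rw [← C1]; group
  rw [hg] at hc0
  have key : (x * v) * (s⁻¹ * a' * s) = (s⁻¹ * a' * s) * (x * v) := by
    calc (x * v) * (s⁻¹ * a' * s) = s⁻¹ * (s * (x * v) * s⁻¹ * a') * s := by group
      _ = s⁻¹ * (a' * (s * (x * v) * s⁻¹)) * s := by rw [hc0]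
      _ = (s⁻¹ * a' * s) * (x * v) := by group
  have hvu : v * u = u * v := by
    rcases hE a' ha'A with h1 | h1 | h1 | h1
    · exact absurd h1 ha'1'
    · exfalso
      rw [h1] at key
      have e0 : s⁻¹ * x * s = x := by rw [mul_assoc, hxs]; group
      rw [e0] at key
      have e1 : x * (v * x) = x * (x * v) := by rw [← mul_assoc, key]
      exact hv1 (odd_inv_comm x v hv hxv (mul_left_cancel e1).symm)
    · rw [h1, C2] at key
      have e : (x * y) * (v * u) = (x * y) * (u * v) := by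
        calc (x * y) * (v * u) = x * (y * v) * u := by group
          _ = x * (v * y) * u := by rw [hyv]
          _ = (x * v) * (y * u) := by group
          _ = (y * u) * (x * v) := key
          _ = y * (u * x) * v := by group
          _ = y * (x * u) * v := by rw [hxu]
          _ = (y * x) * (u * v) := by group
          _ = (x * y) * (u * v) := by rw [hxy]
      exact mul_left_cancel e
    · exfalso
      rw [h1] at key
      have e0 : s⁻¹ * (x * y) * s = x * (y * u) := by
        calc s⁻¹ * (x * y) * s = s⁻¹ * (x * s) * (s⁻¹ * y * s) := by group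
          _ = s⁻¹ * (s * x) * (y * u) := by rw [hxs, C2]
          _ = x * (y * u) := by group
      rw [e0] at key
      have hxv' : x * v = v⁻¹ * x := mul_inv_eq_iff_eq_mul.mp hxv
      have hyv' : y * v⁻¹ = v⁻¹ * y := (Commute.inv_right (show Commute y v from hyv)).eq
      have e : y * (v⁻¹ * u) = y * (u * v) := by
        calc y * (v⁻¹ * u) = (y * v⁻¹) * u := by group
          _ = v⁻¹ * y * u := by rw [hyv']
          _ = v⁻¹ * (x * x) * y * u := by rw [hxx, mul_one]
          _ = (v⁻¹ * x) * x * y * u := by group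
          _ = (x * v) * x * y * u := by rw [hxv']
          _ = (x * v) * (x * (y * u)) := by group
          _ = (x * (y * u)) * (x * v) := key
          _ = x * y * (u * x) * v := by group
          _ = x * y * (x * u) * v := by rw [hxu]
          _ = (x * y) * x * u * v := by group
          _ = (y * x) * x * u * v := by rw [hxy]
          _ = y * (x * x) * u * v := by group
          _ = y * (u * v) := by rw [hxx, mul_one, mul_assoc]
      have hvu' : v⁻¹ * u = u * v := mul_left_cancel e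
      have e1 : u⁻¹ * v⁻¹ * u = v := by rw [mul_assoc, hvu']; group
      have e2 : u⁻¹ * v * u = v⁻¹ := by
        have h' := congrArg Inv.inv e1
        rw [← h']; group
      have e3 : v * v = 1 := odd_inverts u⁻¹ v (by rw [orderOf_inv]; exact hu)
        (by rw [inv_inv]; exact e2)
      exact hv1 (sq_one_odd v hv e3)
  -- now `u` and `v` commute
  have hzA : x * y ∈ A := A.mul_mem hx hy
  have hyv2 : y * v * y⁻¹ = v := by rw [hyv]; group
  have hxu2 : x * u⁻¹ * x⁻¹ = u⁻¹ := by
    rw [(Commute.inv_right (show Commute x u from hxu)).eq]; group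
  have hzw : (x * y) * (u * v) * (x * y)⁻¹ = (u * v)⁻¹ := by
    calc (x * y) * (u * v) * (x * y)⁻¹ = x * (y * u * y⁻¹) * (y * v * y⁻¹) * x⁻¹ := by group
      _ = x * u⁻¹ * v * x⁻¹ := by rw [hyu, hyv2]
      _ = (x * u⁻¹ * x⁻¹) * (x * v * x⁻¹) := by group
      _ = u⁻¹ * v⁻¹ := by rw [hxu2, hxv]
      _ = (v * u)⁻¹ := by group
      _ = (u * v)⁻¹ := by rw [hvu]
  have hwodd : Odd (orderOf (u * v)) := by
    have h1 : orderOf (u * v) ∣ Nat.lcm (orderOf u) (orderOf v) :=
      (show Commute u v from hvu.symm).orderOf_mul_dvd_lcm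
    have h2 : Nat.lcm (orderOf u) (orderOf v) ∣ orderOf u * orderOf v := Nat.lcm_dvd_mul _ _
    exact Odd.of_dvd_nat (hu.mul hv) (h1.trans h2)
  obtain ⟨y', hy'A, hy'1, hy'⟩ := star A hcomm h (x * y) hzA hz1 (u * v) hwodd hzw
  rcases hE y' hy'A with h1 | h1 | h1 | h1
  · exact hy'1 h1
  · rw [h1] at hy'
    have e : u * (x * v) = u * (v * x) := by
      calc u * (x * v) = (u * x) * v := by group
        _ = (x * u) * v := by rw [hxu]
        _ = x * (u * v) := by group
        _ = (u * v) * x := hy'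
        _ = u * (v * x) := by group
    exact hv1 (odd_inv_comm x v hv hxv (mul_left_cancel e))
  · rw [h1] at hy'
    have e : (y * u) * v = (u * y) * v := by
      calc (y * u) * v = y * (u * v) := by group
        _ = (u * v) * y := hy'
        _ = u * (v * y) := by group
        _ = u * (y * v) := by rw [hyv]
        _ = (u * y) * v := by group
    exact hu1 (odd_inv_comm y u hu hyu (mul_right_cancel e))
  · rw [h1] at hy'
    have hw1 : u * v = 1 := odd_inv_comm (x * y) (u * v) hwodd hzw hy'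
    have hv' : v = u⁻¹ := eq_inv_of_mul_eq_one_right hw1
    have hxv2 : x * v = v * x := by
      rw [hv']; exact (Commute.inv_right (show Commute x u from hxu)).eq
    exact hv1 (odd_inv_comm x v hv hxv hxv2)


/-- Let A be a Klein four-subgroup of a finite group G. If every G-conjugate of every involution of A commutes with some involution of A (its centralizer meets A nontrivially), then A meets the largest normal 2-subgroup O₂(G) nontrivially. -/
theorem result {G : Type*} [Group G] [Finite G]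
    (A : Subgroup G) (hA : IsKleinFour ↥A)
    (h : ∀ a ∈ A, a ≠ 1 → ∀ g : G, A ⊓ Subgroup.centralizer ({g * a * g⁻¹} : Set G) ≠ ⊥) :
    A ⊓ Cfsg.pCore 2 G ≠ ⊥ := by
  classical
  haveI : Fact (Nat.Prime 2) := ⟨Nat.prime_two⟩
  intro hbot
  have hsq' : ∀ x : A, x * x = 1 := by
    intro x
    have h3 := Monoid.pow_exponent_eq_one x
    rw [hA.exponent_two, pow_two] at h3
    exact h3
  have hsq : ∀ x ∈ A, x * x = 1 := fun x hx => congrArg Subtype.val (hsq' ⟨x, hx⟩)
  have hcomm : ∀ x ∈ A, ∀ y ∈ A, x * y = y * x := by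
    intro x hx y hy
    have h1 := hsq (x * y) (A.mul_mem hx hy)
    have h2 := hsq x hx
    have h3 := hsq y hy
    calc x * y = x * ((x * y) * (x * y)) * y := by rw [h1, mul_one]
      _ = (x * x) * (y * x) * (y * y) := by group
      _ = y * x := by rw [h2, h3, one_mul, mul_one]
  have hcard : Nat.card A = 4 := hA.card_four
  have hnot : ∀ x ∈ A, x ≠ 1 → x ∉ Cfsg.pCore 2 G := by
    intro x hx hx1 hxp
    have h1 : x ∈ A ⊓ Cfsg.pCore 2 G := ⟨hx, hxp⟩
    rw [hbot] at h1
    exact hx1 (Subgroup.mem_bot.mp h1)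
  have hinv : ∀ x ∈ A, x ≠ 1 → ∃ u : G, u ≠ 1 ∧ Odd (orderOf u) ∧ x * u * x⁻¹ = u⁻¹ := by
    intro x hx hx1
    have hord : orderOf x = 2 := orderOf_eq_prime (by rw [pow_two]; exact hsq x hx) hx1
    exact Cfsg.Agent.Helper21.involution_inverts_odd x hord
      (fun N hN hNp hxN => hnot x hx hx1 ((le_sSup ⟨hN, hNp⟩ : N ≤ Cfsg.pCore 2 G) hxN))
  -- a nontrivial element of A
  have hex : ∃ a ∈ A, a ≠ 1 := by
    by_contra hcon
    push Not at hcon
    have : Nat.card A ≤ 1 := by
      rw [Finite.card_le_one_iff_subsingleton]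
      exact ⟨fun x y => Subtype.ext ((hcon x x.2).trans (hcon y y.2).symm)⟩
    omega
  obtain ⟨a, haA, ha1⟩ := hex
  obtain ⟨u, hu1, hu, hau⟩ := hinv a haA ha1
  obtain ⟨y, hyA, hy1, hyu⟩ := star A hcomm h a haA ha1 u hu hau
  have hya : y ≠ a := by
    intro h1
    rw [h1] at hyu
    exact hu1 (odd_inv_comm a u hu hau hyu)
  obtain ⟨v, hv1, hv, hyv⟩ := hinv y hyA hy1
  obtain ⟨y', hy'A, hy'1, hy'v⟩ := star A hcomm h y hyA hy1 v hv hyv
  have hyy := hsq y hyA
  have haa := hsq a haA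
  have hz1 : y * a ≠ 1 := by
    intro h1
    exact hya (mul_right_cancel (h1.trans haa.symm))
  have h4 := four_elems A hcard ⟨y, hyA⟩ ⟨a, haA⟩ (fun h1 => hy1 (congrArg Subtype.val h1))
      (fun h1 => ha1 (congrArg Subtype.val h1)) (fun h1 => hya (congrArg Subtype.val h1))
      (fun h1 => hz1 (congrArg Subtype.val h1)) ⟨y', hy'A⟩
  rcases h4 with h4 | h4 | h4 | h4
  · exact hy'1 (congrArg Subtype.val h4)
  · have h5 : y' = y := congrArg Subtype.val h4
    rw [h5] at hy'v
    exact hv1 (odd_inv_comm y v hv hyv hy'v)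
  · have h5 : y' = a := congrArg Subtype.val h4
    rw [h5] at hy'v
    exact keyL A hcard hsq hcomm h y a hyA haA hy1 ha1 hya u v hu hv hu1 hv1 hyu hyv hau hy'v
  · have h5 : y' = y * a := congrArg Subtype.val h4
    rw [h5] at hy'v
    have hyu2 : y * u⁻¹ * y⁻¹ = u⁻¹ := by
      rw [(Commute.inv_right (show Commute y u from hyu)).eq]; group
    have hzu : (y * a) * u * (y * a)⁻¹ = u⁻¹ := by
      calc (y * a) * u * (y * a)⁻¹ = y * (a * u * a⁻¹) * y⁻¹ := by group
        _ = u⁻¹ := by rw [hau, hyu2]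
    have hne2 : y ≠ y * a := by
      intro h1
      exact ha1 (mul_left_cancel (((mul_one y).trans h1).symm))
    exact keyL A hcard hsq hcomm h y (y * a) hyA (A.mul_mem hyA haA) hy1 hz1 hne2 u v hu hv hu1 hv1
      hyu hyv hzu hy'v

end Cfsg.Agent.S3195
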