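import Cfsg.Statements.S3196
import Mathlib
import Cfsg.Agent.Helper19.RootSub
-- import your own Cfsg.Agent.* helpers here

set_option autoImplicit false
open Cfsg

namespace Cfsg.Agent.S3196

open Cfsg.Agent.Helper19


/-- Let p be a prime and K a set of subgroups of order p of a finite group G, closed under conjugation, such that at least two distinct members of K commute elementwise, and whenever two distinct members X, Y of K commute: every subgroup of order p of the group XY they generate belongs to K, and every member W of K has centralizer meeting XY nontrivially. Then some member V of K commutes elementwise with every member of K and lies in O_p(G); in particular G is not simple. -/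
theorem result {G : Type*} [Group G] [Finite G]
    {p : ℕ} (hp : p.Prime) (K : Set (Subgroup G)) (hK : ∀ X ∈ K, Nat.card ↥X = p)
    (hKc : ∀ X ∈ K, ∀ g : G, X.map (MulAut.conj g).toMonoidHom ∈ K)
    (hex : ∃ X ∈ K, ∃ Y ∈ K, X ≠ Y ∧ ∀ x ∈ X, ∀ y ∈ Y, x * y = y * x)
    (ha : ∀ X ∈ K, ∀ Y ∈ K, X ≠ Y → (∀ x ∈ X, ∀ y ∈ Y, x * y = y * x) →
      ∀ Z : Subgroup G, Z ≤ X ⊔ Y → Nat.card ↥Z = p → Z ∈ K)
    (hb : ∀ X ∈ K, ∀ Y ∈ K, X ≠ Y → (∀ x ∈ X, ∀ y ∈ Y, x * y = y * x) →
      ∀ W ∈ K, (X ⊔ Y) ⊓ Subgroup.centralizer (W : Set G) ≠ ⊥) :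
    (∃ V ∈ K, (∀ W ∈ K, ∀ v ∈ V, ∀ w ∈ W, v * w = w * v) ∧ V ≤ Cfsg.pCore p G) ∧ ¬ IsSimpleGroup G := by
  classical
  haveI : Fact p.Prime := ⟨hp⟩
  obtain ⟨E, hE⟩ : ∃ E : Set G, E = {x : G | x ≠ 1 ∧ Subgroup.zpowers x ∈ K} := ⟨_, rfl⟩
  have hEmem : ∀ x, x ∈ E ↔ (x ≠ 1 ∧ Subgroup.zpowers x ∈ K) := by intro x; rw [hE]; rfl
  have hgen : ∀ X ∈ K, ∀ x ∈ X, x ≠ 1 → Subgroup.zpowers x = X :=
    fun X hX x hx hx1 => zp_eq_of_prime hp (hK X hX) hx hx1
  have hmemE : ∀ X ∈ K, ∀ x ∈ X, x ≠ 1 → x ∈ E := by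
    intro X hX x hx hx1
    rw [hEmem]; exact ⟨hx1, by rw [hgen X hX x hx hx1]; exact hX⟩
  have hord : ∀ x ∈ E, orderOf x = p := by
    intro x hx
    rw [← Nat.card_zpowers]; exact hK _ ((hEmem x).mp hx).2
  have hpow1 : ∀ x ∈ E, ∀ a ∈ Subgroup.zpowers x, a ^ p = 1 := by
    intro x hx a hax
    have h1 := orderOf_dvd_of_mem_zpowers hax
    rw [hord x hx] at h1
    exact orderOf_dvd_iff_pow_eq_one.mp h1
  have hRS : RS p E := by
    refine ⟨hp, hord, ?_, ?_, ?_, ?_⟩
    · intro x hx g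
      obtain ⟨hx1, hxK⟩ := (hEmem x).mp hx
      rw [hEmem]
      refine ⟨?_, ?_⟩
      · intro h1
        apply hx1
        have e : x = g⁻¹ * (g * x * g⁻¹) * g := by group
        rw [e, h1]; group
      · have h1 := hKc _ hxK g
        rw [MonoidHom.map_zpowers] at h1
        exact h1
    · intro x hx a hax ha1
      obtain ⟨hx1, hxK⟩ := (hEmem x).mp hx
      exact hmemE _ hxK a hax ha1
    · intro x hx y hy hxy hne a hax b hby hab1
      obtain ⟨hx1, hxK⟩ := (hEmem x).mp hx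
      obtain ⟨hy1, hyK⟩ := (hEmem y).mp hy
      rw [hEmem]
      refine ⟨hab1, ?_⟩
      apply ha _ hxK _ hyK hne
      · intro x' hx' y' hy'
        exact (comm_zp (comm_zp hxy hy').symm hx').symm.eq
      · exact Subgroup.zpowers_le.mpr
          (mul_mem (Subgroup.mem_sup_left hax) (Subgroup.mem_sup_right hby))
      · rw [Nat.card_zpowers]
        apply orderOf_eq_prime _ hab1
        have hc : Commute a b := (comm_zp (comm_zp hxy hby).symm hax).symm
        rw [hc.mul_pow, hpow1 x hx a hax, hpow1 y hy b hby, one_mul]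
    · intro x hx y hy hxy hne w hw
      obtain ⟨hx1, hxK⟩ := (hEmem x).mp hx
      obtain ⟨hy1, hyK⟩ := (hEmem y).mp hy
      obtain ⟨hw1, hwK⟩ := (hEmem w).mp hw
      have h1 := hb _ hxK _ hyK hne
        (fun x' hx' y' hy' => (comm_zp (comm_zp hxy hy').symm hx').symm.eq) _ hwK
      have h2 : ∃ u ∈ (Subgroup.zpowers x ⊔ Subgroup.zpowers y) ⊓
          Subgroup.centralizer ((Subgroup.zpowers w : Subgroup G) : Set G), u ≠ 1 := by
        by_contra hcon
        push Not at hcon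
        exact h1 ((Subgroup.eq_bot_iff_forall _).mpr hcon)
      obtain ⟨u, hu, hu1⟩ := h2
      obtain ⟨hu_sup, hu_cen⟩ := Subgroup.mem_inf.mp hu
      obtain ⟨a, hax, b, hby, rfl⟩ := mem_sup_zpowers_of_commute hxy hu_sup
      refine ⟨a, hax, b, hby, hu1, ?_⟩
      have h3 := Subgroup.mem_centralizer_iff.mp hu_cen w (Subgroup.mem_zpowers w)
      exact h3.symm
  have hne_bot : ∀ X ∈ K, ∃ x ∈ X, x ≠ 1 := by
    intro X hX
    by_contra hcon
    push Not at hcon
    have h1 : X = ⊥ := (Subgroup.eq_bot_iff_forall _).mpr hcon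
    have h2 := hK X hX
    rw [h1, Subgroup.card_bot] at h2
    exact hp.one_lt.ne h2
  have hexE : ∃ x ∈ E, ∃ y ∈ E, Commute x y ∧ Subgroup.zpowers x ≠ Subgroup.zpowers y := by
    obtain ⟨X, hX, Y, hY, hXY, hcomm⟩ := hex
    obtain ⟨x, hx, hx1⟩ := hne_bot X hX
    obtain ⟨y, hy, hy1⟩ := hne_bot Y hY
    refine ⟨x, hmemE X hX x hx hx1, y, hmemE Y hY y hy hy1, hcomm x hx y hy, ?_⟩
    rw [hgen X hX x hx hx1, hgen Y hY y hy hy1]; exact hXY
  obtain ⟨c, hcE, hcc⟩ := hRS.exists_central hexE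
  obtain ⟨hc1, hcK⟩ := (hEmem c).mp hcE
  -- the set of central members
  obtain ⟨Sc, hSc⟩ : ∃ Sc : Set G, Sc = {u : G | u ∈ E ∧ ∀ w ∈ E, Commute u w} := ⟨_, rfl⟩
  have hScmem : ∀ u, u ∈ Sc ↔ (u ∈ E ∧ ∀ w ∈ E, Commute u w) := by intro u; rw [hSc]; rfl
  have hcSc : c ∈ Sc := (hScmem c).mpr ⟨hcE, hcc⟩
  have hSconj : Group.conjugatesOfSet Sc ⊆ Sc := by
    intro u hu
    obtain ⟨s, hs, hsu⟩ := Group.mem_conjugatesOfSet_iff.mp hu
    obtain ⟨g, rfl⟩ := isConj_iff.mp hsu
    obtain ⟨hsE, hsc⟩ := (hScmem s).mp hs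
    rw [hScmem]
    refine ⟨hRS.conj s hsE g, ?_⟩
    intro w hw
    have h1 : Commute s (g⁻¹ * w * g) := by
      have h2 := hRS.conj w hw g⁻¹
      rw [inv_inv] at h2
      exact hsc _ h2
    have h3 := h1.eq
    show g * s * g⁻¹ * w = w * (g * s * g⁻¹)
    have e1 : g * s * g⁻¹ * w = g * (s * (g⁻¹ * w * g)) * g⁻¹ := by group
    rw [e1, h3]; group
  have hclcomm : ∀ a ∈ Subgroup.closure Sc, ∀ b ∈ Subgroup.closure Sc, a * b = b * a := by
    intro a haS b hbS
    have h1 : Subgroup.closure Sc ≤ Subgroup.centralizer Sc := by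
      rw [Subgroup.closure_le]
      intro s hs
      rw [SetLike.mem_coe, Subgroup.mem_centralizer_iff]
      intro s' hs'
      exact ((hScmem s').mp hs').2 s ((hScmem s).mp hs).1
    have h2 := Subgroup.closure_le_centralizer_centralizer Sc haS
    rw [Subgroup.mem_centralizer_iff] at h2
    exact (h2 b (h1 hbS)).symm
  have hclpow : ∀ a ∈ Subgroup.closure Sc, a ^ p = 1 := by
    intro a haS
    induction haS using Subgroup.closure_induction with
    | mem s hs =>
      have h1 := hord s ((hScmem s).mp hs).1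
      rw [← h1]; exact pow_orderOf_eq_one s
    | one => exact one_pow p
    | mul x y hx hy ihx ihy =>
      have hc : Commute x y := hclcomm x hx y hy
      rw [hc.mul_pow, ihx, ihy, one_mul]
    | inv x _ ih => rw [inv_pow, ih, inv_one]
  obtain ⟨N, hN⟩ : ∃ N : Subgroup G, N = Subgroup.normalClosure Sc := ⟨_, rfl⟩
  have hNle : N ≤ Subgroup.closure Sc := by
    rw [hN]; exact Subgroup.closure_mono hSconj
  have hNn : N.Normal := by rw [hN]; exact Subgroup.normalClosure_normal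
  have hNp : IsPGroup p N := by
    intro g
    refine ⟨1, ?_⟩
    apply Subtype.ext
    rw [pow_one]
    exact hclpow g.1 (hNle g.2)
  have hcN : c ∈ N := by rw [hN]; exact Subgroup.subset_normalClosure hcSc
  refine ⟨⟨Subgroup.zpowers c, hcK, ?_, ?_⟩, ?_⟩
  · intro W hW v hv w hw
    by_cases hw1 : w = 1
    · rw [hw1, mul_one, one_mul]
    · have h1 : Commute c w := hcc w (hmemE W hW w hw hw1)
      exact (comm_zp h1.symm hv).symm.eq
  · exact le_trans (Subgroup.zpowers_le.mpr hcN) (le_sSup ⟨hNn, hNp⟩)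
  · intro hs
    have hNtop : N = ⊤ := by
      rcases hs.eq_bot_or_eq_top_of_normal N hNn with h1 | h1
      · exfalso; apply hc1
        rw [h1] at hcN
        exact Subgroup.mem_bot.mp hcN
      · exact h1
    have hcommG : ∀ a b : G, a * b = b * a := by
      intro a b
      have ha' : a ∈ N := by rw [hNtop]; exact Subgroup.mem_top a
      have hb' : b ∈ N := by rw [hNtop]; exact Subgroup.mem_top b
      exact hclcomm a (hNle ha') b (hNle hb')
    obtain ⟨X, hX, Y, hY, hXY, -⟩ := hex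
    have htop : ∀ X ∈ K, X = ⊤ := by
      intro X hX
      have hXn : X.Normal := by
        refine ⟨fun n hn g => ?_⟩
        rw [hcommG g n, mul_inv_cancel_right]; exact hn
      rcases hs.eq_bot_or_eq_top_of_normal X hXn with h1 | h1
      · exfalso
        obtain ⟨x, hx, hx1⟩ := hne_bot X hX
        rw [h1] at hx
        exact hx1 (Subgroup.mem_bot.mp hx)
      · exact h1
    exact hXY ((htop X hX).trans (htop Y hY).symm)

end Cfsg.Agent.S3196
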