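import Cfsg.Statements.S3201
import Mathlib
import Cfsg.Agent.Helper19.RootSub
import Cfsg.Agent.Helper19.QHom
import Cfsg.Agent.S0016
-- import your own Cfsg.Agent.* helpers here

set_option autoImplicit false
open Cfsg

namespace Cfsg.Agent.S3201


open Cfsg.Agent.Helper19 Cfsg.Agent.Helper9

theorem quat1_comm (x y : QuaternionGroup (2 ^ 0)) : x * y = y * x := by
  revert x y
  decide

theorem aux {S : Type*} [Group S] [Finite S] (hS : IsPGroup 2 S) {ι : Type*} (i₀ : ι)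
    (N : ι → Subgroup S)
    (hcen : ∀ i, N i ≤ Subgroup.center S)
    (hidx : ∀ i, ∀ u ∈ Subgroup.center S, ∀ v ∈ Subgroup.center S, u ∉ N i → v ∉ N i →
      u * v ∈ N i)
    (hint : ∀ u, (∀ i, u ∈ N i) → u = 1)
    (hne : ∀ i, ∃ u ∈ Subgroup.center S, u ∉ N i)
    (hq : ∀ i, ∃ (_ : (N i).Normal), ¬ IsMulCommutative (S ⧸ N i) ∧
      ∃! x : S ⧸ N i, orderOf x = 2) :
    ∃ E Q : Subgroup S, Cfsg.IsInternalDirectProduct E Q ⊤ ∧ Cfsg.IsElementaryAbelian 2 E ∧
      ¬ IsMulCommutative ↥Q ∧ ∃! x : ↥Q, orderOf x = 2 := by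
  classical
  haveI : Fact (Nat.Prime 2) := ⟨Nat.prime_two⟩
  have hsqN : ∀ i, ∀ u ∈ Subgroup.center S, u * u ∈ N i := by
    intro i u hu
    by_cases h : u ∈ N i
    · exact mul_mem h h
    · exact hidx i u hu u hu h h
  have h1 : ∀ i (s : S), s * s ∈ N i → s ∈ Subgroup.center S := by
    intro i s hs
    obtain ⟨hN, -, x₀, -, hx₀u⟩ := hq i
    haveI := hN
    obtain ⟨u, huZ, huN⟩ := hne i
    have hu2 : orderOf (QuotientGroup.mk u : S ⧸ N i) = 2 := by
      apply orderOf_eq_prime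
      · rw [← QuotientGroup.mk_pow, QuotientGroup.eq_one_iff, pow_two]
        exact hsqN i u huZ
      · rw [ne_eq, QuotientGroup.eq_one_iff]; exact huN
    by_cases hsN : s ∈ N i
    · exact hcen i hsN
    have hs2 : orderOf (QuotientGroup.mk s : S ⧸ N i) = 2 := by
      apply orderOf_eq_prime
      · rw [← QuotientGroup.mk_pow, QuotientGroup.eq_one_iff, pow_two]
        exact hs
      · rw [ne_eq, QuotientGroup.eq_one_iff]; exact hsN
    have h3 : (QuotientGroup.mk s : S ⧸ N i) = QuotientGroup.mk u :=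
      (hx₀u _ hs2).trans (hx₀u _ hu2).symm
    rw [QuotientGroup.eq] at h3
    have h4 : s = u * (s⁻¹ * u)⁻¹ := by group
    rw [h4]
    exact mul_mem huZ (inv_mem (hcen i h3))
  have h2 : ∀ u ∈ Subgroup.center S, u * u = 1 := fun u hu => hint _ (fun i => hsqN i u hu)
  have h3 : ∀ s t : S, s ∉ Subgroup.center S → s * s ∈ Subgroup.center S →
      t ∉ Subgroup.center S → t * t ∈ Subgroup.center S → s * s = t * t := by
    intro s t hs hss ht htt
    have e1 : (s * s) * (t * t) = 1 := by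
      apply hint
      intro i
      exact hidx i _ hss _ htt (fun h => hs (h1 i s h)) (fun h => ht (h1 i t h))
    have e2 := h2 _ htt
    calc s * s = (s * s) * ((t * t) * (t * t)) := by rw [e2, mul_one]
      _ = ((s * s) * (t * t)) * (t * t) := (mul_assoc (s * s) (t * t) (t * t)).symm
      _ = t * t := by rw [e1, one_mul]
  obtain ⟨hN, hnc, x₀, hx₀, hx₀u⟩ := hq i₀
  haveI := hN
  have hQp : IsPGroup 2 (S ⧸ N i₀) := hS.to_quotient (N i₀)
  have huniq : ∀ H K : Subgroup (S ⧸ N i₀), Nat.card H = 2 → Nat.card K = 2 → H = K := by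
    have key : ∀ H : Subgroup (S ⧸ N i₀), Nat.card H = 2 → H = Subgroup.zpowers x₀ := by
      intro H hH
      have hne : ∃ h ∈ H, h ≠ 1 := by
        by_contra hcon
        push Not at hcon
        have h1 : H = ⊥ := (Subgroup.eq_bot_iff_forall _).mpr hcon
        rw [h1, Subgroup.card_bot] at hH
        omega
      obtain ⟨h, hhH, hh1⟩ := hne
      have h2 := zp_eq_of_prime Nat.prime_two hH hhH hh1
      have h3 : orderOf h = 2 := by rw [← Nat.card_zpowers, h2, hH]
      rw [← h2, hx₀u h h3]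
    intro H K hH hK
    rw [key H hH, key K hK]
  rcases Cfsg.Agent.S0016.result 2 hQp huniq with hcyc | ⟨-, n, ⟨e⟩⟩
  · exfalso; apply hnc
    obtain ⟨g, hg⟩ := hcyc.exists_generator
    refine ⟨⟨fun x y => ?_⟩⟩
    obtain ⟨i, rfl⟩ := Subgroup.mem_zpowers_iff.mp (hg x)
    obtain ⟨j, rfl⟩ := Subgroup.mem_zpowers_iff.mp (hg y)
    rw [← zpow_add, ← zpow_add, add_comm]
  have hn0 : n ≠ 0 := by
    rintro rfl
    apply hnc
    refine ⟨⟨fun X Y => ?_⟩⟩
    apply e.injective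
    rw [map_mul, map_mul]
    exact quat1_comm _ _
  obtain ⟨k', hk'⟩ : ∃ k', 2 ^ n = 2 * k' :=
    ⟨2 ^ (n - 1), by rw [← pow_succ']; congr 1; omega⟩
  obtain ⟨k, hk⟩ : ∃ k, 2 ^ n = k := ⟨_, rfl⟩
  rw [hk] at e hk'
  haveI : NeZero k := ⟨by rw [← hk]; positivity⟩
  obtain ⟨θ, hθ⟩ : ∃ θ : S →* QuaternionGroup k,
      θ = e.toMonoidHom.comp (QuotientGroup.mk' (N i₀)) := ⟨_, rfl⟩
  have hθmk : ∀ s, θ s = e (QuotientGroup.mk s) := fun s => by rw [hθ]; rfl
  have hθ1 : ∀ s, θ s = 1 ↔ s ∈ N i₀ := by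
    intro s
    rw [hθmk, ← QuotientGroup.eq_one_iff (N := N i₀) s]
    exact e.map_eq_one_iff
  obtain ⟨a, ha⟩ := QuotientGroup.mk_surjective (s := N i₀) (e.symm (QuaternionGroup.a 1))
  obtain ⟨b, hb⟩ := QuotientGroup.mk_surjective (s := N i₀) (e.symm (QuaternionGroup.xa 0))
  have hea : θ a = QuaternionGroup.a 1 := by rw [hθmk, ha]; exact e.apply_symm_apply _
  have heb : θ b = QuaternionGroup.xa 0 := by rw [hθmk, hb]; exact e.apply_symm_apply _
  have hk0 : ((k : ℕ) : ZMod (2 * k)) ≠ 0 := by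
    rw [ne_eq, ZMod.natCast_eq_zero_iff]
    intro hdvd
    have h5 := Nat.le_of_dvd (Nat.pos_of_ne_zero (NeZero.ne k)) hdvd
    have h6 := NeZero.ne k
    omega
  have hqa : (QuaternionGroup.a 1 : QuaternionGroup k) ^ k ≠ 1 := by
    rw [QuaternionGroup.a_one_pow, QuaternionGroup.one_def]
    intro h; exact hk0 (QuaternionGroup.a.inj h)
  have hqa2 : (QuaternionGroup.a 1 : QuaternionGroup k) ^ k * (QuaternionGroup.a 1) ^ k = 1 := by
    rw [← pow_add, ← two_mul, QuaternionGroup.a_one_pow_n]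
  have hqb : (QuaternionGroup.xa 0 : QuaternionGroup k) * QuaternionGroup.xa 0
      = (QuaternionGroup.a 1) ^ k := by
    rw [QuaternionGroup.xa_mul_xa, QuaternionGroup.a_one_pow]; simp
  have hqba : (QuaternionGroup.xa 0 * QuaternionGroup.a 1 : QuaternionGroup k)
      * (QuaternionGroup.xa 0 * QuaternionGroup.a 1) = (QuaternionGroup.a 1) ^ k := by
    rw [QuaternionGroup.xa_mul_a, QuaternionGroup.xa_mul_xa, QuaternionGroup.a_one_pow]; simp
  have hakN : a ^ k ∉ N i₀ := by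
    rw [← hθ1, map_pow, hea]; exact hqa
  have hak2 : a ^ k * a ^ k ∈ N i₀ := by
    rw [← hθ1, map_mul, map_pow, hea]; exact hqa2
  have hakZ : a ^ k ∈ Subgroup.center S := h1 i₀ _ hak2
  have hakk : a ^ k = a ^ k' * a ^ k' := by rw [← pow_add, hk']; congr 1; omega
  have hak'Z : a ^ k' ∉ Subgroup.center S := by
    intro h
    apply hakN
    rw [hakk]
    exact hsqN i₀ _ h
  have hbZ : b ∉ Subgroup.center S := by
    intro h
    have h5 := hsqN i₀ _ h
    rw [← hθ1, map_mul, heb, hqb] at h5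
    exact hqa h5
  have hbbZ : b * b ∈ Subgroup.center S := by
    apply h1 i₀
    rw [← hθ1, map_mul, map_mul, heb, hqb]; exact hqa2
  have hbaZ : b * a ∉ Subgroup.center S := by
    intro h
    have h5 := hsqN i₀ _ h
    rw [← hθ1, map_mul, map_mul, heb, hea, hqba] at h5
    exact hqa h5
  have hbabaZ : (b * a) * (b * a) ∈ Subgroup.center S := by
    apply h1 i₀
    rw [← hθ1, map_mul, map_mul, map_mul, heb, hea, hqba]; exact hqa2
  have hbb : b * b = a ^ k := by
    rw [hakk]; exact h3 b (a ^ k') hbZ hbbZ hak'Z (by rw [← hakk]; exact hakZ)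
  have hbaba : (b * a) * (b * a) = b * b := h3 _ _ hbaZ hbabaZ hbZ hbbZ
  have hab : b * a * b⁻¹ = a⁻¹ := by
    have e1 : a * b * a = b := by
      have h5 : b * (a * b * a) = b * b := by rw [← hbaba]; group
      exact mul_left_cancel h5
    calc b * a * b⁻¹ = a⁻¹ * (a * b * a) * b⁻¹ := by group
      _ = a⁻¹ := by rw [e1]; group
  have ha2k : a ^ (2 * k) = 1 := by
    rw [two_mul, pow_add]; exact h2 _ hakZ
  obtain ⟨F, hFa, hFb⟩ := quat_hom_gen k a b ha2k hbb hab
  have hθF : ∀ q, θ (F q) = q := by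
    intro q
    exact quat_hom_id k (θ.comp F) (by rw [MonoidHom.comp_apply, hFa, hea])
      (by rw [MonoidHom.comp_apply, hFb, heb]) q
  refine ⟨N i₀, F.range, ⟨le_top, le_top, ?_, ?_, ?_⟩, ⟨⟨⟨fun x y => ?_⟩⟩, ?_⟩, ?_, ?_⟩
  · intro u hu v _
    exact (Subgroup.mem_center_iff.mp (hcen i₀ hu) v).symm
  · rw [eq_bot_iff]
    rintro x ⟨hx1, ⟨q, rfl⟩⟩
    have h5 : q = 1 := by rw [← hθF q]; exact (hθ1 _).mpr hx1
    rw [h5, map_one]; exact Subgroup.mem_bot.mpr rfl
  · rw [eq_top_iff]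
    intro s _
    have e1 : s = (s * (F (θ s))⁻¹) * F (θ s) := by group
    rw [e1]
    apply Subgroup.mul_mem_sup
    · rw [← hθ1, map_mul, map_inv, hθF, mul_inv_cancel]
    · exact ⟨_, rfl⟩
  · exact Subtype.ext ((Subgroup.mem_center_iff.mp (hcen i₀ x.2) y).symm)
  · intro u hu
    rw [pow_two]; exact h2 u (hcen i₀ hu)
  · intro hc
    apply hnc
    refine ⟨⟨fun X Y => ?_⟩⟩
    obtain ⟨x, rfl⟩ := QuotientGroup.mk_surjective X
    obtain ⟨y, rfl⟩ := QuotientGroup.mk_surjective Y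
    have hmk : ∀ s : S, (QuotientGroup.mk s : S ⧸ N i₀) = QuotientGroup.mk (F (θ s)) := by
      intro s
      rw [QuotientGroup.eq, ← hθ1, map_mul, map_inv, hθF, inv_mul_cancel]
    have hcm : F (θ x) * F (θ y) = F (θ y) * F (θ x) := by
      have h5 := hc.is_comm.comm (⟨F (θ x), ⟨_, rfl⟩⟩ : ↥F.range) ⟨F (θ y), ⟨_, rfl⟩⟩
      exact congrArg Subtype.val h5
    rw [hmk x, hmk y, ← QuotientGroup.mk_mul, ← QuotientGroup.mk_mul, hcm]
  · have hFinj : Function.Injective F := fun q₁ q₂ h => by rw [← hθF q₁, ← hθF q₂, h]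
    have hQu : ∀ q₁ q₂ : QuaternionGroup k, orderOf q₁ = 2 → orderOf q₂ = 2 → q₁ = q₂ := by
      intro q₁ q₂ hq₁ hq₂
      apply e.symm.injective
      have o1 : orderOf (e.symm q₁) = 2 := by rw [MulEquiv.orderOf_eq]; exact hq₁
      have o2 : orderOf (e.symm q₂) = 2 := by rw [MulEquiv.orderOf_eq]; exact hq₂
      exact (hx₀u _ o1).trans (hx₀u _ o2).symm
    have hqo : orderOf ((QuaternionGroup.a 1 : QuaternionGroup k) ^ k) = 2 := by
      apply orderOf_eq_prime
      · rw [pow_two]; exact hqa2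
      · exact hqa
    have hmem : a ^ k ∈ F.range := ⟨(QuaternionGroup.a 1) ^ k, by rw [map_pow, hFa]⟩
    refine ⟨⟨a ^ k, hmem⟩, ?_, ?_⟩
    · show orderOf (⟨a ^ k, hmem⟩ : ↥F.range) = 2
      rw [← Subgroup.orderOf_coe]
      show orderOf (a ^ k) = 2
      rw [← hFa, ← map_pow, orderOf_injective F hFinj]; exact hqo
    · rintro ⟨y, ⟨q, rfl⟩⟩ hy
      have hy' : orderOf q = 2 := by
        rw [← Subgroup.orderOf_coe] at hy
        rw [← orderOf_injective F hFinj]; exact hy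
      apply Subtype.ext
      show F q = a ^ k
      rw [hQu q _ hy' hqo, map_pow, hFa]



/-- Let S be a finite 2-group whose centre Z(S) has n ≥ 2 distinct maximal subgroups C₁, …, Cₙ with trivial intersection such that each quotient S/Cᵢ is a non-abelian group with exactly one involution (a generalized quaternion group). Then S is the internal direct product of an elementary abelian subgroup and a non-abelian subgroup with exactly one involution. -/
theorem result {S : Type*} [Group S] [Finite S]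
    (hS : IsPGroup 2 S) (n : ℕ) (hn : 2 ≤ n) (C : Fin n → Subgroup ↥(Subgroup.center S))
    (hCmax : ∀ i, IsCoatom (C i)) (hCinj : Function.Injective C) (hCint : ⨅ i, C i = ⊥)
    (hCq : ∀ i, ∃ (_ : ((C i).map (Subgroup.center S).subtype).Normal),
      ¬ IsMulCommutative (S ⧸ (C i).map (Subgroup.center S).subtype) ∧
      ∃! x : S ⧸ (C i).map (Subgroup.center S).subtype, orderOf x = 2) :
    ∃ E Q : Subgroup S, Cfsg.IsInternalDirectProduct E Q ⊤ ∧ Cfsg.IsElementaryAbelian 2 E ∧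
      ¬ IsMulCommutative ↥Q ∧ ∃! x : ↥Q, orderOf x = 2 := by
  classical
  haveI : Fact (Nat.Prime 2) := ⟨Nat.prime_two⟩
  have hZp : IsPGroup 2 ↥(Subgroup.center S) := hS.to_subgroup _
  have hidx2 : ∀ i, (C i).index = 2 := fun i => index_two_of_isCoatom hZp (C i) (hCmax i)
  have hmem : ∀ i (u : S) (hu : u ∈ Subgroup.center S),
      u ∈ (C i).map (Subgroup.center S).subtype ↔ (⟨u, hu⟩ : ↥(Subgroup.center S)) ∈ C i := by
    intro i u hu
    constructor
    · rintro ⟨d, hd, hdu⟩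
      have h5 : d = ⟨u, hu⟩ := Subtype.ext hdu
      rw [← h5]; exact hd
    · intro h; exact ⟨_, h, rfl⟩
  refine aux hS (⟨0, by omega⟩ : Fin n) (fun i => (C i).map (Subgroup.center S).subtype)
    ?_ ?_ ?_ ?_ hCq
  · intro i; rintro _ ⟨d, -, rfl⟩; exact d.2
  · intro i u hu v hv hun hvn
    rw [hmem i u hu] at hun
    rw [hmem i v hv] at hvn
    rw [hmem i (u * v) (mul_mem hu hv)]
    have h5 : (⟨u * v, mul_mem hu hv⟩ : ↥(Subgroup.center S)) = ⟨u, hu⟩ * ⟨v, hv⟩ := rfl
    rw [h5, Subgroup.mul_mem_iff_of_index_two (hidx2 i)]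
    exact ⟨fun h => absurd h hun, fun h => absurd h hvn⟩
  · intro u hu
    have huZ : u ∈ Subgroup.center S := by
      obtain ⟨d, -, rfl⟩ := hu (⟨0, by omega⟩ : Fin n); exact d.2
    have h5 : (⟨u, huZ⟩ : ↥(Subgroup.center S)) ∈ ⨅ i, C i := by
      rw [Subgroup.mem_iInf]; intro i; exact (hmem i u huZ).mp (hu i)
    rw [hCint, Subgroup.mem_bot] at h5
    exact congrArg Subtype.val h5
  · intro i
    have hne : C i ≠ ⊤ := (hCmax i).1
    obtain ⟨d, hd⟩ : ∃ d, d ∉ C i := by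
      by_contra hcon; push Not at hcon
      exact hne (eq_top_iff.mpr (fun d _ => hcon d))
    exact ⟨d.1, d.2, fun h => hd ((hmem i d.1 d.2).mp h)⟩

end Cfsg.Agent.S3201
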