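import Cfsg.Statements.S3202
import Mathlib
import Cfsg.Agent.Helper19.RootSub
import Cfsg.Agent.S0016
-- import your own Cfsg.Agent.* helpers here

set_option autoImplicit false
open Cfsg

namespace Cfsg.Agent.S3202

open Cfsg.Agent.Helper19

theorem aux {S : Type*} [Group S] [Finite S] (hS : IsPGroup 2 S) (N : Subgroup S) [N.Normal]
    (hcen : N ≤ Subgroup.center S) (hnc : ¬ IsMulCommutative (S ⧸ N))
    (hu : ∃! x : S ⧸ N, orderOf x = 2) :
    ∃ C : Subgroup S, C ≠ ⊥ ∧ IsCyclic ↥C ∧ C.Characteristic := by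
  classical
  haveI : Fact (Nat.Prime 2) := ⟨Nat.prime_two⟩
  obtain ⟨x₀, hx₀, hx₀u⟩ := hu
  have hQp : IsPGroup 2 (S ⧸ N) := hS.to_quotient N
  have huniq : ∀ H K : Subgroup (S ⧸ N), Nat.card H = 2 → Nat.card K = 2 → H = K := by
    have key : ∀ H : Subgroup (S ⧸ N), Nat.card H = 2 → H = Subgroup.zpowers x₀ := by
      intro H hH
      have hne : ∃ h ∈ H, h ≠ 1 := by
        by_contra hcon
        push Not at hcon
        have h1 : H = ⊥ := (Subgroup.eq_bot_iff_forall _).mpr hcon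
        rw [h1, Subgroup.card_bot] at hH
        omega
      obtain ⟨h, hhH, hh1⟩ := hne
      have h2 := zp_eq_of_prime Nat.prime_two hH hhH hh1
      have h3 : orderOf h = 2 := by rw [← Nat.card_zpowers, h2, hH]
      rw [← h2, hx₀u h h3]
    intro H K hH hK
    rw [key H hH, key K hK]
  rcases Cfsg.Agent.S0016.result 2 hQp huniq with hcyc | ⟨-, n, ⟨e⟩⟩
  · exfalso; apply hnc
    obtain ⟨g, hg⟩ := hcyc.exists_generator
    refine ⟨⟨fun x y => ?_⟩⟩
    obtain ⟨i, rfl⟩ := Subgroup.mem_zpowers_iff.mp (hg x)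
    obtain ⟨j, rfl⟩ := Subgroup.mem_zpowers_iff.mp (hg y)
    rw [← zpow_add, ← zpow_add, add_comm]
  haveI : NeZero (2 ^ n) := ⟨by positivity⟩
  obtain ⟨a, ha⟩ := QuotientGroup.mk_surjective (s := N) (e.symm (QuaternionGroup.a 1))
  obtain ⟨b, hb⟩ := QuotientGroup.mk_surjective (s := N) (e.symm (QuaternionGroup.xa 0))
  have hea : e (QuotientGroup.mk a) = QuaternionGroup.a 1 := by
    rw [ha]; exact e.apply_symm_apply _
  have heb : e (QuotientGroup.mk b) = QuaternionGroup.xa 0 := by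
    rw [hb]; exact e.apply_symm_apply _
  have hcentral : ∀ d ∈ N, ∀ g : S, Commute d g := by
    intro d hd g
    exact (Subgroup.mem_center_iff.mp (hcen hd) g).symm
  have hrel : b⁻¹ * (a * b * a) ∈ N := by
    rw [← QuotientGroup.eq]
    apply e.injective
    rw [QuotientGroup.mk_mul, QuotientGroup.mk_mul, map_mul, map_mul, hea, heb]
    simp
  obtain ⟨d₁, hd₁⟩ : ∃ d₁, d₁ = b⁻¹ * (a * b * a) := ⟨_, rfl⟩
  rw [← hd₁] at hrel
  have hd₁c := hcentral d₁ hrel
  have haba : a * b * a = b * d₁ := by rw [hd₁]; group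
  have hbab : b * a * b⁻¹ = a⁻¹ * d₁ := by
    have e1 : b * a * b⁻¹ = a⁻¹ * (a * b * a) * b⁻¹ := by group
    rw [e1, haba, ← (hd₁c b).eq]
    group
  obtain ⟨c, hc⟩ : ∃ c, c = a * a * d₁⁻¹ := ⟨_, rfl⟩
  have hac : Commute a c := by
    rw [hc]
    exact ((Commute.refl a).mul_right (Commute.refl a)).mul_right (hd₁c a).symm.inv_right
  have hbc : b * c * b⁻¹ = c⁻¹ := by
    have e1 : b * c * b⁻¹ = (b * a * b⁻¹) * (b * a * b⁻¹) * (b * d₁⁻¹ * b⁻¹) := by
      rw [hc]; group
    have e2 : b * d₁⁻¹ * b⁻¹ = d₁⁻¹ := by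
      rw [((hd₁c b).inv_left).symm.eq]
      group
    rw [e1, hbab, e2, hc]
    have e3 : a⁻¹ * d₁ * (a⁻¹ * d₁) * d₁⁻¹ = (a⁻¹ * d₁) * a⁻¹ := by group
    rw [e3, ← ((hd₁c a).inv_right).eq]
    group
  have hq : ∀ q : QuaternionGroup (2 ^ n), ∃ j : ℕ, q = (QuaternionGroup.a 1) ^ j ∨
      q = QuaternionGroup.xa 0 * (QuaternionGroup.a 1) ^ j := by
    haveI : NeZero (2 * 2 ^ n) := ⟨by positivity⟩
    intro q
    cases q with
    | a i => exact ⟨i.val, Or.inl (by rw [QuaternionGroup.a_one_pow, ZMod.natCast_zmod_val])⟩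
    | xa i =>
      exact ⟨i.val, Or.inr (by
        rw [QuaternionGroup.a_one_pow, QuaternionGroup.xa_mul_a, zero_add,
          ZMod.natCast_zmod_val])⟩
  have hform : ∀ g : S, ∃ (ε j : ℕ) (d : S), d ∈ N ∧ g = b ^ ε * a ^ j * d ∧ (ε = 0 ∨ ε = 1) := by
    intro g
    obtain ⟨j, hj⟩ := hq (e (QuotientGroup.mk g))
    rcases hj with hj | hj
    · refine ⟨0, j, (a ^ j)⁻¹ * g, ?_, by group, Or.inl rfl⟩
      rw [← QuotientGroup.eq]
      apply e.injective
      rw [QuotientGroup.mk_pow, map_pow, hea, hj]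
    · refine ⟨1, j, (b * a ^ j)⁻¹ * g, ?_, by group, Or.inr rfl⟩
      rw [← QuotientGroup.eq]
      apply e.injective
      rw [QuotientGroup.mk_mul, QuotientGroup.mk_pow, map_mul, map_pow, hea, heb, hj]
  obtain ⟨Z, hZ⟩ : ∃ Z : Subgroup S, Z = Subgroup.zpowers c := ⟨_, rfl⟩
  have hcZ : c ∈ Z := by rw [hZ]; exact Subgroup.mem_zpowers c
  have hZn : Z.Normal := by
    refine ⟨fun z hz g => ?_⟩
    rw [hZ] at hz ⊢
    obtain ⟨k, rfl⟩ := Subgroup.mem_zpowers_iff.mp hz
    rw [← conj_zpow]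
    apply zpow_mem
    obtain ⟨ε, j, d, hd, hg, hε | hε⟩ := hform g
    · have h1 : Commute g c := by
        rw [hg, hε, pow_zero, one_mul]
        exact (hac.pow_left j).mul_left (hcentral d hd c)
      rw [h1.eq, mul_inv_cancel_right]; exact Subgroup.mem_zpowers c
    · have h1 : Commute (a ^ j * d) c := (hac.pow_left j).mul_left (hcentral d hd c)
      have e1 : g * c * g⁻¹ = b * ((a ^ j * d) * c * (a ^ j * d)⁻¹) * b⁻¹ := by
        rw [hg, hε, pow_one]; group
      rw [e1, h1.eq, mul_inv_cancel_right, hbc]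
      exact inv_mem (Subgroup.mem_zpowers c)
  haveI := hZn
  have hcomm_le : commutator S ≤ Z := by
    rw [commutator_def, Subgroup.commutator_le]
    intro u _ v _
    have hAB : Commute (QuotientGroup.mk a : S ⧸ Z) (QuotientGroup.mk b) := by
      have e1 : a * b = c * (b * a) := by
        have h2 : Commute d₁⁻¹ (b * a) := (hd₁c (b * a)).inv_left
        symm
        calc c * (b * a) = a * a * (d₁⁻¹ * (b * a)) := by rw [hc]; group
          _ = a * (a * b * a) * d₁⁻¹ := by rw [h2.eq]; group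
          _ = a * b := by rw [haba]; group
      show (QuotientGroup.mk a : S ⧸ Z) * QuotientGroup.mk b
        = QuotientGroup.mk b * QuotientGroup.mk a
      rw [← QuotientGroup.mk_mul, ← QuotientGroup.mk_mul, e1, QuotientGroup.mk_mul,
        (QuotientGroup.eq_one_iff c).mpr hcZ, one_mul]
    have hD : ∀ d ∈ N, ∀ X : S ⧸ Z, Commute (QuotientGroup.mk d : S ⧸ Z) X := by
      intro d hd X
      obtain ⟨x, rfl⟩ := QuotientGroup.mk_surjective X
      show (QuotientGroup.mk d : S ⧸ Z) * QuotientGroup.mk x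
        = QuotientGroup.mk x * QuotientGroup.mk d
      rw [← QuotientGroup.mk_mul, ← QuotientGroup.mk_mul, (hcentral d hd x).eq]
    obtain ⟨ε, j, d, hd, hu, -⟩ := hform u
    obtain ⟨ε', j', d', hd', hv, -⟩ := hform v
    have hU : (QuotientGroup.mk u : S ⧸ Z) = (QuotientGroup.mk b) ^ ε * (QuotientGroup.mk a) ^ j
        * QuotientGroup.mk d := by
      rw [hu, QuotientGroup.mk_mul, QuotientGroup.mk_mul, QuotientGroup.mk_pow,
        QuotientGroup.mk_pow]
    have hV : (QuotientGroup.mk v : S ⧸ Z) = (QuotientGroup.mk b) ^ ε' * (QuotientGroup.mk a) ^ j'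
        * QuotientGroup.mk d' := by
      rw [hv, QuotientGroup.mk_mul, QuotientGroup.mk_mul, QuotientGroup.mk_pow,
        QuotientGroup.mk_pow]
    have hUV : Commute (QuotientGroup.mk u : S ⧸ Z) (QuotientGroup.mk v) := by
      rw [hU, hV]
      have c1 : Commute ((QuotientGroup.mk b : S ⧸ Z) ^ ε)
          ((QuotientGroup.mk b) ^ ε' * (QuotientGroup.mk a) ^ j' * QuotientGroup.mk d') :=
        (((Commute.refl _).pow_pow ε ε').mul_right (hAB.symm.pow_pow ε j')).mul_right
          (hD d' hd' _).symm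
      have c2 : Commute ((QuotientGroup.mk a : S ⧸ Z) ^ j)
          ((QuotientGroup.mk b) ^ ε' * (QuotientGroup.mk a) ^ j' * QuotientGroup.mk d') :=
        ((hAB.pow_pow j ε').mul_right ((Commute.refl _).pow_pow j j')).mul_right
          (hD d' hd' _).symm
      exact (c1.mul_left c2).mul_left (hD d hd _)
    rw [← QuotientGroup.eq_one_iff, commutatorElement_def, QuotientGroup.mk_mul,
      QuotientGroup.mk_mul, QuotientGroup.mk_mul, QuotientGroup.mk_inv, QuotientGroup.mk_inv,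
      hUV.eq, mul_inv_cancel_right, mul_inv_cancel]
  refine ⟨commutator S, ?_, ?_, inferInstance⟩
  · intro hbot
    apply hnc
    rw [commutator_eq_bot_iff_center_eq_top] at hbot
    refine ⟨⟨fun X Y => ?_⟩⟩
    obtain ⟨x, rfl⟩ := QuotientGroup.mk_surjective X
    obtain ⟨y, rfl⟩ := QuotientGroup.mk_surjective Y
    have hx : x ∈ Subgroup.center S := by rw [hbot]; exact Subgroup.mem_top x
    rw [← QuotientGroup.mk_mul, ← QuotientGroup.mk_mul, Subgroup.mem_center_iff.mp hx y]
  · haveI : IsCyclic Z := by rw [hZ]; infer_instance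
    exact Subgroup.isCyclic_of_le hcomm_le


/-- Let S be a finite 2-group of 2-rank exactly 2 and D a maximal subgroup of the centre of S such that S/D is a non-abelian group with exactly one involution (a generalized quaternion group). Then S has a nontrivial cyclic characteristic subgroup. -/
theorem result {S : Type*} [Group S]
    [Finite S] (hS : IsPGroup 2 S) (hr2 : Cfsg.PRankLE 2 2 S) (hr1 : ¬ Cfsg.PRankLE 2 1 S)
    (D : Subgroup ↥(Subgroup.center S)) (hD : IsCoatom D)
    (hq : ∃ (_ : (D.map (Subgroup.center S).subtype).Normal),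
      ¬ IsMulCommutative (S ⧸ D.map (Subgroup.center S).subtype) ∧
      ∃! x : S ⧸ D.map (Subgroup.center S).subtype, orderOf x = 2) :
    ∃ C : Subgroup S, C ≠ ⊥ ∧ IsCyclic ↥C ∧ C.Characteristic := by
  obtain ⟨hN, hnc, hu⟩ := hq
  have hcen : D.map (Subgroup.center S).subtype ≤ Subgroup.center S := by
    rintro _ ⟨d, -, rfl⟩; exact d.2
  exact @aux S _ _ hS (D.map (Subgroup.center S).subtype) hN hcen hnc hu

end Cfsg.Agent.S3202
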