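import Cfsg.Statements.S3208
import Mathlib
-- import your own Cfsg.Agent.* helpers here

set_option autoImplicit false
open Cfsg

namespace Cfsg.Agent.S3208

theorem mem_zpowers_two {G : Type*} [Group G] {j z : G} (hj : orderOf j = 2)
    (hz : z ∈ Subgroup.zpowers j) : z = 1 ∨ z = j := by
  obtain ⟨k, hk⟩ := Subgroup.mem_zpowers_iff.mp hz
  rw [← zpow_mod_orderOf, hj] at hk
  simp only [Nat.cast_ofNat] at hk
  rcases Int.emod_two_eq_zero_or_one k with h0 | h1
  · rw [h0] at hk; left; simpa using hk.symm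
  · rw [h1] at hk; right; simpa using hk.symm

theorem conj_fix_of_char {G : Type*} [Group G] (T : Subgroup G) (j g : G) (hj : orderOf j = 2)
    (hjT : j ∈ T) (hchar : ((Subgroup.zpowers j).subgroupOf T).Characteristic)
    (h1 : ∀ t ∈ T, g * t * g⁻¹ ∈ T) (h2 : ∀ t ∈ T, g⁻¹ * t * g ∈ T) : g * j * g⁻¹ = j := by
  let φ : T ≃* T :=
    { toFun := fun t => ⟨g * t * g⁻¹, h1 t t.2⟩
      invFun := fun t => ⟨g⁻¹ * t * g, h2 t t.2⟩
      left_inv := fun t => Subtype.ext (by simp [mul_assoc])
      right_inv := fun t => Subtype.ext (by simp [mul_assoc])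
      map_mul' := fun a b => Subtype.ext (by simp [mul_assoc]) }
  have hfix := hchar.fixed φ
  have hj' : (⟨j, hjT⟩ : T) ∈ (Subgroup.zpowers j).subgroupOf T := by
    rw [Subgroup.mem_subgroupOf]; exact Subgroup.mem_zpowers j
  rw [← hfix] at hj'
  have h3 : g * j * g⁻¹ ∈ Subgroup.zpowers j := by
    have h4 : φ ⟨j, hjT⟩ ∈ (Subgroup.zpowers j).subgroupOf T := hj'
    rw [Subgroup.mem_subgroupOf] at h4
    exact h4
  rcases mem_zpowers_two hj h3 with h | h
  · exfalso
    have : j = 1 := by simpa using h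
    rw [this] at hj; simp at hj
  · exact h


/-- Let j be an involution of a finite group G, H a subgroup of G, and T a Sylow 2-subgroup of H ∩ C_G(j) containing j such that ⟨j⟩ is a characteristic subgroup of T. Then T is a Sylow 2-subgroup of H. -/
theorem result {G : Type*} [Group G] [Finite G]
    (j : G) (hj : orderOf j = 2) (H T : Subgroup G) (hT : T ≤ H ⊓ Subgroup.centralizer ({j} : Set G)) (h2 : IsPGroup 2 ↥T)
    (hSyl : ¬ 2 ∣ T.relIndex (H ⊓ Subgroup.centralizer ({j} : Set G))) (hjT : j ∈ T)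
    (hchar : ((Subgroup.zpowers j).subgroupOf T).Characteristic) :
    ¬ 2 ∣ T.relIndex H := by
  intro hdvd
  haveI : Fact (Nat.Prime 2) := ⟨Nat.prime_two⟩
  set C := Subgroup.centralizer ({j} : Set G) with hC
  have hTH : T ≤ H := hT.trans inf_le_left
  have hTC : T ≤ C := hT.trans inf_le_right
  have hT'p : IsPGroup 2 (T.subgroupOf H) := h2.comap_subtype
  obtain ⟨n, hn⟩ := IsPGroup.iff_card.mp hT'p
  have hmod := Sylow.card_quotient_normalizer_modEq_card_quotient (p := 2) (H := T.subgroupOf H) hn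
  have hdvdN : 2 ∣ (T.subgroupOf H).relIndex (Subgroup.normalizer ((T.subgroupOf H : Subgroup H) : Set H)) := by
    have h3 : 2 ∣ Nat.card (H ⧸ T.subgroupOf H) := hdvd
    exact (Nat.modEq_zero_iff_dvd).mp (hmod.trans ((Nat.modEq_zero_iff_dvd).mpr h3))
  have hNC : Subgroup.normalizer ((T.subgroupOf H : Subgroup H) : Set H) ≤ C.subgroupOf H := by
    intro n hn
    rw [Subgroup.mem_subgroupOf, hC, Subgroup.mem_centralizer_iff]
    intro z hz
    rw [Set.mem_singleton_iff] at hz; subst hz
    have h1 : ∀ t ∈ T, (n : G) * t * (n : G)⁻¹ ∈ T := by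
      intro t ht
      have := (Subgroup.mem_normalizer_iff.mp hn ⟨t, hTH ht⟩).mp
        (by simpa [Subgroup.mem_subgroupOf] using ht)
      simpa [Subgroup.mem_subgroupOf] using this
    have h2' : ∀ t ∈ T, (n : G)⁻¹ * t * (n : G) ∈ T := by
      intro t ht
      have := (Subgroup.mem_normalizer_iff.mp (inv_mem hn) ⟨t, hTH ht⟩).mp
        (by simpa [Subgroup.mem_subgroupOf] using ht)
      simpa [Subgroup.mem_subgroupOf] using this
    have h5 := conj_fix_of_char T z n hj hjT hchar h1 h2'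
    calc z * (n : G) = ((n : G) * z * (n : G)⁻¹) * n := by rw [h5]
      _ = n * z := by simp [mul_assoc]
  have hT'N : T.subgroupOf H ≤ Subgroup.normalizer ((T.subgroupOf H : Subgroup H) : Set H) :=
    Subgroup.le_normalizer
  have hrel := Subgroup.relIndex_mul_relIndex (T.subgroupOf H) _ (C.subgroupOf H) hT'N hNC
  have hrel2 : (T.subgroupOf H).relIndex (C.subgroupOf H) = T.relIndex (H ⊓ C) := by
    rw [← Subgroup.inf_subgroupOf_left C H]
    exact Subgroup.relIndex_subgroupOf inf_le_left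
  apply hSyl
  rw [← hrel2, ← hrel]
  exact Dvd.dvd.mul_right hdvdN _

end Cfsg.Agent.S3208
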