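import Cfsg.Statements.S3213
import Mathlib
import Cfsg.Agent.Helper19.Sp4
-- import your own Cfsg.Agent.* helpers here

set_option autoImplicit false
open Cfsg

namespace Cfsg.Agent.S3213

/-- Let F be the field with 3 elements and K the field with 5 elements. For every injective homomorphism φ from SL₂(K) into the symplectic group Sp₄(F) (4 × 4 matrices g with g J gᵀ = J for the standard alternating matrix J) and every element x of order 3 of SL₂(K), the vectors of F⁴ fixed by φ(x) form a 2-dimensional subspace that is totally isotropic for the alternating form defined by J. -/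
theorem result {F : Type*} [Field F] [Fintype F] (hF : Fintype.card F = 3)
    {K : Type*} [Field K] [Fintype K] (hK : Fintype.card K = 5)
    (φ : Matrix.SpecialLinearGroup (Fin 2) K →* ↥(Matrix.symplecticGroup (Fin 2) F)) (hφ : Function.Injective φ)
    (x : Matrix.SpecialLinearGroup (Fin 2) K) (hx : orderOf x = 3) :
    Module.finrank F ↥(LinearMap.ker (Matrix.toLin' ((φ x : Matrix (Fin 2 ⊕ Fin 2) (Fin 2 ⊕ Fin 2) F)) - LinearMap.id)) = 2 ∧
      ∀ v w : Fin 2 ⊕ Fin 2 → F, (φ x : Matrix (Fin 2 ⊕ Fin 2) (Fin 2 ⊕ Fin 2) F).mulVec v = v →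
        (φ x : Matrix (Fin 2 ⊕ Fin 2) (Fin 2 ⊕ Fin 2) F).mulVec w = w →
          dotProduct v ((Matrix.J (Fin 2) F).mulVec w) = 0 := by
  classical
  have h3 : (3 : F) = 0 := by
    have := Nat.cast_card_eq_zero F
    rw [hF] at this
    exact_mod_cast this
  have hx3 : x * x * x = 1 := by
    have := pow_orderOf_eq_one x
    rw [hx] at this
    rw [← this, pow_succ, pow_succ, pow_one]
  have hx1 : x ≠ 1 := by
    intro h
    rw [h, orderOf_one] at hx
    exact absurd hx (by norm_num)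
  obtain ⟨i, z, y, hzz, hz1, hzc, hii, hrel, hy5, hy1⟩ :=
    Cfsg.Agent.Helper19.Sp4.sl25_quat hK x hx3 hx1
  have hcoe : ∀ g h : Matrix.SpecialLinearGroup (Fin 2) K,
      (φ (g * h)).1 = (φ g).1 * (φ h).1 := by
    intro g h; rw [map_mul]; rfl
  have hcoe1 : (φ 1).1 = 1 := by rw [map_one]; rfl
  have hinj : ∀ g : Matrix.SpecialLinearGroup (Fin 2) K, (φ g).1 = 1 → g = 1 := by
    intro g hg
    apply hφ
    rw [map_one]
    exact Subtype.ext hg
  have hA : Matrix.transpose (φ x).1 * Matrix.J (Fin 2) F * (φ x).1 = Matrix.J (Fin 2) F :=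
    SymplecticGroup.mem_iff'.mp (φ x).2
  have hA3 : (φ x).1 * (φ x).1 * (φ x).1 = 1 := by
    rw [← hcoe, ← hcoe, hx3, hcoe1]
  have hZ : (φ z).1 = -1 := by
    apply Cfsg.Agent.Helper19.Sp4.sp_neg_one hF (φ z).1 (φ y).1
    · rw [← hcoe, ← hcoe, ← hcoe, ← hcoe, hy5, hcoe1]
    · intro h; exact hy1 (hinj y h)
    · rw [← hcoe, hzz, hcoe1]
    · intro h; exact hz1 (hinj z h)
    · rw [← hcoe, ← hcoe, hzc]
  have hI : (φ i).1 * (φ i).1 = -1 := by rw [← hcoe, hii, hZ]
  have hrel' : ((φ x).1 * (φ i).1 * ((φ x).1 * (φ x).1)) * (φ i).1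
      = -((φ i).1 * ((φ x).1 * (φ i).1 * ((φ x).1 * (φ x).1))) := by
    have := congrArg (fun g => (φ g).1) hrel
    simp only [hcoe, hZ] at this
    rw [this, neg_one_mul]
  exact Cfsg.Agent.Helper19.Sp4.sp_main h3 (φ x).1 (φ i).1 hA hA3 hI hrel'

end Cfsg.Agent.S3213
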