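import Cfsg.Statements.S3276
import Mathlib
-- import your own Cfsg.Agent.* helpers here

set_option autoImplicit false
open Cfsg

namespace Cfsg.Agent.S3276

/-- Let x and y be commuting, non-conjugate involutions of a finite group G, and suppose that for every involution u commuting with x, each conjugate of y that commutes with u also commutes with y. Then the normal closure of y is a proper, normal, elementary abelian 2-subgroup of G; and if y is the only involution of that normal closure commuting with x, it has order at most 4. -/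
theorem result {G : Type*} [Group G] [Finite G] (x y : G) (hx : orderOf x = 2) (hy : orderOf y = 2)
    (hxy : Commute x y) (hnc : ¬ IsConj x y)
    (hstar : ∀ u : G, orderOf u = 2 → Commute u x → ∀ g : G, Commute (g * y * g⁻¹) u → Commute (g * y * g⁻¹) y) :
    Subgroup.normalClosure ({y} : Set G) ≠ ⊤ ∧ Cfsg.IsElementaryAbelian 2 (Subgroup.normalClosure ({y} : Set G)) ∧
      ((∀ u ∈ Subgroup.normalClosure ({y} : Set G), orderOf u = 2 → Commute u x → u = y) →
        Nat.card ↥(Subgroup.normalClosure ({y} : Set G)) ≤ 4) := by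
  have hx2 : x * x = 1 := by have := pow_orderOf_eq_one x; rw [hx, pow_two] at this; exact this
  have hy2 : y * y = 1 := by have := pow_orderOf_eq_one y; rw [hy, pow_two] at this; exact this
  have hy2' : ∀ t : G, y * (y * t) = t := fun t => by rw [← mul_assoc, hy2, one_mul]
  have hx1 : x ≠ 1 := by rintro rfl; simp at hx
  have hy1 : y ≠ 1 := by rintro rfl; simp at hy
  have hxinv : x⁻¹ = x := inv_eq_of_mul_eq_one_left hx2
  have hyinv : y⁻¹ = y := inv_eq_of_mul_eq_one_left hy2
  have step1 : ∀ g : G, Commute (g * y * g⁻¹) y := by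
    intro g
    set w := g * y * g⁻¹ with hw
    have hw2 : w * w = 1 := by rw [hw]; simp [mul_assoc, hy2']
    have hwinv : w⁻¹ = w := inv_eq_of_mul_eq_one_left hw2
    set d := x * w with hd
    have hdinv : d⁻¹ = w * x := by rw [hd, mul_inv_rev, hxinv, hwinv]
    have hxd : x * d = d⁻¹ * x := by
      rw [hdinv, hd, ← mul_assoc, hx2, one_mul, mul_assoc, hx2, mul_one]
    have hwd : w * d = d⁻¹ * w := by rw [hdinv, hd, ← mul_assoc]
    have hxdk : ∀ k : ℕ, x * d ^ k = (d⁻¹) ^ k * x := by
      intro k; induction k with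
      | zero => simp
      | succ k ih => rw [pow_succ, ← mul_assoc, ih, mul_assoc, hxd, ← mul_assoc, ← pow_succ]
    have hwdk : ∀ k : ℕ, w * d ^ k = (d⁻¹) ^ k * w := by
      intro k; induction k with
      | zero => simp
      | succ k ih => rw [pow_succ, ← mul_assoc, ih, mul_assoc, hwd, ← mul_assoc, ← pow_succ]
    have hn : 0 < orderOf d := orderOf_pos d
    rcases Nat.even_or_odd (orderOf d) with he | ho
    · obtain ⟨k, hk⟩ := he
      have hkpos : 0 < k := by omega
      set u := d ^ k with hu
      have hu2 : u ^ 2 = 1 := by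
        rw [hu, ← pow_mul, show k * 2 = orderOf d by omega]; exact pow_orderOf_eq_one d
      have hu1 : u ≠ 1 := pow_ne_one_of_lt_orderOf hkpos.ne' (by omega)
      have huo : orderOf u = 2 := orderOf_eq_prime hu2 hu1
      have hdk : (d⁻¹) ^ k = d ^ k := by
        rw [inv_pow]; apply inv_eq_of_mul_eq_one_left; rw [← pow_add, ← hk]; exact pow_orderOf_eq_one d
      have hux : Commute u x := by
        show u * x = x * u
        rw [hu, hxdk, hdk]
      have hwu : Commute w u := by
        show w * u = u * w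
        rw [hu, hwdk, hdk]
      exact hstar u huo hux g hwu
    · exfalso
      obtain ⟨m, hm⟩ := ho
      apply hnc
      have h1 : d ^ m * x = x * (d ^ m)⁻¹ := by
        apply eq_mul_inv_of_mul_eq
        rw [mul_assoc, hxdk m, inv_pow, mul_inv_cancel_left]
      have h2 : (d ^ m)⁻¹ * (d ^ m)⁻¹ = d := by
        have h3 : d ^ m * d ^ m * d = 1 := by
          rw [← pow_add, ← pow_succ, show m + m + 1 = orderOf d by omega]; exact pow_orderOf_eq_one d
        rw [← mul_inv_rev]; exact inv_eq_of_mul_eq_one_right h3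
      have h4 : d ^ m * x * (d ^ m)⁻¹ = w := by
        rw [h1, mul_assoc, h2, hd, ← mul_assoc, hx2, one_mul]
      rw [isConj_iff]
      refine ⟨g⁻¹ * d ^ m, ?_⟩
      have h5 : g⁻¹ * d ^ m * x * (g⁻¹ * d ^ m)⁻¹ = g⁻¹ * (d ^ m * x * (d ^ m)⁻¹) * g := by
        simp [mul_assoc]
      rw [h5, h4, hw]; simp [mul_assoc]
  have step2 : ∀ g h : G, Commute (g * y * g⁻¹) (h * y * h⁻¹) := by
    intro g h
    have e : (h⁻¹ * g * y * (h⁻¹ * g)⁻¹) * y = y * (h⁻¹ * g * y * (h⁻¹ * g)⁻¹) := step1 (h⁻¹ * g)
    show g * y * g⁻¹ * (h * y * h⁻¹) = h * y * h⁻¹ * (g * y * g⁻¹)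
    have e2 := congrArg (fun t => h * t * h⁻¹) e
    simpa [mul_assoc] using e2
  have hgen : ∀ s ∈ Group.conjugatesOfSet ({y} : Set G), ∃ g : G, s = g * y * g⁻¹ := by
    intro s hs
    rw [Group.mem_conjugatesOfSet_iff] at hs
    obtain ⟨a, ha, hconj⟩ := hs
    rw [Set.mem_singleton_iff] at ha; subst ha
    obtain ⟨c, hc⟩ := isConj_iff.mp hconj
    exact ⟨c, hc.symm⟩
  have hNdef : Subgroup.normalClosure ({y} : Set G) = Subgroup.closure (Group.conjugatesOfSet ({y} : Set G)) := rfl
  set N := Subgroup.normalClosure ({y} : Set G) with hN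
  have hNle1 : N ≤ Subgroup.centralizer (Group.conjugatesOfSet ({y} : Set G)) := by
    rw [hNdef]
    refine (Subgroup.closure_le _).mpr (fun s hs => Subgroup.mem_centralizer_iff.mpr (fun t ht => ?_))
    obtain ⟨g, rfl⟩ := hgen s hs
    obtain ⟨h, rfl⟩ := hgen t ht
    exact (step2 h g).eq
  have hNle2 : N ≤ Subgroup.centralizer (N : Set G) := by
    conv_lhs => rw [hNdef]
    refine (Subgroup.closure_le _).mpr (fun s hs => Subgroup.mem_centralizer_iff.mpr (fun k hk => ?_))
    exact ((Subgroup.mem_centralizer_iff.mp (hNle1 hk)) s hs).symm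
  have hNcomm : ∀ a ∈ N, ∀ b ∈ N, a * b = b * a :=
    fun a ha b hb => (Subgroup.mem_centralizer_iff.mp (hNle2 hb) a ha)
  have hNexp : ∀ a ∈ N, a ^ 2 = 1 := by
    let E : Subgroup G :=
      { carrier := {a | a ∈ N ∧ a ^ 2 = 1}
        one_mem' := ⟨one_mem N, one_pow 2⟩
        mul_mem' := by
          intro a b ha hb
          refine ⟨mul_mem ha.1 hb.1, ?_⟩
          have hc : Commute a b := hNcomm a ha.1 b hb.1
          rw [hc.mul_pow, ha.2, hb.2, one_mul]
        inv_mem' := by
          intro a ha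
          exact ⟨inv_mem ha.1, by rw [inv_pow, ha.2, inv_one]⟩ }
    have hNE : N ≤ E := by
      conv_lhs => rw [hNdef]
      refine (Subgroup.closure_le _).mpr (fun s hs => ?_)
      refine ⟨Subgroup.conjugatesOfSet_subset_normalClosure hs, ?_⟩
      obtain ⟨g, rfl⟩ := hgen s hs
      rw [pow_two]; simp [mul_assoc, hy2']
    intro a ha
    exact (hNE ha).2
  have hNtop : N ≠ ⊤ := by
    intro htop
    have hGcomm : ∀ a b : G, a * b = b * a :=
      fun a b => hNcomm a (htop ▸ Subgroup.mem_top a) b (htop ▸ Subgroup.mem_top b)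
    haveI hnorm : (Subgroup.zpowers y).Normal :=
      ⟨fun n hn g => by rw [hGcomm g n, mul_assoc, mul_inv_cancel, mul_one]; exact hn⟩
    have hle : N ≤ Subgroup.zpowers y :=
      Subgroup.normalClosure_le_normal (by simp)
    have hxz : x ∈ Subgroup.zpowers y := hle (htop ▸ Subgroup.mem_top x)
    obtain ⟨k, hk⟩ := Subgroup.mem_zpowers_iff.mp hxz
    rw [← zpow_mod_orderOf, hy] at hk
    simp only [Nat.cast_ofNat] at hk
    rcases Int.emod_two_eq_zero_or_one k with h0 | h1
    · rw [h0] at hk; simp at hk; exact hx1 hk.symm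
    · rw [h1] at hk
      have hxy' : y = x := by simpa using hk
      subst hxy'
      exact hnc (IsConj.refl _)
  refine ⟨hNtop, ⟨IsMulCommutative.of_setLike_mul_comm hNcomm, hNexp⟩, ?_⟩
  intro huniq
  have hNnormal : N.Normal := Subgroup.normalClosure_normal
  have hCN : ∀ n ∈ N, n * x = x * n → n = 1 ∨ n = y := by
    intro n hn hnx
    by_cases h1 : n = 1
    · exact Or.inl h1
    · right
      exact huniq n hn (orderOf_eq_prime (hNexp n hn) h1) hnx
  have hconjN : ∀ n ∈ N, x * n * x⁻¹ ∈ N := fun n hn => hNnormal.conj_mem n hn x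
  have hφ : ∀ n ∈ N, n * (x * n * x⁻¹) = 1 ∨ n * (x * n * x⁻¹) = y := by
    intro n hn
    apply hCN _ (mul_mem hn (hconjN n hn))
    have hc := hNcomm n hn _ (hconjN n hn)
    rw [hxinv] at hc ⊢
    calc n * (x * n * x) * x = n * x * n * (x * x) := by simp only [mul_assoc]
      _ = n * x * n := by rw [hx2, mul_one]
      _ = (x * x) * n * x * n := by rw [hx2, one_mul]
      _ = x * ((x * n * x) * n) := by simp only [mul_assoc]
      _ = x * (n * (x * n * x)) := by rw [hc]
  have hker : ∀ n ∈ N, n * (x * n * x⁻¹) = 1 → n = 1 ∨ n = y := by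
    intro n hn h1
    apply hCN n hn
    have hn2 : n * n = 1 := by rw [← pow_two]; exact hNexp n hn
    have h2 : x * n * x⁻¹ = n := by
      have : n * (x * n * x⁻¹) = n * n := by rw [h1, hn2]
      exact mul_left_cancel this
    calc n * x = (x * n * x⁻¹) * x := by rw [h2]
      _ = x * n := by simp [mul_assoc]
  have hmul : ∀ n ∈ N, ∀ m ∈ N,
      (n * m) * (x * (n * m) * x⁻¹) = (n * (x * n * x⁻¹)) * (m * (x * m * x⁻¹)) := by
    intro n hn m hm
    have hc := hNcomm m hm _ (hconjN n hn)
    calc (n * m) * (x * (n * m) * x⁻¹) = n * (m * (x * n * x⁻¹)) * (x * m * x⁻¹) := by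
          simp [mul_assoc]
      _ = n * ((x * n * x⁻¹) * m) * (x * m * x⁻¹) := by rw [hc]
      _ = _ := by simp only [mul_assoc]
  obtain ⟨n0, hn0⟩ : ∃ n0 : G, ∀ n ∈ N, n = 1 ∨ n = y ∨ n = n0 ∨ n = y * n0 := by
    by_cases hex : ∃ n0 ∈ N, n0 * (x * n0 * x⁻¹) = y
    · obtain ⟨n0, hn0N, hn0⟩ := hex
      refine ⟨n0, fun n hn => ?_⟩
      rcases hφ n hn with h1 | h1
      · rcases hker n hn h1 with h | h
        · exact Or.inl h
        · exact Or.inr (Or.inl h)
      · have h2 : (n * n0) * (x * (n * n0) * x⁻¹) = 1 := by rw [hmul n hn n0 hn0N, h1, hn0, hy2]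
        have hn02 : n0 * n0 = 1 := by rw [← pow_two]; exact hNexp n0 hn0N
        rcases hker _ (mul_mem hn hn0N) h2 with h | h
        · right; right; left
          calc n = n * (n0 * n0) := by rw [hn02, mul_one]
            _ = (n * n0) * n0 := by rw [mul_assoc]
            _ = n0 := by rw [h, one_mul]
        · right; right; right
          calc n = n * (n0 * n0) := by rw [hn02, mul_one]
            _ = (n * n0) * n0 := by rw [mul_assoc]
            _ = y * n0 := by rw [h]
    · refine ⟨1, fun n hn => ?_⟩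
      rcases hφ n hn with h1 | h1
      · rcases hker n hn h1 with h | h
        · exact Or.inl h
        · exact Or.inr (Or.inl h)
      · exact absurd ⟨n, hn, h1⟩ hex
  classical
  have hsub : (N : Set G) ⊆ (({1, y, n0, y * n0} : Finset G) : Set G) := by
    intro n hn
    have := hn0 n hn
    simp only [Finset.coe_insert, Finset.coe_singleton, Set.mem_insert_iff, Set.mem_singleton_iff]
    exact this
  calc Nat.card N = (N : Set G).ncard := Nat.card_coe_set_eq _
    _ ≤ ((({1, y, n0, y * n0} : Finset G)) : Set G).ncard :=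
        Set.ncard_le_ncard hsub (Finset.finite_toSet _)
    _ = ({1, y, n0, y * n0} : Finset G).card := Set.ncard_coe_finset _
    _ ≤ 4 := Finset.card_le_four

end Cfsg.Agent.S3276
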