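import Cfsg.Statements.S3349
import Mathlib
-- import your own Cfsg.Agent.* helpers here

set_option autoImplicit false
open Cfsg

namespace Cfsg.Agent.S3349

open scoped commutatorElement


/-- Let Q be a finite extraspecial p-group and α an automorphism of Q fixing every element of some maximal abelian subgroup of Q. Then the order of α is a power of p. -/
theorem result {Q : Type*} [Group Q] [Finite Q]
    (p : ℕ) [Fact p.Prime] (hQ : Cfsg.IsExtraspecial p Q) (α : MulAut Q)
    (A : Subgroup Q) (hA : IsMulCommutative A) (hmax : ∀ B : Subgroup Q, A ≤ B → IsMulCommutative B → B = A)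
    (hfix : ∀ a ∈ A, α a = a) :
    ∃ k : ℕ, orderOf α = p ^ k := by
  obtain ⟨⟨hp, hfr, hcomm⟩, hcard⟩ := hQ
  have hAcomm : ∀ a ∈ A, ∀ b ∈ A, a * b = b * a := fun a ha b hb => setLike_mul_comm ha hb
  have hCA : ∀ x : Q, (∀ a ∈ A, a * x = x * a) → x ∈ A := by
    intro x hx
    set S : Set Q := insert x (A : Set Q) with hS
    have hScomm : ∀ s ∈ S, ∀ t ∈ S, s * t = t * s := by
      intro s hs t ht
      rcases hs with rfl | hs <;> rcases ht with rfl | ht
      · rfl
      · exact (hx t ht).symm
      · exact hx s hs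
      · exact hAcomm s hs t ht
    set K := Subgroup.closure S with hK
    have h1 : K ≤ Subgroup.centralizer S :=
      (Subgroup.closure_le _).mpr (fun s hs => Subgroup.mem_centralizer_iff.mpr (fun t ht => hScomm t ht s hs))
    have h2 : K ≤ Subgroup.centralizer (K : Set Q) :=
      (Subgroup.closure_le _).mpr (fun s hs => Subgroup.mem_centralizer_iff.mpr
        (fun k hk => ((Subgroup.mem_centralizer_iff.mp (h1 hk)) s hs).symm))
    have hKc : IsMulCommutative K :=
      IsMulCommutative.of_setLike_mul_comm (fun a ha b hb => (Subgroup.mem_centralizer_iff.mp (h2 hb) a ha))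
    have hAK : A ≤ K := fun a ha => Subgroup.subset_closure (Set.mem_insert_of_mem _ ha)
    have hKA := hmax K hAK hKc
    rw [← hKA]
    exact Subgroup.subset_closure (Set.mem_insert _ _)
  have hZA : ∀ z ∈ Subgroup.center Q, z ∈ A :=
    fun z hz => hCA z (fun a _ => (Subgroup.mem_center_iff.mp hz a))
  have hc : ∀ x : Q, x⁻¹ * α x ∈ A := by
    intro x
    apply hCA
    intro a ha
    have h1 : ⁅x, a⁆ ∈ Subgroup.center Q := by
      rw [← hcomm, commutator_def]
      exact Subgroup.commutator_mem_commutator (Subgroup.mem_top x) (Subgroup.mem_top a)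
    have h2 : α ⁅x, a⁆ = ⁅x, a⁆ := hfix _ (hZA _ h1)
    rw [commutatorElement_def, map_mul, map_mul, map_mul, map_inv, map_inv, hfix a ha] at h2
    have h3 : α x * a * (α x)⁻¹ = x * a * x⁻¹ := by
      have := congrArg (· * a) h2
      simpa using this
    have h4 : x⁻¹ * (α x * a * (α x)⁻¹) * α x = x⁻¹ * (x * a * x⁻¹) * α x := by rw [h3]
    simp [mul_assoc] at h4
    rw [← h4]
    simp [mul_assoc]
  have hpow : ∀ (k : ℕ) (x : Q), (α ^ k) x = x * (x⁻¹ * α x) ^ k := by
    intro k
    induction k with
    | zero => intro x; simp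
    | succ k ih =>
      intro x
      rw [pow_succ', MulAut.mul_apply, ih, map_mul, map_pow, hfix _ (hc x), pow_succ']
      simp [mul_assoc]
  have hα : α ^ (Nat.card Q) = 1 := by
    ext x
    rw [hpow, pow_card_eq_one']
    simp
  obtain ⟨n, hn⟩ := IsPGroup.iff_card.mp hp
  have hdvd : orderOf α ∣ p ^ n := by rw [← hn]; exact orderOf_dvd_of_pow_eq_one hα
  obtain ⟨k, -, hk⟩ := (Nat.dvd_prime_pow (Fact.out)).mp hdvd
  exact ⟨k, hk⟩

end Cfsg.Agent.S3349
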