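import Cfsg.Statements.S3498
import Mathlib

set_option autoImplicit false
open Cfsg

namespace Cfsg.Agent.S3498

theorem card_sup_dvd {G : Type*} [Group G] [Finite G] (M N : Subgroup G)
    (hMN : M ≤ Subgroup.normalizer (N : Set G)) :
    Nat.card (M ⊔ N : Subgroup G) ∣ Nat.card N * Nat.card M := by
  have h1 := Subgroup.card_mul_index (N.subgroupOf (M ⊔ N))
  have h2 : Nat.card (N.subgroupOf (M ⊔ N)) = Nat.card N :=
    Nat.card_congr (Subgroup.subgroupOfEquivOfLe le_sup_right).toEquiv
  let _ := Subgroup.normal_subgroupOf_of_le_normalizer hMN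
  let _ := Subgroup.normal_subgroupOf_sup_of_le_normalizer hMN
  have e := QuotientGroup.quotientInfEquivProdNormalizerQuotient M N hMN
  have h3 : (N.subgroupOf (M ⊔ N)).index = (N.subgroupOf M).index := by
    rw [Subgroup.index_eq_card, Subgroup.index_eq_card]
    exact (Nat.card_congr e.toEquiv).symm
  have h4 : (N.subgroupOf M).index ∣ Nat.card M := Subgroup.index_dvd_card _
  rw [← h1, h2, h3]
  exact Nat.mul_dvd_mul_left _ h4

theorem not_pgroup {G : Type*} [Group G] [Finite G] (T : Subgroup G) (hT : IsSimpleGroup T)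
    (hTc : ¬ IsMulCommutative T) (r : ℕ) [Fact r.Prime] : ¬ IsPGroup r T := by
  intro h
  have hnil : Group.IsNilpotent T := h.isNilpotent
  have hsol : Group.IsSolvable T := inferInstance
  exact hTc ⟨⟨fun a b => IsSimpleGroup.comm_iff_isSolvable.mpr hsol a b⟩⟩

/-- A maximal subgroup of a finite almost simple group does not have prime order. Here G is almost simple in the sense that it has a non-abelian simple normal subgroup T with trivial centralizer. -/
theorem result {G : Type*} [Group G] [Finite G] (T : Subgroup G) [T.Normal] (hT : IsSimpleGroup T) (hTc : ¬ IsMulCommutative T)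
    (hC : Subgroup.centralizer (T : Set G) = ⊥) (H : Subgroup G) (hmax : IsCoatom H) : ¬ (Nat.card H).Prime := by
  classical
  intro hprime
  obtain ⟨p, hp⟩ : ∃ p, Nat.card H = p := ⟨_, rfl⟩
  rw [hp] at hprime
  have : Fact p.Prime := ⟨hprime⟩
  have hHp : IsPGroup p H := IsPGroup.of_card (n := 1) (by rw [hp, pow_one])
  -- Step A: H is a Sylow p-subgroup
  obtain ⟨P, hHP⟩ := hHp.exists_le_sylow
  have hPH : (P : Subgroup G) = H := by
    rcases eq_or_lt_of_le hHP with h | h
    · exact h.symm
    · exfalso
      have htop := hmax.2 _ h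
      have hPp : IsPGroup p (P : Subgroup G) := P.2
      have : IsPGroup p T := hPp.to_le (by rw [htop]; exact le_top)
      exact not_pgroup T hT hTc p this
  -- H is commutative
  have hcycH : IsCyclic H := isCyclic_of_prime_card hp
  have hcommH : ∀ a ∈ H, ∀ b ∈ H, a * b = b * a := by
    intro a ha b hb
    have := (IsCyclic.isMulCommutative (α := H)).is_comm.comm ⟨a, ha⟩ ⟨b, hb⟩
    exact congrArg Subtype.val this
  -- Step B: N_G(H) = H
  have hnorm : Subgroup.normalizer (H : Set G) = H := by
    rcases eq_or_lt_of_le (Subgroup.le_normalizer : H ≤ Subgroup.normalizer (H : Set G)) with h | h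
    · exact h.symm
    · exfalso
      have htop := hmax.2 _ h
      have hHn : H.Normal := Subgroup.normalizer_eq_top_iff.mp htop
      have hsub : (H.subgroupOf T).Normal := hHn.subgroupOf T
      rcases hsub.eq_bot_or_eq_top with h1 | h1
      · rw [Subgroup.subgroupOf_eq_bot] at h1
        have hle : H ≤ Subgroup.centralizer (T : Set G) := by
          intro x hx
          rw [Subgroup.mem_centralizer_iff]
          intro y hy
          exact ((Subgroup.commute_of_normal_of_disjoint H T hHn inferInstance h1 x y hx hy).eq).symm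
        rw [hC, le_bot_iff] at hle
        rw [hle, Subgroup.card_bot] at hp
        exact hprime.one_lt.ne hp
      · rw [Subgroup.subgroupOf_eq_top] at h1
        exact not_pgroup T hT hTc p (hHp.to_le h1)
  -- Step C
  have hP : Subgroup.normalizer ((P : Subgroup G) : Set G) ≤ Subgroup.centralizer ((P : Subgroup G) : Set G) := by
    rw [hPH, hnorm]
    intro x hx
    rw [Subgroup.mem_centralizer_iff]
    intro y hy
    exact hcommH y hy x hx
  -- Step D: Burnside
  set φ := MonoidHom.transferSylow P hP with hφ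
  set K := φ.ker with hK
  have hcompl : K.IsComplement' (P : Subgroup G) := MonoidHom.ker_transferSylow_isComplement' P hP
  have hpK : ¬ p ∣ Nat.card K := MonoidHom.not_dvd_card_ker_transferSylow P hP
  have hdisj : Disjoint K H := by rw [← hPH]; exact hcompl.disjoint
  have hcardG : Nat.card K * p = Nat.card G := by
    have := hcompl.card_mul_card
    rw [hPH, hp] at this
    exact this
  -- Step E: T ≤ K
  have hTK : T ≤ K := by
    have hker : (φ.comp T.subtype).ker.Normal := inferInstance
    rcases hker.eq_bot_or_eq_top with h1 | h1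
    · exfalso
      apply hTc
      refine ⟨⟨fun a b => ?_⟩⟩
      have hinj : Function.Injective (φ.comp T.subtype) := (MonoidHom.ker_eq_bot_iff _).mp h1
      apply hinj
      rw [map_mul, map_mul]
      apply Subtype.ext
      have hmem1 : (((φ.comp T.subtype) a : (P : Subgroup G)) : G) ∈ H := by
        rw [← hPH]; exact ((φ.comp T.subtype) a).2
      have hmem2 : (((φ.comp T.subtype) b : (P : Subgroup G)) : G) ∈ H := by
        rw [← hPH]; exact ((φ.comp T.subtype) b).2
      exact hcommH _ hmem1 _ hmem2
    · intro t ht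
      have : (⟨t, ht⟩ : T) ∈ (φ.comp T.subtype).ker := by rw [h1]; exact Subgroup.mem_top _
      rw [MonoidHom.mem_ker] at this
      rw [hK, MonoidHom.mem_ker]
      exact this
  -- Step F
  have hTnt : Nontrivial T := hT.toNontrivial
  have hTcard : Nat.card T ≠ 1 := by
    intro h
    rw [Nat.card_eq_one_iff_unique] at h
    exact not_subsingleton T h.1
  obtain ⟨r, hr, hrT⟩ := Nat.exists_prime_and_dvd hTcard
  have : Fact r.Prime := ⟨hr⟩
  have hrK : r ∣ Nat.card K := dvd_trans hrT (Subgroup.card_dvd_of_le hTK)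
  have hKn : K.Normal := by rw [hK]; infer_instance
  let _ : MulDistribMulAction H K :=
    MulDistribMulAction.compHom K ((MulAut.conjNormal (H := K)).comp H.subtype)
  have hcardSyl : ¬ p ∣ Nat.card (Sylow r K) := by
    intro hdiv
    obtain ⟨Q₀⟩ : Nonempty (Sylow r K) := inferInstance
    have h1 := Q₀.card_dvd_index
    have h2 : (Q₀ : Subgroup K).index ∣ Nat.card K := Subgroup.index_dvd_card _
    exact hpK (dvd_trans hdiv (dvd_trans h1 h2))
  have hHp' : IsPGroup p H := hHp
  obtain ⟨Q, hQ⟩ := hHp'.nonempty_fixed_point_of_prime_not_dvd_card (Sylow r K) hcardSyl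
  rw [MulAction.mem_fixedPoints] at hQ
  set Q' : Subgroup G := (Q : Subgroup K).map K.subtype with hQ'
  have hQ'K : Q' ≤ K := by
    rw [hQ']
    intro x hx
    obtain ⟨y, _, rfl⟩ := hx
    exact y.2
  have hQne : (Q : Subgroup K) ≠ ⊥ := Q.ne_bot_of_dvd_card hrK
  have hQ'ne : Q' ≠ ⊥ := by
    rw [hQ']
    intro h
    apply hQne
    rw [← Subgroup.map_eq_bot_iff_of_injective _ K.subtype_injective]
    exact h
  have hnormQ : H ≤ Subgroup.normalizer (Q' : Set G) := by
    rw [Subgroup.le_normalizer_iff]
    intro h hh k hk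
    obtain ⟨y, hy, rfl⟩ := hk
    have hfix := hQ ⟨h, hh⟩
    have hmem : (⟨h, hh⟩ : H) • y ∈ (((⟨h, hh⟩ : H) • Q : Sylow r K) : Subgroup K) := by
      rw [Sylow.pointwise_smul_def]
      exact Subgroup.smul_mem_pointwise_smul y _ _ hy
    rw [hfix] at hmem
    refine ⟨(⟨h, hh⟩ : H) • y, hmem, ?_⟩
    rfl
  rcases eq_or_lt_of_le (le_sup_left : H ≤ H ⊔ Q') with h | h
  · have hle : Q' ≤ H := by rw [h]; exact le_sup_right
    have : Q' ≤ K ⊓ H := le_inf hQ'K hle
    rw [hdisj.eq_bot, le_bot_iff] at this
    exact hQ'ne this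
  · have htop := hmax.2 _ h
    have hdvd := card_sup_dvd H Q' hnormQ
    rw [htop, Subgroup.card_top, hp, ← hcardG] at hdvd
    have hdvd' : Nat.card K ∣ Nat.card Q' := (Nat.mul_dvd_mul_iff_right hprime.pos).mp hdvd
    have hQ'card : Nat.card Q' = Nat.card (Q : Subgroup K) := by
      rw [hQ']
      exact Subgroup.card_map_of_injective K.subtype_injective
    obtain ⟨n, hn⟩ := (IsPGroup.iff_card (p := r)).mp Q.2
    rw [hQ'card, hn] at hdvd'
    obtain ⟨m, _, hm⟩ := (Nat.dvd_prime_pow hr).mp hdvd'
    have hKr : IsPGroup r K := IsPGroup.of_card hm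
    exact not_pgroup T hT hTc r (hKr.to_le hTK)

end Cfsg.Agent.S3498
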