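import Cfsg.Statements.S3504
import Mathlib

set_option autoImplicit false
open Cfsg

namespace Cfsg.Agent.S3504

open Equiv

theorem type_of_fpf {n : ℕ} (g : Perm (Fin n)) (hq : (orderOf g).Prime) (hfix : ∀ i, g i ≠ i) :
    orderOf g ∣ n ∧ g.cycleType = Multiset.replicate (n / orderOf g) (orderOf g) := by
  obtain ⟨k, hk⟩ := Perm.cycleType_prime_order hq
  have hsupp : g.support = Finset.univ := by
    ext i
    simp [Perm.mem_support, hfix i]
  have hsum : g.cycleType.sum = n := by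
    rw [Perm.sum_cycleType, hsupp, Finset.card_univ, Fintype.card_fin]
  rw [hk, Multiset.sum_replicate, smul_eq_mul] at hsum
  have hdvd : orderOf g ∣ n := Dvd.intro_left (k + 1) hsum
  refine ⟨hdvd, ?_⟩
  rw [hk]
  congr 1
  exact (Nat.div_eq_of_eq_mul_left hq.pos hsum.symm).symm

theorem lcm_replicate (p m : ℕ) : (Multiset.replicate (m + 1) p).lcm = p := by
  induction m with
  | zero => simp
  | succ m ih => rw [Multiset.replicate_succ, Multiset.lcm_cons, ih]; simp

theorem exists_fpf {n p : ℕ} (hp : p.Prime) (hpn : p ∣ n) (hn : 0 < n) :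
    ∃ g : Perm (Fin n), orderOf g = p ∧ ∀ i, g i ≠ i := by
  have hex : ∃ g : Perm (Fin n), g.cycleType = Multiset.replicate (n / p) p := by
    rw [Perm.exists_with_cycleType_iff]
    refine ⟨?_, ?_⟩
    · rw [Multiset.sum_replicate, smul_eq_mul, Fintype.card_fin, Nat.div_mul_cancel hpn]
    · intro a ha
      rw [Multiset.eq_of_mem_replicate ha]
      exact hp.two_le
  obtain ⟨g, hg⟩ := hex
  have hpos : 0 < n / p := Nat.div_pos (Nat.le_of_dvd hn hpn) hp.pos
  have hord : orderOf g = p := by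
    rw [← Perm.lcm_cycleType, hg]
    obtain ⟨m, hm⟩ := Nat.exists_eq_succ_of_ne_zero hpos.ne'
    rw [hm]
    exact lcm_replicate p m
  refine ⟨g, hord, ?_⟩
  have hsupp : g.support.card = n := by
    rw [← Perm.sum_cycleType, hg, Multiset.sum_replicate, smul_eq_mul, Nat.div_mul_cancel hpn]
  have huniv : g.support = Finset.univ :=
    Finset.eq_univ_of_card _ (by rw [hsupp, Fintype.card_fin])
  intro i
  have hi : i ∈ g.support := huniv ▸ Finset.mem_univ i
  exact Perm.mem_support.mp hi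

/-- For n ≥ 5, the fixed-point-free permutations of prime order in the symmetric group of degree n form a single conjugacy class if and only if n is a prime power. -/
theorem result (n : ℕ) (hn : 5 ≤ n) :
    Nat.card {c : ConjClasses (Equiv.Perm (Fin n)) // ∃ g : Equiv.Perm (Fin n), ConjClasses.mk g = c ∧ (orderOf g).Prime ∧ ∀ i : Fin n, g i ≠ i} = 1 ↔ IsPrimePow n := by
  rw [isPrimePow_iff_unique_prime_dvd]
  constructor
  · intro h
    rw [Nat.card_eq_one_iff_unique] at h
    obtain ⟨hsub, -⟩ := h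
    obtain ⟨p, hp, hpn⟩ := Nat.exists_prime_and_dvd (show n ≠ 1 by omega)
    refine ⟨p, ⟨hp, hpn⟩, ?_⟩
    rintro q ⟨hq, hqn⟩
    obtain ⟨g, hg, hgf⟩ := exists_fpf hp hpn (by omega)
    obtain ⟨g', hg', hgf'⟩ := exists_fpf hq hqn (by omega)
    have := hsub.elim ⟨ConjClasses.mk g, g, rfl, hg ▸ hp, hgf⟩
      ⟨ConjClasses.mk g', g', rfl, hg' ▸ hq, hgf'⟩
    have h2 : ConjClasses.mk g = ConjClasses.mk g' := congrArg Subtype.val this
    rw [ConjClasses.mk_eq_mk_iff_isConj] at h2
    have h3 := Perm.isConj_iff_cycleType_eq.mp h2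
    have h4 : orderOf g = orderOf g' := by
      rw [← Perm.lcm_cycleType, ← Perm.lcm_cycleType, h3]
    rw [hg, hg'] at h4
    exact h4.symm
  · rintro ⟨p, ⟨hp, hpn⟩, huniq⟩
    rw [Nat.card_eq_one_iff_unique]
    constructor
    · constructor
      rintro ⟨c, g, rfl, hgp, hgf⟩ ⟨c', g', rfl, hgp', hgf'⟩
      apply Subtype.ext
      show ConjClasses.mk g = ConjClasses.mk g'
      rw [ConjClasses.mk_eq_mk_iff_isConj, Perm.isConj_iff_cycleType_eq]
      obtain ⟨h1, h2⟩ := type_of_fpf g hgp hgf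
      obtain ⟨h1', h2'⟩ := type_of_fpf g' hgp' hgf'
      have e1 : orderOf g = p := huniq _ ⟨hgp, h1⟩
      have e2 : orderOf g' = p := huniq _ ⟨hgp', h1'⟩
      rw [h2, h2', e1, e2]
    · obtain ⟨g, hg, hgf⟩ := exists_fpf hp hpn (by omega)
      exact ⟨⟨ConjClasses.mk g, g, rfl, hg ▸ hp, hgf⟩⟩

end Cfsg.Agent.S3504
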