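import Cfsg.Statements.S3508
import Mathlib
-- import your own Cfsg.Agent.* helpers here

set_option autoImplicit false
open Cfsg

namespace Cfsg.Agent.S3508

open Polynomial in
/-- module lemma: a `p`-power order operator on `𝔽_p^m`. -/
theorem mod_lemma (p : ℕ) [Fact p.Prime] {V : Type*} [AddCommGroup V] [Module (ZMod p) V]
    [Finite V] (m : ℕ) (hV : Nat.card V = p ^ m) (f : Module.End (ZMod p) V) (r : ℕ)
    (hf : f ^ (p ^ r) = 1) (s : ℕ) (hs : m < p ^ s) :
    f ^ (p ^ s) = 1 ∧ ∑ i ∈ Finset.range (p ^ s), f ^ i = 0 := by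
  have hp : p.Prime := Fact.out
  have hfin : Module.finrank (ZMod p) V = m := by
    have h1 := Module.natCard_eq_pow_finrank (K := ZMod p) (V := V)
    rw [hV, Nat.card_zmod] at h1
    exact (Nat.pow_right_injective hp.two_le h1).symm
  have e1 : ∀ n : ℕ, ((X : (ZMod p)[X]) - 1) ^ (p ^ n) = X ^ (p ^ n) - 1 := by
    intro n
    rw [sub_pow_char_pow, one_pow]
  have a1 : ∀ n : ℕ, (f - 1) ^ (p ^ n) = f ^ (p ^ n) - 1 := by
    intro n
    have := congrArg (aeval f) (e1 n)
    simpa using this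
  have hnil : IsNilpotent (f - 1) := ⟨p ^ r, by rw [a1 r, hf, sub_self]⟩
  have hm : (f - 1) ^ m = 0 := by
    have h1 := hnil.charpoly_eq_X_pow_finrank
    have h2 := LinearMap.aeval_self_charpoly (f - 1)
    rw [h1, hfin] at h2
    simpa using h2
  have hge : ∀ n, m ≤ n → (f - 1) ^ n = 0 := by
    intro n hn
    obtain ⟨k, rfl⟩ := Nat.exists_eq_add_of_le hn
    rw [pow_add, hm, zero_mul]
  refine ⟨?_, ?_⟩
  · have := a1 s
    rw [hge _ hs.le] at this
    exact (sub_eq_zero.mp this.symm)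
  · have e2 : (∑ i ∈ Finset.range (p ^ s), (X : (ZMod p)[X]) ^ i) = (X - 1) ^ (p ^ s - 1) := by
      have h1 : (∑ i ∈ Finset.range (p ^ s), (X : (ZMod p)[X]) ^ i) * (X - 1)
          = (X - 1) ^ (p ^ s - 1) * (X - 1) := by
        rw [geom_sum_mul, ← pow_succ, Nat.sub_add_cancel (Nat.one_le_pow _ _ hp.pos), e1 s]
      have h2 : (X : (ZMod p)[X]) - 1 ≠ 0 := by
        rw [← C_1]; exact X_sub_C_ne_zero 1
      exact mul_right_cancel₀ h2 h1
    have := congrArg (aeval f) e2
    simp only [map_sum, map_pow, aeval_X, map_sub, map_one] at this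
    rw [this]
    exact hge _ (by omega)

/-- group version, with the module structure as an instance. -/
theorem grp_lemma_aux (p : ℕ) [Fact p.Prime] {A : Type*} [CommGroup A] [Finite A]
    [Module (ZMod p) (Additive A)] (m : ℕ) (hcard : Nat.card A = p ^ m) (φ : A →* A) (r : ℕ)
    (hφ : ∀ a, φ^[p ^ r] a = a) (s : ℕ) (hs : m < p ^ s) :
    (∀ a, φ^[p ^ s] a = a) ∧ ∀ a, ∏ i ∈ Finset.range (p ^ s), φ^[i] a = 1 := by
  let f : Module.End (ZMod p) (Additive A) := (MonoidHom.toAdditive φ).toZModLinearMap p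
  have hfi : ∀ (n : ℕ) (x : Additive A),
      (f ^ n) x = Additive.ofMul (φ^[n] (Additive.toMul x)) := by
    intro n
    induction n with
    | zero => intro x; simp
    | succ n ih =>
      intro x
      rw [pow_succ', Module.End.mul_apply, ih, Function.iterate_succ_apply']
      rfl
  have hcardV : Nat.card (Additive A) = p ^ m := hcard
  have hf : f ^ (p ^ r) = 1 := by
    apply LinearMap.ext
    intro x
    rw [hfi, hφ]; rfl
  obtain ⟨h1, h2⟩ := mod_lemma p m hcardV f r hf s hs
  refine ⟨fun a => ?_, fun a => ?_⟩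
  · have := congrArg (fun g : Module.End (ZMod p) (Additive A) => g (Additive.ofMul a)) h1
    simp only [hfi] at this
    exact this
  · have := congrArg (fun g : Module.End (ZMod p) (Additive A) => g (Additive.ofMul a)) h2
    simp only [LinearMap.sum_apply, hfi, LinearMap.zero_apply] at this
    rw [← ofMul_prod] at this
    exact this

/-- group version. -/
theorem grp_lemma (p : ℕ) [Fact p.Prime] {A : Type*} [CommGroup A] [Finite A]
    (hA : ∀ a : A, a ^ p = 1) (m : ℕ) (hcard : Nat.card A = p ^ m) (φ : A →* A) (r : ℕ)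
    (hφ : ∀ a, φ^[p ^ r] a = a) (s : ℕ) (hs : m < p ^ s) :
    (∀ a, φ^[p ^ s] a = a) ∧ ∀ a, ∏ i ∈ Finset.range (p ^ s), φ^[i] a = 1 := by
  letI : Module (ZMod p) (Additive A) := AddCommGroup.zmodModule (n := p) (by
    intro x
    change Additive.ofMul ((Additive.toMul x) ^ p) = Additive.ofMul 1
    rw [hA])
  exact grp_lemma_aux p m hcard φ r hφ s hs


/-- Let a finite group G act faithfully on a set Ω with p ^ m points (p prime) and have an elementary abelian normal p-subgroup N acting regularly on Ω (so G is a group of affine transformations of an m-dimensional space over the field with p elements). If G contains an element of order p ^ r with r ≥ 1, then p ^ (r − 1) ≤ m. In particular an element of order p ^ m forces m ≤ 2, and m ≤ 1 when p is odd. -/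
theorem result {G : Type*} [Group G] [Finite G] {Ω : Type*} [Fintype Ω] [MulAction G Ω] [FaithfulSMul G Ω] (p m : ℕ) (hp : p.Prime) (hcard : Fintype.card Ω = p ^ m)
    (N : Subgroup G) [N.Normal] (hNc : IsMulCommutative N) (hNp : ∀ n ∈ N, n ^ p = 1)
    (hNtr : MulAction.IsPretransitive N Ω) (hNreg : ∀ ω : Ω, MulAction.stabilizer N ω = ⊥)
    (g : G) (r : ℕ) (hr : 1 ≤ r) (hg : orderOf g = p ^ r) :
    p ^ (r - 1) ≤ m ∧ (r = m → m ≤ 2 ∧ (2 < p → m ≤ 1)) := by
  classical
  haveI : Fact p.Prime := ⟨hp⟩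
  have hmain : p ^ (r - 1) ≤ m := by
    by_contra hlt
    push Not at hlt
    have hΩ : Nonempty Ω := by
      have : 0 < Fintype.card Ω := by rw [hcard]; exact pow_pos hp.pos m
      exact Fintype.card_pos_iff.mp this
    obtain ⟨ω₀⟩ := hΩ
    have hNcard : Nat.card N = p ^ m := by
      have h1 := MulAction.index_stabilizer_of_transitive N ω₀
      rw [hNreg ω₀, Subgroup.index_bot] at h1
      rw [h1, Nat.card_eq_fintype_card, hcard]
    letI : CommGroup N :=
      { (inferInstance : Group N) with mul_comm := fun a b => hNc.is_comm.comm a b }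
    have hNp' : ∀ a : N, a ^ p = 1 := fun a => Subtype.ext (by simpa using hNp a.1 a.2)
    let φ : N →* N := (MulAut.conjNormal g : MulAut N).toMonoidHom
    have hφi : ∀ (i : ℕ) (a : N), ((φ^[i] a : N) : G) = g ^ i * a * (g ^ i)⁻¹ := by
      intro i
      induction i with
      | zero => intro a; simp
      | succ i ih =>
        intro a
        rw [Function.iterate_succ_apply']
        change g * ((φ^[i] a : N) : G) * g⁻¹ = _
        rw [ih, pow_succ']; group
    have hφr : ∀ a, φ^[p ^ r] a = a := by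
      intro a
      apply Subtype.ext
      rw [hφi, ← hg, pow_orderOf_eq_one]; simp
    obtain ⟨h1, h2⟩ := grp_lemma p hNp' m hNcard φ r hφr (r - 1) hlt
    obtain ⟨v, hv⟩ := MulAction.exists_smul_eq N ω₀ (g • ω₀)
    have hv' : (v : G) • ω₀ = g • ω₀ := hv
    have hfix : ((v : G)⁻¹ * g) • ω₀ = ω₀ := by
      rw [mul_smul, ← hv', inv_smul_smul]
    have hw : ∀ k : ℕ, ∃ w : N, (w : G) = g ^ k * (((v : G)⁻¹ * g) ^ k)⁻¹ ∧
        w = ∏ i ∈ Finset.range k, φ^[i] v := by
      intro k
      induction k with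
      | zero => exact ⟨1, by simp, by simp⟩
      | succ k ih =>
        obtain ⟨w, hw1, hw2⟩ := ih
        refine ⟨φ^[k] v * w, ?_, ?_⟩
        · rw [Subgroup.coe_mul, hφi, hw1]
          have e : (v : G) = g * ((v : G)⁻¹ * g)⁻¹ := by group
          generalize ((v : G)⁻¹ * g) = h at e ⊢
          rw [e, pow_succ, pow_succ]; group
        · rw [Finset.prod_range_succ, hw2, mul_comm]
    obtain ⟨w, hw1, hw2⟩ := hw (p ^ (r - 1))
    rw [h2 v] at hw2
    have hgq : g ^ (p ^ (r - 1)) = ((v : G)⁻¹ * g) ^ (p ^ (r - 1)) := by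
      have : (1 : G) = g ^ (p ^ (r - 1)) * (((v : G)⁻¹ * g) ^ (p ^ (r - 1)))⁻¹ := by
        rw [← hw1, hw2]; rfl
      exact (mul_inv_eq_one.mp this.symm)
    have hg1 : g ^ (p ^ (r - 1)) = 1 := by
      apply FaithfulSMul.eq_of_smul_eq_smul (α := Ω)
      intro ω
      obtain ⟨n, hn⟩ := MulAction.exists_smul_eq N ω₀ ω
      have hn' : (n : G) • ω₀ = ω := hn
      have hc : g ^ (p ^ (r - 1)) * (n : G) = (n : G) * g ^ (p ^ (r - 1)) := by
        have := congrArg Subtype.val (h1 n)
        rw [hφi] at this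
        exact mul_inv_eq_iff_eq_mul.mp this
      have hst : ((v : G)⁻¹ * g) ^ (p ^ (r - 1)) • ω₀ = ω₀ :=
        Subgroup.pow_mem (MulAction.stabilizer G ω₀) hfix _
      rw [one_smul, ← hn', ← mul_smul, hc, mul_smul, hgq, hst]
    have h3 := orderOf_dvd_of_pow_eq_one hg1
    rw [hg] at h3
    have h4 : p ^ r ≤ p ^ (r - 1) := Nat.le_of_dvd (pow_pos hp.pos _) h3
    have h5 : p ^ (r - 1) < p ^ r := Nat.pow_lt_pow_right hp.one_lt (by omega)
    omega
  refine ⟨hmain, fun hrm => ?_⟩
  subst hrm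
  refine ⟨?_, fun hp2 => ?_⟩
  · by_contra hcon
    push Not at hcon
    obtain ⟨n, rfl⟩ : ∃ n, r = n + 3 := ⟨r - 3, by omega⟩
    have h1 : 2 ^ (n + 2) ≤ p ^ (n + 2) := Nat.pow_le_pow_left hp.two_le _
    have h2 : n < 2 ^ n := Nat.lt_two_pow_self
    have h3 : 2 ^ (n + 2) = 4 * 2 ^ n := by ring
    have h4 : n + 3 - 1 = n + 2 := by omega
    rw [h4] at hmain
    omega
  · by_contra hcon
    push Not at hcon
    obtain ⟨n, rfl⟩ : ∃ n, r = n + 2 := ⟨r - 2, by omega⟩
    have h1 : 3 ^ (n + 1) ≤ p ^ (n + 1) := Nat.pow_le_pow_left (by omega) _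
    have h2 : n < 3 ^ n := Nat.lt_pow_self (by norm_num)
    have h3 : 3 ^ (n + 1) = 3 * 3 ^ n := by ring
    have h4 : n + 2 - 1 = n + 1 := by omega
    rw [h4] at hmain
    omega

end Cfsg.Agent.S3508
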