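import Cfsg.Statements.S3511

set_option autoImplicit false
open Cfsg

namespace Cfsg.Agent.S3511

theorem squarefree_rad (n : ℕ) : Squarefree (∏ p ∈ n.primeFactors, p) := by
  apply Finset.squarefree_prod_of_pairwise_isCoprime
  · intro p hp q hq hpq
    have hp' := Nat.prime_of_mem_primeFactors hp
    have hq' := Nat.prime_of_mem_primeFactors hq
    exact Nat.coprime_iff_isRelPrime.mp ((Nat.coprime_primes hp' hq').mpr hpq)
  · intro p hp
    exact (Nat.prime_of_mem_primeFactors hp).prime.squarefree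

/-- Let a finite group G act faithfully on a set Ω. If every element of G of square-free order has a regular cycle (an orbit of the cyclic group it generates with trivial stabilizer), then every element of G has a regular cycle. -/
theorem result {G : Type*} [Group G] [Finite G] {Ω : Type*} [MulAction G Ω] [FaithfulSMul G Ω]
    (h : ∀ g : G, Squarefree (orderOf g) → ∃ ω : Ω, MulAction.stabilizer (Subgroup.zpowers g) ω = ⊥) (g : G) :
    ∃ ω : Ω, MulAction.stabilizer (Subgroup.zpowers g) ω = ⊥ := by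
  classical
  have hnpos : 0 < orderOf g := orderOf_pos g
  set n := orderOf g with hn
  set r := ∏ p ∈ n.primeFactors, p with hr
  have hrn : r ∣ n := Nat.prod_primeFactors_dvd n
  have hrsq : Squarefree r := squarefree_rad n
  have hord : orderOf (g ^ (n / r)) = r := orderOf_pow_orderOf_div hnpos.ne' hrn
  obtain ⟨ω, hω⟩ := h (g ^ (n / r)) (by rw [hord]; exact hrsq)
  refine ⟨ω, ?_⟩
  rw [Subgroup.eq_bot_iff_forall]
  rintro ⟨x, hx⟩ hxstab
  by_contra hx1
  have hx1' : x ≠ 1 := fun h => hx1 (by subst h; rfl)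
  have hox : orderOf x ≠ 1 := by rwa [Ne, orderOf_eq_one_iff]
  obtain ⟨p, hp, hpd⟩ := Nat.exists_prime_and_dvd hox
  have hoy : orderOf (x ^ (orderOf x / p)) = p := orderOf_pow_orderOf_div (orderOf_pos x).ne' hpd
  set y := x ^ (orderOf x / p) with hy
  have hyg : y ∈ Subgroup.zpowers g := Subgroup.pow_mem _ hx _
  have hy_mem : y ∈ Subgroup.zpowers (g ^ (n / r)) := by
    obtain ⟨i, hi⟩ := (mem_powers_iff_mem_zpowers).mpr hyg
    have hi' : g ^ i = y := hi
    have h1 : g ^ (i * p) = 1 := by rw [pow_mul, hi', ← hoy, pow_orderOf_eq_one]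
    have hdiv : n ∣ i * p := orderOf_dvd_of_pow_eq_one h1
    have hpn : p ∣ n := by rw [← hoy]; exact orderOf_dvd_of_mem_zpowers hyg
    have hpr : p ∣ r := Finset.dvd_prod_of_mem _ (Nat.mem_primeFactors.mpr ⟨hp, hpn, hnpos.ne'⟩)
    obtain ⟨a, ha⟩ := hpr
    obtain ⟨b, hb⟩ := hrn
    have hnr : n / r = b := by
      rw [hb]; exact Nat.mul_div_cancel_left b (Nat.pos_of_ne_zero (by
        intro h0; rw [h0, zero_mul] at hb; omega))
    have hdiv2 : a * b ∣ i := by
      have : p * (a * b) ∣ p * i := by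
        have : p * (a * b) = n := by rw [hb, ha]; ring
        rw [this, mul_comm p i]; exact hdiv
      exact (Nat.mul_dvd_mul_iff_left hp.pos).mp this
    obtain ⟨c, hc⟩ := hdiv2
    rw [← hi', hc, hnr]
    have : g ^ (a * b * c) = (g ^ b) ^ (a * c) := by rw [← pow_mul]; congr 1; ring
    rw [this]
    exact Subgroup.pow_mem _ (Subgroup.mem_zpowers _) _
  have hxG : x ∈ MulAction.stabilizer G ω := by
    rw [MulAction.mem_stabilizer_iff] at hxstab ⊢
    exact hxstab
  have hyG : y ∈ MulAction.stabilizer G ω := Subgroup.pow_mem _ hxG _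
  have hmem : (⟨y, hy_mem⟩ : Subgroup.zpowers (g ^ (n / r))) ∈
      MulAction.stabilizer (Subgroup.zpowers (g ^ (n / r))) ω := by
    rw [MulAction.mem_stabilizer_iff] at hyG ⊢
    exact hyG
  rw [hω, Subgroup.mem_bot] at hmem
  have hy1 : y = 1 := congrArg Subtype.val hmem
  rw [← orderOf_eq_one_iff, hoy] at hy1
  exact hp.one_lt.ne' hy1

end Cfsg.Agent.S3511
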