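import Cfsg.Statements.S3514
import Mathlib

set_option autoImplicit false
open Cfsg

namespace Cfsg.Agent.S3514

open MulAction

theorem relIndex_sup_normal {M : Type*} [Group M] [Finite M] (K S : Subgroup M) [K.Normal] :
    S.relIndex (S ⊔ K) = S.relIndex K := by
  have h1 : K.relIndex (S ⊔ K) = K.relIndex S := Subgroup.relIndex_sup_right S K
  have h2 := Subgroup.relIndex_mul_index (le_sup_right : K ≤ S ⊔ K)
  have h3 := Subgroup.relIndex_mul_index (le_sup_left : S ≤ S ⊔ K)
  have h4 := Subgroup.relIndex_mul_index (inf_le_right : K ⊓ S ≤ S)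
  have h5 := Subgroup.relIndex_mul_index (inf_le_left : K ⊓ S ≤ K)
  rw [Subgroup.inf_relIndex_right] at h4
  rw [Subgroup.inf_relIndex_left] at h5
  have hne1 : K.relIndex S ≠ 0 := by
    unfold Subgroup.relIndex
    exact Subgroup.index_ne_zero_of_finite
  have hne2 : (S ⊔ K).index ≠ 0 := Subgroup.index_ne_zero_of_finite
  have h6 : K.relIndex S * (S.relIndex (S ⊔ K) * (S ⊔ K).index) =
      K.relIndex S * (S.relIndex K * (S ⊔ K).index) := by
    rw [h3, h4, ← h5, ← h2, h1]
    ring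
  have h7 := Nat.eq_of_mul_eq_mul_left (Nat.pos_of_ne_zero hne1) h6
  exact Nat.eq_of_mul_eq_mul_right (Nat.pos_of_ne_zero hne2) h7

theorem card_orbitSet {L V : Type*} [Group L] [MulAction L V] [Finite V] (X : Subgroup L) (v : V) :
    Nat.card {u : V | ∃ x ∈ X, x • v = u} = (stabilizer L v).relIndex X := by
  have h1 : {u : V | ∃ x ∈ X, x • v = u} = orbit X v := by
    ext u
    constructor
    · rintro ⟨x, hx, rfl⟩
      exact ⟨⟨x, hx⟩, rfl⟩
    · rintro ⟨x, rfl⟩
      exact ⟨x.1, x.2, rfl⟩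
  have h2 : stabilizer X v = (stabilizer L v).subgroupOf X := by
    ext x
    rw [mem_stabilizer_iff, Subgroup.mem_subgroupOf, mem_stabilizer_iff]
    rfl
  rw [h1, Nat.card_coe_set_eq, ← index_stabilizer, h2]
  rfl

/-- Let p be a prime, V a finite vector space over the field with p elements, and H a group of linear transformations of V all of whose orbits on V have size coprime to p. (i) Every normal subgroup K of H has all its orbits on V of size coprime to p. (ii) If N is a group of linear transformations of V of order coprime to p that is normalized by H, then the group generated by N and H has all its orbits on V of size coprime to p. -/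
theorem result (p : ℕ) [Fact p.Prime] {V : Type*} [AddCommGroup V] [Module (ZMod p) V] [Finite V]
    (H : Subgroup (V ≃ₗ[ZMod p] V)) (hH : ∀ v : V, ¬ p ∣ Nat.card {u : V | ∃ h ∈ H, h v = u}) :
    (∀ K : Subgroup (V ≃ₗ[ZMod p] V), K ≤ H → H ≤ Subgroup.normalizer (K : Set (V ≃ₗ[ZMod p] V)) →
        ∀ v : V, ¬ p ∣ Nat.card {u : V | ∃ k ∈ K, k v = u}) ∧
    (∀ N : Subgroup (V ≃ₗ[ZMod p] V), ¬ p ∣ Nat.card N → H ≤ Subgroup.normalizer (N : Set (V ≃ₗ[ZMod p] V)) →
        ∀ v : V, ¬ p ∣ Nat.card {u : V | ∃ x ∈ N ⊔ H, x v = u}) := by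
  have hfin : Finite (V ≃ₗ[ZMod p] V) :=
    Finite.of_injective (fun f : V ≃ₗ[ZMod p] V => (f : V → V)) DFunLike.coe_injective
  have key : ∀ (X : Subgroup (V ≃ₗ[ZMod p] V)) (v : V),
      Nat.card {u : V | ∃ x ∈ X, x v = u} = (stabilizer (V ≃ₗ[ZMod p] V) v).relIndex X :=
    fun X v => card_orbitSet X v
  have hH' : ∀ v, ¬ p ∣ (stabilizer (V ≃ₗ[ZMod p] V) v).relIndex H := fun v => key H v ▸ hH v
  constructor
  · intro K hKH hHK v
    rw [key]
    intro hdvd
    apply hH' v
    refine dvd_trans hdvd ?_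
    have hn : (K.subgroupOf H).Normal := Subgroup.normal_subgroupOf_of_le_normalizer hHK
    have h1 := relIndex_sup_normal (K.subgroupOf H) ((stabilizer (V ≃ₗ[ZMod p] V) v).subgroupOf H)
    have h2 := Subgroup.relIndex_mul_index
      (le_sup_left : (stabilizer (V ≃ₗ[ZMod p] V) v).subgroupOf H ≤
        (stabilizer (V ≃ₗ[ZMod p] V) v).subgroupOf H ⊔ K.subgroupOf H)
    rw [h1, Subgroup.relIndex_subgroupOf hKH] at h2
    exact ⟨_, h2.symm⟩
  · intro N hN hHN v
    rw [key]
    have hNM : N ≤ N ⊔ H := le_sup_left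
    have hHM : H ≤ N ⊔ H := le_sup_right
    have hMn : N ⊔ H ≤ Subgroup.normalizer (N : Set (V ≃ₗ[ZMod p] V)) :=
      sup_le Subgroup.le_normalizer hHN
    have hn : (N.subgroupOf (N ⊔ H)).Normal := Subgroup.normal_subgroupOf_of_le_normalizer hMn
    have h1 := relIndex_sup_normal (N.subgroupOf (N ⊔ H)) (H.subgroupOf (N ⊔ H))
    have h2 : H.subgroupOf (N ⊔ H) ⊔ N.subgroupOf (N ⊔ H) = ⊤ := by
      rw [← Subgroup.subgroupOf_sup hHM hNM, sup_comm]
      exact Subgroup.subgroupOf_self _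
    rw [h2, Subgroup.relIndex_top_right, Subgroup.relIndex_subgroupOf hNM] at h1
    have h3 : H.relIndex (N ⊔ H) = H.relIndex N := h1
    have h4 : (stabilizer (V ≃ₗ[ZMod p] V) v).relIndex (N ⊔ H) ∣
        ((stabilizer (V ≃ₗ[ZMod p] V) v) ⊓ H).relIndex (N ⊔ H) :=
      Subgroup.relIndex_dvd_of_le_left (N ⊔ H) inf_le_left
    have h5 : ((stabilizer (V ≃ₗ[ZMod p] V) v) ⊓ H).relIndex H * H.relIndex (N ⊔ H) =
        ((stabilizer (V ≃ₗ[ZMod p] V) v) ⊓ H).relIndex (N ⊔ H) :=
      Subgroup.relIndex_mul_relIndex _ _ _ inf_le_right hHM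
    rw [Subgroup.inf_relIndex_right, h3] at h5
    intro hdvd
    have h6 : p ∣ (stabilizer (V ≃ₗ[ZMod p] V) v).relIndex H * H.relIndex N :=
      h5 ▸ dvd_trans hdvd h4
    rcases (Nat.Prime.dvd_mul Fact.out).mp h6 with h | h
    · exact hH' v h
    · exact hN (dvd_trans h (Subgroup.relIndex_dvd_card H N))

end Cfsg.Agent.S3514
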