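import Cfsg.Statements.S3516
import Mathlib

set_option autoImplicit false
open Cfsg

namespace Cfsg.Agent.S3516

theorem two_ne_zero_zmod (p : ℕ) [Fact p.Prime] (hp : p ≠ 2) : (2 : ZMod p) ≠ 0 := by
  intro h
  have h2 : ((2 : ℕ) : ZMod p) = 0 := by exact_mod_cast h
  rw [ZMod.natCast_eq_zero_iff] at h2
  have hp2 : p ≤ 2 := Nat.le_of_dvd (by norm_num) h2
  have := (Fact.out : p.Prime).two_le
  omega

/-- A permutation that agrees on every triple with some affine map is affine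
(odd characteristic). -/
theorem affine_of_triples (p : ℕ) [Fact p.Prime] (hp : p ≠ 2) {V : Type*} [AddCommGroup V]
    [Module (ZMod p) V] [Finite V] (σ : Equiv.Perm V)
    (hσ : ∀ t : Fin 3 → V, ∃ (A : V →ₗ[ZMod p] V) (b : V), ∀ i, σ (t i) = A (t i) + b) :
    ∃ (A : V ≃ₗ[ZMod p] V), ∀ x, σ x = A x + σ 0 := by
  have step1 : ∀ (x y : V) (c : ZMod p), σ (x + c • (y - x)) = σ x + c • (σ y - σ x) := by
    intro x y c
    obtain ⟨A, b, h⟩ := hσ ![x, y, x + c • (y - x)]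
    have h0 : σ x = A x + b := h 0
    have h1 : σ y = A y + b := h 1
    have h2 : σ (x + c • (y - x)) = A (x + c • (y - x)) + b := h 2
    rw [h2, h0, h1, map_add, map_smul, map_sub]
    rw [add_sub_add_right_eq_sub]
    abel
  have two := two_ne_zero_zmod p hp
  have hsmul : ∀ (c : ZMod p) (y : V), σ (c • y) - σ 0 = c • (σ y - σ 0) := by
    intro c y
    have h := step1 0 y c
    rw [sub_zero, zero_add] at h
    rw [h]
    abel
  have hadd : ∀ x y : V, σ (x + y) - σ 0 = (σ x - σ 0) + (σ y - σ 0) := by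
    intro x y
    have hm : (2 : ZMod p) • (x + (2⁻¹ : ZMod p) • (y - x)) = x + y := by
      rw [smul_add, smul_smul, mul_inv_cancel₀ two, one_smul, two_smul]
      abel
    have h1 := hsmul 2 (x + (2⁻¹ : ZMod p) • (y - x))
    rw [hm, step1 x y 2⁻¹] at h1
    rw [h1, smul_sub, smul_add, smul_smul, mul_inv_cancel₀ two, one_smul, two_smul, two_smul]
    abel
  let L : V →ₗ[ZMod p] V :=
    { toFun := fun x => σ x - σ 0
      map_add' := hadd
      map_smul' := fun c y => hsmul c y }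
  have hinj : Function.Injective L := by
    intro x y hxy
    have : σ x - σ 0 = σ y - σ 0 := hxy
    exact σ.injective (sub_left_injective this)
  refine ⟨LinearEquiv.ofBijective L ⟨hinj, Finite.surjective_of_injective hinj⟩, ?_⟩
  intro x
  change σ x = (σ x - σ 0) + σ 0
  abel

theorem sl_adjust (p : ℕ) [Fact p.Prime] (d : ℕ) (hd : 3 ≤ d)
    (A : (Fin d → ZMod p) ≃ₗ[ZMod p] (Fin d → ZMod p)) (u1 u2 : Fin d → ZMod p) :
    ∃ D : (Fin d → ZMod p) ≃ₗ[ZMod p] (Fin d → ZMod p), D u1 = u1 ∧ D u2 = u2 ∧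
      LinearMap.det ((D.trans A : (Fin d → ZMod p) ≃ₗ[ZMod p] (Fin d → ZMod p)) :
        (Fin d → ZMod p) →ₗ[ZMod p] (Fin d → ZMod p)) = 1 := by
  let U := Submodule.span (ZMod p) (Set.range ![u1, u2])
  have hU : U < ⊤ := by
    rw [lt_top_iff_ne_top]
    intro h
    have h1 : Module.finrank (ZMod p) U ≤ Fintype.card (Fin 2) :=
      finrank_range_le_card (R := ZMod p) ![u1, u2]
    rw [h, finrank_top, Module.finrank_fin_fun, Fintype.card_fin] at h1
    omega
  obtain ⟨f, hf0, hfU⟩ := Submodule.exists_le_ker_of_lt_top U hU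
  obtain ⟨w, hw⟩ : ∃ w, f w ≠ 0 := by
    by_contra hc
    push Not at hc
    exact hf0 (LinearMap.ext hc)
  have hdetA : LinearMap.det (A : (Fin d → ZMod p) →ₗ[ZMod p] (Fin d → ZMod p)) ≠ 0 :=
    (LinearEquiv.isUnit_det' A).ne_zero
  have hfv : f ((((LinearMap.det (A : (Fin d → ZMod p) →ₗ[ZMod p] (Fin d → ZMod p)))⁻¹ - 1) / f w) • w)
      = (LinearMap.det (A : (Fin d → ZMod p) →ₗ[ZMod p] (Fin d → ZMod p)))⁻¹ - 1 := by
    rw [map_smul, smul_eq_mul, div_mul_cancel₀ _ hw]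
  have hunit : IsUnit (1 + f ((((LinearMap.det
      (A : (Fin d → ZMod p) →ₗ[ZMod p] (Fin d → ZMod p)))⁻¹ - 1) / f w) • w)) := by
    rw [hfv, add_sub_cancel]
    exact (inv_ne_zero hdetA).isUnit
  have hu1 : f u1 = 0 := hfU (Submodule.subset_span ⟨0, rfl⟩)
  have hu2 : f u2 = 0 := hfU (Submodule.subset_span ⟨1, rfl⟩)
  refine ⟨LinearEquiv.dilatransvection hunit, ?_, ?_, ?_⟩
  · rw [LinearEquiv.dilatransvection.apply, hu1, zero_smul, add_zero]
  · rw [LinearEquiv.dilatransvection.apply, hu2, zero_smul, add_zero]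
  · rw [LinearEquiv.coe_trans, LinearMap.det_comp, LinearEquiv.dilatransvection.coe_toLinearMap,
      LinearMap.transvection.det, hfv, add_sub_cancel, mul_inv_cancel₀ hdetA]

/-- Let p be an odd prime, d ≥ 3, and G a group of affine permutations x ↦ Ax + b of V = F_p^d containing all translations and all maps x ↦ Ax with A of determinant 1. Then the 3-closure of G is the full affine group: a permutation σ of V agrees on every triple of points with some element of G if and only if σ is an affine map. -/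
theorem result (p : ℕ) [Fact p.Prime] (hp : p ≠ 2) (d : ℕ) (hd : 3 ≤ d) (G : Subgroup (Equiv.Perm (Fin d → ZMod p)))
    (haff : (G : Set (Equiv.Perm (Fin d → ZMod p))) ⊆ {τ : Equiv.Perm (Fin d → ZMod p) | ∃ (A : (Fin d → ZMod p) ≃ₗ[ZMod p] (Fin d → ZMod p)) (b : Fin d → ZMod p), ∀ x, τ x = A x + b})
    (htrans : ∀ b : Fin d → ZMod p, ∃ g ∈ G, ∀ x, g x = x + b)
    (hsl : ∀ A : (Fin d → ZMod p) ≃ₗ[ZMod p] (Fin d → ZMod p), LinearMap.det (A : (Fin d → ZMod p) →ₗ[ZMod p] (Fin d → ZMod p)) = 1 → ∃ g ∈ G, ∀ x, g x = A x)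
    (σ : Equiv.Perm (Fin d → ZMod p)) :
    (∀ t : Fin 3 → (Fin d → ZMod p), ∃ g ∈ G, ∀ i, σ (t i) = g (t i)) ↔ σ ∈ {τ : Equiv.Perm (Fin d → ZMod p) | ∃ (A : (Fin d → ZMod p) ≃ₗ[ZMod p] (Fin d → ZMod p)) (b : Fin d → ZMod p), ∀ x, τ x = A x + b} := by
  constructor
  · intro hσ
    have h3 : ∀ t : Fin 3 → (Fin d → ZMod p),
        ∃ (A : (Fin d → ZMod p) →ₗ[ZMod p] (Fin d → ZMod p)) (b : Fin d → ZMod p),
          ∀ i, σ (t i) = A (t i) + b := by
      intro t
      obtain ⟨g, hg, hgt⟩ := hσ t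
      obtain ⟨A, b, hAb⟩ := haff hg
      exact ⟨A, b, fun i => by rw [hgt, hAb]; rfl⟩
    obtain ⟨A, hA⟩ := affine_of_triples p hp σ h3
    exact ⟨A, σ 0, hA⟩
  · rintro ⟨A, b, hA⟩ t
    obtain ⟨D, hD1, hD2, hdet⟩ := sl_adjust p d hd A (t 1 - t 0) (t 2 - t 0)
    obtain ⟨g0, hg0, hg0x⟩ := hsl (D.trans A) hdet
    obtain ⟨g1, hg1, hg1x⟩ := htrans (b + A (t 0) - A (D (t 0)))
    refine ⟨g1 * g0, G.mul_mem hg1 hg0, ?_⟩
    have key : ∀ i, D (t i) = D (t 0) + (t i - t 0) := by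
      intro i
      fin_cases i
      · simp
      · show D (t 1) = D (t 0) + (t 1 - t 0)
        have : t 1 = t 0 + (t 1 - t 0) := by abel
        rw [this, map_add, hD1]
        abel_nf
      · show D (t 2) = D (t 0) + (t 2 - t 0)
        have : t 2 = t 0 + (t 2 - t 0) := by abel
        rw [this, map_add, hD2]
        abel_nf
    intro i
    rw [Equiv.Perm.mul_apply, hg1x, hg0x, hA, LinearEquiv.trans_apply, key i, map_add, map_sub]
    abel

end Cfsg.Agent.S3516
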