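import Cfsg.Statements.S3515
import Cfsg.Agent.S3516
import Mathlib

set_option autoImplicit false
open Cfsg

namespace Cfsg.Agent.S3515

theorem four_cases : ∀ v : Fin 2 → ZMod 2,
    v = ![0, 0] ∨ v = ![1, 0] ∨ v = ![0, 1] ∨ v = ![1, 1] := by decide

theorem ne1 : (![1, 1] : Fin 2 → ZMod 2) ≠ ![0, 0] := by decide
theorem ne2 : (![1, 1] : Fin 2 → ZMod 2) ≠ ![1, 0] := by decide
theorem ne3 : (![1, 1] : Fin 2 → ZMod 2) ≠ ![0, 1] := by decide

theorem eq_of_three (σ g : Equiv.Perm (Fin 2 → ZMod 2))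
    (h0 : σ ![0, 0] = g ![0, 0]) (h1 : σ ![1, 0] = g ![1, 0]) (h2 : σ ![0, 1] = g ![0, 1]) :
    σ = g := by
  apply Equiv.ext
  intro v
  rcases four_cases v with rfl | rfl | rfl | rfl
  · exact h0
  · exact h1
  · exact h2
  · have hw := four_cases (g.symm (σ ![1, 1]))
    have e : ∀ w, g.symm (σ ![1, 1]) = w → σ ![1, 1] = g w := fun w h => by
      rw [← h, Equiv.apply_symm_apply]
    rcases hw with h | h | h | h
    · have := e _ h
      rw [← h0] at this
      exact absurd (σ.injective this) ne1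
    · have := e _ h
      rw [← h1] at this
      exact absurd (σ.injective this) ne2
    · have := e _ h
      rw [← h2] at this
      exact absurd (σ.injective this) ne3
    · exact e _ h

/-- Every primitive affine permutation group of degree p² is 3-closed. Let p be a prime and G a group of permutations of the plane V = F_p² consisting of affine maps x ↦ Ax + b, containing all translations, and acting primitively on V. Then any permutation σ of V that agrees on every triple of points with some element of G (σ preserves every G-orbit on ordered triples) already lies in G. -/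
theorem result (p : ℕ) [Fact p.Prime] (G : Subgroup (Equiv.Perm (Fin 2 → ZMod p)))
    (haff : (G : Set (Equiv.Perm (Fin 2 → ZMod p))) ⊆ {τ : Equiv.Perm (Fin 2 → ZMod p) | ∃ (A : (Fin 2 → ZMod p) ≃ₗ[ZMod p] (Fin 2 → ZMod p)) (b : Fin 2 → ZMod p), ∀ x, τ x = A x + b})
    (htrans : ∀ b : Fin 2 → ZMod p, ∃ g ∈ G, ∀ x, g x = x + b) (hprim : MulAction.IsPreprimitive G (Fin 2 → ZMod p))
    (σ : Equiv.Perm (Fin 2 → ZMod p)) (hσ : (∀ t : Fin 3 → (Fin 2 → ZMod p), ∃ g ∈ G, ∀ i, σ (t i) = g (t i))) : σ ∈ G := by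
  by_cases hp : p = 2
  · subst hp
    obtain ⟨g, hg, hgt⟩ := hσ ![![0, 0], ![1, 0], ![0, 1]]
    have h : σ = g := eq_of_three σ g (hgt 0) (hgt 1) (hgt 2)
    rw [h]
    exact hg
  · have h3 : ∀ t : Fin 3 → (Fin 2 → ZMod p),
        ∃ (A : (Fin 2 → ZMod p) →ₗ[ZMod p] (Fin 2 → ZMod p)) (b : Fin 2 → ZMod p),
          ∀ i, σ (t i) = A (t i) + b := by
      intro t
      obtain ⟨g, hg, hgt⟩ := hσ t
      obtain ⟨A, b, hAb⟩ := haff hg
      exact ⟨A, b, fun i => by rw [hgt, hAb]; rfl⟩
    obtain ⟨A, hA⟩ := Cfsg.Agent.S3516.affine_of_triples p hp σ h3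
    obtain ⟨g, hg, hgt⟩ := hσ ![0, Pi.single 0 1, Pi.single 1 1]
    obtain ⟨B, c, hB⟩ := haff hg
    have h0 : σ 0 = g 0 := hgt 0
    have h1 : σ (Pi.single 0 1) = g (Pi.single 0 1) := hgt 1
    have h2 : σ (Pi.single 1 1) = g (Pi.single 1 1) := hgt 2
    have hc : c = σ 0 := by
      rw [h0, hB, map_zero, zero_add]
    have hAB : (A : (Fin 2 → ZMod p) →ₗ[ZMod p] (Fin 2 → ZMod p)) =
        (B : (Fin 2 → ZMod p) →ₗ[ZMod p] (Fin 2 → ZMod p)) := by
      apply (Pi.basisFun (ZMod p) (Fin 2)).ext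
      intro i
      rw [Pi.basisFun_apply]
      fin_cases i
      · have := h1
        rw [hA, hB, hc] at this
        exact add_right_cancel this
      · have := h2
        rw [hA, hB, hc] at this
        exact add_right_cancel this
    have hσg : σ = g := by
      apply Equiv.ext
      intro x
      rw [hA, hB, hc]
      congr 1
      exact congrArg (fun f : (Fin 2 → ZMod p) →ₗ[ZMod p] (Fin 2 → ZMod p) => f x) hAB
    rw [hσg]
    exact hg

end Cfsg.Agent.S3515
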