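import Cfsg.Statements.S3517
import Mathlib

set_option autoImplicit false
open Cfsg

namespace Cfsg.Agent.S3517

/-- The general linear group is transitive on linearly independent families. -/
theorem exists_linearEquiv {K V ι : Type*} [Field K] [AddCommGroup V] [Module K V]
    [FiniteDimensional K V]
    (v w : ι → V) (hv : LinearIndependent K v) (hw : LinearIndependent K w) :
    ∃ A : V ≃ₗ[K] V, ∀ i, A (v i) = w i := by
  classical
  let U := Submodule.span K (Set.range v)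
  let W := Submodule.span K (Set.range w)
  let bU : Module.Basis ι K U := Module.Basis.span hv
  let bW : Module.Basis ι K W := Module.Basis.span hw
  let φ : U ≃ₗ[K] W := bU.equiv bW (Equiv.refl ι)
  obtain ⟨U', hU'⟩ := Submodule.exists_isCompl U
  obtain ⟨W', hW'⟩ := Submodule.exists_isCompl W
  have h1 := Submodule.finrank_add_eq_of_isCompl hU'
  have h2 := Submodule.finrank_add_eq_of_isCompl hW'
  have h3 : Module.finrank K U = Module.finrank K W := LinearEquiv.finrank_eq φ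
  have h4 : Module.finrank K U' = Module.finrank K W' := by omega
  let ψ : U' ≃ₗ[K] W' := LinearEquiv.ofFinrankEq _ _ h4
  refine ⟨(Submodule.prodEquivOfIsCompl U U' hU').symm ≪≫ₗ (φ.prodCongr ψ) ≪≫ₗ
    (Submodule.prodEquivOfIsCompl W W' hW'), ?_⟩
  intro i
  have hvi : v i = ((bU i : U) : V) := (congrArg Subtype.val (Module.Basis.span_apply hv i)).symm
  have hwi : w i = ((bW i : W) : V) := (congrArg Subtype.val (Module.Basis.span_apply hw i)).symm
  have hφ : φ (bU i) = bW i := by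
    simp [φ]
  rw [hvi, hwi, LinearEquiv.trans_apply, LinearEquiv.trans_apply,
    Submodule.prodEquivOfIsCompl_symm_apply_left]
  simp [hφ]

theorem add_eq_zero_two {d : ℕ} (x y : Fin d → ZMod 2) (h : x + y = 0) : x = y := by
  funext i
  have hi := congrFun h i
  simp only [Pi.add_apply, Pi.zero_apply] at hi
  revert hi
  generalize x i = a
  generalize y i = b
  revert a b
  decide

theorem zmod2_cases : ∀ z : ZMod 2, z = 0 ∨ z = 1 := by decide

theorem trans1 {d : ℕ} (a b : Fin d → ZMod 2) (ha : a ≠ 0) (hb : b ≠ 0) :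
    ∃ A : (Fin d → ZMod 2) ≃ₗ[ZMod 2] (Fin d → ZMod 2), A a = b := by
  have := Fact.mk Nat.prime_two
  obtain ⟨A, hA⟩ := exists_linearEquiv (K := ZMod 2) (fun _ : Unit => a) (fun _ : Unit => b)
    (linearIndependent_unique_iff.mpr ha) (linearIndependent_unique_iff.mpr hb)
  exact ⟨A, hA ()⟩

theorem indep2 {d : ℕ} (a b : Fin d → ZMod 2) (ha : a ≠ 0) (hb : b ≠ 0) (hab : a ≠ b) :
    LinearIndependent (ZMod 2) ![a, b] := by
  have := Fact.mk Nat.prime_two
  rw [LinearIndependent.pair_iff]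
  intro s t h
  have hs := zmod2_cases s
  have ht := zmod2_cases t
  rcases hs with rfl | rfl <;> rcases ht with rfl | rfl
  · exact ⟨rfl, rfl⟩
  · rw [zero_smul, one_smul, zero_add] at h
    exact absurd h hb
  · rw [zero_smul, one_smul, add_zero] at h
    exact absurd h ha
  · rw [one_smul, one_smul] at h
    exact absurd (add_eq_zero_two a b h) hab

theorem trans2 {d : ℕ} (a b a' b' : Fin d → ZMod 2) (ha : a ≠ 0) (hb : b ≠ 0) (hab : a ≠ b)
    (ha' : a' ≠ 0) (hb' : b' ≠ 0) (hab' : a' ≠ b') :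
    ∃ A : (Fin d → ZMod 2) ≃ₗ[ZMod 2] (Fin d → ZMod 2), A a = a' ∧ A b = b' := by
  have := Fact.mk Nat.prime_two
  obtain ⟨A, hA⟩ := exists_linearEquiv (K := ZMod 2) ![a, b] ![a', b']
    (indep2 a b ha hb hab) (indep2 a' b' ha' hb' hab')
  exact ⟨A, hA 0, hA 1⟩

theorem assemble {d : ℕ} (A : (Fin d → ZMod 2) ≃ₗ[ZMod 2] (Fin d → ZMod 2))
    (x y : Fin 3 → (Fin d → ZMod 2))
    (h1 : A (x 1 - x 0) = y 1 - y 0) (h2 : A (x 2 - x 0) = y 2 - y 0) :
    ∀ i, y i = A (x i) + (y 0 - A (x 0)) := by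
  rw [map_sub] at h1 h2
  intro i
  fin_cases i
  · simp
  · show y 1 = A (x 1) + (y 0 - A (x 0))
    have : y 1 = (y 1 - y 0) + y 0 := by abel
    rw [this, ← h1]
    abel
  · show y 2 = A (x 2) + (y 0 - A (x 0))
    have : y 2 = (y 2 - y 0) + y 0 := by abel
    rw [this, ← h2]
    abel

theorem main {d : ℕ} (x y : Fin 3 → (Fin d → ZMod 2))
    (h : ∀ i j, x i = x j ↔ y i = y j) :
    ∃ (A : (Fin d → ZMod 2) ≃ₗ[ZMod 2] (Fin d → ZMod 2)) (b : Fin d → ZMod 2),
      ∀ i, y i = A (x i) + b := by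
  have e1 : x 1 - x 0 = 0 ↔ y 1 - y 0 = 0 := by rw [sub_eq_zero, sub_eq_zero]; exact h 1 0
  have e2 : x 2 - x 0 = 0 ↔ y 2 - y 0 = 0 := by rw [sub_eq_zero, sub_eq_zero]; exact h 2 0
  have e3 : x 1 - x 0 = x 2 - x 0 ↔ y 1 - y 0 = y 2 - y 0 := by
    rw [sub_left_inj, sub_left_inj]; exact h 1 2
  suffices hs : ∃ A : (Fin d → ZMod 2) ≃ₗ[ZMod 2] (Fin d → ZMod 2),
      A (x 1 - x 0) = y 1 - y 0 ∧ A (x 2 - x 0) = y 2 - y 0 by
    obtain ⟨A, hA1, hA2⟩ := hs
    exact ⟨A, _, assemble A x y hA1 hA2⟩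
  by_cases h1 : x 1 - x 0 = 0
  · by_cases h2 : x 2 - x 0 = 0
    · refine ⟨LinearEquiv.refl _ _, ?_, ?_⟩
      · rw [h1, e1.mp h1]; rfl
      · rw [h2, e2.mp h2]; rfl
    · obtain ⟨A, hA⟩ := trans1 _ _ h2 (fun hc => h2 (e2.mpr hc))
      refine ⟨A, ?_, hA⟩
      rw [h1, e1.mp h1, map_zero]
  · by_cases h2 : x 2 - x 0 = 0
    · obtain ⟨A, hA⟩ := trans1 _ _ h1 (fun hc => h1 (e1.mpr hc))
      refine ⟨A, hA, ?_⟩
      rw [h2, e2.mp h2, map_zero]
    · by_cases h3 : x 1 - x 0 = x 2 - x 0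
      · obtain ⟨A, hA⟩ := trans1 _ _ h1 (fun hc => h1 (e1.mpr hc))
        refine ⟨A, hA, ?_⟩
        rw [← h3, hA, e3.mp h3]
      · exact trans2 _ _ _ _ h1 h2 h3 (fun hc => h1 (e1.mpr hc)) (fun hc => h2 (e2.mpr hc))
          (fun hc => h3 (e3.mpr hc))

/-- For d ≥ 3, the 3-closure of the affine group AGL_d(2) acting on F_2^d is the full symmetric group: every permutation of F_2^d agrees on every ordered triple of points with some affine map (AGL_d(2) is 3-transitive). -/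
theorem result (d : ℕ) (hd : 3 ≤ d) (σ : Equiv.Perm (Fin d → ZMod 2)) (t : Fin 3 → (Fin d → ZMod 2)) :
    ∃ (A : (Fin d → ZMod 2) ≃ₗ[ZMod 2] (Fin d → ZMod 2)) (b : Fin d → ZMod 2), ∀ i, σ (t i) = A (t i) + b := by
  exact main t (fun i => σ (t i)) (fun i j => σ.injective.eq_iff.symm)

end Cfsg.Agent.S3517
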