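import Cfsg.Statements.S3518
import Cfsg.Agent.Helper20.PrimeDeg

set_option autoImplicit false
open Cfsg

namespace Cfsg.Agent.S3518

open Cfsg.Agent.Helper20

section
variable {p : ℕ} [Fact p.Prime]

/-- the affine permutation `x ↦ a x + b`. -/
def affPerm (a : (ZMod p)ˣ) (b : ZMod p) : Equiv.Perm (ZMod p) where
  toFun x := (a : ZMod p) * x + b
  invFun y := ((a⁻¹ : (ZMod p)ˣ) : ZMod p) * (y - b)
  left_inv x := by
    show ((a⁻¹ : (ZMod p)ˣ) : ZMod p) * ((a : ZMod p) * x + b - b) = x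
    rw [add_sub_cancel_right, ← mul_assoc, Units.inv_mul, one_mul]
  right_inv y := by
    show (a : ZMod p) * (((a⁻¹ : (ZMod p)ˣ) : ZMod p) * (y - b)) + b = y
    rw [← mul_assoc, Units.mul_inv, one_mul, sub_add_cancel]

theorem affPerm_apply (a : (ZMod p)ˣ) (b x : ZMod p) : affPerm a b x = (a : ZMod p) * x + b := rfl

theorem affPerm_mem (a : (ZMod p)ˣ) (b : ZMod p) : affPerm a b ∈ Cfsg.affineGroup (ZMod p) :=
  ⟨a, b, fun _ => rfl⟩

theorem part1 (G : Subgroup (Equiv.Perm (ZMod p))) (hG : G ≤ Cfsg.affineGroup (ZMod p))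
    (htrans : ∀ b : ZMod p, ∃ g ∈ G, ∀ x, g x = x + b) (hne : G ≠ Cfsg.affineGroup (ZMod p))
    (σ : Equiv.Perm (ZMod p))
    (hσ : ∀ t : Fin 2 → ZMod p, ∃ g ∈ G, ∀ i, σ (t i) = g (t i)) : σ ∈ G := by
  classical
  let A : Finset (ZMod p) := Finset.univ.filter (fun a => ∃ g ∈ G, ∀ x, g x = a * x)
  have hA : ∀ a, a ∈ A ↔ ∃ g ∈ G, ∀ x, g x = a * x := by
    intro a
    simp [A]
  have hform : ∀ g ∈ G, ∃ a ∈ A, ∃ b, ∀ x, g x = a * x + b := by
    intro g hg
    obtain ⟨a, b, hab⟩ := hG hg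
    obtain ⟨τ, hτ, hτb⟩ := htrans (-b)
    refine ⟨a, (hA _).mpr ⟨τ * g, G.mul_mem hτ hg, fun x => ?_⟩, b, hab⟩
    rw [Equiv.Perm.mul_apply, hτb, hab]
    ring
  have h0A : (0 : ZMod p) ∉ A := by
    intro h
    obtain ⟨g, hg, hg0⟩ := (hA _).mp h
    have h1 : g 0 = g 1 := by rw [hg0 0, hg0 1]; simp
    exact zero_ne_one (g.injective h1)
  have h1A : (1 : ZMod p) ∈ A := (hA 1).mpr ⟨1, G.one_mem, fun x => by simp⟩
  have hmulA : ∀ a b, a ∈ A → b ∈ A → a * b ∈ A := by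
    intro a b ha hb
    obtain ⟨g, hg, hga⟩ := (hA _).mp ha
    obtain ⟨h, hh, hhb⟩ := (hA _).mp hb
    exact (hA _).mpr ⟨g * h, G.mul_mem hg hh, fun x => by
      rw [Equiv.Perm.mul_apply, hhb, hga, mul_assoc]⟩
  have hinvA : ∀ a, a ∈ A → a⁻¹ ∈ A := by
    intro a ha
    obtain ⟨g, hg, hga⟩ := (hA _).mp ha
    have ha0 : a ≠ 0 := fun h => h0A (h ▸ ha)
    refine (hA _).mpr ⟨g⁻¹, G.inv_mem hg, fun x => ?_⟩
    apply g.injective
    rw [← Equiv.Perm.mul_apply, mul_inv_cancel, Equiv.Perm.one_apply, hga, ← mul_assoc,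
      mul_inv_cancel₀ ha0, one_mul]
  have hproper : ∃ c : ZMod p, c ≠ 0 ∧ c ∉ A := by
    by_contra hcon
    push Not at hcon
    apply hne
    apply le_antisymm hG
    rintro τ ⟨a, b, hab⟩
    obtain ⟨g, hg, hga⟩ := (hA _).mp (hcon (a : ZMod p) a.ne_zero)
    obtain ⟨t, ht, htb⟩ := htrans b
    have : τ = t * g := by
      ext x
      rw [Equiv.Perm.mul_apply, htb, hga, hab]
    rw [this]
    exact G.mul_mem ht hg
  obtain ⟨c, hc0, hcA⟩ := hproper
  have hσA : ∀ x y, x - y ∈ A ↔ σ x - σ y ∈ A := by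
    intro x y
    obtain ⟨g, hg, hgt⟩ := hσ ![x, y]
    obtain ⟨a, ha, b, hab⟩ := hform g hg
    have hx : σ x = a * x + b := by
      have := hgt 0
      simpa [hab] using this
    have hy : σ y = a * y + b := by
      have := hgt 1
      simpa [hab] using this
    have e : σ x - σ y = a * (x - y) := by rw [hx, hy]; ring
    have ha0 : a ≠ 0 := fun h => h0A (h ▸ ha)
    rw [e]
    constructor
    · intro h
      exact hmulA _ _ ha h
    · intro h
      have := hmulA _ _ (hinvA a ha) h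
      rwa [← mul_assoc, inv_mul_cancel₀ ha0, one_mul] at this
  have haff := affine_of_diff_set A h0A ⟨1, h1A⟩ c hc0 hcA σ hσA
  obtain ⟨g, hg, hgt⟩ := hσ ![0, 1]
  obtain ⟨a, ha, b, hab⟩ := hform g hg
  have h0' : σ 0 = g 0 := by simpa using hgt 0
  have h1' : σ 1 = g 1 := by simpa using hgt 1
  have : σ = g := by
    ext x
    rw [haff x, h0', h1', hab, hab, hab]
    ring
  rw [this]
  exact hg

theorem part2 (σ : Equiv.Perm (ZMod p)) (t : Fin 2 → ZMod p) :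
    ∃ g ∈ Cfsg.affineGroup (ZMod p), ∀ i, σ (t i) = g (t i) := by
  by_cases h : t 0 = t 1
  · refine ⟨affPerm 1 (σ (t 0) - t 0), affPerm_mem _ _, Fin.forall_fin_two.mpr ⟨?_, ?_⟩⟩
    · simp [affPerm_apply]
    · simp [affPerm_apply, ← h]
  · have hne : t 1 - t 0 ≠ 0 := sub_ne_zero.mpr (Ne.symm h)
    have hσne : σ (t 1) - σ (t 0) ≠ 0 := sub_ne_zero.mpr (fun h' => h (σ.injective h'.symm))
    let a : (ZMod p)ˣ := Units.mk0 ((σ (t 1) - σ (t 0)) / (t 1 - t 0)) (div_ne_zero hσne hne)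
    refine ⟨affPerm a (σ (t 0) - a * t 0), affPerm_mem _ _, Fin.forall_fin_two.mpr ⟨?_, ?_⟩⟩
    · simp [affPerm_apply]
    · simp only [affPerm_apply, a, Units.val_mk0]
      field_simp
      ring

theorem part3 (σ : Equiv.Perm (ZMod p))
    (hσ : ∀ t : Fin 3 → ZMod p, ∃ g ∈ Cfsg.affineGroup (ZMod p), ∀ i, σ (t i) = g (t i)) :
    σ ∈ Cfsg.affineGroup (ZMod p) := by
  have hne : σ 1 - σ 0 ≠ 0 := sub_ne_zero.mpr (fun h => one_ne_zero (σ.injective h))
  refine ⟨Units.mk0 _ hne, σ 0, fun x => ?_⟩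
  obtain ⟨g, ⟨a, b, hab⟩, hgt⟩ := hσ ![0, 1, x]
  have h0 : σ 0 = g 0 := by simpa using hgt 0
  have h1 : σ 1 = g 1 := by simpa using hgt 1
  have h2 : σ x = g x := by simpa using hgt 2
  rw [Units.val_mk0, h2, h0, h1, hab, hab, hab]
  ring

end

/-- Closures of subgroups of the one-dimensional affine group. Let p be a prime and G a group of permutations of F_p lying in the affine group AGL₁(p) = {x ↦ ax + b, a ≠ 0} and containing all translations. (1) If G is a proper subgroup of AGL₁(p), then G is 2-closed: a permutation of F_p agreeing on every ordered pair of points with some element of G lies in G. (2) Every permutation of F_p agrees on every ordered pair with some element of AGL₁(p) (the 2-closure of AGL₁(p) is the symmetric group). (3) AGL₁(p) is 3-closed: a permutation agreeing on every ordered triple with some affine map is affine. -/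
theorem result (p : ℕ) [Fact p.Prime] (G : Subgroup (Equiv.Perm (ZMod p))) (hG : G ≤ Cfsg.affineGroup (ZMod p))
    (htrans : ∀ b : ZMod p, ∃ g ∈ G, ∀ x, g x = x + b) :
    (G ≠ Cfsg.affineGroup (ZMod p) → ∀ σ : Equiv.Perm (ZMod p), (∀ t : Fin 2 → ZMod p, ∃ g ∈ G, ∀ i, σ (t i) = g (t i)) → σ ∈ G) ∧
    (∀ σ : Equiv.Perm (ZMod p), (∀ t : Fin 2 → ZMod p, ∃ g ∈ Cfsg.affineGroup (ZMod p), ∀ i, σ (t i) = g (t i))) ∧
    (∀ σ : Equiv.Perm (ZMod p), (∀ t : Fin 3 → ZMod p, ∃ g ∈ Cfsg.affineGroup (ZMod p), ∀ i, σ (t i) = g (t i)) → σ ∈ Cfsg.affineGroup (ZMod p)) :=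
  ⟨fun hne σ hσ => part1 G hG htrans hne σ hσ, fun σ t => part2 σ t, fun σ hσ => part3 σ hσ⟩

end Cfsg.Agent.S3518
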