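import Cfsg.Statements.S3524

set_option autoImplicit false
open Cfsg

namespace Cfsg.Agent.S3524

/-- A permutation group with a base is closed at one level above the base size. Let G be a group of permutations of a set Ω and suppose some k points α₁, …, α_k are fixed simultaneously only by the identity of G (a base of size k). Then G is (k+1)-closed: a permutation of Ω that agrees on every (k+1)-tuple of points with some element of G belongs to G. -/
theorem result {Ω : Type*} (G : Subgroup (Equiv.Perm Ω)) (k : ℕ) (α : Fin k → Ω)
    (hbase : ∀ g ∈ G, (∀ i, g (α i) = α i) → g = 1) (σ : Equiv.Perm Ω)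
    (hσ : ∀ t : Fin (k + 1) → Ω, ∃ g ∈ G, ∀ i, σ (t i) = g (t i)) : σ ∈ G := by
  classical
  have key : ∀ x : Ω, ∃ g ∈ G, (∀ i, σ (α i) = g (α i)) ∧ σ x = g x := by
    intro x
    obtain ⟨g, hg, h⟩ := hσ (Fin.snoc α x)
    refine ⟨g, hg, ?_, ?_⟩
    · intro i
      have := h (Fin.castSucc i)
      simpa using this
    · have := h (Fin.last k)
      simpa using this
  choose f hfG hfα hfx using key
  have hconst : ∀ x y : Ω, f x = f y := by
    intro x y
    have h1 : (f x)⁻¹ * f y = 1 := by
      apply hbase _ (G.mul_mem (G.inv_mem (hfG x)) (hfG y))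
      intro i
      have : f y (α i) = f x (α i) := by rw [← hfα y i, ← hfα x i]
      simp [Equiv.Perm.mul_apply, this]
    have := eq_of_inv_mul_eq_one h1
    exact this
  by_cases hne : Nonempty Ω
  · obtain ⟨x₀⟩ := hne
    have : σ = f x₀ := by
      ext x
      rw [hfx x, hconst x x₀]
    rw [this]
    exact hfG x₀
  · have : IsEmpty Ω := not_nonempty_iff.mp hne
    have : σ = 1 := Subsingleton.elim _ _
    rw [this]
    exact G.one_mem

end Cfsg.Agent.S3524
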