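import Cfsg.Statements.S3547
import Cfsg.Agent.S3546
import Mathlib

set_option autoImplicit false
open Cfsg

namespace Cfsg.Agent.S3547

open MulAction in
theorem fix_prod {M X : Type*} [Group M] [MulAction M X] (g : M) :
    Nat.card (fixedBy (X × X) g) = Nat.card (fixedBy X g) ^ 2 := by
  have h : fixedBy (X × X) g = (fixedBy X g) ×ˢ (fixedBy X g) := by
    ext ⟨x, y⟩
    simp [mem_fixedBy, Prod.ext_iff]
  rw [h, Nat.card_congr (Equiv.Set.prod _ _), Nat.card_prod, sq]

open MulAction in
theorem rank_formula_core {G Ω : Type*} [Group G] [Finite G] [MulAction G Ω] [Finite Ω] [Nonempty Ω]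
    (htrans : IsPretransitive G Ω) (D : Subgroup G)
    (hD : ∀ g : G, (∀ ω : Ω, g • ω ≠ ω) → g ∈ D) :
    Nat.card (orbitRel.Quotient D (Ω × Ω)) - 1 =
      (Nat.card (orbitRel.Quotient G (Ω × Ω)) - 1) * D.index := by
  classical
  haveI : Fintype G := Fintype.ofFinite G
  have hk := Cfsg.Agent.S3546.key htrans D hD
  have hG : ∑ g : G, Nat.card (fixedBy Ω g) ^ 2 =
      Nat.card (orbitRel.Quotient G (Ω × Ω)) * Nat.card G := by
    rw [← Cfsg.Agent.S3546.burnside G (Ω × Ω)]
    exact Finset.sum_congr rfl (fun g _ => (fix_prod g).symm)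
  have hDsum : ∑ g ∈ Finset.univ.filter (· ∈ D), Nat.card (fixedBy Ω g) ^ 2 =
      Nat.card (orbitRel.Quotient D (Ω × Ω)) * Nat.card D := by
    rw [← Cfsg.Agent.S3546.burnside D (Ω × Ω)]
    rw [Finset.sum_subtype (Finset.univ.filter (· ∈ D)) (p := (· ∈ D)) (by simp)]
    exact Finset.sum_congr rfl (fun d _ => (fix_prod d).symm)
  have hsplit := Finset.sum_filter_add_sum_filter_not (Finset.univ : Finset G) (· ∈ D)
    (fun g => Nat.card (fixedBy Ω g) ^ 2)
  have hcardsplit := Finset.card_filter_add_card_filter_not (s := (Finset.univ : Finset G)) (· ∈ D)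
  have hcardD : (Finset.univ.filter (· ∈ D)).card = Nat.card D := by
    rw [Nat.card_eq_fintype_card, Fintype.card_subtype]
  have hcardG : (Finset.univ : Finset G).card = Nat.card G := by
    rw [Nat.card_eq_fintype_card, Finset.card_univ]
  have hnot : ∑ g ∈ Finset.univ.filter (fun g => ¬ g ∈ D), Nat.card (fixedBy Ω g) ^ 2 =
      (Finset.univ.filter (fun g : G => ¬ g ∈ D)).card := by
    have : ∀ g ∈ Finset.univ.filter (fun g : G => ¬ g ∈ D), Nat.card (fixedBy Ω g) ^ 2 = 1 := by
      intro g hg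
      rw [Finset.mem_filter] at hg
      rw [hk.2 g hg.2, one_pow]
    rw [Finset.sum_congr rfl this, Finset.sum_const, smul_eq_mul, mul_one]
  have hidx := Subgroup.card_mul_index D
  have hDpos : 0 < Nat.card D := Nat.card_pos
  have hGpos : 0 < Nat.card (orbitRel.Quotient G (Ω × Ω)) := by
    haveI : Nonempty (orbitRel.Quotient G (Ω × Ω)) := (nonempty_quotient_iff _).mpr inferInstance
    exact Nat.card_pos
  have hDqpos : 0 < Nat.card (orbitRel.Quotient D (Ω × Ω)) := by
    haveI : Nonempty (orbitRel.Quotient D (Ω × Ω)) := (nonempty_quotient_iff _).mpr inferInstance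
    exact Nat.card_pos
  rw [hDsum, hG, hnot] at hsplit
  rw [hcardD, hcardG] at hcardsplit
  set rG := Nat.card (orbitRel.Quotient G (Ω × Ω)) with hrG
  set rD := Nat.card (orbitRel.Quotient D (Ω × Ω)) with hrD
  set d := Nat.card D with hd
  set i := D.index with hi
  set c := (Finset.univ.filter (fun g : G => ¬ g ∈ D)).card with hc
  -- hsplit : rD * d + c = rG * |G| ; hcardsplit : d + c = |G| ; hidx : d * i = |G|
  have hE : d * (rG * i + 1) = d * (rD + i) := by
    have h1 : rG * (d * i) = rD * d + c := by rw [hidx]; exact hsplit.symm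
    have h2 : d + c = d * i := by rw [hidx]; exact hcardsplit
    nlinarith
  have hE' : rG * i + 1 = rD + i := Nat.eq_of_mul_eq_mul_left hDpos hE
  obtain ⟨k, hk'⟩ : ∃ k, rG = k + 1 := ⟨rG - 1, by omega⟩
  rw [hk'] at hE' ⊢
  have : k * i + 1 = rD := by nlinarith
  rw [← this]
  simp

/-- Let G act faithfully and transitively on a finite set Ω, let D be the subgroup generated by the derangements, and let r_G and r_D be the numbers of orbits of G and of D on ordered pairs of points (the permutation ranks). Then r_D − 1 = (r_G − 1)·[G : D]. -/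
theorem result {G Ω : Type*} [Group G] [Finite G] [MulAction G Ω] [FaithfulSMul G Ω] [Finite Ω]
    (htrans : MulAction.IsPretransitive G Ω) :
    Nat.card (MulAction.orbitRel.Quotient ↥(Subgroup.closure {g : G | ∀ ω : Ω, g • ω ≠ ω}) (Ω × Ω)) - 1 =
      (Nat.card (MulAction.orbitRel.Quotient G (Ω × Ω)) - 1) * (Subgroup.closure {g : G | ∀ ω : Ω, g • ω ≠ ω}).index := by
  by_cases hne : Nonempty Ω
  · exact rank_formula_core htrans (Subgroup.closure {g : G | ∀ ω : Ω, g • ω ≠ ω})
      (fun g hg => Subgroup.subset_closure hg)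
  · have hemp : IsEmpty Ω := not_nonempty_iff.mp hne
    have h1 : IsEmpty (MulAction.orbitRel.Quotient
        ↥(Subgroup.closure {g : G | ∀ ω : Ω, g • ω ≠ ω}) (Ω × Ω)) :=
      ⟨fun q => Quotient.inductionOn' q (fun x => hemp.false x.1)⟩
    have h2 : IsEmpty (MulAction.orbitRel.Quotient G (Ω × Ω)) :=
      ⟨fun q => Quotient.inductionOn' q (fun x => hemp.false x.1)⟩
    rw [Nat.card_of_isEmpty, Nat.card_of_isEmpty]
    simp

end Cfsg.Agent.S3547
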