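import Cfsg.Statements.S3548
import Cfsg.Agent.S3546
import Mathlib

set_option autoImplicit false
open Cfsg

namespace Cfsg.Agent.S3548

open MulAction

variable {G Ω : Type*} [Group G] [MulAction G Ω]

/-- Orbit-stabilizer, for the action of a subgroup, with cardinalities of subgroups of `G`. -/
theorem orbit_stab_card [Finite G] (H : Subgroup G) (β : Ω) :
    Nat.card (orbit H β) * Nat.card (stabilizer G β ⊓ H : Subgroup G) = Nat.card H := by
  have h1 : stabilizer H β = (stabilizer G β).subgroupOf H := by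
    ext x
    rw [mem_stabilizer_iff, Subgroup.mem_subgroupOf, mem_stabilizer_iff]
    rfl
  have h2 : Nat.card (stabilizer H β) = Nat.card (stabilizer G β ⊓ H : Subgroup G) := by
    rw [h1, ← Subgroup.inf_subgroupOf_right]
    exact Nat.card_congr (Subgroup.subgroupOfEquivOfLe inf_le_right).toEquiv
  rw [← h2, ← Nat.card_prod]
  exact Nat.card_congr (orbitProdStabilizerEquivGroup H β)

theorem trans_card [Finite G] (H : Subgroup G) (hH : IsPretransitive H Ω) (α : Ω) :
    Nat.card Ω * Nat.card (stabilizer G α ⊓ H : Subgroup G) = Nat.card H := by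
  have h := orbit_stab_card H α
  rw [orbit_eq_univ] at h
  rw [← h]
  congr 1
  exact (Nat.card_congr (Equiv.Set.univ Ω)).symm

theorem trans_card_top [Finite G] (hG : IsPretransitive G Ω) (α : Ω) :
    Nat.card Ω * Nat.card (stabilizer G α) = Nat.card G := by
  rw [← Nat.card_congr (orbitProdStabilizerEquivGroup G α), Nat.card_prod, orbit_eq_univ]
  congr 1
  exact (Nat.card_congr (Equiv.Set.univ Ω)).symm

/-- Core lemma. -/
theorem core [Finite G] [Finite Ω] [Nonempty Ω]
    (htrans : IsPretransitive G Ω) (D : Subgroup G)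
    (hD : ∀ g : G, (∀ ω : Ω, g • ω ≠ ω) → g ∈ D) (α β : Ω) (hβ : β ≠ α) :
    ∃ m : ℕ, Nat.card (orbit (stabilizer G α) β) = D.index * m ∧
      Nat.card (stabilizer G α ⊓ D : Subgroup G) =
        Nat.card (stabilizer G β ⊓ stabilizer G α : Subgroup G) * m ∧
      stabilizer G β ⊓ stabilizer G α ≤ stabilizer G α ⊓ D := by
  have hk := Cfsg.Agent.S3546.key htrans D hD
  have hBC : stabilizer G β ⊓ stabilizer G α ≤ stabilizer G α ⊓ D := by
    intro g hg
    rw [Subgroup.mem_inf] at hg ⊢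
    refine ⟨hg.2, ?_⟩
    by_contra hgD
    have h1 := hk.2 g hgD
    rw [Nat.card_eq_one_iff_unique] at h1
    have hsub := h1.1
    have : (⟨α, hg.2⟩ : fixedBy Ω g) = ⟨β, hg.1⟩ := Subsingleton.elim _ _
    exact hβ (congrArg Subtype.val this).symm
  have hn : 0 < Nat.card Ω := Nat.card_pos
  have h1 := trans_card_top htrans α
  have h2 := trans_card D hk.1 α
  have h3 := Subgroup.card_mul_index D
  have hA : Nat.card (stabilizer G α) = Nat.card (stabilizer G α ⊓ D : Subgroup G) * D.index := by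
    apply Nat.eq_of_mul_eq_mul_left hn
    rw [h1, ← mul_assoc, h2, h3]
  obtain ⟨m, hm⟩ := Subgroup.card_dvd_of_le hBC
  have h4 := orbit_stab_card (stabilizer G α) β
  have hBpos : 0 < Nat.card (stabilizer G β ⊓ stabilizer G α : Subgroup G) := Nat.card_pos
  refine ⟨m, ?_, hm, hBC⟩
  apply Nat.eq_of_mul_eq_mul_right hBpos
  rw [h4, hA, hm]
  ring

theorem part1 [Finite G] [Finite Ω]
    (htrans : IsPretransitive G Ω) (D : Subgroup G)
    (hD : ∀ g : G, (∀ ω : Ω, g • ω ≠ ω) → g ∈ D) (hΩ : 2 ≤ Nat.card Ω) :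
    D.index ∣ Nat.card Ω - 1 := by
  classical
  have : Nonempty Ω := (Nat.card_pos_iff.mp (by omega)).1
  obtain ⟨α⟩ := ‹Nonempty Ω›
  let _ : Fintype (orbitRel.Quotient (stabilizer G α) Ω) := Fintype.ofFinite _
  have hsum : Nat.card Ω =
      ∑ q : orbitRel.Quotient (stabilizer G α) Ω, Nat.card (orbit (stabilizer G α) q.out) := by
    rw [Nat.card_congr (selfEquivSigmaOrbits (stabilizer G α) Ω), Nat.card_sigma]
  let q0 : orbitRel.Quotient (stabilizer G α) Ω := Quotient.mk'' α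
  have hq0 : q0.out = α := by
    have h : q0.out ∈ orbit (stabilizer G α) α := Quotient.mk_out (s := orbitRel (stabilizer G α) Ω) α
    obtain ⟨a, ha⟩ := h
    rw [← ha]
    exact a.2
  have h0 : Nat.card (orbit (stabilizer G α) q0.out) = 1 := by
    rw [hq0]
    rw [Nat.card_eq_one_iff_unique]
    refine ⟨⟨?_⟩, ⟨⟨α, mem_orbit_self α⟩⟩⟩
    rintro ⟨x, a, rfl⟩ ⟨y, b, rfl⟩
    apply Subtype.ext
    show a • α = b • α
    rw [show a • α = α from a.2, show b • α = α from b.2]
  have hrest : ∀ q ∈ (Finset.univ.erase q0), D.index ∣ Nat.card (orbit (stabilizer G α) q.out) := by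
    intro q hq
    have hne : q.out ≠ α := by
      intro h
      apply (Finset.mem_erase.mp hq).1
      rw [← Quotient.out_eq q, h]
    obtain ⟨m, hm, -⟩ := core htrans D hD α q.out hne
    exact ⟨m, hm⟩
  rw [hsum, ← Finset.add_sum_erase _ _ (Finset.mem_univ q0), h0, Nat.add_sub_cancel_left]
  exact Finset.dvd_sum hrest

theorem part2 [Finite G] [Finite Ω] [FaithfulSMul G Ω]
    (htrans : IsPretransitive G Ω) (D : Subgroup G) (hDn : D.Normal)
    (hD : ∀ g : G, (∀ ω : Ω, g • ω ≠ ω) → g ∈ D) (hΩ : 2 ≤ Nat.card Ω)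
    (hidx : D.index = Nat.card Ω - 1) : IsPrimePow (Nat.card Ω) := by
  classical
  have : Nonempty Ω := (Nat.card_pos_iff.mp (by omega)).1
  have hk := Cfsg.Agent.S3546.key htrans D hD
  have hsub : ∀ α β : Ω, β ≠ α → orbit (stabilizer G α) β ⊆ {α}ᶜ := by
    rintro α β hβ x ⟨a, rfl⟩ hx
    apply hβ
    have hx' : a • β = α := hx
    have : a⁻¹ • (a • β) = a⁻¹ • α := congrArg _ hx'
    rw [inv_smul_smul] at this
    rw [this]
    exact (a⁻¹).2
  have hcompl : ∀ α : Ω, ({α}ᶜ : Set Ω).ncard = Nat.card Ω - 1 := by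
    intro α
    rw [Set.ncard_compl, Set.ncard_singleton]
  have hstep : ∀ α β : Ω, β ≠ α →
      Nat.card (orbit (stabilizer G α) β) = Nat.card Ω - 1 ∧
        stabilizer G α ⊓ D ≤ stabilizer G β := by
    intro α β hβ
    obtain ⟨m, hm1, hm2, hm3⟩ := core htrans D hD α β hβ
    have hle : Nat.card (orbit (stabilizer G α) β) ≤ Nat.card Ω - 1 := by
      calc Nat.card (orbit (stabilizer G α) β) = (orbit (stabilizer G α) β).ncard :=
            (Nat.card_coe_set_eq _)
        _ ≤ ({α}ᶜ : Set Ω).ncard := Set.ncard_le_ncard (hsub α β hβ) (Set.toFinite _)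
        _ = Nat.card Ω - 1 := hcompl α
    have hpos : 0 < Nat.card (orbit (stabilizer G α) β) := by
      have : Nonempty (orbit (stabilizer G α) β) := ⟨⟨β, mem_orbit_self β⟩⟩
      exact Nat.card_pos
    have hm : m = 1 := by
      rw [hm1, hidx] at hle hpos
      have h1 : 0 < Nat.card Ω - 1 := by omega
      have h2 : 0 < m := Nat.pos_of_mul_pos_left hpos |> fun _ => by
        rcases Nat.eq_zero_or_pos m with h | h
        · rw [h, mul_zero] at hpos; exact absurd hpos (lt_irrefl 0)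
        · exact h
      have h3 : m ≤ 1 := by
        by_contra hc
        have : 2 ≤ m := by omega
        nlinarith
      omega
    subst hm
    refine ⟨by rw [hm1, hidx, mul_one], ?_⟩
    have heq : stabilizer G β ⊓ stabilizer G α = stabilizer G α ⊓ D := by
      apply Subgroup.eq_of_le_of_card_ge hm3
      rw [hm2, mul_one]
    rw [← heq]
    exact inf_le_left
  have hreg : ∀ α : Ω, stabilizer G α ⊓ D = ⊥ := by
    intro α
    rw [eq_bot_iff]
    intro g hg
    rw [Subgroup.mem_bot]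
    apply FaithfulSMul.eq_of_smul_eq_smul (α := Ω)
    intro β
    rw [one_smul]
    by_cases hβ : β = α
    · rw [hβ]; exact (Subgroup.mem_inf.mp hg).1
    · exact (hstep α β hβ).2 hg
  have hcard : Nat.card D = Nat.card Ω := by
    obtain ⟨α⟩ := ‹Nonempty Ω›
    have h := trans_card D hk.1 α
    rw [hreg α, Subgroup.card_bot, mul_one] at h
    exact h.symm
  have htr : ∀ α β γ : Ω, β ≠ α → γ ≠ α → ∃ a ∈ stabilizer G α, a • β = γ := by
    intro α β γ hβ hγ
    have heq : orbit (stabilizer G α) β = {α}ᶜ := by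
      apply Set.eq_of_subset_of_ncard_le (hsub α β hβ) _ (Set.toFinite _)
      rw [hcompl α, ← Nat.card_coe_set_eq, (hstep α β hβ).1]
    have hγ' : γ ∈ orbit (stabilizer G α) β := by
      rw [heq]; exact hγ
    obtain ⟨a, ha⟩ := hγ'
    exact ⟨a.1, a.2, ha⟩
  have hconj : ∀ d d' : G, d ∈ D → d' ∈ D → d ≠ 1 → d' ≠ 1 → ∃ a : G, a * d * a⁻¹ = d' := by
    intro d d' hd hd' hd1 hd'1
    obtain ⟨α⟩ := ‹Nonempty Ω›
    have hmove : ∀ x : G, x ∈ D → x ≠ 1 → x • α ≠ α := by
      intro x hx hx1 hfix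
      apply hx1
      have : x ∈ stabilizer G α ⊓ D := Subgroup.mem_inf.mpr ⟨hfix, hx⟩
      rw [hreg α] at this
      exact Subgroup.mem_bot.mp this
    obtain ⟨a, ha, hab⟩ := htr α (d • α) (d' • α) (hmove d hd hd1) (hmove d' hd' hd'1)
    refine ⟨a, ?_⟩
    have hmem : d'⁻¹ * (a * d * a⁻¹) ∈ stabilizer G α ⊓ D := by
      refine Subgroup.mem_inf.mpr ⟨?_, D.mul_mem (D.inv_mem hd') (hDn.conj_mem d hd a)⟩
      rw [mem_stabilizer_iff, mul_smul, mul_smul, mul_smul]
      have ha' : a⁻¹ • α = α := (stabilizer G α).inv_mem ha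
      rw [ha', hab, inv_smul_smul]
    rw [hreg α, Subgroup.mem_bot] at hmem
    have := congrArg (fun x => d' * x) hmem
    simp only [mul_inv_cancel_left, mul_one] at this
    exact this
  have hord : ∀ d d' : G, d ∈ D → d' ∈ D → d ≠ 1 → d' ≠ 1 → orderOf d = orderOf d' := by
    intro d d' hd hd' hd1 hd'1
    obtain ⟨a, rfl⟩ := hconj d d' hd hd' hd1 hd'1
    exact ((MulAut.conj a).orderOf_eq d).symm
  rw [isPrimePow_iff_unique_prime_dvd]
  obtain ⟨p, hp, hpn⟩ := Nat.exists_prime_and_dvd (show Nat.card Ω ≠ 1 by omega)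
  refine ⟨p, ⟨hp, hpn⟩, ?_⟩
  rintro q ⟨hq, hqn⟩
  have := Fact.mk hp
  have := Fact.mk hq
  obtain ⟨x, hx⟩ := exists_prime_orderOf_dvd_card' (G := D) p (hcard ▸ hpn)
  obtain ⟨y, hy⟩ := exists_prime_orderOf_dvd_card' (G := D) q (hcard ▸ hqn)
  have hx1 : (x : G) ≠ 1 := by
    intro h
    rw [← Subgroup.orderOf_coe, h, orderOf_one] at hx
    exact hp.one_lt.ne hx
  have hy1 : (y : G) ≠ 1 := by
    intro h
    rw [← Subgroup.orderOf_coe, h, orderOf_one] at hy
    exact hq.one_lt.ne hy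
  have := hord y x y.2 x.2 hy1 hx1
  rw [Subgroup.orderOf_coe, Subgroup.orderOf_coe, hx, hy] at this
  exact this

theorem closure_normal :
    (Subgroup.closure {g : G | ∀ ω : Ω, g • ω ≠ ω}).Normal := by
  have h : Subgroup.closure {g : G | ∀ ω : Ω, g • ω ≠ ω} =
      Subgroup.normalClosure {g : G | ∀ ω : Ω, g • ω ≠ ω} := by
    apply le_antisymm Subgroup.closure_le_normalClosure
    apply Subgroup.closure_mono
    intro x hx
    obtain ⟨a, ha, hax⟩ := Group.mem_conjugatesOfSet_iff.mp hx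
    obtain ⟨c, rfl⟩ := isConj_iff.mp hax
    intro ω h
    apply ha (c⁻¹ • ω)
    have : c⁻¹ • ((c * a * c⁻¹) • ω) = c⁻¹ • ω := congrArg _ h
    rw [mul_smul, mul_smul, inv_smul_smul] at this
    exact this
  rw [h]
  exact Subgroup.normalClosure_normal

theorem result {G Ω : Type*} [Group G] [Finite G] [MulAction G Ω] [FaithfulSMul G Ω] [Finite Ω]
    (htrans : MulAction.IsPretransitive G Ω) (hΩ : 2 ≤ Nat.card Ω) :
    (Subgroup.closure {g : G | ∀ ω : Ω, g • ω ≠ ω}).index ∣ Nat.card Ω - 1 ∧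
    ((Subgroup.closure {g : G | ∀ ω : Ω, g • ω ≠ ω}).index = Nat.card Ω - 1 → IsPrimePow (Nat.card Ω)) := by
  refine ⟨part1 htrans _ (fun g hg => Subgroup.subset_closure hg) hΩ, fun h => ?_⟩
  exact part2 htrans _ closure_normal (fun g hg => Subgroup.subset_closure hg) hΩ h

end Cfsg.Agent.S3548
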