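import Cfsg.Statements.S3549
import Cfsg.Agent.S3548
import Mathlib

set_option autoImplicit false
open Cfsg

namespace Cfsg.Agent.S3549

open MulAction
open scoped Pointwise

theorem main {G Ω : Type*} [Group G] [Finite G] [MulAction G Ω] [Finite Ω]
    (htrans : IsPretransitive G Ω) (D : Subgroup G)
    (hD : ∀ g : G, (∀ ω : Ω, g • ω ≠ ω) → g ∈ D)
    (B : Set Ω) (hB : IsBlock G B) (hB1 : B.Nontrivial) (hB2 : B ≠ Set.univ) :
    (D.index + 1) * (D.index + 1) ≤ Nat.card Ω := by
  classical
  obtain ⟨α, hα, β, hβ, hαβ⟩ := hB1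
  have hne : Nonempty Ω := ⟨α⟩
  have h1 : D.index + 1 ≤ B.ncard := by
    obtain ⟨m, hm1, -, -⟩ := Cfsg.Agent.S3548.core htrans D hD α β (Ne.symm hαβ)
    have hsub : orbit (stabilizer G α) β ⊆ B \ {α} := by
      rintro x ⟨a, rfl⟩
      have haα : (a : G) • α = α := a.2
      have haB : (a : G) • B = B := hB.smul_eq_of_mem hα (by rw [haα]; exact hα)
      refine ⟨?_, ?_⟩
      · have : (a : G) • β ∈ (a : G) • B := Set.smul_mem_smul_set hβ
        rw [haB] at this
        exact this
      · intro hx
        have hx' : (a : G) • β = α := hx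
        apply hαβ
        have h3 : (a : G)⁻¹ • ((a : G) • β) = (a : G)⁻¹ • α := congrArg _ hx'
        rw [inv_smul_smul] at h3
        rw [h3]
        exact (((stabilizer G α).inv_mem a.2 : (a : G)⁻¹ • α = α)).symm
    have hle : Nat.card (orbit (stabilizer G α) β) ≤ B.ncard - 1 := by
      rw [Nat.card_coe_set_eq]
      calc (orbit (stabilizer G α) β).ncard ≤ (B \ {α}).ncard :=
            Set.ncard_le_ncard hsub (Set.toFinite _)
        _ = B.ncard - 1 := Set.ncard_sdiff_singleton_of_mem hα
    have hpos : 0 < Nat.card (orbit (stabilizer G α) β) := by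
      have : Nonempty (orbit (stabilizer G α) β) := ⟨⟨β, mem_orbit_self β⟩⟩
      exact Nat.card_pos
    have hBpos : 0 < B.ncard := (Set.ncard_pos (Set.toFinite B)).mpr ⟨α, hα⟩
    rw [hm1] at hle hpos
    have hm : 1 ≤ m := by
      rcases Nat.eq_zero_or_pos m with h | h
      · rw [h, mul_zero] at hpos
        omega
      · exact h
    have : D.index ≤ D.index * m := Nat.le_mul_of_pos_right _ hm
    omega
  have hKtop : stabilizer G B ≠ ⊤ := by
    intro htop
    apply hB2
    apply Set.eq_univ_of_forall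
    intro ω
    obtain ⟨g, rfl⟩ := exists_smul_eq G α ω
    have hg : g ∈ stabilizer G B := htop ▸ Subgroup.mem_top g
    rw [mem_stabilizer_iff] at hg
    rw [← hg]
    exact Set.smul_mem_smul_set hα
  have hc2 : 2 ≤ Nat.card (G ⧸ stabilizer G B) := by
    have h0 : (stabilizer G B).index ≠ 0 := Subgroup.index_ne_zero_of_finite
    have h1' : (stabilizer G B).index ≠ 1 := fun h => hKtop (Subgroup.index_eq_one.mp h)
    have : (stabilizer G B).index = Nat.card (G ⧸ stabilizer G B) := rfl
    omega
  have h2 : D.index ∣ Nat.card (G ⧸ stabilizer G B) - 1 := by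
    apply Cfsg.Agent.S3548.part1 (Ω := G ⧸ stabilizer G B)
      (MulAction.isPretransitive_quotient G (stabilizer G B)) D _ hc2
    intro g hg
    apply hD
    intro ω hω
    obtain ⟨x, rfl⟩ := exists_smul_eq G α ω
    apply hg (x : G ⧸ stabilizer G B)
    rw [MulAction.Quotient.smul_mk, QuotientGroup.eq]
    have hmem : (g * x)⁻¹ * x ∈ stabilizer G α := by
      rw [mem_stabilizer_iff, mul_smul, inv_smul_eq_iff, mul_smul, hω]
    exact hB.stabilizer_le hα hmem
  have h3 : B.ncard * (orbit G B).ncard = Nat.card Ω :=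
    hB.ncard_block_mul_ncard_orbit_eq ⟨α, hα⟩
  have h4 : Nat.card (G ⧸ stabilizer G B) = (orbit G B).ncard := by
    rw [← index_stabilizer]
    rfl
  have h5 : D.index + 1 ≤ (orbit G B).ncard := by
    rw [← h4]
    have := Nat.le_of_dvd (by omega) h2
    omega
  calc (D.index + 1) * (D.index + 1) ≤ B.ncard * (orbit G B).ncard := Nat.mul_le_mul h1 h5
    _ = Nat.card Ω := h3

/-- Let G act faithfully, transitively but imprimitively on a finite set with n points, and let D be the subgroup generated by the derangements. Then the index of D in G is at most √n − 1. -/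
theorem result {G Ω : Type*} [Group G] [Finite G] [MulAction G Ω] [FaithfulSMul G Ω] [Finite Ω]
    (htrans : MulAction.IsPretransitive G Ω) (himp : ¬ MulAction.IsPreprimitive G Ω) :
    ((Subgroup.closure {g : G | ∀ ω : Ω, g • ω ≠ ω}).index : ℝ) ≤ Real.sqrt (Nat.card Ω) - 1 := by
  have hex : ∃ B : Set Ω, IsBlock G B ∧ ¬ IsTrivialBlock B := by
    by_contra hc
    push Not at hc
    exact himp { toIsPretransitive := htrans, isTrivialBlock_of_isBlock := fun {B} hB => hc B hB }
  obtain ⟨B, hB, hBnt⟩ := hex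
  unfold IsTrivialBlock at hBnt
  rw [not_or, Set.not_subsingleton_iff] at hBnt
  have hmain := main htrans (Subgroup.closure {g : G | ∀ ω : Ω, g • ω ≠ ω})
    (fun g hg => Subgroup.subset_closure hg) B hB hBnt.1 hBnt.2
  have hreal : (((Subgroup.closure {g : G | ∀ ω : Ω, g • ω ≠ ω}).index : ℝ) + 1) ^ 2 ≤
      (Nat.card Ω : ℝ) := by
    have : (((Subgroup.closure {g : G | ∀ ω : Ω, g • ω ≠ ω}).index + 1) *
        ((Subgroup.closure {g : G | ∀ ω : Ω, g • ω ≠ ω}).index + 1) : ℕ) ≤ Nat.card Ω := hmain
    have h2 := (Nat.cast_le (α := ℝ)).mpr this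
    push_cast at h2
    rw [sq]
    exact h2
  have hsq := Real.le_sqrt_of_sq_le hreal
  linarith

end Cfsg.Agent.S3549
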