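import Cfsg.Statements.S3560
import Cfsg.Agent.Helper20.Hamming
-- import your own Cfsg.Agent.* helpers here

set_option autoImplicit false
open Cfsg

namespace Cfsg.Agent.S3560

open Cfsg.Agent.Helper20.Hamming

/-- Let K be a finite group isomorphic to a direct product of r ≥ 2 groups all of the same order m ≥ 3. Then K is not a B-group: there is a primitive but not doubly transitive permutation group (on some finite set) containing a regular subgroup isomorphic to K. -/
theorem result {K : Type*} [Group K] [Finite K] {ι : Type*} [Fintype ι] (F : ι → Type*) [∀ i, Group (F i)]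
    (hr : 2 ≤ Fintype.card ι) (m : ℕ) (hm : 3 ≤ m) (hcard : ∀ i, Nat.card (F i) = m) (e : K ≃* (∀ i, F i)) :
    ∃ (n : ℕ) (G R : Subgroup (Equiv.Perm (Fin n))), R ≤ G ∧ Nonempty (↥R ≃* K) ∧
      MulAction.IsPretransitive ↥R (Fin n) ∧ (∀ a : Fin n, MulAction.stabilizer ↥R a = ⊥) ∧
      MulAction.IsPreprimitive ↥G (Fin n) ∧ ¬ MulAction.IsMultiplyPretransitive ↥G (Fin n) 2 := by
  classical
  haveI : ∀ i, Finite (F i) := fun i => Nat.finite_of_card_ne_zero (by rw [hcard i]; omega)
  let β : ∀ i, F i ≃ Fin m := fun i => Finite.equivFinOfCardEq (hcard i)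
  let σ : K → ι → Equiv.Perm (Fin m) := fun k i =>
    (β i).symm.trans ((Equiv.mulLeft ((e k) i)).trans (β i))
  have hσ : ∀ k i t, σ k i t = β i ((e k) i * (β i).symm t) := fun k i t => rfl
  let ρ : K →* Equiv.Perm (ι → Fin m) := MonoidHom.mk' (fun k => cw (σ k)) (by
    intro k k'
    ext x i
    simp [Equiv.Perm.mul_apply, cw_apply, hσ, mul_assoc])
  have hρ : ∀ k x i, ρ k x i = β i ((e k) i * (β i).symm (x i)) := fun _ _ _ => rfl
  have hinj : Function.Injective ρ := by
    intro k k' h
    apply e.injective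
    funext i
    have h1 := congrFun (congrArg (fun g : Equiv.Perm (ι → Fin m) => g (fun i => β i 1)) h) i
    simp only [hρ, Equiv.symm_apply_apply, mul_one] at h1
    exact (β i).injective h1
  have hle : ρ.range ≤ isoGroup ι m := by
    rintro _ ⟨k, rfl⟩
    exact cw_mem _
  have htrans : ∀ x y : ι → Fin m, ∃ g ∈ ρ.range, g x = y := by
    intro x y
    refine ⟨ρ (e.symm (fun i => (β i).symm (y i) * ((β i).symm (x i))⁻¹)), ⟨_, rfl⟩, ?_⟩
    funext i
    rw [hρ]
    simp
  have hsemi : ∀ x : ι → Fin m, ∀ g ∈ ρ.range, g x = x → g = 1 := by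
    rintro x _ ⟨k, rfl⟩ h
    have hk : e k = 1 := by
      funext i
      have h1 := congrFun h i
      rw [hρ] at h1
      have h2 : (e k) i * (β i).symm (x i) = (β i).symm (x i) := by
        apply (β i).injective
        rw [h1, Equiv.apply_symm_apply]
      have h3 : (e k) i * (β i).symm (x i) = 1 * (β i).symm (x i) := by rw [one_mul]; exact h2
      exact mul_right_cancel h3
    have hk1 : k = 1 := e.injective (by rw [hk, map_one])
    rw [hk1, map_one]
  let ε : (ι → Fin m) ≃ Fin (Nat.card (ι → Fin m)) := Finite.equivFin (ι → Fin m)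
  refine ⟨Nat.card (ι → Fin m),
    (isoGroup ι m).map (ε.permCongrHom : Equiv.Perm (ι → Fin m) ≃* _).toMonoidHom,
    ρ.range.map (ε.permCongrHom : Equiv.Perm (ι → Fin m) ≃* _).toMonoidHom,
    Subgroup.map_mono hle, ⟨?_⟩, pretransitive_map ε _ htrans, stabilizer_map ε _ hsemi,
    preprimitive_map ε _ trans_iso (fun B hB hns => block_univ hm B hB hns),
    not_two_map ε _ (not_two_trans hr hm)⟩
  exact ((ε.permCongrHom : Equiv.Perm (ι → Fin m) ≃* _).subgroupMap ρ.range).symm.trans
    (MonoidHom.ofInjective hinj).symm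

end Cfsg.Agent.S3560
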