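import Cfsg.Statements.S3573
import Mathlib
-- import your own Cfsg.Agent.* helpers here

set_option autoImplicit false
open Cfsg

namespace Cfsg.Agent.S3573

theorem inv_of_image {n : ℕ} (σ : Equiv.Perm (Fin n)) (T : Finset (Fin n)) (h : T.image σ = T) :
    ∀ y, σ y ∈ T ↔ y ∈ T := by
  intro y
  constructor
  · intro hy
    have hy' : σ y ∈ T.image σ := by rw [h]; exact hy
    obtain ⟨t, ht, hty⟩ := Finset.mem_image.mp hy'
    rw [← σ.injective hty]; exact ht
  · intro hy
    rw [← h]; exact Finset.mem_image_of_mem σ hy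

theorem orbit_set {n : ℕ} (r : ℕ) (hr : r.Prime) (σ : Equiv.Perm (Fin n)) (hσ : σ ^ r = 1)
    (x : Fin n) (hx : σ x ≠ x) :
    ∃ O : Finset (Fin n), O.card = r ∧ O.image σ = O ∧ (∀ y ∈ O, ∃ i : ℕ, y = (σ ^ i) x) ∧
      O ⊆ σ.support := by
  classical
  have key : ∀ i j : ℕ, i < j → j < r → (σ ^ i) x = (σ ^ j) x → False := by
    intro i j hij hj h
    have h1 : (σ ^ (j - i)) x = x := by
      have h0 : (σ ^ j) x = (σ ^ i) ((σ ^ (j - i)) x) := by
        rw [← Equiv.Perm.mul_apply, ← pow_add]
        congr 2; omega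
      rw [h0] at h
      exact ((σ ^ i).injective h).symm
    have hd1 : 0 < j - i := by omega
    have hd2 : j - i < r := by omega
    have hcop : Nat.Coprime (j - i) r := by
      rw [Nat.coprime_comm]
      exact (Nat.Prime.coprime_iff_not_dvd hr).mpr (fun hdvd => by
        have := Nat.le_of_dvd hd1 hdvd; omega)
    obtain ⟨m, -, hm⟩ := Nat.exists_mul_mod_eq_one_of_coprime hcop hr.one_lt
    have h2 : (σ ^ ((j - i) * m)) x = x := by
      rw [pow_mul]
      exact Equiv.Perm.pow_apply_eq_self_of_apply_eq_self h1 m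
    have h3 : σ ^ ((j - i) * m) = σ := by
      rw [← Nat.div_add_mod ((j - i) * m) r, hm, pow_add, pow_mul, hσ, one_pow, one_mul, pow_one]
    rw [h3] at h2
    exact hx h2
  have hinj : Set.InjOn (fun i : ℕ => (σ ^ i) x) (Finset.range r : Set ℕ) := by
    intro i hi j hj h
    simp only [Finset.coe_range, Set.mem_Iio] at hi hj
    by_contra hne
    rcases Nat.lt_or_gt_of_ne hne with h' | h'
    · exact key i j h' hj h
    · exact key j i h' hi h.symm
  refine ⟨(Finset.range r).image (fun i : ℕ => (σ ^ i) x), ?_, ?_, ?_, ?_⟩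
  · rw [Finset.card_image_of_injOn hinj, Finset.card_range]
  · apply Finset.eq_of_subset_of_card_le
    · intro y hy
      obtain ⟨z, hz, rfl⟩ := Finset.mem_image.mp hy
      obtain ⟨i, hi, rfl⟩ := Finset.mem_image.mp hz
      rw [Finset.mem_range] at hi
      rw [Finset.mem_image]
      by_cases hi' : i + 1 < r
      · exact ⟨i + 1, Finset.mem_range.mpr hi', by rw [pow_succ', Equiv.Perm.mul_apply]⟩
      · refine ⟨0, Finset.mem_range.mpr hr.pos, ?_⟩
        have hir : i + 1 = r := by omega
        rw [pow_zero, Equiv.Perm.one_apply, ← Equiv.Perm.mul_apply, ← pow_succ', hir, hσ,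
          Equiv.Perm.one_apply]
    · rw [Finset.card_image_of_injective _ σ.injective]
  · intro y hy
    obtain ⟨i, _, rfl⟩ := Finset.mem_image.mp hy
    exact ⟨i, rfl⟩
  · intro y hy
    obtain ⟨i, _, rfl⟩ := Finset.mem_image.mp hy
    exact Equiv.Perm.pow_apply_mem_support.mpr (Equiv.Perm.mem_support.mpr hx)

theorem inv_subset {n : ℕ} (r : ℕ) (hr : r.Prime) (σ : Equiv.Perm (Fin n)) (hσ : σ ^ r = 1) :
    ∀ a : ℕ, a * r ≤ σ.support.card →
      ∃ T : Finset (Fin n), T ⊆ σ.support ∧ T.image σ = T ∧ T.card = a * r := by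
  classical
  intro a
  induction a with
  | zero => intro _; exact ⟨∅, Finset.empty_subset _, Finset.image_empty _, by simp⟩
  | succ a ih =>
    intro ha
    have hrpos := hr.pos
    obtain ⟨T, hT1, hT2, hT3⟩ := ih (by nlinarith)
    have hlt : T.card < σ.support.card := by rw [hT3]; nlinarith
    obtain ⟨x, hx, hxT⟩ : ∃ x ∈ σ.support, x ∉ T := by
      by_contra hcon
      push Not at hcon
      exact absurd (Finset.card_le_card hcon) (by omega)
    obtain ⟨O, hO1, hO2, hO3, hO4⟩ := orbit_set r hr σ hσ x (Equiv.Perm.mem_support.mp hx)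
    have hinv := inv_of_image σ T hT2
    have hpow : ∀ (i : ℕ) (y : Fin n), (σ ^ i) y ∈ T ↔ y ∈ T := by
      intro i
      induction i with
      | zero => intro y; simp
      | succ i ihi => intro y; rw [pow_succ', Equiv.Perm.mul_apply, hinv, ihi]
    have hdisj : Disjoint T O := by
      rw [Finset.disjoint_left]
      intro y hyT hyO
      obtain ⟨i, rfl⟩ := hO3 y hyO
      exact hxT ((hpow i x).mp hyT)
    refine ⟨T ∪ O, Finset.union_subset hT1 hO4, ?_, ?_⟩
    · rw [Finset.image_union, hT2, hO2]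
    · rw [Finset.card_union_of_disjoint hdisj, hT3, hO1]; ring

theorem support_facts {n : ℕ} (r : ℕ) (hr : r.Prime) (σ : Equiv.Perm (Fin n)) (hσ : σ ^ r = 1) :
    ∃ m : ℕ, σ.support.card = m * r ∧ σ.supportᶜ.card = n - m * r ∧ m * r ≤ n := by
  classical
  haveI : Fact r.Prime := ⟨hr⟩
  have h1 : σ.supportᶜ.card ≡ Fintype.card (Fin n) [MOD r] :=
    Equiv.Perm.card_compl_support_modEq (n := 1) (by rw [pow_one]; exact hσ)
  rw [Fintype.card_fin, Finset.card_compl, Fintype.card_fin] at h1
  have hle : σ.support.card ≤ n := by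
    have := Finset.card_le_univ σ.support
    rwa [Fintype.card_fin] at this
  have h2 : r ∣ σ.support.card := by
    have h3 := (Nat.modEq_iff_dvd' (Nat.sub_le n σ.support.card)).mp h1
    have h4 : n - (n - σ.support.card) = σ.support.card := by omega
    rwa [h4] at h3
  obtain ⟨m, hm⟩ := h2
  refine ⟨m, by rw [hm, mul_comm], ?_, ?_⟩
  · rw [Finset.card_compl, Fintype.card_fin, hm, mul_comm]
  · rw [mul_comm, ← hm]; exact hle

theorem exists_fixed_set {n : ℕ} (r : ℕ) (hr : r.Prime) (σ : Equiv.Perm (Fin n)) (hσ : σ ^ r = 1)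
    (k : ℕ) (hk : k ≤ n) (hmod : k % r ≤ n % r) :
    ∃ s : Finset (Fin n), s.card = k ∧ s.image σ = s := by
  classical
  obtain ⟨m, hm1, hm2, hm3⟩ := support_facts r hr σ hσ
  have hrpos := hr.pos
  have key : ∃ a b : ℕ, a * r ≤ σ.support.card ∧ b ≤ σ.supportᶜ.card ∧ a * r + b = k := by
    by_cases hc : k / r ≤ m
    · refine ⟨k / r, k % r, ?_, ?_, Nat.div_add_mod' k r⟩
      · rw [hm1]; exact Nat.mul_le_mul_right r hc
      · rw [hm2]
        have h1 : n % r = (n - m * r) % r := by
          conv_lhs => rw [show n = (n - m * r) + m * r by omega]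
          exact Nat.add_mul_mod_self_right _ _ _
        have h2 : (n - m * r) % r ≤ n - m * r := Nat.mod_le _ _
        omega
    · have h1 : m * r ≤ k := by
        have : m ≤ k / r := by omega
        exact (Nat.le_div_iff_mul_le hrpos).mp this
      refine ⟨m, k - m * r, ?_, ?_, by omega⟩
      · rw [hm1]
      · rw [hm2]; omega
  obtain ⟨a, b, ha, hb, hab⟩ := key
  obtain ⟨T, hT1, hT2, hT3⟩ := inv_subset r hr σ hσ a ha
  obtain ⟨B, hB1, hB2⟩ := Finset.exists_subset_card_eq hb
  have hBfix : ∀ y ∈ B, σ y = y := by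
    intro y hy
    have := hB1 hy
    rw [Finset.mem_compl] at this
    exact Equiv.Perm.notMem_support.mp this
  have hBimg : B.image σ = B := by
    ext y
    constructor
    · intro hy
      obtain ⟨z, hz, rfl⟩ := Finset.mem_image.mp hy
      rw [hBfix z hz]; exact hz
    · intro hy
      exact Finset.mem_image.mpr ⟨y, hy, hBfix y hy⟩
  have hdisj : Disjoint T B := by
    rw [Finset.disjoint_left]
    intro y hyT hyB
    have := hB1 hyB
    rw [Finset.mem_compl] at this
    exact this (hT1 hyT)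
  refine ⟨T ∪ B, ?_, ?_⟩
  · rw [Finset.card_union_of_disjoint hdisj, hT3, hB2]; exact hab
  · rw [Finset.image_union, hT2, hBimg]

theorem mod_le_of_fixed {n : ℕ} (r : ℕ) (hr : r.Prime) (σ : Equiv.Perm (Fin n)) (hσ : σ ^ r = 1)
    (s : Finset (Fin n)) (hs : s.image σ = s) : s.card % r ≤ σ.supportᶜ.card := by
  classical
  haveI : Fact r.Prime := ⟨hr⟩
  have hinv := inv_of_image σ s hs
  obtain ⟨f, hf⟩ : ∃ f : Function.End {x // x ∈ s}, ∀ x, ((f x : {x // x ∈ s}) : Fin n) = σ x :=
    ⟨fun x => ⟨σ x, (hinv x).mpr x.2⟩, fun x => rfl⟩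
  have hfpow : ∀ (j : ℕ) (x : {x // x ∈ s}), (((f ^ j) x : {x // x ∈ s}) : Fin n) = (σ ^ j) x := by
    intro j
    induction j with
    | zero => intro x; rfl
    | succ j ih =>
      intro x
      rw [pow_succ', pow_succ', Equiv.Perm.mul_apply, ← ih x]
      exact hf _
  have hfr : f ^ r ^ 1 = 1 := by
    rw [pow_one]
    funext x
    apply Subtype.ext
    rw [hfpow r x, hσ]; rfl
  have h1 := Equiv.Perm.card_fixedPoints_modEq (p := r) (n := 1) hfr
  rw [Fintype.card_coe] at h1
  have h2 : ∀ (inst : Fintype (Function.fixedPoints f)),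
      @Fintype.card _ inst ≤ σ.supportᶜ.card := by
    intro inst
    rw [← Fintype.card_coe σ.supportᶜ]
    apply Fintype.card_le_of_injective
      (fun x : Function.fixedPoints f => (⟨((x : {x // x ∈ s}) : Fin n), by
        rw [Finset.mem_compl, Equiv.Perm.notMem_support]
        have h3 : f (x : {x // x ∈ s}) = x := x.2
        have h4 := hf (x : {x // x ∈ s})
        rw [h3] at h4
        exact h4.symm⟩ : {y // y ∈ σ.supportᶜ}))
    intro x y hxy
    apply Subtype.ext
    apply Subtype.ext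
    exact congrArg (fun z : {y // y ∈ σ.supportᶜ} => (z : Fin n)) hxy
  unfold Nat.ModEq at h1
  rw [h1]
  exact le_trans (Nat.mod_le _ _) (h2 _)

theorem exists_full {n : ℕ} (r : ℕ) (hr : r.Prime) (hrn : r ≤ n) :
    ∃ σ : Equiv.Perm (Fin n), orderOf σ = r ∧ σ.supportᶜ.card = n % r := by
  classical
  haveI : Fact r.Prime := ⟨hr⟩
  have hrpos := hr.pos
  have hdiv : 1 ≤ n / r := (Nat.le_div_iff_mul_le hrpos).mpr (by omega)
  obtain ⟨σ, hσ⟩ := (Equiv.Perm.exists_with_cycleType_iff (Fin n)
    (m := Multiset.replicate (n / r) r)).mpr ⟨by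
      rw [Multiset.sum_replicate, Fintype.card_fin, smul_eq_mul]
      exact Nat.div_mul_le_self n r, fun a ha => by
      rw [Multiset.eq_of_mem_replicate ha]; exact hr.two_le⟩
  have hpow : σ ^ r = 1 := by
    apply orderOf_dvd_iff_pow_eq_one.mp
    rw [← Equiv.Perm.lcm_cycleType, hσ, Multiset.lcm_dvd]
    intro b hb
    rw [Multiset.eq_of_mem_replicate hb]
  have hne : σ ≠ 1 := by
    intro h
    rw [← Equiv.Perm.cycleType_eq_zero, hσ] at h
    have := congrArg Multiset.card h
    rw [Multiset.card_replicate, Multiset.card_zero] at this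
    omega
  refine ⟨σ, orderOf_eq_prime hpow hne, ?_⟩
  rw [Finset.card_compl, Fintype.card_fin, ← Equiv.Perm.sum_cycleType, hσ, Multiset.sum_replicate,
    smul_eq_mul]
  have := Nat.div_add_mod' n r
  omega

theorem lucas_small (n k r : ℕ) (hr : r.Prime) (hkr : k < r) (hk : k ≤ n % r) :
    ¬ r ∣ Nat.choose n k := by
  haveI : Fact r.Prime := ⟨hr⟩
  intro h
  have h1 : Nat.choose n k ≡ Nat.choose (n % r) (k % r) * Nat.choose (n / r) (k / r) [MOD r] :=
    Choose.choose_modEq_choose_mod_mul_choose_div_nat (p := r)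
  rw [Nat.mod_eq_of_lt hkr, Nat.div_eq_of_lt hkr, Nat.choose_zero_right, mul_one] at h1
  have h2 : r ∣ Nat.choose (n % r) k := (Nat.ModEq.dvd_iff h1 (dvd_refl r)).mp h
  have h3 : r ∣ (n % r).factorial := by
    rw [← Nat.choose_mul_factorial_mul_factorial hk]
    exact dvd_mul_of_dvd_left (dvd_mul_of_dvd_left h2 _) _
  have h4 := (Nat.Prime.dvd_factorial hr).mp h3
  have h5 := Nat.mod_lt n hr.pos
  omega


/-- Let 1 ≤ k with 2k < n and consider the symmetric group of degree n acting on the k-subsets of an n-set. Let r be a prime dividing the number C(n,k) of k-subsets. If r is odd, then every permutation of order r fixes some k-subset if and only if r ≤ k and the remainder of k modulo r is at most the remainder of n modulo r. If r = 2, then every involution fixes some k-subset if and only if k is even or n is odd. -/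
theorem result (n k : ℕ) (hk : 1 ≤ k) (hkn : 2 * k < n) (r : ℕ) (hr : r.Prime) (hrd : r ∣ Nat.choose n k) :
    (r ≠ 2 → ((∀ σ : Equiv.Perm (Fin n), orderOf σ = r → ∃ s : Finset (Fin n), s.card = k ∧ s.image σ = s) ↔
      (r ≤ k ∧ k % r ≤ n % r))) ∧
    (r = 2 → ((∀ σ : Equiv.Perm (Fin n), orderOf σ = 2 → ∃ s : Finset (Fin n), s.card = k ∧ s.image σ = s) ↔
      (Even k ∨ Odd n))) := by
  classical
  have hkn' : k ≤ n := by omega
  have hrn : r ≤ n := by
    have h1 : r ∣ n.factorial := by
      rw [← Nat.choose_mul_factorial_mul_factorial hkn']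
      exact dvd_mul_of_dvd_left (dvd_mul_of_dvd_left hrd _) _
    exact (Nat.Prime.dvd_factorial hr).mp h1
  have hE : (∀ σ : Equiv.Perm (Fin n), orderOf σ = r →
      ∃ s : Finset (Fin n), s.card = k ∧ s.image σ = s) ↔ k % r ≤ n % r := by
    constructor
    · intro h
      obtain ⟨σ, hσ1, hσ2⟩ := exists_full (n := n) r hr hrn
      obtain ⟨s, hs1, hs2⟩ := h σ hσ1
      have hpow : σ ^ r = 1 := by rw [← hσ1]; exact pow_orderOf_eq_one σ
      have := mod_le_of_fixed r hr σ hpow s hs2
      rw [hs1, hσ2] at this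
      exact this
    · intro h σ hσ
      have hpow : σ ^ r = 1 := by rw [← hσ]; exact pow_orderOf_eq_one σ
      exact exists_fixed_set r hr σ hpow k hkn' h
  refine ⟨fun _ => ?_, fun h2 => ?_⟩
  · rw [hE]
    constructor
    · intro h
      refine ⟨?_, h⟩
      by_contra hlt
      push Not at hlt
      rw [Nat.mod_eq_of_lt hlt] at h
      exact lucas_small n k r hr hlt h hrd
    · exact fun h => h.2
  · subst h2
    rw [hE, Nat.even_iff, Nat.odd_iff]
    omega

end Cfsg.Agent.S3573
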