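import Cfsg.Statements.S3619
import Mathlib

set_option autoImplicit false
open Cfsg

namespace Cfsg.Agent.S3619

open MulAction
open scoped Pointwise

/-- Let G act faithfully on a finite set in such a way that every non-trivial normal subgroup of G is transitive (G is quasiprimitive). Let Γ be a subset with more than one point and not the whole set, such that the pointwise stabilizer of the complement of Γ acts transitively on Γ (a Jordan set). If that pointwise stabilizer acts primitively on Γ, then G is k-fold transitive where k is one more than the number of points outside Γ (the Jordan set is a trivial one). -/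
theorem result {G Ω : Type*} [Group G] [Finite G] [MulAction G Ω] [FaithfulSMul G Ω] [Finite Ω]
    (hqp : ∀ N : Subgroup G, N.Normal → N ≠ ⊥ → MulAction.IsPretransitive ↥N Ω)
    (Γ : Set Ω) (hΓ1 : 1 < Γ.ncard) (hΓ2 : Γ.ncard < Nat.card Ω)
    (hJ : MulAction.IsPretransitive ↥(fixingSubgroup G Γᶜ) ↥(SubMulAction.ofFixingSubgroup G Γᶜ))
    (hJp : MulAction.IsPreprimitive ↥(fixingSubgroup G Γᶜ) ↥(SubMulAction.ofFixingSubgroup G Γᶜ)) :
    MulAction.IsMultiplyPretransitive G Ω (Nat.card Ω - Γ.ncard + 1) := by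
  classical
  obtain ⟨γ1, γ2, hγ1, hγ2, hne⟩ := (Set.one_lt_ncard_iff (Set.toFinite Γ)).mp hΓ1
  have hmem : ∀ γ, γ ∈ Γ → γ ∈ SubMulAction.ofFixingSubgroup G Γᶜ := by
    intro γ hγ
    rw [SubMulAction.mem_ofFixingSubgroup_iff]
    exact fun h => h hγ
  obtain ⟨h0, hh0⟩ := hJ.exists_smul_eq
    (⟨γ1, hmem γ1 hγ1⟩ : SubMulAction.ofFixingSubgroup G Γᶜ) ⟨γ2, hmem γ2 hγ2⟩
  have hh0' : (h0 : G) • γ1 = γ2 := congrArg Subtype.val hh0
  have hh0ne : (h0 : G) ≠ 1 := by
    intro h1
    rw [h1, one_smul] at hh0'
    exact hne hh0'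
  have hGne : (⊤ : Subgroup G) ≠ ⊥ := by
    intro htop
    have : (h0 : G) ∈ (⊥ : Subgroup G) := htop ▸ Subgroup.mem_top _
    exact hh0ne (Subgroup.mem_bot.mp this)
  have htop : IsPretransitive (⊤ : Subgroup G) Ω := hqp ⊤ inferInstance hGne
  have htrans : IsPretransitive G Ω := by
    constructor
    intro x y
    obtain ⟨g, hg⟩ := htop.exists_smul_eq x y
    exact ⟨g.1, hg⟩
  have hprim : IsPreprimitive G Ω := by
    refine { toIsPretransitive := htrans, isTrivialBlock_of_isBlock := ?_ }
    intro B hB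
    by_contra hnt
    unfold IsTrivialBlock at hnt
    push Not at hnt
    obtain ⟨hB1, hB2⟩ := hnt
    have hKn : ((stabilizer G B).normalCore).Normal := Subgroup.normalCore_normal _
    have hKbot : (stabilizer G B).normalCore = ⊥ := by
      by_contra hKne
      have hKt := hqp _ hKn hKne
      obtain ⟨b, hb⟩ : B.Nonempty := hB1.nonempty
      obtain ⟨x, hx⟩ : ∃ x, x ∉ B := by
        by_contra hc
        push Not at hc
        exact hB2 (Set.eq_univ_of_forall hc)
      obtain ⟨k, hk⟩ := hKt.exists_smul_eq b x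
      have hkB : (k : G) • B = B := mem_stabilizer_iff.mp (Subgroup.normalCore_le _ k.2)
      apply hx
      rw [← hkB]
      exact ⟨b, hb, hk⟩
    have hfix : ∀ h ∈ fixingSubgroup G Γᶜ, ∀ g : G, h • (g • B) = g • B := by
      intro h hh g
      have hB' : IsBlock G (g • B) := hB.translate g
      by_cases hcase : ∃ x ∈ g • B, x ∈ Γᶜ
      · obtain ⟨x, hx, hxΓ⟩ := hcase
        have hfx : h • x = x := (mem_fixingSubgroup_iff G).mp hh x hxΓ
        exact hB'.smul_eq_of_mem hx (hfx.symm ▸ hx)
      · push Not at hcase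
        have hC : IsBlock (fixingSubgroup G Γᶜ)
            ((SubMulAction.ofFixingSubgroup_equivariantMap G Γᶜ) ⁻¹' (g • B)) :=
          hB'.preimage (SubMulAction.ofFixingSubgroup_equivariantMap G Γᶜ)
        have hCt := hJp.isTrivialBlock_of_isBlock hC
        have hCuniv : (SubMulAction.ofFixingSubgroup_equivariantMap G Γᶜ) ⁻¹' (g • B) =
            Set.univ := by
          rcases hCt with hsub | huniv
          · exfalso
            obtain ⟨x, hx, y, hy, hxy⟩ := hB1
            apply hxy
            have hx' : g • x ∈ g • B := Set.smul_mem_smul_set hx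
            have hy' : g • y ∈ g • B := Set.smul_mem_smul_set hy
            have hxm : (⟨g • x, hcase _ hx'⟩ : SubMulAction.ofFixingSubgroup G Γᶜ) ∈
                (SubMulAction.ofFixingSubgroup_equivariantMap G Γᶜ) ⁻¹' (g • B) := hx'
            have hym : (⟨g • y, hcase _ hy'⟩ : SubMulAction.ofFixingSubgroup G Γᶜ) ∈
                (SubMulAction.ofFixingSubgroup_equivariantMap G Γᶜ) ⁻¹' (g • B) := hy'
            have := hsub hxm hym
            exact smul_left_cancel g (congrArg Subtype.val this)
          · exact huniv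
        have hΓB : ∀ γ ∈ Γ, γ ∈ g • B := by
          intro γ hγ
          have : (⟨γ, hmem γ hγ⟩ : SubMulAction.ofFixingSubgroup G Γᶜ) ∈
              (SubMulAction.ofFixingSubgroup_equivariantMap G Γᶜ) ⁻¹' (g • B) := by
            rw [hCuniv]
            exact Set.mem_univ _
          exact this
        have hhγ : h • γ1 ∈ Γ := by
          have := ((⟨h, hh⟩ : fixingSubgroup G Γᶜ) •
            (⟨γ1, hmem γ1 hγ1⟩ : SubMulAction.ofFixingSubgroup G Γᶜ)).2
          rw [SubMulAction.mem_ofFixingSubgroup_iff] at this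
          exact not_not.mp this
        exact hB'.smul_eq_of_mem (hΓB γ1 hγ1) (hΓB _ hhγ)
    have hh0K : (h0 : G) ∈ (stabilizer G B).normalCore := by
      intro b
      rw [mem_stabilizer_iff, mul_smul, mul_smul, hfix h0 h0.2 b⁻¹, smul_inv_smul]
    rw [hKbot, Subgroup.mem_bot] at hh0K
    exact hh0ne hh0K
  have hs : (Γᶜ).ncard = (Nat.card Ω - Γ.ncard - 1) + 1 := by
    rw [Set.ncard_compl]
    omega
  have hlt : (Nat.card Ω - Γ.ncard - 1) + 2 < Nat.card Ω := by omega
  have hmp := hprim.isMultiplyPreprimitive hs hlt hJp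
  have h2 : Nat.card Ω - Γ.ncard - 1 + 2 = Nat.card Ω - Γ.ncard + 1 := by omega
  rw [h2] at hmp
  exact IsMultiplyPreprimitive.isMultiplyPretransitive G Ω _

end Cfsg.Agent.S3619
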