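import Cfsg.Statements.S3639
import Mathlib

set_option autoImplicit false
open Cfsg
open Polynomial

namespace Cfsg.Agent.S3639

section four
variable {R : Type*} [CommRing R]

theorem det_fin_four' (A : Matrix (Fin 4) (Fin 4) R) :
    A.det = A 0 0 * (A 1 1 * A 2 2 * A 3 3 - A 1 1 * A 2 3 * A 3 2 - A 1 2 * A 2 1 * A 3 3
        + A 1 2 * A 2 3 * A 3 1 + A 1 3 * A 2 1 * A 3 2 - A 1 3 * A 2 2 * A 3 1)
      - A 0 1 * (A 1 0 * A 2 2 * A 3 3 - A 1 0 * A 2 3 * A 3 2 - A 1 2 * A 2 0 * A 3 3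
        + A 1 2 * A 2 3 * A 3 0 + A 1 3 * A 2 0 * A 3 2 - A 1 3 * A 2 2 * A 3 0)
      + A 0 2 * (A 1 0 * A 2 1 * A 3 3 - A 1 0 * A 2 3 * A 3 1 - A 1 1 * A 2 0 * A 3 3
        + A 1 1 * A 2 3 * A 3 0 + A 1 3 * A 2 0 * A 3 1 - A 1 3 * A 2 1 * A 3 0)
      - A 0 3 * (A 1 0 * A 2 1 * A 3 2 - A 1 0 * A 2 2 * A 3 1 - A 1 1 * A 2 0 * A 3 2
        + A 1 1 * A 2 2 * A 3 0 + A 1 2 * A 2 0 * A 3 1 - A 1 2 * A 2 1 * A 3 0) := by
  rw [Matrix.det_succ_row_zero]
  simp only [Fin.sum_univ_four, Matrix.det_fin_three, Matrix.submatrix_apply]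
  simp [Fin.succAbove]
  ring

/-- the `2 × 2` minor on rows `k, l` and columns `i, j`. -/
def minor2 (g : Matrix (Fin 4) (Fin 4) R) (k l i j : Fin 4) : R := g k i * g l j - g l i * g k j

/-- the second elementary symmetric function of the eigenvalues. -/
def E2 (g : Matrix (Fin 4) (Fin 4) R) : R :=
  minor2 g 0 1 0 1 + minor2 g 0 2 0 2 + minor2 g 1 3 1 3 + minor2 g 2 3 2 3 + minor2 g 0 3 0 3 +
    minor2 g 1 2 1 2

/-- the third elementary symmetric function of the eigenvalues. -/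
def E3 (g : Matrix (Fin 4) (Fin 4) R) : R :=
  (g 1 1 * g 2 2 * g 3 3 - g 1 1 * g 2 3 * g 3 2 - g 1 2 * g 2 1 * g 3 3
        + g 1 2 * g 2 3 * g 3 1 + g 1 3 * g 2 1 * g 3 2 - g 1 3 * g 2 2 * g 3 1) +
  (g 0 0 * g 2 2 * g 3 3 - g 0 0 * g 2 3 * g 3 2 - g 0 2 * g 2 0 * g 3 3
        + g 0 2 * g 2 3 * g 3 0 + g 0 3 * g 2 0 * g 3 2 - g 0 3 * g 2 2 * g 3 0) +
  (g 0 0 * g 1 1 * g 3 3 - g 0 0 * g 1 3 * g 3 1 - g 0 1 * g 1 0 * g 3 3
        + g 0 1 * g 1 3 * g 3 0 + g 0 3 * g 1 0 * g 3 1 - g 0 3 * g 1 1 * g 3 0) +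
  (g 0 0 * g 1 1 * g 2 2 - g 0 0 * g 1 2 * g 2 1 - g 0 1 * g 1 0 * g 2 2
        + g 0 1 * g 1 2 * g 2 0 + g 0 2 * g 1 0 * g 2 1 - g 0 2 * g 1 1 * g 2 0)

theorem charpoly_fin_four (g : Matrix (Fin 4) (Fin 4) R) :
    g.charpoly = X ^ 4 - C (g 0 0 + g 1 1 + g 2 2 + g 3 3) * X ^ 3 + C (E2 g) * X ^ 2
      - C (E3 g) * X + C g.det := by
  rw [Matrix.charpoly, det_fin_four', det_fin_four' g]
  simp only [Matrix.charmatrix_apply, Matrix.diagonal_apply, E2, E3, minor2, map_add, map_sub,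
    map_mul]
  simp
  ring

theorem charpoly_coeff_two (g : Matrix (Fin 4) (Fin 4) R) : g.charpoly.coeff 2 = E2 g := by
  rw [charpoly_fin_four]
  simp only [coeff_add, coeff_sub, coeff_C_mul, coeff_X_pow, coeff_X, coeff_C]
  norm_num

theorem star4_apply (g : Matrix (Fin 4) (Fin 4) R) (p r : Fin 4) :
    Lie.star4 g p r =
      minor2 g (Lie.pairOf p).1 (Lie.pairOf p).2 (Lie.pairOf r).1 (Lie.pairOf r).2 := rfl

theorem cauchy_binet (g h : Matrix (Fin 4) (Fin 4) R) (k l i j : Fin 4) :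
    minor2 (g * h) k l i j = minor2 g k l 0 1 * minor2 h 0 1 i j +
      minor2 g k l 0 2 * minor2 h 0 2 i j + minor2 g k l 1 3 * minor2 h 1 3 i j +
      minor2 g k l 2 3 * minor2 h 2 3 i j + minor2 g k l 0 3 * minor2 h 0 3 i j +
      minor2 g k l 1 2 * minor2 h 1 2 i j := by
  simp only [minor2, Matrix.mul_apply, Fin.sum_univ_four]
  ring

/-- the Gram matrix of `altForm4`. -/
def J4 : Matrix (Fin 4) (Fin 4) R := !![0, 0, 0, 1; 0, 0, 1, 0; 0, 1, 0, 0; 1, 0, 0, 0]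

theorem J4_mul_J4 : (J4 : Matrix (Fin 4) (Fin 4) R) * J4 = 1 := by
  ext i j
  fin_cases i <;> fin_cases j <;> simp [J4, Matrix.mul_apply, Fin.sum_univ_four]

/-- `g` preserves the form with Gram matrix `J4`. -/
def IsSp (g : Matrix (Fin 4) (Fin 4) R) : Prop := g.transpose * J4 * g = J4

theorem IsSp.inv_right {g : Matrix (Fin 4) (Fin 4) R} (h : IsSp g) :
    g * (J4 * g.transpose * J4) = 1 := by
  have h1 : (J4 * g.transpose * J4) * g = 1 := by
    have h' : g.transpose * J4 * g = J4 := h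
    rw [Matrix.mul_assoc, Matrix.mul_assoc, ← Matrix.mul_assoc g.transpose, h', J4_mul_J4]
  exact mul_eq_one_comm.mp h1

theorem IsSp.row {g : Matrix (Fin 4) (Fin 4) R} (h : IsSp g) : g * J4 * g.transpose = J4 := by
  have h1 := h.inv_right
  have h2 : g * J4 * g.transpose = (g * (J4 * g.transpose * J4)) * J4 := by
    simp only [Matrix.mul_assoc, J4_mul_J4, Matrix.mul_one]
  rw [h2, h1, Matrix.one_mul]

theorem IsSp.colrel {g : Matrix (Fin 4) (Fin 4) R} (h : IsSp g) (i j : Fin 4) :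
    g 0 i * g 3 j + g 1 i * g 2 j + g 2 i * g 1 j + g 3 i * g 0 j = J4 i j := by
  have h' : g.transpose * J4 * g = J4 := h
  have h1 := congrFun (congrFun h' i) j
  rw [← h1]
  simp [Matrix.mul_apply, Fin.sum_univ_four, J4]
  ring

theorem IsSp.rowrel {g : Matrix (Fin 4) (Fin 4) R} (h : IsSp g) (k l : Fin 4) :
    g k 0 * g l 3 + g k 1 * g l 2 + g k 2 * g l 1 + g k 3 * g l 0 = J4 k l := by
  have h1 := congrFun (congrFun h.row k) l
  rw [← h1]
  simp [Matrix.mul_apply, Fin.sum_univ_four, J4]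
  ring

theorem IsSp.mul {g h : Matrix (Fin 4) (Fin 4) R} (hg : IsSp g) (hh : IsSp h) : IsSp (g * h) := by
  have hg' : g.transpose * J4 * g = J4 := hg
  have hh' : h.transpose * J4 * h = J4 := hh
  show (g * h).transpose * J4 * (g * h) = J4
  rw [Matrix.transpose_mul]
  calc h.transpose * g.transpose * J4 * (g * h)
      = h.transpose * (g.transpose * J4 * g) * h := by simp only [Matrix.mul_assoc]
    _ = J4 := by rw [hg', hh']

theorem pairOf_J4 (p : Fin 4) : (J4 : Matrix (Fin 4) (Fin 4) R) (Lie.pairOf p).1 (Lie.pairOf p).2 = 0 := by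
  fin_cases p <;> simp [Lie.pairOf, J4]

theorem IsSp.minor_col {h : Matrix (Fin 4) (Fin 4) R} (hh : IsSp h) (h2 : (2 : R) = 0) (i j : Fin 4)
    (hij : (J4 : Matrix (Fin 4) (Fin 4) R) i j = 0) :
    minor2 h 0 3 i j + minor2 h 1 2 i j = 0 := by
  have h1 := hh.colrel i j
  rw [hij] at h1
  simp only [minor2]
  linear_combination h1 - (h 3 i * h 0 j + h 2 i * h 1 j) * h2

theorem IsSp.minor_row {g : Matrix (Fin 4) (Fin 4) R} (hg : IsSp g) (h2 : (2 : R) = 0) (k l : Fin 4)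
    (hkl : (J4 : Matrix (Fin 4) (Fin 4) R) k l = 0) :
    minor2 g k l 0 3 + minor2 g k l 1 2 = 0 := by
  have h1 := hg.rowrel k l
  rw [hkl] at h1
  simp only [minor2]
  linear_combination h1 - (g l 0 * g k 3 + g l 1 * g k 2) * h2

theorem star4_mul {g h : Matrix (Fin 4) (Fin 4) R} (hg : IsSp g) (hh : IsSp h) (h2 : (2 : R) = 0) :
    Lie.star4 (g * h) = Lie.star4 g * Lie.star4 h := by
  ext p r
  rw [Matrix.mul_apply, Fin.sum_univ_four]
  simp only [star4_apply]
  rw [cauchy_binet]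
  have e1 := hg.minor_row h2 _ _ (pairOf_J4 p)
  have e2 := hh.minor_col h2 _ _ (pairOf_J4 r)
  have p0 : Lie.pairOf 0 = (0, 1) := rfl
  have p1 : Lie.pairOf 1 = (0, 2) := rfl
  have p2 : Lie.pairOf 2 = (1, 3) := rfl
  have p3 : Lie.pairOf 3 = (2, 3) := rfl
  rw [p0, p1, p2, p3]
  linear_combination
    (minor2 h 0 3 (Lie.pairOf r).1 (Lie.pairOf r).2) * e1 +
    (minor2 g (Lie.pairOf p).1 (Lie.pairOf p).2 1 2) * e2 -
    (minor2 g (Lie.pairOf p).1 (Lie.pairOf p).2 1 2) *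
      (minor2 h 0 3 (Lie.pairOf r).1 (Lie.pairOf r).2) * h2

theorem star4_one : Lie.star4 (1 : Matrix (Fin 4) (Fin 4) R) = 1 := by
  ext p r
  have p0 : Lie.pairOf 0 = (0, 1) := rfl
  have p1 : Lie.pairOf 1 = (0, 2) := rfl
  have p2 : Lie.pairOf 2 = (1, 3) := rfl
  have p3 : Lie.pairOf 3 = (2, 3) := rfl
  fin_cases p <;> fin_cases r <;> simp [Lie.star4, p0, p1, p2, p3]

theorem IsSp.E2_eq {g : Matrix (Fin 4) (Fin 4) R} (hg : IsSp g) (h2 : (2 : R) = 0) :
    E2 g = Matrix.trace (Lie.star4 g) := by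
  have r1 := hg.rowrel 0 3
  have r2 := hg.colrel 1 2
  simp [J4] at r1 r2
  rw [Matrix.trace, Fin.sum_univ_four]
  simp only [Matrix.diag_apply, star4_apply]
  have p0 : Lie.pairOf 0 = (0, 1) := rfl
  have p1 : Lie.pairOf 1 = (0, 2) := rfl
  have p2 : Lie.pairOf 2 = (1, 3) := rfl
  have p3 : Lie.pairOf 3 = (2, 3) := rfl
  rw [p0, p1, p2, p3]
  simp only [E2, minor2]
  linear_combination r1 + r2 +
    (1 - (g 0 3 * g 3 0 + g 2 1 * g 1 2 + g 0 1 * g 3 2 + g 0 2 * g 3 1)) * h2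

end four

section field
variable {F : Type*} [Field F] [CharP F 2]

theorem two_eq_zero' : (2 : F) = 0 := by
  have := CharP.cast_eq_zero F 2
  exact_mod_cast this

theorem IsSp.det_eq_one {g : Matrix (Fin 4) (Fin 4) F} (hg : IsSp g) : g.det = 1 := by
  have hg' : g.transpose * J4 * g = J4 := hg
  have h := congrArg Matrix.det hg'
  rw [Matrix.det_mul, Matrix.det_mul, Matrix.det_transpose] at h
  have hJ : (J4 : Matrix (Fin 4) (Fin 4) F).det ≠ 0 := by
    have h1 := congrArg Matrix.det (J4_mul_J4 (R := F))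
    rw [Matrix.det_mul, Matrix.det_one] at h1
    intro h0
    rw [h0, zero_mul] at h1
    exact zero_ne_one h1
  have h1 : g.det * g.det = 1 := by
    have h3 : (g.det * g.det - 1) * (J4 : Matrix (Fin 4) (Fin 4) F).det = 0 := by
      linear_combination h
    rcases mul_eq_zero.mp h3 with h4 | h4
    · exact sub_eq_zero.mp h4
    · exact absurd h4 hJ
  have h2 : (2 : F) = 0 := two_eq_zero'
  have h5 : (g.det - 1) ^ 2 = 0 := by linear_combination h1 - (g.det - 1) * h2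
  exact sub_eq_zero.mp ((pow_eq_zero_iff two_ne_zero).mp h5)

theorem IsSp.charpoly_reverse {g : Matrix (Fin 4) (Fin 4) F} (hg : IsSp g) :
    g.charpoly.reverse = g.charpoly := by
  have hdet := hg.det_eq_one
  have hunit : IsUnit g := (Matrix.isUnit_iff_isUnit_det g).mpr (by rw [hdet]; exact isUnit_one)
  have hinv : g⁻¹ = J4 * g.transpose * J4 := Matrix.inv_eq_right_inv hg.inv_right
  have h1 := Matrix.charpoly_inv g hunit
  rw [hdet] at h1
  simp at h1
  have e : ((-1 : F[X]) ^ 4) = 1 := by norm_num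
  rw [e, one_mul] at h1
  rw [Matrix.reverse_charpoly, ← h1, hinv, Matrix.mul_assoc, Matrix.charpoly_mul_comm,
    Matrix.mul_assoc, J4_mul_J4, Matrix.mul_one, Matrix.charpoly_transpose]

theorem map_pow_eq (k : ℕ) (g : Matrix (Fin 4) (Fin 4) F) :
    g.map (fun x => x ^ 2 ^ k) = (iterateFrobenius F 2 k).mapMatrix g := by
  ext i j
  simp [iterateFrobenius_def]

/-- a "Suzuki" matrix with eigenvalue `1` is unipotent. -/
theorem pow_four_of_fixed {g : Matrix (Fin 4) (Fin 4) F} (hg : IsSp g) (k : ℕ)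
    (hstar : Lie.star4 g = g.map (fun x => x ^ 2 ^ k)) (hdet : (g - 1).det = 0) : g ^ 4 = 1 := by
  have h2 : (2 : F) = 0 := two_eq_zero'
  have hnat : g.charpoly.natDegree = 4 := by
    rw [Matrix.charpoly_natDegree_eq_dim]
    rfl
  have hmonic : g.charpoly.Monic := Matrix.charpoly_monic g
  have c4 : g.charpoly.coeff 4 = 1 := by
    have := hmonic.coeff_natDegree
    rwa [hnat] at this
  have hrev := hg.charpoly_reverse
  have c0 : g.charpoly.coeff 0 = 1 := by
    have h := congrArg (fun p => Polynomial.coeff p 0) hrev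
    simp only [Polynomial.coeff_reverse, hnat] at h
    rw [Polynomial.revAt_le (by norm_num)] at h
    rw [← h]
    exact c4
  have c13 : g.charpoly.coeff 1 = g.charpoly.coeff 3 := by
    have h := congrArg (fun p => Polynomial.coeff p 1) hrev
    simp only [Polynomial.coeff_reverse, hnat] at h
    rw [Polynomial.revAt_le (by norm_num)] at h
    exact h.symm
  have c3 : g.charpoly.coeff 3 = -Matrix.trace g := by
    have h := Matrix.trace_eq_neg_charpoly_coeff g
    rw [h]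
    simp
  have c2 : g.charpoly.coeff 2 = (Matrix.trace g) ^ 2 ^ k := by
    rw [charpoly_coeff_two, hg.E2_eq h2, hstar, map_pow_eq, Matrix.trace, Matrix.trace,
      Fin.sum_univ_four, Fin.sum_univ_four]
    simp only [Matrix.diag_apply, RingHom.mapMatrix_apply, Matrix.map_apply]
    rw [← map_add, ← map_add, ← map_add, iterateFrobenius_def]
  have hp : g.charpoly = X ^ 4 + C (g.charpoly.coeff 3) * X ^ 3 + C (g.charpoly.coeff 2) * X ^ 2 +
      C (g.charpoly.coeff 3) * X + 1 := by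
    conv_lhs => rw [g.charpoly.as_sum_range_C_mul_X_pow, hnat]
    simp only [Finset.sum_range_succ, Finset.sum_range_zero, c0, c13, c4]
    simp
    ring
  have heval : g.charpoly.eval 1 = 0 := by
    rw [Matrix.eval_charpoly]
    have e : (Matrix.scalar (Fin 4) (1 : F) - g) = -(g - 1) := by
      simp
    rw [e, Matrix.det_neg, hdet, mul_zero]
  have hc2 : g.charpoly.coeff 2 = 0 := by
    rw [hp] at heval
    simp at heval
    linear_combination heval - (1 + g.charpoly.coeff 3) * h2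
  have htr : Matrix.trace g = 0 := by
    rw [c2] at hc2
    exact pow_eq_zero_iff (by positivity) |>.mp hc2
  have hc3 : g.charpoly.coeff 3 = 0 := by rw [c3, htr, neg_zero]
  have hCH := Matrix.aeval_self_charpoly g
  rw [hp, hc2, hc3] at hCH
  simp at hCH
  have h5 : g ^ 4 = -1 := eq_neg_of_add_eq_zero_left hCH
  rw [h5]
  exact CharTwo.neg_eq 1

theorem isSp_of_mem (g : GL (Fin 4) F) (hg : g ∈ Lie.Sp4 F) :
    IsSp (g : Matrix (Fin 4) (Fin 4) F) := by
  show (g : Matrix (Fin 4) (Fin 4) F).transpose * J4 * (g : Matrix (Fin 4) (Fin 4) F) = J4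
  ext i j
  have h : Lie.altForm4 (Matrix.mulVec (g : Matrix (Fin 4) (Fin 4) F) (Pi.single i 1))
      (Matrix.mulVec (g : Matrix (Fin 4) (Fin 4) F) (Pi.single j 1)) =
      Lie.altForm4 (Pi.single i (1 : F)) (Pi.single j 1) := hg (Pi.single i 1) (Pi.single j 1)
  have hr : Lie.altForm4 (Pi.single i (1 : F)) (Pi.single j 1) = J4 i j := by
    fin_cases i <;> fin_cases j <;> simp [Lie.altForm4, J4]
  rw [hr, Matrix.mulVec_single_one, Matrix.mulVec_single_one] at h
  rw [← h]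
  simp [Matrix.mul_apply, Fin.sum_univ_four, J4, Lie.altForm4]
  ring

/-- the Suzuki group as the set of symplectic matrices commuting with the "star" map. -/
def S0 (F : Type*) [Field F] [CharP F 2] (k : ℕ) : Subgroup (GL (Fin 4) F) where
  carrier := {g | g ∈ Lie.Sp4 F ∧ Lie.star4 (g : Matrix (Fin 4) (Fin 4) F) =
    (g : Matrix (Fin 4) (Fin 4) F).map (fun x => x ^ 2 ^ k)}
  mul_mem' := by
    rintro g h ⟨hg, hg'⟩ ⟨hh, hh'⟩
    refine ⟨mul_mem hg hh, ?_⟩
    rw [Units.val_mul, star4_mul (isSp_of_mem g hg) (isSp_of_mem h hh) two_eq_zero', hg', hh',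
      map_pow_eq, map_pow_eq, map_pow_eq, map_mul]
  one_mem' := ⟨one_mem _, by rw [Units.val_one, star4_one, map_pow_eq, map_one]⟩
  inv_mem' := by
    rintro g ⟨hg, hg'⟩
    refine ⟨inv_mem hg, ?_⟩
    have h1 : Lie.star4 ((g⁻¹ : GL (Fin 4) F) : Matrix (Fin 4) (Fin 4) F) *
        Lie.star4 (g : Matrix (Fin 4) (Fin 4) F) = 1 := by
      rw [← star4_mul (isSp_of_mem _ (inv_mem hg)) (isSp_of_mem g hg) two_eq_zero',
        ← Units.val_mul, inv_mul_cancel, Units.val_one, star4_one]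
    have h2 : (iterateFrobenius F 2 k).mapMatrix (g : Matrix (Fin 4) (Fin 4) F) *
        (iterateFrobenius F 2 k).mapMatrix ((g⁻¹ : GL (Fin 4) F) : Matrix (Fin 4) (Fin 4) F) = 1 := by
      rw [← map_mul, ← Units.val_mul, mul_inv_cancel, Units.val_one, map_one]
    rw [map_pow_eq] at hg' ⊢
    calc Lie.star4 ((g⁻¹ : GL (Fin 4) F) : Matrix (Fin 4) (Fin 4) F)
        = Lie.star4 ((g⁻¹ : GL (Fin 4) F) : Matrix (Fin 4) (Fin 4) F) *
          ((iterateFrobenius F 2 k).mapMatrix (g : Matrix (Fin 4) (Fin 4) F) *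
          (iterateFrobenius F 2 k).mapMatrix ((g⁻¹ : GL (Fin 4) F) : Matrix (Fin 4) (Fin 4) F)) := by
          rw [h2, mul_one]
      _ = (Lie.star4 ((g⁻¹ : GL (Fin 4) F) : Matrix (Fin 4) (Fin 4) F) *
          Lie.star4 (g : Matrix (Fin 4) (Fin 4) F)) *
          (iterateFrobenius F 2 k).mapMatrix ((g⁻¹ : GL (Fin 4) F) : Matrix (Fin 4) (Fin 4) F) := by
          rw [← hg', mul_assoc]
      _ = (iterateFrobenius F 2 k).mapMatrix ((g⁻¹ : GL (Fin 4) F) : Matrix (Fin 4) (Fin 4) F) := by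
          rw [h1, one_mul]

theorem sz_le (k : ℕ) : Lie.Sz F (2 ^ k) ≤ S0 F k := by
  unfold Lie.Sz
  rw [Subgroup.closure_le]
  intro g hg
  exact hg

theorem sz_pow_four {k : ℕ} (g : GL (Fin 4) F) (hg : g ∈ Lie.Sz F (2 ^ k))
    (hdet : ((g : Matrix (Fin 4) (Fin 4) F) - 1).det = 0) :
    (g : Matrix (Fin 4) (Fin 4) F) ^ 4 = 1 :=
  pow_four_of_fixed (isSp_of_mem g (sz_le k hg).1) k (sz_le k hg).2 hdet

/-- an involution of the Suzuki group. -/
def tMat : Matrix (Fin 4) (Fin 4) F := !![1, 0, 0, 0; 0, 1, 0, 0; 1, 0, 1, 0; 1, 1, 0, 1]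

theorem tMat_sq : (tMat : Matrix (Fin 4) (Fin 4) F) * tMat = 1 := by
  have h2 : (2 : F) = 0 := two_eq_zero'
  have h11 : (1 : F) + 1 = 0 := by linear_combination h2
  ext i j
  fin_cases i <;> fin_cases j <;> simp [tMat, Matrix.mul_apply, Fin.sum_univ_four, h11]

/-- the involution as an element of `GL₄(F)`. -/
def tGL : GL (Fin 4) F := ⟨tMat, tMat, tMat_sq, tMat_sq⟩

theorem tGL_mem (k : ℕ) : (tGL : GL (Fin 4) F) ∈ Lie.Sz F (2 ^ k) := by
  have h2 : (2 : F) = 0 := two_eq_zero'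
  have hneg : (-1 : F) = 1 := by linear_combination -h2
  apply Subgroup.subset_closure
  constructor
  · intro u v
    show Lie.altForm4 (Matrix.mulVec (tMat : Matrix (Fin 4) (Fin 4) F) u)
      (Matrix.mulVec (tMat : Matrix (Fin 4) (Fin 4) F) v) = Lie.altForm4 u v
    simp [Lie.altForm4, tMat, Matrix.mulVec, dotProduct, Fin.sum_univ_four]
    linear_combination (u 0 * v 0 + u 0 * v 1 + u 1 * v 0) * h2
  · show Lie.star4 (tMat : Matrix (Fin 4) (Fin 4) F) =
      (tMat : Matrix (Fin 4) (Fin 4) F).map (fun x => x ^ 2 ^ k)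
    have hk : 2 ^ k ≠ 0 := by positivity
    have p0 : Lie.pairOf 0 = (0, 1) := rfl
    have p1 : Lie.pairOf 1 = (0, 2) := rfl
    have p2 : Lie.pairOf 2 = (1, 3) := rfl
    have p3 : Lie.pairOf 3 = (2, 3) := rfl
    ext p r
    fin_cases p <;> fin_cases r <;> simp [Lie.star4, p0, p1, p2, p3, tMat, hk, hneg]

theorem tGL_order (k : ℕ) : orderOf (⟨tGL, tGL_mem k⟩ : Lie.Sz F (2 ^ k)) = 2 := by
  haveI : Fact (Nat.Prime 2) := ⟨Nat.prime_two⟩
  apply orderOf_eq_prime
  · apply Subtype.ext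
    apply Units.ext
    show (tMat : Matrix (Fin 4) (Fin 4) F) ^ 2 = 1
    rw [pow_two, tMat_sq]
  · intro h
    have h1 : (tMat : Matrix (Fin 4) (Fin 4) F) = 1 := congrArg (fun x : Lie.Sz F (2 ^ k) =>
      ((x : GL (Fin 4) F) : Matrix (Fin 4) (Fin 4) F)) h
    have h3 := congrFun (congrFun h1 2) 0
    simp [tMat] at h3

end field

/-! ### the affine group `K⁴ ⋊ Sz` as block matrices -/

section affine
variable {F : Type*} [Field F] {K : Type*} [Field K] (j : F →+* K)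

/-- the affine matrix with linear part `A` (over `F`) and translation part `v` (over `K`). -/
def iota (A : Matrix (Fin 4) (Fin 4) F) (v : Fin 4 → K) :
    Matrix (Fin 4 ⊕ Unit) (Fin 4 ⊕ Unit) K :=
  Matrix.fromBlocks (A.map j) (Matrix.replicateCol Unit v) 0 1

theorem iota_mul (A B : Matrix (Fin 4) (Fin 4) F) (v w : Fin 4 → K) :
    iota j A v * iota j B w = iota j (A * B) (Matrix.mulVec (A.map j) w + v) := by
  rw [iota, iota, iota, Matrix.fromBlocks_multiply]
  congr 1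
  · rw [Matrix.mul_zero, add_zero, Matrix.map_mul]
  · ext a u
    simp [Matrix.mul_apply, Matrix.mulVec, dotProduct, Matrix.replicateCol_apply]
  · simp
  · simp

theorem iota_one : iota j (1 : Matrix (Fin 4) (Fin 4) F) (0 : Fin 4 → K) = 1 := by
  rw [iota, Matrix.map_one _ (map_zero j) (map_one j), Matrix.replicateCol_zero,
    Matrix.fromBlocks_one]

theorem iota_pow (A : Matrix (Fin 4) (Fin 4) F) (v : Fin 4 → K) (n : ℕ) :
    ∃ w, iota j A v ^ n = iota j (A ^ n) w := by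
  induction n with
  | zero => exact ⟨0, by rw [pow_zero, pow_zero, iota_one]⟩
  | succ n ih =>
    obtain ⟨w, hw⟩ := ih
    exact ⟨_, by rw [pow_succ, hw, iota_mul, ← pow_succ]⟩

theorem iota_zero_pow (A : Matrix (Fin 4) (Fin 4) F) (n : ℕ) :
    iota j A (0 : Fin 4 → K) ^ n = iota j (A ^ n) 0 := by
  induction n with
  | zero => rw [pow_zero, pow_zero, iota_one]
  | succ n ih =>
    rw [pow_succ, ih, iota_mul, ← pow_succ, Matrix.mulVec_zero, add_zero]

theorem iota_inj {A B : Matrix (Fin 4) (Fin 4) F} {v w : Fin 4 → K} (h : iota j A v = iota j B w) :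
    A = B ∧ v = w := by
  rw [iota, iota, Matrix.fromBlocks_inj] at h
  exact ⟨Matrix.map_injective j.injective h.1, Matrix.replicateCol_injective h.2.1⟩

theorem iota_eq_one_iff (A : Matrix (Fin 4) (Fin 4) F) (v : Fin 4 → K) :
    iota j A v = 1 ↔ A = 1 ∧ v = 0 := by
  constructor
  · intro h
    rw [← iota_one j] at h
    exact iota_inj j h
  · rintro ⟨rfl, rfl⟩
    exact iota_one j

theorem iota_pow_eq_one_of_det (A : Matrix (Fin 4) (Fin 4) F) (v : Fin 4 → K)
    (hdet : (A.map j - 1).det ≠ 0) (n : ℕ) (hA : A ^ n = 1) : iota j A v ^ n = 1 := by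
  obtain ⟨w, hw⟩ := iota_pow j A v n
  rw [hA] at hw
  have hc : iota j A v * iota j 1 w = iota j 1 w * iota j A v := by
    rw [← hw, ← pow_succ', ← pow_succ]
  rw [iota_mul, iota_mul] at hc
  have h1 := (iota_inj j hc).2
  rw [Matrix.map_one _ (map_zero j) (map_one j), Matrix.one_mulVec] at h1
  have h2 : Matrix.mulVec (A.map j - 1) w = 0 := by
    rw [Matrix.sub_mulVec, Matrix.one_mulVec]
    have h3 : Matrix.mulVec (A.map j) w = w := by
      have h4 : Matrix.mulVec (A.map j) w + v = w + v := by rw [h1, add_comm]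
      exact add_right_cancel h4
    rw [h3, sub_self]
  have hw0 : w = 0 := Matrix.eq_zero_of_mulVec_eq_zero hdet h2
  rw [hw, hw0, iota_one]

theorem iota_pow_two_mul [CharP K 2] (A : Matrix (Fin 4) (Fin 4) F) (v : Fin 4 → K) (n : ℕ)
    (hA : A ^ n = 1) : iota j A v ^ (2 * n) = 1 := by
  obtain ⟨w, hw⟩ := iota_pow j A v n
  rw [hA] at hw
  rw [mul_comm, pow_mul, hw, pow_two, iota_mul, Matrix.map_one _ (map_zero j) (map_one j),
    Matrix.one_mulVec, mul_one, CharTwo.add_self_eq_zero, iota_one]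

/-- the affine group as a submonoid of the units of the block matrices. -/
def Hmon (S : Subgroup (GL (Fin 4) F)) : Submonoid (Matrix (Fin 4 ⊕ Unit) (Fin 4 ⊕ Unit) K)ˣ where
  carrier := {M | ∃ g ∈ S, ∃ v : Fin 4 → K,
    (M : Matrix (Fin 4 ⊕ Unit) (Fin 4 ⊕ Unit) K) = iota j (g : Matrix (Fin 4) (Fin 4) F) v}
  mul_mem' := by
    rintro M N ⟨g, hg, v, hM⟩ ⟨h, hh, w, hN⟩
    exact ⟨g * h, mul_mem hg hh, _, by rw [Units.val_mul, hM, hN, iota_mul, Units.val_mul]⟩
  one_mem' := ⟨1, one_mem _, 0, by rw [Units.val_one, Units.val_one, iota_one]⟩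

/-- the affine group `K⁴ ⋊ S`. -/
def Hsub [Finite K] (S : Subgroup (GL (Fin 4) F)) :
    Subgroup (Matrix (Fin 4 ⊕ Unit) (Fin 4 ⊕ Unit) K)ˣ :=
  { Hmon j S with
    inv_mem' := by
      intro M hM
      have h1 : M⁻¹ = M ^ (orderOf M - 1) := by
        rw [inv_eq_iff_mul_eq_one, ← pow_succ', Nat.sub_add_cancel (orderOf_pos M),
          pow_orderOf_eq_one]
      rw [h1]
      exact (Hmon j S).pow_mem hM _ }

theorem hsub_pow_eq_one_iff [Finite K] (S : Subgroup (GL (Fin 4) F)) (y : Hsub j S) (n : ℕ) :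
    y ^ n = 1 ↔ ((y : (Matrix (Fin 4 ⊕ Unit) (Fin 4 ⊕ Unit) K)ˣ) :
      Matrix (Fin 4 ⊕ Unit) (Fin 4 ⊕ Unit) K) ^ n = 1 := by
  rw [← Units.val_pow_eq_pow_val, ← Subgroup.coe_pow, Units.val_eq_one, OneMemClass.coe_eq_one]

end affine

/-- if the element orders of `H` are those of `G` together with some powers of 2, and `G` has even
order, then `G` and `H` have the same prime graph. -/
theorem same_graph2 {G H : Type*} [Group G] [Group H] [Finite G] [Finite H]
    (h1 : ∀ g : G, ∃ h : H, orderOf h = orderOf g)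
    (h2 : ∀ h : H, (∃ k : ℕ, orderOf h = 2 ^ k) ∨ ∃ g : G, orderOf g = orderOf h)
    (h3 : 2 ∣ Nat.card G) :
    (∀ p : ℕ, p.Prime → (p ∣ Nat.card G ↔ p ∣ Nat.card H)) ∧
    (∀ p q : ℕ, p.Prime → q.Prime → p ≠ q →
      ((∃ g : G, orderOf g = p * q) ↔ (∃ g : H, orderOf g = p * q))) := by
  constructor
  · intro p hp
    haveI : Fact p.Prime := ⟨hp⟩
    constructor
    · intro hd
      obtain ⟨g, hg⟩ := exists_prime_orderOf_dvd_card' p hd
      obtain ⟨h, hh⟩ := h1 g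
      rw [← hg, ← hh]
      exact orderOf_dvd_natCard h
    · intro hd
      obtain ⟨h, hh⟩ := exists_prime_orderOf_dvd_card' p hd
      rcases h2 h with ⟨k, hk⟩ | ⟨g, hg⟩
      · rw [hh] at hk
        have hp2 : p ∣ 2 ^ k := by rw [← hk]
        rw [(Nat.prime_dvd_prime_iff_eq hp Nat.prime_two).mp (hp.dvd_of_dvd_pow hp2)]
        exact h3
      · rw [← hh, ← hg]
        exact orderOf_dvd_natCard g
  · intro p q hp hq hpq
    constructor
    · rintro ⟨g, hg⟩
      obtain ⟨h, hh⟩ := h1 g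
      exact ⟨h, hh.trans hg⟩
    · rintro ⟨h, hh⟩
      rcases h2 h with ⟨k, hk⟩ | ⟨g, hg⟩
      · exfalso
        rw [hh] at hk
        have hp2 : p ∣ 2 ^ k := ⟨q, hk.symm⟩
        have hq2 : q ∣ 2 ^ k := ⟨p, by rw [mul_comm, hk]⟩
        have e1 := (Nat.prime_dvd_prime_iff_eq hp Nat.prime_two).mp (hp.dvd_of_dvd_pow hp2)
        have e2 := (Nat.prime_dvd_prime_iff_eq hq Nat.prime_two).mp (hq.dvd_of_dvd_pow hq2)
        exact hpq (e1.trans e2.symm)
      · exact ⟨g, hg.trans hh⟩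

theorem main {F : Type*} [Field F] [CharP F 2] {K : Type} [Field K] [Finite K]
    (j : F →+* K) (k N : ℕ) (hN : N < Nat.card K) :
    ∃ (H : Type) (_ : Group H) (_ : Fintype H), N < Fintype.card H ∧ ((∀ r : ℕ, r.Prime → (r ∣ Nat.card ↥(Cfsg.Lie.Sz F (2 ^ k)) ↔ r ∣ Nat.card H)) ∧
      (∀ r s : ℕ, r.Prime → s.Prime → r ≠ s → ((∃ x : ↥(Cfsg.Lie.Sz F (2 ^ k)), orderOf x = r * s) ↔ (∃ y : H, orderOf y = r * s)))) := by
  classical
  haveI : CharP K 2 := charP_of_injective_ringHom j.injective 2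
  haveI : Finite F := Finite.of_injective j j.injective
  have hxpow : ∀ (x : Lie.Sz F (2 ^ k)) (n : ℕ), x ^ n = 1 ↔
      ((x : GL (Fin 4) F) : Matrix (Fin 4) (Fin 4) F) ^ n = 1 := by
    intro x n
    rw [← Units.val_pow_eq_pow_val, ← Subgroup.coe_pow, Units.val_eq_one, OneMemClass.coe_eq_one]
  have h1 : ∀ x : Lie.Sz F (2 ^ k), ∃ y : Hsub j (Lie.Sz F (2 ^ k)), orderOf y = orderOf x := by
    intro x
    have hpow : iota j ((x : GL (Fin 4) F) : Matrix (Fin 4) (Fin 4) F) (0 : Fin 4 → K) ^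
        (2 * orderOf x) = 1 := by
      apply iota_pow_two_mul
      rw [← hxpow]
      exact pow_orderOf_eq_one x
    have hne : 2 * orderOf x ≠ 0 := by
      have := orderOf_pos x
      omega
    refine ⟨⟨Units.ofPowEqOne _ _ hpow hne, ⟨x, x.2, 0, rfl⟩⟩, ?_⟩
    rw [orderOf_eq_orderOf_iff]
    intro n
    rw [hsub_pow_eq_one_iff, hxpow]
    show iota j ((x : GL (Fin 4) F) : Matrix (Fin 4) (Fin 4) F) (0 : Fin 4 → K) ^ n = 1 ↔ _
    rw [iota_zero_pow, iota_eq_one_iff]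
    simp
  have h2 : ∀ y : Hsub j (Lie.Sz F (2 ^ k)), (∃ i : ℕ, orderOf y = 2 ^ i) ∨
      ∃ x : Lie.Sz F (2 ^ k), orderOf x = orderOf y := by
    intro y
    obtain ⟨g, hg, v, hy⟩ := y.2
    by_cases hd : ((g : Matrix (Fin 4) (Fin 4) F) - 1).det = 0
    · left
      have h4 := sz_pow_four g hg hd
      have h8 : y ^ (2 * 4) = 1 := by
        rw [hsub_pow_eq_one_iff, hy]
        exact iota_pow_two_mul j _ v 4 h4
      have hdvd : orderOf y ∣ 2 ^ 3 := orderOf_dvd_of_pow_eq_one h8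
      obtain ⟨i, -, hi⟩ := (Nat.dvd_prime_pow Nat.prime_two).mp hdvd
      exact ⟨i, hi⟩
    · right
      refine ⟨⟨g, hg⟩, ?_⟩
      rw [orderOf_eq_orderOf_iff]
      intro n
      rw [hsub_pow_eq_one_iff, hxpow, hy]
      constructor
      · intro h
        apply iota_pow_eq_one_of_det j _ v _ n h
        have e : ((g : Matrix (Fin 4) (Fin 4) F).map j - 1) =
            j.mapMatrix ((g : Matrix (Fin 4) (Fin 4) F) - 1) := by
          rw [map_sub, map_one]
          rfl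
        rw [e, ← RingHom.map_det]
        exact (map_ne_zero j).mpr hd
      · intro h
        obtain ⟨w, hw⟩ := iota_pow j ((g : Matrix (Fin 4) (Fin 4) F)) v n
        rw [hw] at h
        exact ((iota_eq_one_iff j _ _).mp h).1
  have h3 : 2 ∣ Nat.card (Lie.Sz F (2 ^ k)) := by
    have h := orderOf_dvd_natCard (⟨tGL, tGL_mem k⟩ : Lie.Sz F (2 ^ k))
    rwa [tGL_order (F := F) k] at h
  letI : Fintype (Hsub j (Lie.Sz F (2 ^ k))) := Fintype.ofFinite _
  refine ⟨Hsub j (Lie.Sz F (2 ^ k)), inferInstance, inferInstance, ?_, same_graph2 h1 h2 h3⟩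
  rw [← Nat.card_eq_fintype_card]
  have hunit : ∀ x : K, iota j (1 : Matrix (Fin 4) (Fin 4) F) (fun _ : Fin 4 => x) ^ 2 = 1 := by
    intro x
    have := iota_pow_two_mul j (1 : Matrix (Fin 4) (Fin 4) F) (fun _ : Fin 4 => x) 1 (pow_one 1)
    simpa using this
  have hinj : Function.Injective (fun x : K =>
      (⟨Units.ofPowEqOne _ 2 (hunit x) two_ne_zero,
        ⟨1, one_mem _, fun _ : Fin 4 => x, by rw [Units.val_one]; rfl⟩⟩ :
          Hsub j (Lie.Sz F (2 ^ k)))) := by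
    intro x x' hxx
    have h : iota j (1 : Matrix (Fin 4) (Fin 4) F) (fun _ : Fin 4 => x) =
        iota j (1 : Matrix (Fin 4) (Fin 4) F) (fun _ : Fin 4 => x') :=
      congrArg (fun y : Hsub j (Lie.Sz F (2 ^ k)) =>
        ((y : (Matrix (Fin 4 ⊕ Unit) (Fin 4 ⊕ Unit) K)ˣ) :
          Matrix (Fin 4 ⊕ Unit) (Fin 4 ⊕ Unit) K)) hxx
    exact congrFun (iota_inj j h).2 0
  exact lt_of_lt_of_le hN (Nat.card_le_card_of_injective _ hinj)

/-- Let S be the Suzuki group over the field with q = 2^(2m+1) ≥ 8 elements. Then there are finite groups of arbitrarily large order with the same prime graph as S. -/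
theorem result {F : Type*} [Field F] [Fintype F] {m : ℕ} (hm : 1 ≤ m) (hF : Fintype.card F = 2 ^ (2 * m + 1)) (N : ℕ) :
    ∃ (H : Type) (_ : Group H) (_ : Fintype H), N < Fintype.card H ∧ ((∀ r : ℕ, r.Prime → (r ∣ Nat.card ↥(Cfsg.Lie.Sz F (2 ^ (m + 1))) ↔ r ∣ Nat.card H)) ∧
      (∀ r s : ℕ, r.Prime → s.Prime → r ≠ s → ((∃ x : ↥(Cfsg.Lie.Sz F (2 ^ (m + 1))), orderOf x = r * s) ↔ (∃ y : H, orderOf y = r * s)))) := by
  classical
  haveI hchar : CharP F 2 := by
    haveI := ringChar.charP F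
    obtain ⟨n, hp, hcard⟩ := FiniteField.card F (ringChar F)
    rw [hF] at hcard
    have hdvd : ringChar F ∣ 2 ^ (2 * m + 1) := by
      rw [hcard]
      exact dvd_pow_self _ n.ne_zero
    have h2 : ringChar F = 2 :=
      (Nat.prime_dvd_prime_iff_eq hp Nat.prime_two).mp (hp.dvd_of_dvd_pow hdvd)
    rw [← h2]
    infer_instance
  haveI : Fact (Nat.Prime 2) := ⟨Nat.prime_two⟩
  apply main (algebraMap F (FiniteField.Extension F 2 (N + 1))) (m + 1) N
  rw [FiniteField.natCard_extension]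
  have h2 : 2 ≤ Nat.card F := Finite.one_lt_card
  calc N < 2 ^ (N + 1) := by
        have := Nat.lt_two_pow_self (n := N + 1)
        omega
    _ ≤ Nat.card F ^ (N + 1) := Nat.pow_le_pow_left h2 _

end Cfsg.Agent.S3639
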