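import Cfsg.Statements.S3681
import Mathlib

set_option autoImplicit false
open Cfsg

namespace Cfsg.Agent.S3681

open MulAction Equiv

variable {Ω : Type*} [Fintype Ω] [DecidableEq Ω]

/-- If the supports of `x` and `y` meet in exactly one point, their commutator is a 3-cycle. -/
theorem three_cycle (x y : Perm Ω) (β : Ω) (hxβ : x β ≠ β) (hyβ : y β ≠ β)
    (hxy : ∀ ω, ω ≠ β → x ω = ω ∨ y ω = ω) : (x⁻¹ * y⁻¹ * x * y).IsThreeCycle := by
  have hx_inv : ∀ ω ω', x ω = ω' → x⁻¹ ω' = ω := fun ω ω' h => by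
    rw [Perm.inv_eq_iff_eq]; exact h.symm
  have hy_inv : ∀ ω ω', y ω = ω' → y⁻¹ ω' = ω := fun ω ω' h => by
    rw [Perm.inv_eq_iff_eq]; exact h.symm
  have hxmove : ∀ ω, x ω ≠ ω → x (x ω) ≠ x ω := fun ω h h' => h (x.injective h')
  have hymove : ∀ ω, y ω ≠ ω → y (y ω) ≠ y ω := fun ω h h' => h (y.injective h')
  have hyfix : ∀ ω, ω ≠ β → x ω ≠ ω → y ω = ω := fun ω h1 h2 => (hxy ω h1).resolve_left h2
  have hxfix : ∀ ω, ω ≠ β → y ω ≠ ω → x ω = ω := fun ω h1 h2 => (hxy ω h1).resolve_right h2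
  obtain ⟨a, hya⟩ : ∃ a, y a = β := ⟨y⁻¹ β, by simp⟩
  obtain ⟨b, hxb⟩ : ∃ b, x b = β := ⟨x⁻¹ β, by simp⟩
  have haβ : a ≠ β := fun h => hyβ (by rw [h] at hya; exact hya)
  have hbβ : b ≠ β := fun h => hxβ (by rw [h] at hxb; exact hxb)
  have hya_ne : y a ≠ a := by rw [hya]; exact haβ.symm
  have hxb_ne : x b ≠ b := by rw [hxb]; exact hbβ.symm
  have hxa : x a = a := hxfix a haβ hya_ne
  have hyb : y b = b := hyfix b hbβ hxb_ne
  have hab : a ≠ b := fun h => hxb_ne (by rw [← h]; exact hxa)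
  have hc : ∀ ω, (x⁻¹ * y⁻¹ * x * y) ω = x⁻¹ (y⁻¹ (x (y ω))) := fun ω => by
    simp only [Perm.mul_apply]
  have hca : (x⁻¹ * y⁻¹ * x * y) a = β := by
    rw [hc, hya, hy_inv (x β) (x β) (hyfix (x β) hxβ (hxmove β hxβ))]
    exact hx_inv β (x β) rfl
  have hcβ : (x⁻¹ * y⁻¹ * x * y) β = b := by
    rw [hc, hxfix (y β) hyβ (hymove β hyβ), hy_inv β (y β) rfl]
    exact hx_inv b β hxb
  have hcb : (x⁻¹ * y⁻¹ * x * y) b = a := by
    rw [hc, hyb, hxb, hy_inv a β hya]
    exact hx_inv a a hxa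
  have hfix : ∀ ω, ω ≠ a → ω ≠ β → ω ≠ b → (x⁻¹ * y⁻¹ * x * y) ω = ω := by
    intro ω hωa hωβ hωb
    rw [hc]
    by_cases hy : y ω = ω
    · rw [hy]
      by_cases hx : x ω = ω
      · rw [hx, hy_inv ω ω hy]
        exact hx_inv ω ω hx
      · have hzβ : x ω ≠ β := fun h => hωb (x.injective (h.trans hxb.symm))
        rw [hy_inv (x ω) (x ω) (hyfix (x ω) hzβ (hxmove ω hx))]
        exact hx_inv ω (x ω) rfl
    · have hwβ : y ω ≠ β := fun h => hωa (y.injective (h.trans hya.symm))
      rw [hxfix (y ω) hwβ (hymove ω hy), hy_inv ω (y ω) rfl]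
      exact hx_inv ω ω (hxfix ω hωβ hy)
  rw [← card_support_eq_three_iff]
  have hsupp : (x⁻¹ * y⁻¹ * x * y).support = {a, β, b} := by
    ext ω
    simp only [Perm.mem_support, Finset.mem_insert, Finset.mem_singleton]
    constructor
    · intro h
      by_contra hn
      push Not at hn
      exact h (hfix ω hn.1 hn.2.1 hn.2.2)
    · rintro (rfl | rfl | rfl)
      · rw [hca]; exact haβ.symm
      · rw [hcβ]; exact hbβ
      · rw [hcb]; exact hab
  rw [hsupp, Finset.card_insert_of_notMem, Finset.card_insert_of_notMem, Finset.card_singleton]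
  · simpa using hbβ.symm
  · simp only [Finset.mem_insert, Finset.mem_singleton, not_or]
    exact ⟨haβ, hab⟩

theorem bochert (P : Subgroup (Perm Ω)) (hprim : IsPreprimitive P Ω)
    (hA : ¬ alternatingGroup Ω ≤ P) :
    Nat.card P * Nat.factorial ((Fintype.card Ω + 1) / 2) ≤ Nat.factorial (Fintype.card Ω) := by
  classical
  let good : Finset Ω → Prop := fun Δ => ∀ s ∈ P, (∀ x, x ∉ Δ → s x = x) → s = 1
  have hgood0 : good ∅ := by
    intro s _ hs
    apply Equiv.ext
    intro x
    exact hs x (Finset.notMem_empty x)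
  obtain ⟨Δ, hΔmem, hΔmax⟩ := Finset.exists_max_image (Finset.univ.filter good) Finset.card
    ⟨∅, Finset.mem_filter.mpr ⟨Finset.mem_univ _, hgood0⟩⟩
  have hΔ : good Δ := (Finset.mem_filter.mp hΔmem).2
  have hmax : ∀ Δ', good Δ' → Δ'.card ≤ Δ.card := fun Δ' h =>
    hΔmax Δ' (Finset.mem_filter.mpr ⟨Finset.mem_univ _, h⟩)
  have hA' : (Fintype.card Ω + 1) / 2 ≤ Δ.card := by
    by_contra hlt
    push Not at hlt
    have hcompl : Δ.card < Δᶜ.card := by
      rw [Finset.card_compl]
      omega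
    have hng : ¬ good Δᶜ := fun h => absurd (hmax _ h) (by omega)
    simp only [good] at hng
    push Not at hng
    obtain ⟨y, hyP, hyfix, hy1⟩ := hng
    obtain ⟨β, hβ⟩ : ∃ β, y β ≠ β := by
      by_contra hc
      push Not at hc
      exact hy1 (Equiv.ext hc)
    have hβΔ : β ∉ Δ := fun h => hβ (hyfix β (by simpa using h))
    have hng2 : ¬ good (insert β Δ) := fun h =>
      absurd (hmax _ h) (by rw [Finset.card_insert_of_notMem hβΔ]; omega)
    simp only [good] at hng2
    push Not at hng2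
    obtain ⟨x, hxP, hxfix, hx1⟩ := hng2
    have hxβ : x β ≠ β := by
      intro h
      apply hx1
      apply hΔ x hxP
      intro ω hω
      by_cases hωβ : ω = β
      · rw [hωβ]; exact h
      · exact hxfix ω (by simp [hωβ, hω])
    have h3 : (x⁻¹ * y⁻¹ * x * y).IsThreeCycle := by
      apply three_cycle x y β hxβ hβ
      intro ω hω
      by_cases hωΔ : ω ∈ Δ
      · right; exact hyfix ω (by simpa using hωΔ)
      · left; exact hxfix ω (by simp [hω, hωΔ])
    have hmemP : x⁻¹ * y⁻¹ * x * y ∈ P :=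
      P.mul_mem (P.mul_mem (P.mul_mem (P.inv_mem hxP) (P.inv_mem hyP)) hxP) hyP
    exact hA (Equiv.Perm.alternatingGroup_le_of_isPreprimitive_of_isThreeCycle_mem hprim h3 hmemP)
  have hB : Nat.card P * Nat.factorial Δ.card ≤ Nat.factorial (Fintype.card Ω) := by
    have hinj : Function.Injective
        (fun q : P × Perm {x // x ∈ Δ} => (q.1 : Perm Ω) * Perm.ofSubtype q.2) := by
      rintro ⟨g, s⟩ ⟨g', s'⟩ h
      simp only at h
      have h1 : (g' : Perm Ω)⁻¹ * g = Perm.ofSubtype (s' * s⁻¹) := by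
        rw [map_mul, map_inv, eq_mul_inv_iff_mul_eq, mul_assoc, h, inv_mul_cancel_left]
      have h2 : Perm.ofSubtype (s' * s⁻¹) = 1 := by
        apply hΔ
        · rw [← h1]; exact P.mul_mem (P.inv_mem g'.2) g.2
        · intro x hx; exact Perm.ofSubtype_apply_of_not_mem _ hx
      have h3 : s' * s⁻¹ = 1 := Perm.ofSubtype_injective (by rw [h2, map_one])
      have h4 : s' = s := mul_inv_eq_one.mp h3
      have h5 : (g' : Perm Ω)⁻¹ * g = 1 := by rw [h1, h2]
      have h6 : g = g' := by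
        apply Subtype.ext
        exact (inv_mul_eq_one.mp h5).symm
      rw [h6, h4]
    have hcard := Nat.card_le_card_of_injective _ hinj
    rw [Nat.card_prod, Nat.card_perm, Nat.card_perm, Nat.card_eq_fintype_card (α := Ω),
      Nat.card_eq_fintype_card (α := {x // x ∈ Δ}), Fintype.card_coe] at hcard
    exact hcard
  calc Nat.card P * Nat.factorial ((Fintype.card Ω + 1) / 2)
      ≤ Nat.card P * Nat.factorial Δ.card := Nat.mul_le_mul_left _ (Nat.factorial_le hA')
    _ ≤ _ := hB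

/-- Bochert's bound for primitive groups. Let a finite group G act faithfully and primitively on a finite set Ω with n elements, and suppose the image of G in the symmetric group of Ω does not contain the alternating group of Ω. Then |G| · ⌊(n + 1)/2⌋! ≤ n!, that is, the index of G in the symmetric group is at least ⌊(n + 1)/2⌋!. -/
theorem result {G Ω : Type*} [Group G] [Finite G] [MulAction G Ω] [FaithfulSMul G Ω] [Fintype Ω] [DecidableEq Ω]
    (hprim : MulAction.IsPreprimitive G Ω) (hA : ¬ alternatingGroup Ω ≤ (MulAction.toPermHom G Ω).range) :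
    Nat.card G * Nat.factorial ((Fintype.card Ω + 1) / 2) ≤ Nat.factorial (Fintype.card Ω) := by
  have hcard : Nat.card G = Nat.card (MulAction.toPermHom G Ω).range :=
    Nat.card_congr (MonoidHom.ofInjective (f := MulAction.toPermHom G Ω)
      MulAction.toPerm_injective).toEquiv
  have hprimP : IsPreprimitive (MulAction.toPermHom G Ω).range Ω := by
    let φ : G → (MulAction.toPermHom G Ω).range := fun g => ⟨MulAction.toPermHom G Ω g, ⟨g, rfl⟩⟩
    let f : Ω →ₑ[φ] Ω := { toFun := id, map_smul' := fun g x => rfl }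
    exact IsPreprimitive.of_surjective (f := f) Function.surjective_id
  rw [hcard]
  exact bochert _ hprimP hA

end Cfsg.Agent.S3681
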