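import Cfsg.Statements.S3683
import Mathlib

set_option autoImplicit false
open Cfsg

namespace Cfsg.Agent.S3683

/-- Let a finite group G act faithfully and primitively on a set Ω, and suppose the stabilizer of a point a fixes a second point b ≠ a (a suborbit of length 1 other than {a}). Then the stabilizer of a is trivial and G is cyclic of prime order. -/
theorem result {G Ω : Type*} [Group G] [Finite G] [MulAction G Ω] [FaithfulSMul G Ω] [Finite Ω]
    (hprim : MulAction.IsPreprimitive G Ω) (a b : Ω) (hab : a ≠ b) (hfix : ∀ g : G, g • a = a → g • b = b) :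
    MulAction.stabilizer G a = ⊥ ∧ IsCyclic G ∧ (Nat.card G).Prime := by
  classical
  have : Nontrivial Ω := ⟨⟨a, b, hab⟩⟩
  have htrans : MulAction.IsPretransitive G Ω := hprim.toIsPretransitive
  have hmax : IsCoatom (MulAction.stabilizer G a) :=
    MulAction.IsPreprimitive.isCoatom_stabilizer_of_isPreprimitive G a
  have hle : MulAction.stabilizer G a ≤ MulAction.stabilizer G b := by
    intro g hg
    rw [MulAction.mem_stabilizer_iff] at hg ⊢
    exact hfix g hg
  have hbtop : MulAction.stabilizer G b ≠ ⊤ := by
    intro h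
    obtain ⟨g, hg⟩ := MulAction.exists_smul_eq G b a
    have : g ∈ MulAction.stabilizer G b := by rw [h]; exact Subgroup.mem_top g
    rw [MulAction.mem_stabilizer_iff] at this
    exact hab (by rw [← hg, this])
  have heq : MulAction.stabilizer G a = MulAction.stabilizer G b := by
    rcases eq_or_lt_of_le hle with h | h
    · exact h
    · exact absurd (hmax.2 _ h) hbtop
  obtain ⟨g, hg⟩ := MulAction.exists_smul_eq G a b
  have hgnorm : g ∈ Subgroup.normalizer (MulAction.stabilizer G a : Set G) := by
    rw [Subgroup.mem_normalizer_iff_map_conj_eq]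
    have := MulAction.stabilizer_smul_eq_stabilizer_map_conj g a
    rw [hg, ← heq] at this
    exact this.symm
  have hgnot : g ∉ MulAction.stabilizer G a := by
    intro h
    rw [MulAction.mem_stabilizer_iff] at h
    exact hab (by rw [← hg, h])
  have hnormtop : Subgroup.normalizer (MulAction.stabilizer G a : Set G) = ⊤ := by
    have hlt : MulAction.stabilizer G a < Subgroup.normalizer (MulAction.stabilizer G a : Set G) := by
      refine lt_of_le_of_ne Subgroup.le_normalizer ?_
      intro h
      apply hgnot
      rw [h]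
      exact hgnorm
    exact hmax.2 _ hlt
  have hnormal : (MulAction.stabilizer G a).Normal := Subgroup.normalizer_eq_top_iff.mp hnormtop
  have hbot : MulAction.stabilizer G a = ⊥ := by
    rw [Subgroup.eq_bot_iff_forall]
    intro k hk
    apply FaithfulSMul.eq_of_smul_eq_smul (α := Ω)
    intro x
    obtain ⟨h, rfl⟩ := MulAction.exists_smul_eq G a x
    have hmem : h⁻¹ * k * h ∈ MulAction.stabilizer G a := by
      have := hnormal.conj_mem k hk h⁻¹
      simpa using this
    rw [MulAction.mem_stabilizer_iff] at hmem
    rw [one_smul]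
    calc k • h • a = h • (h⁻¹ * k * h) • a := by simp [mul_smul]
      _ = h • a := by rw [hmem]
  refine ⟨hbot, ?_⟩
  rw [hbot] at hmax
  have hsimple : ∀ H : Subgroup G, H = ⊥ ∨ H = ⊤ := by
    intro H
    rcases eq_or_lt_of_le (bot_le : ⊥ ≤ H) with h | h
    · exact Or.inl h.symm
    · exact Or.inr (hmax.2 _ h)
  have hnt : Nontrivial G := by
    rw [← Subgroup.nontrivial_iff]
    exact ⟨⟨⊥, ⊤, hmax.1⟩⟩
  obtain ⟨x, hx⟩ := exists_ne (1 : G)
  have hzp : Subgroup.zpowers x = ⊤ :=
    (hsimple _).resolve_left (Subgroup.zpowers_ne_bot.mpr hx)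
  have hcyc : IsCyclic G := isCyclic_iff_exists_zpowers_eq_top.mpr ⟨x, hzp⟩
  refine ⟨hcyc, ?_⟩
  have hS : IsSimpleGroup G := ⟨fun H _ => hsimple H⟩
  exact Group.is_simple_iff_prime_card.mp hS

end Cfsg.Agent.S3683
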