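import Mathlib
import Cfsg.Statements.S4058
import Cfsg.Agent.Lead.FS

set_option autoImplicit false
open Cfsg

namespace Cfsg.Agent.S4058

open Cfsg.Agent.Helper25 Cfsg.Agent.Lead.FS
open scoped commutatorElement

/-- In a finite `p`-group every maximal subgroup contains all `p`-th powers and commutators. -/
theorem coatom_pgroup {G : Type*} [Group G] [Finite G] {p : ℕ} [Fact p.Prime] (hG : IsPGroup p G)
    (M : Subgroup G) (hM : IsCoatom M) : (∀ x : G, x ^ p ∈ M) ∧ ∀ x y : G, ⁅x, y⁆ ∈ M := by
  haveI : Group.IsNilpotent G := hG.isNilpotent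
  haveI hn : M.Normal :=
    Subgroup.NormalizerCondition.normal_of_coatom M Group.normalizerCondition_of_isNilpotent hM
  have hQp : IsPGroup p (G ⧸ M) := hG.to_quotient M
  haveI hne : Nontrivial (G ⧸ M) := QuotientGroup.nontrivial_iff.mpr hM.1
  have hdvd : p ∣ Nat.card (G ⧸ M) := by
    obtain ⟨n, hn⟩ := IsPGroup.iff_card.mp hQp
    rw [hn]
    have : n ≠ 0 := by
      rintro rfl
      rw [pow_zero] at hn
      exact (Finite.one_lt_card (α := G ⧸ M)).ne' hn
    exact dvd_pow_self p this
  obtain ⟨q, hq⟩ := exists_prime_orderOf_dvd_card' p hdvd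
  have hcomap : (Subgroup.zpowers q).comap (QuotientGroup.mk' M) = ⊤ := by
    apply hM.2
    refine lt_of_le_of_ne ?_ ?_
    · intro x hx
      rw [Subgroup.mem_comap]
      have : (QuotientGroup.mk' M x) = 1 := (QuotientGroup.eq_one_iff x).mpr hx
      rw [this]
      exact one_mem _
    · intro h
      obtain ⟨g, rfl⟩ := QuotientGroup.mk'_surjective M q
      have h1 : g ∈ M := by
        rw [h, Subgroup.mem_comap]
        exact Subgroup.mem_zpowers _
      have h2 : QuotientGroup.mk' M g = 1 := (QuotientGroup.eq_one_iff g).mpr h1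
      rw [h2, orderOf_one] at hq
      exact (Fact.out : p.Prime).one_lt.ne hq
  have hall : ∀ x : G, ∃ k : ℤ, QuotientGroup.mk' M x = q ^ k := by
    intro x
    have : x ∈ (Subgroup.zpowers q).comap (QuotientGroup.mk' M) := by
      rw [hcomap]
      trivial
    obtain ⟨k, hk⟩ := Subgroup.mem_zpowers_iff.mp (Subgroup.mem_comap.mp this)
    exact ⟨k, hk.symm⟩
  constructor
  · intro x
    obtain ⟨k, hk⟩ := hall x
    rw [← QuotientGroup.eq_one_iff]
    show (QuotientGroup.mk' M x) ^ p = 1
    rw [hk, ← zpow_natCast, ← zpow_mul, mul_comm, zpow_mul, zpow_natCast, ← hq,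
      pow_orderOf_eq_one, one_zpow]
  · intro x y
    obtain ⟨k, hk⟩ := hall x
    obtain ⟨l, hl⟩ := hall y
    rw [← QuotientGroup.eq_one_iff]
    have : ((⁅x, y⁆ : G) : G ⧸ M) = ⁅QuotientGroup.mk' M x, QuotientGroup.mk' M y⁆ :=
      map_commutatorElement (QuotientGroup.mk' M) x y
    rw [this, hk, hl, commutatorElement_eq_one_iff_commute]
    exact (Commute.refl q).zpow_zpow k l

/-- Orbit counting for divisibility: an invariant integer function whose value times the orbit
size is always divisible by `m` has sum divisible by `m`. -/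
theorem dvd_sum_of_orbit {Λ X : Type*} [Group Λ] [MulAction Λ X] [Fintype X] (F : X → ℤ)
    (hF : ∀ (l : Λ) (x : X), F (l • x) = F x) (m : ℤ)
    (h : ∀ x, m ∣ (Nat.card (MulAction.orbit Λ x) : ℤ) * F x) : m ∣ ∑ x, F x := by
  classical
  have hsum := Finset.sum_fiberwise (Finset.univ : Finset X)
    (fun x => Quotient.mk (MulAction.orbitRel Λ X) x) F
  rw [← hsum]
  apply Finset.dvd_sum
  intro q _
  induction q using Quotient.inductionOn with
  | _ x₀ =>
    have hmem : ∀ x, x ∈ Finset.univ.filter
        (fun x => Quotient.mk (MulAction.orbitRel Λ X) x = Quotient.mk (MulAction.orbitRel Λ X) x₀) ↔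
        x ∈ MulAction.orbit Λ x₀ := by
      intro x
      rw [Finset.mem_filter, Quotient.eq]
      simp only [Finset.mem_univ, true_and]
      exact MulAction.orbitRel_apply
    have hconst : ∀ x ∈ Finset.univ.filter
        (fun x => Quotient.mk (MulAction.orbitRel Λ X) x = Quotient.mk (MulAction.orbitRel Λ X) x₀),
        F x = F x₀ := by
      intro x hx
      obtain ⟨l, rfl⟩ := (hmem x).mp hx
      exact hF l x₀
    rw [Finset.sum_congr rfl hconst, Finset.sum_const, nsmul_eq_mul]
    have hcard : (Finset.univ.filter (fun x => Quotient.mk (MulAction.orbitRel Λ X) x =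
        Quotient.mk (MulAction.orbitRel Λ X) x₀)).card = Nat.card (MulAction.orbit Λ x₀) := by
      rw [Nat.card_eq_fintype_card, ← Set.toFinset_card]
      congr 1
      ext x
      rw [hmem, Set.mem_toFinset]
    rw [hcard]
    exact h x₀

/-- Let G be a finite 2-group with #(G/Φ(G)) ≥ 2^(2k+1). Then the number of elements x of G with x² = 1 is divisible by 2^(k+1). -/
theorem result {G : Type*} [Group G] [Finite G] (hG : IsPGroup 2 G) (k : ℕ)
    (hgen : 2 ^ (2 * k + 1) ≤ Nat.card (G ⧸ frattini G)) :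
    2 ^ (k + 1) ∣ Nat.card {x : G // x ^ 2 = 1} := by
  classical
  haveI := Fintype.ofFinite G
  haveI : Fact (Nat.Prime 2) := ⟨Nat.prime_two⟩
  -- squares and commutators lie in the Frattini subgroup
  have hmemΦ : ∀ x : G, (∀ M : Subgroup G, IsCoatom M → x ∈ M) → x ∈ frattini G := by
    intro x hx
    simp only [frattini, Order.radical, Subgroup.mem_iInf, Set.mem_ofPred_eq]
    exact hx
  have hsq : ∀ x : G, x ^ 2 ∈ frattini G := fun x =>
    hmemΦ _ (fun M hM => (coatom_pgroup hG M hM).1 x)
  have hcomm : ∀ x y : G, ⁅x, y⁆ ∈ frattini G := fun x y =>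
    hmemΦ _ (fun M hM => (coatom_pgroup hG M hM).2 x y)
  -- the Frattini quotient is commutative
  letI instQ : CommGroup (G ⧸ frattini G) :=
    { (inferInstance : Group (G ⧸ frattini G)) with
      mul_comm := by
        intro a b
        induction a using QuotientGroup.induction_on with
        | _ x =>
          induction b using QuotientGroup.induction_on with
          | _ y =>
            rw [← QuotientGroup.mk_mul, ← QuotientGroup.mk_mul, QuotientGroup.eq]
            have := hcomm y⁻¹ x⁻¹
            rw [commutatorElement_def] at this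
            simpa [mul_assoc] using this }
  haveI : NeZero (Monoid.exponent (G ⧸ frattini G)) := ⟨Monoid.exponent_ne_zero_of_finite⟩
  have hΛcard : Nat.card ((G ⧸ frattini G) →* ℂˣ) = Nat.card (G ⧸ frattini G) :=
    CommGroup.card_monoidHom_of_hasEnoughRootsOfUnity (G ⧸ frattini G) ℂ
  haveI hΛfin : Finite ((G ⧸ frattini G) →* ℂˣ) := by
    apply Nat.finite_of_card_ne_zero
    rw [hΛcard]
    exact Nat.card_pos.ne'
  haveI := Fintype.ofFinite ((G ⧸ frattini G) →* ℂˣ)
  -- the action
  let ψ : ((G ⧸ frattini G) →* ℂˣ) →* (G →* ℂˣ) :=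
    MonoidHom.compHom' (QuotientGroup.mk' (frattini G))
  have hψapp : ∀ (l : (G ⧸ frattini G) →* ℂˣ) (g : G), ψ l g = l (QuotientGroup.mk' (frattini G) g) :=
    fun l g => rfl
  have hψinj : Function.Injective ψ := by
    intro a b hab
    refine MonoidHom.ext (fun q => ?_)
    obtain ⟨g, rfl⟩ := QuotientGroup.mk'_surjective (frattini G) q
    have := congrArg (fun φ : G →* ℂˣ => φ g) hab
    simpa [hψapp] using this
  letI act0 : MulAction (G →* ℂˣ) (IrrCharacter G) := twistAction
  letI act : MulAction ((G ⧸ frattini G) →* ℂˣ) (IrrCharacter G) :=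
    MulAction.compHom (IrrCharacter G) ψ
  have hsmul : ∀ (l : (G ⧸ frattini G) →* ℂˣ) (χ : IrrCharacter G), l • χ = twist (ψ l) χ :=
    fun l χ => rfl
  -- values on squares
  have hlsq : ∀ (l : (G ⧸ frattini G) →* ℂˣ) (g : G), ψ l (g * g) = 1 := by
    intro l g
    rw [hψapp]
    have : QuotientGroup.mk' (frattini G) (g * g) = 1 := by
      rw [← sq]
      exact (QuotientGroup.eq_one_iff _).mpr (hsq g)
    rw [this, map_one]
  -- the integer indicators
  have hz : ∀ χ : IrrCharacter G, ∃ z : ℤ,
      (Nat.card G : ℂ)⁻¹ * ∑ g : G, (χ : G → ℂ) (g * g) = z := fun χ => fs_int χ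
  choose z hzdef using hz
  have hzinv : ∀ (l : (G ⧸ frattini G) →* ℂˣ) (χ : IrrCharacter G), z (l • χ) = z χ := by
    intro l χ
    have h1 := hzdef (l • χ)
    have h2 := hzdef χ
    have h3 : ∀ g : G, ((l • χ : IrrCharacter G) : G → ℂ) (g * g) = (χ : G → ℂ) (g * g) := by
      intro g
      rw [hsmul, twist_apply, hlsq, Units.val_one, one_mul]
    simp only [h3] at h1
    rw [h2] at h1
    exact_mod_cast h1.symm
  have hdinv : ∀ (l : (G ⧸ frattini G) →* ℂˣ) (χ : IrrCharacter G),
      charDegree ((l • χ : IrrCharacter G) : G → ℂ) = charDegree (χ : G → ℂ) := by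
    intro l χ
    unfold charDegree
    rw [hsmul, twist_apply, map_one, Units.val_one, one_mul]
  -- the count as an integer sum
  have hN : (Nat.card {x : G // x ^ 2 = 1} : ℤ) =
      ∑ χ : IrrCharacter G, z χ * (charDegree (χ : G → ℂ) : ℤ) := by
    have h := card_sq_one (G := G)
    have h' : (Nat.card {x : G // x ^ 2 = 1} : ℂ) =
        ((∑ χ : IrrCharacter G, z χ * (charDegree (χ : G → ℂ) : ℤ) : ℤ) : ℂ) := by
      rw [h]
      push_cast
      refine Finset.sum_congr rfl (fun χ _ => ?_)
      rw [hzdef χ, irr_one_eq_degree]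
    exact_mod_cast h'
  -- orders
  obtain ⟨n, hn⟩ := IsPGroup.iff_card.mp hG
  have hQdvd : Nat.card (G ⧸ frattini G) ∣ 2 ^ n := by
    rw [← hn]
    exact Subgroup.card_quotient_dvd_card (frattini G)
  obtain ⟨D, hDn, hD⟩ := (Nat.dvd_prime_pow Nat.prime_two).mp hQdvd
  have hkD : 2 * k + 1 ≤ D := by
    rw [hD] at hgen
    exact (Nat.pow_le_pow_iff_right (by norm_num)).mp hgen
  -- main divisibility
  have hmain : ((2 ^ (k + 1) : ℕ) : ℤ) ∣ ∑ χ : IrrCharacter G, z χ * (charDegree (χ : G → ℂ) : ℤ) := by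
    apply dvd_sum_of_orbit (Λ := (G ⧸ frattini G) →* ℂˣ)
    · intro l χ
      rw [hzinv, hdinv]
    · intro χ
      set S := MulAction.stabilizer ((G ⧸ frattini G) →* ℂˣ) χ with hS
      have hidx : Nat.card (MulAction.orbit ((G ⧸ frattini G) →* ℂˣ) χ) = S.index := by
        rw [hS, MulAction.index_stabilizer, Nat.card_coe_set_eq]
      have hSmul : Nat.card S * S.index = 2 ^ D := by
        rw [Subgroup.card_mul_index, hΛcard, hD]
      obtain ⟨s, hsD, hs⟩ := (Nat.dvd_prime_pow Nat.prime_two).mp (Dvd.intro _ hSmul)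
      have hidx2 : S.index = 2 ^ (D - s) := by
        rw [hs] at hSmul
        have h2 : (2 : ℕ) ^ s * 2 ^ (D - s) = 2 ^ D := by
          rw [← pow_add]
          congr 1
          omega
        rw [← h2] at hSmul
        exact Nat.eq_of_mul_eq_mul_left (by positivity) hSmul
      -- degree
      have hddvd : charDegree (χ : G → ℂ) ∣ 2 ^ n := by
        rw [← hn]
        exact irr_degree_dvd_card χ
      obtain ⟨a, han, ha⟩ := (Nat.dvd_prime_pow Nat.prime_two).mp hddvd
      -- stabilizer bound
      have hbound : Nat.card S ≤ charDegree (χ : G → ℂ) ^ 2 := by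
        haveI : Fintype S := Fintype.ofFinite S
        apply card_le_degree_sq (ψ.comp S.subtype)
          (hψinj.comp Subtype.val_injective) χ
        intro t
        have h : (t : (G ⧸ frattini G) →* ℂˣ) • χ = χ := t.2
        rw [hsmul] at h
        exact h
      rw [hs, ha, ← pow_mul] at hbound
      have hsa : s ≤ a * 2 := (Nat.pow_le_pow_iff_right (by norm_num)).mp hbound
      rw [hidx, hidx2, ha]
      have hexp : k + 1 ≤ (D - s) + a := by omega
      have h3 : ((2 ^ (k + 1) : ℕ) : ℤ) ∣ ((2 ^ (D - s) * 2 ^ a : ℕ) : ℤ) := by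
        rw [← pow_add]
        exact_mod_cast pow_dvd_pow 2 hexp
      have h4 : ((2 ^ (D - s) : ℕ) : ℤ) * (z χ * ((2 ^ a : ℕ) : ℤ)) =
          z χ * ((2 ^ (D - s) * 2 ^ a : ℕ) : ℤ) := by
        push_cast
        ring
      rw [h4]
      exact Dvd.dvd.mul_left h3 _
  rw [← hN] at hmain
  exact_mod_cast hmain

end Cfsg.Agent.S4058
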