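import Cfsg.Statements.S3738
import Cfsg.Agent.S4058
import Cfsg.Agent.Lead.FrobAvg
import Cfsg.Agent.Lead.Ord3

set_option autoImplicit false
set_option linter.style.haveILetI false
open Cfsg

namespace Cfsg.Agent.S3738

/-- Let d be a non-identity 3-element of a finite group and P a 2-subgroup normalized by d on which ⟨d⟩ acts faithfully (no non-identity power of d centralizes P) and without non-identity fixed points (C_P(d) = 1). If every abelian subgroup of P has 2-rank at most 2, then d has order 3. -/
theorem result {X : Type*} [Group X] [Finite X] (d : X) (n : ℕ) (hn : 1 ≤ n) (hd : orderOf d = 3 ^ n) (P : Subgroup X) (hP : IsPGroup 2 P) (hdP : d ∈ Subgroup.normalizer (P : Set X)) (hfaith : Subgroup.zpowers d ⊓ Subgroup.centralizer (P : Set X) = ⊥) (hfpf : P ⊓ Subgroup.centralizer {d} = ⊥) (hrank : ∀ V : Subgroup X, V ≤ P → IsMulCommutative V → Cfsg.PRankLE 2 2 V) : orderOf d = 3 := by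
  classical
  haveI : Fact (Nat.Prime 2) := ⟨Nat.prime_two⟩
  haveI := Fintype.ofFinite X
  have hnorm : ∀ x : X, x ∈ P ↔ d * x * d⁻¹ ∈ P := fun x => Subgroup.mem_normalizer_iff.1 hdP x
  have hd1 : d ≠ 1 := by
    intro h1
    rw [h1, orderOf_one] at hd
    have h3 : 3 ^ 1 ≤ 3 ^ n := Nat.pow_le_pow_right (by norm_num) hn
    omega
  -- key claim: `d ^ 3` centralizes `P`
  have key : d ^ 3 ∈ Subgroup.centralizer (P : Set X) := by
    -- `E = Ω₁(Z(P))`
    let E : Subgroup X :=
      { carrier := {z | z ∈ P ∧ (∀ x ∈ P, x * z = z * x) ∧ z ^ 2 = 1}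
        mul_mem' := fun {z w} hz hw => ⟨P.mul_mem hz.1 hw.1, fun x hx => by
            rw [← mul_assoc, hz.2.1 x hx, mul_assoc, hw.2.1 x hx, mul_assoc],
          by
            have hc : Commute z w := (hz.2.1 w hw.1).symm
            rw [hc.mul_pow, hz.2.2, hw.2.2, mul_one]⟩
        one_mem' := ⟨P.one_mem, fun x _ => by simp, one_pow 2⟩
        inv_mem' := fun {z} hz => ⟨P.inv_mem hz.1, fun x hx =>
            (show Commute x z from hz.2.1 x hx).inv_right, by rw [inv_pow, hz.2.2, inv_one]⟩ }
    have hEP : E ≤ P := fun z hz => hz.1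
    have hEcomm : IsMulCommutative E := ⟨⟨fun a b => Subtype.ext (b.2.2.1 a.1 a.2.1)⟩⟩
    have hE4 : Nat.card E ≤ 4 := by
      have htc : IsMulCommutative (⊤ : Subgroup E) :=
        ⟨⟨fun a b => Subtype.ext (hEcomm.is_comm.comm a.1 b.1)⟩⟩
      have h := hrank E hEP hEcomm (⊤ : Subgroup E) htc
        (fun a _ => Subtype.ext (by simpa using a.2.2.2))
      rw [Subgroup.card_top] at h
      simpa using h
    have hEd : ∀ z ∈ E, d * z * d⁻¹ ∈ E := by
      intro z hz
      refine ⟨(hnorm z).1 hz.1, fun x hx => ?_, by rw [conj_pow, hz.2.2, mul_one, mul_inv_cancel]⟩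
      have hx' : d⁻¹ * x * d ∈ P := by
        refine (hnorm _).2 ?_
        have e : d * (d⁻¹ * x * d) * d⁻¹ = x := by group
        rw [e]
        exact hx
      have hc := hz.2.1 _ hx'
      calc x * (d * z * d⁻¹) = d * (d⁻¹ * x * d * z) * d⁻¹ := by group
        _ = d * (z * (d⁻¹ * x * d)) * d⁻¹ := by rw [hc]
        _ = d * z * d⁻¹ * x := by group
    have hPne : P ≠ ⊥ := by
      intro hPb
      have hmem : d ∈ Subgroup.zpowers d ⊓ Subgroup.centralizer (P : Set X) := by
        refine Subgroup.mem_inf.2 ⟨Subgroup.mem_zpowers d, Subgroup.mem_centralizer_iff.2 ?_⟩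
        intro x hx
        have hx1 : x = 1 := by
          have hxP : x ∈ P := hx
          rw [hPb, Subgroup.mem_bot] at hxP
          exact hxP
        rw [hx1]
        simp
      rw [hfaith, Subgroup.mem_bot] at hmem
      exact hd1 hmem
    have hEne : E ≠ ⊥ := by
      haveI : Nontrivial P := (Subgroup.nontrivial_iff_ne_bot P).2 hPne
      haveI := hP.center_nontrivial
      have h2 : 2 ∣ Nat.card (Subgroup.center P) := by
        rcases (hP.to_subgroup (Subgroup.center P)).card_eq_or_dvd with h | h
        · exact absurd h (Finite.one_lt_card).ne'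
        · exact h
      obtain ⟨z, hz⟩ := exists_prime_orderOf_dvd_card' (G := Subgroup.center P) 2 h2
      have hz1 : z ≠ 1 := fun h => by
        rw [h, orderOf_one] at hz
        omega
      have hz2 : z ^ 2 = 1 := by
        rw [← hz]
        exact pow_orderOf_eq_one z
      intro hEb
      have hmem : ((z : P) : X) ∈ E := by
        refine ⟨(z : P).2, fun x hx => ?_, ?_⟩
        · have h := Subgroup.mem_center_iff.1 z.2 ⟨x, hx⟩
          exact congrArg Subtype.val h
        · have h := congrArg (fun w : Subgroup.center P => ((w : P) : X)) hz2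
          simpa using h
      rw [hEb, Subgroup.mem_bot] at hmem
      apply hz1
      apply Subtype.ext
      apply Subtype.ext
      simpa using hmem
    have hEcard : Nat.card E = 4 := by
      obtain ⟨k, hk⟩ := (IsPGroup.iff_card (p := 2) (G := E)).1 (hP.to_le hEP)
      have hk2 : k ≤ 2 := by
        by_contra hc
        push Not at hc
        have h8 : 2 ^ 3 ≤ 2 ^ k := Nat.pow_le_pow_right (by norm_num) hc
        rw [hk] at hE4
        omega
      have hk0 : k ≠ 0 := by
        intro h0
        rw [h0, pow_zero] at hk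
        exact hEne (Subgroup.card_eq_one.1 hk)
      have hk1 : k ≠ 1 := by
        intro h1
        rw [h1, pow_one] at hk
        obtain ⟨z, hz1⟩ := (Subgroup.ne_bot_iff_exists_ne_one).1 hEne
        have hzX : (z : X) ≠ 1 := fun h => hz1 (Subtype.ext h)
        have hord : orderOf (z : X) = 2 := orderOf_eq_prime z.2.2.2 hzX
        have hzp : Subgroup.zpowers (z : X) = E := by
          refine Subgroup.eq_of_le_of_card_ge ((Subgroup.zpowers_le).2 z.2) ?_
          rw [Nat.card_zpowers, hord, hk]
        have hconj : d * (z : X) * d⁻¹ ∈ Subgroup.zpowers (z : X) := by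
          rw [hzp]
          exact hEd z z.2
        obtain ⟨i, hi⟩ := Subgroup.mem_zpowers_iff.1 hconj
        have hmod := zpow_mod_orderOf (z : X) i
        rw [hord] at hmod
        have hfix : d * (z : X) * d⁻¹ = z := by
          rcases Int.emod_two_eq_zero_or_one i with h0 | h1'
          · rw [show ((2 : ℕ) : ℤ) = 2 from rfl, h0, zpow_zero] at hmod
            rw [← hmod] at hi
            exfalso
            apply hzX
            have : (z : X) = d⁻¹ * (d * (z : X) * d⁻¹) * d := by group
            rw [this, ← hi]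
            simp
          · rw [show ((2 : ℕ) : ℤ) = 2 from rfl, h1', zpow_one] at hmod
            rw [← hi, ← hmod]
        have hmem : (z : X) ∈ P ⊓ Subgroup.centralizer {d} := by
          refine Subgroup.mem_inf.2 ⟨z.2.1, Subgroup.mem_centralizer_iff.2 ?_⟩
          intro h hh
          rw [Set.mem_singleton_iff] at hh
          rw [hh]
          exact (mul_inv_eq_iff_eq_mul.1 hfix)
        rw [hfpf, Subgroup.mem_bot] at hmem
        exact hzX hmem
      have : k = 2 := by omega
      rw [hk, this]
      norm_num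
    -- every element of `P` of order at most 2 lies in `E`
    have hEall : ∀ u ∈ P, u ^ 2 = 1 → u ∈ E := by
      intro u hu hu2
      have hcomm : ∀ x ∈ ((E : Set X) ∪ {u}), ∀ y ∈ ((E : Set X) ∪ {u}), x * y = y * x := by
        intro x hx y hy
        rcases hx with hx | hx <;> rcases hy with hy | hy
        · exact hy.2.1 x hx.1
        · rw [Set.mem_singleton_iff] at hy
          rw [hy]
          exact (hx.2.1 u hu).symm
        · rw [Set.mem_singleton_iff] at hx
          rw [hx]
          exact hy.2.1 u hu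
        · rw [Set.mem_singleton_iff] at hx hy
          rw [hx, hy]
      obtain ⟨A, hAdef⟩ : ∃ A : Subgroup X, A = Subgroup.closure ((E : Set X) ∪ {u}) := ⟨_, rfl⟩
      have hAP : A ≤ P := by
        rw [hAdef, Subgroup.closure_le]
        rintro x (hx | hx)
        · exact hx.1
        · rw [Set.mem_singleton_iff] at hx
          rw [hx]
          exact hu
      have hAcomm : IsMulCommutative A := by
        subst hAdef
        exact Subgroup.isMulCommutative_closure hcomm
      have hAexp : ∀ a ∈ A, a ^ 2 = 1 := by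
        intro a ha
        rw [hAdef] at ha
        induction ha using Subgroup.closure_induction with
        | mem x hx =>
          rcases hx with hx | hx
          · exact hx.2.2
          · rw [Set.mem_singleton_iff] at hx
            rw [hx]
            exact hu2
        | one => exact one_pow 2
        | mul x y hx hy ihx ihy =>
          have hc : Commute x y :=
            congrArg Subtype.val (hAcomm.is_comm.comm ⟨x, hAdef ▸ hx⟩ ⟨y, hAdef ▸ hy⟩)
          rw [hc.mul_pow, ihx, ihy, mul_one]
        | inv x hx ih => rw [inv_pow, ih, inv_one]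
      have hA4 : Nat.card A ≤ 4 := by
        have htc : IsMulCommutative (⊤ : Subgroup A) :=
          ⟨⟨fun a b => Subtype.ext (hAcomm.is_comm.comm a.1 b.1)⟩⟩
        have h := hrank A hAP hAcomm (⊤ : Subgroup A) htc
          (fun a _ => Subtype.ext (by simpa using hAexp a.1 a.2))
        rw [Subgroup.card_top] at h
        simpa using h
      have hEA : E ≤ A := fun z hz => hAdef ▸ Subgroup.subset_closure (Or.inl hz)
      have hEeq : E = A := Subgroup.eq_of_le_of_card_ge hEA (by rw [hEcard]; exact hA4)
      rw [hEeq, hAdef]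
      exact Subgroup.subset_closure (Or.inr rfl)
    have hT : ¬ 2 ^ (2 + 1) ∣ Nat.card {x : P // x ^ 2 = 1} := by
      have hle : Nat.card {x : P // x ^ 2 = 1} ≤ Nat.card E := by
        refine Nat.card_le_card_of_injective
          (fun x => (⟨(x.1 : X), hEall _ x.1.2 (by simpa using congrArg Subtype.val x.2)⟩ : E)) ?_
        intro a b hab
        apply Subtype.ext
        apply Subtype.ext
        have h := congrArg (fun e : E => (e : X)) hab
        exact h
      have hpos : 0 < Nat.card {x : P // x ^ 2 = 1} := by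
        haveI : Nonempty {x : P // x ^ 2 = 1} := ⟨⟨1, one_pow 2⟩⟩
        exact Nat.card_pos
      intro hdvd
      have h8 := Nat.le_of_dvd hpos hdvd
      rw [hEcard] at hle
      omega
    have hΦ : Nat.card (P ⧸ frattini P) < 32 := by
      by_contra hcon
      refine hT (Cfsg.Agent.S4058.result hP 2 ?_)
      have h32 : (2 : ℕ) ^ (2 * 2 + 1) = 32 := by norm_num
      omega
    -- the automorphisms induced by `d` and `d ^ 3`
    have hzle : Subgroup.zpowers d ≤ Subgroup.normalizer (P : Set X) := (Subgroup.zpowers_le).2 hdP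
    obtain ⟨ψ, hψdef⟩ : ∃ ψ : MulAut P, ψ = Lead.FrobAvg.conjAut P (Subgroup.zpowers d) hzle
        ⟨d, Subgroup.mem_zpowers d⟩ := ⟨_, rfl⟩
    have hψ : ∀ (k : ℕ) (x : P), (((ψ ^ k) x : P) : X) = d ^ k * x * (d ^ k)⁻¹ := by
      intro k x
      have h1 : ψ ^ k = Lead.FrobAvg.conjAut P (Subgroup.zpowers d) hzle
          ((⟨d, Subgroup.mem_zpowers d⟩ : Subgroup.zpowers d) ^ k) := by
        rw [hψdef, map_pow]
      rw [h1, Lead.FrobAvg.conjAut_apply]
      rfl
    have hψn : ψ ^ 3 ^ n = 1 := by
      refine MulEquiv.ext (fun x => Subtype.ext ?_)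
      rw [hψ, ← hd, pow_orderOf_eq_one]
      simp
    obtain ⟨φ, hφdef⟩ : ∃ φ : MulAut P, φ = ψ ^ 3 := ⟨_, rfl⟩
    have hφn : φ ^ 3 ^ n = 1 := by
      rw [hφdef, ← pow_mul, mul_comm, pow_mul, hψn, one_pow]
    obtain ⟨F, hFdef⟩ : ∃ F : Subgroup P, F = MonoidHom.eqLocus
        ((QuotientGroup.mk' (frattini P)).comp φ.toMonoidHom) (QuotientGroup.mk' (frattini P)) :=
      ⟨_, rfl⟩
    have hFmem : ∀ x : P, x ∈ F ↔ x⁻¹ * φ x ∈ frattini P := by
      intro x
      rw [hFdef]
      show ((φ x : P) : P ⧸ frattini P) = (x : P ⧸ frattini P) ↔ _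
      rw [eq_comm]
      exact QuotientGroup.eq
    have hchar : ∀ (χ : MulAut P) (y : P), χ y ∈ frattini P ↔ y ∈ frattini P := by
      intro χ y
      have h1 : (frattini P).comap χ.toMonoidHom = frattini P :=
        (frattini_characteristic (G := P)).fixed χ
      conv_rhs => rw [← h1]
      rfl
    have hΦF : frattini P ≤ F := by
      intro x hx
      rw [hFmem]
      exact (frattini P).mul_mem ((frattini P).inv_mem hx) ((hchar φ x).2 hx)
    have hFψ : ∀ x : P, x ∈ F ↔ ψ x ∈ F := by
      intro x
      rw [hFmem, hFmem]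
      have hcomm : φ (ψ x) = ψ (φ x) := by
        rw [hφdef, ← MulAut.mul_apply, ← MulAut.mul_apply, ← pow_succ, ← pow_succ']
      rw [hcomm, ← map_inv, ← map_mul, hchar]
    obtain ⟨σ, hσdef⟩ : ∃ σ : Equiv.Perm {x : P // x ∉ F},
        σ = ψ.toEquiv.subtypeEquiv (fun x => not_congr (hFψ x)) := ⟨_, rfl⟩
    have hσ : ∀ (k : ℕ) (x : {x : P // x ∉ F}),
        (((σ ^ k) x : {x : P // x ∉ F}) : P) = (ψ ^ k) x.1 := by
      intro k
      induction k with
      | zero => intro x; simp
      | succ k ih =>
        intro x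
        rw [pow_succ', Equiv.Perm.mul_apply, pow_succ', MulAut.mul_apply, ← ih x, hσdef]
        rfl
    haveI : Fintype P := Fintype.ofFinite P
    have h9 : 9 ∣ Fintype.card {x : P // x ∉ F} := by
      refine Lead.Ord3.nine_dvd_card σ n ?_ ?_
      · refine Equiv.ext (fun x => Subtype.ext ?_)
        rw [hσ, hψn]
        rfl
      · intro x hx
        apply x.2
        rw [hFmem]
        have h1 : φ x.1 = x.1 := by
          have h2 := congrArg Subtype.val hx
          rw [hσ] at h2
          rw [hφdef]
          exact h2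
        rw [h1, inv_mul_cancel]
        exact (frattini P).one_mem
    have hFtop : F = ⊤ := by
      rw [← Subgroup.index_eq_one]
      have hidx1 : F.index ∣ (frattini P).index := Subgroup.index_dvd_of_le hΦF
      have hΦidx : (frattini P).index < 32 := by
        rw [Subgroup.index_eq_card]
        exact hΦ
      obtain ⟨a, ha⟩ := (IsPGroup.iff_card (p := 2) (G := P)).1 hP
      have hidx2 : F.index ∣ 2 ^ a := ha ▸ Subgroup.index_dvd_card F
      obtain ⟨l, -, hl⟩ := (Nat.dvd_prime_pow Nat.prime_two).1 hidx2
      have hΦpos : 0 < (frattini P).index := Nat.pos_of_ne_zero Subgroup.index_ne_zero_of_finite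
      have hle : F.index ≤ (frattini P).index := Nat.le_of_dvd hΦpos hidx1
      have hl4 : l ≤ 4 := by
        by_contra hc
        push Not at hc
        have h32 : 2 ^ 5 ≤ 2 ^ l := Nat.pow_le_pow_right (by norm_num) hc
        rw [hl] at hle
        omega
      obtain ⟨b, hb⟩ := (IsPGroup.iff_card (p := 2) (G := F)).1 (hP.to_subgroup F)
      have hcard : Fintype.card {x : P // x ∉ F} = Nat.card F * (F.index - 1) := by
        have h1 : Fintype.card {x : P // x ∉ F} =
            Fintype.card P - Fintype.card {x : P // x ∈ F} := Fintype.card_subtype_compl _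
        have h2 : Nat.card F * F.index = Nat.card P := Subgroup.card_mul_index F
        rw [h1, ← Nat.card_eq_fintype_card, ← Nat.card_eq_fintype_card, ← h2, Nat.mul_sub,
          mul_one]
      rw [hcard, hb] at h9
      have hcop : Nat.Coprime 9 (2 ^ b) := Nat.Coprime.pow_right _ (by norm_num)
      have h9' : 9 ∣ F.index - 1 := hcop.dvd_of_dvd_mul_left h9
      rw [hl] at h9' ⊢
      have hl0 : l = 0 := by
        rcases (show l = 0 ∨ l = 1 ∨ l = 2 ∨ l = 3 ∨ l = 4 by omega) with h | h | h | h | h
        · exact h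
        all_goals (exfalso; rw [h] at h9'; norm_num at h9')
      rw [hl0]
      norm_num
    have hfix := Lead.Ord3.fix_of_frattini hP φ n hφn
      (fun x => (hFmem x).1 (hFtop ▸ Subgroup.mem_top x))
    rw [Subgroup.mem_centralizer_iff]
    intro x hx
    have h1 := congrArg Subtype.val (hfix ⟨x, hx⟩)
    have h2 : ((φ ⟨x, hx⟩ : P) : X) = d ^ 3 * x * (d ^ 3)⁻¹ := by
      rw [hφdef]
      exact hψ 3 ⟨x, hx⟩
    rw [h2] at h1
    rw [mul_inv_eq_iff_eq_mul] at h1
    exact h1.symm
  have h1 : d ^ 3 ∈ Subgroup.zpowers d ⊓ Subgroup.centralizer (P : Set X) :=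
    ⟨Subgroup.pow_mem _ (Subgroup.mem_zpowers d) 3, key⟩
  rw [hfaith, Subgroup.mem_bot] at h1
  have h2 : orderOf d ∣ 3 := orderOf_dvd_of_pow_eq_one h1
  rw [hd] at h2 ⊢
  have hn1 : n ≤ 1 := by
    by_contra hcon
    push Not at hcon
    have h9 : 3 ^ 2 ∣ 3 := (pow_dvd_pow 3 hcon).trans h2
    norm_num at h9
  have hn' : n = 1 := le_antisymm hn1 hn
  rw [hn']
  norm_num

end Cfsg.Agent.S3738
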