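import Cfsg.Statements.S3937
import Mathlib
import Cfsg.Agent.S0008
import Cfsg.Agent.Helper1.Fusion
import Cfsg.Agent.Lead.Glauberman

set_option autoImplicit false
open Cfsg
open scoped Pointwise

namespace Cfsg.Agent.S3937

universe u

/-- Engel sequence `x, [x,g], [[x,g],g], …`. -/
def eng {G : Type*} [Group G] (g x : G) (n : ℕ) : G :=
  (List.replicate n g).foldl (fun a b => a * b * a⁻¹ * b⁻¹) x

theorem eng_zero {G : Type*} [Group G] (g x : G) : eng g x 0 = x := rfl

theorem eng_succ {G : Type*} [Group G] (g x : G) (n : ℕ) :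
    eng g x (n + 1) = eng g x n * g * (eng g x n)⁻¹ * g⁻¹ := by
  unfold eng
  rw [List.replicate_succ', List.foldl_append]
  rfl

theorem eng_coe {G : Type*} [Group G] (H : Subgroup G) (g y : H) (k : ℕ) :
    ((eng g y k : H) : G) = eng (g : G) (y : G) k := by
  induction k with
  | zero => rfl
  | succ k ih => rw [eng_succ, eng_succ, ← ih]; rfl

/-- The Fitting subgroup of a subgroup, as a subgroup of the ambient group. -/
def fitOf {G : Type*} [Group G] (H : Subgroup G) : Subgroup G :=
  (Cfsg.fittingSubgroup ↥H).map H.subtype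

theorem fitOf_le {G : Type*} [Group G] (H : Subgroup G) : fitOf H ≤ H :=
  Subgroup.map_subtype_le _

theorem fitting_normal' (G : Type*) [Group G] : (Cfsg.fittingSubgroup G).Normal :=
  Subgroup.sSup_normal _ (fun _ h => h.1)

theorem le_normalizer_fitOf {G : Type*} [Group G] (H : Subgroup G) :
    H ≤ Subgroup.normalizer ((fitOf H : Subgroup G) : Set G) := by
  haveI := fitting_normal' ↥H
  have h1 := Subgroup.le_normalizer_map (H := Cfsg.fittingSubgroup ↥H) H.subtype
  rw [Subgroup.normalizer_eq_top, ← MonoidHom.range_eq_map, Subgroup.range_subtype] at h1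
  exact h1

theorem fitOf_nilpotent {G : Type*} [Group G] [Finite G] (H : Subgroup G) :
    Group.IsNilpotent ↥(fitOf H) := by
  haveI : Group.IsNilpotent ↥(Cfsg.fittingSubgroup ↥H) := Cfsg.Agent.S0008.result
  exact Group.nilpotent_of_mulEquiv
    ((Cfsg.fittingSubgroup ↥H).equivMapOfInjective H.subtype H.subtype_injective)

theorem nilpotent_of_le {G : Type*} [Group G] {A B : Subgroup G} (h : A ≤ B)
    [Group.IsNilpotent B] : Group.IsNilpotent A := by
  haveI : Group.IsNilpotent (A.subgroupOf B) := inferInstance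
  exact Group.nilpotent_of_mulEquiv (Subgroup.subgroupOfEquivOfLe h)

theorem le_fitOf {G : Type*} [Group G] {N H : Subgroup G} (hNH : N ≤ H)
    (hn : H ≤ Subgroup.normalizer (N : Set G)) (hnil : Group.IsNilpotent N) : N ≤ fitOf H := by
  have h1 : (N.subgroupOf H).Normal := Subgroup.normal_subgroupOf_of_le_normalizer hn
  have h2 : Group.IsNilpotent ↥(N.subgroupOf H) :=
    Group.nilpotent_of_mulEquiv (Subgroup.subgroupOfEquivOfLe hNH).symm
  have h3 : N.subgroupOf H ≤ Cfsg.fittingSubgroup ↥H := le_sSup ⟨h1, h2⟩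
  intro x hx
  exact ⟨⟨x, hNH hx⟩, h3 (Subgroup.mem_subgroupOf.mpr hx), rfl⟩

theorem conj_mem_conj_smul {G : Type*} [Group G] (x z : G) (S : Subgroup G) (hz : z ∈ S) :
    x * z * x⁻¹ ∈ MulAut.conj x • S := by
  rw [Cfsg.Agent.Lead.mem_conj_smul']
  have e : x⁻¹ * (x * z * x⁻¹) * x = z := by group
  rw [e]; exact hz

theorem conj_smul_fitOf_le {G : Type*} [Group G] [Finite G] (x : G) (H : Subgroup G) :
    MulAut.conj x • fitOf H ≤ fitOf (MulAut.conj x • H) := by
  apply le_fitOf
  · exact Subgroup.pointwise_smul_le_pointwise_smul_iff.mpr (fitOf_le H)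
  · intro y hy
    rw [Cfsg.Agent.Lead.mem_conj_smul'] at hy
    have hyN := le_normalizer_fitOf H hy
    apply Cfsg.Agent.Helper1.mem_normalizer_of_conj_mem
    intro z hz
    rw [Cfsg.Agent.Lead.mem_conj_smul'] at hz ⊢
    have h1 := (Subgroup.mem_normalizer_iff.mp (inv_mem hyN) _).mp hz
    have e : x⁻¹ * (y⁻¹ * z * y) * x = (x⁻¹ * y * x)⁻¹ * (x⁻¹ * z * x) * (x⁻¹ * y * x)⁻¹⁻¹ := by
      group
    rw [e]; exact h1
  · haveI := fitOf_nilpotent H
    exact Group.nilpotent_of_mulEquiv (Subgroup.equivSMul (MulAut.conj x) (fitOf H))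

theorem exists_mem_normalizer_not_mem_nil {G : Type*} [Group G] {H T : Subgroup G}
    [Group.IsNilpotent T] (hlt : H < T) :
    ∃ x ∈ T, x ∉ H ∧ x ∈ Subgroup.normalizer (H : Set G) := by
  have h1 : H.subgroupOf T < ⊤ := by
    rw [lt_top_iff_ne_top]
    intro h
    rw [Subgroup.subgroupOf_eq_top] at h
    exact absurd h (not_le_of_gt hlt)
  have h2 := Group.normalizerCondition_of_isNilpotent (H.subgroupOf T) h1
  obtain ⟨x, hxN, hxH⟩ := SetLike.exists_of_lt h2
  refine ⟨x, x.2, fun h => hxH (Subgroup.mem_subgroupOf.mpr h), ?_⟩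
  rw [Subgroup.mem_normalizer_iff] at hxN ⊢
  intro h
  constructor
  · intro hh
    have := (hxN ⟨h, hlt.le hh⟩).mp (Subgroup.mem_subgroupOf.mpr hh)
    exact Subgroup.mem_subgroupOf.mp this
  · intro hh
    have hT' : h ∈ T := by
      have := T.mul_mem (T.mul_mem (T.inv_mem x.2) (hlt.le hh)) x.2
      simpa [mul_assoc] using this
    exact Subgroup.mem_subgroupOf.mp ((hxN ⟨h, hT'⟩).mpr (Subgroup.mem_subgroupOf.mpr hh))

theorem card_lt_of_lt' {G : Type*} [Group G] [Finite G] {A B : Subgroup G} (h : A < B) :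
    Nat.card A < Nat.card B := by
  apply lt_of_le_of_ne (Subgroup.card_le_of_le h.le)
  intro hc
  exact h.ne (Subgroup.eq_of_le_of_card_ge h.le (le_of_eq hc.symm))

theorem card_lt_of_ne_top' {G : Type*} [Group G] [Finite G] {L : Subgroup G} (hL : L ≠ ⊤) :
    Nat.card L < Nat.card G := by
  apply lt_of_le_of_ne (Subgroup.card_le_card_group L)
  intro h
  exact hL (Subgroup.eq_top_of_card_eq L h)

/-- Zipper lemma, Fitting form. -/
theorem zipper {G : Type u} [Group G] [Finite G] : ∀ (m : ℕ) (S : Subgroup G),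
    Nat.card G - Nat.card S = m → S ≠ ⊤ → ¬ S ≤ Cfsg.fittingSubgroup G →
    (∀ H : Subgroup G, H ≠ ⊤ → S ≤ H → S ≤ fitOf H) →
    ∃ M : Subgroup G, IsCoatom M ∧ S ≤ M ∧ ∀ H : Subgroup G, H ≠ ⊤ → S ≤ H → H ≤ M := by
  intro m
  induction m using Nat.strong_induction_on with
  | _ m ih =>
  intro S hm hStop h1 h2
  have hNS : Subgroup.normalizer (S : Set G) ≠ ⊤ := by
    intro htop
    obtain ⟨M₁, hM₁, hSM₁⟩ := (eq_top_or_exists_le_coatom S).resolve_left hStop
    have hS1 := h2 M₁ hM₁.1 hSM₁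
    haveI := fitOf_nilpotent M₁
    have hSnil : Group.IsNilpotent ↥S := nilpotent_of_le hS1
    have hSn : S.Normal := Subgroup.normalizer_eq_top_iff.mp htop
    exact h1 (le_sSup ⟨hSn, hSnil⟩)
  obtain ⟨M₀, hM₀, hNM₀⟩ := (eq_top_or_exists_le_coatom _).resolve_left hNS
  have hSM₀ : S ≤ M₀ := Subgroup.le_normalizer.trans hNM₀
  refine ⟨M₀, hM₀, hSM₀, ?_⟩
  have hclaim : ∀ K : Subgroup G, IsCoatom K → S ≤ K → K = M₀ := by
    intro K hK hSK
    by_cases hKN : K ≤ Subgroup.normalizer (S : Set G)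
    · have hle : K ≤ M₀ := hKN.trans hNM₀
      rcases eq_or_lt_of_le hle with h | h
      · exact h
      · exact absurd (hK.2 M₀ h) hM₀.1
    · have hSF : S ≤ fitOf K := h2 K hK.1 hSK
      haveI := fitOf_nilpotent K
      have hx : ∃ x ∈ K, x ∉ Subgroup.normalizer (S : Set G) ∧
          MulAut.conj x • S ≤ Subgroup.normalizer (S : Set G) := by
        by_cases hFN : fitOf K ≤ Subgroup.normalizer (S : Set G)
        · obtain ⟨y, hyK, hyN⟩ := SetLike.not_le_iff_exists.mp hKN
          refine ⟨y, hyK, hyN, ?_⟩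
          refine le_trans ?_ hFN
          calc MulAut.conj y • S ≤ MulAut.conj y • fitOf K :=
                Subgroup.pointwise_smul_le_pointwise_smul_iff.mpr hSF
            _ = fitOf K :=
                Cfsg.Agent.Lead.mem_normalizer_iff_conj_smul.mp (le_normalizer_fitOf K hyK)
        · obtain ⟨S₁, hS₁def⟩ : ∃ S₁ : Subgroup G,
              S₁ = fitOf K ⊓ Subgroup.normalizer (S : Set G) := ⟨_, rfl⟩
          have hS₁lt : S₁ < fitOf K := by
            rw [hS₁def]
            refine lt_of_le_of_ne inf_le_left ?_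
            intro e
            apply hFN
            rw [← e]; exact inf_le_right
          obtain ⟨x, hxF, hxS₁, hxN⟩ := exists_mem_normalizer_not_mem_nil hS₁lt
          refine ⟨x, fitOf_le K hxF, ?_, ?_⟩
          · intro hxNS
            apply hxS₁
            rw [hS₁def]; exact ⟨hxF, hxNS⟩
          · have hSS₁ : S ≤ S₁ := by rw [hS₁def]; exact le_inf hSF Subgroup.le_normalizer
            calc MulAut.conj x • S ≤ MulAut.conj x • S₁ :=
                  Subgroup.pointwise_smul_le_pointwise_smul_iff.mpr hSS₁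
              _ = S₁ := Cfsg.Agent.Lead.mem_normalizer_iff_conj_smul.mp hxN
              _ ≤ Subgroup.normalizer (S : Set G) := by rw [hS₁def]; exact inf_le_right
      obtain ⟨x, hxK, hxN, hxS⟩ := hx
      obtain ⟨T, hTdef⟩ : ∃ T : Subgroup G, T = S ⊔ MulAut.conj x • S := ⟨_, rfl⟩
      have hST : S ≤ T := hTdef ▸ le_sup_left
      have hxST : MulAut.conj x • S ≤ T := hTdef ▸ le_sup_right
      have hTne : S ≠ T := by
        intro e
        apply hxN
        rw [← e] at hxST
        have h3 : x⁻¹ ∈ Subgroup.normalizer (S : Set G) := by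
          apply Cfsg.Agent.Helper1.mem_normalizer_of_conj_mem
          intro z hz
          have h4 := hxST (conj_mem_conj_smul x z S hz)
          simpa using h4
        simpa using inv_mem h3
      have hTM₀ : T ≤ M₀ := by rw [hTdef]; exact sup_le hSM₀ (hxS.trans hNM₀)
      have hTK : T ≤ K := by
        rw [hTdef]; refine sup_le hSK ?_
        calc MulAut.conj x • S ≤ MulAut.conj x • K :=
              Subgroup.pointwise_smul_le_pointwise_smul_iff.mpr hSK
          _ = K := Cfsg.Agent.Lead.conj_smul_eq_of_mem hxK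
      have hTtop : T ≠ ⊤ := fun e => hM₀.1 (top_le_iff.mp (e ▸ hTM₀))
      have hT1 : ¬ T ≤ Cfsg.fittingSubgroup G := fun h => h1 (hST.trans h)
      have hT2 : ∀ H : Subgroup G, H ≠ ⊤ → T ≤ H → T ≤ fitOf H := by
        intro H hH hTH
        rw [hTdef]
        refine sup_le (h2 H hH (hST.trans hTH)) ?_
        have hxSH : MulAut.conj x • S ≤ H := hxST.trans hTH
        have hS' : S ≤ MulAut.conj x⁻¹ • H := by
          intro z hz
          rw [Cfsg.Agent.Lead.mem_conj_smul']
          have h4 := hxSH (conj_mem_conj_smul x z S hz)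
          simpa using h4
        have hH' : MulAut.conj x⁻¹ • H ≠ ⊤ := by
          intro e
          apply hH
          rw [eq_top_iff]
          intro z _
          have hz : x⁻¹ * z * x ∈ MulAut.conj x⁻¹ • H := by rw [e]; exact Subgroup.mem_top _
          rw [Cfsg.Agent.Lead.mem_conj_smul'] at hz
          have e2 : x⁻¹⁻¹ * (x⁻¹ * z * x) * x⁻¹ = z := by group
          rwa [e2] at hz
        have h3 := h2 _ hH' hS'
        have e3 : MulAut.conj x • MulAut.conj x⁻¹ • H = H := by
          rw [smul_smul, ← map_mul, mul_inv_cancel, map_one, one_smul]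
        calc MulAut.conj x • S ≤ MulAut.conj x • fitOf (MulAut.conj x⁻¹ • H) :=
              Subgroup.pointwise_smul_le_pointwise_smul_iff.mpr h3
          _ ≤ fitOf (MulAut.conj x • MulAut.conj x⁻¹ • H) := conj_smul_fitOf_le x _
          _ = fitOf H := by rw [e3]
      have hcardlt : Nat.card G - Nat.card T < m := by
        have h3 := card_lt_of_lt' (lt_of_le_of_ne hST hTne)
        have h4 := Subgroup.card_le_card_group T
        omega
      obtain ⟨M', hM', hTM', hM'u⟩ := ih _ hcardlt T rfl hTtop hT1 hT2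
      have e1 : M₀ = M' := by
        have hle := hM'u M₀ hM₀.1 hTM₀
        rcases eq_or_lt_of_le hle with h | h
        · exact h
        · exact absurd (hM₀.2 M' h) hM'.1
      have hle := hM'u K hK.1 hTK
      rw [← e1] at hle
      rcases eq_or_lt_of_le hle with h | h
      · exact h
      · exact absurd (hK.2 M₀ h) hM₀.1
  intro H hH hSH
  obtain ⟨K, hK, hHK⟩ := (eq_top_or_exists_le_coatom H).resolve_left hH
  rw [← hclaim K hK (hSH.trans hHK)]
  exact hHK

theorem engel_mem_fitting : ∀ (n : ℕ) (G : Type u) [Group G] [Finite G], Nat.card G = n →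
    ∀ g : G, (∀ x : G, ∃ k : ℕ, eng g x k = 1) → g ∈ Cfsg.fittingSubgroup G := by
  intro n
  induction n using Nat.strong_induction_on with
  | _ n ih =>
  intro G _ _ hcard g hg
  by_contra hgF
  obtain ⟨S, hSdef⟩ : ∃ S : Subgroup G, S = Subgroup.zpowers g := ⟨_, rfl⟩
  have hgS : g ∈ S := hSdef ▸ Subgroup.mem_zpowers g
  have hSle : ∀ H : Subgroup G, S ≤ H ↔ g ∈ H := by
    intro H; rw [hSdef, Subgroup.zpowers_le]
  have h1 : ¬ S ≤ Cfsg.fittingSubgroup G := by rw [hSle]; exact hgF
  have h2 : ∀ H : Subgroup G, H ≠ ⊤ → S ≤ H → S ≤ fitOf H := by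
    intro H hH hSH
    rw [hSle] at hSH ⊢
    have hlt : Nat.card H < n := by rw [← hcard]; exact card_lt_of_ne_top' hH
    have hEng : ∀ y : ↥H, ∃ k : ℕ, eng (⟨g, hSH⟩ : ↥H) y k = 1 := by
      intro y
      obtain ⟨k, hk⟩ := hg (y : G)
      refine ⟨k, Subtype.ext ?_⟩
      rw [eng_coe]; exact hk
    have h3 := ih _ hlt ↥H rfl ⟨g, hSH⟩ hEng
    exact ⟨⟨g, hSH⟩, h3, rfl⟩
  have hStop : S ≠ ⊤ := by
    intro e
    apply hgF
    have hcomm : ∀ a b : G, a * b = b * a := by
      intro a b
      have ha : a ∈ Subgroup.zpowers g := by rw [← hSdef, e]; exact Subgroup.mem_top a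
      have hb : b ∈ Subgroup.zpowers g := by rw [← hSdef, e]; exact Subgroup.mem_top b
      obtain ⟨i, rfl⟩ := Subgroup.mem_zpowers_iff.mp ha
      obtain ⟨j, rfl⟩ := Subgroup.mem_zpowers_iff.mp hb
      rw [← zpow_add, ← zpow_add, add_comm]
    have hnilG : Group.IsNilpotent G := by
      refine ⟨⟨1, ?_⟩⟩
      rw [Subgroup.upperCentralSeries_one, Subgroup.eq_top_iff']
      intro z
      rw [Subgroup.mem_center_iff]
      intro y
      exact hcomm y z
    have hnil : Group.IsNilpotent (⊤ : Subgroup G) := Group.isNilpotent_top.mpr hnilG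
    exact (le_sSup (show (⊤ : Subgroup G) ∈ {N : Subgroup G | N.Normal ∧ Group.IsNilpotent N}
      from ⟨inferInstance, hnil⟩)) (Subgroup.mem_top g)
  obtain ⟨M, hM, hSM, hMu⟩ := zipper _ S rfl hStop h1 h2
  have hgM : g ∈ M := hSM hgS
  have hMu' : ∀ H : Subgroup G, H ≠ ⊤ → g ∈ H → H ≤ M :=
    fun H hH hgH => hMu H hH ((hSle H).mpr hgH)
  have h3 : ∃ a : G, a * g * a⁻¹ ∉ M := by
    by_contra hcon
    push_neg at hcon
    obtain ⟨N, hNdef⟩ : ∃ N : Subgroup G, N = Subgroup.normalClosure {g} := ⟨_, rfl⟩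
    have hNn : N.Normal := hNdef ▸ Subgroup.normalClosure_normal
    have hgN : g ∈ N := by
      rw [hNdef]; exact Subgroup.subset_normalClosure (Set.mem_singleton g)
    have hNM : N ≤ M := by
      rw [hNdef, Subgroup.normalClosure, Subgroup.closure_le]
      intro z hz
      rw [Group.mem_conjugatesOfSet_iff] at hz
      obtain ⟨w, hw, hwz⟩ := hz
      rw [Set.mem_singleton_iff] at hw
      rw [hw, isConj_iff] at hwz
      obtain ⟨c, rfl⟩ := hwz
      exact hcon c
    have hNtop : N ≠ ⊤ := fun e => hM.1 (top_le_iff.mp (e ▸ hNM))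
    have hgFN : g ∈ fitOf N := (hSle _).mp (h2 N hNtop ((hSle N).mpr hgN))
    have hFn : (fitOf N).Normal := by
      constructor
      intro z hz x
      have h4 : MulAut.conj x • fitOf N ≤ fitOf N := by
        have h5 := conj_smul_fitOf_le x N
        rwa [Subgroup.Normal.conj_smul_eq_self x N] at h5
      exact h4 (conj_mem_conj_smul x z _ hz)
    exact hgF ((le_sSup (show fitOf N ∈ {N : Subgroup G | N.Normal ∧ Group.IsNilpotent N}
      from ⟨hFn, fitOf_nilpotent N⟩)) hgFN)
  obtain ⟨a, ha⟩ := h3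
  have hNMtop : Subgroup.normalizer (M : Set G) ≠ ⊤ := by
    intro e
    apply ha
    have haN : a ∈ Subgroup.normalizer (M : Set G) := by rw [e]; exact Subgroup.mem_top a
    exact (Subgroup.mem_normalizer_iff.mp haN g).mp hgM
  have hNM : Subgroup.normalizer (M : Set G) ≤ M := hMu' _ hNMtop (Subgroup.le_normalizer hgM)
  have h4 : ∀ y : G, y * g * y⁻¹ ∈ M → y ∈ M := by
    intro y hy
    apply hNM
    have hg' : g ∈ MulAut.conj y⁻¹ • M := by
      rw [Cfsg.Agent.Lead.mem_conj_smul']; simpa using hy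
    have hne : MulAut.conj y⁻¹ • M ≠ ⊤ := by
      intro e
      apply hM.1
      rw [eq_top_iff]
      intro z _
      have hz : y⁻¹ * z * y ∈ MulAut.conj y⁻¹ • M := by rw [e]; exact Subgroup.mem_top _
      rw [Cfsg.Agent.Lead.mem_conj_smul'] at hz
      have e2 : y⁻¹⁻¹ * (y⁻¹ * z * y) * y⁻¹ = z := by group
      rwa [e2] at hz
    have hle := hMu' _ hne hg'
    apply Cfsg.Agent.Helper1.mem_normalizer_of_conj_mem
    intro z hz
    have h5 : y⁻¹ * z * y ∈ MulAut.conj y⁻¹ • M := by
      rw [Cfsg.Agent.Lead.mem_conj_smul']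
      have e2 : y⁻¹⁻¹ * (y⁻¹ * z * y) * y⁻¹ = z := by group
      rw [e2]; exact hz
    exact hle h5
  obtain ⟨k, hk⟩ := hg a
  have h5 : ∀ j : ℕ, j ≤ k → eng g a (k - j) ∈ M := by
    intro j
    induction j with
    | zero => intro _; rw [Nat.sub_zero, hk]; exact one_mem M
    | succ j ihj =>
      intro hj
      have h6 := ihj (by omega)
      have e : k - j = (k - (j + 1)) + 1 := by omega
      rw [e, eng_succ] at h6
      apply h4
      have e2 : eng g a (k - (j + 1)) * g * (eng g a (k - (j + 1)))⁻¹ =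
          (eng g a (k - (j + 1)) * g * (eng g a (k - (j + 1)))⁻¹ * g⁻¹) * g := by group
      rw [e2]; exact mul_mem h6 hgM
  have h7 := h5 k le_rfl
  rw [Nat.sub_self, eng_zero] at h7
  exact ha (mul_mem (mul_mem h7 hgM) (inv_mem h7))

theorem fitting_engel {G : Type*} [Group G] [Finite G] (g : G)
    (hg : g ∈ Cfsg.fittingSubgroup G) (x : G) : ∃ k : ℕ, eng g x k = 1 := by
  obtain ⟨F, hFdef⟩ : ∃ F : Subgroup G, F = Cfsg.fittingSubgroup G := ⟨_, rfl⟩
  rw [← hFdef] at hg
  have hFn : F.Normal := hFdef ▸ fitting_normal' G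
  have hnil : Group.IsNilpotent F := hFdef ▸ Cfsg.Agent.S0008.result
  obtain ⟨c, hc⟩ := (Subgroup.isNilpotent_iff_lowerCentralSeries F).mp hnil
  have key : ∀ i : ℕ, eng g x (i + 1) ∈ F.lowerCentralSeries i := by
    intro i
    induction i with
    | zero =>
      rw [eng_succ, eng_zero, Subgroup.lowerCentralSeries_zero]
      exact mul_mem (hFn.conj_mem g hg x) (inv_mem hg)
    | succ i ih =>
      rw [eng_succ, Subgroup.lowerCentralSeries_succ]
      have h1 := Subgroup.commutator_mem_commutator ih hg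
      rwa [commutatorElement_def] at h1
  refine ⟨c + 1, ?_⟩
  have h2 := key c
  rw [hc, Subgroup.mem_bot] at h2
  exact h2

theorem result {G : Type*} [Group G] [Finite G] (g : G) :
    g ∈ Cfsg.fittingSubgroup G ↔ ∀ x : G, ∃ n : ℕ, (List.replicate n g).foldl (fun a b => a * b * a⁻¹ * b⁻¹) x = 1 := by
  constructor
  · intro hg x
    exact fitting_engel g hg x
  · intro h
    exact engel_mem_fitting _ G rfl g h

end Cfsg.Agent.S3937
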