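import Cfsg.Statements.S3766
import Mathlib
import Cfsg.Agent.S3937
import Cfsg.Agent.S3939

set_option autoImplicit false
set_option linter.style.haveILetI false
open Cfsg

namespace Cfsg.Agent.S3766

open Cfsg.Agent.S3937 (fitOf fitOf_nilpotent fitOf_le le_fitOf le_normalizer_fitOf)

/-- `fitOf N` is normal in `G` when `N` is. -/
theorem fitOf_normal {G : Type*} [Group G] [Finite G] (N : Subgroup G) [N.Normal] :
    (fitOf N).Normal := by
  refine ⟨fun x hx t => ?_⟩
  have h1 := Cfsg.Agent.S3937.conj_smul_fitOf_le t N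
  rw [Subgroup.Normal.conj_smul_eq_self t N] at h1
  exact h1 (Cfsg.Agent.S3937.conj_mem_conj_smul t x _ hx)

/-- A minimal normal subgroup is centralized by every nilpotent normal subgroup. -/
theorem minNormal_centralized {X : Type*} [Group X] (U Fn : Subgroup X) [hU : U.Normal]
    [hF : Fn.Normal] [Group.IsNilpotent ↥Fn] (hU1 : U ≠ ⊥)
    (hmin : ∀ W : Subgroup X, W.Normal → W ≤ U → W = ⊥ ∨ W = U) :
    ∀ u ∈ U, ∀ f ∈ Fn, u * f = f * u := by
  intro u hu f hf
  rcases hmin (U ⊓ Fn) inferInstance inf_le_left with h | h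
  · exact Subgroup.commute_of_normal_of_disjoint U Fn hU hF (disjoint_iff.mpr h) u f hu hf
  · have hUF : U ≤ Fn := by rw [← h]; exact inf_le_right
    haveI : (U.subgroupOf Fn).Normal := hU.subgroupOf Fn
    have hne : U.subgroupOf Fn ≠ ⊥ := by
      intro h0
      apply hU1
      rw [Subgroup.subgroupOf_eq_bot] at h0
      rw [eq_bot_iff]
      intro x hx
      have : x ∈ U ⊓ Fn := ⟨hx, hUF hx⟩
      have h2 := h0.le_bot this
      exact h2
    obtain ⟨w, hw, hw1, hwc⟩ := Cfsg.Agent.S3939.normal_inf_center_ne_bot (U.subgroupOf Fn) hne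
    have hwU : (w : X) ∈ U := Subgroup.mem_subgroupOf.mp hw
    have hwC : (w : X) ∈ Subgroup.centralizer (Fn : Set X) := by
      rw [Subgroup.mem_centralizer_iff]
      intro y hy
      have := hwc ⟨y, hy⟩
      exact congrArg Subtype.val this
    rcases hmin (U ⊓ Subgroup.centralizer (Fn : Set X)) inferInstance inf_le_left with h' | h'
    · exfalso
      apply hw1
      have : (w : X) ∈ U ⊓ Subgroup.centralizer (Fn : Set X) := ⟨hwU, hwC⟩
      rw [h'] at this
      exact Subtype.ext (Subgroup.mem_bot.mp this)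
    · have huC : u ∈ Subgroup.centralizer (Fn : Set X) := by
        have : u ∈ U ⊓ Subgroup.centralizer (Fn : Set X) := by rw [h']; exact hu
        exact this.2
      rw [Subgroup.mem_centralizer_iff] at huC
      exact (huC f hf).symm

/-- The chief-factor predicate of the statement. -/
def IsChief {G : Type*} [Group G] (U V : Subgroup G) : Prop :=
  U.Normal ∧ V.Normal ∧ V < U ∧ ∀ W : Subgroup G, W.Normal → V ≤ W → W ≤ U → W = V ∨ W = U

/-- Nilpotent normal subgroups centralize chief factors. -/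
theorem centralizes_chief {G : Type*} [Group G] (Fn : Subgroup G) [hF : Fn.Normal]
    [Group.IsNilpotent ↥Fn] (U V : Subgroup G) (hc : IsChief U V) (g : G) (hg : g ∈ Fn) :
    ∀ u ∈ U, u * g * u⁻¹ * g⁻¹ ∈ V := by
  obtain ⟨hU, hV, hVU, hmin⟩ := hc
  haveI := hU
  haveI := hV
  intro u hu
  let π := QuotientGroup.mk' V
  have hπ : Function.Surjective π := QuotientGroup.mk'_surjective V
  haveI : (U.map π).Normal := Subgroup.Normal.map hU π hπ
  haveI : (Fn.map π).Normal := Subgroup.Normal.map hF π hπ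
  haveI : Group.IsNilpotent ↥(Fn.map π) :=
    Group.nilpotent_of_surjective (π.subgroupMap Fn) (MonoidHom.subgroupMap_surjective π Fn)
  have hker : ∀ x : G, π x = 1 ↔ x ∈ V := fun x => QuotientGroup.eq_one_iff x
  have hU1 : U.map π ≠ ⊥ := by
    intro h0
    apply hVU.not_ge
    intro x hx
    have : π x ∈ U.map π := Subgroup.mem_map_of_mem π hx
    rw [h0, Subgroup.mem_bot] at this
    exact (hker x).mp this
  have hmin' : ∀ W : Subgroup (G ⧸ V), W.Normal → W ≤ U.map π → W = ⊥ ∨ W = U.map π := by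
    intro W hW hWU
    have h1 : (W.comap π).Normal := hW.comap π
    have h2 : V ≤ W.comap π := by
      intro v hv
      rw [Subgroup.mem_comap, (hker v).mpr hv]
      exact one_mem W
    have h3 : W.comap π ≤ U := by
      intro x hx
      rw [Subgroup.mem_comap] at hx
      obtain ⟨u', hu', hux⟩ := Subgroup.mem_map.mp (hWU hx)
      have h4 : u'⁻¹ * x ∈ V := by
        rw [← hker, map_mul, map_inv, hux]
        simp
      have h5 : u' * (u'⁻¹ * x) ∈ U := mul_mem hu' (hVU.le h4)
      simpa using h5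
    rcases hmin _ h1 h2 h3 with h | h
    · left
      rw [eq_bot_iff]
      intro y hy
      obtain ⟨x, rfl⟩ := hπ y
      have : x ∈ W.comap π := hy
      rw [h] at this
      rw [Subgroup.mem_bot]
      exact (hker x).mpr this
    · right
      apply le_antisymm hWU
      rintro _ ⟨x, hx, rfl⟩
      have : x ∈ W.comap π := by rw [h]; exact hx
      exact this
  have key := minNormal_centralized (U.map π) (Fn.map π) hU1 hmin' (π u)
    (Subgroup.mem_map_of_mem π hu) (π g) (Subgroup.mem_map_of_mem π hg)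
  rw [← hker]
  rw [map_mul, map_mul, map_mul, map_inv, map_inv, key]
  simp

/-- The lower central series of a subgroup dies below a normal subgroup `M ≤ F` whose chief
factors are centralized by `B`. -/
theorem chain_aux {G : Type*} [Group G] [Finite G] (Fn B : Subgroup G)
    (hB : ∀ b ∈ B, ∀ U V : Subgroup G, IsChief U V → U ≤ Fn → ∀ u ∈ U, u * b * u⁻¹ * b⁻¹ ∈ V) :
    ∀ (m : ℕ) (M : Subgroup G), M.Normal → M ≤ Fn → Nat.card M ≤ m →
      ∃ k, ∀ i, B.lowerCentralSeries i ≤ M → B.lowerCentralSeries (i + k) = ⊥ := by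
  intro m
  induction m with
  | zero =>
    intro M _ _ hcard
    exfalso
    have : 0 < Nat.card M := Nat.card_pos
    omega
  | succ m ih =>
    intro M hMn hMF hcard
    by_cases hM : M = ⊥
    · refine ⟨0, fun i hi => ?_⟩
      rw [hM] at hi
      simpa using hi
    · obtain ⟨V, -, hVmax⟩ := Finite.exists_le_maximal (p := fun V : Subgroup G => V.Normal ∧ V < M)
        (a := ⊥) ⟨inferInstance, bot_lt_iff_ne_bot.mpr hM⟩
      have hVn : V.Normal := hVmax.prop.1
      have hVM : V < M := hVmax.prop.2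
      have hchief : IsChief M V := by
        refine ⟨hMn, hVn, hVM, fun W hW hVW hWM => ?_⟩
        rcases eq_or_lt_of_le hWM with h | h
        · right; exact h
        · left
          exact le_antisymm (hVmax.le_of_ge ⟨hW, h⟩ hVW) hVW
      have hcomm : ⁅M, B⁆ ≤ V := by
        rw [Subgroup.commutator_le]
        intro u hu b hb
        rw [commutatorElement_def]
        exact hB b hb M V hchief hMF u hu
      have hcardV : Nat.card V ≤ m := by
        have := Cfsg.Agent.S3937.card_lt_of_lt' hVM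
        omega
      obtain ⟨k, hk⟩ := ih V hVn (hVM.le.trans hMF) hcardV
      refine ⟨k + 1, fun i hi => ?_⟩
      have h1 : B.lowerCentralSeries (i + 1) ≤ V := by
        rw [Subgroup.lowerCentralSeries_succ]
        exact (Subgroup.commutator_mono hi le_rfl).trans hcomm
      have := hk (i + 1) h1
      have e : i + (k + 1) = i + 1 + k := by omega
      rw [e]; exact this

/-- Key step: a normal subgroup `B ≤ N` centralizing the chief factors below `F(N)` and with
`⁅B, B⁆ ≤ F(N)` lies in `F(N)`. -/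
theorem step {G : Type*} [Group G] [Finite G] (N : Subgroup G) [N.Normal] (B : Subgroup G)
    [hBn : B.Normal] (hBN : B ≤ N)
    (hB : ∀ b ∈ B, ∀ U V : Subgroup G, IsChief U V → U ≤ fitOf N →
      ∀ u ∈ U, u * b * u⁻¹ * b⁻¹ ∈ V)
    (hBB : ⁅B, B⁆ ≤ fitOf N) : B ≤ fitOf N := by
  obtain ⟨k, hk⟩ := chain_aux (fitOf N) B hB (Nat.card (fitOf N)) (fitOf N) (fitOf_normal N)
    le_rfl le_rfl
  have h1 : B.lowerCentralSeries 1 ≤ fitOf N := by
    rw [Subgroup.lowerCentralSeries_succ, Subgroup.lowerCentralSeries_zero]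
    exact hBB
  have hnil : Group.IsNilpotent ↥B :=
    (Subgroup.isNilpotent_iff_lowerCentralSeries B).mpr ⟨1 + k, hk 1 h1⟩
  apply le_fitOf hBN _ hnil
  rw [Subgroup.normalizer_eq_top]
  exact le_top

/-- Iterated derived subgroups of a subgroup. -/
def dser {G : Type*} [Group G] (C : Subgroup G) : ℕ → Subgroup G
  | 0 => C
  | (j + 1) => ⁅dser C j, dser C j⁆

theorem dser_normal {G : Type*} [Group G] (C : Subgroup G) [hC : C.Normal] :
    ∀ j, (dser C j).Normal
  | 0 => hC
  | (j + 1) => by
    haveI := dser_normal C j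
    show (⁅dser C j, dser C j⁆).Normal
    infer_instance

theorem dser_le {G : Type*} [Group G] (C : Subgroup G) [hC : C.Normal] :
    ∀ j, dser C j ≤ C
  | 0 => le_rfl
  | (j + 1) => by
    haveI := dser_normal C j
    show ⁅dser C j, dser C j⁆ ≤ C
    exact (Subgroup.commutator_le_left _ _).trans (dser_le C j)

theorem dser_le_derived {G : Type*} [Group G] (C : Subgroup G) :
    ∀ j, dser C j ≤ derivedSeries G j
  | 0 => le_top
  | (j + 1) => by
    show ⁅dser C j, dser C j⁆ ≤ ⁅derivedSeries G j, derivedSeries G j⁆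
    exact Subgroup.commutator_mono (dser_le_derived C j) (dser_le_derived C j)

theorem main_rev {G : Type*} [Group G] [Finite G] (hG : Group.IsSolvable G) (N : Subgroup G)
    [N.Normal] (g : G) (hgN : g ∈ N)
    (hg : ∀ U V : Subgroup G, IsChief U V → U ≤ fitOf N → ∀ u ∈ U, u * g * u⁻¹ * g⁻¹ ∈ V) :
    g ∈ fitOf N := by
  set C := Subgroup.normalClosure ({g} : Set G) with hCdef
  haveI hCn : C.Normal := Subgroup.normalClosure_normal
  have hCN : C ≤ N := Subgroup.normalClosure_le_normal (by simpa using hgN)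
  have hCc : ∀ b ∈ C, ∀ U V : Subgroup G, IsChief U V → U ≤ fitOf N →
      ∀ u ∈ U, u * b * u⁻¹ * b⁻¹ ∈ V := by
    intro b hb U V hc hUF
    obtain ⟨hU, hV, -, -⟩ := id hc
    -- the centralizer of the factor as a normal subgroup
    let Z : Subgroup G :=
      { carrier := {x | ∀ u ∈ U, u * x * u⁻¹ * x⁻¹ ∈ V}
        one_mem' := by
          intro u _
          simp
        mul_mem' := by
          intro x y hx hy u hu
          have h1 := hx u hu
          have h2 := hV.conj_mem _ (hy u hu) x
          have e : u * (x * y) * u⁻¹ * (x * y)⁻¹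
              = (u * x * u⁻¹ * x⁻¹) * (x * (u * y * u⁻¹ * y⁻¹) * x⁻¹) := by group
          rw [e]; exact mul_mem h1 h2
        inv_mem' := by
          intro x hx u hu
          have h1 := hV.conj_mem _ (inv_mem (hx u hu)) x⁻¹
          have e : u * x⁻¹ * u⁻¹ * x⁻¹⁻¹ = x⁻¹ * (u * x * u⁻¹ * x⁻¹)⁻¹ * x⁻¹⁻¹ := by group
          rw [e]; exact h1 }
    have hZn : Z.Normal := by
      refine ⟨fun x hx t u hu => ?_⟩
      have h1 : t⁻¹ * u * t⁻¹⁻¹ ∈ U := hU.conj_mem u hu t⁻¹
      have h2 := hV.conj_mem _ (hx _ h1) t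
      have e : u * (t * x * t⁻¹) * u⁻¹ * (t * x * t⁻¹)⁻¹
          = t * (t⁻¹ * u * t⁻¹⁻¹ * x * (t⁻¹ * u * t⁻¹⁻¹)⁻¹ * x⁻¹) * t⁻¹ := by group
      rw [e]; exact h2
    have hCZ : C ≤ Z := by
      haveI := hZn
      apply Subgroup.normalClosure_le_normal
      intro x hx
      rw [Set.mem_singleton_iff] at hx
      subst hx
      exact hg U V hc hUF
    exact hCZ hb
  obtain ⟨n, hn⟩ := hG.solvable
  have hdown : ∀ d j, j + d = n → dser C j ≤ fitOf N := by
    intro d
    induction d with
    | zero =>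
      intro j hj
      have h1 := dser_le_derived C j
      rw [Nat.add_zero] at hj
      subst hj
      rw [hn] at h1
      exact h1.trans bot_le
    | succ d ih =>
      intro j hj
      have h1 : dser C (j + 1) ≤ fitOf N := ih (j + 1) (by omega)
      haveI := dser_normal C j
      exact step N (dser C j) ((dser_le C j).trans hCN)
        (fun b hb => hCc b (dser_le C j hb)) h1
  have h0 := hdown n 0 (by omega)
  exact h0 (Subgroup.subset_normalClosure (Set.mem_singleton g))

/-- Let G be a finite solvable group and N a normal subgroup of G. Call a pair V < U of normal subgroups of G a chief factor of G when no normal subgroup of G lies strictly between them; an element g centralizes the chief factor U/V when u g u⁻¹ g⁻¹ ∈ V for all u ∈ U. Then an element of G lies in the Fitting subgroup F(N) if and only if it lies in N and centralizes every chief factor of G; and also if and only if it lies in N and centralizes every chief factor U/V of G with U ≤ F(N). -/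
theorem result {G : Type*} [Group G] [Finite G] (hG : Group.IsSolvable G) (N : Subgroup G) [N.Normal] (g : G) : (g ∈ (Cfsg.fittingSubgroup ↥N).map N.subtype ↔ g ∈ N ∧ ∀ U V : Subgroup G, (U.Normal ∧ V.Normal ∧ V < U ∧ ∀ W : Subgroup G, W.Normal → V ≤ W → W ≤ U → W = V ∨ W = U) → ∀ u ∈ U, u * g * u⁻¹ * g⁻¹ ∈ V) ∧ (g ∈ (Cfsg.fittingSubgroup ↥N).map N.subtype ↔ g ∈ N ∧ ∀ U V : Subgroup G, (U.Normal ∧ V.Normal ∧ V < U ∧ ∀ W : Subgroup G, W.Normal → V ≤ W → W ≤ U → W = V ∨ W = U) → U ≤ (Cfsg.fittingSubgroup ↥N).map N.subtype → ∀ u ∈ U, u * g * u⁻¹ * g⁻¹ ∈ V) := by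
  haveI hFn : (fitOf N).Normal := fitOf_normal N
  haveI : Group.IsNilpotent ↥(fitOf N) := fitOf_nilpotent N
  have fwd : g ∈ fitOf N → ∀ U V : Subgroup G, IsChief U V → ∀ u ∈ U, u * g * u⁻¹ * g⁻¹ ∈ V :=
    fun hgF U V hc => centralizes_chief (fitOf N) U V hc g hgF
  refine ⟨⟨fun h => ⟨fitOf_le N h, fun U V hc => fwd h U V hc⟩, fun h => ?_⟩,
    ⟨fun h => ⟨fitOf_le N h, fun U V hc _ => fwd h U V hc⟩, fun h => ?_⟩⟩
  · exact main_rev hG N g h.1 (fun U V hc _ => h.2 U V hc)
  · exact main_rev hG N g h.1 (fun U V hc hUF => h.2 U V hc hUF)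

end Cfsg.Agent.S3766
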