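import Cfsg.Statements.S3802
import Mathlib

set_option autoImplicit false
open Cfsg

namespace Cfsg.Agent.S3802

universe u

theorem mem_cj {G : Type*} [Group G] (H : Subgroup G) (g y : G) :
    y ∈ H.map (MulAut.conj g).toMonoidHom ↔ g⁻¹ * y * g ∈ H := by
  constructor
  · rintro ⟨h, hh, rfl⟩
    simpa [MulAut.conj_apply, mul_assoc] using hh
  · intro hy
    refine ⟨g⁻¹ * y * g, hy, ?_⟩
    simp [MulAut.conj_apply, mul_assoc]

theorem card_lt_of_ne_top' {G : Type*} [Group G] [Finite G] {L : Subgroup G} (hL : L ≠ ⊤) :
    Nat.card L < Nat.card G := by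
  by_contra h
  push Not at h
  exact hL (Subgroup.eq_top_of_le_card L h)

theorem card_quotient_lt' {G : Type*} [Group G] [Finite G] {M : Subgroup G} (hM : M ≠ ⊥) :
    Nat.card (G ⧸ M) < Nat.card G := by
  rw [← Subgroup.index_eq_card, ← Subgroup.card_mul_index M]
  have h1 : 1 < Nat.card M := by
    rw [Subgroup.one_lt_card_iff_ne_bot]
    exact hM
  have hpos : 0 < M.index := Nat.pos_of_ne_zero Subgroup.index_ne_zero_of_finite
  nlinarith

/-- A minimal normal subgroup normalizes every subnormal subgroup. -/
theorem minNormal_le_normalizer : ∀ (n : ℕ) (G : Type u) [Group G] [Finite G], Nat.card G = n →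
    ∀ (H : Subgroup G), H.IsSubnormal → ∀ (A : Subgroup G), A.Normal → A ≠ ⊥ →
    (∀ B : Subgroup G, B.Normal → B ≤ A → B = ⊥ ∨ B = A) →
    A ≤ Subgroup.normalizer (H : Set G) := by
  intro n
  induction n using Nat.strong_induction_on with
  | _ n ih =>
    intro G _ _ hn H hH A hAn hA1 hAmin
    rcases hH.lt_normal with rfl | ⟨K, hKn, hHK, hKtop⟩
    · intro a _
      rw [Subgroup.mem_normalizer_iff]
      intro h
      simp
    · have hAK : (A ⊓ K).Normal := Subgroup.normal_inf_normal A K
      rcases hAmin (A ⊓ K) hAK inf_le_left with h0 | h1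
      · intro a ha
        have hcomm : ∀ k ∈ K, a * k = k * a := fun k hk =>
          Subgroup.commute_of_normal_of_disjoint A K hAn hKn (disjoint_iff.mpr h0) a k ha hk
        rw [Subgroup.mem_normalizer_iff]
        intro h
        constructor
        · intro hh
          have : a * h * a⁻¹ = h := by rw [hcomm h (hHK hh)]; group
          rwa [this]
        · intro hh
          have h2 := hcomm _ (hHK hh)
          have h3 : a * (a * h * a⁻¹) = a * h := by rw [h2]; group
          have : h = a * h * a⁻¹ := (mul_left_cancel h3).symm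
          rw [this]; exact hh
      · have hAleK : A ≤ K := inf_eq_left.mp h1
        let 𝒮 : Set (Subgroup ↥K) := {B | B.Normal ∧ B ≠ ⊥ ∧ B ≤ A.subgroupOf K}
        have hA'n : (A.subgroupOf K).Normal := hAn.subgroupOf K
        have hA'1 : A.subgroupOf K ≠ ⊥ := by
          intro h
          apply hA1
          rw [Subgroup.subgroupOf_eq_bot] at h
          exact h.eq_bot_of_le hAleK
        obtain ⟨M₁, ⟨hM₁n, hM₁1, hM₁A⟩, hM₁min⟩ :=
          (Set.toFinite 𝒮).exists_minimal ⟨A.subgroupOf K, hA'n, hA'1, le_rfl⟩
        have hM₁min' : ∀ B : Subgroup ↥K, B.Normal → B ≤ M₁ → B = ⊥ ∨ B = M₁ := by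
          intro B hBn hBle
          by_cases hB : B = ⊥
          · exact Or.inl hB
          · exact Or.inr (le_antisymm hBle (hM₁min ⟨hBn, hB, hBle.trans hM₁A⟩ hBle))
        have hKlt : Nat.card ↥K < n := by rw [← hn]; exact card_lt_of_ne_top' hKtop.ne
        have hconj : ∀ (m : ↥K), m ∈ M₁ → ∀ g : G,
            g * (m : G) * g⁻¹ ∈ Subgroup.normalizer (H : Set G) := by
          intro m hm g
          have hsub : (H.map (MulAut.conj g⁻¹).toMonoidHom).IsSubnormal :=
            hH.map (MulAut.conj g⁻¹).surjective
          have hle := ih _ hKlt ↥K rfl ((H.map (MulAut.conj g⁻¹).toMonoidHom).subgroupOf K)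
            hsub.subgroupOf M₁ hM₁n hM₁1 hM₁min'
          have hm' := hle hm
          rw [Subgroup.mem_normalizer_iff] at hm' ⊢
          have key : ∀ k : ↥K, (g * (k : G) * g⁻¹ ∈ H) ↔
              (g * ((m : G) * (k : G) * (m : G)⁻¹) * g⁻¹ ∈ H) := by
            intro k
            have := hm' k
            rw [Subgroup.mem_subgroupOf, Subgroup.mem_subgroupOf, mem_cj, mem_cj, inv_inv] at this
            simpa using this
          intro h
          have hgm : g * (m : G) * g⁻¹ ∈ K := hKn.conj_mem _ m.2 g
          have e1 : g * (g⁻¹ * h * g) * g⁻¹ = h := by group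
          have e2 : g * ((m : G) * (g⁻¹ * h * g) * (m : G)⁻¹) * g⁻¹
              = g * (m : G) * g⁻¹ * h * (g * (m : G) * g⁻¹)⁻¹ := by group
          constructor
          · intro hh
            have hk : g⁻¹ * h * g ∈ K := by
              have := hKn.conj_mem _ (hHK hh) g⁻¹
              simpa using this
            have hkey := key ⟨g⁻¹ * h * g, hk⟩
            rw [e1, e2] at hkey
            exact hkey.mp hh
          · intro hh
            have hhK : h ∈ K := by
              have h1 := hHK hh
              have h2 := K.mul_mem (K.mul_mem (K.inv_mem hgm) h1) hgm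
              have e3 : (g * (m : G) * g⁻¹)⁻¹ * (g * (m : G) * g⁻¹ * h * (g * (m : G) * g⁻¹)⁻¹)
                  * (g * (m : G) * g⁻¹) = h := by group
              rwa [e3] at h2
            have hk : g⁻¹ * h * g ∈ K := by
              have := hKn.conj_mem _ hhK g⁻¹
              simpa using this
            have hkey := key ⟨g⁻¹ * h * g, hk⟩
            rw [e1, e2] at hkey
            exact hkey.mpr hh
        obtain ⟨S, hSdef⟩ : ∃ S : Set G, S = ((M₁.map K.subtype : Subgroup G) : Set G) := ⟨_, rfl⟩
        have hSA : S ⊆ A := by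
          rw [hSdef]
          rintro x ⟨m, hm, rfl⟩
          exact Subgroup.mem_subgroupOf.mp (hM₁A hm)
        have hB_le_A : Subgroup.normalClosure S ≤ A := Subgroup.normalClosure_le_normal hSA
        have hB_ne : Subgroup.normalClosure S ≠ ⊥ := by
          intro h
          apply hM₁1
          rw [Subgroup.eq_bot_iff_forall]
          intro m hm
          have : (m : G) ∈ Subgroup.normalClosure S :=
            Subgroup.subset_normalClosure (by rw [hSdef]; exact ⟨m, hm, rfl⟩)
          rw [h, Subgroup.mem_bot] at this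
          exact Subtype.ext this
        have hBA : Subgroup.normalClosure S = A :=
          (hAmin _ Subgroup.normalClosure_normal hB_le_A).resolve_left hB_ne
        rw [← hBA]
        show Subgroup.closure (Group.conjugatesOfSet S) ≤ _
        rw [Subgroup.closure_le]
        intro x hx
        rw [Group.mem_conjugatesOfSet_iff] at hx
        obtain ⟨b, hb, hconjb⟩ := hx
        rw [hSdef] at hb
        obtain ⟨m, hm, rfl⟩ := hb
        obtain ⟨c, hc⟩ := isConj_iff.mp hconjb
        rw [← hc]
        exact hconj m hm c

theorem main : ∀ (n : ℕ) (G : Type u) [Group G] [Finite G], Nat.card G = n →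
    ∀ (M N : Subgroup G), IsCoatom M → N.IsSubnormal → N ≤ M → N ≤ M.normalCore := by
  intro n
  induction n using Nat.strong_induction_on with
  | _ n ih =>
    intro G _ _ hn M N hM hN hNM
    have hnt : (⊤ : Subgroup G) ≠ ⊥ := by
      intro h
      apply hM.1
      exact le_antisymm le_top (h ▸ bot_le)
    let 𝒮 : Set (Subgroup G) := {B | B.Normal ∧ B ≠ ⊥}
    obtain ⟨A, ⟨hAn, hA1⟩, hAmin⟩ := (Set.toFinite 𝒮).exists_minimal ⟨⊤, inferInstance, hnt⟩
    have hAmin' : ∀ B : Subgroup G, B.Normal → B ≤ A → B = ⊥ ∨ B = A := by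
      intro B hBn hBle
      by_cases hB : B = ⊥
      · exact Or.inl hB
      · exact Or.inr (le_antisymm hBle (hAmin ⟨hBn, hB⟩ hBle))
    by_cases hAM : A ≤ M
    · have hlt : Nat.card (G ⧸ A) < n := by rw [← hn]; exact card_quotient_lt' hA1
      have hsurj := QuotientGroup.mk'_surjective A
      have hker : (QuotientGroup.mk' A).ker ≤ M := by rw [QuotientGroup.ker_mk']; exact hAM
      have hcm : (M.map (QuotientGroup.mk' A)).comap (QuotientGroup.mk' A) = M :=
        Subgroup.comap_map_eq_self hker
      have hMq : IsCoatom (M.map (QuotientGroup.mk' A)) := by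
        constructor
        · intro h
          apply hM.1
          rw [← hcm, h, Subgroup.comap_top]
        · intro B hB
          have h1 : M ≤ B.comap (QuotientGroup.mk' A) := by
            rw [← Subgroup.map_le_iff_le_comap]; exact hB.le
          have h2 : B.comap (QuotientGroup.mk' A) ≠ M := by
            intro h
            have := congrArg (Subgroup.map (QuotientGroup.mk' A)) h
            rw [Subgroup.map_comap_eq_self_of_surjective hsurj] at this
            exact hB.ne this.symm
          have h3 := hM.2 _ (lt_of_le_of_ne h1 (Ne.symm h2))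
          rw [← Subgroup.map_comap_eq_self_of_surjective hsurj B, h3,
            Subgroup.map_top_of_surjective _ hsurj]
      have hNq := ih _ hlt (G ⧸ A) rfl (M.map (QuotientGroup.mk' A)) (N.map (QuotientGroup.mk' A))
        hMq (hN.map hsurj) (Subgroup.map_mono hNM)
      intro x hx g
      have h1 : (QuotientGroup.mk' A) x ∈ (M.map (QuotientGroup.mk' A)).normalCore :=
        hNq ⟨x, hx, rfl⟩
      have h2 := h1 ((QuotientGroup.mk' A) g)
      rw [← map_inv, ← map_mul, ← map_mul] at h2
      have h3 : g * x * g⁻¹ ∈ (M.map (QuotientGroup.mk' A)).comap (QuotientGroup.mk' A) := h2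
      rwa [hcm] at h3
    · have htop : M ⊔ A = ⊤ :=
        hM.2 _ (lt_of_le_of_ne le_sup_left (fun h => hAM (by rw [h]; exact le_sup_right)))
      have hAN := minNormal_le_normalizer _ G rfl N hN A hAn hA1 hAmin'
      intro x hx g
      have hg : g ∈ ((M ⊔ A : Subgroup G) : Set G) := by rw [htop]; trivial
      rw [Subgroup.mul_normal] at hg
      obtain ⟨m, hm, a, ha, rfl⟩ := Set.mem_mul.mp hg
      have h1 : a * x * a⁻¹ ∈ N := ((Subgroup.mem_normalizer_iff.mp (hAN ha)) x).mp hx
      have h2 : m * (a * x * a⁻¹) * m⁻¹ ∈ M := M.mul_mem (M.mul_mem hm (hNM h1)) (M.inv_mem hm)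
      have e : m * a * x * (m * a)⁻¹ = m * (a * x * a⁻¹) * m⁻¹ := by group
      rw [e]
      exact h2

/-- Let G be a finite group, M a maximal subgroup of G and N a subnormal subgroup of G contained in M. Then N is contained in every conjugate of M, that is, N lies in the core of M in G. -/
theorem result {G : Type*} [Group G] [Finite G] (M N : Subgroup G) (hM : IsCoatom M) (hN : N.IsSubnormal) (hNM : N ≤ M) :
    N ≤ Subgroup.normalCore M :=
  main _ G rfl M N hM hN hNM

end Cfsg.Agent.S3802
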