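import Cfsg.Statements.S3815
import Mathlib

set_option autoImplicit false
open Cfsg

namespace Cfsg.Agent.S3815

/-- the set of "p'-translating" elements as a subgroup -/
def transSub {G : Type*} [Group G] [Finite G] (p : ℕ) : Subgroup G where
  carrier := {d | ∀ g : G, (orderOf g).Coprime p → (orderOf (d * g)).Coprime p}
  one_mem' := by
    intro g hg
    simpa using hg
  mul_mem' := by
    intro a b ha hb g hg
    rw [mul_assoc]
    exact ha _ (hb g hg)
  inv_mem' := by
    intro a ha
    have hpow : ∀ k : ℕ, ∀ g : G, (orderOf g).Coprime p → (orderOf (a ^ k * g)).Coprime p := by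
      intro k
      induction k with
      | zero => intro g hg; simpa using hg
      | succ k ih =>
        intro g hg
        rw [pow_succ, mul_assoc]
        exact ih _ (ha g hg)
    have hinv : a⁻¹ = a ^ (orderOf a - 1) := by
      have hpos : 0 < orderOf a := orderOf_pos a
      rw [eq_comm, ← mul_eq_one_iff_eq_inv', ← pow_succ']
      rw [show orderOf a - 1 + 1 = orderOf a by omega]
      exact pow_orderOf_eq_one a
    intro g hg
    show (orderOf (a⁻¹ * g)).Coprime p
    rw [hinv]
    exact hpow _ g hg

theorem transSub_normal {G : Type*} [Group G] [Finite G] (p : ℕ) : (transSub (G := G) p).Normal := by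
  constructor
  intro a ha n g hg
  have h1 : n * a * n⁻¹ * g = MulAut.conj n (a * (n⁻¹ * g * n)) := by
    simp [MulAut.conj_apply, mul_assoc]
  have h2 : orderOf (n⁻¹ * g * n) = orderOf g := by
    have : n⁻¹ * g * n = MulAut.conj n⁻¹ g := by simp [MulAut.conj_apply]
    rw [this, MulEquiv.orderOf_eq]
  show (orderOf (n * a * n⁻¹ * g)).Coprime p
  rw [h1, MulEquiv.orderOf_eq]
  exact ha _ (h2 ▸ hg)

/-- Let G be a finite group, p a prime and d ∈ G an element of order prime to p. If dg has order prime to p for every element g ∈ G of order prime to p, then d ∈ O_{p'}(G). -/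
theorem result {G : Type*} [Group G] [Finite G] {p : ℕ} [Fact p.Prime]
    (d : G) (hd : (orderOf d).Coprime p)
    (h : ∀ g : G, (orderOf g).Coprime p → (orderOf (d * g)).Coprime p) :
    d ∈ Cfsg.pPrimeCore p G := by
  have hp : p.Prime := Fact.out
  have hdT : d ∈ transSub (G := G) p := h
  have hcop : (Nat.card (transSub (G := G) p)).Coprime p := by
    rw [Nat.coprime_comm, Nat.Prime.coprime_iff_not_dvd hp]
    intro hdvd
    obtain ⟨x, hx⟩ := exists_prime_orderOf_dvd_card' p hdvd
    have hx' : orderOf (x : G) = p := by rw [Subgroup.orderOf_coe]; exact hx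
    have h1 : (orderOf ((x : G) * 1)).Coprime p := x.2 1 (by simp)
    rw [mul_one, hx'] at h1
    exact hp.one_lt.ne' ((Nat.coprime_self p).mp h1)
  have hle : transSub (G := G) p ≤ Cfsg.pPrimeCore p G :=
    le_sSup ⟨transSub_normal p, hcop⟩
  exact hle hdT

end Cfsg.Agent.S3815
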