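import Cfsg.Statements.S3820
import Mathlib

set_option autoImplicit false
open Cfsg

namespace Cfsg.Agent.S3820

theorem mem_cj {G : Type*} [Group G] (H : Subgroup G) (g y : G) :
    y ∈ H.map (MulAut.conj g).toMonoidHom ↔ g⁻¹ * y * g ∈ H := by
  constructor
  · rintro ⟨h, hh, rfl⟩
    simpa [MulAut.conj_apply, mul_assoc] using hh
  · intro hy
    refine ⟨g⁻¹ * y * g, hy, ?_⟩
    simp [MulAut.conj_apply, mul_assoc]

theorem cj_mul {G : Type*} [Group G] (H : Subgroup G) (a b : G) :
    H.map (MulAut.conj (a * b)).toMonoidHom =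
      (H.map (MulAut.conj b).toMonoidHom).map (MulAut.conj a).toMonoidHom := by
  ext y
  simp only [mem_cj]
  simp [mul_assoc]

theorem cj_le_of_mem {G : Type*} [Group G] (H J : Subgroup G) (x : G) (hx : x ∈ J) (hH : H ≤ J) :
    H.map (MulAut.conj x).toMonoidHom ≤ J := by
  intro y hy
  rw [mem_cj] at hy
  have := J.mul_mem (J.mul_mem hx (hH hy)) (J.inv_mem hx)
  simpa [mul_assoc] using this

/-- Call a subgroup H of G pronormal if H and gHg⁻¹ are conjugate inside ⟨H, gHg⁻¹⟩ for every g ∈ G. Let S ≤ H ≤ G be subgroups of a finite group with S pronormal in G (for instance S a Sylow subgroup). Then H is pronormal in G if and only if H and gHg⁻¹ are conjugate inside ⟨H, gHg⁻¹⟩ for every g ∈ N_G(S). In particular H is pronormal whenever N_G(S) ≤ H. -/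
theorem result {G : Type*} [Group G] [Finite G] (S H : Subgroup G) (hSH : S ≤ H)
    (hS : Cfsg.IsPronormal S) :
    Cfsg.IsPronormal H ↔
      ∀ g ∈ Subgroup.normalizer (S : Set G), ∃ w ∈ H ⊔ H.map (MulAut.conj g).toMonoidHom,
        H.map (MulAut.conj g).toMonoidHom = H.map (MulAut.conj w).toMonoidHom := by
  constructor
  · intro hH g _
    exact hH g
  · intro h g
    obtain ⟨x, hx, hSx⟩ := hS g
    -- n = x⁻¹ g normalizes S
    have key : S.map (MulAut.conj (x⁻¹ * g)).toMonoidHom = S := by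
      rw [cj_mul, hSx, ← cj_mul]
      ext y
      rw [mem_cj]
      simp
    have hn : x⁻¹ * g ∈ Subgroup.normalizer (S : Set G) := by
      rw [Subgroup.mem_normalizer_iff_map_conj_eq]
      exact key
    obtain ⟨w, hw, hHw⟩ := h _ hn
    set J := H ⊔ H.map (MulAut.conj g).toMonoidHom with hJ
    have hxJ : x ∈ J := by
      have hle : S ⊔ S.map (MulAut.conj g).toMonoidHom ≤ J :=
        sup_le_sup hSH (Subgroup.map_mono hSH)
      exact hle hx
    have hwJ : w ∈ J := by
      have hle : H ⊔ H.map (MulAut.conj (x⁻¹ * g)).toMonoidHom ≤ J := by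
        refine sup_le le_sup_left ?_
        rw [cj_mul]
        exact cj_le_of_mem _ J x⁻¹ (J.inv_mem hxJ) le_sup_right
      exact hle hw
    refine ⟨x * w, J.mul_mem hxJ hwJ, ?_⟩
    rw [cj_mul H x w, ← hHw, ← cj_mul]
    congr 3
    group

end Cfsg.Agent.S3820
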