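import Cfsg.Statements.S3821
import Mathlib

set_option autoImplicit false
open Cfsg
open scoped Pointwise

namespace Cfsg.Agent.S3821

theorem mem_cj {G : Type*} [Group G] (H : Subgroup G) (g y : G) :
    y ∈ H.map (MulAut.conj g).toMonoidHom ↔ g⁻¹ * y * g ∈ H := by
  constructor
  · rintro ⟨h, hh, rfl⟩
    simpa [MulAut.conj_apply, mul_assoc] using hh
  · intro hy
    refine ⟨g⁻¹ * y * g, hy, ?_⟩
    simp [MulAut.conj_apply, mul_assoc]

theorem cj_mul {G : Type*} [Group G] (H : Subgroup G) (a b : G) :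
    H.map (MulAut.conj (a * b)).toMonoidHom =
      (H.map (MulAut.conj b).toMonoidHom).map (MulAut.conj a).toMonoidHom := by
  ext y
  simp only [mem_cj]
  simp [mul_assoc]

theorem cj_le_of_mem {G : Type*} [Group G] (H J : Subgroup G) (x : G) (hx : x ∈ J) (hH : H ≤ J) :
    H.map (MulAut.conj x).toMonoidHom ≤ J := by
  intro y hy
  rw [mem_cj] at hy
  have := J.mul_mem (J.mul_mem hx (hH hy)) (J.inv_mem hx)
  simpa [mul_assoc] using this

theorem cj_subgroupOf {G : Type*} [Group G] (A H : Subgroup G) (a : A) :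
    (H.subgroupOf A).map (MulAut.conj a).toMonoidHom =
      (H.map (MulAut.conj (a : G)).toMonoidHom).subgroupOf A := by
  ext y
  rw [mem_cj, Subgroup.mem_subgroupOf, Subgroup.mem_subgroupOf, mem_cj]
  simp

theorem mem_normalizer_of_cj_eq {G : Type*} [Group G] (H : Subgroup G) (g x : G)
    (h : H.map (MulAut.conj g).toMonoidHom = H.map (MulAut.conj x).toMonoidHom) :
    x⁻¹ * g ∈ Subgroup.normalizer (H : Set G) := by
  have key : H.map (MulAut.conj (x⁻¹ * g)).toMonoidHom = H := by
    rw [cj_mul, h, ← cj_mul]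
    ext y
    rw [mem_cj]
    simp
  rw [Subgroup.mem_normalizer_iff_map_conj_eq]
  exact key

/-- Let A be a normal subgroup of the finite group G and H a subgroup of A. Then H is pronormal in G (H and gHg⁻¹ conjugate inside ⟨H, gHg⁻¹⟩ for every g ∈ G) if and only if H is pronormal in A and G = A · N_G(H). -/
theorem result {G : Type*} [Group G] [Finite G] (A H : Subgroup G) [A.Normal] (hHA : H ≤ A) :
    Cfsg.IsPronormal H ↔ (Cfsg.IsPronormal (H.subgroupOf A) ∧ A ⊔ Subgroup.normalizer (H : Set G) = ⊤) := by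
  have hcjA : ∀ g : G, H.map (MulAut.conj g).toMonoidHom ≤ A := by
    intro g y hy
    rw [mem_cj] at hy
    have h1 : g⁻¹ * y * g ∈ A := hHA hy
    have h2 := (inferInstance : A.Normal).conj_mem _ h1 g
    simpa [mul_assoc] using h2
  constructor
  · intro hH
    refine ⟨?_, ?_⟩
    · intro a
      obtain ⟨x, hx, hxe⟩ := hH (a : G)
      have hxA : x ∈ A := (sup_le hHA (hcjA _)) hx
      refine ⟨⟨x, hxA⟩, ?_, ?_⟩
      · rw [cj_subgroupOf, ← Subgroup.subgroupOf_sup hHA (hcjA _)]
        exact hx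
      · rw [cj_subgroupOf, cj_subgroupOf]
        simp only [hxe]
    · rw [eq_top_iff]
      intro g _
      obtain ⟨x, hx, hxe⟩ := hH g
      have hxA : x ∈ A := (sup_le hHA (hcjA _)) hx
      have hn := mem_normalizer_of_cj_eq H g x hxe
      have : g = x * (x⁻¹ * g) := by group
      rw [this]
      exact Subgroup.mul_mem_sup hxA hn
  · rintro ⟨hHA', htop⟩ g
    have hg : g ∈ A ⊔ Subgroup.normalizer (H : Set G) := htop ▸ Subgroup.mem_top g
    have hg' : g ∈ (A : Set G) * (Subgroup.normalizer (H : Set G) : Set G) := by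
      rw [← Subgroup.normal_mul]
      exact hg
    obtain ⟨a, ha, n, hn, rfl⟩ := hg'
    have hn' : H.map (MulAut.conj n).toMonoidHom = H := by
      have := (Subgroup.mem_normalizer_iff_map_conj_eq).mp hn
      exact this
    have hga : H.map (MulAut.conj (a * n)).toMonoidHom = H.map (MulAut.conj a).toMonoidHom := by
      rw [cj_mul, hn']
    obtain ⟨x, hx, hxe⟩ := hHA' ⟨a, ha⟩
    rw [cj_subgroupOf, ← Subgroup.subgroupOf_sup hHA (hcjA _)] at hx
    rw [cj_subgroupOf, cj_subgroupOf] at hxe
    have hxe' : H.map (MulAut.conj a).toMonoidHom = H.map (MulAut.conj (x : G)).toMonoidHom := by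
      have h1 := congrArg (Subgroup.map A.subtype) hxe
      rw [Subgroup.map_subgroupOf_eq_of_le (hcjA _), Subgroup.map_subgroupOf_eq_of_le (hcjA _)] at h1
      exact h1
    refine ⟨(x : G), ?_, ?_⟩
    · rw [hga]
      exact hx
    · rw [hga]
      exact hxe'

end Cfsg.Agent.S3821
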