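import Cfsg.Statements.S3825
import Mathlib

set_option autoImplicit false
open Cfsg

namespace Cfsg.Agent.S3825

theorem cyclic_of_card_le_three {G : Type*} [Group G] [Finite G] (h : Nat.card G ≤ 3) :
    IsCyclic G := by
  have hpos : 0 < Nat.card G := Nat.card_pos
  interval_cases hc : Nat.card G
  · have : Subsingleton G := (Nat.card_eq_one_iff_unique.mp hc).1
    exact isCyclic_of_subsingleton
  · have : Fact (Nat.Prime 2) := ⟨Nat.prime_two⟩
    exact isCyclic_of_prime_card hc
  · have : Fact (Nat.Prime 3) := ⟨Nat.prime_three⟩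
    exact isCyclic_of_prime_card hc

/-- Let U be a subgroup of a finite group H and w an involution of H normalizing U and commuting with exactly two elements of U, the identity and y. If V is a non-cyclic elementary abelian 2-subgroup of U containing y which is normal in U and invariant under w, then V is a Sylow 2-subgroup of U, V has order 4, and U/V is abelian. -/
theorem result {H : Type*} [Group H] [Finite H] (U : Subgroup H) (w : H) (hw : orderOf w = 2)
    (hwU : w ∈ Subgroup.normalizer (U : Set H)) (y : H) (hy : y ≠ 1) (hyU : y ∈ U)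
    (hfix : ∀ u ∈ U, w * u * w⁻¹ = u ↔ (u = 1 ∨ u = y))
    (V : Subgroup H) (hVU : V ≤ U) (hVn : (V.subgroupOf U).Normal) (hVw : ∀ v ∈ V, w * v * w⁻¹ ∈ V)
    (hVe : Cfsg.IsElementaryAbelian 2 V) (hVc : ¬ IsCyclic ↥V) (hyV : y ∈ V) :
    ¬ 2 ∣ V.relIndex U ∧ Nat.card ↥V = 4 ∧ ⁅U, U⁆ ≤ V := by
  classical
  have hw2 : w * w = 1 := by rw [← sq, ← hw, pow_orderOf_eq_one]
  have hwinv : w⁻¹ = w := inv_eq_of_mul_eq_one_left hw2
  have hww' : ∀ x : H, w * (w * x) = x := fun x => by rw [← mul_assoc, hw2, one_mul]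
  rw [hwinv] at hfix
  have hVw' : ∀ v ∈ V, w * v * w ∈ V := fun v hv => by have := hVw v hv; rwa [hwinv] at this
  have hN : ∀ u ∈ U, w * u * w ∈ U := fun u hu => by
    have := (Subgroup.mem_normalizer_iff.mp hwU u).mp hu
    rwa [hwinv] at this
  obtain ⟨hVcomm, hVexp⟩ := hVe
  have hcomm : ∀ a ∈ V, ∀ b ∈ V, a * b = b * a := fun a ha b hb => by
    have := (isMulCommutative_iff.mp hVcomm) ⟨a, ha⟩ ⟨b, hb⟩
    exact congrArg Subtype.val this
  have hsq : ∀ v ∈ V, v * v = 1 := fun v hv => by rw [← sq]; exact hVexp v hv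
  have hinv : ∀ v ∈ V, v⁻¹ = v := fun v hv => inv_eq_of_mul_eq_one_left (hsq v hv)
  have hs_mul : ∀ a b : H, w * (a * b) * w = (w * a * w) * (w * b * w) := fun a b => by
    simp [mul_assoc, hww']
  have hs_invol : ∀ a : H, w * (w * a * w) * w = a := fun a => by
    simp [mul_assoc, hww', hw2]
  -- fixed points in V
  have hfixV : ∀ v ∈ V, w * v * w = v → v = 1 ∨ v = y := fun v hv h => (hfix v (hVU hv)).mp h
  -- τ(v) is fixed
  have hτ : ∀ v ∈ V, v * (w * v * w) = 1 ∨ v * (w * v * w) = y := by
    intro v hv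
    have h1 : v * (w * v * w) ∈ V := V.mul_mem hv (hVw' v hv)
    apply hfixV _ h1
    rw [hs_mul, hs_invol]
    exact hcomm _ (hVw' v hv) _ hv
  have hτ1 : ∀ v ∈ V, v * (w * v * w) = 1 → v = 1 ∨ v = y := by
    intro v hv h
    apply hfixV v hv
    have : w * v * w = v⁻¹ := (inv_eq_of_mul_eq_one_right h).symm
    rw [this, hinv v hv]
  -- existence of v₁
  have hex : ∃ v₁ ∈ V, v₁ * (w * v₁ * w) = y := by
    by_contra hne
    push Not at hne
    apply hVc
    apply cyclic_of_card_le_three
    have hsub : (V : Set H) ⊆ (({1, y} : Finset H) : Set H) := by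
      intro v hv
      simp only [Finset.coe_insert, Finset.coe_singleton, Set.mem_insert_iff,
        Set.mem_singleton_iff]
      rcases hτ v hv with h | h
      · exact hτ1 v hv h
      · exact absurd h (hne v hv)
    calc Nat.card ↥V = (V : Set H).ncard := rfl
      _ ≤ ((({1, y} : Finset H) : Set H)).ncard :=
          Set.ncard_le_ncard hsub (Finset.finite_toSet _)
      _ = ({1, y} : Finset H).card := Set.ncard_coe_finset _
      _ ≤ 2 := Finset.card_le_two
      _ ≤ 3 := by norm_num
  obtain ⟨v₁, hv₁, hv₁y⟩ := hex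
  have hv₁s : w * v₁ * w = v₁ * y := by
    have : w * v₁ * w = v₁⁻¹ * y := by rw [← hv₁y]; group
    rw [this, hinv v₁ hv₁]
  have hVsub : (V : Set H) ⊆ (({1, y, v₁, v₁ * y} : Finset H) : Set H) := by
    intro v hv
    simp only [Finset.coe_insert, Finset.coe_singleton, Set.mem_insert_iff,
      Set.mem_singleton_iff]
    rcases hτ v hv with h | h
    · rcases hτ1 v hv h with h' | h'
      · exact Or.inl h'
      · exact Or.inr (Or.inl h')
    · have h2 : (v * v₁) * (w * (v * v₁) * w) = 1 := by
        rw [hs_mul]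
        have e1 : v * v₁ * (w * v * w * (w * v₁ * w)) = (v * (w * v * w)) * (v₁ * (w * v₁ * w)) := by
          have := hcomm v₁ hv₁ (w * v * w) (hVw' v hv)
          calc v * v₁ * (w * v * w * (w * v₁ * w)) = v * (v₁ * (w * v * w)) * (w * v₁ * w) := by group
            _ = v * ((w * v * w) * v₁) * (w * v₁ * w) := by rw [this]
            _ = (v * (w * v * w)) * (v₁ * (w * v₁ * w)) := by group
        rw [e1, h, hv₁y, hsq y hyV]
      rcases hτ1 _ (V.mul_mem hv hv₁) h2 with h' | h'
      · right; right; left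
        have : v = v₁⁻¹ := eq_inv_of_mul_eq_one_left h'
        rw [this, hinv v₁ hv₁]
      · right; right; right
        have : v = y * v₁⁻¹ := eq_mul_inv_of_mul_eq h'
        rw [this, hinv v₁ hv₁]
        exact hcomm y hyV v₁ hv₁
  have hcard4 : Nat.card ↥V ≤ 4 := by
    calc Nat.card ↥V = (V : Set H).ncard := rfl
      _ ≤ ((({1, y, v₁, v₁ * y} : Finset H) : Set H)).ncard :=
          Set.ncard_le_ncard hVsub (Finset.finite_toSet _)
      _ = ({1, y, v₁, v₁ * y} : Finset H).card := Set.ncard_coe_finset _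
      _ ≤ 4 := Finset.card_le_four
  have hcard : Nat.card ↥V = 4 := by
    by_contra hne
    apply hVc
    apply cyclic_of_card_le_three
    omega
  -- claim E
  have hE : ∀ u ∈ U, u⁻¹ * (w * u * w) ∈ V → u ∈ V := by
    intro u hu hv'
    have h1 : (u⁻¹ * (w * u * w)) * (w * (u⁻¹ * (w * u * w)) * w) = 1 := by
      rw [hs_mul, hs_invol]
      have : w * u * w * (w * u⁻¹ * w) = 1 := by
        rw [← hs_mul, mul_inv_cancel, mul_one, hw2]
      calc u⁻¹ * (w * u * w) * (w * u⁻¹ * w * u) = u⁻¹ * ((w * u * w) * (w * u⁻¹ * w)) * u := by group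
        _ = 1 := by rw [this]; group
    rcases hτ1 _ hv' h1 with h | h
    · have hfixu : w * u * w = u := (inv_mul_eq_one.mp h).symm
      rcases (hfix u hu).mp hfixu with h' | h'
      · rw [h']; exact V.one_mem
      · rw [h']; exact hyV
    · have hsu : w * u * w = u * y := by rw [← h]; group
      have hfixuv : w * (u * v₁) * w = u * v₁ := by
        rw [hs_mul, hsu, hv₁s]
        have := hcomm y hyV v₁ hv₁
        calc u * y * (v₁ * y) = u * (y * v₁) * y := by group
          _ = u * (v₁ * y) * y := by rw [this]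
          _ = u * v₁ * (y * y) := by group
          _ = u * v₁ := by rw [hsq y hyV, mul_one]
      rcases (hfix (u * v₁) (U.mul_mem hu (hVU hv₁))).mp hfixuv with h' | h'
      · have : u = v₁⁻¹ := eq_inv_of_mul_eq_one_left h'
        rw [this]; exact V.inv_mem hv₁
      · have : u = y * v₁⁻¹ := eq_mul_inv_of_mul_eq h'
        rw [this]; exact V.mul_mem hyV (V.inv_mem hv₁)
  -- the quotient
  let σU : ↥U →* ↥U :=
    { toFun := fun u => ⟨w * u * w, hN u u.2⟩
      map_one' := Subtype.ext (by simp [hw2])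
      map_mul' := fun a b => Subtype.ext (hs_mul a b) }
  have hle : V.subgroupOf U ≤ (V.subgroupOf U).comap σU := by
    intro u hu
    rw [Subgroup.mem_comap, Subgroup.mem_subgroupOf]
    exact hVw' _ (Subgroup.mem_subgroupOf.mp hu)
  let φ : (↥U ⧸ V.subgroupOf U) →* (↥U ⧸ V.subgroupOf U) := QuotientGroup.map _ _ σU hle
  have hφinv : Function.Involutive φ := by
    intro q
    induction q using QuotientGroup.induction_on with
    | H u =>
      show φ (φ (QuotientGroup.mk u)) = QuotientGroup.mk u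
      simp only [φ, QuotientGroup.map_mk]
      congr 1
      exact Subtype.ext (hs_invol u)
  have hφfpf : MonoidHom.FixedPointFree φ := by
    intro q hq
    induction q using QuotientGroup.induction_on with
    | H u =>
      have hq' : (QuotientGroup.mk u : ↥U ⧸ V.subgroupOf U) = QuotientGroup.mk (σU u) := by
        rw [← hq]; simp only [φ, QuotientGroup.map_mk]
      rw [QuotientGroup.eq] at hq'
      rw [QuotientGroup.eq_one_iff, Subgroup.mem_subgroupOf]
      apply hE _ u.2
      have := Subgroup.mem_subgroupOf.mp hq'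
      simp only [Subgroup.coe_mul, Subgroup.coe_inv] at this
      exact this
  refine ⟨?_, hcard, ?_⟩
  · have hodd := hφfpf.odd_card_of_involutive hφinv
    have : Nat.card (↥U ⧸ V.subgroupOf U) = V.relIndex U := rfl
    rw [this] at hodd
    intro h2
    exact (Nat.not_even_iff_odd.mpr hodd) (even_iff_two_dvd.mpr h2)
  · rw [Subgroup.commutator_le]
    intro a ha b hb
    have hc := hφfpf.commute_all_of_involutive hφinv
      (QuotientGroup.mk (⟨b, hb⟩⁻¹ : ↥U)) (QuotientGroup.mk (⟨a, ha⟩⁻¹ : ↥U))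
    have hc' : (QuotientGroup.mk ((⟨b, hb⟩⁻¹ : ↥U) * (⟨a, ha⟩⁻¹ : ↥U)) : ↥U ⧸ V.subgroupOf U)
        = QuotientGroup.mk ((⟨a, ha⟩⁻¹ : ↥U) * (⟨b, hb⟩⁻¹ : ↥U)) := hc
    rw [QuotientGroup.eq, Subgroup.mem_subgroupOf] at hc'
    convert hc' using 1
    simp [commutatorElement_def]
    group

end Cfsg.Agent.S3825
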