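import Cfsg.Statements.S3836
import Mathlib

set_option autoImplicit false
open Cfsg

namespace Cfsg.Agent.S3836

theorem pCore_normal' {G : Type*} [Group G] (p : ℕ) : (Cfsg.pCore p G).Normal :=
  Subgroup.sSup_normal _ (fun _ h => h.1)

theorem pCore_isPGroup' {G : Type*} [Group G] [Finite G] (p : ℕ) [Fact p.Prime] :
    IsPGroup p (Cfsg.pCore p G) :=
  Sylow.sSup_of_normal _ (fun _ h => h.2) (fun _ h => h.1)

/-- Let G be a finite group that is p-stable in the normalizer form: for every p-subgroup Q and every x ∈ N_G(Q) with [Q, x, x] = 1, the image of x in N_G(Q)/C_G(Q) lies in O_p(N_G(Q)/C_G(Q)). Then every subgroup of G is p-stable in the same sense. -/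
theorem result {G : Type*} [Group G] [Finite G] {p : ℕ} [Fact p.Prime] (hst : Cfsg.IsNormalizerPStable p G) (H : Subgroup G) : Cfsg.IsNormalizerPStable p ↥H := by
  intro Q hQ x hx hquad
  obtain ⟨P, hPdef⟩ : ∃ P : Subgroup G, P = Q.map H.subtype := ⟨_, rfl⟩
  have hP : IsPGroup p P := by rw [hPdef]; exact hQ.map _
  have hNle : ∀ y : ↥H, y ∈ Subgroup.normalizer (Q : Set ↥H) →
      (y : G) ∈ Subgroup.normalizer (P : Set G) := by
    intro y hy
    rw [hPdef]
    exact Subgroup.le_normalizer_map H.subtype ⟨y, hy, rfl⟩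
  have hCle : ∀ y : ↥H, y ∈ Subgroup.centralizer (Q : Set ↥H) →
      (y : G) ∈ Subgroup.centralizer (P : Set G) := by
    intro y hy
    rw [Subgroup.mem_centralizer_iff] at hy ⊢
    intro h hh
    rw [hPdef] at hh
    obtain ⟨q, hq, rfl⟩ := hh
    exact congrArg Subtype.val (hy q hq)
  have hCge : ∀ y : ↥H, (y : G) ∈ Subgroup.centralizer (P : Set G) →
      y ∈ Subgroup.centralizer (Q : Set ↥H) := by
    intro y hy
    rw [Subgroup.mem_centralizer_iff] at hy ⊢
    intro q hq
    apply Subtype.ext
    exact hy (q : G) (by rw [hPdef]; exact ⟨q, hq, rfl⟩)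
  have hquadG : ⁅⁅P, Subgroup.zpowers (x : G)⁆, Subgroup.zpowers (x : G)⁆ = ⊥ := by
    have := congrArg (Subgroup.map H.subtype) hquad
    rw [Subgroup.map_commutator, Subgroup.map_commutator, Subgroup.map_bot,
      MonoidHom.map_zpowers] at this
    rw [hPdef]
    exact this
  have key := hst P hP (x : G) (hNle x hx) hquadG
  let ι : ↥(Subgroup.normalizer (Q : Set ↥H)) →* ↥(Subgroup.normalizer (P : Set G)) :=
    { toFun := fun y => ⟨((y : ↥H) : G), hNle y.1 y.2⟩
      map_one' := rfl
      map_mul' := fun a b => rfl }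
  have hle : (Subgroup.centralizer (Q : Set ↥H)).subgroupOf (Subgroup.normalizer (Q : Set ↥H)) ≤
      ((Subgroup.centralizer (P : Set G)).subgroupOf (Subgroup.normalizer (P : Set G))).comap ι := by
    intro y hy
    rw [Subgroup.mem_comap, Subgroup.mem_subgroupOf]
    exact hCle y.1 (Subgroup.mem_subgroupOf.mp hy)
  let φ := QuotientGroup.map _ _ ι hle
  have hφinj : Function.Injective φ := by
    rw [injective_iff_map_eq_one]
    intro q hq
    induction q using QuotientGroup.induction_on with
    | H a =>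
      have hq' : (QuotientGroup.mk (ι a) : ↥(Subgroup.normalizer (P : Set G)) ⧸
          (Subgroup.centralizer (P : Set G)).subgroupOf (Subgroup.normalizer (P : Set G))) = 1 := hq
      rw [QuotientGroup.eq_one_iff, Subgroup.mem_subgroupOf] at hq'
      rw [QuotientGroup.eq_one_iff, Subgroup.mem_subgroupOf]
      exact hCge a.1 hq'
  have hcomap : (Cfsg.pCore p (↥(Subgroup.normalizer (P : Set G)) ⧸
      (Subgroup.centralizer (P : Set G)).subgroupOf (Subgroup.normalizer (P : Set G)))).comap φ ≤
      Cfsg.pCore p (↥(Subgroup.normalizer (Q : Set ↥H)) ⧸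
        (Subgroup.centralizer (Q : Set ↥H)).subgroupOf (Subgroup.normalizer (Q : Set ↥H))) := by
    apply le_sSup
    exact ⟨(pCore_normal' p).comap φ, (pCore_isPGroup' p).comap_of_injective φ hφinj⟩
  apply hcomap
  exact key

end Cfsg.Agent.S3836
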