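import Cfsg.Statements.S3858
import Mathlib

set_option autoImplicit false
open Cfsg
open scoped Pointwise

namespace Cfsg.Agent.S3858

theorem mem_cj {G : Type*} [Group G] (H : Subgroup G) (g y : G) :
    y ∈ H.map (MulAut.conj g).toMonoidHom ↔ g⁻¹ * y * g ∈ H := by
  constructor
  · rintro ⟨h, hh, rfl⟩
    simpa [MulAut.conj_apply, mul_assoc] using hh
  · intro hy
    refine ⟨g⁻¹ * y * g, hy, ?_⟩
    simp [MulAut.conj_apply, mul_assoc]

theorem cj_mul {G : Type*} [Group G] (H : Subgroup G) (a b : G) :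
    H.map (MulAut.conj (a * b)).toMonoidHom =
      (H.map (MulAut.conj b).toMonoidHom).map (MulAut.conj a).toMonoidHom := by
  ext y
  simp only [mem_cj]
  simp [mul_assoc]

theorem cj_one {G : Type*} [Group G] (H : Subgroup G) :
    H.map (MulAut.conj (1 : G)).toMonoidHom = H := by
  ext y
  rw [mem_cj]
  simp

theorem cj_self {G : Type*} [Group G] (H : Subgroup G) (h : G) (hh : h ∈ H) :
    H.map (MulAut.conj h).toMonoidHom = H := by
  ext y
  rw [mem_cj]
  constructor
  · intro hy
    have := H.mul_mem (H.mul_mem hh hy) (H.inv_mem hh)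
    simpa [mul_assoc] using this
  · intro hy
    exact H.mul_mem (H.mul_mem (H.inv_mem hh) hy) hh

theorem cj_mono {G : Type*} [Group G] {H K : Subgroup G} (g : G) (h : H ≤ K) :
    H.map (MulAut.conj g).toMonoidHom ≤ K.map (MulAut.conj g).toMonoidHom :=
  Subgroup.map_mono h

theorem cj_index {G : Type*} [Group G] (H : Subgroup G) (g : G) :
    (H.map (MulAut.conj g).toMonoidHom).index = H.index := by
  exact Subgroup.index_map_equiv H (MulAut.conj g)

theorem isCoatom_cj {G : Type*} [Group G] (M : Subgroup G) (g : G) (hM : IsCoatom M) :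
    IsCoatom (M.map (MulAut.conj g).toMonoidHom) := by
  constructor
  · intro h
    apply hM.1
    have := congrArg (fun K : Subgroup G => K.map (MulAut.conj g⁻¹).toMonoidHom) h
    simp only [← cj_mul] at this
    rw [inv_mul_cancel, cj_one] at this
    rw [this, eq_top_iff]
    intro x _
    rw [mem_cj]
    exact Subgroup.mem_top _
  · intro b hb
    have h1 : M < b.map (MulAut.conj g⁻¹).toMonoidHom := by
      have h2 : M = (M.map (MulAut.conj g).toMonoidHom).map (MulAut.conj g⁻¹).toMonoidHom := by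
        rw [← cj_mul, inv_mul_cancel, cj_one]
      constructor
      · rw [h2]; exact cj_mono _ hb.le
      · intro hle
        apply hb.not_ge
        have := cj_mono g hle
        rw [← cj_mul, mul_inv_cancel, cj_one] at this
        exact this
    have h3 := hM.2 _ h1
    have := congrArg (fun K : Subgroup G => K.map (MulAut.conj g).toMonoidHom) h3
    simp only [← cj_mul] at this
    rw [mul_inv_cancel, cj_one] at this
    rw [this, eq_top_iff]
    intro x _
    rw [mem_cj]
    exact Subgroup.mem_top _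

/-- A Sylow subgroup lies in a conjugate of any subgroup of index prime to `r`. -/
theorem sylow_le_conj {G : Type*} [Group G] [Finite G] {r : ℕ} [Fact r.Prime]
    (R : Sylow r G) (M : Subgroup G) (h : ¬ r ∣ M.index) :
    ∃ g : G, (R : Subgroup G) ≤ M.map (MulAut.conj g).toMonoidHom := by
  have hcard : ¬ r ∣ Nat.card (G ⧸ M) := by rwa [← Subgroup.index_eq_card]
  obtain ⟨q, hq⟩ := R.isPGroup'.nonempty_fixed_point_of_prime_not_dvd_card (G ⧸ M) hcard
  induction q using QuotientGroup.induction_on with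
  | H g =>
    refine ⟨g, ?_⟩
    intro x hx
    rw [mem_cj]
    have h1 := hq ⟨x⁻¹, Subgroup.inv_mem _ hx⟩
    have h2 : (QuotientGroup.mk (x⁻¹ * g) : G ⧸ M) = QuotientGroup.mk g := h1
    rw [QuotientGroup.eq] at h2
    simpa [mul_assoc] using h2

theorem sylow_smul_le {G : Type*} [Group G] {r : ℕ} (R : Sylow r G) (M : Subgroup G) (g : G)
    (h : (R : Subgroup G) ≤ M) :
    ((g • R : Sylow r G) : Subgroup G) ≤ M.map (MulAut.conj g).toMonoidHom := by
  intro x hx
  rw [Sylow.coe_subgroup_smul] at hx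
  obtain ⟨y, hy, rfl⟩ := hx
  exact ⟨y, h hy, rfl⟩

/-- Sylow conjugacy inside an overgroup. -/
theorem sylow_conj_in {G : Type*} [Group G] [Finite G] {r : ℕ} [Fact r.Prime]
    (R : Sylow r G) (M : Subgroup G) (g : G) (h1 : (R : Subgroup G) ≤ M)
    (h2 : ((g • R : Sylow r G) : Subgroup G) ≤ M) :
    ∃ m ∈ M, m⁻¹ * g ∈ Subgroup.normalizer ((R : Subgroup G) : Set G) := by
  obtain ⟨m, hm⟩ := MulAction.exists_smul_eq M (R.subtype h1) ((g • R).subtype h2)
  rw [Sylow.smul_subtype] at hm
  have hm' : m • R = g • R := Sylow.subtype_injective hm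
  refine ⟨(m : G), m.2, ?_⟩
  have key : ((m : G)⁻¹ * g) • R = R := by
    rw [mul_smul, ← hm']
    show (m : G)⁻¹ • ((m : G) • R) = R
    rw [inv_smul_smul]
  exact Sylow.smul_eq_iff_mem_normalizer.mp key

theorem not_comm_pgroup_simple {T : Type*} [Group T] [Finite T] (hT : IsSimpleGroup T)
    (hna : ¬ IsMulCommutative T) {r : ℕ} [Fact r.Prime] (h : IsPGroup r T) : False := by
  have : Nontrivial T := hT.toNontrivial
  have hc : Nontrivial (Subgroup.center T) := h.center_nontrivial
  have hcn : (Subgroup.center T).Normal := inferInstance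
  rcases hcn.eq_bot_or_eq_top with h0 | h1
  · rw [h0] at hc
    exact not_nontrivial _ hc
  · apply hna
    rw [isMulCommutative_iff]
    intro a b
    have ha : a ∈ Subgroup.center T := h1 ▸ Subgroup.mem_top a
    exact ((Subgroup.mem_center_iff.mp ha) b).symm

/-- Let G be a finite group with a normal non-abelian simple subgroup T whose centralizer is trivial (G almost simple with socle T), r a prime and R a Sylow r-subgroup of G meeting T nontrivially. Then R lies in exactly one maximal subgroup of G if and only if G has exactly one conjugacy class of maximal subgroups whose index is prime to r. -/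
theorem result {G : Type*} [Group G] [Finite G] (T : Subgroup G) [T.Normal] (hT : IsSimpleGroup T) (hna : ¬ IsMulCommutative T)
    (hC : Subgroup.centralizer (T : Set G) = ⊥) {r : ℕ} [Fact r.Prime] (R : Sylow r G) (hR0 : (R : Subgroup G) ⊓ T ≠ ⊥) :
    (∃! M : Subgroup G, IsCoatom M ∧ (R : Subgroup G) ≤ M) ↔
      ((∃ M : Subgroup G, IsCoatom M ∧ ¬ r ∣ M.index) ∧
        ∀ M₁ M₂ : Subgroup G, IsCoatom M₁ → ¬ r ∣ M₁.index → IsCoatom M₂ → ¬ r ∣ M₂.index → ∃ g : G, M₂ = M₁.map (MulAut.conj g).toMonoidHom) := by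
  have hidx : ∀ M : Subgroup G, (R : Subgroup G) ≤ M → ¬ r ∣ M.index := by
    intro M hRM hdvd
    exact R.not_dvd_index (hdvd.trans (Subgroup.index_dvd_of_le hRM))
  constructor
  · rintro ⟨M, ⟨hMco, hRM⟩, hMuniq⟩
    refine ⟨⟨M, hMco, hidx M hRM⟩, ?_⟩
    intro M₁ M₂ h1 h1' h2 h2'
    obtain ⟨g₁, hg₁⟩ := sylow_le_conj R M₁ h1'
    obtain ⟨g₂, hg₂⟩ := sylow_le_conj R M₂ h2'
    have e1 := hMuniq _ ⟨isCoatom_cj M₁ g₁ h1, hg₁⟩
    have e2 := hMuniq _ ⟨isCoatom_cj M₂ g₂ h2, hg₂⟩
    refine ⟨g₂⁻¹ * g₁, ?_⟩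
    rw [cj_mul, e1, ← e2, ← cj_mul, inv_mul_cancel, cj_one]
  · rintro ⟨⟨M₀, hM₀co, hM₀⟩, hconj⟩
    -- the normalizer of R is proper
    set N := Subgroup.normalizer ((R : Subgroup G) : Set G) with hN
    have hNtop : N ≠ ⊤ := by
      intro hNt
      have hnormR : (R : Subgroup G).Normal := Subgroup.normalizer_eq_top_iff.mp hNt
      have hnorm : ((R : Subgroup G) ⊓ T).Normal := inferInstance
      have hnorm' : (((R : Subgroup G) ⊓ T).subgroupOf T).Normal := hnorm.subgroupOf T
      rcases hnorm'.eq_bot_or_eq_top with h0 | h1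
      · rw [Subgroup.subgroupOf_eq_bot, disjoint_iff, inf_assoc, inf_idem] at h0
        exact hR0 h0
      · rw [Subgroup.subgroupOf_eq_top] at h1
        have hTR : T ≤ (R : Subgroup G) := h1.trans inf_le_left
        have hTp : IsPGroup r T := R.isPGroup'.to_le hTR
        exact not_comm_pgroup_simple hT hna hTp
    obtain ⟨M₃, hM₃co, hNM₃⟩ := (eq_top_or_exists_le_coatom N).resolve_left hNtop
    have hRN : (R : Subgroup G) ≤ N := Subgroup.le_normalizer
    have hRM₃ : (R : Subgroup G) ≤ M₃ := hRN.trans hNM₃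
    refine ⟨M₃, ⟨hM₃co, hRM₃⟩, ?_⟩
    rintro M ⟨hMco, hRM⟩
    obtain ⟨g, hg⟩ := hconj M₃ M hM₃co (hidx M₃ hRM₃) hMco (hidx M hRM)
    have h2 : ((g • R : Sylow r G) : Subgroup G) ≤ M := by
      rw [hg]; exact sylow_smul_le R M₃ g hRM₃
    obtain ⟨m, hmM, hmn⟩ := sylow_conj_in R M g hRM h2
    have hmn' : m⁻¹ * g ∈ M₃ := hNM₃ hmn
    have hgm : g = m * (m⁻¹ * g) := by group
    have e1 : M = M₃.map (MulAut.conj m).toMonoidHom := by
      rw [hg]
      conv_lhs => rw [hgm]
      rw [cj_mul, cj_self M₃ _ hmn']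
    have e2 : M.map (MulAut.conj m⁻¹).toMonoidHom = M₃ := by
      rw [e1, ← cj_mul, inv_mul_cancel, cj_one]
    rw [← e2, cj_self M _ (M.inv_mem hmM)]

end Cfsg.Agent.S3858
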