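import Cfsg.Statements.S3859
import Mathlib

set_option autoImplicit false
open Cfsg
open scoped Pointwise

namespace Cfsg.Agent.S3859

/-- A Sylow subgroup of `G` meets a normal subgroup `T` in a subgroup of index prime to `r` -/
theorem not_dvd_relIndex {G : Type*} [Group G] [Finite G] {r : ℕ} [Fact r.Prime]
    (R : Sylow r G) (T : Subgroup G) [T.Normal] : ¬ r ∣ (R : Subgroup G).relIndex T := by
  set R' : Subgroup G := (R : Subgroup G) with hR'
  have h1 : (R' ⊓ T).relIndex T * T.relIndex (R' ⊔ T) = (R' ⊓ T).relIndex (R' ⊔ T) :=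
    Subgroup.relIndex_mul_relIndex _ _ _ inf_le_right le_sup_right
  have h2 : (R' ⊓ T).relIndex R' * R'.relIndex (R' ⊔ T) = (R' ⊓ T).relIndex (R' ⊔ T) :=
    Subgroup.relIndex_mul_relIndex _ _ _ inf_le_left le_sup_left
  rw [Subgroup.relIndex_sup_right, Subgroup.inf_relIndex_right] at h1
  rw [Subgroup.inf_relIndex_left] at h2
  have h3 : T.relIndex R' ≠ 0 := by
    unfold Subgroup.relIndex
    exact Subgroup.index_ne_zero_of_finite
  have h4 : R'.relIndex T = R'.relIndex (R' ⊔ T) := by
    have : R'.relIndex T * T.relIndex R' = T.relIndex R' * R'.relIndex (R' ⊔ T) := by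
      rw [h1, h2]
    rw [mul_comm] at this
    exact Nat.eq_of_mul_eq_mul_left (Nat.pos_of_ne_zero h3) this
  rw [h4]
  intro hdvd
  exact R.not_dvd_index (hdvd.trans (Subgroup.relIndex_dvd_index_of_le le_sup_left))

theorem not_comm_pgroup_simple {T : Type*} [Group T] [Finite T] (hT : IsSimpleGroup T)
    (hna : ¬ IsMulCommutative T) {r : ℕ} [Fact r.Prime] (h : IsPGroup r T) : False := by
  have : Nontrivial T := hT.toNontrivial
  have hc : Nontrivial (Subgroup.center T) := h.center_nontrivial
  have hcn : (Subgroup.center T).Normal := inferInstance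
  rcases hcn.eq_bot_or_eq_top with h0 | h1
  · rw [h0] at hc
    exact not_nontrivial _ hc
  · apply hna
    rw [isMulCommutative_iff]
    intro a b
    have ha : a ∈ Subgroup.center T := h1 ▸ Subgroup.mem_top a
    exact ((Subgroup.mem_center_iff.mp ha) b).symm

/-- Let G be a finite group with a normal non-abelian simple subgroup T whose centralizer is trivial (G almost simple with socle T), r a prime and R a Sylow r-subgroup of G meeting T nontrivially. If R lies in exactly one maximal subgroup of G, then G/T is an r-group. -/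
theorem result {G : Type*} [Group G] [Finite G] (T : Subgroup G) [T.Normal] (hT : IsSimpleGroup T) (hna : ¬ IsMulCommutative T)
    (hC : Subgroup.centralizer (T : Set G) = ⊥) {r : ℕ} [Fact r.Prime] (R : Sylow r G) (hR0 : (R : Subgroup G) ⊓ T ≠ ⊥)
    (huniq : ∃! M : Subgroup G, IsCoatom M ∧ (R : Subgroup G) ≤ M) : IsPGroup r (G ⧸ T) := by
  obtain ⟨M, ⟨hMco, hRM⟩, hMuniq⟩ := huniq
  -- Sylow subgroup of T
  have hpg : IsPGroup r ((R : Subgroup G).subgroupOf T) :=
    R.isPGroup'.comap_subtype
  have hidx : ¬ r ∣ ((R : Subgroup G).subgroupOf T).index := not_dvd_relIndex R T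
  let Q : Sylow r T := hpg.toSylow hidx
  have hQ : (Q : Subgroup T).map T.subtype = (R : Subgroup G) ⊓ T := by
    show ((R : Subgroup G).subgroupOf T).map T.subtype = (R : Subgroup G) ⊓ T
    exact Subgroup.subgroupOf_map_subtype _ _
  have hfrat : Subgroup.normalizer (((R : Subgroup G) ⊓ T : Subgroup G) : Set G) ⊔ T = ⊤ := by
    have := Sylow.normalizer_sup_eq_top Q
    rw [hQ] at this
    exact this
  set N := Subgroup.normalizer (((R : Subgroup G) ⊓ T : Subgroup G) : Set G) with hN
  have hRN : (R : Subgroup G) ≤ N := by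
    rw [hN, Subgroup.le_normalizer_iff]
    intro x hx y hy
    refine ⟨?_, ?_⟩
    · exact Subgroup.mul_mem _ (Subgroup.mul_mem _ hx hy.1) (Subgroup.inv_mem _ hx)
    · exact (inferInstance : T.Normal).conj_mem y hy.2 x
  have hNtop : N ≠ ⊤ := by
    intro hNt
    have hnorm : ((R : Subgroup G) ⊓ T).Normal := Subgroup.normalizer_eq_top_iff.mp hNt
    have hnorm' : (((R : Subgroup G) ⊓ T).subgroupOf T).Normal := hnorm.subgroupOf T
    rcases hnorm'.eq_bot_or_eq_top with h0 | h1
    · rw [Subgroup.subgroupOf_eq_bot, disjoint_iff, inf_assoc, inf_idem] at h0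
      exact hR0 h0
    · rw [Subgroup.subgroupOf_eq_top] at h1
      have hTR : T ≤ (R : Subgroup G) := h1.trans inf_le_left
      have hTp : IsPGroup r T := R.isPGroup'.to_le hTR
      exact not_comm_pgroup_simple hT hna hTp
  obtain ⟨M', hM'co, hNM'⟩ := (eq_top_or_exists_le_coatom N).resolve_left hNtop
  have hM' : M' = M := hMuniq M' ⟨hM'co, hRN.trans hNM'⟩
  subst hM'
  have hRT : (R : Subgroup G) ⊔ T = ⊤ := by
    by_contra hne
    obtain ⟨M'', hM''co, hle⟩ := (eq_top_or_exists_le_coatom _).resolve_left hne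
    have hM'' : M'' = M' := hMuniq M'' ⟨hM''co, le_sup_left.trans hle⟩
    subst hM''
    have : (⊤ : Subgroup G) ≤ M'' := by
      rw [← hfrat]
      exact sup_le hNM' (le_sup_right.trans hle)
    exact hM''co.1 (top_le_iff.mp this)
  intro q
  induction q using QuotientGroup.induction_on with
  | H g =>
    have hg : g ∈ ((R : Subgroup G) : Set G) * (T : Set G) := by
      rw [← Subgroup.mul_normal, hRT]
      exact Subgroup.mem_top g
    obtain ⟨a, ha, t, ht, rfl⟩ := hg
    obtain ⟨k, hk⟩ := R.isPGroup' ⟨a, ha⟩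
    refine ⟨k, ?_⟩
    have hk' : a ^ r ^ k = 1 := by
      have := congrArg Subtype.val hk
      simpa using this
    have hmk : (QuotientGroup.mk (a * t) : G ⧸ T) = QuotientGroup.mk a := by
      rw [QuotientGroup.mk_mul, (QuotientGroup.eq_one_iff t).mpr ht, mul_one]
    rw [hmk, ← QuotientGroup.mk_pow, hk']
    rfl

end Cfsg.Agent.S3859
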