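import Cfsg.Statements.S3863
import Mathlib

set_option autoImplicit false
open Cfsg

namespace Cfsg.Agent.S3863

theorem exists_two_elt {G : Type*} [Group G] [Finite G] (x : G) (hx : IsConj x x⁻¹) :
    ∃ t : G, (∃ j : ℕ, orderOf t = 2 ^ j) ∧ t * x * t⁻¹ = x⁻¹ := by
  obtain ⟨s, hs⟩ := isConj_iff.mp hx
  have hs2 : Commute (s ^ 2) x := by
    have h1 : s * x⁻¹ * s⁻¹ = x := by
      have : s * x⁻¹ * s⁻¹ = (s * x * s⁻¹)⁻¹ := by group
      rw [this, hs, inv_inv]
    show s ^ 2 * x = x * s ^ 2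
    have h2 : s * x = x⁻¹ * s := by rw [← hs]; group
    have h3 : s * x⁻¹ = x * s := by
      have : s * x⁻¹ = (s * x⁻¹ * s⁻¹) * s := by group
      rw [this, h1]
    calc s ^ 2 * x = s * (s * x) := by rw [sq, mul_assoc]
      _ = s * (x⁻¹ * s) := by rw [h2]
      _ = (s * x⁻¹) * s := by rw [mul_assoc]
      _ = x * s * s := by rw [h3]
      _ = x * s ^ 2 := by rw [sq, mul_assoc]
  obtain ⟨k, m, hm, hkm⟩ := Nat.exists_eq_two_pow_mul_odd (orderOf_pos s).ne'
  refine ⟨s ^ m, ⟨k, ?_⟩, ?_⟩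
  · have hmpos : 0 < m := hm.pos
    rw [orderOf_pow' s hmpos.ne', hkm, Nat.gcd_eq_right (Dvd.intro_left _ rfl),
      Nat.mul_div_cancel _ hmpos]
  · obtain ⟨i, rfl⟩ := hm
    have hc : Commute ((s ^ 2) ^ i) x⁻¹ := (hs2.pow_left i).inv_right
    have e : s ^ (2 * i + 1) = (s ^ 2) ^ i * s := by rw [pow_succ, pow_mul]
    rw [e]
    calc (s ^ 2) ^ i * s * x * ((s ^ 2) ^ i * s)⁻¹
        = (s ^ 2) ^ i * (s * x * s⁻¹) * ((s ^ 2) ^ i)⁻¹ := by group
      _ = (s ^ 2) ^ i * x⁻¹ * ((s ^ 2) ^ i)⁻¹ := by rw [hs]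
      _ = x⁻¹ * (s ^ 2) ^ i * ((s ^ 2) ^ i)⁻¹ := by rw [hc.eq]
      _ = x⁻¹ := by group

/-- Let x be an element of the finite group G that is conjugate to its inverse. Then some 2-element conjugates x to its inverse; if the conjugacy class of x has odd size then x ^ 2 = 1; and x lies in, and is conjugate to its inverse inside, every normal subgroup of odd index. -/
theorem result {G : Type*} [Group G] [Finite G] (x : G) (hx : IsConj x x⁻¹) : (∃ t : G, (∃ j : ℕ, orderOf t = 2 ^ j) ∧ t * x * t⁻¹ = x⁻¹) ∧ (Odd (Subgroup.centralizer ({x} : Set G)).index → x ^ 2 = 1) ∧ ∀ (N : Subgroup G) [N.Normal], Odd N.index → ∃ hxN : x ∈ N, IsConj (⟨x, hxN⟩ : N) (⟨x, hxN⟩ : N)⁻¹ := by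
  have part1 := exists_two_elt x hx
  refine ⟨part1, ?_, ?_⟩
  · intro hodd
    obtain ⟨t, -, ht⟩ := part1
    have htx : t * x = x⁻¹ * t := by rw [← ht]; group
    have htx' : t * x⁻¹ = x * t := by
      have h1 : t * x⁻¹ * t⁻¹ = x := by
        have : t * x⁻¹ * t⁻¹ = (t * x * t⁻¹)⁻¹ := by group
        rw [this, ht, inv_inv]
      have : t * x⁻¹ = (t * x⁻¹ * t⁻¹) * t := by group
      rw [this, h1]
    have hxt : x * t⁻¹ = t⁻¹ * x⁻¹ := by
      have : x * t⁻¹ = t⁻¹ * (t * x) * t⁻¹ := by group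
      rw [this, htx]; group
    have hxt' : x⁻¹ * t⁻¹ = t⁻¹ * x := by
      have : x⁻¹ * t⁻¹ = t⁻¹ * (t * x⁻¹) * t⁻¹ := by group
      rw [this, htx']; group
    obtain ⟨C, hC⟩ : ∃ C, C = Subgroup.centralizer ({x} : Set G) := ⟨_, rfl⟩
    rw [← hC] at hodd
    have memC : ∀ c : G, c ∈ C ↔ c * x = x * c := by
      intro c
      rw [hC, Subgroup.mem_centralizer_singleton_iff]
    have memC' : ∀ c : G, c ∈ C → c * x⁻¹ = x⁻¹ * c := by
      intro c hc
      have h := (memC c).mp hc
      have : c * x⁻¹ = x⁻¹ * (x * c) * x⁻¹ := by group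
      rw [this, ← h]; group
    have hconj : ∀ c ∈ C, t⁻¹ * c * t ∈ C := by
      intro c hc
      rw [memC]
      have h' := memC' c hc
      calc t⁻¹ * c * t * x = t⁻¹ * c * (t * x) := by group
        _ = t⁻¹ * c * (x⁻¹ * t) := by rw [htx]
        _ = t⁻¹ * (c * x⁻¹) * t := by group
        _ = t⁻¹ * (x⁻¹ * c) * t := by rw [h']
        _ = (t⁻¹ * x⁻¹) * c * t := by group
        _ = (x * t⁻¹) * c * t := by rw [hxt]
        _ = x * (t⁻¹ * c * t) := by group
    have htt : t * t ∈ C := by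
      rw [memC]
      calc t * t * x = t * (t * x) := by group
        _ = t * (x⁻¹ * t) := by rw [htx]
        _ = (t * x⁻¹) * t := by group
        _ = x * t * t := by rw [htx']
        _ = x * (t * t) := by group
    let f : G ⧸ C → G ⧸ C := Quotient.map' (fun g => g * t) (by
      intro a b hab
      rw [QuotientGroup.leftRel_apply] at hab ⊢
      have := hconj _ hab
      simpa [mul_assoc] using this)
    have hfmk : ∀ g : G, f (QuotientGroup.mk g) = QuotientGroup.mk (g * t) := fun g => rfl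
    have hff : ∀ q, f (f q) = q := by
      intro q
      induction q using QuotientGroup.induction_on with
      | H g =>
        rw [hfmk, hfmk, QuotientGroup.eq]
        have : (g * t * t)⁻¹ * g = (t * t)⁻¹ := by group
        rw [this]
        exact C.inv_mem htt
    letI : Fintype (G ⧸ C) := Fintype.ofFinite _
    classical
    let F : Function.End (G ⧸ C) := f
    have hpow : F ^ 2 ^ 1 = 1 := by
      rw [pow_one, sq]
      funext q
      exact hff q
    have : Fact (Nat.Prime 2) := ⟨Nat.prime_two⟩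
    have hmod := Equiv.Perm.card_fixedPoints_modEq (α := G ⧸ C) (f := F) (p := 2) (n := 1) hpow
    have hcard : Fintype.card (G ⧸ C) = C.index := by
      rw [Subgroup.index_eq_card, Nat.card_eq_fintype_card]
    rw [hcard] at hmod
    have hpos : 0 < Fintype.card (Function.fixedPoints F) := by
      rcases Nat.eq_zero_or_pos (Fintype.card (Function.fixedPoints F)) with h0 | h0
      · rw [h0] at hmod
        have : C.index % 2 = 0 := hmod
        have := Nat.odd_iff.mp hodd
        omega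
      · exact h0
    obtain ⟨⟨q, hq⟩⟩ := Fintype.card_pos_iff.mp hpos
    have hq' : f q = q := hq
    induction q using QuotientGroup.induction_on with
    | H g =>
      rw [hfmk, QuotientGroup.eq] at hq'
      have : (g * t)⁻¹ * g = t⁻¹ := by group
      rw [this] at hq'
      have htC : t ∈ C := by simpa using C.inv_mem hq'
      have h1 := (memC t).mp htC
      have h2 : x = x⁻¹ := by
        calc x = x * t * t⁻¹ := by group
          _ = t * x * t⁻¹ := by rw [h1]
          _ = x⁻¹ := ht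
      calc x ^ 2 = x * x := sq x
        _ = x⁻¹ * x := by rw [← h2]
        _ = 1 := by group
  · intro N hN hodd
    obtain ⟨t, ⟨j, hj⟩, ht⟩ := part1
    have key : ∀ y : G, ∀ i : ℕ, y ^ (2 ^ i) ∈ N → y ∈ N := by
      intro y i hy
      rw [← QuotientGroup.eq_one_iff] at hy ⊢
      have h1 : orderOf (QuotientGroup.mk y : G ⧸ N) ∣ 2 ^ i := by
        apply orderOf_dvd_of_pow_eq_one
        rw [← QuotientGroup.mk_pow]; exact hy
      have h2 : orderOf (QuotientGroup.mk y : G ⧸ N) ∣ N.index := by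
        rw [Subgroup.index_eq_card]; exact orderOf_dvd_natCard _
      have h3 : Nat.Coprime (2 ^ i) N.index :=
        Nat.Coprime.pow_left i (Nat.coprime_two_left.mpr hodd)
      have h4 := Nat.eq_one_of_dvd_coprimes h3 h1 h2
      exact orderOf_eq_one_iff.mp h4
    have htN : t ∈ N := by
      apply key t j
      rw [← hj, pow_orderOf_eq_one]
      exact N.one_mem
    have hxN : x ∈ N := by
      apply key x 1
      -- x^2 = x * (t x⁻¹ t⁻¹)... use x⁻¹ = t x t⁻¹, so x * x = x * t * x⁻¹ * t⁻¹ ... commutator in N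
      have hx2 : x ^ (2 ^ 1) = x * t * x⁻¹ * t⁻¹ := by
        have h1 : t * x⁻¹ * t⁻¹ = x := by
          have : t * x⁻¹ * t⁻¹ = (t * x * t⁻¹)⁻¹ := by group
          rw [this, ht, inv_inv]
        calc x ^ (2 ^ 1) = x * x := by rw [pow_one, sq]
          _ = x * (t * x⁻¹ * t⁻¹) := by rw [h1]
          _ = x * t * x⁻¹ * t⁻¹ := by group
      rw [hx2]
      have h1 : x * t * x⁻¹ ∈ N := hN.conj_mem t htN x
      exact N.mul_mem h1 (N.inv_mem htN)
    refine ⟨hxN, ?_⟩
    rw [isConj_iff]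
    refine ⟨⟨t, htN⟩, ?_⟩
    apply Subtype.ext
    simpa using ht

end Cfsg.Agent.S3863
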