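import Cfsg.Statements.S3861
import Cfsg.Agent.Helper21.BaerSuzuki
import Cfsg.Agent.S3863
import Mathlib

set_option autoImplicit false
open Cfsg

namespace Cfsg.Agent.S3861

open Cfsg.Agent.Helper21

universe u

/-- Lifting conjugacy through a normal subgroup of order prime to `q`: two `q`-elements in the same
coset are conjugate. -/
theorem lift_conj {G : Type*} [Group G] [Finite G] (N : Subgroup G) [hNn : N.Normal] {q : ℕ}
    [Fact q.Prime] (hN : (Nat.card N).Coprime q) (a b : G) (ha : ∃ k : ℕ, a ^ q ^ k = 1)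
    (hb : ∃ k : ℕ, b ^ q ^ k = 1) (hab : a⁻¹ * b ∈ N) : ∃ k : G, k * a * k⁻¹ = b := by
  obtain ⟨ka, hka⟩ := ha
  obtain ⟨kb, hkb⟩ := hb
  obtain ⟨K, hKdef⟩ : ∃ K : Subgroup G, K = N ⊔ Subgroup.zpowers a := ⟨_, rfl⟩
  have haK : a ∈ K := by rw [hKdef]; exact Subgroup.mem_sup_right (Subgroup.mem_zpowers a)
  have hNK : N ≤ K := by rw [hKdef]; exact le_sup_left
  have hbK : b ∈ K := by
    have : b = a * (a⁻¹ * b) := by group
    rw [this]
    exact K.mul_mem haK (hNK hab)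
  have hpa : IsPGroup q ↥(Subgroup.zpowers (⟨a, haK⟩ : ↥K)) := by
    apply IsPGroup.of_card_dvd_pow (n := ka)
    rw [Nat.card_zpowers]
    apply orderOf_dvd_of_pow_eq_one
    exact Subtype.ext (by simpa using hka)
  have hpb : IsPGroup q ↥(Subgroup.zpowers (⟨b, hbK⟩ : ↥K)) := by
    apply IsPGroup.of_card_dvd_pow (n := kb)
    rw [Nat.card_zpowers]
    apply orderOf_dvd_of_pow_eq_one
    exact Subtype.ext (by simpa using hkb)
  obtain ⟨QA, hQA⟩ := hpa.exists_le_sylow
  obtain ⟨QB, hQB⟩ := hpb.exists_le_sylow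
  obtain ⟨k, hk⟩ := MulAction.exists_smul_eq ↥K QA QB
  have hc : k * ⟨a, haK⟩ * k⁻¹ ∈ (QB : Subgroup ↥K) := by
    rw [← hk, bs_mem_sylow_smul]
    have : k⁻¹ * (k * ⟨a, haK⟩ * k⁻¹) * k = (⟨a, haK⟩ : ↥K) := by group
    rw [this]
    exact hQA (Subgroup.mem_zpowers _)
  have hb' : (⟨b, hbK⟩ : ↥K) ∈ (QB : Subgroup ↥K) := hQB (Subgroup.mem_zpowers _)
  have hd : (k * ⟨a, haK⟩ * k⁻¹)⁻¹ * ⟨b, hbK⟩ ∈ (QB : Subgroup ↥K) :=
    (QB : Subgroup ↥K).mul_mem ((QB : Subgroup ↥K).inv_mem hc) hb'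
  obtain ⟨j, hj⟩ := QB.isPGroup' ⟨_, hd⟩
  have hj' : (((k : G) * a * (k : G)⁻¹)⁻¹ * b) ^ q ^ j = 1 := by
    have := congrArg (fun x : ↥(QB : Subgroup ↥K) => ((x : ↥K) : G)) hj
    simpa using this
  have hdN : ((k : G) * a * (k : G)⁻¹)⁻¹ * b ∈ N := by
    have hkK : (k : G) ∈ ((N ⊔ Subgroup.zpowers a : Subgroup G) : Set G) := by
      rw [← hKdef]; exact k.2
    rw [Subgroup.normal_mul] at hkK
    obtain ⟨n, hn, z, hz, hnz⟩ := Set.mem_mul.mp hkK
    have hza : z * a * z⁻¹ = a := by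
      obtain ⟨i, rfl⟩ := Subgroup.mem_zpowers_iff.mp hz
      group
    rw [← hnz]
    have e : (n * z * a * (n * z)⁻¹)⁻¹ * b = n * (a⁻¹ * n⁻¹ * a) * (a⁻¹ * b) := by
      have : n * z * a * (n * z)⁻¹ = n * (z * a * z⁻¹) * n⁻¹ := by group
      rw [this, hza]; group
    rw [e]
    refine N.mul_mem (N.mul_mem hn ?_) hab
    have := hNn.conj_mem n⁻¹ (N.inv_mem hn) a⁻¹
    simpa using this
  have h1 : orderOf (((k : G) * a * (k : G)⁻¹)⁻¹ * b) ∣ Nat.card N := by
    have := orderOf_dvd_natCard (⟨_, hdN⟩ : ↥N)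
    rwa [Subgroup.orderOf_mk] at this
  have h2 : orderOf (((k : G) * a * (k : G)⁻¹)⁻¹ * b) ∣ q ^ j := orderOf_dvd_of_pow_eq_one hj'
  have h3 := Nat.dvd_gcd h1 h2
  rw [Nat.Coprime.pow_right j hN] at h3
  have h4 := orderOf_eq_one_iff.mp (Nat.dvd_one.mp h3)
  exact ⟨k, inv_mul_eq_one.mp h4⟩

theorem noRealOdd_quotient {G : Type*} [Group G] [Finite G] (N : Subgroup G) [N.Normal]
    (hN : IsPGroup 2 N) (hG : ∀ x : G, x ≠ 1 → Odd (orderOf x) → ¬ IsConj x x⁻¹) :
    ∀ x : G ⧸ N, x ≠ 1 → Odd (orderOf x) → ¬ IsConj x x⁻¹ := by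
  intro xb hxb hodd hconj
  obtain ⟨cb, hcb⟩ := isConj_iff.mp hconj
  obtain ⟨x₀, rfl⟩ := QuotientGroup.mk_surjective xb
  obtain ⟨c, rfl⟩ := QuotientGroup.mk_surjective cb
  have hord1 : orderOf (x₀ : G ⧸ N) ≠ 1 := by rwa [Ne, orderOf_eq_one_iff]
  obtain ⟨q, hq, hqdvd⟩ := Nat.exists_prime_and_dvd hord1
  have : Fact q.Prime := ⟨hq⟩
  have hq2 : q ≠ 2 := by
    rintro rfl
    exact (Nat.not_even_iff_odd.mpr hodd) (even_iff_two_dvd.mpr hqdvd)
  obtain ⟨k, l, hl, hkl⟩ := Nat.exists_eq_pow_mul_and_not_dvd (orderOf_pos x₀).ne' q hq.ne_one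
  have hxq : (x₀ ^ l) ^ q ^ k = 1 := by rw [← pow_mul, mul_comm, ← hkl, pow_orderOf_eq_one]
  have hxne : ((x₀ ^ l : G) : G ⧸ N) ≠ 1 := by
    intro h1
    rw [QuotientGroup.mk_pow] at h1
    have := orderOf_dvd_of_pow_eq_one h1
    exact hl (hqdvd.trans this)
  have hNq : (Nat.card N).Coprime q := by
    obtain ⟨j, hj⟩ := IsPGroup.iff_card.mp hN
    rw [hj]
    exact Nat.Coprime.pow_left j ((Nat.coprime_primes Nat.prime_two hq).mpr (Ne.symm hq2))
  obtain ⟨s, hs⟩ := lift_conj N hNq (c * x₀ ^ l * c⁻¹) (x₀ ^ l)⁻¹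
    ⟨k, by rw [conj_pow, hxq]; group⟩ ⟨k, by rw [inv_pow, hxq, inv_one]⟩ (by
      rw [← QuotientGroup.eq_one_iff]
      simp only [QuotientGroup.mk_mul, QuotientGroup.mk_inv, QuotientGroup.mk_pow]
      rw [← conj_pow, hcb, inv_pow, inv_inv, mul_inv_cancel])
  apply hG (x₀ ^ l) (by rintro h; apply hxne; rw [h]; rfl) ?_ ?_
  · obtain ⟨i, -, hi⟩ := (Nat.dvd_prime_pow hq).mp (orderOf_dvd_of_pow_eq_one hxq)
    rw [hi]
    exact (hq.odd_of_ne_two hq2).pow
  · rw [isConj_iff]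
    exact ⟨s * c, by rw [← hs]; group⟩

theorem sylow_two_normal_of_noRealOdd : ∀ (n : ℕ) (G : Type u) [Group G] [Finite G], Nat.card G = n →
    (∀ x : G, x ≠ 1 → Odd (orderOf x) → ¬ IsConj x x⁻¹) →
    ∀ P : Sylow 2 G, (P : Subgroup G).Normal := by
  intro n
  induction n using Nat.strong_induction_on with
  | _ n ih =>
    intro G _ _ hn hG P
    have : Fact (Nat.Prime 2) := ⟨Nat.prime_two⟩
    by_cases hinv : ∃ t : G, orderOf t = 2
    · obtain ⟨t, ht⟩ := hinv
      have ht2 : t * t = 1 := by rw [← sq, ← ht, pow_orderOf_eq_one]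
      have hall : ∀ g : G, g * t * g⁻¹ ∈ (P : Subgroup G) := by
        intro g
        have hu2 : (g * t * g⁻¹) * (g * t * g⁻¹) = 1 := by
          calc (g * t * g⁻¹) * (g * t * g⁻¹) = g * (t * t) * g⁻¹ := by group
            _ = 1 := by rw [ht2]; group
        obtain ⟨N, -, -, hmem, hle⟩ := involution_mem_sylow_of_no_inverted (g * t * g⁻¹) hu2
          (fun h hodd hinv => by
            by_contra hne
            exact hG h hne hodd (isConj_iff.mpr ⟨_, hinv⟩))
        exact hle P hmem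
      obtain ⟨N, hNdef⟩ : ∃ N : Subgroup G, N = (P : Subgroup G).normalCore := ⟨_, rfl⟩
      have hNn : N.Normal := by rw [hNdef]; infer_instance
      have htN : t ∈ N := by rw [hNdef]; exact fun g => hall g
      have hNP : N ≤ (P : Subgroup G) := by rw [hNdef]; exact Subgroup.normalCore_le _
      have hNp : IsPGroup 2 N := P.isPGroup'.to_le hNP
      have hlt : Nat.card (G ⧸ N) < n := by
        rw [← hn, ← Subgroup.index_eq_card, ← Subgroup.card_mul_index N]
        have h2 : 2 ≤ Nat.card N := by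
          have h1 : orderOf t ∣ Nat.card N := by
            have := orderOf_dvd_natCard (⟨t, htN⟩ : ↥N)
            rwa [Subgroup.orderOf_mk] at this
          rw [ht] at h1
          exact Nat.le_of_dvd Nat.card_pos h1
        have hpos : 0 < N.index := Nat.pos_of_ne_zero Subgroup.index_ne_zero_of_finite
        nlinarith
      have hQ := ih _ hlt (G ⧸ N) rfl (noRealOdd_quotient N hNp hG)
        (P.mapSurjective (QuotientGroup.mk'_surjective N))
      rw [Sylow.coe_mapSurjective] at hQ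
      have : (P : Subgroup G) =
          ((P : Subgroup G).map (QuotientGroup.mk' N)).comap (QuotientGroup.mk' N) := by
        rw [Subgroup.comap_map_eq, QuotientGroup.ker_mk', sup_eq_left.mpr hNP]
      rw [this]
      exact hQ.comap _
    · push Not at hinv
      have : (P : Subgroup G) = ⊥ := by
        by_contra hne
        obtain ⟨k, hk⟩ := IsPGroup.iff_card.mp P.isPGroup'
        have hk0 : k ≠ 0 := by
          rintro rfl
          rw [pow_zero] at hk
          exact hne ((Subgroup.card_eq_one).mp hk)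
        have h2 : 2 ∣ Nat.card G := by
          have h1 : 2 ∣ Nat.card (P : Subgroup G) := by
            rw [hk]; exact dvd_pow_self 2 hk0
          exact h1.trans (Subgroup.card_subgroup_dvd_card _)
        obtain ⟨x, hx⟩ := exists_prime_orderOf_dvd_card' 2 h2
        exact hinv x hx
      rw [this]
      infer_instance

/-- A finite group G has no non-identity element of odd order that is conjugate to its inverse if and only if the Sylow 2-subgroups of G are normal. -/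
theorem result {G : Type*} [Group G] [Finite G] (P : Sylow 2 G) : (∀ x : G, x ≠ 1 → Odd (orderOf x) → ¬ IsConj x x⁻¹) ↔ (P : Subgroup G).Normal := by
  have : Fact (Nat.Prime 2) := ⟨Nat.prime_two⟩
  constructor
  · intro hG
    exact sylow_two_normal_of_noRealOdd _ G rfl hG P
  · intro hP x hx1 hodd hconj
    obtain ⟨t, ⟨j, hj⟩, htx⟩ := (Cfsg.Agent.S3863.result x hconj).1
    -- t ∈ P
    have htP : t ∈ (P : Subgroup G) := by
      have hpt : IsPGroup 2 ↥(Subgroup.zpowers t) := by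
        apply IsPGroup.of_card_dvd_pow (n := j)
        rw [Nat.card_zpowers, hj]
      obtain ⟨Q, hQ⟩ := hpt.exists_le_sylow
      obtain ⟨g, hg⟩ := MulAction.exists_smul_eq G P Q
      rw [Sylow.smul_eq_of_normal] at hg
      rw [hg]
      exact hQ (Subgroup.mem_zpowers t)
    have hx2 : (x ^ 2)⁻¹ ∈ (P : Subgroup G) := by
      have h1 : t * (x * t⁻¹ * x⁻¹) ∈ (P : Subgroup G) :=
        (P : Subgroup G).mul_mem htP (hP.conj_mem _ ((P : Subgroup G).inv_mem htP) x)
      have e : t * (x * t⁻¹ * x⁻¹) = (x ^ 2)⁻¹ := by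
        calc t * (x * t⁻¹ * x⁻¹) = (t * x * t⁻¹) * x⁻¹ := by group
          _ = (x ^ 2)⁻¹ := by rw [htx]; group
      rwa [e] at h1
    obtain ⟨i, hi⟩ := P.isPGroup' ⟨_, (P : Subgroup G).inv_mem hx2⟩
    have hi' : x ^ (2 ^ (i + 1)) = 1 := by
      have := congrArg (fun y : ↥(P : Subgroup G) => (y : G)) hi
      simp only [inv_inv, SubmonoidClass.mk_pow, Subgroup.coe_one] at this
      rw [pow_succ, mul_comm, pow_mul]
      exact this
    have hdvd := orderOf_dvd_of_pow_eq_one hi'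
    have hcop : (orderOf x).Coprime (2 ^ (i + 1)) :=
      Nat.Coprime.pow_right _ hodd.coprime_two_right
    have := Nat.Coprime.eq_one_of_dvd hcop hdvd
    exact hx1 (orderOf_eq_one_iff.mp this)

end Cfsg.Agent.S3861
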