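import Cfsg.Statements.S3862
import Mathlib
import Cfsg.Agent.Helper21.Frobenius
import Cfsg.Agent.Helper21.BaerSuzuki

set_option autoImplicit false
open Cfsg

namespace Cfsg.Agent.S3862

theorem centralizes_aux {G : Type*} [Group G] [Finite G]
    (h : ∀ x : G, (∃ j : ℕ, orderOf x = 2 ^ j) → IsConj x x⁻¹ → x ∈ Subgroup.center G)
    (x : G) (hx : (orderOf x).Coprime 2) :
    ∀ (n : ℕ) (Q : Subgroup G), IsPGroup 2 Q → x ∈ Subgroup.normalizer (Q : Set G) →
      Nat.card Q = n → x ∈ Subgroup.centralizer (Q : Set G) := by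
  intro n
  induction n using Nat.strong_induction_on with
  | _ n ih =>
  intro Q hQ hxN hcard
  haveI : Fact (Nat.Prime 2) := ⟨Nat.prime_two⟩
  -- T = closure of squares
  obtain ⟨T, hTdef⟩ : ∃ T : Subgroup G, T = Subgroup.closure {w | ∃ u ∈ Q, w = u ^ 2} := ⟨_, rfl⟩
  have hTQ : T ≤ Q := by
    rw [hTdef, Subgroup.closure_le]
    rintro w ⟨u, hu, rfl⟩
    exact pow_mem hu 2
  have hxT : x ∈ Subgroup.normalizer (T : Set G) := by
    rw [hTdef]
    apply Helper21.bs_mem_normalizer_closure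
    · rintro w ⟨u, hu, rfl⟩
      apply Subgroup.subset_closure
      refine ⟨x * u * x⁻¹, (Subgroup.mem_normalizer_iff.mp hxN u).mp hu, ?_⟩
      rw [pow_two, pow_two]; group
    · rintro w ⟨u, hu, rfl⟩
      apply Subgroup.subset_closure
      refine ⟨x⁻¹ * u * x, ?_, ?_⟩
      · have := (Subgroup.mem_normalizer_iff.mp (inv_mem hxN) u).mp hu
        simpa using this
      · rw [pow_two, pow_two]; group
  by_cases hQbot : Q = ⊥
  · rw [hQbot, Subgroup.mem_centralizer_iff]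
    intro g hg
    have : g = 1 := Subgroup.mem_bot.mp hg
    rw [this]; simp
  have hTlt : Nat.card T < n := by
    obtain ⟨k, hk⟩ := IsPGroup.iff_card.mp hQ
    have hk0 : k ≠ 0 := by
      rintro rfl
      rw [pow_zero] at hk
      exact hQbot (Subgroup.eq_bot_of_card_eq Q hk)
    obtain ⟨k', rfl⟩ := Nat.exists_eq_succ_of_ne_zero hk0
    obtain ⟨M', hM'⟩ := Sylow.exists_subgroup_card_pow_prime (G := ↥Q) 2 (n := k')
      (by rw [hk]; exact pow_dvd_pow 2 (Nat.le_succ k'))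
    have hidx : M'.index = 2 := by
      have := M'.card_mul_index
      rw [hM', hk, pow_succ] at this
      exact Nat.eq_of_mul_eq_mul_left (pow_pos two_pos k') this
    have hTM : T ≤ M'.map Q.subtype := by
      rw [hTdef, Subgroup.closure_le]
      rintro w ⟨u, hu, rfl⟩
      exact ⟨(⟨u, hu⟩ : Q) ^ 2, Subgroup.sq_mem_of_index_two hidx _, rfl⟩
    have hMc : Nat.card (M'.map Q.subtype) = 2 ^ k' := by
      rw [← hM']
      exact (Nat.card_congr (M'.equivMapOfInjective _ Q.subtype_injective).toEquiv).symm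
    calc Nat.card T ≤ Nat.card (M'.map Q.subtype) := Subgroup.card_le_of_le hTM
      _ = 2 ^ k' := hMc
      _ < 2 ^ (k' + 1) := Nat.pow_lt_pow_right (by norm_num) (Nat.lt_succ_self k')
      _ = n := by rw [← hcard, hk]
  have hxCT := ih _ hTlt T (hQ.to_le hTQ) hxT rfl
  rw [Subgroup.mem_centralizer_iff]
  intro u hu
  have hu' : x * u * x⁻¹ ∈ Q := (Subgroup.mem_normalizer_iff.mp hxN u).mp hu
  obtain ⟨c, hcdef⟩ : ∃ c : G, c = u⁻¹ * (x * u * x⁻¹) := ⟨_, rfl⟩
  have hcQ : c ∈ Q := by rw [hcdef]; exact mul_mem (inv_mem hu) hu'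
  have hsq : x * u ^ 2 * x⁻¹ = u ^ 2 := by
    have h1 : u ^ 2 ∈ T := by rw [hTdef]; exact Subgroup.subset_closure ⟨u, hu, rfl⟩
    have h2 := (Subgroup.mem_centralizer_iff.mp hxCT) _ h1
    rw [← h2]; group
  have h3 : (u * c) ^ 2 = u ^ 2 := by
    have h30 : u * c = x * u * x⁻¹ := by rw [hcdef]; group
    have h31 : (x * u * x⁻¹) ^ 2 = x * u ^ 2 * x⁻¹ := by rw [pow_two, pow_two]; group
    rw [h30, h31, hsq]
  have h4 : u⁻¹ * c * u⁻¹⁻¹ = c⁻¹ := by
    have h5 : u * c * (u * c) = u * u := by rw [← pow_two, h3, pow_two]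
    have h6 : c * u * c = u := by
      calc c * u * c = u⁻¹ * (u * c * (u * c)) := by group
        _ = u⁻¹ * (u * u) := by rw [h5]
        _ = u := by group
    calc u⁻¹ * c * u⁻¹⁻¹ = u⁻¹ * (c * u * c) * c⁻¹ := by group
      _ = u⁻¹ * u * c⁻¹ := by rw [h6]
      _ = c⁻¹ := by group
  have hcconj : IsConj c c⁻¹ := isConj_iff.mpr ⟨u⁻¹, h4⟩
  have hc2 : ∃ j : ℕ, orderOf c = 2 ^ j := by
    obtain ⟨j, hj⟩ := (IsPGroup.iff_orderOf.mp hQ) ⟨c, hcQ⟩
    exact ⟨j, by rw [← hj, Subgroup.orderOf_mk]⟩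
  have hcZ := h c hc2 hcconj
  have hpow : ∀ m : ℕ, x ^ m * u * (x ^ m)⁻¹ = u * c ^ m := by
    intro m
    induction m with
    | zero => simp
    | succ m ihm =>
      have hcc : x * c ^ m = c ^ m * x := Subgroup.mem_center_iff.mp (pow_mem hcZ m) x
      calc x ^ (m + 1) * u * (x ^ (m + 1))⁻¹ = x * (x ^ m * u * (x ^ m)⁻¹) * x⁻¹ := by
            rw [pow_succ']; group
        _ = x * (u * c ^ m) * x⁻¹ := by rw [ihm]
        _ = (x * u * x⁻¹) * (x * c ^ m) * x⁻¹ := by group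
        _ = (x * u * x⁻¹) * (c ^ m * x) * x⁻¹ := by rw [hcc]
        _ = u * (u⁻¹ * (x * u * x⁻¹)) * c ^ m := by group
        _ = u * c ^ (m + 1) := by rw [← hcdef, pow_succ', mul_assoc]
  have h7 := hpow (orderOf x)
  rw [pow_orderOf_eq_one] at h7
  have h8 : c ^ orderOf x = 1 := by
    have h80 : u = u * c ^ orderOf x := by simpa using h7
    have h81 := congrArg (fun w => u⁻¹ * w) h80
    simpa using h81.symm
  have h9 : orderOf c ∣ orderOf x := orderOf_dvd_of_pow_eq_one h8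
  obtain ⟨j, hj⟩ := hc2
  have hj0 : j = 0 := by
    by_contra hne
    have h90 : 2 ∣ orderOf x := dvd_trans (by rw [hj]; exact dvd_pow_self 2 hne) h9
    have h10 : Nat.gcd (orderOf x) 2 = 1 := hx
    have h91 : 2 ∣ Nat.gcd (orderOf x) 2 := Nat.dvd_gcd h90 dvd_rfl
    rw [h10] at h91; omega
  have hc1 : c = 1 := by rw [hj0, pow_zero] at hj; exact orderOf_eq_one_iff.mp hj
  rw [hcdef] at hc1
  have h11 : x * u * x⁻¹ = u := by
    calc x * u * x⁻¹ = u * (u⁻¹ * (x * u * x⁻¹)) := by group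
      _ = u := by rw [hc1, mul_one]
  calc u * x = (x * u * x⁻¹) * x := by rw [h11]
    _ = x * u := by group

theorem result {G : Type*} [Group G] [Finite G] (h : ∀ x : G, (∃ j : ℕ, orderOf x = 2 ^ j) → IsConj x x⁻¹ → x ∈ Subgroup.center G) : Cfsg.HasNormalPComplement 2 G := by
  haveI : Fact (Nat.Prime 2) := ⟨Nat.prime_two⟩
  apply Helper21.frob_hasNormalPComplement
  intro Q hQ g hg hcop
  exact centralizes_aux h g hcop _ Q hQ hg rfl

end Cfsg.Agent.S3862
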