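import Cfsg.Statements.S3866
import Mathlib

set_option autoImplicit false
open Cfsg

namespace Cfsg.Agent.S3866

/-- Let A be a commutative normal subgroup of the finite group G with G generated by A and an element x. Then a ↦ x a x⁻¹ a⁻¹ is a surjective homomorphism from A onto the commutator subgroup of G whose kernel is the centralizer of x in A; in particular the commutator subgroup has order equal to the index in A of that centralizer. -/
theorem result {G : Type*} [Group G] [Finite G] (A : Subgroup G) [A.Normal] (hA : IsMulCommutative A) (x : G) (hgen : A ⊔ Subgroup.zpowers x = ⊤) : (∀ a ∈ A, x * a * x⁻¹ * a⁻¹ ∈ commutator G) ∧ (∀ c ∈ commutator G, ∃ a ∈ A, x * a * x⁻¹ * a⁻¹ = c) ∧ (∀ a ∈ A, ∀ b ∈ A, x * (a * b) * x⁻¹ * (a * b)⁻¹ = (x * a * x⁻¹ * a⁻¹) * (x * b * x⁻¹ * b⁻¹)) ∧ Nat.card (commutator G) * Nat.card ↥(A ⊓ Subgroup.centralizer ({x} : Set G)) = Nat.card A := by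
  have hAn : A.Normal := inferInstance
  have hAc : ∀ a ∈ A, ∀ b ∈ A, a * b = b * a := by
    intro a ha b hb
    have := (isMulCommutative_iff.mp hA) ⟨a, ha⟩ ⟨b, hb⟩
    simpa using congrArg Subtype.val this
  have hcA : ∀ a ∈ A, x * a * x⁻¹ * a⁻¹ ∈ A := by
    intro a ha
    exact A.mul_mem (hAn.conj_mem a ha x) (A.inv_mem ha)
  have part1 : ∀ a ∈ A, x * a * x⁻¹ * a⁻¹ ∈ commutator G := by
    intro a _
    rw [commutator_def, ← commutatorElement_def]
    exact Subgroup.commutator_mem_commutator (Subgroup.mem_top x) (Subgroup.mem_top a)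
  have part3 : ∀ a ∈ A, ∀ b ∈ A, x * (a * b) * x⁻¹ * (a * b)⁻¹ =
      (x * a * x⁻¹ * a⁻¹) * (x * b * x⁻¹ * b⁻¹) := by
    intro a ha b hb
    have h1 := hAc _ (hcA b hb) _ (A.inv_mem ha)
    calc x * (a * b) * x⁻¹ * (a * b)⁻¹
        = x * a * x⁻¹ * ((x * b * x⁻¹ * b⁻¹) * a⁻¹) := by group
      _ = x * a * x⁻¹ * (a⁻¹ * (x * b * x⁻¹ * b⁻¹)) := by rw [h1]
      _ = (x * a * x⁻¹ * a⁻¹) * (x * b * x⁻¹ * b⁻¹) := by group
  -- the homomorphism
  let φ : A →* A :=
    { toFun := fun a => ⟨x * a * x⁻¹ * (a : G)⁻¹, hcA a a.2⟩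
      map_one' := by
        apply Subtype.ext
        simp
      map_mul' := by
        intro a b
        apply Subtype.ext
        simpa using part3 a a.2 b b.2 }
  have hφ : ∀ a : A, ((φ a : A) : G) = x * a * x⁻¹ * (a : G)⁻¹ := fun a => rfl
  set N : Subgroup G := φ.range.map A.subtype with hN
  have memN : ∀ g : G, g ∈ N ↔ ∃ a ∈ A, x * a * x⁻¹ * a⁻¹ = g := by
    intro g
    constructor
    · rintro ⟨y, ⟨a, rfl⟩, rfl⟩
      exact ⟨a, a.2, rfl⟩
    · rintro ⟨a, ha, rfl⟩
      exact ⟨φ ⟨a, ha⟩, ⟨⟨a, ha⟩, rfl⟩, rfl⟩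
  have hNA : N ≤ A := Subgroup.map_subtype_le _
  -- N is normal
  have hNn : N.Normal := by
    rw [← Subgroup.normalizer_eq_top_iff, ← top_le_iff, ← hgen]
    refine sup_le ?_ ?_
    · rw [Subgroup.le_normalizer_iff]
      intro a ha n hn
      have : a * n * a⁻¹ = n := by
        rw [hAc a ha n (hNA hn)]; group
      rw [this]; exact hn
    · rw [Subgroup.zpowers_le, Subgroup.mem_normalizer_iff_map_conj_eq]
      apply le_antisymm
      · rintro _ ⟨n, hn, rfl⟩
        obtain ⟨a, ha, rfl⟩ := (memN n).mp hn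
        refine (memN _).mpr ⟨x * a * x⁻¹, hAn.conj_mem a ha x, ?_⟩
        simp [MulAut.conj_apply]
        group
      · intro n hn
        obtain ⟨a, ha, rfl⟩ := (memN n).mp hn
        refine ⟨x⁻¹ * (x * a * x⁻¹ * a⁻¹) * x, ?_, ?_⟩
        · refine (memN _).mpr ⟨x⁻¹ * a * x, ?_, ?_⟩
          · have := hAn.conj_mem a ha x⁻¹
            simpa using this
          · group
        · simp [MulAut.conj_apply]
          group
  -- the quotient is commutative
  have hcomm : commutator G ≤ N := by
    apply (Subgroup.Normal.quotient_commutative_iff_commutator_le (N := N)).mp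
    set π := QuotientGroup.mk' N with hπ
    -- π x is central
    have hx_central : π x ∈ Subgroup.center (G ⧸ N) := by
      have hS : (Subgroup.centralizer {π x}).comap π = ⊤ := by
        rw [← top_le_iff, ← hgen]
        refine sup_le ?_ ?_
        · intro a ha
          rw [Subgroup.mem_comap, Subgroup.mem_centralizer_singleton_iff]
          have h1 : x * a * x⁻¹ * a⁻¹ ∈ N := (memN _).mpr ⟨a, ha, rfl⟩
          have h2 : π (x * a * x⁻¹ * a⁻¹) = 1 := (QuotientGroup.eq_one_iff _).mpr h1
          have h3 : π x * π a = π (x * a * x⁻¹ * a⁻¹) * (π a * π x) := by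
            simp only [map_mul, map_inv]; group
          rw [h3, h2, one_mul]
        · rw [Subgroup.zpowers_le, Subgroup.mem_comap, Subgroup.mem_centralizer_singleton_iff]
      rw [Subgroup.mem_center_iff]
      intro q
      obtain ⟨g, rfl⟩ := QuotientGroup.mk'_surjective N q
      have hg : g ∈ (Subgroup.centralizer {π x}).comap π := hS ▸ Subgroup.mem_top g
      rw [Subgroup.mem_comap, Subgroup.mem_centralizer_singleton_iff] at hg
      exact hg
    have ha_central : ∀ a ∈ A, π a ∈ Subgroup.center (G ⧸ N) := by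
      intro a ha
      have hS : (Subgroup.centralizer {π a}).comap π = ⊤ := by
        rw [← top_le_iff, ← hgen]
        refine sup_le ?_ ?_
        · intro b hb
          rw [Subgroup.mem_comap, Subgroup.mem_centralizer_singleton_iff, ← map_mul, ← map_mul,
            hAc a ha b hb]
        · rw [Subgroup.zpowers_le, Subgroup.mem_comap, Subgroup.mem_centralizer_singleton_iff]
          exact ((Subgroup.mem_center_iff.mp hx_central) (π a)).symm
      rw [Subgroup.mem_center_iff]
      intro q
      obtain ⟨g, rfl⟩ := QuotientGroup.mk'_surjective N q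
      have hg : g ∈ (Subgroup.centralizer {π a}).comap π := hS ▸ Subgroup.mem_top g
      rw [Subgroup.mem_comap, Subgroup.mem_centralizer_singleton_iff] at hg
      exact hg
    have htop : (Subgroup.center (G ⧸ N)).comap π = ⊤ := by
      rw [← top_le_iff, ← hgen]
      refine sup_le (fun a ha => ha_central a ha) ?_
      rw [Subgroup.zpowers_le]
      exact hx_central
    rw [isMulCommutative_iff]
    intro p q
    obtain ⟨g, rfl⟩ := QuotientGroup.mk'_surjective N p
    have hg : g ∈ (Subgroup.center (G ⧸ N)).comap π := htop ▸ Subgroup.mem_top g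
    exact ((Subgroup.mem_center_iff.mp hg) q).symm
  have hNeq : commutator G = N := by
    apply le_antisymm hcomm
    intro n hn
    obtain ⟨a, ha, rfl⟩ := (memN n).mp hn
    exact part1 a ha
  refine ⟨part1, ?_, part3, ?_⟩
  · intro c hc
    exact (memN c).mp (hcomm hc)
  · rw [hNeq]
    have h1 : Nat.card N = Nat.card φ.range :=
      Subgroup.card_map_of_injective A.subtype_injective
    have h2 : (A ⊓ Subgroup.centralizer ({x} : Set G)) = φ.ker.map A.subtype := by
      ext g
      rw [Subgroup.mem_inf, Subgroup.mem_centralizer_singleton_iff]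
      constructor
      · rintro ⟨hgA, hgc⟩
        refine ⟨⟨g, hgA⟩, ?_, rfl⟩
        rw [SetLike.mem_coe, MonoidHom.mem_ker]
        apply Subtype.ext
        rw [hφ]
        simp only [Subgroup.coe_one]
        calc x * g * x⁻¹ * g⁻¹ = (x * g) * x⁻¹ * g⁻¹ := by group
          _ = (g * x) * x⁻¹ * g⁻¹ := by rw [hgc]
          _ = 1 := by group
      · rintro ⟨a, ha, rfl⟩
        refine ⟨a.2, ?_⟩
        rw [SetLike.mem_coe, MonoidHom.mem_ker] at ha
        have h := congrArg Subtype.val ha
        rw [hφ] at h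
        simp only [Subgroup.coe_one] at h
        have : x * (a : G) = (x * a * x⁻¹ * (a : G)⁻¹) * (a * x) := by group
        rw [Subgroup.coe_subtype, this, h, one_mul]
    have h3 : Nat.card ↥(A ⊓ Subgroup.centralizer ({x} : Set G)) = Nat.card φ.ker := by
      rw [h2]
      exact Subgroup.card_map_of_injective A.subtype_injective
    rw [h1, h3, ← Subgroup.index_ker, mul_comm]
    exact Subgroup.card_mul_index _

end Cfsg.Agent.S3866
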