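import Cfsg.Statements.S3867
import Mathlib

set_option autoImplicit false
open Cfsg

namespace Cfsg.Agent.S3867

open scoped Pointwise

theorem mem_sylow_smul {G : Type*} [Group G] {p : ℕ} (g x : G) (P : Sylow p G) :
    x ∈ ((g • P : Sylow p G) : Subgroup G) ↔ g⁻¹ * x * g ∈ (P : Subgroup G) := by
  rw [Sylow.coe_subgroup_smul, Subgroup.mem_pointwise_smul_iff_inv_smul_mem]
  simp [MulAut.smul_def]

/-- Sylow conjugacy inside an overgroup. -/
theorem sylow_conj_in {G : Type*} [Group G] [Finite G] {r : ℕ} [Fact r.Prime]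
    (R : Sylow r G) (M : Subgroup G) (g : G) (h1 : (R : Subgroup G) ≤ M)
    (h2 : ((g • R : Sylow r G) : Subgroup G) ≤ M) :
    ∃ m ∈ M, m⁻¹ * g ∈ Subgroup.normalizer ((R : Subgroup G) : Set G) := by
  obtain ⟨m, hm⟩ := MulAction.exists_smul_eq M (R.subtype h1) ((g • R).subtype h2)
  rw [Sylow.smul_subtype] at hm
  have hm' : m • R = g • R := Sylow.subtype_injective hm
  refine ⟨(m : G), m.2, ?_⟩
  have key : ((m : G)⁻¹ * g) • R = R := by
    rw [mul_smul, ← hm']
    show (m : G)⁻¹ • ((m : G) • R) = R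
    rw [inv_smul_smul]
  exact Sylow.smul_eq_iff_mem_normalizer.mp key

theorem relIndex_eq_relIndex_sup {G : Type*} [Group G] [Finite G] (A N : Subgroup G)
    [N.Normal] : A.relIndex N = A.relIndex (A ⊔ N) := by
  have h1 : Nat.card ↥(A ⊓ N) * A.relIndex N = Nat.card N := by
    have := Subgroup.relIndex_mul_relIndex (H := ⊥) (K := A ⊓ N) (L := N) bot_le inf_le_right
    rwa [Subgroup.relIndex_bot_left, Subgroup.relIndex_bot_left, Subgroup.inf_relIndex_right] at this
  have h2 : Nat.card ↥(A ⊓ N) * N.relIndex A = Nat.card A := by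
    have := Subgroup.relIndex_mul_relIndex (H := ⊥) (K := A ⊓ N) (L := A) bot_le inf_le_left
    rwa [Subgroup.relIndex_bot_left, Subgroup.relIndex_bot_left, Subgroup.inf_relIndex_left] at this
  have h3 : N.relIndex (A ⊔ N) = N.relIndex A := Subgroup.relIndex_sup_right A N
  have h4 : Nat.card N * N.relIndex (A ⊔ N) = Nat.card ↥(A ⊔ N) := by
    have := Subgroup.relIndex_mul_relIndex (H := ⊥) (K := N) (L := A ⊔ N) bot_le le_sup_right
    rwa [Subgroup.relIndex_bot_left, Subgroup.relIndex_bot_left] at this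
  have h5 : Nat.card A * A.relIndex (A ⊔ N) = Nat.card ↥(A ⊔ N) := by
    have := Subgroup.relIndex_mul_relIndex (H := ⊥) (K := A) (L := A ⊔ N) bot_le le_sup_left
    rwa [Subgroup.relIndex_bot_left, Subgroup.relIndex_bot_left] at this
  have hpos : 0 < Nat.card ↥(A ⊓ N) * N.relIndex A := by rw [h2]; exact Nat.card_pos
  apply Nat.eq_of_mul_eq_mul_left hpos
  calc Nat.card ↥(A ⊓ N) * N.relIndex A * A.relIndex N
      = (Nat.card ↥(A ⊓ N) * A.relIndex N) * N.relIndex A := by ring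
    _ = Nat.card ↥(A ⊔ N) := by rw [h1, ← h3, h4]
    _ = Nat.card ↥(A ⊓ N) * N.relIndex A * A.relIndex (A ⊔ N) := by rw [h2, h5]

theorem card_sylow_quotient {G : Type*} [Group G] [Finite G] {p : ℕ} [Fact p.Prime] (P : Sylow p G)
    (K : Subgroup G) [K.Normal] :
    Nat.card (Sylow p (G ⧸ K)) = (Subgroup.normalizer ((P : Subgroup G) : Set G) ⊔ K).index := by
  have hsurj := QuotientGroup.mk'_surjective K
  have h0 : Nat.card (Sylow p (G ⧸ K)) = (Subgroup.normalizer
      (((P : Subgroup G).map (QuotientGroup.mk' K) : Subgroup (G ⧸ K)) : Set (G ⧸ K))).index :=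
    Sylow.card_eq_index_normalizer (P.mapSurjective hsurj)
  rw [h0]
  rw [← Subgroup.index_comap_of_surjective (Subgroup.normalizer
    (((P : Subgroup G).map (QuotientGroup.mk' K) : Subgroup (G ⧸ K)) : Set (G ⧸ K))) hsurj]
  congr 1
  apply le_antisymm
  · intro g hg
    rw [Subgroup.mem_comap] at hg
    have h2 : ((g • P : Sylow p G) : Subgroup G) ≤ (P : Subgroup G) ⊔ K := by
      intro x hx
      rw [mem_sylow_smul] at hx
      have h3 : (QuotientGroup.mk' K) x ∈ (P : Subgroup G).map (QuotientGroup.mk' K) := by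
        have := ((Subgroup.mem_normalizer_iff.mp hg) ((QuotientGroup.mk' K) (g⁻¹ * x * g))).mp
          ⟨_, hx, rfl⟩
        have e : (QuotientGroup.mk' K) g * (QuotientGroup.mk' K) (g⁻¹ * x * g)
            * ((QuotientGroup.mk' K) g)⁻¹ = (QuotientGroup.mk' K) x := by
          rw [← map_inv, ← map_mul, ← map_mul]
          congr 1
          group
        rwa [e] at this
      have h4 : x ∈ ((P : Subgroup G).map (QuotientGroup.mk' K)).comap (QuotientGroup.mk' K) := h3
      rwa [Subgroup.comap_map_eq, QuotientGroup.ker_mk'] at h4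
    obtain ⟨m, hm, hmg⟩ := sylow_conj_in P ((P : Subgroup G) ⊔ K) g le_sup_left h2
    have e : g = m * (m⁻¹ * g) := by group
    rw [e]
    exact Subgroup.mul_mem _
      (sup_le (Subgroup.le_normalizer.trans le_sup_left) le_sup_right hm)
      (Subgroup.mem_sup_left hmg)
  · apply sup_le
    · intro g hg
      rw [Subgroup.mem_comap]
      exact Subgroup.le_normalizer_map _ ⟨g, hg, rfl⟩
    · intro g hg
      rw [Subgroup.mem_comap]
      have h1 : (QuotientGroup.mk' K) g = 1 := (QuotientGroup.eq_one_iff g).mpr hg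
      rw [h1]
      exact Subgroup.one_mem _

theorem key_inf {G : Type*} [Group G] [Finite G] {p : ℕ} [Fact p.Prime] (M N : Subgroup G)
    [hMn : M.Normal] [hNn : N.Normal] (hMN : M ⊓ N = ⊥) (P : Sylow p G) :
    M ⊓ (Subgroup.normalizer ((P : Subgroup G) : Set G) ⊔ N)
      ≤ Subgroup.normalizer ((P : Subgroup G) : Set G) := by
  have hF : M ⊓ ((P : Subgroup G) ⊔ N) ≤ (P : Subgroup G) := by
    have hpg : IsPGroup p ↥(M ⊓ ((P : Subgroup G) ⊔ N)) := by
      rintro ⟨y, hyM, hyPN⟩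
      have h1 : (QuotientGroup.mk' N) y ∈ (P : Subgroup G).map (QuotientGroup.mk' N) := by
        have : y ∈ ((P : Subgroup G).map (QuotientGroup.mk' N)).comap (QuotientGroup.mk' N) := by
          rw [Subgroup.comap_map_eq, QuotientGroup.ker_mk']; exact hyPN
        exact this
      obtain ⟨k, hk⟩ := (P.isPGroup'.map (QuotientGroup.mk' N)) ⟨_, h1⟩
      refine ⟨k, ?_⟩
      apply Subtype.ext
      show y ^ p ^ k = 1
      have h2 : (QuotientGroup.mk' N) (y ^ p ^ k) = 1 := by
        have := congrArg Subtype.val hk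
        simpa using this
      have h3 : y ^ p ^ k ∈ N := (QuotientGroup.eq_one_iff _).mp h2
      have h4 : y ^ p ^ k ∈ M ⊓ N := ⟨M.pow_mem hyM _, h3⟩
      rw [hMN] at h4
      exact (Subgroup.mem_bot).mp h4
    have hnorm : (P : Subgroup G) ≤
        Subgroup.normalizer ((M ⊓ ((P : Subgroup G) ⊔ N) : Subgroup G) : Set G) := by
      intro a ha
      have haPN : a ∈ (P : Subgroup G) ⊔ N := Subgroup.mem_sup_left ha
      rw [Subgroup.mem_normalizer_iff]
      intro h
      constructor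
      · rintro ⟨h1, h2⟩
        exact ⟨hMn.conj_mem h h1 a,
          Subgroup.mul_mem _ (Subgroup.mul_mem _ haPN h2) (Subgroup.inv_mem _ haPN)⟩
      · rintro ⟨h1, h2⟩
        have e : a⁻¹ * (a * h * a⁻¹) * a⁻¹⁻¹ = h := by group
        have e' : a⁻¹ * (a * h * a⁻¹) * a = h := by group
        refine ⟨?_, ?_⟩
        · have := hMn.conj_mem _ h1 a⁻¹
          rwa [e] at this
        · have := Subgroup.mul_mem _ (Subgroup.mul_mem _ (Subgroup.inv_mem _ haPN) h2) haPN
          rwa [e'] at this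
    have hsup : IsPGroup p ↥((P : Subgroup G) ⊔ (M ⊓ ((P : Subgroup G) ⊔ N))) :=
      IsPGroup.to_sup_of_normal_right' P.isPGroup' hpg hnorm
    have := P.is_maximal' hsup le_sup_left
    exact le_sup_right.trans this.le
  have hstep : ∀ m ∈ M ⊓ (Subgroup.normalizer ((P : Subgroup G) : Set G) ⊔ N),
      ∀ a ∈ (P : Subgroup G), m * a * m⁻¹ ∈ (P : Subgroup G) := by
    rintro m ⟨hmM, hmLN⟩ a ha
    have hmLN' : m ∈ ((Subgroup.normalizer ((P : Subgroup G) : Set G) ⊔ N : Subgroup G) : Set G) :=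
      hmLN
    rw [Subgroup.mul_normal] at hmLN'
    obtain ⟨l, hl, n, hn, rfl⟩ := Set.mem_mul.mp hmLN'
    have hlP : l * a * l⁻¹ ∈ (P : Subgroup G) := ((Subgroup.mem_normalizer_iff.mp hl) a).mp ha
    have h1 : l * n * a * (l * n)⁻¹ * a⁻¹ ∈ M := by
      have h0 := hMn.conj_mem _ (M.inv_mem hmM) a
      have h0' := M.mul_mem hmM h0
      have e : l * n * (a * (l * n)⁻¹ * a⁻¹) = l * n * a * (l * n)⁻¹ * a⁻¹ := by group
      rwa [e] at h0'
    have h2 : l * n * a * (l * n)⁻¹ * a⁻¹ ∈ (P : Subgroup G) ⊔ N := by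
      have e : l * n * a * (l * n)⁻¹ * a⁻¹
          = (l * a * l⁻¹) * (l * (a⁻¹ * n * a * n⁻¹) * l⁻¹) * a⁻¹ := by group
      rw [e]
      refine Subgroup.mul_mem _ (Subgroup.mul_mem _ (Subgroup.mem_sup_left hlP)
        (Subgroup.mem_sup_right ?_)) (Subgroup.mem_sup_left (Subgroup.inv_mem _ ha))
      apply hNn.conj_mem
      refine N.mul_mem ?_ (N.inv_mem hn)
      have := hNn.conj_mem n hn a⁻¹
      rwa [inv_inv] at this
    have h3 := hF ⟨h1, h2⟩
    have h4 := (P : Subgroup G).mul_mem h3 ha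
    have e : l * n * a * (l * n)⁻¹ * a⁻¹ * a = l * n * a * (l * n)⁻¹ := by group
    rwa [e] at h4
  intro m hm
  rw [Subgroup.mem_normalizer_iff]
  intro h
  constructor
  · exact hstep m hm h
  · intro hh
    have := hstep m⁻¹ (Subgroup.inv_mem _ hm) _ hh
    have e : m⁻¹ * (m * h * m⁻¹) * m⁻¹⁻¹ = h := by group
    rwa [e] at this

/-- Let M and N be nontrivial normal subgroups of the finite group G with M ⊓ N trivial, and let p be a prime. Writing n(X) for the number of Sylow p-subgroups of a group X, one has n(G) · n(G/MN) = n(G/M) · n(G/N). -/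
theorem result {G : Type*} [Group G] [Finite G] (p : ℕ) [Fact p.Prime] (M N : Subgroup G) [M.Normal] [N.Normal] (hM : M ≠ ⊥) (hN : N ≠ ⊥) (hMN : M ⊓ N = ⊥) : Nat.card (Sylow p G) * Nat.card (Sylow p (G ⧸ (M ⊔ N))) = Nat.card (Sylow p (G ⧸ M)) * Nat.card (Sylow p (G ⧸ N)) := by
  obtain ⟨P⟩ : Nonempty (Sylow p G) := inferInstance
  have hkey := key_inf M N hMN P
  have h0 : Nat.card (Sylow p G) = (Subgroup.normalizer ((P : Subgroup G) : Set G)).index :=
    Sylow.card_eq_index_normalizer P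
  rw [h0, card_sylow_quotient P (M ⊔ N), card_sylow_quotient P M, card_sylow_quotient P N]
  obtain ⟨L, hLdef⟩ : ∃ L : Subgroup G, L = Subgroup.normalizer ((P : Subgroup G) : Set G) :=
    ⟨_, rfl⟩
  rw [← hLdef] at hkey ⊢
  have hinf : (L ⊔ N) ⊓ M = L ⊓ M := by
    apply le_antisymm
    · intro x hx
      exact ⟨hkey ⟨hx.2, hx.1⟩, hx.2⟩
    · exact inf_le_inf_right M le_sup_left
  have hr : L.relIndex (L ⊔ M) = (L ⊔ N).relIndex (L ⊔ N ⊔ M) := by
    rw [← relIndex_eq_relIndex_sup L M, ← relIndex_eq_relIndex_sup (L ⊔ N) M,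
      ← Subgroup.inf_relIndex_right L M, ← Subgroup.inf_relIndex_right (L ⊔ N) M, hinf]
  have e1 := Subgroup.relIndex_mul_index (H := L) (K := L ⊔ M) le_sup_left
  have e2 := Subgroup.relIndex_mul_index (H := L ⊔ N) (K := L ⊔ N ⊔ M) le_sup_left
  have e3 : L ⊔ N ⊔ M = L ⊔ (M ⊔ N) := by rw [sup_assoc, sup_comm N M]
  rw [e3] at e2 hr
  rw [← e1, ← e2, hr]
  ring

end Cfsg.Agent.S3867
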