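-- Statement S3878: E_π / D_π hold for all finite groups iff π has at most one prime or all primes.
import Cfsg.Statements.S3878
import Mathlib

set_option autoImplicit false
open Cfsg

namespace Cfsg.Agent.S3878

open Equiv MulAction

section lemmas

theorem hall_dvd {G : Type*} [Group G] [Finite G] {π : Set ℕ} {H : Subgroup G}
    (hH : Cfsg.IsPiHall π H) {p : ℕ} (hp : p.Prime) (hpπ : p ∈ π) (hd : p ∣ Nat.card G) :
    p ∣ Nat.card H := by
  have h1 := H.card_mul_index
  rw [← h1] at hd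
  exact (hp.dvd_mul.mp hd).resolve_right (hH.2 p hp hpπ)

theorem hall_conj_mem {G : Type*} [Group G] [Finite G] {π : Set ℕ} {H : Subgroup G}
    (hH : Cfsg.IsPiHall π H) {p : ℕ} (hp : p.Prime) (hpπ : p ∈ π) (c : G)
    (hc : orderOf c = p) : ∃ g : G, g⁻¹ * c * g ∈ H := by
  have : Fact p.Prime := ⟨hp⟩
  have hK : IsPGroup p (Subgroup.zpowers c) := by
    apply IsPGroup.of_card (n := 1)
    rw [Nat.card_zpowers, hc, pow_one]
  have hnd : ¬ p ∣ Nat.card (G ⧸ H) := by
    rw [← Subgroup.index_eq_card]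
    exact hH.2 p hp hpπ
  obtain ⟨x, hx⟩ := hK.nonempty_fixed_point_of_prime_not_dvd_card (G ⧸ H) hnd
  induction x using QuotientGroup.induction_on with
  | H g =>
    refine ⟨g, ?_⟩
    have h1 := hx ⟨c, Subgroup.mem_zpowers c⟩
    have h2 : ((c * g : G) : G ⧸ H) = (g : G ⧸ H) := h1
    rw [QuotientGroup.eq] at h2
    have h3 := H.inv_mem h2
    simpa [mul_assoc] using h3

theorem sylow_not_dvd_index {G : Type*} [Group G] [Finite G] {p : ℕ} [hp : Fact p.Prime]
    (P : Sylow p G) : ¬ p ∣ (P : Subgroup G).index := by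
  intro hd
  have h2 := P.card_eq_multiplicity
  have h3 : p ^ ((Nat.card G).factorization p + 1) ∣ Nat.card G := by
    have h4 : p ^ (Nat.card G).factorization p * p ∣
        Nat.card (P : Subgroup G) * (P : Subgroup G).index :=
      Nat.mul_dvd_mul (dvd_of_eq h2.symm) hd
    rwa [Subgroup.card_mul_index, ← pow_succ] at h4
  exact Nat.pow_succ_factorization_not_dvd (Nat.card_pos.ne') hp.out h3

theorem prim_of_order {q : ℕ} (hq : q.Prime) (H : Subgroup (Perm (Fin q))) (σ : Perm (Fin q))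
    (hσH : σ ∈ H) (hσ : orderOf σ = q) : IsPreprimitive H (Fin q) := by
  have hcyc : σ.IsCycle :=
    Equiv.Perm.isCycle_of_prime_order'' (by simpa using hq) (by simpa using hσ)
  have hsupp : σ.support = Finset.univ := by
    apply Finset.eq_univ_of_card
    rw [← hcyc.orderOf, hσ, Fintype.card_fin]
  haveI : IsPretransitive H (Fin q) := by
    constructor
    intro x y
    have hx : σ x ≠ x := by
      rw [← Equiv.Perm.mem_support, hsupp]
      exact Finset.mem_univ x
    have hy : σ y ≠ y := by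
      rw [← Equiv.Perm.mem_support, hsupp]
      exact Finset.mem_univ y
    obtain ⟨i, hi⟩ := hcyc.exists_zpow_eq hx hy
    refine ⟨⟨σ, hσH⟩ ^ i, ?_⟩
    show ((⟨σ, hσH⟩ ^ i : H) : Perm (Fin q)) x = y
    rw [Subgroup.coe_zpow]
    exact hi
  apply IsPreprimitive.of_prime_card
  rw [Nat.card_eq_fintype_card, Fintype.card_fin]
  exact hq

theorem exists_cycle {p q : ℕ} (hp : 2 ≤ p) (hpq : p ≤ q) :
    ∃ c : Perm (Fin q), c.IsCycle ∧ c.support.card = p := by
  classical
  let f : Fin p ≃ {x : Fin q // x ∈ Set.range (Fin.castLE hpq)} :=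
    Equiv.ofInjective (Fin.castLE hpq) (Fin.castLE_injective hpq)
  refine ⟨(finRotate p).extendDomain f, (isCycle_finRotate_of_le hp).extendDomain f, ?_⟩
  rw [Equiv.Perm.card_support_extend_domain, support_finRotate_of_le hp, Finset.card_univ,
    Fintype.card_fin]

theorem card_perm_fin (n : ℕ) : Nat.card (Perm (Fin n)) = n.factorial := by
  rw [Nat.card_perm, Nat.card_eq_fintype_card, Fintype.card_fin]

theorem no_hall_odd {π : Set ℕ} {p q : ℕ} (hp : p.Prime) (hq : q.Prime) (hpq : p < q)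
    (hpπ : p ∈ π) (hqπ : q ∈ π) (h2 : 2 ∉ π) : ¬ Cfsg.IsEPiGroup π (Perm (Fin q)) := by
  rintro ⟨H, hH⟩
  have : Fact p.Prime := ⟨hp⟩
  have : Fact q.Prime := ⟨hq⟩
  have hqH : q ∣ Nat.card H :=
    hall_dvd hH hq hqπ (by rw [card_perm_fin]; exact Nat.dvd_factorial hq.pos le_rfl)
  obtain ⟨σ', hσ'⟩ := exists_prime_orderOf_dvd_card' q hqH
  have hprim : IsPreprimitive H (Fin q) :=
    prim_of_order hq H σ'.1 σ'.2 ((Subgroup.orderOf_coe σ').trans hσ')
  obtain ⟨c0, hc0cyc, hc0supp⟩ := exists_cycle (p := p) (q := q) hp.two_le hpq.le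
  have hc0ord : orderOf c0 = p := by rw [hc0cyc.orderOf, hc0supp]
  obtain ⟨g, hg⟩ := hall_conj_mem hH hp hpπ c0 hc0ord
  have hτcyc : (g⁻¹ * c0 * g).IsCycle := by
    have := hc0cyc.conj (g := g⁻¹)
    rwa [inv_inv] at this
  have hτsupp : (g⁻¹ * c0 * g).support.card = p := by
    have := Equiv.Perm.card_support_conj (σ := g⁻¹) (τ := c0)
    rw [inv_inv] at this
    rw [this, hc0supp]
  have htr := Equiv.Perm.isPretransitive_of_isCycle_mem hτcyc hg
  have hs : (((g⁻¹ * c0 * g).support : Set (Fin q))ᶜ).ncard = (q - p - 1) + 1 := by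
    rw [Set.ncard_compl, Set.ncard_coe_finset, hτsupp, Nat.card_eq_fintype_card, Fintype.card_fin]
    omega
  have h2t : IsMultiplyPretransitive H (Fin q) 2 :=
    hprim.is_two_pretransitive hs
      (by rw [Nat.card_eq_fintype_card, Fintype.card_fin]; have := hp.two_le; omega) htr
  have hq2 : 2 ≤ q := hq.two_le
  have hne : (⟨0, by omega⟩ : Fin q) ≠ ⟨1, by omega⟩ := by simp [Fin.ext_iff]
  obtain ⟨h, h01, h10⟩ := (is_two_pretransitive_iff.mp h2t) hne hne.symm
  have key : ∀ k : ℕ, (h ^ (2 * k)) • (⟨0, by omega⟩ : Fin q) = ⟨0, by omega⟩ ∧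
      (h ^ (2 * k)) • (⟨1, by omega⟩ : Fin q) = ⟨1, by omega⟩ := by
    intro k
    induction k with
    | zero => simp
    | succ k ih =>
      have hpow : h ^ (2 * (k + 1)) = h ^ (2 * k) * (h * h) := by
        rw [mul_add, pow_add, mul_one, pow_two]
      rw [hpow]
      constructor
      · rw [mul_smul, mul_smul, h01, h10, ih.1]
      · rw [mul_smul, mul_smul, h10, h01, ih.2]
  have heven : 2 ∣ orderOf h := by
    by_contra hodd
    have hodd' : Odd (orderOf h) := by
      rw [← Nat.not_even_iff_odd, even_iff_two_dvd]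
      exact hodd
    obtain ⟨k, hk⟩ := hodd'
    have h1 : (h ^ (2 * k + 1)) • (⟨0, by omega⟩ : Fin q) = ⟨1, by omega⟩ := by
      rw [pow_succ, mul_smul, h01, (key k).2]
    rw [← hk, pow_orderOf_eq_one, one_smul] at h1
    exact hne h1
  have : 2 ∣ Nat.card H := heven.trans (orderOf_dvd_natCard h)
  exact h2 (hH.1 2 Nat.prime_two this)

theorem no_hall_swap {π : Set ℕ} {q l : ℕ} (hq : q.Prime) (hl : l.Prime) (hlq : l < q)
    (h2π : 2 ∈ π) (hqπ : q ∈ π) (hlπ : l ∉ π) : ¬ Cfsg.IsEPiGroup π (Perm (Fin q)) := by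
  rintro ⟨H, hH⟩
  have : Fact q.Prime := ⟨hq⟩
  have hqH : q ∣ Nat.card H :=
    hall_dvd hH hq hqπ (by rw [card_perm_fin]; exact Nat.dvd_factorial hq.pos le_rfl)
  obtain ⟨σ', hσ'⟩ := exists_prime_orderOf_dvd_card' q hqH
  have hprim : IsPreprimitive H (Fin q) :=
    prim_of_order hq H σ'.1 σ'.2 ((Subgroup.orderOf_coe σ').trans hσ')
  have hq2 : 2 ≤ q := hq.two_le
  have hne : (⟨0, by omega⟩ : Fin q) ≠ ⟨1, by omega⟩ := by simp [Fin.ext_iff]
  have hsw0 : Equiv.Perm.IsSwap (Equiv.swap (⟨0, by omega⟩ : Fin q) ⟨1, by omega⟩) :=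
    ⟨_, _, hne, rfl⟩
  obtain ⟨g, hg⟩ := hall_conj_mem hH Nat.prime_two h2π _ hsw0.orderOf
  have hswap : Equiv.Perm.IsSwap
      (g⁻¹ * Equiv.swap (⟨0, by omega⟩ : Fin q) ⟨1, by omega⟩ * g) := by
    rw [← Equiv.Perm.card_support_eq_two]
    have := Equiv.Perm.card_support_conj (σ := g⁻¹)
      (τ := Equiv.swap (⟨0, by omega⟩ : Fin q) ⟨1, by omega⟩)
    rw [inv_inv] at this
    rw [this, Equiv.Perm.card_support_eq_two]
    exact hsw0
  have htop : H = ⊤ :=
    Equiv.Perm.subgroup_eq_top_of_isPreprimitive_of_isSwap_mem hprim _ hswap hg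
  have : l ∣ Nat.card H := by
    rw [htop, Subgroup.card_top, card_perm_fin]
    exact Nat.dvd_factorial hl.pos hlq.le
  exact hlπ (hH.1 l hl this)

theorem no_hall_index {π : Set ℕ} {r : ℕ} (hr : r.Prime) (hr5 : 5 ≤ r) (hrπ : r ∉ π)
    (hlt : ∀ l : ℕ, l.Prime → l < r → l ∈ π) (hgt : ∀ l : ℕ, l.Prime → l ∈ π → l < r) :
    ¬ Cfsg.IsEPiGroup π (Perm (Fin (r + 1))) := by
  rintro ⟨H, hH⟩
  have hcard := card_perm_fin (r + 1)
  have hmul := H.card_mul_index
  have hrH : ¬ r ∣ Nat.card H := fun h => hrπ (hH.1 r hr h)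
  have hfact : (r + 1).factorial = (r + 1) * (r * (r - 1).factorial) := by
    rw [Nat.factorial_succ]
    congr 1
    obtain ⟨m, rfl⟩ : ∃ m, r = m + 1 := ⟨r - 1, by omega⟩
    rw [Nat.factorial_succ]
    simp
  have hrI : r ∣ H.index := by
    have : r ∣ Nat.card H * H.index := by
      rw [hmul, hcard]
      exact Nat.dvd_factorial hr.pos (Nat.le_succ r)
    exact (hr.dvd_mul.mp this).resolve_left hrH
  have hIdvd : H.index ∣ (r + 1).factorial := by
    rw [← hcard, ← hmul]
    exact dvd_mul_left _ _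
  have hr1 : ¬ r ∣ r + 1 := by
    intro h
    have : r ∣ 1 := (Nat.dvd_add_right (dvd_refl r)).mp h
    have := Nat.le_of_dvd one_pos this
    omega
  have hr2 : ¬ r ∣ (r - 1).factorial := by
    rw [hr.dvd_factorial]
    omega
  have hI : H.index = r := by
    have hIne : H.index ≠ 0 := Subgroup.index_ne_zero_of_finite
    have hpow : H.index = r ^ H.index.primeFactorsList.length := by
      apply Nat.eq_prime_pow_of_unique_prime_dvd hIne
      intro d hd hdd
      have hdπ : d ∉ π := fun hdπ => hH.2 d hd hdπ hdd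
      have hdle : d ≤ r + 1 := (hd.dvd_factorial).mp (hdd.trans hIdvd)
      have hdge : r ≤ d := by
        by_contra hlt'
        exact hdπ (hlt d hd (by omega))
      rcases Nat.lt_or_ge d (r + 1) with h | h
      · omega
      · have hd' : d = r + 1 := le_antisymm hdle h
        exfalso
        have h2r : 2 ∣ r + 1 := by
          have hodd : Odd r := hr.odd_of_ne_two (by omega)
          obtain ⟨m, hm⟩ := hodd
          exact ⟨m + 1, by omega⟩
        rw [← hd'] at h2r
        have := (Nat.prime_dvd_prime_iff_eq Nat.prime_two hd).mp h2r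
        omega
    rcases Nat.lt_or_ge H.index.primeFactorsList.length 2 with hlen | hlen
    · have hlen0 : H.index.primeFactorsList.length ≠ 0 := by
        intro h0
        rw [h0, pow_zero] at hpow
        rw [hpow] at hrI
        have := Nat.le_of_dvd one_pos hrI
        omega
      have hlen1 : H.index.primeFactorsList.length = 1 := by omega
      rw [hlen1, pow_one] at hpow
      exact hpow
    · exfalso
      have hsq : r ^ 2 ∣ (r + 1).factorial :=
        (pow_dvd_pow r hlen).trans (hpow ▸ hIdvd)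
      rw [hfact, pow_two] at hsq
      have h1 : r * r ∣ r * ((r + 1) * (r - 1).factorial) := by
        have : (r + 1) * (r * (r - 1).factorial) = r * ((r + 1) * (r - 1).factorial) := by ring
        rwa [this] at hsq
      have h2 : r ∣ (r + 1) * (r - 1).factorial :=
        Nat.dvd_of_mul_dvd_mul_left hr.pos h1
      rcases hr.dvd_mul.mp h2 with h | h
      · exact hr1 h
      · exact hr2 h
  -- the coset action
  have hker : (MulAction.toPermHom (Perm (Fin (r + 1))) (Perm (Fin (r + 1)) ⧸ H)).ker ≠ ⊥ := by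
    intro hbot
    have hinj : Function.Injective
        (MulAction.toPermHom (Perm (Fin (r + 1))) (Perm (Fin (r + 1)) ⧸ H)) :=
      (MonoidHom.ker_eq_bot_iff _).mp hbot
    have hle := Nat.card_le_card_of_injective _ hinj
    rw [hcard, Nat.card_perm, ← Subgroup.index_eq_card, hI, Nat.factorial_succ] at hle
    have hpos : 0 < r.factorial := Nat.factorial_pos r
    nlinarith
  rw [← Subgroup.normalCore_eq_ker] at hker
  have hnt : Nontrivial H.normalCore := (Subgroup.nontrivial_iff_ne_bot _).mpr hker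
  have hA : alternatingGroup (Fin (r + 1)) ≤ H.normalCore :=
    Equiv.Perm.alternatingGroup_le_of_normal
      (by rw [Nat.card_eq_fintype_card, Fintype.card_fin]; omega) hnt
  have hA' : alternatingGroup (Fin (r + 1)) ≤ H := hA.trans (Subgroup.normalCore_le H)
  have hdvd := Subgroup.index_dvd_of_le hA'
  haveI : Nontrivial (Fin (r + 1)) := Fin.nontrivial_iff_two_le.mpr (by omega)
  rw [alternatingGroup.index_eq_two, hI] at hdvd
  have := Nat.le_of_dvd (by norm_num) hdvd
  omega

theorem not_E_of {π : Set ℕ}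
    (h : ¬ ((∀ p q : ℕ, p.Prime → q.Prime → p ∈ π → q ∈ π → p = q) ∨
      ∀ p : ℕ, p.Prime → p ∈ π)) :
    ∃ n : ℕ, ¬ Cfsg.IsEPiGroup π (Perm (Fin n)) := by
  push Not at h
  obtain ⟨⟨p, q, hp, hq, hpπ, hqπ, hpq⟩, ⟨r, hr, hrπ⟩⟩ := h
  by_cases h2 : 2 ∈ π
  · by_cases hIa : ∃ q' l : ℕ, q'.Prime ∧ l.Prime ∧ l < q' ∧ q' ∈ π ∧ l ∉ π
    · obtain ⟨q', l, hq', hl, hlq, hq'π, hlπ⟩ := hIa
      exact ⟨q', no_hall_swap hq' hl hlq h2 hq'π hlπ⟩
    · push Not at hIa
      have hex : ∃ r : ℕ, r.Prime ∧ r ∉ π := ⟨r, hr, hrπ⟩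
      classical
      have hr0 : (Nat.find hex).Prime ∧ Nat.find hex ∉ π := Nat.find_spec hex
      have hmin : ∀ l : ℕ, l.Prime → l < Nat.find hex → l ∈ π := by
        intro l hl hlt
        by_contra hlπ
        exact Nat.find_min hex hlt ⟨hl, hlπ⟩
      have hgt : ∀ l : ℕ, l.Prime → l ∈ π → l < Nat.find hex := by
        intro l hl hlπ
        by_contra hge
        push Not at hge
        rcases hge.lt_or_eq with hlt | heq
        · exact hr0.2 (hIa l (Nat.find hex) hl hr0.1 hlt hlπ)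
        · exact hr0.2 (heq ▸ hlπ)
      have h3 : 3 ∈ π := by
        have : ∃ q1 : ℕ, q1.Prime ∧ q1 ∈ π ∧ q1 ≠ 2 := by
          by_cases hp2 : p = 2
          · exact ⟨q, hq, hqπ, fun hq2 => hpq (hp2.trans hq2.symm)⟩
          · exact ⟨p, hp, hpπ, hp2⟩
        obtain ⟨q1, hq1, hq1π, hq12⟩ := this
        by_cases hq13 : q1 = 3
        · exact hq13 ▸ hq1π
        · have : 3 < q1 := by
            have := hq1.two_le
            omega
          exact hIa q1 3 hq1 Nat.prime_three this hq1π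
      have hr05 : 5 ≤ Nat.find hex := by
        have h2' : Nat.find hex ≠ 2 := fun h => hr0.2 (h ▸ h2)
        have h3' : Nat.find hex ≠ 3 := fun h => hr0.2 (h ▸ h3)
        have h4' : Nat.find hex ≠ 4 := fun h => by
          have := hr0.1
          rw [h] at this
          norm_num at this
        have := hr0.1.two_le
        omega
      exact ⟨Nat.find hex + 1, no_hall_index hr0.1 hr05 hr0.2 hmin hgt⟩
  · rcases lt_or_gt_of_ne hpq with hlt | hgt
    · exact ⟨q, no_hall_odd hp hq hlt hpπ hqπ h2⟩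
    · exact ⟨p, no_hall_odd hq hp hgt hqπ hpπ h2⟩

theorem pi_of_pgroup {G : Type*} [Group G] [Finite G] {π : Set ℕ} {p : ℕ} (hp : p.Prime)
    (hpπ : p ∈ π) {L : Subgroup G} (hL : IsPGroup p L) : Cfsg.IsPiSubgroup π L := by
  have : Fact p.Prime := ⟨hp⟩
  intro l hl hd
  obtain ⟨k, hk⟩ := IsPGroup.iff_card.mp hL
  rw [hk] at hd
  exact ((Nat.prime_dvd_prime_iff_eq hl hp).mp (hl.dvd_of_dvd_pow hd)) ▸ hpπ

theorem not_prime_dvd_one {l : ℕ} (hl : l.Prime) : ¬ l ∣ 1 := by
  intro hd
  have := Nat.le_of_dvd one_pos hd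
  have := hl.two_le
  omega

theorem E_of_D {G : Type} [Group G] [Finite G] {π : Set ℕ} (hD : Cfsg.IsDPiGroup π G) :
    Cfsg.IsEPiGroup π G := by
  have hfin : {K : Subgroup G | Cfsg.IsPiSubgroup π K}.Finite := Set.toFinite _
  have hbot : Cfsg.IsPiSubgroup π (⊥ : Subgroup G) := by
    intro p hp hd
    rw [Subgroup.card_bot] at hd
    exact absurd hd (not_prime_dvd_one hp)
  obtain ⟨H0, -, hH0⟩ := hfin.exists_le_maximal (a := ⊥) hbot
  have hH0' : Maximal (Cfsg.IsPiSubgroup π) H0 := hH0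
  refine ⟨H0, hH0'.1, ?_⟩
  intro p hp hpπ hdvd
  have : Fact p.Prime := ⟨hp⟩
  have P : Sylow p G := default
  have hPpi : Cfsg.IsPiSubgroup π (P : Subgroup G) := pi_of_pgroup hp hpπ P.isPGroup'
  obtain ⟨M, hPM, hM⟩ := hfin.exists_le_maximal (a := (P : Subgroup G)) hPpi
  have hM' : Maximal (Cfsg.IsPiSubgroup π) M := hM
  obtain ⟨g, hg⟩ := hD H0 M hH0' hM'
  have hcard : Nat.card M = Nat.card H0 := by
    rw [hg, Subgroup.card_map_of_injective (MulAut.conj g).injective]
  have h1 : Nat.card P ∣ Nat.card H0 := hcard ▸ Subgroup.card_dvd_of_le hPM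
  have h2 := P.card_eq_multiplicity
  have h3 : p ^ ((Nat.card G).factorization p + 1) ∣ Nat.card G := by
    have h4 : p ^ (Nat.card G).factorization p * p ∣ Nat.card H0 * H0.index :=
      Nat.mul_dvd_mul ((dvd_of_eq h2.symm).trans h1) hdvd
    rwa [Subgroup.card_mul_index, ← pow_succ] at h4
  exact Nat.pow_succ_factorization_not_dvd (Nat.card_pos.ne') hp h3

theorem E_of_cond {G : Type} [Group G] [Finite G] {π : Set ℕ}
    (h : (∀ p q : ℕ, p.Prime → q.Prime → p ∈ π → q ∈ π → p = q) ∨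
      ∀ p : ℕ, p.Prime → p ∈ π) :
    Cfsg.IsEPiGroup π G := by
  rcases h with hA | hB
  · by_cases hex : ∃ p : ℕ, p.Prime ∧ p ∈ π
    · obtain ⟨p, hp, hpπ⟩ := hex
      have : Fact p.Prime := ⟨hp⟩
      have P : Sylow p G := default
      refine ⟨P, pi_of_pgroup hp hpπ P.isPGroup', ?_⟩
      intro l hl hlπ hd
      have := hA l p hl hp hlπ hpπ
      subst this
      exact sylow_not_dvd_index P hd
    · push Not at hex
      refine ⟨⊥, ?_, ?_⟩
      · intro l hl hd
        rw [Subgroup.card_bot] at hd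
        exact absurd hd (not_prime_dvd_one hl)
      · intro l hl hlπ
        exact absurd hlπ (hex l hl)
  · refine ⟨⊤, fun l hl _ => hB l hl, ?_⟩
    intro l hl _ hd
    rw [Subgroup.index_top] at hd
    exact absurd hd (not_prime_dvd_one hl)

theorem D_of_cond {G : Type} [Group G] [Finite G] {π : Set ℕ}
    (h : (∀ p q : ℕ, p.Prime → q.Prime → p ∈ π → q ∈ π → p = q) ∨
      ∀ p : ℕ, p.Prime → p ∈ π) :
    Cfsg.IsDPiGroup π G := by
  intro H K hH hK
  rcases h with hA | hB
  · by_cases hex : ∃ p : ℕ, p.Prime ∧ p ∈ π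
    · obtain ⟨p, hp, hpπ⟩ := hex
      have : Fact p.Prime := ⟨hp⟩
      have hiff : ∀ L : Subgroup G, Cfsg.IsPiSubgroup π L → IsPGroup p L := by
        intro L hL
        have : Nat.card L = p ^ (Nat.card L).primeFactorsList.length :=
          Nat.eq_prime_pow_of_unique_prime_dvd Nat.card_pos.ne'
            (fun {d} hd hdd => hA d p hd hp (hL d hd hdd) hpπ)
        exact IsPGroup.of_card this
      let PH : Sylow p G := ⟨H, hiff H hH.1, fun {Q} hQ hle =>
        le_antisymm (hH.2 (pi_of_pgroup hp hpπ hQ) hle) hle⟩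
      let PK : Sylow p G := ⟨K, hiff K hK.1, fun {Q} hQ hle =>
        le_antisymm (hK.2 (pi_of_pgroup hp hpπ hQ) hle) hle⟩
      obtain ⟨g, hg⟩ := MulAction.exists_smul_eq G PH PK
      refine ⟨g, ?_⟩
      have h1 : ((g • PH : Sylow p G) : Subgroup G) = (PK : Subgroup G) := by rw [hg]
      rw [Sylow.coe_subgroup_smul] at h1
      exact h1.symm
    · push Not at hex
      have hbot : ∀ L : Subgroup G, Cfsg.IsPiSubgroup π L → L = ⊥ := by
        intro L hL
        rw [← Subgroup.card_eq_one]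
        by_contra hne
        obtain ⟨l, hl, hd⟩ := Nat.exists_prime_and_dvd hne
        exact hex l hl (hL l hl hd)
      rw [hbot H hH.1, hbot K hK.1]
      exact ⟨1, by simp⟩
  · have htop : ∀ L : Subgroup G, Maximal (Cfsg.IsPiSubgroup π) L → L = ⊤ := by
      intro L hL
      have : Cfsg.IsPiSubgroup π (⊤ : Subgroup G) := fun l hl _ => hB l hl
      exact top_le_iff.mp (hL.2 this le_top)
    rw [htop H hH, htop K hK]
    exact ⟨1, by simp⟩

end lemmas

/-- For a set of primes π the following are equivalent: every finite group has a Hall π-subgroup; in every finite group the maximal π-subgroups are pairwise conjugate; π contains at most one prime or contains every prime. -/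
theorem result (π : Set ℕ) :
    ((∀ (G : Type) [Group G] [Finite G], Cfsg.IsEPiGroup π G) ↔
      ((∀ p q : ℕ, p.Prime → q.Prime → p ∈ π → q ∈ π → p = q) ∨ ∀ p : ℕ, p.Prime → p ∈ π)) ∧
    ((∀ (G : Type) [Group G] [Finite G], Cfsg.IsDPiGroup π G) ↔
      ((∀ p q : ℕ, p.Prime → q.Prime → p ∈ π → q ∈ π → p = q) ∨ ∀ p : ℕ, p.Prime → p ∈ π)) := by
  refine ⟨⟨fun h => ?_, fun h G _ _ => E_of_cond h⟩, ⟨fun h => ?_, fun h G _ _ => D_of_cond h⟩⟩
  · by_contra hc
    obtain ⟨n, hn⟩ := not_E_of hc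
    exact hn (h (Perm (Fin n)))
  · by_contra hc
    obtain ⟨n, hn⟩ := not_E_of hc
    exact hn (E_of_D (h (Perm (Fin n))))

end Cfsg.Agent.S3878
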