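import Cfsg.Statements.S3895
import Mathlib
import Cfsg.Agent.Helper21.K2Classes

set_option autoImplicit false
set_option linter.style.haveILetI false
open Cfsg

namespace Cfsg.Agent.S3895

/-- Let G be a finite group with Sylow 2-subgroup P, and write k₂(G) for the number of conjugacy classes of G consisting of 2-elements (elements of 2-power order, the identity included). Then k₂(G) > |P|/2 if and only if G has a normal 2-complement and P has more than |P|/2 conjugacy classes. -/
theorem result {G : Type*} [Group G] [Finite G] (P : Sylow 2 G) :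
    Nat.card ↥(P : Subgroup G) < 2 * Nat.card {c : ConjClasses G // ∀ x ∈ c.carrier, ∃ k : ℕ, orderOf x = 2 ^ k} ↔
      Cfsg.HasNormalPComplement 2 G ∧ Nat.card ↥(P : Subgroup G) < 2 * Nat.card (ConjClasses ↥(P : Subgroup G)) := by
  haveI : Fact (Nat.Prime 2) := ⟨Nat.prime_two⟩
  constructor
  · intro h
    have h1 := Cfsg.Agent.Helper21.k2_le_kP P
    exact ⟨Cfsg.Agent.Helper21.k2_normal_complement P h, by omega⟩
  · rintro ⟨hc, h⟩
    have h1 := Cfsg.Agent.Helper21.kP_le_k2_of_complement P hc
    omega

end Cfsg.Agent.S3895
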