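import Cfsg.Statements.S3897
import Mathlib
import Cfsg.Agent.Helper21.KpClasses

set_option autoImplicit false
set_option linter.style.haveILetI false
open Cfsg

namespace Cfsg.Agent.S3897

/-- Let p be an odd prime and G a finite group with Sylow p-subgroup P, and write k_p(G) for the number of conjugacy classes of G consisting of p-elements (elements of p-power order, the identity included). Then k_p(G) > (p + 1)|P|/(2p) if and only if G has a normal p-complement and P is abelian. -/
theorem result {G : Type*} [Group G] [Finite G] {p : ℕ} [Fact p.Prime] (hp : p ≠ 2) (P : Sylow p G) :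
    (p + 1) * Nat.card ↥(P : Subgroup G) < 2 * p * Nat.card {c : ConjClasses G // ∀ x ∈ c.carrier, ∃ k : ℕ, orderOf x = p ^ k} ↔
      Cfsg.HasNormalPComplement p G ∧ IsMulCommutative ↥(P : Subgroup G) := by
  have hpp : p.Prime := Fact.out
  constructor
  · intro h
    have hA := Cfsg.Agent.Helper21.pclasses_mul_le P
    have e5 := Cfsg.Agent.Helper21.kp_arith p _ _ _ _ hpp.two_le Nat.card_pos h hA
    have hCN : Subgroup.centralizer ((P : Subgroup G) : Set G)
        ≤ Subgroup.normalizer ((P : Subgroup G) : Set G) := Subgroup.centralizer_le_normalizer _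
    have hdvd : Nat.card (Subgroup.centralizer ((P : Subgroup G) : Set G))
        ∣ Nat.card (Subgroup.normalizer ((P : Subgroup G) : Set G)) := Subgroup.card_dvd_of_le hCN
    obtain ⟨j, hj⟩ := hdvd
    have hc0 : 0 < Nat.card (Subgroup.centralizer ((P : Subgroup G) : Set G)) := Nat.card_pos
    have hn0 : 0 < Nat.card (Subgroup.normalizer ((P : Subgroup G) : Set G)) := Nat.card_pos
    have hj1 : j = 1 := by
      have h2 : j < 2 := by
        by_contra hj2
        push Not at hj2
        have := Nat.mul_le_mul_left (Nat.card (Subgroup.centralizer ((P : Subgroup G) : Set G))) hj2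
        omega
      have h0 : j ≠ 0 := by
        rintro rfl
        rw [mul_zero] at hj
        omega
      omega
    have hNC : Subgroup.normalizer ((P : Subgroup G) : Set G)
        ≤ Subgroup.centralizer ((P : Subgroup G) : Set G) := by
      have := Subgroup.eq_of_le_of_card_ge hCN (by rw [hj, hj1, mul_one])
      rw [this]
    refine ⟨⟨P, (MonoidHom.transferSylow P hNC).ker, inferInstance,
      MonoidHom.ker_transferSylow_isComplement' P hNC⟩, ?_⟩
    refine ⟨⟨fun x y => ?_⟩⟩
    have hx : (x : G) ∈ Subgroup.centralizer ((P : Subgroup G) : Set G) :=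
      hNC (Subgroup.le_normalizer x.2)
    apply Subtype.ext
    exact (Subgroup.mem_centralizer_iff.mp hx y y.2).symm
  · rintro ⟨hc, hab⟩
    have h1 := Cfsg.Agent.Helper21.card_le_pclasses_of_complement P hc hab
    have ha0 : 0 < Nat.card (P : Subgroup G) := Nat.card_pos
    have hp2 : 2 ≤ p := hpp.two_le
    calc (p + 1) * Nat.card (P : Subgroup G) < 2 * p * Nat.card (P : Subgroup G) :=
          Nat.mul_lt_mul_of_pos_right (by omega) ha0
      _ ≤ 2 * p * Nat.card {c : ConjClasses G // ∀ x ∈ c.carrier, ∃ k : ℕ, orderOf x = p ^ k} :=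
          Nat.mul_le_mul_left _ h1

end Cfsg.Agent.S3897
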