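import Cfsg.Statements.S3899
import Mathlib
import Cfsg.Agent.Helper21.KpiClasses
import Cfsg.Agent.S3897

set_option autoImplicit false
set_option linter.style.haveILetI false
open Cfsg

namespace Cfsg.Agent.S3899

/-- Let π be a finite non-empty set of odd primes with smallest member p and G a finite group. Write k_π(G) for the number of conjugacy classes of G consisting of π-elements (elements all of whose order's prime divisors lie in π) and |G|_π for the π-part of the order of G. If k_π(G) > (p + 1)|G|_π/(2p), then G has a normal π-complement (a normal subgroup of order prime to π whose index is a π-number) and an abelian Hall π-subgroup. -/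
theorem result {G : Type*} [Group G] [Finite G] (π : Finset ℕ) (hπ : ∀ r ∈ π, r.Prime) (h2 : 2 ∉ π) (p : ℕ) (hp : p ∈ π)
    (hmin : ∀ r ∈ π, p ≤ r) (hk : (p + 1) * π.prod (fun r => r ^ (Nat.card G).factorization r) < 2 * p * Nat.card {c : ConjClasses G // ∀ x ∈ c.carrier, ∀ r : ℕ, r.Prime → r ∣ orderOf x → r ∈ π}) :
    (∃ N : Subgroup G, N.Normal ∧ (∀ r : ℕ, r.Prime → r ∣ Nat.card ↥N → r ∉ π) ∧ ∀ r : ℕ, r.Prime → r ∣ N.index → r ∈ π) ∧ ∃ H : Subgroup G, Cfsg.IsPiHall (↑π : Set ℕ) H ∧ IsMulCommutative ↥H := by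
  classical
  have hkey : ∀ r ∈ π, ∃ M : Subgroup G, M.Normal ∧ ¬ r ∣ Nat.card M ∧
      (∃ a : ℕ, M.index = r ^ a) ∧ ∀ x y : G, x * y * x⁻¹ * y⁻¹ ∈ M := by
    intro r hr
    have hrp : r.Prime := hπ r hr
    haveI : Fact r.Prime := ⟨hrp⟩
    have hr2 : r ≠ 2 := fun h => h2 (h ▸ hr)
    obtain ⟨P⟩ : Nonempty (Sylow r G) := Sylow.nonempty
    have h1 := Cfsg.Agent.Helper21.card_KS_union_le (G := G) {r} (π.erase r)
      (fun s hs => hπ s (Finset.mem_of_mem_erase hs))
    have h2' : ({r} : Finset ℕ) ∪ π.erase r = π := by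
      rw [Finset.singleton_union, Finset.insert_erase hr]
    rw [h2'] at h1
    have h3 := Finset.mul_prod_erase π (fun s => s ^ (Nat.card G).factorization s) hr
    have hconv : ∀ c : Cfsg.Agent.Helper21.KS G {r}, ∀ x ∈ c.1.carrier,
        ∃ k : ℕ, orderOf x = r ^ k := by
      intro c x hx
      exact ⟨_, Nat.eq_prime_pow_of_unique_prime_dvd (orderOf_pos x).ne'
        (fun {d} hd hdx => Finset.mem_singleton.mp (c.2 x hx d hd hdx))⟩
    have h4 : Nat.card (Cfsg.Agent.Helper21.KS G {r})
        ≤ Nat.card {c : ConjClasses G // ∀ x ∈ c.carrier, ∃ k : ℕ, orderOf x = r ^ k} :=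
      Nat.card_le_card_of_injective (fun c => ⟨c.1, hconv c⟩)
        (fun c c' hcc => Subtype.ext (show c.1 = c'.1 from
          congrArg (fun q : {c : ConjClasses G // ∀ x ∈ c.carrier, ∃ k : ℕ, orderOf x = r ^ k} =>
            q.1) hcc))
    obtain ⟨E, hE⟩ : ∃ E : ℕ, E = (π.erase r).prod (fun s => s ^ (Nat.card G).factorization s) :=
      ⟨_, rfl⟩
    rw [← hE] at h1 h3
    have hP : Nat.card (P : Subgroup G) = r ^ (Nat.card G).factorization r :=
      P.card_eq_multiplicity
    obtain ⟨kr, hkr⟩ : ∃ kr : ℕ, kr = Nat.card {c : ConjClasses G //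
        ∀ x ∈ c.carrier, ∃ k : ℕ, orderOf x = r ^ k} := ⟨_, rfl⟩
    rw [← hkr] at h4
    have h5 : (p + 1) * (Nat.card (P : Subgroup G) * E) < 2 * p * (kr * E) := by
      calc (p + 1) * (Nat.card (P : Subgroup G) * E)
          = (p + 1) * π.prod (fun s => s ^ (Nat.card G).factorization s) := by rw [hP, ← h3]
        _ < 2 * p * Nat.card (Cfsg.Agent.Helper21.KS G π) := hk
        _ ≤ 2 * p * (Nat.card (Cfsg.Agent.Helper21.KS G {r}) * E) := Nat.mul_le_mul_left _ h1
        _ ≤ 2 * p * (kr * E) := Nat.mul_le_mul_left _ (Nat.mul_le_mul_right _ h4)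
    have h6 : (p + 1) * Nat.card (P : Subgroup G) < 2 * p * kr := by
      have : (p + 1) * Nat.card (P : Subgroup G) * E < 2 * p * kr * E := by
        calc (p + 1) * Nat.card (P : Subgroup G) * E
            = (p + 1) * (Nat.card (P : Subgroup G) * E) := by ring
          _ < 2 * p * (kr * E) := h5
          _ = 2 * p * kr * E := by ring
      exact Nat.lt_of_mul_lt_mul_right this
    have hpr : p ≤ r := hmin r hr
    have h7 : (r + 1) * Nat.card (P : Subgroup G) < 2 * r * kr := by
      have e1 : (r + 1) * Nat.card (P : Subgroup G) * p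
          ≤ (p + 1) * Nat.card (P : Subgroup G) * r := by
        have : (r + 1) * p ≤ (p + 1) * r := by
          have e : (r + 1) * p = r * p + p := by ring
          have e' : (p + 1) * r = r * p + r := by ring
          omega
        calc (r + 1) * Nat.card (P : Subgroup G) * p
            = ((r + 1) * p) * Nat.card (P : Subgroup G) := by ring
          _ ≤ ((p + 1) * r) * Nat.card (P : Subgroup G) := Nat.mul_le_mul_right _ this
          _ = (p + 1) * Nat.card (P : Subgroup G) * r := by ring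
      have e2 : (p + 1) * Nat.card (P : Subgroup G) * r < 2 * p * kr * r :=
        Nat.mul_lt_mul_of_pos_right h6 hrp.pos
      have e3 : (r + 1) * Nat.card (P : Subgroup G) * p < 2 * r * kr * p := by
        calc (r + 1) * Nat.card (P : Subgroup G) * p
            ≤ (p + 1) * Nat.card (P : Subgroup G) * r := e1
          _ < 2 * p * kr * r := e2
          _ = 2 * r * kr * p := by ring
      exact Nat.lt_of_mul_lt_mul_right e3
    rw [hkr] at h7
    obtain ⟨hc, hab⟩ := (Cfsg.Agent.S3897.result hr2 P).mp h7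
    obtain ⟨M, hMn, hpM, hidx, hcomm⟩ := Cfsg.Agent.Helper21.normal_complement_facts P hc hab
    exact ⟨M, hMn, hpM, ⟨_, hidx.trans hP⟩, hcomm⟩
  choose! M hMn hpM hidx hcomm using hkey
  obtain ⟨N, hNdef⟩ : ∃ N : Subgroup G, N = ⨅ r ∈ π, M r := ⟨_, rfl⟩
  have hNle : ∀ r ∈ π, N ≤ M r := fun r hr => by rw [hNdef]; exact iInf₂_le r hr
  have hNmem : ∀ x : G, (∀ r ∈ π, x ∈ M r) → x ∈ N := by
    intro x hx
    rw [hNdef]
    simp only [Subgroup.mem_iInf]
    exact hx
  have hNn : N.Normal := by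
    rw [hNdef]
    apply Subgroup.normal_iInf_normal
    intro r
    apply Subgroup.normal_iInf_normal
    intro hr
    exact hMn r hr
  have hcommN : ∀ x y : G, x * y * x⁻¹ * y⁻¹ ∈ N :=
    fun x y => hNmem _ (fun r hr => hcomm r hr x y)
  have hb : ∀ r : ℕ, r.Prime → r ∣ Nat.card N → r ∉ π := by
    intro r _ hrN hr
    exact hpM r hr (hrN.trans (Subgroup.card_dvd_of_le (hNle r hr)))
  have hc : ∀ r : ℕ, r.Prime → r ∣ N.index → r ∈ π := by
    intro r hrp hrN
    by_contra hr
    haveI : Fact r.Prime := ⟨hrp⟩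
    obtain ⟨R⟩ : Nonempty (Sylow r G) := Sylow.nonempty
    have hRN : (R : Subgroup G) ≤ N := by
      intro x hx
      apply hNmem
      intro s hs
      haveI := hMn s hs
      obtain ⟨a, ha⟩ := hidx s hs
      have h1 : orderOf (QuotientGroup.mk' (M s) x) ∣ s ^ a := by
        rw [← ha, Subgroup.index_eq_card]; exact orderOf_dvd_natCard _
      obtain ⟨k, hk⟩ := R.isPGroup' ⟨x, hx⟩
      have h2 : orderOf (QuotientGroup.mk' (M s) x) ∣ r ^ k := by
        apply orderOf_dvd_of_pow_eq_one
        rw [← map_pow]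
        have h3 : x ^ r ^ k = 1 := by
          have := congrArg Subtype.val hk
          simpa using this
        rw [h3, map_one]
      have hsr : s ≠ r := fun h => hr (h ▸ hs)
      have h3 : orderOf (QuotientGroup.mk' (M s) x) = 1 := by
        have hcop : Nat.Coprime (s ^ a) (r ^ k) :=
          Nat.Coprime.pow _ _ ((Nat.coprime_primes (hπ s hs) hrp).mpr hsr)
        exact Nat.eq_one_of_dvd_one (hcop ▸ Nat.dvd_gcd h1 h2)
      rw [orderOf_eq_one_iff] at h3
      exact (QuotientGroup.eq_one_iff _).mp h3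
    have h4 := Subgroup.index_dvd_of_le hRN
    exact R.not_dvd_index (hrN.trans h4)
  refine ⟨⟨N, hNn, hb, hc⟩, ?_⟩
  have hcop : Nat.Coprime (Nat.card N) N.index := by
    apply Nat.coprime_of_dvd
    intro k hk hkN hkI
    exact hb k hk hkN (hc k hk hkI)
  haveI := hNn
  obtain ⟨H, hH⟩ := Subgroup.exists_right_complement'_of_coprime hcop
  have hcard : Nat.card N * Nat.card H = Nat.card G := hH.card_mul_card
  have hHcard : Nat.card H = N.index := by
    have := Subgroup.card_mul_index N
    exact Nat.eq_of_mul_eq_mul_left Nat.card_pos (hcard.trans this.symm)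
  have hHidx : H.index = Nat.card N := by
    have := Subgroup.card_mul_index H
    exact Nat.eq_of_mul_eq_mul_left (Nat.card_pos (α := H))
      (this.trans (hcard.symm.trans (mul_comm _ _)))
  refine ⟨H, ⟨?_, ?_⟩, ?_⟩
  · intro q hq hqH
    rw [hHcard] at hqH
    exact Finset.mem_coe.mpr (hc q hq hqH)
  · intro q hq hqπ hqI
    rw [hHidx] at hqI
    exact hb q hq hqI (Finset.mem_coe.mp hqπ)
  · refine ⟨⟨fun x y => ?_⟩⟩
    have h1 : (x : G) * y * (x : G)⁻¹ * (y : G)⁻¹ ∈ N ⊓ H :=
      ⟨hcommN x y, H.mul_mem (H.mul_mem (H.mul_mem x.2 y.2) (H.inv_mem x.2)) (H.inv_mem y.2)⟩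
    have h2' : N ⊓ H = ⊥ := hH.disjoint.eq_bot
    rw [h2', Subgroup.mem_bot] at h1
    apply Subtype.ext
    have h3 : (x : G) * y = y * x := mul_inv_eq_iff_eq_mul.mp (mul_inv_eq_one.mp h1)
    exact h3

end Cfsg.Agent.S3899
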