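import Cfsg.Statements.S3917
import Mathlib

set_option autoImplicit false
open Cfsg

namespace Cfsg.Agent.S3917

/-- the `n`-torsion subgroup of a commutative group -/
def tors (G : Type*) [CommGroup G] (n : ℕ) : Subgroup G := (powMonoidHom n : G →* G).ker

theorem mem_tors {G : Type*} [CommGroup G] (n : ℕ) (a : G) : a ∈ tors G n ↔ a ^ n = 1 := by
  rw [tors, MonoidHom.mem_ker, powMonoidHom_apply]

theorem tors_card {G : Type*} [CommGroup G] [Finite G]
    (h : ∀ p : ℕ, p.Prime → Nat.card (tors G p) ≤ p) :
    ∀ n : ℕ, 0 < n → Nat.card (tors G n) ≤ n := by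
  intro n
  induction n using Nat.strong_induction_on with
  | _ n ih =>
    intro hn
    rcases Nat.lt_or_ge n 2 with h2 | h2
    · have hn1 : n = 1 := by omega
      subst hn1
      have : tors G 1 = ⊥ := by
        ext a; rw [mem_tors, pow_one, Subgroup.mem_bot]
      rw [this]; simp
    · obtain ⟨p, hp⟩ : ∃ p, p = n.minFac := ⟨_, rfl⟩
      have hpp : p.Prime := hp ▸ Nat.minFac_prime (by omega)
      obtain ⟨m, hm⟩ : p ∣ n := hp ▸ Nat.minFac_dvd n
      have hmpos : 0 < m := by
        rcases Nat.eq_zero_or_pos m with h0 | h0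
        · rw [h0, mul_zero] at hm; omega
        · exact h0
      have hmlt : m < n := by
        rw [hm]
        have := hpp.two_le
        nlinarith
      let ψ : tors G n →* G := (powMonoidHom m).comp (tors G n).subtype
      have hψ : ∀ a : tors G n, ψ a = (a : G) ^ m := fun a => rfl
      have hrange : ψ.range ≤ tors G p := by
        rintro _ ⟨a, rfl⟩
        rw [mem_tors, hψ, ← pow_mul, mul_comm, ← hm]
        exact (mem_tors n (a : G)).mp a.2
      have hker : Nat.card ψ.ker ≤ Nat.card (tors G m) := by
        apply Nat.card_le_card_of_injective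
          (fun a : ψ.ker => (⟨(a : tors G n), by
            rw [mem_tors, ← hψ]; exact a.2⟩ : tors G m))
        intro a b hab
        have h3 : ((a : tors G n) : G) = ((b : tors G n) : G) := by
          simpa using congrArg Subtype.val hab
        exact Subtype.ext (Subtype.ext h3)
      have hcard : Nat.card (tors G n) = Nat.card ψ.ker * Nat.card ψ.range := by
        rw [← Subgroup.index_ker, Subgroup.card_mul_index]
      have h1 : Nat.card ψ.range ≤ p := (Subgroup.card_le_of_le hrange).trans (h p hpp)
      have h2' : Nat.card ψ.ker ≤ m := hker.trans (ih m hmlt hmpos)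
      calc Nat.card (tors G n) = Nat.card ψ.ker * Nat.card ψ.range := hcard
        _ ≤ m * p := Nat.mul_le_mul h2' h1
        _ = n := by rw [hm, mul_comm]

theorem cyclic_card_le {G : Type*} [Group G] [Finite G] (H : Subgroup G) (hH : IsCyclic H)
    (p : ℕ) (hp : 0 < p) (hexp : ∀ a ∈ H, a ^ p = 1) : Nat.card H ≤ p := by
  obtain ⟨g, hg⟩ := IsCyclic.exists_generator (α := H)
  have h1 : orderOf g = Nat.card H := orderOf_eq_card_of_forall_mem_zpowers hg
  rw [← h1]
  apply Nat.le_of_dvd hp
  apply orderOf_dvd_of_pow_eq_one
  apply Subtype.ext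
  simpa using hexp g g.2

/-- Say that a group has self-centralizing non-cyclic subgroups when every non-cyclic subgroup H satisfies C_G(H) ≤ H. A finite abelian group with self-centralizing non-cyclic subgroups is cyclic or elementary abelian of order p² for a prime p. -/
theorem result {G : Type*} [CommGroup G] [Finite G] (hX : (∀ H : Subgroup G, ¬ IsCyclic ↥H → Subgroup.centralizer (H : Set G) ≤ H)) :
    IsCyclic G ∨ ∃ p : ℕ, p.Prime ∧ Nat.card G = p ^ 2 ∧ Monoid.exponent G = p := by
  have hX' : ∀ H : Subgroup G, ¬ IsCyclic ↥H → H = ⊤ := by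
    intro H hH
    have h1 := hX H hH
    have h2 : Subgroup.centralizer (H : Set G) = ⊤ := by
      rw [eq_top_iff]
      intro g _
      rw [Subgroup.mem_centralizer_iff]
      intro h _
      exact mul_comm h g
    rw [h2] at h1
    exact top_le_iff.mp h1
  by_cases hcyc : IsCyclic G
  · left; exact hcyc
  right
  -- there is a prime p with more than p elements of order dividing p
  have hex : ∃ p : ℕ, p.Prime ∧ p < Nat.card (tors G p) := by
    by_contra hcon
    push Not at hcon
    apply hcyc
    have key := tors_card (G := G) hcon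
    classical
    let _ : Fintype G := Fintype.ofFinite G
    apply isCyclic_of_card_pow_eq_one_le
    intro n hn
    have h1 := key n hn
    have h2 : Nat.card (tors G n) = (Finset.univ.filter (fun a : G => a ^ n = 1)).card := by
      rw [Nat.card_eq_fintype_card, ← Fintype.card_subtype]
      apply Fintype.card_congr
      exact Equiv.subtypeEquivRight (fun a => mem_tors n a)
    rw [← h2]; exact h1
  obtain ⟨p, hp, hlt⟩ := hex
  have hnc : ¬ IsCyclic (tors G p) := by
    intro hc
    have := cyclic_card_le (tors G p) hc p hp.pos (fun a ha => (mem_tors p a).mp ha)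
    omega
  have htop := hX' _ hnc
  have hexp : ∀ a : G, a ^ p = 1 := fun a => (mem_tors p a).mp (htop ▸ Subgroup.mem_top a)
  have hGcard : p < Nat.card G := by
    rw [htop] at hlt
    simpa using hlt
  -- pick x ≠ 1
  have hnt : Nontrivial G := by
    rw [← Finite.one_lt_card_iff_nontrivial]
    exact lt_trans hp.one_lt hGcard
  obtain ⟨x, hx⟩ := exists_ne (1 : G)
  have hxord : orderOf x = p := by
    have h1 : orderOf x ∣ p := orderOf_dvd_of_pow_eq_one (hexp x)
    rcases (Nat.dvd_prime hp).mp h1 with h | h
    · exact absurd (orderOf_eq_one_iff.mp h) hx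
    · exact h
  have hxcard : Nat.card (Subgroup.zpowers x) = p := by rw [Nat.card_zpowers, hxord]
  -- pick y outside zpowers x
  obtain ⟨y, hy⟩ : ∃ y : G, y ∉ Subgroup.zpowers x := by
    by_contra hcon
    push Not at hcon
    have : Subgroup.zpowers x = ⊤ := eq_top_iff.mpr fun g _ => hcon g
    rw [this] at hxcard
    simp at hxcard
    omega
  set H := Subgroup.zpowers x ⊔ Subgroup.zpowers y with hH
  have hHnc : ¬ IsCyclic H := by
    intro hc
    have h1 := cyclic_card_le H hc p hp.pos (fun a _ => hexp a)
    have h2 : Subgroup.zpowers x < H := by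
      refine lt_of_le_of_ne le_sup_left ?_
      intro h
      apply hy
      rw [h]
      exact (le_sup_right : Subgroup.zpowers y ≤ H) (Subgroup.mem_zpowers y)
    have h3 : Nat.card (Subgroup.zpowers x) < Nat.card H := by
      by_contra hle
      push Not at hle
      exact h2.ne (Subgroup.eq_of_le_of_card_ge h2.le hle)
    omega
  have hHtop := hX' H hHnc
  -- index of zpowers x divides p
  have hidx : (Subgroup.zpowers x).index ∣ p := by
    have h1 : (Subgroup.zpowers x).relIndex (Subgroup.zpowers y ⊔ Subgroup.zpowers x) =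
        (Subgroup.zpowers x).relIndex (Subgroup.zpowers y) := Subgroup.relIndex_sup_right _ _
    rw [sup_comm, ← hH, hHtop, Subgroup.relIndex_top_right] at h1
    rw [h1]
    have h2 : (Subgroup.zpowers x).relIndex (Subgroup.zpowers y) ∣ Nat.card (Subgroup.zpowers y) :=
      Subgroup.relIndex_dvd_card _ _
    rw [Nat.card_zpowers] at h2
    exact h2.trans (orderOf_dvd_of_pow_eq_one (hexp y))
  have hcard : Nat.card G = p ^ 2 := by
    have h1 := Subgroup.card_mul_index (Subgroup.zpowers x)
    rw [hxcard] at h1
    rcases (Nat.dvd_prime hp).mp hidx with h | h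
    · rw [h, mul_one] at h1; omega
    · rw [h] at h1; rw [← h1, sq]
  refine ⟨p, hp, hcard, ?_⟩
  exact (not_isCyclic_iff_exponent_eq_prime hp hcard).mp hcyc

end Cfsg.Agent.S3917
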