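import Cfsg.Statements.S3920
import Mathlib
import Cfsg.Agent.Helper4.CycNormal

set_option autoImplicit false
open Cfsg

namespace Cfsg.Agent.S3920

open DihedralGroup Cfsg.Agent.Helper4.CycNormal

/-- the subgroup of `D_n` of elements whose index is killed by an additive map -/
def kerSub {n : ℕ} {M : Type*} [AddGroup M] (f : ZMod n →+ M) : Subgroup (DihedralGroup n) where
  carrier := {g | match g with
    | r i => f i = 0
    | sr i => f i = 0}
  one_mem' := by
    show f 0 = 0
    exact map_zero f
  mul_mem' := by
    intro a b ha hb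
    rcases a with i | i <;> rcases b with j | j
    · show f (i + j) = 0
      have hi : f i = 0 := ha
      have hj : f j = 0 := hb
      rw [map_add, hi, hj, add_zero]
    · show f (j - i) = 0
      have hi : f i = 0 := ha
      have hj : f j = 0 := hb
      rw [map_sub, hi, hj, sub_zero]
    · show f (i + j) = 0
      have hi : f i = 0 := ha
      have hj : f j = 0 := hb
      rw [map_add, hi, hj, add_zero]
    · show f (j - i) = 0
      have hi : f i = 0 := ha
      have hj : f j = 0 := hb
      rw [map_sub, hi, hj, sub_zero]
  inv_mem' := by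
    intro a ha
    rcases a with i | i
    · show f (-i) = 0
      have hi : f i = 0 := ha
      rw [map_neg, hi, neg_zero]
    · exact ha

theorem r_mem_kerSub {n : ℕ} {M : Type*} [AddGroup M] (f : ZMod n →+ M) (i : ZMod n) :
    r i ∈ kerSub f ↔ f i = 0 := Iff.rfl

theorem sr_mem_kerSub {n : ℕ} {M : Type*} [AddGroup M] (f : ZMod n →+ M) (i : ZMod n) :
    sr i ∈ kerSub f ↔ f i = 0 := Iff.rfl

/-- For n ≥ 3, the dihedral group of order 2n has self-centralizing non-cyclic subgroups if and only if n is odd or a power of 2. -/
theorem result (n : ℕ) (hn : 3 ≤ n) : (∀ H : Subgroup (DihedralGroup n), ¬ IsCyclic ↥H → Subgroup.centralizer (H : Set (DihedralGroup n)) ≤ H) ↔ (Odd n ∨ ∃ k : ℕ, n = 2 ^ k) := by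
  have hne0 : NeZero n := ⟨by omega⟩
  constructor
  · intro hstar
    by_contra hcon
    push Not at hcon
    obtain ⟨hodd, hpow⟩ := hcon
    obtain ⟨a, m, hm, hnam⟩ := Nat.exists_eq_two_pow_mul_odd (n := n) (by omega)
    have ha : a ≠ 0 := by
      rintro rfl
      rw [pow_zero, one_mul] at hnam
      exact hodd (hnam ▸ hm)
    have hm1 : m ≠ 1 := by
      rintro rfl
      exact hpow a (by rw [hnam, mul_one])
    obtain ⟨u, hu⟩ := hm
    have hu1 : 1 ≤ u := by omega
    obtain ⟨a', rfl⟩ : ∃ a', a = a' + 1 := ⟨a - 1, by omega⟩
    have hdvd : 2 ^ (a' + 1) ∣ n := ⟨m, hnam⟩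
    let f : ZMod n →+ ZMod (2 ^ (a' + 1)) := (ZMod.castHom hdvd (ZMod (2 ^ (a' + 1)))).toAddMonoidHom
    have hf : ∀ k : ℕ, f (k : ZMod n) = (k : ZMod (2 ^ (a' + 1))) := fun k =>
      map_natCast (ZMod.castHom hdvd (ZMod (2 ^ (a' + 1)))) k
    -- H is not cyclic
    have h1 : (sr 0 : DihedralGroup n) ∈ kerSub f := (sr_mem_kerSub f 0).mpr (map_zero f)
    have h2 : (r ((2 ^ (a' + 1) : ℕ) : ZMod n) : DihedralGroup n) ∈ kerSub f := by
      rw [r_mem_kerSub, hf, ZMod.natCast_self]
    have hnc : ¬ IsCyclic (kerSub f) := by
      intro hc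
      have hcomm := (IsCyclic.isMulCommutative (α := kerSub f)).is_comm.comm ⟨_, h1⟩ ⟨_, h2⟩
      have h3 := congrArg Subtype.val hcomm
      simp only [Subgroup.coe_mul] at h3
      rw [sr_mul_r, r_mul_sr] at h3
      have h4 : (0 : ZMod n) + ((2 ^ (a' + 1) : ℕ) : ZMod n) = 0 - ((2 ^ (a' + 1) : ℕ) : ZMod n) := by
        injection h3
      have h5 : ((2 * 2 ^ (a' + 1) : ℕ) : ZMod n) = 0 := by
        push_cast at h4 ⊢
        linear_combination h4
      rw [ZMod.natCast_eq_zero_iff, hnam] at h5
      have h6 : m ∣ 2 := by
        have : 2 ^ (a' + 1) * m ∣ 2 ^ (a' + 1) * 2 := by rw [mul_comm _ 2]; exact h5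
        exact Nat.dvd_of_mul_dvd_mul_left (by positivity) this
      have h7 := Nat.le_of_dvd (by norm_num) h6
      omega
    have hC := hstar _ hnc
    -- the central involution
    have hz : (r ((n / 2 : ℕ) : ZMod n) : DihedralGroup n) ∈
        Subgroup.centralizer ((kerSub f : Subgroup (DihedralGroup n)) : Set (DihedralGroup n)) := by
      rw [Subgroup.mem_centralizer_iff]
      have h2n : ((n / 2 : ℕ) : ZMod n) + ((n / 2 : ℕ) : ZMod n) = 0 := by
        have : ((n / 2 + n / 2 : ℕ) : ZMod n) = 0 := by
          rw [ZMod.natCast_eq_zero_iff]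
          have : n / 2 + n / 2 = n := by
            have : 2 ∣ n := by rw [hnam, pow_succ']; exact Dvd.intro _ (mul_assoc 2 _ m).symm
            omega
          rw [this]
        push_cast at this
        exact this
      intro g _
      rcases g with i | i
      · rw [r_mul_r, r_mul_r, add_comm]
      · rw [sr_mul_r, r_mul_sr]
        congr 1
        linear_combination h2n
    have hz' := hC hz
    rw [r_mem_kerSub, hf, ZMod.natCast_eq_zero_iff] at hz'
    have hn2 : n / 2 = 2 ^ a' * m := by
      rw [hnam, pow_succ']
      rw [mul_assoc, Nat.mul_div_cancel_left _ (by norm_num : 0 < 2)]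
    rw [hn2, pow_succ] at hz'
    have h8 : 2 ∣ m := Nat.dvd_of_mul_dvd_mul_left (by positivity) hz'
    omega
  · intro hn' H hH
    -- a reflection in H
    obtain ⟨i, hi⟩ : ∃ i : ZMod n, sr i ∈ H := by
      by_contra hcon
      push Not at hcon
      apply hH
      have hle : H ≤ Subgroup.zpowers (r 1 : DihedralGroup n) := by
        intro g hg
        rcases g with j | j
        · rw [Subgroup.mem_zpowers_iff]
          refine ⟨(j.val : ℤ), ?_⟩
          rw [zpow_natCast, r_one_pow, ZMod.natCast_zmod_val]
        · exact (hcon j hg).elim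
      exact Subgroup.isCyclic_of_le hle
    -- rotations of order at most two lie in H
    have hK : ∀ x : ZMod n, x + x = 0 → (r x : DihedralGroup n) ∈ H := by
      intro x hx
      rcases hn' with hodd | ⟨k, hk⟩
      · have h2 : ((2 : ℕ) : ZMod n) * x = 0 := by
          push_cast; linear_combination hx
        have hu : IsUnit ((2 : ℕ) : ZMod n) := by
          rw [ZMod.isUnit_iff_coprime]
          exact Nat.coprime_two_left.mpr hodd
        have hx0 : x = 0 := hu.mul_left_cancel (b := x) (c := 0) (by rw [h2, mul_zero])
        rw [hx0, r_zero]; exact one_mem H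
      · -- a nontrivial rotation in H
        have hk2 : 2 ≤ k := by
          by_contra hlt
          have : 2 ^ k ≤ 2 ^ 1 := Nat.pow_le_pow_right (by norm_num) (by omega)
          omega
        obtain ⟨k', rfl⟩ : ∃ k', k = k' + 1 := ⟨k - 1, by omega⟩
        have hord : orderOf (r 1 : DihedralGroup n) = 2 ^ (k' + 1) := by rw [orderOf_r_one, hk]
        have hrot : ∀ j : ZMod n, (r j : DihedralGroup n) ∈ Subgroup.zpowers (r 1 : DihedralGroup n) := by
          intro j
          rw [Subgroup.mem_zpowers_iff]
          refine ⟨(j.val : ℤ), ?_⟩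
          rw [zpow_natCast, r_one_pow, ZMod.natCast_zmod_val]
        have hxx : (r x : DihedralGroup n) * r x = 1 := by rw [r_mul_r, hx, r_zero]
        rcases sq_one_mem_zpowers hord (hrot x) hxx with h | h
        · rw [h]; exact one_mem H
        · rw [h]
          obtain ⟨l, hl, hl0⟩ : ∃ l : ZMod n, (r l : DihedralGroup n) ∈ H ∧ l ≠ 0 := by
            by_contra hcon
            push Not at hcon
            apply hH
            have hle : H ≤ Subgroup.zpowers (sr i : DihedralGroup n) := by
              intro g hg
              rcases g with j | j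
              · rw [hcon j hg, r_zero]; exact one_mem _
              · have h1 : (sr i : DihedralGroup n) * sr j ∈ H := mul_mem hi hg
                rw [sr_mul_sr] at h1
                have h2 := hcon _ h1
                have h3 : j = i := by linear_combination h2
                rw [h3]; exact Subgroup.mem_zpowers _
            exact Subgroup.isCyclic_of_le hle
          have hP : IsPGroup 2 (DihedralGroup n) := by
            apply IsPGroup.of_card (n := k' + 2)
            rw [DihedralGroup.nat_card, hk]; ring
          have hfact2 : Fact (Nat.Prime 2) := ⟨Nat.prime_two⟩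
          obtain ⟨t, ht⟩ := (IsPGroup.iff_orderOf.mp hP) (r l)
          have ht0 : t ≠ 0 := by
            rintro rfl
            rw [pow_zero, orderOf_eq_one_iff, one_def] at ht
            injection ht with h'
            exact hl0 h'
          obtain ⟨t', rfl⟩ : ∃ t', t = t' + 1 := ⟨t - 1, by omega⟩
          have hu1 := z_ne_one ht
          have hu2 := z_sq ht
          have hu3 : (r l : DihedralGroup n) ^ (2 ^ t') ∈ Subgroup.zpowers (r 1 : DihedralGroup n) :=
            pow_mem (hrot l) _
          rcases sq_one_mem_zpowers hord hu3 hu2 with h' | h'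
          · exact (hu1 h').elim
          · rw [← h']; exact pow_mem hl _
    intro c hc
    have hci : sr i * c = c * sr i := Subgroup.mem_centralizer_iff.mp hc _ hi
    rcases c with j | j
    · rw [sr_mul_r, r_mul_sr] at hci
      have h1 : i + j = i - j := by injection hci
      exact hK j (by linear_combination h1)
    · rw [sr_mul_sr, sr_mul_sr] at hci
      have h1 : j - i = i - j := by injection hci
      have h2 := hK (j - i) (by linear_combination h1)
      have h3 := mul_mem hi h2
      rw [sr_mul_r] at h3
      have e : i + (j - i) = j := by ring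
      rw [e] at h3
      exact h3

end Cfsg.Agent.S3920
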