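import Cfsg.Statements.S3941
import Mathlib

set_option autoImplicit false
set_option linter.style.haveILetI false
open Cfsg

namespace Cfsg.Agent.S3941

/-- Let n ≥ 5 and p an odd prime with p ≤ n, and suppose that every proper subgroup of the alternating group of degree n whose order is divisible by p has a normal Sylow p-subgroup. Then n = p. -/
theorem result (n p : ℕ) (hn : 5 ≤ n) [Fact p.Prime] (hp : p ≠ 2) (hpn : p ≤ n)
    (h : ∀ H : Subgroup ↥(alternatingGroup (Fin n)), H ≠ ⊤ → p ∣ Nat.card ↥H → Cfsg.IsPClosed p ↥H) : n = p := by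
  by_contra hne
  have hlt : p < n := lt_of_le_of_ne hpn (Ne.symm hne)
  have hpp : p.Prime := Fact.out
  obtain ⟨m, rfl⟩ : ∃ m, n = m + 1 := ⟨n - 1, by omega⟩
  have hpm : p ≤ m := by omega
  have hm4 : 4 ≤ m := by omega
  have hp2 : ¬ p ∣ 2 := fun hd => hp ((Nat.prime_dvd_prime_iff_eq hpp Nat.prime_two).mp hd)
  rcases Nat.lt_or_ge m 5 with hm5 | hm5
  · -- m = 4, p = 3
    obtain rfl : m = 4 := by omega
    obtain rfl : p = 3 := by
      interval_cases p
      · exact absurd hpp (by decide)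
      · exact absurd hpp (by decide)
      · exact absurd rfl hp
      · rfl
      · exact absurd hpp (by decide)
    have hmemA : ∀ a b c : Fin 5, a ≠ b → b ≠ c →
        Equiv.swap a b * Equiv.swap b c ∈ alternatingGroup (Fin 5) := by
      intro a b c hab hbc
      rw [Equiv.Perm.mem_alternatingGroup, Equiv.Perm.sign_mul, Equiv.Perm.sign_swap hab,
        Equiv.Perm.sign_swap hbc]
      rfl
    let c : ↥(alternatingGroup (Fin 5)) :=
      ⟨Equiv.swap (0 : Fin 5) 1 * Equiv.swap 1 2, hmemA 0 1 2 (by decide) (by decide)⟩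
    let c' : ↥(alternatingGroup (Fin 5)) :=
      ⟨Equiv.swap (0 : Fin 5) 1 * Equiv.swap 1 3, hmemA 0 1 3 (by decide) (by decide)⟩
    let d : ↥(alternatingGroup (Fin 5)) :=
      ⟨Equiv.swap (0 : Fin 5) 1 * Equiv.swap 1 4, hmemA 0 1 4 (by decide) (by decide)⟩
    let H : Subgroup ↥(alternatingGroup (Fin 5)) :=
      { carrier := {g | (g : Equiv.Perm (Fin 5)) 4 = 4}
        mul_mem' := fun {a b} ha hb => by
          show ((a * b : ↥(alternatingGroup (Fin 5))) : Equiv.Perm (Fin 5)) 4 = 4
          have ha' : (a : Equiv.Perm (Fin 5)) 4 = 4 := ha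
          have hb' : (b : Equiv.Perm (Fin 5)) 4 = 4 := hb
          rw [Subgroup.coe_mul, Equiv.Perm.mul_apply, hb', ha']
        one_mem' := rfl
        inv_mem' := fun {a} ha => by
          show ((a⁻¹ : ↥(alternatingGroup (Fin 5))) : Equiv.Perm (Fin 5)) 4 = 4
          have ha' : (a : Equiv.Perm (Fin 5)) 4 = 4 := ha
          rw [Subgroup.coe_inv, Equiv.Perm.inv_eq_iff_eq]
          exact ha'.symm }
    have hHne : H ≠ ⊤ := by
      intro hH
      have hd : d ∈ H := hH ▸ Subgroup.mem_top d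
      have hd' : (Equiv.swap (0 : Fin 5) 1 * Equiv.swap 1 4 : Equiv.Perm (Fin 5)) 4 = 4 := hd
      revert hd'
      decide
    have hcH : c ∈ H := by
      show (Equiv.swap (0 : Fin 5) 1 * Equiv.swap 1 2 : Equiv.Perm (Fin 5)) 4 = 4
      decide
    have hc'H : c' ∈ H := by
      show (Equiv.swap (0 : Fin 5) 1 * Equiv.swap 1 3 : Equiv.Perm (Fin 5)) 4 = 4
      decide
    have hoc : orderOf (⟨c, hcH⟩ : ↥H) = 3 := by
      rw [Subgroup.orderOf_mk, Subgroup.orderOf_mk]
      exact orderOf_eq_prime (by decide) (by decide)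
    have hoc' : orderOf (⟨c', hc'H⟩ : ↥H) = 3 := by
      rw [Subgroup.orderOf_mk, Subgroup.orderOf_mk]
      exact orderOf_eq_prime (by decide) (by decide)
    have hocc : orderOf ((⟨c, hcH⟩ : ↥H) * ⟨c', hc'H⟩) = 2 := by
      haveI : Fact (Nat.Prime 2) := ⟨Nat.prime_two⟩
      have e : ((⟨c, hcH⟩ : ↥H) * ⟨c', hc'H⟩) = ⟨c * c', H.mul_mem hcH hc'H⟩ := rfl
      have e2 : c * c' = ⟨(Equiv.swap (0 : Fin 5) 1 * Equiv.swap 1 2) *
          (Equiv.swap (0 : Fin 5) 1 * Equiv.swap 1 3),
          (alternatingGroup (Fin 5)).mul_mem c.2 c'.2⟩ := rfl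
      rw [e, Subgroup.orderOf_mk, e2, Subgroup.orderOf_mk]
      exact orderOf_eq_prime (by decide) (by decide)
    have hdiv : 3 ∣ Nat.card ↥H := by
      rw [← hoc]; exact orderOf_dvd_natCard _
    have hcl := h H hHne hdiv
    have hz : IsPGroup 3 (Subgroup.zpowers (⟨c, hcH⟩ : ↥H)) :=
      IsPGroup.of_card (n := 1) (by rw [Nat.card_zpowers, hoc, pow_one])
    have hz' : IsPGroup 3 (Subgroup.zpowers (⟨c', hc'H⟩ : ↥H)) :=
      IsPGroup.of_card (n := 1) (by rw [Nat.card_zpowers, hoc', pow_one])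
    obtain ⟨P, hP⟩ := hz.exists_le_sylow
    obtain ⟨Q, hQ⟩ := hz'.exists_le_sylow
    have hPn : (P : Subgroup ↥H).Normal := hcl P
    obtain ⟨g, hg⟩ := MulAction.exists_smul_eq ↥H P Q
    have hQP : Q = P := by
      rw [← hg]; exact Sylow.smul_eq_of_normal
    have h1 : (⟨c, hcH⟩ : ↥H) ∈ (P : Subgroup ↥H) := hP (Subgroup.mem_zpowers _)
    have h2 : (⟨c', hc'H⟩ : ↥H) ∈ (P : Subgroup ↥H) := by
      have := hQ (Subgroup.mem_zpowers (⟨c', hc'H⟩ : ↥H))
      rw [hQP] at this
      exact this
    have h3 := (P : Subgroup ↥H).mul_mem h1 h2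
    obtain ⟨k, hk⟩ := P.isPGroup' ⟨_, h3⟩
    have hk' : ((⟨c, hcH⟩ : ↥H) * ⟨c', hc'H⟩) ^ 3 ^ k = 1 := by
      have := congrArg Subtype.val hk
      simpa using this
    have h4 : 2 ∣ 3 ^ k := by
      rw [← hocc]; exact orderOf_dvd_of_pow_eq_one hk'
    have h5 := Nat.Prime.dvd_of_dvd_pow Nat.prime_two h4
    omega
  · -- m ≥ 5: the image of A_m is simple
    let e : Fin m ≃ {x : Fin (m + 1) // x ≠ Fin.last m} := finSuccAboveEquiv (Fin.last m)
    have hφinj : Function.Injective (Equiv.Perm.extendDomainHom e) :=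
      Equiv.Perm.extendDomainHom_injective e
    let ι : ↥(alternatingGroup (Fin m)) →* ↥(alternatingGroup (Fin (m + 1))) :=
      ((Equiv.Perm.extendDomainHom e).comp (alternatingGroup (Fin m)).subtype).codRestrict _
        (fun a => by
          rw [Equiv.Perm.mem_alternatingGroup]
          show Equiv.Perm.sign (Equiv.Perm.extendDomain (a : Equiv.Perm (Fin m)) e) = 1
          rw [Equiv.Perm.sign_extendDomain]
          exact Equiv.Perm.mem_alternatingGroup.mp a.2)
    have hιinj : Function.Injective ι := by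
      intro a b hab
      have : Equiv.Perm.extendDomainHom e (a : Equiv.Perm (Fin m))
          = Equiv.Perm.extendDomainHom e (b : Equiv.Perm (Fin m)) := congrArg Subtype.val hab
      exact Subtype.ext (hφinj this)
    have hcardA : ∀ k, 2 ≤ k → 2 * Nat.card (alternatingGroup (Fin k)) = k.factorial := by
      intro k hk
      haveI : Nontrivial (Fin k) := Fin.nontrivial_iff_two_le.mpr hk
      rw [Nat.card_eq_fintype_card, two_mul_card_alternatingGroup, Fintype.card_perm,
        Fintype.card_fin]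
    have hcardH : Nat.card ι.range = Nat.card (alternatingGroup (Fin m)) :=
      (Nat.card_congr (MonoidHom.ofInjective hιinj).toEquiv).symm
    have h2H : 2 * Nat.card ι.range = m.factorial := by
      rw [hcardH]; exact hcardA m (by omega)
    have hsimp : IsSimpleGroup ↥(alternatingGroup (Fin m)) :=
      alternatingGroup.isSimpleGroup (by rw [Nat.card_eq_fintype_card, Fintype.card_fin]; exact hm5)
    haveI : IsSimpleGroup ↥ι.range :=
      (MulEquiv.isSimpleGroup_congr (MonoidHom.ofInjective hιinj)).mp hsimp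
    have hHne : ι.range ≠ ⊤ := by
      intro hH
      have h1 : Nat.card ι.range = Nat.card (alternatingGroup (Fin (m + 1))) := by
        rw [hH, Subgroup.card_top]
      have h2 := hcardA (m + 1) (by omega)
      rw [← h1, h2H, Nat.factorial_succ] at h2
      have hpos : 0 < m.factorial := Nat.factorial_pos m
      nlinarith
    have hdiv : p ∣ Nat.card ι.range := by
      have h1 : p ∣ 2 * Nat.card ι.range := by
        rw [h2H]; exact (Nat.Prime.dvd_factorial hpp).mpr hpm
      rcases (Nat.Prime.dvd_mul hpp).mp h1 with h | h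
      · exact absurd h hp2
      · exact h
    have hcl := h ι.range hHne hdiv
    obtain ⟨P⟩ : Nonempty (Sylow p ↥ι.range) := inferInstance
    have hPn : (P : Subgroup ↥ι.range).Normal := hcl P
    rcases hPn.eq_bot_or_eq_top with hb | ht
    · exact P.ne_bot_of_dvd_card hdiv hb
    · obtain ⟨k, hk⟩ := P.isPGroup'.exists_card_eq
      rw [ht, Subgroup.card_top] at hk
      have h4 : 4 ∣ m.factorial := Nat.dvd_factorial (by norm_num) hm4
      rw [← h2H, hk] at h4
      have h2 : 2 ∣ p ^ k := by omega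
      have h5 := Nat.Prime.dvd_of_dvd_pow Nat.prime_two h2
      exact hp ((Nat.prime_dvd_prime_iff_eq Nat.prime_two hpp).mp h5).symm

end Cfsg.Agent.S3941
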