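import Cfsg.Statements.S3949
import Mathlib
-- import your own Cfsg.Agent.* helpers here

set_option autoImplicit false
open Cfsg

namespace Cfsg.Agent.S3949

/-- Let G be a finite group and α an automorphism of G of order 2 such that the elements g·α(g)⁻¹ generate G. Let j be a positive integer such that 2^j divides the order of no element inverted by α. Then the set of values of the j-th iterate of the map c ↦ c·α(c)⁻¹ is exactly the set of elements of odd order inverted by α. -/
theorem result {G : Type*} [Group G] [Finite G] (α : MulAut G) (hα : orderOf α = 2) (hG : Subgroup.closure (Set.range (fun c : G => c * (α c)⁻¹)) = ⊤)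
    (j : ℕ) (hj : ∀ g : G, α g = g⁻¹ → ¬ 2 ^ j ∣ orderOf g) :
    Set.range ((fun c : G => c * (α c)⁻¹)^[j]) = {g : G | Odd (orderOf g) ∧ α g = g⁻¹} := by
  have hα2 : ∀ x : G, α (α x) = x := by
    intro x
    have h := pow_orderOf_eq_one α
    rw [hα, pow_two] at h
    have := congrArg (fun β : MulAut G => β x) h
    simpa [MulAut.mul_apply] using this
  have hinv : ∀ c : G, α (c * (α c)⁻¹) = (c * (α c)⁻¹)⁻¹ := by
    intro c
    rw [map_mul, map_inv, hα2, mul_inv_rev, inv_inv]
  have hsq : ∀ g : G, α g = g⁻¹ → g * (α g)⁻¹ = g ^ 2 := by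
    intro g hg
    rw [hg, inv_inv, pow_two]
  have hpowinv : ∀ (g : G) (n : ℕ), α g = g⁻¹ → α (g ^ n) = (g ^ n)⁻¹ := by
    intro g n hg
    rw [map_pow, hg, inv_pow]
  have hiter : ∀ (k : ℕ) (c : G), (fun c : G => c * (α c)⁻¹)^[k + 1] c = (c * (α c)⁻¹) ^ (2 ^ k) := by
    intro k
    induction k with
    | zero => intro c; simp
    | succ k ih =>
      intro c
      rw [Function.iterate_succ_apply', ih c]
      show (c * (α c)⁻¹) ^ 2 ^ k * (α ((c * (α c)⁻¹) ^ 2 ^ k))⁻¹ = _
      rw [hsq _ (hpowinv _ _ (hinv c)), ← pow_mul, ← pow_succ]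
  have hj0 : j ≠ 0 := by
    rintro rfl
    exact hj 1 (by simp) (by simp)
  obtain ⟨k, rfl⟩ := Nat.exists_eq_succ_of_ne_zero hj0
  ext y
  simp only [Set.mem_range, Set.mem_ofPred_eq]
  constructor
  · rintro ⟨c, rfl⟩
    rw [hiter k c]
    refine ⟨?_, hpowinv _ _ (hinv c)⟩
    set g := c * (α c)⁻¹ with hg
    have hn0 : orderOf g ≠ 0 := (orderOf_pos g).ne'
    obtain ⟨v, m, hm, hvm⟩ := Nat.exists_eq_two_pow_mul_odd hn0
    have hv : v ≤ k := by
      by_contra hcon
      rw [not_le] at hcon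
      apply hj g (hinv c)
      rw [hvm]
      exact Dvd.dvd.mul_right (pow_dvd_pow 2 hcon) m
    have h1 : (g ^ 2 ^ k) ^ m = 1 := by
      rw [← pow_mul]
      apply orderOf_dvd_iff_pow_eq_one.mp
      rw [hvm]
      exact Nat.mul_dvd_mul_right (pow_dvd_pow 2 hv) m
    exact Odd.of_dvd_nat hm (orderOf_dvd_of_pow_eq_one h1)
  · rintro ⟨hodd, hy⟩
    have hcop : Nat.Coprime (2 ^ (k + 1)) (orderOf y) := by
      apply Nat.Coprime.pow_left
      exact Nat.coprime_two_left.mpr hodd
    obtain ⟨m, hm⟩ := exists_pow_eq_self_of_coprime hcop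
    refine ⟨y ^ m, ?_⟩
    rw [hiter k (y ^ m), hsq _ (hpowinv y m hy), ← pow_mul, ← pow_mul]
    have key : y ^ (m * (2 * 2 ^ k)) = (y ^ 2 ^ (k + 1)) ^ m := by
      rw [← pow_mul]
      congr 1
      rw [pow_succ]; ring
    rw [key]; exact hm

end Cfsg.Agent.S3949
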