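import Mathlib
import Cfsg.Statements.S3982
import Cfsg.Agent.Helper22.InvolutionPGroup
import Cfsg.Agent.Helper22.Ambivalent
import Cfsg.Agent.Helper22.TI

set_option autoImplicit false
open Cfsg

namespace Cfsg.Agent.S3982

open Cfsg.Agent.Helper22 Subgroup

theorem step {G : Type*} [Group G] [Finite G] (p : ℕ) [Fact p.Prime] (hp2 : p ≠ 2)
    (hC : ∀ g : G, g ≠ 1 → (∃ k : ℕ, orderOf g = p ^ k) → Odd (Nat.card ↥(Subgroup.centralizer ({g} : Set G))))
    (Q : Subgroup G) (hQ : IsPGroup p ↥Q) (hQ1 : Q ≠ ⊥) (hev : Even (Nat.card ↥(Subgroup.normalizer (Q : Set G))))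
    (R : Subgroup G) (hR : IsPGroup p R) (hQR : Q < R) :
    ∃ T : Subgroup G, IsPGroup p T ∧ Q < T ∧ Even (Nat.card ↥(Subgroup.normalizer (T : Set G))) := by
  have hp : p.Prime := Fact.out
  haveI : Fact (Nat.Prime 2) := ⟨Nat.prime_two⟩
  obtain ⟨y0, hy0⟩ := exists_prime_orderOf_dvd_card' (G := normalizer (Q : Set G)) 2 hev.two_dvd
  obtain ⟨y, hyN⟩ := y0
  have hyo : orderOf y = 2 := by rw [← hy0, Subgroup.orderOf_mk]
  have hy2 : y * y = 1 := by rw [← pow_two, ← hyo, pow_orderOf_eq_one]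
  have hyinv : y⁻¹ = y := inv_eq_of_mul_eq_one_left hy2
  have hQel : ∀ q ∈ Q, ∃ k, orderOf q = p ^ k := fun q hq => by
    obtain ⟨k, hk⟩ := (IsPGroup.iff_orderOf.mp hQ) ⟨q, hq⟩
    exact ⟨k, by rw [← hk]; simp⟩
  have hno : ∀ v : G, v ≠ 1 → (∃ k, orderOf v = p ^ k) → ∀ w : G, orderOf w = 2 → w * v ≠ v * w := by
    intro v hv1 hvp w hw hcomm
    have h1 := hC v hv1 hvp
    have h2 : w ∈ centralizer ({v} : Set G) := by
      rw [mem_centralizer_iff]
      intro z hz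
      rw [Set.mem_singleton_iff] at hz
      rw [hz]; exact hcomm.symm
    have h3 : orderOf w ∣ Nat.card (centralizer ({v} : Set G)) := by
      have := orderOf_dvd_natCard (⟨w, h2⟩ : centralizer ({v} : Set G))
      rwa [Subgroup.orderOf_mk] at this
    rw [hw] at h3
    exact (Nat.not_even_iff_odd.mpr h1) (even_iff_two_dvd.mpr h3)
  have hinv : ∀ q ∈ Q, y * q * y⁻¹ = q⁻¹ := by
    apply inverts_of_fixed_point_free Q y hy2 hyN
    intro q hq hcomm
    by_contra hq1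
    exact hno q hq1 (hQel q hq) y hyo hcomm
  have hQcomm := comm_of_inverts Q y hinv
  obtain ⟨⟨g0, hg0Q⟩, hg01'⟩ := (Subgroup.ne_bot_iff_exists_ne_one).mp hQ1
  have hg01 : g0 ≠ 1 := fun h => hg01' (Subtype.ext h)
  have hCodd : ∀ c ∈ centralizer (Q : Set G), Odd (orderOf c) := by
    intro c hc
    have h1 := hC g0 hg01 (hQel g0 hg0Q)
    have h2 : c ∈ centralizer ({g0} : Set G) := by
      rw [mem_centralizer_iff] at hc ⊢
      intro z hz
      rw [Set.mem_singleton_iff] at hz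
      rw [hz]; exact hc g0 hg0Q
    have h3 : orderOf c ∣ Nat.card (centralizer ({g0} : Set G)) := by
      have := orderOf_dvd_natCard (⟨c, h2⟩ : centralizer ({g0} : Set G))
      rwa [Subgroup.orderOf_mk] at this
    exact Odd.of_dvd_nat h1 h3
  -- p-elements of N(Q) centralize Q
  have hpc : ∀ t : G, t ∈ normalizer (Q : Set G) → (∃ a, orderOf t = p ^ a) →
      t ∈ centralizer (Q : Set G) := by
    intro t htN ⟨a, hta⟩
    have hy'2 : (t * y * t⁻¹) * (t * y * t⁻¹) = 1 := by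
      calc t * y * t⁻¹ * (t * y * t⁻¹) = t * (y * y) * t⁻¹ := by group
        _ = 1 := by rw [hy2]; group
    have hy'inv : ∀ q ∈ Q, (t * y * t⁻¹) * q * (t * y * t⁻¹)⁻¹ = q⁻¹ := by
      intro q hq
      have h1 := hinv _ (conj_mem_of_mem_normalizer' htN hq)
      calc t * y * t⁻¹ * q * (t * y * t⁻¹)⁻¹ = t * (y * (t⁻¹ * q * t) * y⁻¹) * t⁻¹ := by group
        _ = t * (t⁻¹ * q * t)⁻¹ * t⁻¹ := by rw [h1]
        _ = q⁻¹ := by group
    have hdC : y * (t * y * t⁻¹) ∈ centralizer (Q : Set G) := by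
      rw [mem_centralizer_iff]
      intro q hq
      have h1 := hy'inv q hq
      have h2 := hinv q⁻¹ (Q.inv_mem hq)
      rw [inv_inv] at h2
      have h3 : y * (t * y * t⁻¹) * q * (y * (t * y * t⁻¹))⁻¹ = q := by
        calc y * (t * y * t⁻¹) * q * (y * (t * y * t⁻¹))⁻¹
            = y * ((t * y * t⁻¹) * q * (t * y * t⁻¹)⁻¹) * y⁻¹ := by group
          _ = y * q⁻¹ * y⁻¹ := by rw [h1]
          _ = q := h2
      calc q * (y * (t * y * t⁻¹))
          = (y * (t * y * t⁻¹) * q * (y * (t * y * t⁻¹))⁻¹) * (y * (t * y * t⁻¹)) := by rw [h3]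
        _ = y * (t * y * t⁻¹) * q := by group
    obtain ⟨k, hk⟩ := dihedral_conj y (t * y * t⁻¹) hy2 hy'2 (hCodd _ hdC)
    have hcC : (y * (t * y * t⁻¹)) ^ k ∈ centralizer (Q : Set G) := Subgroup.pow_mem _ hdC k
    generalize (y * (t * y * t⁻¹)) ^ k = c at hk hcC
    have huN : c⁻¹ * t ∈ normalizer (Q : Set G) :=
      Subgroup.mul_mem _ (inv_mem (centralizer_le_normalizer _ hcC)) htN
    have huy : Commute (c⁻¹ * t) y := by
      have h1 : c⁻¹ * (t * y * t⁻¹) * c = y := by rw [← hk]; group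
      unfold Commute SemiconjBy
      calc c⁻¹ * t * y = c⁻¹ * (t * y * t⁻¹) * c * (c⁻¹ * t) := by group
        _ = y * (c⁻¹ * t) := by rw [h1]
    have hup : ¬ p ∣ orderOf (c⁻¹ * t) := by
      intro hd
      have hpos : 0 < orderOf (c⁻¹ * t) := orderOf_pos _
      have hne0 : orderOf (c⁻¹ * t) / p ≠ 0 := by
        have := Nat.div_pos (Nat.le_of_dvd hpos hd) hp.pos
        omega
      have hv : orderOf ((c⁻¹ * t) ^ (orderOf (c⁻¹ * t) / p)) = p := by
        rw [orderOf_pow_of_dvd hne0 (Nat.div_dvd_of_dvd hd)]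
        exact Nat.div_div_self hd hpos.ne'
      apply hno ((c⁻¹ * t) ^ (orderOf (c⁻¹ * t) / p)) ?_ ⟨1, by rw [hv, pow_one]⟩ y hyo
      · exact ((Commute.pow_right huy.symm _).eq)
      · intro h1
        rw [h1, orderOf_one] at hv
        exact hp.one_lt.ne hv
    have key : ∀ w : G, (c⁻¹ * t) * w * (c⁻¹ * t)⁻¹ ∈ Q →
        t * w * t⁻¹ = (c⁻¹ * t) * w * (c⁻¹ * t)⁻¹ := by
      intro w hw
      have h5 := (mem_centralizer_iff.mp hcC) _ hw
      calc t * w * t⁻¹ = c * ((c⁻¹ * t) * w * (c⁻¹ * t)⁻¹) * c⁻¹ := by group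
        _ = ((c⁻¹ * t) * w * (c⁻¹ * t)⁻¹) * c * c⁻¹ := by rw [h5]
        _ = _ := by group
    have epow : ∀ (u : G) (j : ℕ) (q : G), u ^ (j + 1) * q * (u ^ (j + 1))⁻¹ =
        u * (u ^ j * q * (u ^ j)⁻¹) * u⁻¹ := by
      intro u j q
      rw [pow_succ']; group
    have hact : ∀ (j : ℕ) (q : G), q ∈ Q →
        t ^ j * q * (t ^ j)⁻¹ = (c⁻¹ * t) ^ j * q * ((c⁻¹ * t) ^ j)⁻¹ ∧
        (c⁻¹ * t) ^ j * q * ((c⁻¹ * t) ^ j)⁻¹ ∈ Q := by
      intro j
      induction j with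
      | zero => intro q hq; simp [hq]
      | succ j ih =>
        intro q hq
        obtain ⟨h1, h2⟩ := ih q hq
        have h4 := conj_mem_of_mem_normalizer huN h2
        have h3 := key _ h4
        constructor
        · rw [epow t j q, epow (c⁻¹ * t) j q, h1, h3]
        · rw [epow (c⁻¹ * t) j q]; exact h4
    apply coprime_pow_mem (centralizer (Q : Set G)) t (m := orderOf (c⁻¹ * t)) (l := p ^ a)
    · exact Nat.Coprime.pow_right a ((Nat.Prime.coprime_iff_not_dvd hp).mpr hup).symm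
    · rw [mem_centralizer_iff]
      intro q hq
      have := (hact (orderOf (c⁻¹ * t)) q hq).1
      rw [pow_orderOf_eq_one] at this
      simp only [one_mul, inv_one, mul_one] at this
      calc q * t ^ orderOf (c⁻¹ * t)
          = (t ^ orderOf (c⁻¹ * t) * q * (t ^ orderOf (c⁻¹ * t))⁻¹) * t ^ orderOf (c⁻¹ * t) := by
            rw [this]
        _ = t ^ orderOf (c⁻¹ * t) * q := by group
    · rw [← hta, pow_orderOf_eq_one]; exact one_mem _
  obtain ⟨z, hzR, hzN, hzQ, hzp, -⟩ := exists_central_elt_mod p Q R hR hQR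
  have hzel : ∃ a, orderOf z = p ^ a := by
    obtain ⟨k, hk⟩ := (IsPGroup.iff_orderOf.mp hR) ⟨z, hzR⟩
    exact ⟨k, by rw [← hk]; simp⟩
  have hzC := hpc z hzN hzel
  have hQC : Q ≤ centralizer (Q : Set G) := by
    intro a ha
    rw [mem_centralizer_iff]
    intro b hb
    exact hQcomm b hb a ha
  have hpz : IsPGroup p (zpowers z) := hR.to_le (by rw [zpowers_le]; exact hzR)
  have hQ2 : IsPGroup p (zpowers z ⊔ Q : Subgroup G) :=
    hpz.to_sup_of_normal_right' hQ (by rw [zpowers_le]; exact hzN)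
  have hQ2C : zpowers z ⊔ Q ≤ centralizer (Q : Set G) :=
    sup_le (by rw [zpowers_le]; exact hzC) hQC
  obtain ⟨T, hT, hQ2T, hTC, hrel⟩ := exists_sylow_of_subgroup p (centralizer (Q : Set G)) _ hQ2 hQ2C
  have hyC : y ∈ normalizer ((centralizer (Q : Set G) : Subgroup G) : Set G) := by
    apply mem_normalizer_of_forall_conj_mem
    intro c hc
    rw [mem_centralizer_iff] at hc ⊢
    intro q hq
    have h1 := hc _ (conj_mem_of_mem_normalizer' hyN hq)
    calc q * (y * c * y⁻¹) = y * ((y⁻¹ * q * y) * c) * y⁻¹ := by group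
      _ = y * (c * (y⁻¹ * q * y)) * y⁻¹ := by rw [h1]
      _ = y * c * y⁻¹ * q := by group
  obtain ⟨c, hc, hcn⟩ := frattini_aux p (centralizer (Q : Set G)) T hT hTC hrel y hyC
  have hu2inv : ∀ q ∈ Q, (c⁻¹ * y) * q * (c⁻¹ * y)⁻¹ = q⁻¹ := by
    intro q hq
    have h1 := hinv q hq
    have h2 := (mem_centralizer_iff.mp hc) q⁻¹ (Q.inv_mem hq)
    calc (c⁻¹ * y) * q * (c⁻¹ * y)⁻¹ = c⁻¹ * (y * q * y⁻¹) * c := by group
      _ = c⁻¹ * (q⁻¹ * c) := by rw [h1]; group
      _ = c⁻¹ * (c * q⁻¹) := by rw [h2]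
      _ = q⁻¹ := by group
  have heven : Even (orderOf (c⁻¹ * y)) := by
    by_contra hne
    rw [Nat.not_even_iff_odd] at hne
    obtain ⟨i, hi⟩ := hne
    have h1 := invert_odd_pow' (hu2inv g0 hg0Q) i
    rw [← hi, pow_orderOf_eq_one] at h1
    simp only [one_mul, inv_one, mul_one] at h1
    have h2 : g0 ^ 2 = 1 := by
      rw [pow_two]
      nth_rewrite 2 [h1]
      exact mul_inv_cancel g0
    obtain ⟨k, hk⟩ := hQel g0 hg0Q
    have h3 : orderOf g0 ∣ 2 := orderOf_dvd_of_pow_eq_one h2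
    rw [hk] at h3
    have hk0 : k = 0 := by
      by_contra hk0
      have : p ∣ 2 := dvd_trans (dvd_pow_self p hk0) h3
      exact hp2 ((Nat.prime_dvd_prime_iff_eq hp Nat.prime_two).mp this)
    rw [hk0, pow_zero, orderOf_eq_one_iff] at hk
    exact hg01 hk
  refine ⟨T, hT, ?_, ?_⟩
  · refine lt_of_le_of_ne (le_sup_right.trans hQ2T) ?_
    intro h
    apply hzQ
    rw [h]
    exact hQ2T (le_sup_left (b := Q) (mem_zpowers z))
  · have h1 : orderOf (c⁻¹ * y) ∣ Nat.card (normalizer (T : Set G)) := by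
      have := orderOf_dvd_natCard (⟨c⁻¹ * y, hcn⟩ : normalizer (T : Set G))
      rwa [Subgroup.orderOf_mk] at this
    exact even_iff_two_dvd.mpr (dvd_trans (even_iff_two_dvd.mp heven) h1)

/-- Let p be an odd prime and G a finite group of even order divisible by p in which the centralizer of every non-identity p-element has odd order. If some nontrivial p-subgroup of G has a normalizer of even order, then the normalizer of every Sylow p-subgroup of G has even order. -/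
theorem result {G : Type*} [Group G] [Finite G] (p : ℕ) [Fact p.Prime] (hp2 : p ≠ 2) (hpG : p ∣ Nat.card G) (h2G : 2 ∣ Nat.card G) (hC : ∀ g : G, g ≠ 1 → (∃ k : ℕ, orderOf g = p ^ k) → Odd (Nat.card ↥(Subgroup.centralizer ({g} : Set G)))) (Q : Subgroup G) (hQ : IsPGroup p ↥Q) (hQ1 : Q ≠ ⊥) (hev : Even (Nat.card ↥(Subgroup.normalizer (Q : Set G)))) (P : Sylow p G) : Even (Nat.card ↥(Subgroup.normalizer ((P : Subgroup G) : Set G))) := by
  classical
  let F := {Q' : Subgroup G // IsPGroup p Q' ∧ Q' ≠ ⊥ ∧ Even (Nat.card (normalizer (Q' : Set G)))}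
  haveI : Nonempty F := ⟨⟨Q, hQ, hQ1, hev⟩⟩
  obtain ⟨⟨Q0, hQ0, hQ01, hev0⟩, hmax⟩ := Finite.exists_max (fun Q' : F => Nat.card Q'.1)
  have hsyl : ∀ {R : Subgroup G}, IsPGroup p R → Q0 ≤ R → R = Q0 := by
    intro R hR hle
    by_contra hne
    have hlt : Q0 < R := lt_of_le_of_ne hle (Ne.symm hne)
    obtain ⟨T, hT, hQT, hTev⟩ := step p hp2 hC Q0 hQ0 hQ01 hev0 R hR hlt
    have hT1 : T ≠ ⊥ := by
      intro h
      rw [h] at hQT
      exact not_lt_bot hQT
    have h1 := hmax ⟨T, hT, hT1, hTev⟩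
    simp only at h1
    have := Subgroup.eq_of_le_of_card_ge hQT.le h1
    exact hQT.ne this
  let P0 : Sylow p G := ⟨Q0, hQ0, hsyl⟩
  obtain ⟨g, hg⟩ := MulAction.exists_smul_eq G P0 P
  haveI : Fact (Nat.Prime 2) := ⟨Nat.prime_two⟩
  obtain ⟨⟨y, hyN⟩, hy0⟩ := exists_prime_orderOf_dvd_card' (G := normalizer (Q0 : Set G)) 2 hev0.two_dvd
  have hyo : orderOf y = 2 := by rw [← hy0, Subgroup.orderOf_mk]
  have hmem : g * y * g⁻¹ ∈ normalizer ((P : Subgroup G) : Set G) := by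
    apply mem_normalizer_of_forall_conj_mem
    intro r hr
    rw [← hg, sylow_smul_mem_iff] at hr ⊢
    have h1 : y * (g⁻¹ * r * g) * y⁻¹ ∈ Q0 := conj_mem_of_mem_normalizer hyN hr
    have e : g⁻¹ * (g * y * g⁻¹ * r * (g * y * g⁻¹)⁻¹) * g = y * (g⁻¹ * r * g) * y⁻¹ := by group
    rw [e]; exact h1
  have ho : orderOf (g * y * g⁻¹) = 2 := by
    have : g * y * g⁻¹ = MulAut.conj g y := by simp
    rw [this, MulEquiv.orderOf_eq, hyo]
  have h1 : orderOf (g * y * g⁻¹) ∣ Nat.card (normalizer ((P : Subgroup G) : Set G)) := by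
    have := orderOf_dvd_natCard (⟨g * y * g⁻¹, hmem⟩ : normalizer ((P : Subgroup G) : Set G))
    rwa [Subgroup.orderOf_mk] at this
  rw [ho] at h1
  exact even_iff_two_dvd.mpr h1

end Cfsg.Agent.S3982
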