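import Mathlib
import Cfsg.Statements.S3983
import Cfsg.Agent.Helper22.PGroupNorm

set_option autoImplicit false
open scoped Pointwise
open Cfsg

namespace Cfsg.Agent.S3983

open Cfsg.Agent.Helper22 Subgroup

/-- Let P be a Sylow p-subgroup of the finite group G that meets each conjugate g P g⁻¹ with g outside N_G(P) trivially, and let U be a subgroup of G of order divisible by p. Then a Sylow p-subgroup Q of U has the same property inside U: Q meets each conjugate u Q u⁻¹ with u ∈ U outside N_U(Q) trivially. -/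
theorem result {G : Type*} [Group G] [Finite G] (p : ℕ) [Fact p.Prime] (P : Sylow p G) (hTI : ∀ g : G, g ∉ Subgroup.normalizer ((P : Subgroup G) : Set G) → (P : Subgroup G) ⊓ (MulAut.conj g • (P : Subgroup G)) = ⊥) (U : Subgroup G) (hU : p ∣ Nat.card ↥U) (Q : Sylow p ↥U) : ∀ u : ↥U, u ∉ Subgroup.normalizer ((Q : Subgroup ↥U) : Set ↥U) → (Q : Subgroup ↥U) ⊓ (MulAut.conj u • (Q : Subgroup ↥U)) = ⊥ := by
  intro u hu
  obtain ⟨P1, hP1⟩ := (Q.isPGroup'.map U.subtype).exists_le_sylow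
  obtain ⟨h, hh⟩ := MulAction.exists_smul_eq G P P1
  have hP1mem : ∀ z : G, z ∈ (P1 : Subgroup G) ↔ h⁻¹ * z * h ∈ (P : Subgroup G) := by
    intro z
    rw [← hh, Sylow.coe_subgroup_smul, Subgroup.mem_pointwise_smul_iff_inv_smul_mem]
    simp [MulAut.smul_def]
  have hQeq : (P1 : Subgroup G).subgroupOf U = (Q : Subgroup U) := by
    apply Q.is_maximal' P1.isPGroup'.comap_subtype
    intro a ha
    show (a : G) ∈ (P1 : Subgroup G)
    exact hP1 (mem_map_of_mem _ ha)
  have hQmem : ∀ a : U, a ∈ (Q : Subgroup U) ↔ h⁻¹ * (a : G) * h ∈ (P : Subgroup G) := by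
    intro a
    rw [← hQeq, mem_subgroupOf, hP1mem]
  rw [eq_bot_iff]
  intro a ha
  obtain ⟨ha1, ha2⟩ := Subgroup.mem_inf.mp ha
  rw [Subgroup.mem_pointwise_smul_iff_inv_smul_mem] at ha2
  have ha2' : u⁻¹ * a * u ∈ (Q : Subgroup U) := by simpa [MulAut.smul_def] using ha2
  rw [Subgroup.mem_bot]
  by_cases hg : h⁻¹ * (u : G) * h ∈ normalizer ((P : Subgroup G) : Set G)
  · exfalso
    apply hu
    apply mem_normalizer_of_forall_conj_mem
    intro b hb
    rw [hQmem] at hb ⊢
    have := conj_mem_of_mem_normalizer hg hb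
    have e : h⁻¹ * ((u * b * u⁻¹ : U) : G) * h = h⁻¹ * (u : G) * h * (h⁻¹ * (b : G) * h) * (h⁻¹ * (u : G) * h)⁻¹ := by
      simp only [Subgroup.coe_mul, Subgroup.coe_inv]
      group
    rw [e]; exact this
  · have h1 := hTI _ hg
    have h2 : h⁻¹ * (a : G) * h ∈ (P : Subgroup G) ⊓ (MulAut.conj (h⁻¹ * (u : G) * h) • (P : Subgroup G)) := by
      refine Subgroup.mem_inf.mpr ⟨(hQmem a).mp ha1, ?_⟩
      rw [Subgroup.mem_pointwise_smul_iff_inv_smul_mem]
      have := (hQmem _).mp ha2'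
      have e : (MulAut.conj (h⁻¹ * (u : G) * h))⁻¹ • (h⁻¹ * (a : G) * h) = h⁻¹ * ((u⁻¹ * a * u : U) : G) * h := by
        simp only [MulAut.smul_def, Subgroup.coe_mul, Subgroup.coe_inv, ← map_inv, MulAut.conj_apply]
        group
      rw [e]; exact this
    rw [h1, Subgroup.mem_bot] at h2
    have h3 : (a : G) = 1 := by
      have : (a : G) = h * (h⁻¹ * (a : G) * h) * h⁻¹ := by group
      rw [this, h2]; group
    exact Subtype.ext h3

end Cfsg.Agent.S3983
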