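import Mathlib
import Cfsg.Statements.S3984
import Cfsg.Agent.Helper22.TI
import Cfsg.Agent.Helper22.SylowSup

set_option autoImplicit false
open scoped Pointwise
open Cfsg

namespace Cfsg.Agent.S3984

open Cfsg.Agent.Helper22 Subgroup

/-- Let P be a Sylow p-subgroup of the finite group G that meets each conjugate g P g⁻¹ with g outside N_G(P) trivially, and let N be a normal subgroup of G of order prime to p. Then every Sylow p-subgroup Q of G ⧸ N meets each conjugate x Q x⁻¹ with x outside its normalizer trivially. -/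
theorem result {G : Type*} [Group G] [Finite G] (p : ℕ) [Fact p.Prime] (P : Sylow p G) (hTI : ∀ g : G, g ∉ Subgroup.normalizer ((P : Subgroup G) : Set G) → (P : Subgroup G) ⊓ (MulAut.conj g • (P : Subgroup G)) = ⊥) (N : Subgroup G) [N.Normal] (hN : (Nat.card ↥N).Coprime p) (Q : Sylow p (G ⧸ N)) : ∀ x : G ⧸ N, x ∉ Subgroup.normalizer ((Q : Subgroup (G ⧸ N)) : Set (G ⧸ N)) → (Q : Subgroup (G ⧸ N)) ⊓ (MulAut.conj x • (Q : Subgroup (G ⧸ N))) = ⊥ := by
  have hp : p.Prime := Fact.out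
  have hf : Function.Surjective (QuotientGroup.mk' N) := QuotientGroup.mk'_surjective N
  obtain ⟨P1, hP1⟩ := Sylow.mapSurjective_surjective hf p Q
  obtain ⟨c, hc⟩ := MulAction.exists_smul_eq G P P1
  have hTI1 : ∀ g b : G, b ∈ (P1 : Subgroup G) → b ≠ 1 → g * b * g⁻¹ ∈ (P1 : Subgroup G) →
      g ∈ normalizer ((P1 : Subgroup G) : Set G) := by
    apply ti_elt_conj (P : Subgroup G) (ti_elt _ hTI) (P1 : Subgroup G) c
    intro z
    rw [← hc]
    exact sylow_smul_mem_iff P c z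
  have hQ : (Q : Subgroup (G ⧸ N)) = (P1 : Subgroup G).map (QuotientGroup.mk' N) := by
    rw [← hP1]; rfl
  have hNp : ¬ p ∣ Nat.card N := by
    intro hd
    have := Nat.Coprime.eq_one_of_dvd hN.symm hd
    exact hp.one_lt.ne' this
  apply ti_of_elt
  intro x bb hbb hbb1 hxb
  rw [hQ] at hbb hxb ⊢
  obtain ⟨b, hb, rfl⟩ := hbb
  obtain ⟨g, rfl⟩ := QuotientGroup.mk_surjective x
  obtain ⟨a, ha, hab⟩ := hxb
  have hb1 : b ≠ 1 := by
    intro h; apply hbb1; rw [h]; simp
  have hab' : a⁻¹ * (g * b * g⁻¹) ∈ N := by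
    rw [← QuotientGroup.eq]
    simpa using hab
  have hpa : IsPGroup p (zpowers a) := P1.isPGroup'.to_le (by rw [zpowers_le]; exact ha)
  have hpb : IsPGroup p (zpowers (g * b * g⁻¹)) := by
    have h1 : IsPGroup p (zpowers b) := P1.isPGroup'.to_le (by rw [zpowers_le]; exact hb)
    have h2 := h1.map (MulAut.conj g).toMonoidHom
    have h3 : (zpowers b).map (MulAut.conj g).toMonoidHom = zpowers (g * b * g⁻¹) := by
      rw [MonoidHom.map_zpowers]; simp
    rwa [h3] at h2
  have hle : zpowers (g * b * g⁻¹) ≤ zpowers a ⊔ N := by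
    rw [zpowers_le]
    have : g * b * g⁻¹ = a * (a⁻¹ * (g * b * g⁻¹)) := by group
    rw [this]
    exact Subgroup.mul_mem _ (le_sup_left (b := N) (mem_zpowers a)) (le_sup_right (a := zpowers a) hab')
  obtain ⟨n, hn, hconj⟩ := exists_conj_mem_of_pgroup_sup p (zpowers a) (zpowers (g * b * g⁻¹)) N hNp hpa hpb hle
  have h2 : n⁻¹ * (g * b * g⁻¹) * n ∈ (P1 : Subgroup G) := by
    have := hconj _ (mem_zpowers _)
    exact (zpowers_le.mpr ha) this
  have h3 : n⁻¹ * g ∈ normalizer ((P1 : Subgroup G) : Set G) := by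
    apply hTI1 (n⁻¹ * g) b hb hb1
    have : n⁻¹ * g * b * (n⁻¹ * g)⁻¹ = n⁻¹ * (g * b * g⁻¹) * n := by group
    rw [this]; exact h2
  have h4 := le_normalizer_map (QuotientGroup.mk' N) (mem_map_of_mem _ h3)
  have h5 : (QuotientGroup.mk' N) (n⁻¹ * g) = (QuotientGroup.mk g : G ⧸ N) := by
    show (QuotientGroup.mk (n⁻¹ * g) : G ⧸ N) = QuotientGroup.mk g
    rw [QuotientGroup.eq]
    have : (n⁻¹ * g)⁻¹ * g = g⁻¹ * n * g := by group
    rw [this]
    have := ‹N.Normal›.conj_mem n hn g⁻¹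
    simpa using this
  rw [h5] at h4
  exact h4

end Cfsg.Agent.S3984
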