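import Mathlib
import Cfsg.Statements.S3985
import Cfsg.Agent.Helper22.TI
import Cfsg.Agent.Helper22.CyclicNorm

set_option autoImplicit false
open scoped Pointwise
open Cfsg

namespace Cfsg.Agent.S3985

open Cfsg.Agent.Helper22 Subgroup

theorem nt_aux (p n m : ℕ) (hp : p.Prime) (hm : ¬ p ∣ m) (k e : ℕ)
    (h1 : k ^ m ≡ 1 [MOD p ^ n]) (h2 : k * e ≡ e [MOD p ^ n]) (he : ¬ p ^ n ∣ e) :
    k ≡ 1 [MOD p ^ n] := by
  have hpi : Prime (p : ℤ) := Nat.prime_iff_prime_int.mp hp
  have h1' : ((p ^ n : ℕ) : ℤ) ∣ ((1 : ℕ) : ℤ) - ((k ^ m : ℕ) : ℤ) := Nat.modEq_iff_dvd.mp h1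
  have h2' : ((p ^ n : ℕ) : ℤ) ∣ ((e : ℕ) : ℤ) - ((k * e : ℕ) : ℤ) := Nat.modEq_iff_dvd.mp h2
  push_cast at h1' h2'
  have hA : (p : ℤ) ∣ 1 - (k : ℤ) := by
    by_contra hnd
    have hcop : IsCoprime ((p : ℤ) ^ n) (1 - (k : ℤ)) :=
      IsCoprime.pow_left ((Prime.coprime_iff_not_dvd hpi).mpr hnd)
    have h3 : ((p : ℤ) ^ n) ∣ (1 - (k : ℤ)) * e := by
      have : (e : ℤ) - k * e = (1 - (k : ℤ)) * e := by ring
      rwa [this] at h2'
    have h4 := hcop.dvd_of_dvd_mul_left h3
    apply he
    exact_mod_cast h4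
  have hk1 : ((k : ℤ) : ZMod p) = 1 := by
    have := (ZMod.intCast_zmod_eq_zero_iff_dvd (1 - (k : ℤ)) p).mpr hA
    push_cast at this
    have h5 : (1 : ZMod p) - (k : ZMod p) = 0 := this
    have h6 : (k : ZMod p) = 1 := (sub_eq_zero.mp h5).symm
    push_cast
    exact h6
  have hS : ¬ (p : ℤ) ∣ ∑ i ∈ Finset.range m, (k : ℤ) ^ i := by
    intro hd
    have := (ZMod.intCast_zmod_eq_zero_iff_dvd _ p).mpr hd
    rw [Int.cast_sum] at this
    simp only [Int.cast_pow, hk1, one_pow, Finset.sum_const, Finset.card_range, nsmul_eq_mul, mul_one] at this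
    exact hm ((ZMod.natCast_eq_zero_iff m p).mp this)
  have hcop : IsCoprime ((p : ℤ) ^ n) (∑ i ∈ Finset.range m, (k : ℤ) ^ i) :=
    IsCoprime.pow_left ((Prime.coprime_iff_not_dvd hpi).mpr hS)
  have h7 : ((p : ℤ) ^ n) ∣ (∑ i ∈ Finset.range m, (k : ℤ) ^ i) * ((k : ℤ) - 1) := by
    rw [geom_sum_mul]
    have : (k : ℤ) ^ m - 1 = -(1 - (k : ℤ) ^ m) := by ring
    rw [this]
    exact (dvd_neg).mpr h1'
  have h8 := hcop.dvd_of_dvd_mul_left h7
  apply Nat.ModEq.symm
  rw [Nat.modEq_iff_dvd]
  push_cast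
  exact h8

/-- Let P be a cyclic Sylow p-subgroup of the finite group G. Then P meets each conjugate g P g⁻¹ with g outside N_G(P) trivially if and only if P is weakly self-centralizing: C_G(x) = C_G(P) for every non-identity x ∈ P. -/
theorem result {G : Type*} [Group G] [Finite G] (p : ℕ) [Fact p.Prime] (P : Sylow p G) (hcyc : IsCyclic ↥(P : Subgroup G)) : (∀ g : G, g ∉ Subgroup.normalizer ((P : Subgroup G) : Set G) → (P : Subgroup G) ⊓ (MulAut.conj g • (P : Subgroup G)) = ⊥) ↔ ∀ x : G, x ∈ (P : Subgroup G) → x ≠ 1 → Subgroup.centralizer ({x} : Set G) = Subgroup.centralizer ((P : Subgroup G) : Set G) := by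
  have hp : p.Prime := Fact.out
  -- generator
  obtain ⟨⟨t, htP⟩, ht⟩ := hcyc.exists_generator
  have hgen : ∀ y ∈ (P : Subgroup G), y ∈ zpowers t := by
    intro y hy
    obtain ⟨j, hj⟩ := ht ⟨y, hy⟩
    exact ⟨j, by simpa using congrArg Subtype.val hj⟩
  have hPcomm : ∀ a ∈ (P : Subgroup G), ∀ b ∈ (P : Subgroup G), a * b = b * a := by
    intro a ha b hb
    obtain ⟨i, rfl⟩ := hgen a ha
    obtain ⟨j, rfl⟩ := hgen b hb
    rw [← zpow_add, ← zpow_add, add_comm]
  have hPC : (P : Subgroup G) ≤ centralizer ((P : Subgroup G) : Set G) := by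
    intro a ha
    rw [mem_centralizer_iff]
    intro b hb
    exact hPcomm b hb a ha
  constructor
  · intro hTI x hxP hx1
    have hTIe := ti_elt _ hTI
    apply le_antisymm
    · intro g hg
      rw [mem_centralizer_iff] at hg
      have hgx : x * g = g * x := hg x rfl
      have hgN : g ∈ normalizer ((P : Subgroup G) : Set G) := by
        apply hTIe g x hxP hx1
        rw [← hgx, mul_inv_cancel_right]; exact hxP
      -- order of t
      obtain ⟨n, hn⟩ := (IsPGroup.iff_orderOf.mp P.isPGroup') ⟨t, htP⟩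
      have hn : orderOf t = p ^ n := by rw [← hn]; simp
      -- g t g⁻¹ = t ^ k
      have h1 : g * t * g⁻¹ ∈ zpowers t := hgen _ (conj_mem_of_mem_normalizer hgN htP)
      obtain ⟨k, hk⟩ := mem_powers_iff_mem_zpowers.mpr h1
      have hk : t ^ k = g * t * g⁻¹ := hk
      -- m
      haveI : ((centralizer ((P : Subgroup G) : Set G)).subgroupOf (normalizer ((P : Subgroup G) : Set G))).Normal := inferInstance
      have hm1 := Subgroup.pow_index_mem ((centralizer ((P : Subgroup G) : Set G)).subgroupOf (normalizer ((P : Subgroup G) : Set G))) (⟨g, hgN⟩ : normalizer ((P : Subgroup G) : Set G))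
      rw [mem_subgroupOf] at hm1
      have hm1' : g ^ (centralizer ((P : Subgroup G) : Set G)).relIndex (normalizer ((P : Subgroup G) : Set G)) ∈ centralizer ((P : Subgroup G) : Set G) := by
        simp only [Subgroup.coe_pow] at hm1
        exact hm1
      have hmp : ¬ p ∣ (centralizer ((P : Subgroup G) : Set G)).relIndex (normalizer ((P : Subgroup G) : Set G)) := by
        intro hd
        have h2 : (centralizer ((P : Subgroup G) : Set G)).relIndex (normalizer ((P : Subgroup G) : Set G)) ∣ (P : Subgroup G).relIndex (normalizer ((P : Subgroup G) : Set G)) :=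
          relIndex_dvd_of_le_left _ hPC
        exact P.not_dvd_index (dvd_trans hd (dvd_trans h2 (relIndex_dvd_index_of_le le_normalizer)))
      generalize (centralizer ((P : Subgroup G) : Set G)).relIndex (normalizer ((P : Subgroup G) : Set G)) = m at hm1' hmp
      have h3 := conj_pow_iter g t k hk.symm m
      have h4 : g ^ m * t * (g ^ m)⁻¹ = t := by
        rw [mem_centralizer_iff] at hm1'
        rw [← hm1' t htP, mul_inv_cancel_right]
      rw [h4] at h3
      have h5 : k ^ m ≡ 1 [MOD p ^ n] := by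
        rw [← hn, ← pow_eq_pow_iff_modEq, pow_one]; exact h3.symm
      obtain ⟨e, he⟩ := mem_powers_iff_mem_zpowers.mpr (hgen x hxP)
      have he : t ^ e = x := he
      have h6 : k * e ≡ e [MOD p ^ n] := by
        rw [← hn, ← pow_eq_pow_iff_modEq, pow_mul, hk, conj_pow, he, ← hgx, mul_inv_cancel_right]
      have h7 : ¬ p ^ n ∣ e := by
        intro hd
        apply hx1
        rw [← he, ← hn] at *
        exact orderOf_dvd_iff_pow_eq_one.mp hd
      have h8 := nt_aux p n m hp hmp k e h5 h6 h7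
      have h9 : g * t * g⁻¹ = t := by
        rw [← hk]
        rw [← hn, ← pow_eq_pow_iff_modEq, pow_one] at h8
        exact h8
      have h10 : g * t = t * g := by
        calc g * t = g * t * g⁻¹ * g := by group
          _ = t * g := by rw [h9]
      rw [mem_centralizer_iff]
      intro y hy
      obtain ⟨j, rfl⟩ := hgen y hy
      exact ((Commute.zpow_right (show Commute g t from h10) j).eq).symm
    · intro g hg
      rw [mem_centralizer_iff] at hg ⊢
      intro y hy
      rw [Set.mem_singleton_iff] at hy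
      rw [hy]
      exact hg x hxP
  · intro hC
    apply ti_of_elt
    intro g b hb hb1 hgb
    have ha1 : g * b * g⁻¹ ≠ 1 := by
      intro h
      apply hb1
      have : b = g⁻¹ * (g * b * g⁻¹) * g := by group
      rw [this, h]; group
    have hCa := hC _ hgb ha1
    -- g P g⁻¹ ≤ C(P)
    have hle : (P : Subgroup G).map (MulAut.conj g).toMonoidHom ≤ normalizer ((P : Subgroup G) : Set G) := by
      rintro _ ⟨r, hr, rfl⟩
      apply centralizer_le_normalizer
      rw [← hCa, mem_centralizer_iff]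
      intro y hy
      rw [Set.mem_singleton_iff] at hy
      rw [hy]
      have := hPcomm b hb r hr
      show g * b * g⁻¹ * (g * r * g⁻¹) = g * r * g⁻¹ * (g * b * g⁻¹)
      calc g * b * g⁻¹ * (g * r * g⁻¹) = g * (b * r) * g⁻¹ := by group
        _ = g * (r * b) * g⁻¹ := by rw [this]
        _ = g * r * g⁻¹ * (g * b * g⁻¹) := by group
    have hpg : IsPGroup p ((P : Subgroup G).map (MulAut.conj g).toMonoidHom ⊔ (P : Subgroup G) : Subgroup G) :=
      (P.isPGroup'.map _).to_sup_of_normal_right' P.isPGroup' hle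
    have heq := P.is_maximal' hpg le_sup_right
    apply mem_normalizer_of_forall_conj_mem
    intro r hr
    have : g * r * g⁻¹ ∈ (P : Subgroup G).map (MulAut.conj g).toMonoidHom ⊔ (P : Subgroup G) :=
      le_sup_left (b := (P : Subgroup G)) ⟨r, hr, rfl⟩
    rw [heq] at this
    exact this

end Cfsg.Agent.S3985
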