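import Mathlib
import Cfsg.Statements.S3986
import Cfsg.Agent.Helper22.DirectFactor

set_option autoImplicit false
open Cfsg

namespace Cfsg.Agent.S3986

open Cfsg.Agent.Helper22 Subgroup

theorem dirB {G : Type*} [Group G] [Finite G] (p : ℕ) [Fact p.Prime]
    (h : ∀ x y : G, (∃ a : ℕ, orderOf x = p ^ a) → (∃ q b : ℕ, q.Prime ∧ q ≠ p ∧ orderOf y = q ^ b) → x * y = y * x) :
    (∃ (P : Sylow p G) (K : Subgroup G), (P : Subgroup G).Normal ∧ K.Normal ∧ (P : Subgroup G) ⊓ K = ⊥ ∧ (P : Subgroup G) ⊔ K = ⊤) := by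
  have hp : p.Prime := Fact.out
  let P : Sylow p G := default
  have hPel : ∀ x ∈ (P : Subgroup G), ∃ a : ℕ, orderOf x = p ^ a := by
    intro x hx
    obtain ⟨k, hk⟩ := (IsPGroup.iff_orderOf.mp P.isPGroup') ⟨x, hx⟩
    exact ⟨k, by rw [← hk]; simp⟩
  have hcentq : ∀ y : G, (∃ q b : ℕ, q.Prime ∧ q ≠ p ∧ orderOf y = q ^ b) →
      y ∈ centralizer ((P : Subgroup G) : Set G) := by
    intro y hy
    rw [mem_centralizer_iff]
    intro x hx
    exact h x y (hPel x hx) hy
  have hPn : (P : Subgroup G).Normal := by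
    rw [← normalizer_eq_top_iff, ← index_eq_one, Nat.eq_one_iff_not_exists_prime_dvd]
    intro r hr
    by_cases hrp : r = p
    · rw [hrp]
      intro hdvd
      exact P.not_dvd_index (dvd_trans hdvd (index_dvd_of_le le_normalizer))
    · haveI := Fact.mk hr
      let R : Sylow r G := default
      have hRle : (R : Subgroup G) ≤ normalizer ((P : Subgroup G) : Set G) := by
        intro y hy
        apply centralizer_le_normalizer
        apply hcentq
        obtain ⟨k, hk⟩ := (IsPGroup.iff_orderOf.mp R.isPGroup') ⟨y, hy⟩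
        exact ⟨r, k, hr, hrp, by rw [← hk]; simp⟩
      intro hdvd
      exact R.not_dvd_index (dvd_trans hdvd (index_dvd_of_le hRle))
  have hcent : ∀ k : G, (orderOf k).Coprime p → ∀ a ∈ (P : Subgroup G), a * k = k * a := by
    intro k hk
    have : k ∈ centralizer ((P : Subgroup G) : Set G) := by
      apply primary_mem _ (orderOf k) k rfl (orderOf_pos k).ne'
      intro q hq
      by_cases hqp : q = p
      · have hnd : ¬ p ∣ orderOf k := fun hd => by
          have := Nat.Coprime.eq_one_of_dvd hk.symm hd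
          exact hp.one_lt.ne' this
        rw [hqp, (Nat.ordCompl_eq_self_iff_zero_or_not_dvd _ hp).mpr (Or.inr hnd), pow_orderOf_eq_one]
        exact Subgroup.one_mem _
      · apply hcentq
        refine ⟨q, (orderOf k).factorization q, hq, hqp, ?_⟩
        have hd : ordCompl[q] (orderOf k) ∣ orderOf k := Nat.ordCompl_dvd _ _
        have h0 : ordCompl[q] (orderOf k) ≠ 0 := (Nat.ordCompl_pos q (orderOf_pos k).ne').ne'
        rw [orderOf_pow_of_dvd h0 hd]
        apply Nat.div_eq_of_eq_mul_left (Nat.pos_of_ne_zero h0)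
        exact (Nat.ordProj_mul_ordCompl_eq_self _ _).symm
    rw [mem_centralizer_iff] at this
    exact this
  obtain ⟨K, hKn, _, h1, h2⟩ := exists_normal_complement_of_centralize p P hPn hcent
  exact ⟨P, K, hPn, hKn, h1, h2⟩

/-- Let p be a prime and G a finite group. Then some Sylow p-subgroup of G is a direct factor of G (it is normal and has a normal complement) if and only if every element of p-power order commutes with every element whose order is a power of a prime other than p. -/
theorem result {G : Type*} [Group G] [Finite G] (p : ℕ) [Fact p.Prime] : (∃ (P : Sylow p G) (K : Subgroup G), (P : Subgroup G).Normal ∧ K.Normal ∧ (P : Subgroup G) ⊓ K = ⊥ ∧ (P : Subgroup G) ⊔ K = ⊤) ↔ ∀ x y : G, (∃ a : ℕ, orderOf x = p ^ a) → (∃ q b : ℕ, q.Prime ∧ q ≠ p ∧ orderOf y = q ^ b) → x * y = y * x := by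
  have hp : p.Prime := Fact.out
  constructor
  · rintro ⟨P, K, hPn, hKn, hdis, hsup⟩ x y ⟨a, hx⟩ ⟨q, b, hq, hqp, hy⟩
    have hxP : x ∈ (P : Subgroup G) := mem_sylow_of_normal p P hPn x a hx
    have hyT : y ∈ (P : Subgroup G) ⊔ K := by rw [hsup]; trivial
    obtain ⟨u, hu, k, hk, huk⟩ := (mem_sup_of_normal_left (hs := hPn)).mp hyT
    have hcomm : Commute u k :=
      commute_of_normal_of_disjoint _ _ hPn hKn (disjoint_iff.mpr hdis) u k hu hk
    have h1 : u ^ (q ^ b) * k ^ (q ^ b) = 1 := by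
      rw [← hcomm.mul_pow, huk, ← hy, pow_orderOf_eq_one]
    have h2 : u ^ (q ^ b) ∈ (P : Subgroup G) ⊓ K := by
      refine ⟨Subgroup.pow_mem _ hu _, ?_⟩
      rw [eq_inv_of_mul_eq_one_left h1]
      exact K.inv_mem (K.pow_mem hk _)
    rw [hdis] at h2
    obtain ⟨c, hc⟩ := (IsPGroup.iff_orderOf.mp P.isPGroup') ⟨u, hu⟩
    have h3 : u ^ (p ^ c) ∈ (⊥ : Subgroup G) := by
      rw [Subgroup.mem_bot]
      have : orderOf u = p ^ c := by rw [← hc]; simp
      rw [← this, pow_orderOf_eq_one]
    have hcop : Nat.Coprime (q ^ b) (p ^ c) :=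
      Nat.Coprime.pow _ _ ((Nat.coprime_primes hq hp).mpr hqp)
    have h4 := coprime_pow_mem ⊥ u hcop h2 h3
    rw [Subgroup.mem_bot] at h4
    rw [h4, one_mul] at huk
    rw [← huk]
    exact (commute_of_normal_of_disjoint _ _ hPn hKn (disjoint_iff.mpr hdis) x k hxP hk).eq
  · exact dirB p

end Cfsg.Agent.S3986
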