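import Mathlib
import Cfsg.Statements.S3987
import Cfsg.Agent.S3986

set_option autoImplicit false
open Cfsg

namespace Cfsg.Agent.S3987

open Cfsg.Agent.Helper22 Subgroup

theorem mem_centralizer_singleton {G : Type*} [Group G] (z x : G) :
    z ∈ centralizer ({x} : Set G) ↔ x * z = z * x := by
  rw [mem_centralizer_iff]
  constructor
  · intro h; exact h x rfl
  · intro h w hw
    rw [Set.mem_singleton_iff] at hw
    rw [hw]; exact h

/-- Let p be a prime and G a finite group. Then some Sylow p-subgroup of G is a direct factor of G (normal with a normal complement) if and only if for every element x of p-power order and every element y whose order is a power of a prime other than p, the conjugacy class of x y has as many elements as the product of the sizes of the classes of x and of y. -/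
theorem result {G : Type*} [Group G] [Finite G] (p : ℕ) [Fact p.Prime] : (∃ (P : Sylow p G) (K : Subgroup G), (P : Subgroup G).Normal ∧ K.Normal ∧ (P : Subgroup G) ⊓ K = ⊥ ∧ (P : Subgroup G) ⊔ K = ⊤) ↔ ∀ x y : G, (∃ a : ℕ, orderOf x = p ^ a) → (∃ q b : ℕ, q.Prime ∧ q ≠ p ∧ orderOf y = q ^ b) → (Subgroup.centralizer ({x * y} : Set G)).index = (Subgroup.centralizer ({x} : Set G)).index * (Subgroup.centralizer ({y} : Set G)).index := by
  have hp : p.Prime := Fact.out
  rw [Cfsg.Agent.S3986.result p]
  constructor
  · intro hcomm x y hx hy
    obtain ⟨a, hxa⟩ := hx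
    obtain ⟨q, b, hq, hqp, hyb⟩ := hy
    have hxy : Commute x y := hcomm x y ⟨a, hxa⟩ ⟨q, b, hq, hqp, hyb⟩
    have hcop : Nat.Coprime (q ^ b) (p ^ a) := Nat.Coprime.pow _ _ ((Nat.coprime_primes hq hp).mpr hqp)
    -- C(xy) = C(x) ⊓ C(y)
    have hC : centralizer ({x * y} : Set G) = centralizer ({x} : Set G) ⊓ centralizer ({y} : Set G) := by
      apply le_antisymm
      · intro z hz
        rw [mem_centralizer_singleton] at hz
        have hxyS : x * y ∈ centralizer ({z} : Set G) := by
          rw [mem_centralizer_singleton]; exact hz.symm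
        have hxS : x ∈ centralizer ({z} : Set G) := by
          apply coprime_pow_mem _ x hcop
          · have : (x * y) ^ (q ^ b) = x ^ (q ^ b) := by
              rw [hxy.mul_pow, ← hyb, pow_orderOf_eq_one, mul_one]
            rw [← this]
            exact Subgroup.pow_mem _ hxyS _
          · rw [← hxa, pow_orderOf_eq_one]; exact one_mem _
        have hyS : y ∈ centralizer ({z} : Set G) := by
          have : y = x⁻¹ * (x * y) := by group
          rw [this]
          exact Subgroup.mul_mem _ (inv_mem hxS) hxyS
        rw [mem_centralizer_singleton] at hxS hyS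
        exact Subgroup.mem_inf.mpr ⟨(mem_centralizer_singleton z x).mpr hxS.symm,
          (mem_centralizer_singleton z y).mpr hyS.symm⟩
      · intro z hz
        obtain ⟨h1, h2⟩ := Subgroup.mem_inf.mp hz
        rw [mem_centralizer_singleton] at h1 h2 ⊢
        rw [mul_assoc, h2, ← mul_assoc, h1, mul_assoc]
    rw [hC]
    -- coprime indices
    have hcopi : Nat.Coprime (centralizer ({x} : Set G)).index (centralizer ({y} : Set G)).index := by
      apply Nat.coprime_of_dvd
      intro r hr hr1 hr2
      by_cases hrp : r = p
      · let P : Sylow p G := default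
        have hPle : (P : Subgroup G) ≤ centralizer ({y} : Set G) := by
          intro u hu
          obtain ⟨k, hk⟩ := (IsPGroup.iff_orderOf.mp P.isPGroup') ⟨u, hu⟩
          rw [mem_centralizer_singleton]
          exact (hcomm u y ⟨k, by rw [← hk]; simp⟩ ⟨q, b, hq, hqp, hyb⟩).symm
        rw [hrp] at hr2
        exact P.not_dvd_index (dvd_trans hr2 (index_dvd_of_le hPle))
      · haveI := Fact.mk hr
        let R : Sylow r G := default
        have hRle : (R : Subgroup G) ≤ centralizer ({x} : Set G) := by
          intro u hu
          obtain ⟨k, hk⟩ := (IsPGroup.iff_orderOf.mp R.isPGroup') ⟨u, hu⟩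
          rw [mem_centralizer_singleton]
          exact hcomm x u ⟨a, hxa⟩ ⟨r, k, hr, hrp, by rw [← hk]; simp⟩
        exact R.not_dvd_index (dvd_trans hr1 (index_dvd_of_le hRle))
    apply Nat.le_antisymm index_inf_le
    apply Nat.le_of_dvd
    · exact Nat.pos_of_ne_zero (Subgroup.index_ne_zero_of_finite)
    · exact Nat.Coprime.mul_dvd_of_dvd_of_dvd hcopi (index_dvd_of_le inf_le_left) (index_dvd_of_le inf_le_right)
  · intro hidx x y hx hy
    have h1 := hidx x y hx hy
    have hle : centralizer ({x} : Set G) ⊓ centralizer ({y} : Set G) ≤ centralizer ({x * y} : Set G) := by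
      intro z hz
      obtain ⟨h1, h2⟩ := Subgroup.mem_inf.mp hz
      rw [mem_centralizer_singleton] at h1 h2 ⊢
      rw [mul_assoc, h2, ← mul_assoc, h1, mul_assoc]
    have h2 := relIndex_mul_index hle
    have h3 : (centralizer ({x} : Set G) ⊓ centralizer ({y} : Set G)).index ≤ (centralizer ({x * y} : Set G)).index := by
      rw [h1]; exact index_inf_le
    have hpos : 0 < (centralizer ({x * y} : Set G)).index := Nat.pos_of_ne_zero (Subgroup.index_ne_zero_of_finite)
    have h4 : (centralizer ({x} : Set G) ⊓ centralizer ({y} : Set G)).relIndex (centralizer ({x * y} : Set G)) = 1 := by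
      rw [← h2] at h3
      have hpos2 : 0 < (centralizer ({x} : Set G) ⊓ centralizer ({y} : Set G)).relIndex (centralizer ({x * y} : Set G)) := by
        apply Nat.pos_of_ne_zero
        intro h0
        rw [h0, zero_mul] at h2
        exact (Subgroup.index_ne_zero_of_finite) h2.symm
      nlinarith
    have h5 := relIndex_eq_one.mp h4
    have h6 : x * y ∈ centralizer ({x * y} : Set G) := by
      rw [mem_centralizer_singleton]
    have h7 := (Subgroup.mem_inf.mp (h5 h6)).1
    rw [mem_centralizer_singleton] at h7
    have : x * (x * y) = x * (y * x) := by rw [h7, mul_assoc]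
    exact mul_left_cancel this

end Cfsg.Agent.S3987
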