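import Cfsg.Statements.S4013
import Mathlib
-- import your own Cfsg.Agent.* helpers here

set_option autoImplicit false
open Cfsg

namespace Cfsg.Agent.S4013

/-- Let G be a finite p-group (p prime) and N < M normal subgroups of G such that for some g ∈ M ∖ N the conjugacy class of g is exactly M ∖ N. Then p = 2 and N has index 2 in M. -/
theorem result {G : Type*} [Group G] [Finite G] (p : ℕ) [Fact p.Prime] (hG : IsPGroup p G) (N M : Subgroup G) [N.Normal] [M.Normal] (hNM : N < M) (g : G) (hgM : g ∈ M) (hgN : g ∉ N) (hcl : {h : G | IsConj g h} = (M : Set G) \ (N : Set G)) : p = 2 ∧ N.relIndex M = 2 := by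
  have hp : p.Prime := Fact.out
  -- the class of g is an orbit of the conjugation action, so has p-power size
  have horb : MulAction.orbit (ConjAct G) g = {h : G | IsConj g h} := by
    ext h
    rw [ConjAct.mem_orbit_conjAct, Set.mem_setOf_eq, isConj_comm]
  have hGc : IsPGroup p (ConjAct G) := hG
  obtain ⟨n, hn⟩ := hGc.card_orbit g
  rw [horb, hcl] at hn
  -- cardinalities
  have hsub : (N : Set G) ⊆ (M : Set G) := hNM.le
  have hdiff : Nat.card ((M : Set G) \ (N : Set G) : Set G) = Nat.card M - Nat.card N := by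
    rw [Nat.card_coe_set_eq, Set.ncard_diff hsub (Set.toFinite _), ← Nat.card_coe_set_eq, ← Nat.card_coe_set_eq]
    rfl
  rw [hdiff] at hn
  have hmul : Nat.card N * N.relIndex M = Nat.card M := by
    have := Subgroup.relIndex_mul_relIndex (⊥ : Subgroup G) N M bot_le hNM.le
    rwa [Subgroup.relIndex_bot_left, Subgroup.relIndex_bot_left] at this
  -- relIndex is a p-power
  have hNM' : IsPGroup p M := hG.to_subgroup M
  obtain ⟨j, hj⟩ := hNM'.index (N.subgroupOf M)
  have hr : N.relIndex M = p ^ j := hj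
  have hj0 : j ≠ 0 := by
    rintro rfl
    rw [pow_zero, Subgroup.relIndex_eq_one] at hr
    exact (not_le_of_gt hNM) hr
  have hcardN : 0 < Nat.card N := Nat.card_pos
  rw [← hmul, hr] at hn
  have h1 : Nat.card N * (p ^ j - 1) = p ^ n := by
    rw [Nat.mul_sub, mul_one]; exact hn
  have h2 : p ^ j - 1 ∣ p ^ n := Dvd.intro_left _ h1
  obtain ⟨i, _, hi⟩ := (Nat.dvd_prime_pow hp).mp h2
  have hpj : 2 ≤ p ^ j := by
    calc 2 ≤ p := hp.two_le
      _ = p ^ 1 := (pow_one p).symm
      _ ≤ p ^ j := Nat.pow_le_pow_right hp.pos (Nat.one_le_iff_ne_zero.mpr hj0)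
  have hi0 : i = 0 := by
    by_contra hi0
    have hd1 : p ∣ p ^ i := dvd_pow_self p hi0
    have hd2 : p ∣ p ^ j := dvd_pow_self p hj0
    have hd3 : p ∣ p ^ j - p ^ i := Nat.dvd_sub hd2 hd1
    have : p ^ j - p ^ i = 1 := by omega
    rw [this] at hd3
    exact hp.one_lt.ne' (Nat.dvd_one.mp hd3)
  rw [hi0, pow_zero] at hi
  have hpj2 : p ^ j = 2 := by omega
  have hp2 : p = 2 := by
    have : p ∣ 2 := by rw [← hpj2]; exact dvd_pow_self p hj0
    exact (Nat.prime_dvd_prime_iff_eq hp Nat.prime_two).mp this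
  exact ⟨hp2, by rw [hr, hpj2]⟩

end Cfsg.Agent.S4013
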