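import Mathlib
import Cfsg.Statements.S4014
import Cfsg.Agent.Helper22.PermDerived

set_option autoImplicit false
open Cfsg

namespace Cfsg.Agent.S4014

open Cfsg.Agent.Helper22

/-- Let p be a prime, n ≥ 1, and P a Sylow p-subgroup of the symmetric group on n letters. Then the derived length of P is exactly k = ⌊log_p n⌋ (the largest k with p^k ≤ n): the k-th derived subgroup of P is trivial and, when k ≥ 1, the (k−1)-st is not. -/
theorem result (p : ℕ) [Fact p.Prime] (n : ℕ) (hn : 1 ≤ n) (P : Sylow p (Equiv.Perm (Fin n))) : derivedSeries ↥(P : Subgroup (Equiv.Perm (Fin n))) (Nat.log p n) = ⊥ ∧ (1 ≤ Nat.log p n → derivedSeries ↥(P : Subgroup (Equiv.Perm (Fin n))) (Nat.log p n - 1) ≠ ⊥) := by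
  constructor
  · rw [eq_bot_iff]
    intro x hx
    rw [Subgroup.mem_bot]
    have hx' : x ∈ derivedSeries ↥(P : Subgroup (Equiv.Perm (Fin n)))
        (Nat.log p (Nat.card (Fin n))) := by
      rw [Nat.card_fin]; exact hx
    have h1 := derived_fixes p (Nat.card (Fin n)) ↥(P : Subgroup (Equiv.Perm (Fin n))) (Fin n)
      P.2 le_rfl x hx'
    apply Subtype.ext
    apply Equiv.ext
    intro ω
    exact h1 ω
  · intro hk
    obtain ⟨k, hk'⟩ : ∃ k, Nat.log p n = k + 1 := ⟨Nat.log p n - 1, by omega⟩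
    rw [hk', Nat.add_sub_cancel]
    apply sylow_perm_derived_ne_bot p n k
    rw [← hk']
    exact Nat.pow_log_le_self p (by omega)

end Cfsg.Agent.S4014
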