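import Mathlib
import Cfsg.Statements.S4027
import Cfsg.Agent.Helper22.InvertOdd

set_option autoImplicit false
open Cfsg

namespace Cfsg.Agent.S4027

/-- Let G be a finite group in which every element x of odd order satisfies N_G(⟨x⟩) = C_G(x). Then the Sylow 2-subgroups of G are normal. -/
theorem result {G : Type*} [Group G] [Finite G]
    (hirr : ∀ x : G, (∀ r : ℕ, r.Prime → r ∣ orderOf x → r ≠ 2) →
      Subgroup.normalizer ((Subgroup.zpowers x : Subgroup G) : Set G) ≤ Subgroup.centralizer {x}) (P : Sylow 2 G) :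
    (P : Subgroup G).Normal := by
  by_contra hP
  obtain ⟨y, s, hy1, hyodd, hinv⟩ :=
    Cfsg.Agent.Helper22.exists_inverted_odd_of_sylow_two_not_normal P hP
  have h1 : ∀ r : ℕ, r.Prime → r ∣ orderOf y → r ≠ 2 := by
    rintro r _ hr rfl
    exact (Nat.not_even_iff_odd.mpr hyodd) (even_iff_two_dvd.mpr hr)
  have hsN : s ∈ Subgroup.normalizer ((Subgroup.zpowers y : Subgroup G) : Set G) := by
    apply Cfsg.Agent.Helper22.mem_normalizer_zpowers_of_conj
    rw [hinv]; exact Subgroup.inv_mem _ (Subgroup.mem_zpowers y)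
  have hsC := hirr y h1 hsN
  rw [Subgroup.mem_centralizer_iff] at hsC
  have h2 : y * s = s * y := hsC y (Set.mem_singleton y)
  have h3 : y = y⁻¹ := by
    rw [← hinv, ← h2]; group
  have h4 : y ^ 2 = 1 := by
    rw [pow_two]
    nth_rw 1 [h3]
    exact inv_mul_cancel y
  have h5 : orderOf y ∣ 2 := orderOf_dvd_of_pow_eq_one h4
  have h6 : orderOf y = 1 := by
    rcases (Nat.dvd_prime Nat.prime_two).mp h5 with h | h
    · exact h
    · rw [h] at hyodd; exact absurd hyodd (by decide)
  exact hy1 (orderOf_eq_one_iff.mp h6)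

end Cfsg.Agent.S4027
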