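import Mathlib
import Cfsg.Statements.S4028
import Cfsg.Agent.Helper22.CyclicNorm

set_option autoImplicit false
open Cfsg

namespace Cfsg.Agent.S4028

open Cfsg.Agent.Helper22 Subgroup

theorem two_elt_of_sylow {G : Type*} [Group G] [Finite G] (P : Sylow 2 G) (y : ↥(P : Subgroup G)) :
    ∀ r : ℕ, r.Prime → r ∣ orderOf (y : G) → r = 2 := by
  intro r hr hdvd
  obtain ⟨k, hk⟩ := (IsPGroup.iff_orderOf.mp P.isPGroup') y
  rw [Subgroup.orderOf_coe, hk] at hdvd
  exact (Nat.prime_dvd_prime_iff_eq hr Nat.prime_two).mp (hr.dvd_of_dvd_pow hdvd)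

theorem dirA {G : Type*} [Group G] [Finite G] (P : Sylow 2 G)
    (hA : ∀ x : G, (∀ r : ℕ, r.Prime → r ∣ orderOf x → r = 2) →
      Subgroup.normalizer ((Subgroup.zpowers x : Subgroup G) : Set G) ≤ Subgroup.centralizer {x}) :
    (∀ y : ↥(P : Subgroup G), Subgroup.normalizer ((Subgroup.zpowers y : Subgroup ↥(P : Subgroup G)) : Set ↥(P : Subgroup G)) ≤
        Subgroup.centralizer {y}) := by
  intro y n hn
  have h1 := conj_mem_zpowers_of_mem_normalizer n y hn
  obtain ⟨k, hk⟩ := h1
  have h2 : (n : G) * (y : G) * (n : G)⁻¹ ∈ zpowers (y : G) := by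
    refine ⟨k, ?_⟩
    have := congrArg Subtype.val hk
    simpa using this
  have h3 := hA (y : G) (two_elt_of_sylow P y) (mem_normalizer_zpowers_of_conj _ _ h2)
  rw [mem_centralizer_iff] at h3 ⊢
  intro z hz
  rw [Set.mem_singleton_iff] at hz
  rw [hz]
  apply Subtype.ext
  simpa using h3 (y : G) rfl

theorem dirB {G : Type*} [Group G] [Finite G] (P : Sylow 2 G)
    (hB : ∀ y : ↥(P : Subgroup G), Subgroup.normalizer ((Subgroup.zpowers y : Subgroup ↥(P : Subgroup G)) : Set ↥(P : Subgroup G)) ≤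
        Subgroup.centralizer {y}) :
    (∀ x : G, (∀ r : ℕ, r.Prime → r ∣ orderOf x → r = 2) →
      Subgroup.normalizer ((Subgroup.zpowers x : Subgroup G) : Set G) ≤ Subgroup.centralizer {x}) := by
  intro x hx g hg
  have hN : orderOf x = 2 ^ (orderOf x).primeFactorsList.length :=
    Nat.eq_prime_pow_of_unique_prime_dvd (orderOf_pos x).ne' (fun {d} hd hdvd => hx d hd hdvd)
  generalize (orderOf x).primeFactorsList.length = n at hN
  have hconj := conj_mem_zpowers_of_mem_normalizer g x hg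
  have hmemS : ∀ z : G, z ∈ centralizer {x} ↔ Commute z x := by
    intro z
    rw [mem_centralizer_iff]
    constructor
    · intro h; exact (h x rfl).symm
    · intro h w hw
      rw [Set.mem_singleton_iff] at hw
      rw [hw]; exact h.eq.symm
  -- totient
  have hφ : ∃ m : ℕ, g ^ (2 ^ m) ∈ centralizer {x} := by
    have h1 := pow_totient_commute g x hconj
    rw [hN] at h1
    rcases Nat.eq_zero_or_pos n with h0 | hpos
    · refine ⟨0, ?_⟩
      rw [h0] at h1
      simp only [pow_zero, Nat.totient_one, pow_one] at h1 ⊢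
      exact (hmemS g).mpr h1
    · refine ⟨n - 1, ?_⟩
      rw [Nat.totient_prime_pow Nat.prime_two hpos] at h1
      simp only [Nat.add_one_sub_one, mul_one] at h1
      exact (hmemS _).mpr h1
  obtain ⟨m, hm⟩ := hφ
  have ho0 : orderOf g ≠ 0 := (orderOf_pos g).ne'
  have hab : 2 ^ (orderOf g).factorization 2 * (orderOf g / 2 ^ (orderOf g).factorization 2) = orderOf g :=
    Nat.ordProj_mul_ordCompl_eq_self (orderOf g) 2
  have hcop2 : Nat.Coprime 2 (orderOf g / 2 ^ (orderOf g).factorization 2) :=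
    Nat.coprime_ordCompl Nat.prime_two ho0
  generalize (orderOf g).factorization 2 = e at hab hcop2
  generalize hbb : orderOf g / 2 ^ e = b at hab hcop2
  -- odd part
  have hga : g ^ (2 ^ e) ∈ centralizer {x} := by
    apply coprime_pow_mem (centralizer {x}) (g ^ (2 ^ e)) (m := 2 ^ m) (l := b)
    · exact Nat.Coprime.pow_left _ hcop2
    · rw [← pow_mul, mul_comm, pow_mul]
      exact Subgroup.pow_mem _ hm _
    · rw [← pow_mul, hab, pow_orderOf_eq_one]
      exact Subgroup.one_mem _
  -- 2-part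
  have hgb : g ^ b ∈ centralizer {x} := by
    set t := g ^ b with ht
    have htn : t ∈ normalizer ((zpowers x : Subgroup G) : Set G) := Subgroup.pow_mem _ hg _
    have hto : orderOf t ∣ 2 ^ e := by
      apply orderOf_dvd_of_pow_eq_one
      rw [ht, ← pow_mul, mul_comm, hab, pow_orderOf_eq_one]
    obtain ⟨i, _, hi⟩ := (Nat.dvd_prime_pow Nat.prime_two).mp hto
    have hpt : IsPGroup 2 (zpowers t) := IsPGroup.of_card (n := i) (by rw [Nat.card_zpowers, hi])
    have hpx : IsPGroup 2 (zpowers x) := IsPGroup.of_card (n := n) (by rw [Nat.card_zpowers, hN])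
    have hsup : IsPGroup 2 (zpowers t ⊔ zpowers x : Subgroup G) :=
      hpt.to_sup_of_normal_right' hpx (by rw [zpowers_le]; exact htn)
    obtain ⟨Q, hQ⟩ := hsup.exists_le_sylow
    obtain ⟨h, hh⟩ := MulAction.exists_smul_eq G P Q
    have hmemP : ∀ z : G, z ∈ (Q : Subgroup G) → h⁻¹ * z * h ∈ (P : Subgroup G) := by
      intro z hz
      rw [← hh, Sylow.coe_subgroup_smul, Subgroup.mem_pointwise_smul_iff_inv_smul_mem] at hz
      simpa [MulAut.smul_def] using hz
    have hxQ : x ∈ (Q : Subgroup G) := hQ (le_sup_right (a := zpowers t) (mem_zpowers x))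
    have htQ : t ∈ (Q : Subgroup G) := hQ (le_sup_left (b := zpowers x) (mem_zpowers t))
    set y : ↥(P : Subgroup G) := ⟨h⁻¹ * x * h, hmemP x hxQ⟩ with hy
    set nn : ↥(P : Subgroup G) := ⟨h⁻¹ * t * h, hmemP t htQ⟩ with hnn
    obtain ⟨k, hk⟩ := conj_mem_zpowers_of_mem_normalizer t x htn
    have hk : x ^ k = t * x * t⁻¹ := hk
    have h1 : nn * y * nn⁻¹ ∈ zpowers y := by
      refine ⟨k, ?_⟩
      apply Subtype.ext
      simp only [hy, hnn, Subgroup.coe_mul, Subgroup.coe_zpow, Subgroup.coe_inv]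
      have : (h⁻¹ * x * h) ^ k = h⁻¹ * x ^ k * h := by
        have := conj_zpow (a := h⁻¹) (b := x) (i := k)
        simpa using this
      rw [this, hk]
      group
    have h2 := hB y (mem_normalizer_zpowers_of_conj _ _ h1)
    rw [mem_centralizer_iff] at h2
    have h3 := congrArg Subtype.val (h2 y rfl)
    simp only [hy, hnn, Subgroup.coe_mul] at h3
    rw [hmemS]
    unfold Commute SemiconjBy
    calc t * x = h * (h⁻¹ * t * h * (h⁻¹ * x * h)) * h⁻¹ := by group
      _ = h * (h⁻¹ * x * h * (h⁻¹ * t * h)) * h⁻¹ := by rw [h3]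
      _ = x * t := by group
  exact coprime_pow_mem (centralizer {x}) g (Nat.Coprime.pow_left _ hcop2) hga hgb

/-- Let G be a finite group with Sylow 2-subgroup P. Then N_G(⟨x⟩) = C_G(x) holds for every 2-element x of G if and only if N_P(⟨y⟩) = C_P(y) holds for every y ∈ P (computed inside P). -/
theorem result {G : Type*} [Group G] [Finite G] (P : Sylow 2 G) :
    (∀ x : G, (∀ r : ℕ, r.Prime → r ∣ orderOf x → r = 2) →
      Subgroup.normalizer ((Subgroup.zpowers x : Subgroup G) : Set G) ≤ Subgroup.centralizer {x}) ↔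
    (∀ y : ↥(P : Subgroup G), Subgroup.normalizer ((Subgroup.zpowers y : Subgroup ↥(P : Subgroup G)) : Set ↥(P : Subgroup G)) ≤
        Subgroup.centralizer {y}) :=
  ⟨dirA P, dirB P⟩

end Cfsg.Agent.S4028
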