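import Mathlib
import Cfsg.Statements.S4032
import Cfsg.Agent.Helper22.CyclicNorm
import Cfsg.Agent.Helper22.SylowSup

set_option autoImplicit false
open Cfsg

namespace Cfsg.Agent.S4032

open Cfsg.Agent.Helper22 Subgroup

/-- the `p`-element case -/
theorem claim {G : Type*} [Group G] [Finite G] (π : Set ℕ)
    (hirr : ∀ x : G, (∀ r : ℕ, r.Prime → r ∣ orderOf x → r ∈ π) →
      Subgroup.normalizer ((Subgroup.zpowers x : Subgroup G) : Set G) ≤ Subgroup.centralizer {x})
    (N : Subgroup G) [N.Normal] (hN : ∀ r : ℕ, r.Prime → r ∣ Nat.card N → r ∉ π)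
    (p : ℕ) (hp : p.Prime) (hpπ : p ∈ π) (z gb : G ⧸ N) (e : ℕ) (hz : z ^ (p ^ e) = 1)
    (hconj : gb * z * gb⁻¹ ∈ zpowers z) : Commute gb z := by
  haveI := Fact.mk hp
  rcases Nat.eq_zero_or_pos e with he0 | hepos
  · rw [he0, pow_zero, pow_one] at hz
    rw [hz]; exact Commute.one_right gb
  obtain ⟨x0, hx0⟩ := QuotientGroup.mk_surjective z
  obtain ⟨g, hg⟩ := QuotientGroup.mk_surjective gb
  have ho0 : orderOf x0 ≠ 0 := (orderOf_pos x0).ne'
  have hab : p ^ (orderOf x0).factorization p * (orderOf x0 / p ^ (orderOf x0).factorization p) = orderOf x0 :=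
    Nat.ordProj_mul_ordCompl_eq_self (orderOf x0) p
  have hcop : Nat.Coprime p (orderOf x0 / p ^ (orderOf x0).factorization p) :=
    Nat.coprime_ordCompl hp ho0
  generalize (orderOf x0).factorization p = f at hab hcop
  generalize orderOf x0 / p ^ f = b0 at hab hcop
  have h1 : 1 < p ^ e := Nat.one_lt_pow hepos.ne' hp.one_lt
  obtain ⟨m, -, hm⟩ := Nat.exists_mul_mod_eq_one_of_coprime (Nat.Coprime.pow_right e hcop.symm) h1
  set x := x0 ^ (b0 * m) with hx
  have hxz : (QuotientGroup.mk x : G ⧸ N) = z := by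
    rw [hx, QuotientGroup.mk_pow, hx0]
    have := Nat.div_add_mod (b0 * m) (p ^ e)
    rw [hm] at this
    rw [← this, pow_add, pow_mul, hz, one_pow, pow_one, one_mul]
  have hxo : orderOf x ∣ p ^ f := by
    apply orderOf_dvd_of_pow_eq_one
    rw [hx, ← pow_mul, mul_comm b0 m, mul_assoc, mul_comm b0, hab, mul_comm, pow_mul, pow_orderOf_eq_one, one_pow]
  obtain ⟨i, _, hi⟩ := (Nat.dvd_prime_pow hp).mp hxo
  have hpX : IsPGroup p (zpowers x) := IsPGroup.of_card (n := i) (by rw [Nat.card_zpowers, hi])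
  have hpX' : IsPGroup p (zpowers (g * x * g⁻¹)) := by
    apply IsPGroup.of_card (n := i)
    rw [Nat.card_zpowers]
    have : g * x * g⁻¹ = MulAut.conj g x := by simp
    rw [this, MulEquiv.orderOf_eq, hi]
  have hle : zpowers (g * x * g⁻¹) ≤ zpowers x ⊔ N := by
    rw [zpowers_le]
    obtain ⟨k, hk⟩ := hconj
    have hk : z ^ k = gb * z * gb⁻¹ := hk
    rw [← hxz, ← hg, ← QuotientGroup.mk_zpow, ← QuotientGroup.mk_inv, ← QuotientGroup.mk_mul,
      ← QuotientGroup.mk_mul, QuotientGroup.eq] at hk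
    have : g * x * g⁻¹ = x ^ k * ((x ^ k)⁻¹ * (g * x * g⁻¹)) := by group
    rw [this]
    exact Subgroup.mul_mem _ (le_sup_left (b := N) (zpow_mem_zpowers x k)) (le_sup_right (a := zpowers x) hk)
  have hNp : ¬ p ∣ Nat.card N := fun h => hN p hp h hpπ
  obtain ⟨n, hn, hconj'⟩ := exists_conj_mem_of_pgroup_sup p (zpowers x) (zpowers (g * x * g⁻¹)) N hNp hpX hpX' hle
  have h2 := hconj' (g * x * g⁻¹) (mem_zpowers _)
  have h3 : (n⁻¹ * g) * x * (n⁻¹ * g)⁻¹ ∈ zpowers x := by
    have : (n⁻¹ * g) * x * (n⁻¹ * g)⁻¹ = n⁻¹ * (g * x * g⁻¹) * n := by group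
    rw [this]; exact h2
  have hxπ : ∀ r : ℕ, r.Prime → r ∣ orderOf x → r ∈ π := by
    intro r hr hdvd
    rw [hi] at hdvd
    have := (Nat.prime_dvd_prime_iff_eq hr hp).mp (hr.dvd_of_dvd_pow hdvd)
    rw [this]; exact hpπ
  have h4 := hirr x hxπ (mem_normalizer_zpowers_of_conj _ _ h3)
  rw [mem_centralizer_iff] at h4
  have h5 := h4 x rfl
  have h6 : (QuotientGroup.mk (n⁻¹ * g) : G ⧸ N) = gb := by
    rw [← hg, QuotientGroup.eq]
    have : (n⁻¹ * g)⁻¹ * g = g⁻¹ * n * g := by group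
    rw [this]
    have := ‹N.Normal›.conj_mem n hn g⁻¹
    simpa using this
  have h7 : (QuotientGroup.mk x : G ⧸ N) * QuotientGroup.mk (n⁻¹ * g) =
      QuotientGroup.mk (n⁻¹ * g) * QuotientGroup.mk x := by
    rw [← QuotientGroup.mk_mul, ← QuotientGroup.mk_mul, h5]
  rw [h6, hxz] at h7
  exact h7.symm

/-- Let π be a set of primes and G a finite group in which N_G(⟨x⟩) = C_G(x) for every π-element x. If N is a normal subgroup of G whose order is divisible by no prime of π, then G/N has the same property: N_{G/N}(⟨y⟩) = C_{G/N}(y) for every π-element y of G/N. -/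
theorem result {G : Type*} [Group G] [Finite G] (π : Set ℕ)
    (hirr : ∀ x : G, (∀ r : ℕ, r.Prime → r ∣ orderOf x → r ∈ π) →
      Subgroup.normalizer ((Subgroup.zpowers x : Subgroup G) : Set G) ≤ Subgroup.centralizer {x})
    (N : Subgroup G) [N.Normal] (hN : ∀ r : ℕ, r.Prime → r ∣ Nat.card N → r ∉ π) :
    ∀ y : G ⧸ N, (∀ r : ℕ, r.Prime → r ∣ orderOf y → r ∈ π) →
      Subgroup.normalizer ((Subgroup.zpowers y : Subgroup (G ⧸ N)) : Set (G ⧸ N)) ≤ Subgroup.centralizer {y} := by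
  intro y hy gb hgb
  have hconj := conj_mem_zpowers_of_mem_normalizer gb y hgb
  have hyS : y ∈ centralizer {gb} := by
    apply primary_mem (centralizer {gb}) (orderOf y) y rfl (orderOf_pos y).ne'
    intro p hp
    by_cases hpd : p ∣ orderOf y
    · have hpπ := hy p hp hpd
      have hcomm : Commute gb (y ^ (ordCompl[p] (orderOf y))) := by
        apply claim π hirr N hN p hp hpπ _ gb ((orderOf y).factorization p)
        · rw [← pow_mul, mul_comm, Nat.ordProj_mul_ordCompl_eq_self, pow_orderOf_eq_one]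
        · obtain ⟨k, hk⟩ := hconj
          have hk : y ^ k = gb * y * gb⁻¹ := hk
          refine ⟨k, ?_⟩
          show (y ^ (ordCompl[p] (orderOf y))) ^ k = gb * y ^ (ordCompl[p] (orderOf y)) * gb⁻¹
          rw [← conj_pow, ← hk, ← zpow_natCast, ← zpow_natCast, ← zpow_mul, ← zpow_mul, mul_comm]
      rw [mem_centralizer_iff]
      intro w hw
      rw [Set.mem_singleton_iff] at hw
      rw [hw]; exact hcomm.eq
    · have : ordCompl[p] (orderOf y) = orderOf y :=
        (Nat.ordCompl_eq_self_iff_zero_or_not_dvd _ hp).mpr (Or.inr hpd)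
      rw [this, pow_orderOf_eq_one]
      exact Subgroup.one_mem _
  rw [mem_centralizer_iff] at hyS ⊢
  intro w hw
  rw [Set.mem_singleton_iff] at hw
  rw [hw]
  exact (hyS gb rfl).symm

end Cfsg.Agent.S4032
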