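import Mathlib
import Cfsg.Statements.S4035
import Cfsg.Agent.Helper22.DirectFactor
import Cfsg.Agent.Helper22.ConjClass

set_option autoImplicit false
open Cfsg

namespace Cfsg.Agent.S4035

open Cfsg.Agent.Helper22 Subgroup

/-- Let G be a finite group and p a prime such that p divides the size of no conjugacy class of p-regular elements (elements of order prime to p). Then G is the internal direct product of a Sylow p-subgroup P and a normal subgroup H of order prime to p: P is normal, P ⊓ H = 1 and PH = G. -/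
theorem result {G : Type*} [Group G] [Finite G] {p : ℕ} [Fact p.Prime]
    (h : ∀ x : G, (orderOf x).Coprime p → ¬ p ∣ (ConjClasses.mk x).carrier.ncard) (P : Sylow p G) :
    (P : Subgroup G).Normal ∧ ∃ H : Subgroup G, H.Normal ∧ ¬ p ∣ Nat.card H ∧
      (P : Subgroup G) ⊓ H = ⊥ ∧ (P : Subgroup G) ⊔ H = ⊤ := by
  have hp : p.Prime := Fact.out
  -- step 1: each p-regular element centralizes a conjugate of P
  have step1 : ∀ v : G, (orderOf v).Coprime p → ∃ c : G, ∀ a ∈ (P : Subgroup G), c⁻¹ * a * c ∈ centralizer {v} := by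
    intro v hv
    have := h v hv
    rw [← index_centralizer_eq_ncard_carrier] at this
    exact exists_conj_le_of_not_dvd_index p (P : Subgroup G) P.isPGroup' _ this
  -- step 2: every element is conjugate into M
  have step2 : ∀ g : G, ∃ c : G, c⁻¹ * g * c ∈ (P : Subgroup G) ⊔ centralizer ((P : Subgroup G) : Set G) := by
    intro g
    have ho0 : orderOf g ≠ 0 := (orderOf_pos g).ne'
    have hab : p ^ (orderOf g).factorization p * (orderOf g / p ^ (orderOf g).factorization p) = orderOf g :=
      Nat.ordProj_mul_ordCompl_eq_self (orderOf g) p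
    have hcop : Nat.Coprime p (orderOf g / p ^ (orderOf g).factorization p) :=
      Nat.coprime_ordCompl hp ho0
    generalize (orderOf g).factorization p = e at hab hcop
    generalize orderOf g / p ^ e = b at hab hcop
    set u := g ^ b with hu
    set v := g ^ (p ^ e) with hv
    have hvo : (orderOf v).Coprime p := by
      have : orderOf v ∣ b := by
        apply orderOf_dvd_of_pow_eq_one
        rw [hv, ← pow_mul, hab, pow_orderOf_eq_one]
      exact Nat.Coprime.coprime_dvd_left this hcop.symm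
    obtain ⟨c1, hc1⟩ := step1 v hvo
    -- the conjugate Sylow
    set P1 : Sylow p G := c1⁻¹ • P with hP1
    have hP1mem : ∀ z : G, z ∈ (P1 : Subgroup G) ↔ c1 * z * c1⁻¹ ∈ (P : Subgroup G) := by
      intro z
      rw [hP1, Sylow.coe_subgroup_smul, Subgroup.mem_pointwise_smul_iff_inv_smul_mem]
      simp [MulAut.smul_def]
    have hP1C : (P1 : Subgroup G) ≤ centralizer {v} := by
      intro z hz
      have := hc1 _ ((hP1mem z).mp hz)
      have h2 : c1⁻¹ * (c1 * z * c1⁻¹) * c1 = z := by group
      rwa [h2] at this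
    have hrel : ¬ p ∣ (P1 : Subgroup G).relIndex (centralizer {v}) := by
      intro hd
      exact P1.not_dvd_index (dvd_trans hd (relIndex_dvd_index_of_le hP1C))
    have huC : zpowers u ≤ centralizer {v} := by
      rw [zpowers_le, mem_centralizer_iff]
      intro w hw
      rw [Set.mem_singleton_iff] at hw
      rw [hw, hu, hv, ← pow_add, ← pow_add, add_comm]
    have hpu : IsPGroup p (zpowers u) := by
      have : orderOf u ∣ p ^ e := by
        apply orderOf_dvd_of_pow_eq_one
        rw [hu, ← pow_mul, mul_comm, hab, pow_orderOf_eq_one]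
      obtain ⟨i, _, hi⟩ := (Nat.dvd_prime_pow hp).mp this
      exact IsPGroup.of_card (n := i) (by rw [Nat.card_zpowers, hi])
    obtain ⟨c2, hc2, hc2'⟩ := exists_conj_le_of_not_dvd_relIndex p (zpowers u) (centralizer {v}) (P1 : Subgroup G) hpu huC hrel
    have h3 := (hP1mem _).mp (hc2' u (mem_zpowers u))
    refine ⟨c2 * c1⁻¹, ?_⟩
    have hu' : (c2 * c1⁻¹)⁻¹ * u * (c2 * c1⁻¹) ∈ (P : Subgroup G) := by
      have : (c2 * c1⁻¹)⁻¹ * u * (c2 * c1⁻¹) = c1 * (c2⁻¹ * u * c2) * c1⁻¹ := by group
      rw [this]; exact h3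
    have hv' : (c2 * c1⁻¹)⁻¹ * v * (c2 * c1⁻¹) ∈ centralizer ((P : Subgroup G) : Set G) := by
      rw [mem_centralizer_iff] at hc2
      have hc2v := hc2 v rfl
      have h4 : (c2 * c1⁻¹)⁻¹ * v * (c2 * c1⁻¹) = c1 * v * c1⁻¹ := by
        have : c2⁻¹ * v * c2 = v := by
          rw [mul_assoc, hc2v, inv_mul_cancel_left]
        calc (c2 * c1⁻¹)⁻¹ * v * (c2 * c1⁻¹) = c1 * (c2⁻¹ * v * c2) * c1⁻¹ := by group
          _ = c1 * v * c1⁻¹ := by rw [this]
      rw [h4, mem_centralizer_iff]
      intro a ha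
      have h5 := hc1 a ha
      rw [mem_centralizer_iff] at h5
      have h6 := h5 v rfl
      calc a * (c1 * v * c1⁻¹) = c1 * (c1⁻¹ * a * c1 * v) * c1⁻¹ := by group
        _ = c1 * (v * (c1⁻¹ * a * c1)) * c1⁻¹ := by rw [h6]
        _ = c1 * v * c1⁻¹ * a := by group
    apply coprime_pow_mem _ _ (m := b) (l := p ^ e) (Nat.Coprime.pow_right e hcop.symm)
    · have : ((c2 * c1⁻¹)⁻¹ * g * (c2 * c1⁻¹)) ^ b = (c2 * c1⁻¹)⁻¹ * u * (c2 * c1⁻¹) := by
        have := conj_pow (a := (c2 * c1⁻¹)⁻¹) (b := g) (i := b)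
        simpa using this
      rw [this]
      exact le_sup_left (b := centralizer ((P : Subgroup G) : Set G)) hu'
    · have : ((c2 * c1⁻¹)⁻¹ * g * (c2 * c1⁻¹)) ^ (p ^ e) = (c2 * c1⁻¹)⁻¹ * v * (c2 * c1⁻¹) := by
        have := conj_pow (a := (c2 * c1⁻¹)⁻¹) (b := g) (i := p ^ e)
        simpa using this
      rw [this]
      exact le_sup_right (a := (P : Subgroup G)) hv'
  have hM := eq_top_of_forall_conj_mem _ step2
  have hPn : (P : Subgroup G).Normal := by
    rw [← normalizer_eq_top_iff, eq_top_iff, ← hM]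
    exact sup_le le_normalizer (centralizer_le_normalizer _)
  refine ⟨hPn, ?_⟩
  apply exists_normal_complement_of_centralize p P hPn
  intro k hk a ha
  obtain ⟨c, hc⟩ := step1 k hk
  have h1 : c * a * c⁻¹ ∈ (P : Subgroup G) := hPn.conj_mem a ha c
  have h2 := hc _ h1
  have h3 : c⁻¹ * (c * a * c⁻¹) * c = a := by group
  rw [h3, mem_centralizer_iff] at h2
  exact (h2 k rfl).symm

end Cfsg.Agent.S4035
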