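import Mathlib
import Cfsg.Statements.S4036

set_option autoImplicit false
open Cfsg

namespace Cfsg.Agent.S4036

/-- Let P be a finite abelian p-group and K a group of automorphisms of P (a subgroup of Aut P) whose order is divisible by p. If all non-identity elements of K have the same fixed-point subgroup on P, then K has no non-trivial normal subgroup of order prime to p. -/
theorem result {P : Type*} [CommGroup P] [Finite P] {p : ℕ}
    [Fact p.Prime] (hP : IsPGroup p P) (K : Subgroup (MulAut P)) (hK : p ∣ Nat.card K)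
    (hfix : ∀ x y : MulAut P, x ∈ K → y ∈ K → x ≠ 1 → y ≠ 1 → ∀ v : P, x v = v ↔ y v = v) :
    ∀ N : Subgroup ↥K, N.Normal → ¬ p ∣ Nat.card N → N = ⊥ := by
  classical
  intro N hNn hNp
  by_contra hNbot
  have hp : p.Prime := Fact.out
  haveI : Fintype N := Fintype.ofFinite N
  let θ : P →* P := ∏ n : N, (((n : K) : MulAut P).toMonoidHom)
  have hθ : ∀ v, θ v = ∏ n : N, ((n : K) : MulAut P) v := by
    intro v
    simp [θ, MonoidHom.finsetProd_apply]
  obtain ⟨x, hx⟩ := exists_prime_orderOf_dvd_card' (G := K) p hK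
  have hx1 : (x : MulAut P) ≠ 1 := by
    intro h
    have : x = 1 := Subtype.ext h
    rw [this, orderOf_one] at hx
    exact hp.one_lt.ne hx
  have hxp : ((x : MulAut P)) ^ p = 1 := by
    have : x ^ p = 1 := by rw [← hx]; exact pow_orderOf_eq_one x
    have := congrArg Subtype.val this
    simpa using this
  have hθx : ∀ v, θ ((x : MulAut P) v) = (x : MulAut P) (θ v) := by
    intro v
    rw [hθ, hθ, map_prod]
    haveI := hNn
    rw [← Equiv.prod_comp (MulAut.conjNormal (H := N) x).toEquiv]
    apply Finset.prod_congr rfl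
    intro n _
    simp [MulAut.conjNormal_apply]
  have hθn : ∀ (n0 : N) (v : P), θ (((n0 : K) : MulAut P) v) = θ v := by
    intro n0 v
    rw [hθ, hθ]
    conv_rhs => rw [← Equiv.prod_comp (Equiv.mulRight n0)]
    apply Finset.prod_congr rfl
    intro n _
    simp
  -- the kernel is trivial
  have hW : θ.ker = ⊥ := by
    by_contra hWne
    haveI : Fintype θ.ker := Fintype.ofFinite _
    let f : Function.End θ.ker := fun w => ⟨(x : MulAut P) w, by
      rw [MonoidHom.mem_ker, hθx, (MonoidHom.mem_ker).mp w.2, map_one]⟩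
    have hfj : ∀ (j : ℕ) (w : θ.ker), (((f ^ j) w : θ.ker) : P) = ((x : MulAut P) ^ j) w := by
      intro j
      induction j with
      | zero => intro w; rfl
      | succ j ih =>
        intro w
        rw [pow_succ', pow_succ']
        show ((f ((f ^ j) w) : θ.ker) : P) = _
        rw [MulAut.mul_apply, ← ih w]
    have hf : f ^ p ^ 1 = 1 := by
      funext w
      apply Subtype.ext
      rw [pow_one, hfj, hxp]
      rfl
    have hmod := Equiv.Perm.card_fixedPoints_modEq (f := f) (p := p) (n := 1) hf
    obtain ⟨k, hk⟩ := IsPGroup.iff_card.mp (hP.to_subgroup θ.ker)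
    have hk0 : k ≠ 0 := by
      intro h0
      rw [h0, pow_zero] at hk
      exact hWne ((Subgroup.card_eq_one).mp hk)
    have hdvd : p ∣ Fintype.card θ.ker := by
      rw [← Nat.card_eq_fintype_card, hk]
      exact dvd_pow_self p hk0
    have hdvd2 : p ∣ Fintype.card (Function.fixedPoints f) :=
      (Nat.modEq_zero_iff_dvd.mp ((hmod.symm).trans (Nat.modEq_zero_iff_dvd.mpr hdvd)))
    have h1mem : (1 : θ.ker) ∈ Function.fixedPoints f := by
      show f 1 = 1
      apply Subtype.ext
      show (x : MulAut P) ((1 : θ.ker) : P) = ((1 : θ.ker) : P)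
      simp
    have hcard2 : 1 < Fintype.card (Function.fixedPoints f) := by
      have hpos : 0 < Fintype.card (Function.fixedPoints f) :=
        Fintype.card_pos_iff.mpr ⟨⟨1, h1mem⟩⟩
      have := Nat.le_of_dvd hpos hdvd2
      exact lt_of_lt_of_le hp.one_lt this
    obtain ⟨⟨w, hwf⟩, hw1⟩ := Fintype.exists_ne_of_one_lt_card hcard2 ⟨1, h1mem⟩
    have hw1' : (w : P) ≠ 1 := by
      intro h
      apply hw1
      apply Subtype.ext
      apply Subtype.ext
      exact h
    have hxw : (x : MulAut P) (w : P) = w := congrArg Subtype.val hwf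
    have hnw : ∀ n : N, ((n : K) : MulAut P) (w : P) = w := by
      intro n
      by_cases hn1 : ((n : K) : MulAut P) = 1
      · rw [hn1]; rfl
      · exact (hfix (x : MulAut P) ((n : K) : MulAut P) x.2 (n : K).2 hx1 hn1 (w : P)).mp hxw
    have hθw : θ (w : P) = (w : P) ^ Nat.card N := by
      rw [hθ, Finset.prod_congr rfl (fun n _ => hnw n), Finset.prod_const, Finset.card_univ,
        Nat.card_eq_fintype_card]
    have hθw1 : θ (w : P) = 1 := (MonoidHom.mem_ker).mp w.2
    rw [hθw1] at hθw
    have ho : orderOf (w : P) ∣ Nat.card N := orderOf_dvd_of_pow_eq_one hθw.symm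
    obtain ⟨j, hj⟩ := (IsPGroup.iff_orderOf.mp hP) (w : P)
    have hj0 : j ≠ 0 := by
      intro h0
      rw [h0, pow_zero] at hj
      exact hw1' (orderOf_eq_one_iff.mp hj)
    rw [hj] at ho
    exact hNp (dvd_trans (dvd_pow_self p hj0) ho)
  have hinj : Function.Injective θ := (MonoidHom.ker_eq_bot_iff θ).mp hW
  obtain ⟨n0, hn0⟩ := (Subgroup.ne_bot_iff_exists_ne_one).mp hNbot
  apply hn0
  apply Subtype.ext
  apply Subtype.ext
  ext v
  exact hinj (hθn n0 v)

end Cfsg.Agent.S4036
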