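import Mathlib
import Cfsg.Statements.S4043
import Cfsg.Agent.Helper22.NPC
import Cfsg.Agent.Helper22.CyclicNorm
import Cfsg.Agent.Lead.Coprime

set_option autoImplicit false
open Cfsg

namespace Cfsg.Agent.S4043

open Cfsg.Agent.Helper22 in
/-- Let G be a finite group that is the semidirect product of a normal p-subgroup N by a subgroup A, and also of N by a subgroup A₁, where p is a prime and A and A₁ both have normal p-complements. If C_N(A) = C_N(A₁) = 1, then A₁ is conjugate to A by an element of N. -/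
theorem result {G : Type*} [Group G] [Finite G] {p : ℕ}
    [Fact p.Prime] (N : Subgroup G) [N.Normal] (hN : IsPGroup p N) (A A₁ : Subgroup G)
    (hA : A.IsComplement' N) (hA₁ : A₁.IsComplement' N)
    (hAp : Cfsg.HasNormalPComplement p A) (hA₁p : Cfsg.HasNormalPComplement p A₁)
    (hC : ∀ n : G, n ∈ N → (∀ a : G, a ∈ A → a * n * a⁻¹ = n) → n = 1)
    (hC₁ : ∀ n : G, n ∈ N → (∀ a : G, a ∈ A₁ → a * n * a⁻¹ = n) → n = 1) :
    ∃ n : G, n ∈ N ∧ A₁ = A.map (MulAut.conj n).toMonoidHom := by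
  have hp : p.Prime := Fact.out
  obtain ⟨K, P, hKA, hPA, hAK, hPp, hdecA, hKcard⟩ := npc_data A hAp
  obtain ⟨K₁, P₁, hK₁A, hP₁A, hAK₁, hP₁p, hdecA₁, hK₁card⟩ := npc_data A₁ hA₁p
  have hcardA : Nat.card A₁ = Nat.card A := by
    have h1 := hA.card_mul_card
    have h2 := hA₁.card_mul_card
    have hpos : 0 < Nat.card N := Nat.card_pos
    exact Nat.eq_of_mul_eq_mul_right hpos (h2.trans h1.symm)
  have hcardK : Nat.card K₁ = Nat.card K := by rw [hKcard, hK₁card, hcardA]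
  have hKcop : (Nat.card K).Coprime p := by
    rw [hKcard]; exact (Nat.coprime_ordCompl hp Nat.card_pos.ne').symm
  obtain ⟨b, hb⟩ := IsPGroup.iff_card.mp hN
  have hKN : (Nat.card K).Coprime (Nat.card N) := by
    rw [hb]; exact Nat.Coprime.pow_right b hKcop
  have hdisj : ∀ z : G, z ∈ K → z ∈ N → z = 1 := by
    intro z hzK hzN
    have : z ∈ K ⊓ N := Subgroup.mem_inf.mpr ⟨hzK, hzN⟩
    rw [Cfsg.Agent.Lead.inf_eq_bot_of_coprime hKN, Subgroup.mem_bot] at this
    exact this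
  have hdecG : ∀ g : G, ∃ a ∈ A, ∃ n ∈ N, g = a * n := by
    intro g
    obtain ⟨⟨a, n⟩, han⟩ := hA.2 g
    exact ⟨a, a.2, n, n.2, han.symm⟩
  -- M = K ⊔ N is normal
  haveI hMn : (K ⊔ N).Normal := by
    constructor
    intro m hm g
    obtain ⟨a, ha, n, hn, rfl⟩ := hdecG g
    have h1 : n * m * n⁻¹ ∈ K ⊔ N :=
      Subgroup.mul_mem _ (Subgroup.mul_mem _ (Subgroup.mem_sup_right hn) hm)
        (Subgroup.inv_mem _ (Subgroup.mem_sup_right hn))
    obtain ⟨k', hk', n', hn', e⟩ := Subgroup.mem_sup_of_normal_right.mp h1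
    have e2 : a * n * m * (a * n)⁻¹ = (a * k' * a⁻¹) * (a * n' * a⁻¹) := by
      have : a * n * m * (a * n)⁻¹ = a * (n * m * n⁻¹) * a⁻¹ := by group
      rw [this, ← e]; group
    rw [e2]
    exact Subgroup.mul_mem_sup (hAK a ha k' hk') (Subgroup.Normal.conj_mem inferInstance n' hn' a)
  -- index of M is a power of p
  have hidx : ∃ c : ℕ, (K ⊔ N).index = p ^ c := by
    have h1 : (K ⊔ N).index ∣ K.index := Subgroup.index_dvd_of_le le_sup_left
    obtain ⟨v, hv⟩ : ∃ v, v = (Nat.card A).factorization p := ⟨_, rfl⟩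
    have h2 : K.index = p ^ v * p ^ b := by
      have h3 := Subgroup.card_mul_index K
      have h4 := hA.card_mul_card
      rw [hb] at h4
      have h5 : Nat.card K * p ^ v = Nat.card A := by
        rw [hKcard, mul_comm, hv]; exact Nat.ordProj_mul_ordCompl_eq_self _ _
      have hpos : 0 < Nat.card K := Nat.card_pos
      apply Nat.eq_of_mul_eq_mul_left hpos
      rw [h3, ← h4, ← h5]; ring
    rw [h2, ← pow_add] at h1
    obtain ⟨c, _, hc⟩ := (Nat.dvd_prime_pow hp).mp h1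
    exact ⟨c, hc⟩
  obtain ⟨c, hc⟩ := hidx
  -- K₁ ≤ K ⊔ N
  have hK₁M : K₁ ≤ K ⊔ N := by
    intro k hk
    have h1 : k ^ (K ⊔ N).index ∈ K ⊔ N := Subgroup.pow_index_mem _ k
    have h2 : k ^ (Nat.card K₁) ∈ K ⊔ N := by
      have := pow_card_eq_one' (G := K₁) (x := ⟨k, hk⟩)
      have h3 : k ^ Nat.card K₁ = 1 := congrArg Subtype.val this
      rw [h3]; exact Subgroup.one_mem _
    have hcop : Nat.Coprime (K ⊔ N).index (Nat.card K₁) := by
      rw [hc, hcardK]; exact Nat.Coprime.pow_left c hKcop.symm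
    exact coprime_pow_mem _ k hcop h1 h2
  haveI : Group.IsNilpotent N := hN.isNilpotent
  obtain ⟨n, hnN, hn⟩ := Cfsg.Agent.Lead.conj_in_sup N K K₁
    (fun k _ => by rw [Subgroup.normalizer_eq_top]; trivial) hKN (Or.inr inferInstance) hK₁M hcardK
  have hconj1 : ∀ k ∈ K, n⁻¹ * k * n ∈ K₁ := by
    intro k hk
    rw [← hn, Cfsg.Agent.Lead.mem_conj_smul'] at hk
    exact hk
  have hconj2 : ∀ x ∈ K₁, n * x * n⁻¹ ∈ K := by
    intro x hx
    rw [← hn, Cfsg.Agent.Lead.mem_conj_smul']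
    have e : n⁻¹ * (n * x * n⁻¹) * n = x := by group
    rw [e]; exact hx
  -- C_N(K) = 1
  have hD : N ⊓ Subgroup.centralizer (K : Set G) = ⊥ := by
    by_contra hne
    have hDp : IsPGroup p ↥(N ⊓ Subgroup.centralizer (K : Set G)) := hN.to_le inf_le_left
    obtain ⟨e, he⟩ := IsPGroup.iff_card.mp hDp
    have he0 : e ≠ 0 := by
      rintro rfl
      rw [pow_zero] at he
      exact hne (Subgroup.card_eq_one.mp he)
    have hpD : p ∣ Nat.card ↥(N ⊓ Subgroup.centralizer (K : Set G)) := by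
      rw [he]; exact dvd_pow_self p he0
    have hPnorm : P ≤ Subgroup.normalizer ((N ⊓ Subgroup.centralizer (K : Set G) : Subgroup G) : Set G) := by
      intro x hx
      apply mem_normalizer_of_forall_conj_mem
      intro d hd
      obtain ⟨hd1, hd2⟩ := Subgroup.mem_inf.mp hd
      refine Subgroup.mem_inf.mpr ⟨Subgroup.Normal.conj_mem inferInstance d hd1 x, ?_⟩
      rw [Subgroup.mem_centralizer_iff] at hd2 ⊢
      intro k hk
      have h1 : x⁻¹ * k * x ∈ K := by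
        have := hAK x⁻¹ (A.inv_mem (hPA hx)) k hk
        simpa using this
      have h2 := hd2 _ h1
      have e1 : k * (x * d * x⁻¹) = x * ((x⁻¹ * k * x) * d) * x⁻¹ := by group
      have e2 : x * d * x⁻¹ * k = x * (d * (x⁻¹ * k * x)) * x⁻¹ := by group
      rw [e1, e2, h2]
    obtain ⟨d, hd, hd1, hdP⟩ := exists_fixed_of_pgroup_normalizing p P _ hPp hPnorm hpD
    obtain ⟨hdN, hdK⟩ := Subgroup.mem_inf.mp hd
    rw [Subgroup.mem_centralizer_iff] at hdK
    apply hd1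
    apply hC d hdN
    intro a ha
    obtain ⟨k, hk, x, hx, rfl⟩ := hdecA a ha
    have h1 := hdK k hk
    have h2 := hdP x hx
    have e1 : k * x * d * (k * x)⁻¹ = k * (x * d) * x⁻¹ * k⁻¹ := by group
    rw [e1, h2]
    have e2 : k * (d * x) * x⁻¹ * k⁻¹ = (k * d) * k⁻¹ := by group
    rw [e2, h1]; group
  -- every n a₁ n⁻¹ lies in A
  have hmain : ∀ a₁ ∈ A₁, n * a₁ * n⁻¹ ∈ A := by
    intro a₁ ha₁
    have hnorm : ∀ k ∈ K, (n * a₁ * n⁻¹) * k * (n * a₁ * n⁻¹)⁻¹ ∈ K := by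
      intro k hk
      have h1 := hAK₁ a₁ ha₁ _ (hconj1 k hk)
      have h2 := hconj2 _ h1
      have e : n * a₁ * n⁻¹ * k * (n * a₁ * n⁻¹)⁻¹ = n * (a₁ * (n⁻¹ * k * n) * a₁⁻¹) * n⁻¹ := by group
      rw [e]; exact h2
    obtain ⟨a, ha, m, hm, e⟩ := hdecG (n * a₁ * n⁻¹)
    have hmK : m ∈ Subgroup.centralizer (K : Set G) := by
      rw [Subgroup.mem_centralizer_iff]
      intro k hk
      have h1 : m * k * m⁻¹ ∈ K := by
        have e1 : m = a⁻¹ * (n * a₁ * n⁻¹) := by rw [e]; group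
        have h2 := hAK a⁻¹ (A.inv_mem ha) _ (hnorm k hk)
        have e2 : m * k * m⁻¹ = a⁻¹ * ((n * a₁ * n⁻¹) * k * (n * a₁ * n⁻¹)⁻¹) * a⁻¹⁻¹ := by
          rw [e1]; group
        rw [e2]; exact h2
      have h3 : m * k * m⁻¹ * k⁻¹ ∈ N := by
        have e3 : m * k * m⁻¹ * k⁻¹ = m * (k * m⁻¹ * k⁻¹) := by group
        rw [e3]
        exact N.mul_mem hm (Subgroup.Normal.conj_mem inferInstance _ (N.inv_mem hm) k)
      have h4 := hdisj _ (K.mul_mem h1 (K.inv_mem hk)) h3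
      have e4 : k * m = (m * k * m⁻¹ * k⁻¹)⁻¹ * (m * k) := by group
      rw [e4, h4, inv_one, one_mul]
    have hm1 : m = 1 := by
      have : m ∈ N ⊓ Subgroup.centralizer (K : Set G) := Subgroup.mem_inf.mpr ⟨hm, hmK⟩
      rw [hD, Subgroup.mem_bot] at this
      exact this
    rw [e, hm1, mul_one]; exact ha
  refine ⟨n⁻¹, N.inv_mem hnN, ?_⟩
  apply Subgroup.eq_of_le_of_card_ge
  · intro a₁ ha₁
    refine ⟨n * a₁ * n⁻¹, hmain a₁ ha₁, ?_⟩
    simp only [MulEquiv.coe_toMonoidHom, MulAut.conj_apply]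
    group
  · rw [Subgroup.card_map_of_injective (MulAut.conj n⁻¹).injective, hcardA]

end Cfsg.Agent.S4043
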