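import Mathlib
import Cfsg.Statements.S4049
import Cfsg.Agent.Helper22.InvertOdd

set_option autoImplicit false
open Cfsg

namespace Cfsg.Agent.S4049

/-- Let G be a finite group such that N_G(H)/C_G(H) has odd order for every nontrivial subgroup H of odd order. Then the Sylow 2-subgroups of G are normal. -/
theorem result {G : Type*} [Group G] [Finite G]
    (hhom : ∀ H : Subgroup G, H ≠ ⊥ → ¬ 2 ∣ Nat.card ↥H →
        ¬ 2 ∣ (Subgroup.centralizer (H : Set G)).relIndex (Subgroup.normalizer (H : Set G))) (P : Sylow 2 G) :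
    (P : Subgroup G).Normal := by
  by_contra hP
  obtain ⟨y, s, hy1, hyodd, hinv⟩ :=
    Cfsg.Agent.Helper22.exists_inverted_odd_of_sylow_two_not_normal P hP
  have hH1 : Subgroup.zpowers y ≠ ⊥ := by
    intro h
    apply hy1
    have := Subgroup.mem_zpowers y
    rw [h, Subgroup.mem_bot] at this
    exact this
  have hH2 : ¬ 2 ∣ Nat.card ↥(Subgroup.zpowers y) := by
    rw [Nat.card_zpowers]
    intro h
    exact (Nat.not_even_iff_odd.mpr hyodd) (even_iff_two_dvd.mpr h)
  apply hhom (Subgroup.zpowers y) hH1 hH2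
  have hsN : s ∈ Subgroup.normalizer ((Subgroup.zpowers y : Subgroup G) : Set G) := by
    apply Cfsg.Agent.Helper22.mem_normalizer_zpowers_of_conj
    rw [hinv]; exact Subgroup.inv_mem _ (Subgroup.mem_zpowers y)
  have hyy : y ≠ y⁻¹ := by
    intro h3
    have h4 : y ^ 2 = 1 := by
      rw [pow_two]
      nth_rw 1 [h3]
      exact inv_mul_cancel y
    have h5 : orderOf y ∣ 2 := orderOf_dvd_of_pow_eq_one h4
    have h6 : orderOf y = 1 := by
      rcases (Nat.dvd_prime Nat.prime_two).mp h5 with h | h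
      · exact h
      · rw [h] at hyodd; exact absurd hyodd (by decide)
    exact hy1 (orderOf_eq_one_iff.mp h6)
  apply Cfsg.Agent.Helper22.two_dvd_relIndex_centralizer_of_mem _ s hsN
  · intro hc
    rw [Subgroup.mem_centralizer_iff] at hc
    have h2 : y * s = s * y := hc y (Subgroup.mem_zpowers y)
    apply hyy
    rw [← hinv, ← h2]; group
  · rw [Subgroup.mem_centralizer_iff]
    intro z hz
    obtain ⟨i, rfl⟩ := Subgroup.mem_zpowers_iff.mp hz
    -- s^2 commutes with y
    have h1 : s ^ 2 * y * (s ^ 2)⁻¹ = y := by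
      have e : s ^ 2 * y * (s ^ 2)⁻¹ = s * (s * y * s⁻¹) * s⁻¹ := by
        rw [pow_two]; group
      rw [e, hinv]
      have e2 : s * y⁻¹ * s⁻¹ = (s * y * s⁻¹)⁻¹ := by group
      rw [e2, hinv, inv_inv]
    have h2 : s ^ 2 * y = y * s ^ 2 := by
      have := congrArg (fun w => w * s ^ 2) h1
      simpa using this
    exact ((Commute.zpow_right (show Commute (s ^ 2) y from h2) i).eq).symm

end Cfsg.Agent.S4049
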