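import Mathlib
import Cfsg.Statements.S4051
import Cfsg.Agent.Helper22.PiSub2

set_option autoImplicit false
open Cfsg

namespace Cfsg.Agent.S4051

open Cfsg.Agent.Helper22 in
/-- Let π be a set of primes and G a finite group such that N_G(H)/C_G(H) is a π'-group for every nontrivial π'-subgroup H of G. If K is a normal subgroup of G such that the π-elements of K form a subgroup and the π-elements of G/K form a subgroup, then the π-elements of G form a subgroup. -/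
theorem result {G : Type*} [Group G] [Finite G] (π : Set ℕ)
    (hπ : ∀ p ∈ π, p.Prime) (hhom : (∀ H : Subgroup G, H ≠ ⊥ → (∀ p : ℕ, p.Prime → p ∣ Nat.card ↥H → p ∉ π) →
        ∀ p : ℕ, p.Prime → p ∣ (Subgroup.centralizer (H : Set G)).relIndex (Subgroup.normalizer (H : Set G)) → p ∉ π))
    (K : Subgroup G) [K.Normal]
    (hK : ∃ L : Subgroup ↥K, ∀ x : ↥K, x ∈ L ↔ ∀ p : ℕ, p.Prime → p ∣ orderOf x → p ∈ π)
    (hQ : ∃ L : Subgroup (G ⧸ K), ∀ x : G ⧸ K, x ∈ L ↔ ∀ p : ℕ, p.Prime → p ∣ orderOf x → p ∈ π) :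
    (∃ K : Subgroup G, ∀ x : G, x ∈ K ↔ ∀ p : ℕ, p.Prime → p ∣ orderOf x → p ∈ π) := by
  have hH' := automizer_elementwise hhom
  obtain ⟨LK, hLK⟩ := hK
  obtain ⟨LQ, hLQ⟩ := hQ
  have hL : ∀ x, x ∈ LK.map K.subtype ↔ x ∈ K ∧ IsPiElt π x := by
    intro x
    constructor
    · rintro ⟨w, hw, rfl⟩
      exact ⟨w.2, (isPiElt_coe_iff w).mpr ((hLK w).mp hw)⟩
    · rintro ⟨hxK, hx⟩
      exact ⟨⟨x, hxK⟩, (hLK _).mpr ((isPiElt_coe_iff (⟨x, hxK⟩ : K)).mp hx), rfl⟩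
  have hM : ∀ x ∈ LQ.comap (QuotientGroup.mk' K),
      ∃ m : ℕ, (∀ p : ℕ, p.Prime → p ∣ m → p ∈ π) ∧ x ^ m ∈ K := by
    intro x hx
    rw [Subgroup.mem_comap, hLQ] at hx
    refine ⟨orderOf ((QuotientGroup.mk' K) x), hx, ?_⟩
    rw [← QuotientGroup.eq_one_iff, QuotientGroup.mk_pow]
    exact pow_orderOf_eq_one _
  obtain ⟨T, hT⟩ := exists_pi_subgroup_of_normal hH' K (LK.map K.subtype)
    (LQ.comap (QuotientGroup.mk' K)) hL hM
  refine ⟨T, fun x => ⟨fun hx => ((hT x).mp hx).2, fun hx => (hT x).mpr ⟨?_, hx⟩⟩⟩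
  rw [Subgroup.mem_comap, hLQ]
  exact IsPiElt.map hx _

end Cfsg.Agent.S4051
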