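import Mathlib
import Cfsg.Statements.S4056
import Cfsg.Agent.Helper22.FrattiniSq

set_option autoImplicit false
open Cfsg

namespace Cfsg.Agent.S4056

open Cfsg.Agent.Helper22 Subgroup

/-- In a finite 2-group of nilpotency class at most 2 and exponent dividing 4, the Frattini subgroup lies in the centre and is elementary abelian. -/
theorem result {P : Type*} [Group P] [Finite P] (hP : IsPGroup 2 P)
    (hcl : Group.nilpotencyClass P ≤ 2) (hexp : Monoid.exponent P ∣ 4) :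
    frattini P ≤ Subgroup.center P ∧ Cfsg.IsElementaryAbelian 2 (frattini P) := by
  haveI : Fact (Nat.Prime 2) := ⟨Nat.prime_two⟩
  haveI : Group.IsNilpotent P := hP.isNilpotent
  have hu2 : Subgroup.upperCentralSeries P 2 = ⊤ := Subgroup.upperCentralSeries_eq_top_iff_nilpotencyClass_le.mpr hcl
  -- commutators are central
  have hcc : ∀ x y z : P, (x * y * x⁻¹ * y⁻¹) * z = z * (x * y * x⁻¹ * y⁻¹) := by
    intro x y z
    have h1 : x ∈ Subgroup.upperCentralSeries P (1 + 1) := by rw [hu2]; trivial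
    rw [Subgroup.mem_upperCentralSeries_succ_iff] at h1
    have h2 := h1 y
    rw [Subgroup.upperCentralSeries_one, commutatorElement_def, mem_center_iff] at h2
    exact (h2 z).symm
  have h4 : ∀ x : P, x ^ 4 = 1 := fun x => by
    obtain ⟨k, hk⟩ := hexp
    rw [hk, pow_mul, Monoid.pow_exponent_eq_one, one_pow]
  -- Lemma A: commutator is multiplicative in the first argument
  have hA : ∀ a b z : P, (a * b) * z * (a * b)⁻¹ * z⁻¹ = (a * z * a⁻¹ * z⁻¹) * (b * z * b⁻¹ * z⁻¹) := by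
    intro a b z
    calc (a * b) * z * (a * b)⁻¹ * z⁻¹ = a * ((b * z * b⁻¹ * z⁻¹) * (z * a⁻¹ * z⁻¹)) := by group
      _ = a * ((z * a⁻¹ * z⁻¹) * (b * z * b⁻¹ * z⁻¹)) := by rw [hcc b z]
      _ = (a * z * a⁻¹ * z⁻¹) * (b * z * b⁻¹ * z⁻¹) := by group
  have hAsq : ∀ a z : P, (a ^ 2) * z * (a ^ 2)⁻¹ * z⁻¹ = (a * z * a⁻¹ * z⁻¹) ^ 2 := by
    intro a z
    rw [pow_two, hA, pow_two]
  -- squares commute
  have hsqcomm : ∀ x y : P, y ^ 2 * x ^ 2 = x ^ 2 * y ^ 2 := by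
    intro x y
    -- ⁅x^4, y⁆ = ⁅x,y⁆^4
    have h1 : (x * y * x⁻¹ * y⁻¹) ^ 4 = 1 := by
      have e : (x * y * x⁻¹ * y⁻¹) ^ 4 = ((x * y * x⁻¹ * y⁻¹) ^ 2) ^ 2 := by rw [← pow_mul]
      rw [e, ← hAsq, ← hAsq, ← pow_mul, h4]
      group
    -- ⁅x², y²⁆
    have h2 : (x ^ 2) * (y ^ 2) * (x ^ 2)⁻¹ * (y ^ 2)⁻¹ = 1 := by
      rw [hAsq]
      -- ⁅x, y²⁆ = ⁅y², x⁆⁻¹ = (⁅y,x⁆²)⁻¹
      have h3 : x * y ^ 2 * x⁻¹ * (y ^ 2)⁻¹ = ((y ^ 2) * x * (y ^ 2)⁻¹ * x⁻¹)⁻¹ := by group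
      rw [h3, hAsq]
      have h5 : y * x * y⁻¹ * x⁻¹ = (x * y * x⁻¹ * y⁻¹)⁻¹ := by group
      rw [h5]
      simp only [inv_pow, inv_inv]
      rw [← pow_mul]; exact h1
    calc y ^ 2 * x ^ 2 = ((x ^ 2) * (y ^ 2) * (x ^ 2)⁻¹ * (y ^ 2)⁻¹)⁻¹ * (x ^ 2 * y ^ 2) := by group
      _ = x ^ 2 * y ^ 2 := by rw [h2, inv_one, one_mul]
  -- commutators square to one
  have hc2 : ∀ x y : P, (x * y * x⁻¹ * y⁻¹) ^ 2 = 1 := by
    intro x y
    -- (y x)^2 = c(x,y)⁻¹... use (x*y)^2 = c(y,x) x² y²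
    have h1 : (y * x) ^ 2 = (x * y * x⁻¹ * y⁻¹) * (y ^ 2 * x ^ 2) := by
      calc (y * x) ^ 2 = y * ((x * y * x⁻¹ * y⁻¹) * (y * x)) * x := by rw [pow_two]; group
        _ = y * ((y * x) * (x * y * x⁻¹ * y⁻¹)) * x := by rw [hcc x y]
        _ = y * y * (x * (x * y * x⁻¹ * y⁻¹)) * x := by group
        _ = y * y * ((x * y * x⁻¹ * y⁻¹) * x) * x := by rw [hcc x y x]
        _ = y * (y * (x * y * x⁻¹ * y⁻¹)) * x * x := by group
        _ = y * ((x * y * x⁻¹ * y⁻¹) * y) * x * x := by rw [hcc x y y]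
        _ = (y * (x * y * x⁻¹ * y⁻¹)) * (y * x * x) := by group
        _ = ((x * y * x⁻¹ * y⁻¹) * y) * (y * x * x) := by rw [hcc x y y]
        _ = (x * y * x⁻¹ * y⁻¹) * (y ^ 2 * x ^ 2) := by rw [pow_two, pow_two]; group
    have h2 : (y * x) ^ 4 = (x * y * x⁻¹ * y⁻¹) ^ 2 := by
      have e : (y * x) ^ 4 = ((y * x) ^ 2) ^ 2 := by rw [← pow_mul]
      rw [e, h1]
      have e2 : ((x * y * x⁻¹ * y⁻¹) * (y ^ 2 * x ^ 2)) ^ 2 =
          (x * y * x⁻¹ * y⁻¹) * ((y ^ 2 * x ^ 2) * (x * y * x⁻¹ * y⁻¹)) * (y ^ 2 * x ^ 2) := by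
        rw [pow_two]; group
      rw [e2, ← hcc x y (y ^ 2 * x ^ 2)]
      have e3 : (x * y * x⁻¹ * y⁻¹) * ((x * y * x⁻¹ * y⁻¹) * (y ^ 2 * x ^ 2)) * (y ^ 2 * x ^ 2) =
          (x * y * x⁻¹ * y⁻¹) ^ 2 * (y ^ 2 * (x ^ 2 * y ^ 2) * x ^ 2) := by
        rw [pow_two (x * y * x⁻¹ * y⁻¹)]; group
      rw [e3, ← hsqcomm x y]
      have e4 : y ^ 2 * (y ^ 2 * x ^ 2) * x ^ 2 = y ^ 4 * x ^ 4 := by
        rw [show (4 : ℕ) = 2 + 2 from rfl, pow_add, pow_add]; group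
      rw [e4, h4, h4, mul_one, mul_one]
    rw [← h2, h4]
  -- squares are central
  have hsqc : ∀ x z : P, x ^ 2 * z = z * x ^ 2 := by
    intro x z
    have h1 := hAsq x z
    rw [hc2] at h1
    calc x ^ 2 * z = ((x ^ 2) * z * (x ^ 2)⁻¹ * z⁻¹) * (z * x ^ 2) := by group
      _ = z * x ^ 2 := by rw [h1, one_mul]
  -- the subgroup W
  let W : Subgroup P :=
    { carrier := {z | z ∈ center P ∧ z ^ 2 = 1}
      mul_mem' := by
        rintro a b ⟨ha, ha2⟩ ⟨hb, hb2⟩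
        refine ⟨(center P).mul_mem ha hb, ?_⟩
        have hab : Commute a b := ((mem_center_iff.mp ha) b).symm
        rw [hab.mul_pow, ha2, hb2, one_mul]
      one_mem' := ⟨(center P).one_mem, one_pow 2⟩
      inv_mem' := by
        rintro a ⟨ha, ha2⟩
        exact ⟨(center P).inv_mem ha, by rw [inv_pow, ha2, inv_one]⟩ }
  haveI hWn : W.Normal := by
    constructor
    rintro n ⟨hn, hn2⟩ g
    have : g * n * g⁻¹ = n := by
      rw [(mem_center_iff.mp hn) g, mul_inv_cancel_right]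
    rw [this]
    exact ⟨hn, hn2⟩
  have hsqW : ∀ x : P, x ^ 2 ∈ W := by
    intro x
    refine ⟨?_, ?_⟩
    · rw [mem_center_iff]
      intro z
      exact (hsqc x z).symm
    · rw [← pow_mul]; exact h4 x
  have hle : frattini P ≤ W := frattini_le_of_sq_mem W hsqW
  refine ⟨fun a ha => (hle ha).1, ?_, fun a ha => (hle ha).2⟩
  constructor
  constructor
  intro a b
  apply Subtype.ext
  simp only [Subgroup.coe_mul]
  exact ((mem_center_iff.mp (hle a.2).1) (b : P)).symm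

end Cfsg.Agent.S4056
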