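import Mathlib
import Cfsg.Statements.S4066
import Cfsg.Agent.Helper22.CommClosure
import Cfsg.Agent.Helper22.TI

set_option autoImplicit false
open Cfsg

namespace Cfsg.Agent.S4066

open Cfsg.Agent.Helper22 Subgroup

universe u

/-- the case of a non-trivial centre -/
theorem central_case {G : Type u} [Group G] [Finite G]
    (hTI : ∀ x : G, Cfsg.IsTISubset (Subgroup.centralizer ({x} : Set G) : Set G))
    (z : G) (hz1 : z ≠ 1) (hzc : ∀ g : G, g * z = z * g)
    (p : ℕ) [Fact p.Prime] (P Q : Sylow p G) : P = Q := by
  have hN : ∀ x g : G, g ∈ normalizer ((centralizer ({x} : Set G) : Subgroup G) : Set G) := by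
    intro x g
    by_contra hg
    apply hz1
    apply hTI x g hg z
    · rw [SetLike.mem_coe, mem_centralizer_single]; exact hzc x
    · rw [hzc g, mul_inv_cancel_right, SetLike.mem_coe, mem_centralizer_single]; exact hzc x
  have hconj : ∀ x g : G, x * (g * x * g⁻¹) = (g * x * g⁻¹) * x := by
    intro x g
    have h1 : x ∈ centralizer ({x} : Set G) := by rw [mem_centralizer_single]
    have h2 := conj_mem_of_mem_normalizer (hN x g) h1
    rw [mem_centralizer_single] at h2
    exact h2
  have hle : (P : Subgroup G) ≤ (Q : Subgroup G) := by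
    intro x hx
    have hS : ∀ a ∈ Set.range (fun g : G => g * x * g⁻¹), ∀ b ∈ Set.range (fun g : G => g * x * g⁻¹),
        a * b = b * a := by
      rintro _ ⟨g, rfl⟩ _ ⟨h, rfl⟩
      have h1 := hconj x (g⁻¹ * h)
      show g * x * g⁻¹ * (h * x * h⁻¹) = h * x * h⁻¹ * (g * x * g⁻¹)
      calc g * x * g⁻¹ * (h * x * h⁻¹) = g * (x * (g⁻¹ * h * x * (g⁻¹ * h)⁻¹)) * g⁻¹ := by group
        _ = g * ((g⁻¹ * h * x * (g⁻¹ * h)⁻¹) * x) * g⁻¹ := by rw [h1]
        _ = h * x * h⁻¹ * (g * x * g⁻¹) := by group
    have hSp : ∀ a ∈ Set.range (fun g : G => g * x * g⁻¹), ∃ k : ℕ, a ^ (p ^ k) = 1 := by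
      rintro _ ⟨g, rfl⟩
      obtain ⟨k, hk⟩ := P.isPGroup' ⟨x, hx⟩
      refine ⟨k, ?_⟩
      have hk' : x ^ (p ^ k) = 1 := by simpa using congrArg Subtype.val hk
      show (g * x * g⁻¹) ^ (p ^ k) = 1
      rw [conj_pow, hk']; group
    have hA := isPGroup_closure_of_comm p _ hS hSp
    have hAn : (closure (Set.range (fun g : G => g * x * g⁻¹))).Normal := by
      constructor
      intro n hn g
      have hle : closure (Set.range (fun g : G => g * x * g⁻¹)) ≤
          (closure (Set.range (fun g : G => g * x * g⁻¹))).comap (MulAut.conj g).toMonoidHom := by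
        rw [closure_le]
        rintro _ ⟨h, rfl⟩
        rw [SetLike.mem_coe, mem_comap]
        apply Subgroup.subset_closure
        refine ⟨g * h, ?_⟩
        simp only [MulEquiv.coe_toMonoidHom, MulAut.conj_apply]
        group
      have := hle hn
      rw [mem_comap] at this
      simpa using this
    have hsup : IsPGroup p (closure (Set.range (fun g : G => g * x * g⁻¹)) ⊔ (Q : Subgroup G) : Subgroup G) := by
      haveI := hAn
      exact hA.to_sup_of_normal_left Q.isPGroup'
    have heq := Q.is_maximal' hsup le_sup_right
    have hxA : x ∈ closure (Set.range (fun g : G => g * x * g⁻¹)) := by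
      apply Subgroup.subset_closure
      exact ⟨1, by simp⟩
    rw [← heq]
    exact le_sup_left (b := (Q : Subgroup G)) hxA
  have := P.is_maximal' Q.isPGroup' hle
  exact Sylow.ext this.symm

theorem aux : ∀ (n : ℕ) (G : Type u) [Group G] [Finite G], Nat.card G = n →
    (∀ x : G, Cfsg.IsTISubset (Subgroup.centralizer ({x} : Set G) : Set G)) →
    ∀ (p : ℕ) [Fact p.Prime] (P Q : Sylow p G), P ≠ Q → (P : Subgroup G) ⊓ (Q : Subgroup G) = ⊥ := by
  intro n
  induction n using Nat.strong_induction_on with
  | _ n ih =>
    intro G _ _ hn hTI p _ P Q hPQ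
    rw [eq_bot_iff]
    intro u hu
    obtain ⟨huP, huQ⟩ := Subgroup.mem_inf.mp hu
    rw [Subgroup.mem_bot]
    by_contra hu1
    haveI hPnt : Nontrivial (P : Subgroup G) :=
      ⟨⟨⟨u, huP⟩, 1, fun h => hu1 (congrArg Subtype.val h)⟩⟩
    haveI := P.isPGroup'.center_nontrivial
    obtain ⟨⟨⟨z, hzP⟩, hz0⟩, hz01⟩ := exists_ne (1 : center (P : Subgroup G))
    have hz1 : z ≠ 1 := by
      intro h
      apply hz01
      apply Subtype.ext
      apply Subtype.ext
      exact h
    have hPC : (P : Subgroup G) ≤ centralizer ({z} : Set G) := by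
      intro a ha
      rw [mem_centralizer_single]
      have := (mem_center_iff.mp hz0) ⟨a, ha⟩
      have h2 := congrArg Subtype.val this
      simpa using h2.symm
    obtain ⟨g, hg⟩ := MulAction.exists_smul_eq G P Q
    have huQ' : g⁻¹ * u * g ∈ (P : Subgroup G) := by
      rw [← hg] at huQ
      exact (sylow_smul_mem_iff P g u).mp huQ
    have hgN : g ∈ normalizer ((centralizer ({z} : Set G) : Subgroup G) : Set G) := by
      by_contra hgN
      have h1 := hTI z g hgN (g⁻¹ * u * g) (hPC huQ') (by
        have : g * (g⁻¹ * u * g) * g⁻¹ = u := by group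
        rw [this]; exact hPC huP)
      apply hu1
      have : u = g * (g⁻¹ * u * g) * g⁻¹ := by group
      rw [this, h1]; group
    have hQC : (Q : Subgroup G) ≤ centralizer ({z} : Set G) := by
      intro q hq
      rw [← hg] at hq
      have h1 := (sylow_smul_mem_iff P g q).mp hq
      have h2 := conj_mem_of_mem_normalizer hgN (hPC h1)
      have : g * (g⁻¹ * q * g) * g⁻¹ = q := by group
      rwa [this] at h2
    by_cases hCtop : centralizer ({z} : Set G) = ⊤
    · apply hPQ
      apply central_case hTI z hz1 _ p P Q
      intro g'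
      have : g' ∈ centralizer ({z} : Set G) := by rw [hCtop]; trivial
      rw [mem_centralizer_single] at this
      exact this.symm
    · have hlt : Nat.card (centralizer ({z} : Set G)) < n := by
        rw [← hn]
        exact lt_of_le_of_ne (Subgroup.card_le_card_group _)
          (fun h => hCtop (Subgroup.eq_top_of_card_eq _ h))
      have hTI' : ∀ x : centralizer ({z} : Set G),
          Cfsg.IsTISubset (centralizer ({x} : Set (centralizer ({z} : Set G))) : Set (centralizer ({z} : Set G))) := by
        intro x g' hg' c hc hgc
        by_contra hc1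
        apply hg'
        have hgG : (g' : G) ∈ normalizer ((centralizer ({(x : G)} : Set G) : Subgroup G) : Set G) := by
          by_contra hgG
          have := hTI (x : G) (g' : G) hgG (c : G) (by
            rw [SetLike.mem_coe, mem_centralizer_single] at hc ⊢
            have := congrArg Subtype.val hc
            simpa using this) (by
            rw [SetLike.mem_coe, mem_centralizer_single] at hgc ⊢
            have := congrArg Subtype.val hgc
            simpa using this)
          exact hc1 (Subtype.ext this)
        apply mem_normalizer_of_forall_conj_mem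
        intro r hr
        rw [mem_centralizer_single] at hr ⊢
        have hr' : (r : G) ∈ centralizer ({(x : G)} : Set G) := by
          rw [mem_centralizer_single]
          have := congrArg Subtype.val hr
          simpa using this
        have h3 := conj_mem_of_mem_normalizer hgG hr'
        rw [mem_centralizer_single] at h3
        apply Subtype.ext
        simpa using h3
      have hne : P.subtype hPC ≠ Q.subtype hQC := fun h => hPQ (Sylow.subtype_injective h)
      have h5 := ih _ hlt (centralizer ({z} : Set G)) rfl hTI' p (P.subtype hPC) (Q.subtype hQC) hne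
      have hu' : (⟨u, hPC huP⟩ : centralizer ({z} : Set G)) ∈
          ((P.subtype hPC : Sylow p (centralizer ({z} : Set G))) : Subgroup (centralizer ({z} : Set G))) ⊓
          ((Q.subtype hQC : Sylow p (centralizer ({z} : Set G))) : Subgroup (centralizer ({z} : Set G))) := by
        refine Subgroup.mem_inf.mpr ⟨?_, ?_⟩
        · rw [Sylow.coe_subtype, mem_subgroupOf]; exact huP
        · rw [Sylow.coe_subtype, mem_subgroupOf]; exact huQ
      rw [h5, Subgroup.mem_bot] at hu'
      exact hu1 (congrArg Subtype.val hu')

/-- Let G be a finite group in which the centralizer of every element meets each of its conjugates by elements outside its normalizer trivially. Then any two distinct Sylow p-subgroups of G, for any prime p, intersect trivially. -/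
theorem result {G : Type*} [Group G] [Finite G] (hTI : ∀ x : G, Cfsg.IsTISubset (Subgroup.centralizer ({x} : Set G) : Set G))
    {p : ℕ} [Fact p.Prime] (P Q : Sylow p G) (hPQ : P ≠ Q) : (P : Subgroup G) ⊓ (Q : Subgroup G) = ⊥ :=
  aux (Nat.card G) G rfl hTI p P Q hPQ

end Cfsg.Agent.S4066
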