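import Mathlib
import Cfsg.Statements.S4074

set_option autoImplicit false
open Cfsg

namespace Cfsg.Agent.S4074

open DihedralGroup Subgroup

/-- the parity homomorphism on the dihedral group of even degree -/
noncomputable def par (n : ℕ) (h2 : 2 ∣ n) : DihedralGroup n →* Multiplicative (ZMod 2) :=
  MonoidHom.mk' (fun g => match g with
    | r i => Multiplicative.ofAdd (ZMod.castHom h2 (ZMod 2) i)
    | sr i => Multiplicative.ofAdd (ZMod.castHom h2 (ZMod 2) i)) (by
    rintro (a | a) (b | b)
    · simp only [r_mul_r, map_add, ofAdd_add]
    · simp only [r_mul_sr, map_sub, CharTwo.sub_eq_add, ofAdd_add, mul_comm]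
    · simp only [sr_mul_r, map_add, ofAdd_add]
    · simp only [sr_mul_sr, map_sub, CharTwo.sub_eq_add, ofAdd_add, mul_comm])

theorem par_r (n : ℕ) (h2 : 2 ∣ n) (i : ZMod n) :
    par n h2 (r i) = Multiplicative.ofAdd (ZMod.castHom h2 (ZMod 2) i) := rfl

theorem par_sr (n : ℕ) (h2 : 2 ∣ n) (i : ZMod n) :
    par n h2 (sr i) = Multiplicative.ofAdd (ZMod.castHom h2 (ZMod 2) i) := rfl

theorem isMulCommutative_of_comm {G : Type*} [Group G] (H : Subgroup G)
    (h : ∀ a ∈ H, ∀ b ∈ H, a * b = b * a) : IsMulCommutative H := by
  constructor
  constructor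
  intro a b
  apply Subtype.ext
  exact h a a.2 b b.2

/-- For n > 2, every non-abelian subgroup of the dihedral group of order 2n is self-normalizing if and only if n = 4 or n is odd. -/
theorem result (n : ℕ) (hn : 2 < n) :
    (∀ H : Subgroup (DihedralGroup n), ¬ IsMulCommutative H → Subgroup.normalizer (H : Set (DihedralGroup n)) = H) ↔
    (n = 4 ∨ Odd n) := by
  haveI : NeZero n := ⟨by omega⟩
  constructor
  · intro h
    by_contra hcon
    rw [not_or, Nat.not_odd_iff_even] at hcon
    obtain ⟨hn4, hev⟩ := hcon
    have h2 : 2 ∣ n := even_iff_two_dvd.mp hev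
    have hnc : ¬ IsMulCommutative (par n h2).ker := by
      intro hc
      have h1 : r (2 : ZMod n) ∈ (par n h2).ker := by
        rw [MonoidHom.mem_ker, par_r]
        have : (ZMod.castHom h2 (ZMod 2)) (2 : ZMod n) = 0 := by
          rw [map_ofNat]; decide
        rw [this]; rfl
      have h2' : sr (0 : ZMod n) ∈ (par n h2).ker := by
        rw [MonoidHom.mem_ker, par_sr, map_zero]; rfl
      have h3 : (⟨r 2, h1⟩ : (par n h2).ker) * ⟨sr 0, h2'⟩ = ⟨sr 0, h2'⟩ * ⟨r 2, h1⟩ := mul_comm' _ _
      have h4 := congrArg Subtype.val h3
      simp only [Subgroup.coe_mul, r_mul_sr, sr_mul_r, zero_sub, zero_add] at h4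
      have h5 : (-2 : ZMod n) = 2 := by
        injection h4
      have h6 : ((4 : ℕ) : ZMod n) = 0 := by
        have : (2 : ZMod n) + 2 = 0 := by
          nth_rewrite 1 [← h5]; ring
        push_cast
        rw [← this]; norm_num
      have h7 := (ZMod.natCast_eq_zero_iff 4 n).mp h6
      have h8 := Nat.le_of_dvd (by norm_num) h7
      omega
    have h1 := h _ hnc
    have h2' : normalizer (((par n h2).ker : Subgroup (DihedralGroup n)) : Set (DihedralGroup n)) = ⊤ :=
      normalizer_eq_top_iff.mpr inferInstance
    rw [h2'] at h1
    have h3 : r (1 : ZMod n) ∈ (par n h2).ker := by rw [← h1]; trivial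
    rw [MonoidHom.mem_ker, par_r, map_one] at h3
    have h4 : (1 : ZMod 2) = 0 := h3
    exact absurd h4 (by decide)
  · rintro (rfl | hodd) H hH
    · -- n = 4
      have hcard : Nat.card (DihedralGroup 4) = 8 := by rw [DihedralGroup.nat_card]
      have hdvd : Nat.card H ∣ 8 := by rw [← hcard]; exact Subgroup.card_subgroup_dvd_card H
      have hle : Nat.card H ≤ 8 := Nat.le_of_dvd (by norm_num) hdvd
      have hpos : 0 < Nat.card H := Nat.card_pos
      have htop : H = ⊤ := by
        by_contra hne
        apply hH
        have hne8 : Nat.card H ≠ 8 := fun h8 => hne (Subgroup.eq_top_of_card_eq H (by rw [h8, hcard]))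
        haveI : Fact (Nat.Prime 2) := ⟨Nat.prime_two⟩
        have hcases : Nat.card H = 1 ∨ Nat.card H = 2 ∨ Nat.card H = 4 := by
          interval_cases h : Nat.card H <;> simp_all <;> omega
        rcases hcases with h1 | h2 | h4
        · haveI : Subsingleton H := (Nat.card_eq_one_iff_unique.mp h1).1
          exact ⟨⟨fun a b => Subsingleton.elim _ _⟩⟩
        · haveI : IsCyclic H := isCyclic_of_prime_card (p := 2) h2
          infer_instance
        · exact IsPGroup.isMulCommutative_of_card_eq_prime_sq (p := 2) (by rw [h4]; norm_num)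
      rw [htop]
      exact Subgroup.normalizer_eq_top (⊤ : Subgroup (DihedralGroup 4))
    · -- n odd
      -- H contains a reflection
      have hrefl : ∃ i : ZMod n, sr i ∈ H := by
        by_contra hno
        push Not at hno
        apply hH
        apply isMulCommutative_of_comm
        intro a ha b hb
        rcases a with a | a
        · rcases b with b | b
          · rw [r_mul_r, r_mul_r, add_comm]
          · exact absurd hb (hno b)
        · exact absurd ha (hno a)
      obtain ⟨i, hi⟩ := hrefl
      -- rotations in the normalizer lie in H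
      have hrot : ∀ a : ZMod n, r a ∈ normalizer (H : Set (DihedralGroup n)) → r a ∈ H := by
        intro a ha
        have h1 := (mem_normalizer_iff.mp ha (sr i)).mp hi
        have h2 : r a * sr i * (r a)⁻¹ = sr (i - a - a) := by
          rw [r_mul_sr]
          have : (r a)⁻¹ = r (-a) := rfl
          rw [this, sr_mul_r]
          congr 1
          ring
        rw [h2] at h1
        have h3 : r (a + a) ∈ H := by
          have := H.mul_mem h1 hi
          rw [sr_mul_sr] at this
          have e : i - (i - a - a) = a + a := by ring
          rwa [e] at this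
        -- a = (a + a) * ((n+1)/2)
        obtain ⟨k, hk⟩ := hodd
        have h4 : r (a + a) ^ (k + 1) ∈ H := H.pow_mem h3 _
        have h5 : r (a + a) ^ (k + 1) = r a := by
          rw [r_pow]
          congr 1
          have : ((2 * k + 1 : ℕ) : ZMod n) = 0 := by
            rw [← hk]; exact ZMod.natCast_self n
          have e : (a + a) * ((k + 1 : ℕ) : ZMod n) = a * ((2 * k + 1 : ℕ) : ZMod n) + a := by
            push_cast; ring
          rw [e, this, mul_zero, zero_add]
        rwa [h5] at h4
      apply le_antisymm
      · intro g hg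
        rcases g with a | a
        · exact hrot a hg
        · have h1 : sr a * sr i ∈ normalizer (H : Set (DihedralGroup n)) :=
            Subgroup.mul_mem _ hg (le_normalizer hi)
          rw [sr_mul_sr] at h1
          have h2 := hrot _ h1
          have h3 : sr a = r (i - a) * sr i := by
            rw [r_mul_sr]; congr 1; ring
          rw [h3]
          exact H.mul_mem h2 hi
      · exact le_normalizer

end Cfsg.Agent.S4074
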