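import Mathlib
import Cfsg.Statements.S4075

set_option autoImplicit false
open Cfsg

namespace Cfsg.Agent.S4075

/-- Let G be a finite nilpotent group. Every non-abelian subgroup of G is self-normalizing if and only if G is abelian or G is a minimal non-abelian p-group for some prime p (non-abelian of prime-power order with every proper subgroup abelian). -/
theorem result {G : Type*} [Group G] [Finite G]
    [Group.IsNilpotent G] :
    (∀ H : Subgroup G, ¬ IsMulCommutative H → Subgroup.normalizer (H : Set G) = H) ↔
    (IsMulCommutative G ∨ (IsPrimePow (Nat.card G) ∧ ¬ IsMulCommutative G ∧ ∀ H : Subgroup G, H ≠ ⊤ → IsMulCommutative H)) := by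
  constructor
  · intro h
    by_cases hab : IsMulCommutative G
    · exact Or.inl hab
    right
    have hprop : ∀ H : Subgroup G, H ≠ ⊤ → IsMulCommutative H := by
      intro H hH
      by_contra hna
      have h1 := h H hna
      have h2 := (normalizerCondition_iff_only_full_group_self_normalizing.mp
        (Group.normalizerCondition_of_isNilpotent (G := G))) H h1
      exact hH h2
    refine ⟨?_, hab, hprop⟩
    by_contra hpp
    apply hab
    have hSn : ∀ {p : ℕ} [Fact p.Prime] (P : Sylow p G), (P : Subgroup G).Normal := by
      intro p hp P
      exact (Group.isNilpotent_of_finite_tfae (G := G)).out 0 3 rfl rfl |>.mp inferInstance p hp P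
    let φ := Sylow.directProductOfNormal (G := G) hSn
    have hcomm : ∀ a b : (∀ p : (Nat.card G).primeFactors, ∀ P : Sylow p G, (P : Subgroup G)), a * b = b * a := by
      intro a b
      funext p P
      have hp : (p : ℕ).Prime := Nat.prime_of_mem_primeFactors p.2
      haveI := Fact.mk hp
      have hPtop : (P : Subgroup G) ≠ ⊤ := by
        intro htop
        apply hpp
        have h1 : Nat.card (P : Subgroup G) = Nat.card G := by rw [htop, Subgroup.card_top]
        rw [P.card_eq_multiplicity] at h1
        rw [← h1]
        refine ⟨p, (Nat.card G).factorization p, hp.prime, ?_, rfl⟩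
        exact hp.factorization_pos_of_dvd Nat.card_pos.ne' (Nat.dvd_of_mem_primeFactors p.2)
      haveI := hprop P hPtop
      simp only [Pi.mul_apply]
      exact mul_comm' _ _
    constructor
    constructor
    intro x y
    have := hcomm (φ.symm x) (φ.symm y)
    have h2 := congrArg φ this
    simpa using h2
  · rintro (h | ⟨_, hna, h⟩) H hH
    · exfalso
      apply hH
      constructor
      constructor
      intro a b
      apply Subtype.ext
      simp only [Subgroup.coe_mul]
      exact mul_comm' _ _
    · have : H = ⊤ := by
        by_contra hne
        exact hH (h H hne)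
      rw [this]
      exact Subgroup.normalizer_eq_top (⊤ : Subgroup G)

end Cfsg.Agent.S4075
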