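import Mathlib
import Cfsg.Statements.S4080
-- import your own Cfsg.Agent.* helpers here

set_option autoImplicit false
open Cfsg

namespace Cfsg.Agent.S4080


theorem nilp2 {p : ℕ} [Fact p.Prime] (N : Matrix (Fin 2) (Fin 2) (ZMod p)) (h : N ^ p = 0) :
    N ^ 2 = 0 := by
  have hp : p.Prime := Fact.out
  have hCH : N ^ 2 = (N 0 0 + N 1 1) • N - (N 0 0 * N 1 1 - N 0 1 * N 1 0) •
      (1 : Matrix (Fin 2) (Fin 2) (ZMod p)) := by
    ext i j
    fin_cases i <;> fin_cases j <;> simp [pow_two, Matrix.mul_apply, Fin.sum_univ_two] <;> ring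
  have hdet : N 0 0 * N 1 1 - N 0 1 * N 1 0 = 0 := by
    have h1 : (N ^ p).det = 0 := by rw [h]; simp
    rw [Matrix.det_pow, Matrix.det_fin_two] at h1
    exact (pow_eq_zero_iff hp.ne_zero).mp h1
  rw [hdet, zero_smul, sub_zero] at hCH
  have hk : ∀ k : ℕ, N ^ (k + 1) = (N 0 0 + N 1 1) ^ k • N := by
    intro k
    induction k with
    | zero => simp
    | succ k ih =>
      rw [pow_succ, ih, Matrix.smul_mul, ← pow_two, hCH, smul_smul, pow_succ]
  have h2 := hk (p - 1)
  rw [Nat.sub_add_cancel hp.one_le, h] at h2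
  rcases smul_eq_zero.mp h2.symm with h3 | h3
  · rw [hCH, (pow_eq_zero_iff (by have := hp.two_le; omega)).mp h3, zero_smul]
  · rw [h3]; simp

theorem dvd_of_cast_eq_zero {p : ℕ} [Fact p.Prime] (c : ZMod (p ^ 2))
    (h : ZMod.castHom (dvd_pow_self p two_ne_zero) (ZMod p) c = 0) :
    ∃ c' : ZMod (p ^ 2), c = (p : ZMod (p ^ 2)) * c' := by
  have hp : p.Prime := Fact.out
  haveI : NeZero (p ^ 2) := ⟨pow_ne_zero 2 hp.ne_zero⟩
  have h1 : c = ((c.val : ℕ) : ZMod (p ^ 2)) := (ZMod.natCast_zmod_val c).symm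
  rw [h1, map_natCast, ZMod.natCast_eq_zero_iff] at h
  obtain ⟨k, hk⟩ := h
  refine ⟨(k : ZMod (p ^ 2)), ?_⟩
  rw [h1, hk]; push_cast; ring

theorem mat_key {p : ℕ} [Fact p.Prime] (hp3 : 3 < p) (M : Matrix (Fin 2) (Fin 2) (ZMod (p ^ 2)))
    (hM : M ^ p = 1) : p • (M - 1) = 0 := by
  have hp : p.Prime := Fact.out
  set φ : ZMod (p ^ 2) →+* ZMod p := ZMod.castHom (dvd_pow_self p two_ne_zero) (ZMod p) with hφ
  have h1 : (φ.mapMatrix (M - 1)) ^ p = 0 := by
    rw [map_sub, map_one, sub_pow_char_of_commute p (Commute.one_right _), one_pow, ← map_pow, hM, map_one, sub_self]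
  have h2 := nilp2 _ h1
  rw [← map_pow] at h2
  have h3 : ∀ i j, ∃ c' : ZMod (p ^ 2), (((M - 1) ^ 2 : Matrix (Fin 2) (Fin 2) (ZMod (p ^ 2))) i j : ZMod (p ^ 2)) = (p : ZMod (p ^ 2)) * c' := by
    intro i j
    apply dvd_of_cast_eq_zero
    have := congrFun (congrFun h2 i) j
    exact this
  choose K hK using h3
  have hpp : (p : ZMod (p ^ 2)) * (p : ZMod (p ^ 2)) = 0 := by
    rw [← pow_two, ← Nat.cast_pow]; exact ZMod.natCast_self (p ^ 2)
  have hN2 : (M - 1) ^ 2 = (p : ZMod (p ^ 2)) • Matrix.of K := by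
    ext i j
    rw [hK i j]; simp
  have hpN2 : p • (M - 1) ^ 2 = 0 := by
    rw [hN2, ← Nat.cast_smul_eq_nsmul (ZMod (p ^ 2)), smul_smul, hpp, zero_smul]
  have hN4 : (M - 1) ^ 4 = 0 := by
    have : (M - 1) ^ 4 = (M - 1) ^ 2 * (M - 1) ^ 2 := by rw [← pow_add]
    rw [this, hN2, Matrix.smul_mul, Matrix.mul_smul, smul_smul, hpp, zero_smul]
  have hMN : M = (M - 1) + 1 := by abel
  have hexp := (Commute.one_right (M - 1)).add_pow p
  rw [← hMN, hM] at hexp
  have hterm : ∀ m ∈ Finset.range (p + 1), m ≠ 0 ∧ m ≠ 1 →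
      (M - 1) ^ m * 1 ^ (p - m) * ((p.choose m : ℕ) : Matrix (Fin 2) (Fin 2) (ZMod (p ^ 2))) = 0 := by
    intro m hm ⟨hm0, hm1⟩
    rw [Finset.mem_range] at hm
    rw [one_pow, mul_one, (Nat.cast_commute _ _).eq.symm, ← nsmul_eq_mul]
    have hm2 : 2 ≤ m := by omega
    by_cases hmp : m = p
    · rw [hmp]
      have : (M - 1) ^ p = (M - 1) ^ 4 * (M - 1) ^ (p - 4) := by
        rw [← pow_add]; congr 1; omega
      rw [this, hN4, zero_mul, smul_zero]
    · have hdvd : p ∣ p.choose m := hp.dvd_choose_self hm0 (by omega)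
      obtain ⟨c, hc⟩ := hdvd
      have : (M - 1) ^ m = (M - 1) ^ 2 * (M - 1) ^ (m - 2) := by
        rw [← pow_add]; congr 1; omega
      rw [this, hc, mul_comm p c, mul_smul, ← smul_mul_assoc, hpN2, zero_mul, smul_zero]
  rw [Finset.sum_eq_add_of_mem 0 1 (by simp) (by simp [hp.pos]) (by norm_num) hterm] at hexp
  simp only [pow_zero, Nat.sub_zero, one_pow, mul_one, Nat.choose_zero_right, Nat.cast_one, pow_one,
    Nat.choose_one_right] at hexp
  have h5 : (M - 1) * ((p : ℕ) : Matrix (Fin 2) (Fin 2) (ZMod (p ^ 2))) = 0 := by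
    have := hexp
    exact left_eq_add.mp this
  rw [(Nat.cast_commute _ _).eq.symm, ← nsmul_eq_mul] at h5
  exact h5


theorem dvd_of_mul_eq_zero' {p : ℕ} [Fact p.Prime] (c : ZMod (p ^ 2))
    (h : (p : ZMod (p ^ 2)) * c = 0) :
    ∃ c' : ZMod (p ^ 2), c = (p : ZMod (p ^ 2)) * c' := by
  have hp : p.Prime := Fact.out
  have : NeZero (p ^ 2) := ⟨pow_ne_zero 2 hp.ne_zero⟩
  have h1 : c = ((c.val : ℕ) : ZMod (p ^ 2)) := (ZMod.natCast_zmod_val c).symm
  rw [h1, ← Nat.cast_mul, ZMod.natCast_eq_zero_iff] at h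
  have h2 : p ∣ c.val := by
    have h' : p * p ∣ p * c.val := Dvd.dvd.trans (dvd_of_eq (pow_two p).symm) h
    exact (Nat.mul_dvd_mul_iff_left hp.pos).mp h'
  obtain ⟨k, hk⟩ := h2
  refine ⟨(k : ZMod (p ^ 2)), ?_⟩
  rw [h1, hk]; push_cast; ring

/-- Let p > 3 be a prime and L the direct product of two cyclic groups of order p². Every automorphism of L of order p fixes every element of order p of L. -/
theorem result {p : ℕ} [Fact p.Prime] (hp : 3 < p)
    (a : MulAut (Multiplicative (ZMod (p ^ 2) × ZMod (p ^ 2)))) (ha : orderOf a = p)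
    (x : Multiplicative (ZMod (p ^ 2) × ZMod (p ^ 2))) (hx : orderOf x = p) : a x = x := by
  have hpp : p.Prime := Fact.out
  let f : (ZMod (p ^ 2) × ZMod (p ^ 2)) →+ (ZMod (p ^ 2) × ZMod (p ^ 2)) :=
    { toFun := fun v => Multiplicative.toAdd (a (Multiplicative.ofAdd v))
      map_zero' := by
        show Multiplicative.toAdd (a 1) = 0
        rw [map_one]; rfl
      map_add' := by
        intro v w
        show Multiplicative.toAdd (a (Multiplicative.ofAdd v * Multiplicative.ofAdd w)) = _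
        rw [map_mul]; rfl }
  let L : (ZMod (p ^ 2) × ZMod (p ^ 2)) →ₗ[ZMod (p ^ 2)] (ZMod (p ^ 2) × ZMod (p ^ 2)) :=
    f.toZModLinearMap (p ^ 2)
  have hL : ∀ v, L v = Multiplicative.toAdd (a (Multiplicative.ofAdd v)) := fun v => rfl
  have hLk : ∀ k : ℕ, ∀ v, (L ^ k) v = Multiplicative.toAdd ((a ^ k) (Multiplicative.ofAdd v)) := by
    intro k
    induction k with
    | zero => intro v; simp
    | succ k ih =>
      intro v
      rw [pow_succ' L k, Module.End.mul_apply, ih, hL, pow_succ' a k, MulAut.mul_apply]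
      rfl
  have hLp : L ^ p = 1 := by
    have hap : a ^ p = 1 := by
      have := pow_orderOf_eq_one a
      rw [ha] at this; exact this
    apply LinearMap.ext; intro v
    rw [hLk, hap]; rfl
  let e := LinearMap.toMatrixAlgEquiv (Module.Basis.finTwoProd (ZMod (p ^ 2)))
  have hMp : (e L) ^ p = 1 := by rw [← map_pow, hLp, map_one]
  have hkey := mat_key hp (e L) hMp
  have hkey2 : p • (L - 1) = 0 := by
    have : e (p • (L - 1)) = 0 := by rw [map_nsmul, map_sub, map_one]; exact hkey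
    exact (EmbeddingLike.map_eq_zero_iff).mp this
  -- x = p • v
  have hxp : x ^ p = 1 := by
    have := pow_orderOf_eq_one x
    rw [hx] at this; exact this
  have hw : p • (Multiplicative.toAdd x) = 0 := by
    have := congrArg Multiplicative.toAdd hxp
    simpa using this
  have hw1 : (p : ZMod (p ^ 2)) * (Multiplicative.toAdd x).1 = 0 := by
    have := congrArg Prod.fst hw
    simpa using this
  have hw2 : (p : ZMod (p ^ 2)) * (Multiplicative.toAdd x).2 = 0 := by
    have := congrArg Prod.snd hw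
    simpa using this
  obtain ⟨c1, hc1⟩ := dvd_of_mul_eq_zero' _ hw1
  obtain ⟨c2, hc2⟩ := dvd_of_mul_eq_zero' _ hw2
  have hxv : Multiplicative.toAdd x = p • ((c1, c2) : ZMod (p ^ 2) × ZMod (p ^ 2)) := by
    apply Prod.ext
    · rw [hc1]; simp
    · rw [hc2]; simp
  have hfin : L (Multiplicative.toAdd x) = Multiplicative.toAdd x := by
    rw [hxv, map_nsmul]
    have h1 := congrArg (fun g => g ((c1, c2) : ZMod (p ^ 2) × ZMod (p ^ 2))) hkey2
    simp only [LinearMap.smul_apply, LinearMap.sub_apply, Module.End.one_apply,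
      LinearMap.zero_apply] at h1
    rw [smul_sub, sub_eq_zero] at h1
    exact h1
  have := hL (Multiplicative.toAdd x)
  rw [hfin] at this
  exact (congrArg Multiplicative.ofAdd this).symm

end Cfsg.Agent.S4080
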