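import Mathlib
import Cfsg.Statements.S4084

set_option autoImplicit false
open Cfsg

namespace Cfsg.Agent.S4084

theorem aux {G H : Type*} [Group G] [Finite G] [Group H] [Finite H] (e : G ≃ H)
    (he : ∀ x y : G, Commute x y ↔ Commute (e x) (e y))
    {p q : ℕ} (hp : p.Prime) (hq : q.Prime) (hpq : p ≠ q) :
    (∃ g : G, orderOf g = p * q) → (∃ h : H, orderOf h = p * q) := by
  classical
  rintro ⟨g, hg⟩
  -- a pairwise commuting set containing g of maximal cardinality
  let F := {S : Set G // g ∈ S ∧ ∀ a ∈ S, ∀ b ∈ S, Commute a b}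
  haveI : Nonempty F := ⟨⟨{g}, by simp, by
    intro a ha b hb
    rw [Set.mem_singleton_iff] at ha hb
    rw [ha, hb]⟩⟩
  obtain ⟨⟨S, hgS, hS⟩, hmax⟩ := Finite.exists_max (fun S : F => S.1.ncard)
  have hSc : S = (Subgroup.centralizer S : Set G) := by
    apply Set.Subset.antisymm
    · intro a ha
      rw [SetLike.mem_coe, Subgroup.mem_centralizer_iff]
      intro b hb
      exact (hS b hb a ha).eq
    · intro c hc
      rw [SetLike.mem_coe, Subgroup.mem_centralizer_iff] at hc
      by_contra hcS
      have hins : g ∈ insert c S ∧ ∀ a ∈ insert c S, ∀ b ∈ insert c S, Commute a b := by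
        refine ⟨Set.mem_insert_of_mem _ hgS, ?_⟩
        intro a ha b hb
        rcases ha with ha | ha <;> rcases hb with hb | hb
        · rw [ha, hb]
        · rw [ha]; exact (hc b hb).symm
        · rw [hb]; exact (hc a ha)
        · exact hS a ha b hb
      have := hmax ⟨insert c S, hins⟩
      simp only at this
      rw [Set.ncard_insert_of_notMem hcS (Set.toFinite _)] at this
      omega
  set T : Set H := e '' S with hT
  have hTcomm : ∀ a ∈ T, ∀ b ∈ T, Commute a b := by
    rintro _ ⟨a, ha, rfl⟩ _ ⟨b, hb, rfl⟩
    exact (he a b).mp (hS a ha b hb)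
  have hTc : T = (Subgroup.centralizer T : Set H) := by
    apply Set.Subset.antisymm
    · intro a ha
      rw [SetLike.mem_coe, Subgroup.mem_centralizer_iff]
      intro b hb
      exact (hTcomm b hb a ha).eq
    · intro c hc
      rw [SetLike.mem_coe, Subgroup.mem_centralizer_iff] at hc
      refine ⟨e.symm c, ?_, by simp⟩
      rw [hSc, SetLike.mem_coe, Subgroup.mem_centralizer_iff]
      intro b hb
      have : Commute (e b) (e (e.symm c)) := by
        rw [Equiv.apply_symm_apply]
        exact hc (e b) ⟨b, hb, rfl⟩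
      exact ((he b (e.symm c)).mpr this).eq
  have hcard : Nat.card (Subgroup.centralizer T) = Nat.card (Subgroup.centralizer S) := by
    have h1 : Nat.card (Subgroup.centralizer T) = T.ncard := by
      rw [← Nat.card_coe_set_eq]
      exact Nat.card_congr (Equiv.setCongr hTc.symm)
    have h2 : Nat.card (Subgroup.centralizer S) = S.ncard := by
      rw [← Nat.card_coe_set_eq]
      exact Nat.card_congr (Equiv.setCongr hSc.symm)
    rw [h1, h2, hT, Set.ncard_image_of_injective _ e.injective]
  have hgC : g ∈ Subgroup.centralizer S := by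
    have := hgS
    rw [hSc] at this
    exact this
  have hdvd : p * q ∣ Nat.card (Subgroup.centralizer T) := by
    rw [hcard, ← hg]
    have := orderOf_dvd_natCard (⟨g, hgC⟩ : Subgroup.centralizer S)
    rwa [Subgroup.orderOf_mk] at this
  haveI := Fact.mk hp
  haveI := Fact.mk hq
  obtain ⟨b1, hb1⟩ := exists_prime_orderOf_dvd_card' (G := Subgroup.centralizer T) p (dvd_trans (dvd_mul_right p q) hdvd)
  obtain ⟨b2, hb2⟩ := exists_prime_orderOf_dvd_card' (G := Subgroup.centralizer T) q (dvd_trans (dvd_mul_left q p) hdvd)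
  have hc12 : Commute (b1 : H) (b2 : H) := by
    apply hTcomm
    · exact (Set.ext_iff.mp hTc (b1 : H)).mpr b1.2
    · exact (Set.ext_iff.mp hTc (b2 : H)).mpr b2.2
  refine ⟨(b1 : H) * (b2 : H), ?_⟩
  have h1 : orderOf (b1 : H) = p := by rw [Subgroup.orderOf_coe]; exact hb1
  have h2 : orderOf (b2 : H) = q := by rw [Subgroup.orderOf_coe]; exact hb2
  rw [hc12.orderOf_mul_eq_mul_orderOf_of_coprime, h1, h2]
  rw [h1, h2]
  exact (Nat.coprime_primes hp hq).mpr hpq

/-- Let G and H be finite groups whose commuting graphs are isomorphic: there is a bijection e : G → H with x, y commuting exactly when e(x), e(y) commute. Then G and H have the same prime graph: for distinct primes p, q, G has an element of order pq if and only if H does (and #G = #H, so the prime divisors agree). -/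
theorem result {G H : Type*} [Group G] [Finite G] [Group H] [Finite H] (e : G ≃ H)
    (he : ∀ x y : G, Commute x y ↔ Commute (e x) (e y))
    {p q : ℕ} (hp : p.Prime) (hq : q.Prime) (hpq : p ≠ q) :
    (∃ g : G, orderOf g = p * q) ↔ (∃ h : H, orderOf h = p * q) := by
  refine ⟨aux e he hp hq hpq, aux e.symm ?_ hp hq hpq⟩
  intro x y
  rw [he (e.symm x) (e.symm y)]
  simp

end Cfsg.Agent.S4084
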