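import Mathlib
import Cfsg.Statements.S4086

set_option autoImplicit false
open Cfsg

namespace Cfsg.Agent.S4086

theorem cyc_mem {C : Type*} [Group C] [Finite C] [IsCyclic C] (x y : C)
    (h : orderOf x ∣ orderOf y) : x ∈ Subgroup.zpowers y := by
  classical
  haveI := Fintype.ofFinite C
  have hd : 0 < orderOf y := orderOf_pos y
  have h1 := IsCyclic.card_pow_eq_one_le (α := C) hd
  have hsub : (Subgroup.zpowers y : Set C).toFinset ⊆ Finset.univ.filter (fun a : C => a ^ orderOf y = 1) := by
    intro a ha
    simp only [Set.mem_toFinset, SetLike.mem_coe] at ha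
    simp only [Finset.mem_filter, Finset.mem_univ, true_and]
    obtain ⟨k, rfl⟩ := ha
    rw [← zpow_natCast, ← zpow_mul, mul_comm, zpow_mul, zpow_natCast, pow_orderOf_eq_one, one_zpow]
  have hcard : ((Subgroup.zpowers y : Set C).toFinset).card = orderOf y := by
    rw [Set.toFinset_card, ← Nat.card_eq_fintype_card]
    exact Nat.card_zpowers y
  have heq := Finset.eq_of_subset_of_card_le hsub (by rw [hcard]; exact h1)
  have hx : x ∈ Finset.univ.filter (fun a : C => a ^ orderOf y = 1) := by
    simp only [Finset.mem_filter, Finset.mem_univ, true_and]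
    exact orderOf_dvd_iff_pow_eq_one.mp h
  rw [← heq] at hx
  simpa using hx

theorem cyc_mem' {G : Type*} [Group G] [Finite G] (C : Subgroup G) [IsCyclic C] (x y : G)
    (hx : x ∈ C) (hy : y ∈ C)
    (h : orderOf x ∣ orderOf y) : x ∈ Subgroup.zpowers y := by
  have := cyc_mem (C := C) ⟨x, hx⟩ ⟨y, hy⟩ (by
    rw [Subgroup.orderOf_mk, Subgroup.orderOf_mk]; exact h)
  obtain ⟨k, hk⟩ := this
  refine ⟨k, ?_⟩
  have := congrArg Subtype.val hk
  simpa using this

/-- For a finite group G the following are equivalent: every non-identity element has prime-power order; whenever two elements generate a cyclic subgroup, one of them is a power of the other (the enhanced power graph of G coincides with its power graph). -/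
theorem result {G : Type*} [Group G] [Finite G] :
    (∀ g : G, g ≠ 1 → IsPrimePow (orderOf g)) ↔
    (∀ x y : G, IsCyclic ↥(Subgroup.closure ({x, y} : Set G)) → (x ∈ Subgroup.zpowers y ∨ y ∈ Subgroup.zpowers x)) := by
  constructor
  · intro h x y hc
    have hx : x ∈ Subgroup.closure ({x, y} : Set G) := Subgroup.subset_closure (by simp)
    have hy : y ∈ Subgroup.closure ({x, y} : Set G) := Subgroup.subset_closure (by simp)
    obtain ⟨⟨z, hz⟩, hgen⟩ := hc.exists_generator
    have hxz : x ∈ Subgroup.zpowers z := by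
      obtain ⟨k, hk⟩ := hgen ⟨x, hx⟩
      exact ⟨k, by simpa using congrArg Subtype.val hk⟩
    have hyz : y ∈ Subgroup.zpowers z := by
      obtain ⟨k, hk⟩ := hgen ⟨y, hy⟩
      exact ⟨k, by simpa using congrArg Subtype.val hk⟩
    have hox : orderOf x ∣ orderOf z := orderOf_dvd_of_mem_zpowers hxz
    have hoy : orderOf y ∣ orderOf z := orderOf_dvd_of_mem_zpowers hyz
    have hz' : ∃ p k : ℕ, p.Prime ∧ orderOf z = p ^ k := by
      by_cases hz1 : z = 1
      · exact ⟨2, 0, Nat.prime_two, by simp [hz1]⟩
      · obtain ⟨p, k, hp, hk, hpk⟩ := h z hz1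
        exact ⟨p, k, hp.nat_prime, hpk.symm⟩
    obtain ⟨p, k, hp, hpk⟩ := hz'
    rw [hpk] at hox hoy
    obtain ⟨i, hi, hxi⟩ := (Nat.dvd_prime_pow hp).mp hox
    obtain ⟨j, hj, hyj⟩ := (Nat.dvd_prime_pow hp).mp hoy
    rcases le_total i j with hij | hij
    · left
      exact cyc_mem' _ x y hx hy (by rw [hxi, hyj]; exact pow_dvd_pow p hij)
    · right
      exact cyc_mem' _ y x hy hx (by rw [hxi, hyj]; exact pow_dvd_pow p hij)
  · intro h g hg
    by_contra hnp
    set n := orderOf g with hn
    have hn0 : n ≠ 0 := (orderOf_pos g).ne'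
    have hn1 : n ≠ 1 := by
      intro h1; exact hg (orderOf_eq_one_iff.mp h1)
    set p := n.minFac with hpdef
    have hp : p.Prime := Nat.minFac_prime hn1
    set a := p ^ n.factorization p with ha
    set b := n / p ^ n.factorization p with hb
    have hab : a * b = n := Nat.ordProj_mul_ordCompl_eq_self n p
    have hcop : Nat.Coprime p b := Nat.coprime_ordCompl hp hn0
    have hk0 : n.factorization p ≠ 0 := by
      have : 0 < n.factorization p := hp.factorization_pos_of_dvd hn0 (Nat.minFac_dvd n)
      omega
    have ha1 : a ≠ 1 := by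
      intro h1
      have := Nat.pow_eq_one.mp h1
      rcases this with h2 | h2
      · exact hp.one_lt.ne' h2
      · exact hk0 h2
    have hb1 : b ≠ 1 := by
      intro h1
      apply hnp
      rw [h1, mul_one] at hab
      rw [← hab]
      exact ⟨p, n.factorization p, hp.prime, Nat.pos_of_ne_zero hk0, rfl⟩
    have hcop' : Nat.Coprime a b := Nat.Coprime.pow_left _ hcop
    have ha0 : a ≠ 0 := by intro h0; rw [h0, zero_mul] at hab; exact hn0 hab.symm
    have hb0 : b ≠ 0 := by intro h0; rw [h0, mul_zero] at hab; exact hn0 hab.symm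
    have hoa : orderOf (g ^ a) = b := by
      rw [orderOf_pow_of_dvd ha0 (by rw [← hn, ← hab]; exact dvd_mul_right a b), ← hn, ← hab]
      exact Nat.mul_div_cancel_left b (Nat.pos_of_ne_zero ha0)
    have hob : orderOf (g ^ b) = a := by
      rw [orderOf_pow_of_dvd hb0 (by rw [← hn, ← hab]; exact dvd_mul_left b a), ← hn, ← hab]
      exact Nat.mul_div_cancel a (Nat.pos_of_ne_zero hb0)
    have hle : Subgroup.closure ({g ^ a, g ^ b} : Set G) ≤ Subgroup.zpowers g := by
      rw [Subgroup.closure_le]
      rintro _ (rfl | rfl)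
      · exact Subgroup.npow_mem_zpowers g a
      · exact Subgroup.npow_mem_zpowers g b
    haveI : IsCyclic (Subgroup.closure ({g ^ a, g ^ b} : Set G)) := Subgroup.isCyclic_of_le hle
    rcases h (g ^ a) (g ^ b) inferInstance with h1 | h1
    · have := orderOf_dvd_of_mem_zpowers h1
      rw [hoa, hob] at this
      have h2 : b ∣ 1 := by
        have := Nat.Coprime.dvd_of_dvd_mul_left hcop'.symm (dvd_mul_of_dvd_left this 1)
        simpa using this
      exact hb1 (Nat.dvd_one.mp h2)
    · have := orderOf_dvd_of_mem_zpowers h1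
      rw [hoa, hob] at this
      have h2 : a ∣ 1 := by
        have := Nat.Coprime.dvd_of_dvd_mul_left hcop' (dvd_mul_of_dvd_left this 1)
        simpa using this
      exact ha1 (Nat.dvd_one.mp h2)

end Cfsg.Agent.S4086
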