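import Mathlib
import Cfsg.Statements.S4093
import Cfsg.Agent.Helper22.FiberCount
import Cfsg.Agent.Helper22.TI

set_option autoImplicit false
open scoped BigOperators
open Cfsg

namespace Cfsg.Agent.S4093

open scoped Pointwise in
theorem p_elt_conj {G : Type*} [Group G] [Finite G] (p : ℕ) [Fact p.Prime]
    (P : Sylow p G) (N : Subgroup G) [N.Normal] (hNP : N.IsComplement' (P : Subgroup G))
    (g : G) (k : ℕ) (hk : orderOf g = p ^ k) :
    ∃ x ∈ (P : Subgroup G), ∃ m ∈ N, g = m * x * m⁻¹ := by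
  have h1 : IsPGroup p (Subgroup.zpowers g) :=
    IsPGroup.of_card (n := k) (by rw [Nat.card_zpowers, hk])
  obtain ⟨Q, hQ⟩ := h1.exists_le_sylow
  obtain ⟨h, hh⟩ := MulAction.exists_smul_eq G P Q
  have h2 : g ∈ ((h • P : Sylow p G) : Subgroup G) := by
    rw [hh]; exact hQ (Subgroup.mem_zpowers g)
  rw [Cfsg.Agent.Helper22.sylow_smul_mem_iff] at h2
  obtain ⟨⟨m, y⟩, hmy⟩ := hNP.2 h
  have hmy' : (m : G) * (y : G) = h := hmy
  refine ⟨(y : G) * (h⁻¹ * g * h) * (y : G)⁻¹,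
    (P : Subgroup G).mul_mem ((P : Subgroup G).mul_mem y.2 h2) ((P : Subgroup G).inv_mem y.2),
    (m : G), m.2, ?_⟩
  rw [← hmy']; group

/-- Let G be a finite group with a normal subgroup N complementing a Sylow p-subgroup P (a normal p-complement). Then the number of elements of G of p-power order equals the sum over x ∈ P of the index of C_N(x) in N. -/
theorem result {G : Type*} [Group G] [Finite G] (p : ℕ) [Fact p.Prime]
    (P : Sylow p G) (N : Subgroup G) [N.Normal] (hNP : N.IsComplement' (P : Subgroup G)) :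
    Nat.card {g : G // ∃ k : ℕ, orderOf g = p ^ k} =
      ∑ᶠ x : (P : Subgroup G), Nat.card N / Nat.card ↥(N ⊓ Subgroup.centralizer ({(x : G)} : Set G)) := by
  classical
  have := Fintype.ofFinite (P : Subgroup G)
  rw [finsum_eq_sum_of_fintype]
  have hdisj : N ⊓ (P : Subgroup G) = ⊥ := hNP.disjoint.eq_bot
  have hpel : ∀ x : (P : Subgroup G), ∀ m : G, ∃ k : ℕ, orderOf (m * (x : G) * m⁻¹) = p ^ k := by
    intro x m
    obtain ⟨k, hk⟩ := (IsPGroup.iff_orderOf.mp P.isPGroup') x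
    refine ⟨k, ?_⟩
    have : orderOf (m * (x : G) * m⁻¹) = orderOf (x : G) := (MulAut.conj m).orderOf_eq (x : G)
    rw [this, Subgroup.orderOf_coe, hk]
  have e : Nat.card {g : G // ∃ k : ℕ, orderOf g = p ^ k} =
      Nat.card (Σ x : (P : Subgroup G), {g : G // ∃ m ∈ N, g = m * (x : G) * m⁻¹}) := by
    apply Nat.card_congr
    symm
    apply Equiv.ofBijective
      (fun s : (Σ x : (P : Subgroup G), {g : G // ∃ m ∈ N, g = m * (x : G) * m⁻¹}) =>
        (⟨s.2.1, by
          obtain ⟨m, hm, hg⟩ := s.2.2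
          rw [hg]; exact hpel s.1 m⟩ : {g : G // ∃ k : ℕ, orderOf g = p ^ k}))
    constructor
    · rintro ⟨x1, g1, m1, hm1, hg1⟩ ⟨x2, g2, m2, hm2, hg2⟩ h
      have hg : g1 = g2 := congrArg Subtype.val h
      have hq1 : ((g1 : G) : G ⧸ N) = ((x1 : G) : G ⧸ N) := by
        rw [hg1, QuotientGroup.mk_mul, QuotientGroup.mk_mul, QuotientGroup.mk_inv,
          (QuotientGroup.eq_one_iff m1).mpr hm1]
        simp
      have hq2 : ((g2 : G) : G ⧸ N) = ((x2 : G) : G ⧸ N) := by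
        rw [hg2, QuotientGroup.mk_mul, QuotientGroup.mk_mul, QuotientGroup.mk_inv,
          (QuotientGroup.eq_one_iff m2).mpr hm2]
        simp
      rw [hg, hq2] at hq1
      have h3 : (x2 : G)⁻¹ * (x1 : G) ∈ N := QuotientGroup.eq.mp hq1
      have h4 : (x2 : G)⁻¹ * (x1 : G) ∈ N ⊓ (P : Subgroup G) :=
        Subgroup.mem_inf.mpr ⟨h3, (P : Subgroup G).mul_mem ((P : Subgroup G).inv_mem x2.2) x1.2⟩
      rw [hdisj, Subgroup.mem_bot] at h4
      have h5 : x1 = x2 := by
        apply Subtype.ext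
        have : (x1 : G) = (x2 : G) * ((x2 : G)⁻¹ * (x1 : G)) := by group
        rw [this, h4, mul_one]
      exact Sigma.subtype_ext h5 hg
    · rintro ⟨g, k, hk⟩
      obtain ⟨x, hx, m, hm, hg⟩ := p_elt_conj p P N hNP g k hk
      exact ⟨⟨⟨x, hx⟩, ⟨g, m, hm, hg⟩⟩, rfl⟩
  rw [e, Nat.card_sigma]
  apply Finset.sum_congr rfl
  intro x _
  have := Cfsg.Agent.Helper22.card_conj_orbit_mul N (x : G)
  exact (Nat.div_eq_of_eq_mul_left Nat.card_pos this.symm).symm

end Cfsg.Agent.S4093
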