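import Mathlib
import Cfsg.Statements.S4107
import Cfsg.Agent.Helper22.FittingAux

set_option autoImplicit false
open Cfsg

namespace Cfsg.Agent.S4107

open Cfsg.Agent.Helper22 in
/-- Let G be a finite group and N a proper non-trivial normal subgroup such that for every x outside N all elements of the coset xN have the same order as x. Then N ≤ F(G) or F(G) ≤ N, where F(G) is the Fitting subgroup; and if N is properly contained in F(G) then F(G) has prime-power order. -/
theorem result {G : Type*} [Group G] [Finite G] (N : Subgroup G) [N.Normal] (hN1 : N ≠ ⊥) (hN2 : N ≠ ⊤)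
    (heq : ∀ x : G, x ∉ N → ∀ n ∈ N, orderOf (x * n) = orderOf x) :
    (N ≤ Cfsg.fittingSubgroup G ∨ Cfsg.fittingSubgroup G ≤ N) ∧
    (N < Cfsg.fittingSubgroup G → IsPrimePow (Nat.card (Cfsg.fittingSubgroup G))) := by
  have key : ¬ Cfsg.fittingSubgroup G ≤ N → ∃ q : ℕ, q.Prime ∧ IsPGroup q N := by
    intro hFN
    unfold Cfsg.fittingSubgroup at hFN
    rw [sSup_le_iff] at hFN
    push Not at hFN
    obtain ⟨K, ⟨hKn, hKnil⟩, hKN⟩ := hFN
    haveI := hKn
    exact exists_isPGroup_of_nilpotent_not_le N heq K hKnil hKN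
  constructor
  · by_cases hFN : Cfsg.fittingSubgroup G ≤ N
    · right; exact hFN
    · left
      obtain ⟨q, hq, hNq⟩ := key hFN
      haveI : Fact q.Prime := ⟨hq⟩
      exact le_sSup ⟨inferInstance, hNq.isNilpotent⟩
  · intro hlt
    have hFN : ¬ Cfsg.fittingSubgroup G ≤ N := not_le_of_gt hlt
    obtain ⟨p, hp, hNp⟩ := key hFN
    haveI : Fact p.Prime := ⟨hp⟩
    -- a nontrivial element of N
    obtain ⟨n0, hn0N, hn01⟩ : ∃ n0 ∈ N, n0 ≠ 1 := by
      by_contra hno
      push Not at hno
      apply hN1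
      rw [eq_bot_iff]
      intro n hn
      rw [Subgroup.mem_bot]; exact hno n hn
    have hn0ord : ∃ a : ℕ, orderOf n0 = p ^ a := by
      obtain ⟨a, ha⟩ := (IsPGroup.iff_orderOf.mp hNp) ⟨n0, hn0N⟩
      exact ⟨a, by rw [← Subgroup.orderOf_mk n0 hn0N, ha]⟩
    -- every normal nilpotent subgroup is a p-group
    have hall : ∀ K : Subgroup G, K.Normal → Group.IsNilpotent K → IsPGroup p K := by
      intro K hKn hKnil
      haveI := hKn
      by_contra hKp
      -- a prime q ≠ p dividing |K|
      have hq : ∃ q : ℕ, q.Prime ∧ q ≠ p ∧ q ∣ Nat.card K := by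
        by_contra hno
        push Not at hno
        apply hKp
        have hcard : Nat.card K = p ^ (Nat.card K).primeFactorsList.length := by
          apply Nat.eq_prime_pow_of_unique_prime_dvd Nat.card_pos.ne'
          intro q hq hqd
          by_contra hqp
          exact hno q hq hqp hqd
        exact IsPGroup.of_card hcard
      obtain ⟨q, hq, hqp, hqK⟩ := hq
      haveI : Fact q.Prime := ⟨hq⟩
      obtain ⟨y, hy⟩ := exists_prime_orderOf_dvd_card' q hqK
      have hy' : orderOf (y : G) = q ^ 1 := by rw [Subgroup.orderOf_coe, hy, pow_one]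
      obtain ⟨R, hRn, hRq, hyR⟩ := exists_normal_pgroup_of_mem_nilpotent K hKnil q (y : G) y.2 1 hy'
      haveI := hRn
      by_cases hRN : R ≤ N
      · -- y ∈ N, a p-group
        obtain ⟨a, ha⟩ := (IsPGroup.iff_orderOf.mp hNp) ⟨(y : G), hRN hyR⟩
        rw [Subgroup.orderOf_mk, hy', pow_one] at ha
        have h1 : p ∣ q := by
          rcases Nat.eq_zero_or_pos a with h0 | h0
          · rw [h0, pow_zero] at ha
            exact absurd ha hq.one_lt.ne'
          · rw [ha]; exact dvd_pow_self p h0.ne'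
        exact hqp ((Nat.prime_dvd_prime_iff_eq hp hq).mp h1).symm
      · have hNq := isPGroup_of_coset_order N heq q R hRq hRN
        obtain ⟨a, ha⟩ := hn0ord
        obtain ⟨b, hb⟩ := (IsPGroup.iff_orderOf.mp hNq) ⟨n0, hn0N⟩
        rw [Subgroup.orderOf_mk, ha] at hb
        have ha0 : a ≠ 0 := by
          rintro rfl
          rw [pow_zero, orderOf_eq_one_iff] at ha
          exact hn01 ha
        have h1 : p ∣ q ^ b := by rw [← hb]; exact dvd_pow_self p ha0
        have h2 : p ∣ q := hp.dvd_of_dvd_pow h1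
        exact hqp ((Nat.prime_dvd_prime_iff_eq hp hq).mp h2).symm
    have hFp : IsPGroup p (Cfsg.fittingSubgroup G) := by
      apply IsPGroup.to_le (isPGroup_pCore22 p G)
      apply sSup_le
      rintro K ⟨hKn, hKnil⟩
      exact le_sSup ⟨hKn, hall K hKn hKnil⟩
    obtain ⟨k, hk⟩ := IsPGroup.iff_card.mp hFp
    rw [hk]
    apply hp.isPrimePow.pow
    rintro rfl
    rw [pow_zero] at hk
    have hF1 : Cfsg.fittingSubgroup G = ⊥ := Subgroup.card_eq_one.mp hk
    rw [hF1] at hlt
    exact not_lt_bot hlt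

end Cfsg.Agent.S4107
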