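import Mathlib
import Cfsg.Statements.S4108
import Cfsg.Agent.Helper22.ConjSmul

set_option autoImplicit false
open scoped Pointwise
open Cfsg

namespace Cfsg.Agent.S4108

/-- Let G be a finite group, p a prime and N a proper non-trivial normal p-subgroup such that for every x outside N all elements of the coset xN have the same order as x. Then every non-trivial subgroup H of G of order prime to p acts fixed-point-freely on N: NH is a Frobenius group with complement H and kernel N. -/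
theorem result {G : Type*} [Group G] [Finite G] (N : Subgroup G) [N.Normal] (hN1 : N ≠ ⊥) (hN2 : N ≠ ⊤)
    (heq : ∀ x : G, x ∉ N → ∀ n ∈ N, orderOf (x * n) = orderOf x)
    (p : ℕ) [Fact p.Prime] (hNp : IsPGroup p N) :
    ∀ H : Subgroup G, H ≠ ⊥ → (Nat.card H).Coprime p →
      Cfsg.IsFrobeniusComplement (H.subgroupOf (N ⊔ H)) ∧ Cfsg.frobeniusKernel (H.subgroupOf (N ⊔ H)) = (N.subgroupOf (N ⊔ H) : Set ↥(N ⊔ H)) := by
  intro H hH1 hHp
  have hpp : p.Prime := Fact.out
  have hNord : ∀ n ∈ N, ∃ k : ℕ, orderOf n = p ^ k := by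
    intro n hn
    obtain ⟨k, hk⟩ := (IsPGroup.iff_orderOf.mp hNp) ⟨n, hn⟩
    exact ⟨k, by rw [← Subgroup.orderOf_mk n hn, hk]⟩
  have hHord : ∀ h ∈ H, (orderOf h).Coprime p := by
    intro h hh
    have h1 : orderOf h ∣ Nat.card H := by
      rw [← Subgroup.orderOf_mk h hh]; exact orderOf_dvd_natCard _
    exact Nat.Coprime.coprime_dvd_left h1 hHp
  have hHN : ∀ x, x ∈ H → x ∈ N → x = 1 := by
    intro x hxH hxN
    obtain ⟨k, hk⟩ := hNord x hxN
    have h1 := hHord x hxH
    rw [hk] at h1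
    rcases Nat.eq_zero_or_pos k with h0 | h0
    · rw [h0, pow_zero, orderOf_eq_one_iff] at hk; exact hk
    · exfalso
      have h2 : p ∣ p ^ k := dvd_pow_self p h0.ne'
      have := Nat.Coprime.coprime_dvd_left h2 h1
      rw [Nat.coprime_self] at this
      exact hpp.one_lt.ne' this
  have hcent : ∀ h ∈ H, h ≠ 1 → ∀ n ∈ N, h * n = n * h → n = 1 := by
    intro h hh h1 n hn hc
    have hhN : h ∉ N := fun hhN => h1 (hHN h hh hhN)
    have h2 := heq h hhN n hn
    obtain ⟨k, hk⟩ := hNord n hn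
    have h3 : (orderOf h).Coprime (orderOf n) := by
      rw [hk]; exact Nat.Coprime.pow_right k (hHord h hh)
    have hcomm : Commute h n := hc
    rw [hcomm.orderOf_mul_eq_mul_orderOf_of_coprime h3] at h2
    have hpos : 0 < orderOf h := orderOf_pos h
    have h4 : orderOf n = 1 := by
      have : orderOf h * orderOf n = orderOf h * 1 := by rw [h2, mul_one]
      exact Nat.eq_of_mul_eq_mul_left hpos this
    exact orderOf_eq_one_iff.mp h4
  have hconjH : ∀ n ∈ N, ∀ h ∈ H, h ≠ 1 → n * h * n⁻¹ ∈ H → n = 1 := by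
    intro n hn h hh h1 hc
    have h2 : n * h * n⁻¹ * h⁻¹ ∈ N := by
      have e : n * h * n⁻¹ * h⁻¹ = n * (h * n⁻¹ * h⁻¹) := by group
      rw [e]
      exact N.mul_mem hn (Subgroup.Normal.conj_mem inferInstance _ (N.inv_mem hn) h)
    have h3 := hHN _ (H.mul_mem hc (H.inv_mem hh)) h2
    apply hcent h hh h1 n hn
    have e : h * n = (n * h * n⁻¹ * h⁻¹)⁻¹ * (n * h) := by group
    rw [e, h3, inv_one, one_mul]
  have hsurj : ∀ h ∈ H, h ≠ 1 → ∀ n ∈ N, ∃ m ∈ N, n * h = m * h * m⁻¹ := fun h hh h1 =>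
    Cfsg.Agent.Helper22.exists_conj_of_fixed_point_free N h (hcent h hh h1)
  have hmemK : ∀ x : ↥(N ⊔ H), ∃ n ∈ N, ∃ h ∈ H, n * h = (x : G) := fun x =>
    Subgroup.mem_sup_of_normal_left.mp x.2
  refine ⟨⟨?_, ?_, ?_⟩, ?_⟩
  · intro hbot
    rw [Subgroup.subgroupOf_eq_bot] at hbot
    apply hH1
    rw [eq_bot_iff]
    intro x hx
    exact hbot.le_bot (Subgroup.mem_inf.mpr ⟨hx, (le_sup_right : H ≤ N ⊔ H) hx⟩)
  · intro htop
    rw [Subgroup.subgroupOf_eq_top] at htop
    apply hN1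
    rw [eq_bot_iff]
    intro n hn
    rw [Subgroup.mem_bot]
    exact hHN n (htop ((le_sup_left : N ≤ N ⊔ H) hn)) hn
  · intro g hg
    rw [eq_bot_iff]
    intro a ha
    obtain ⟨ha1, ha2⟩ := Subgroup.mem_inf.mp ha
    rw [Cfsg.Agent.Helper22.mem_conj_smul_iff, Subgroup.mem_subgroupOf] at ha2
    rw [Subgroup.mem_subgroupOf] at ha1 hg
    rw [Subgroup.mem_bot]
    by_contra ha0
    have ha0' : (a : G) ≠ 1 := fun h => ha0 (Subtype.ext h)
    obtain ⟨n, hn, h0, hh0, hg0⟩ := hmemK g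
    have ha2' : (g : G)⁻¹ * (a : G) * (g : G) ∈ H := by simpa using ha2
    rw [← hg0] at ha2'
    have h5 : n⁻¹ * (a : G) * n⁻¹⁻¹ ∈ H := by
      have e : n⁻¹ * (a : G) * n⁻¹⁻¹ = h0 * ((n * h0)⁻¹ * (a : G) * (n * h0)) * h0⁻¹ := by group
      rw [e]
      exact H.mul_mem (H.mul_mem hh0 ha2') (H.inv_mem hh0)
    have h6 := hconjH n⁻¹ (N.inv_mem hn) (a : G) ha1 ha0' h5
    rw [inv_eq_one] at h6
    apply hg
    rw [← hg0, h6, one_mul]; exact hh0
  · ext x
    constructor
    · rintro (hx | hx)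
      · rw [hx]; exact Subgroup.one_mem _
      · by_contra hxN
        have hxN' : (x : G) ∉ N := fun h => hxN (Subgroup.mem_subgroupOf.mpr h)
        obtain ⟨n, hn, h, hh, hx0⟩ := hmemK x
        have h1 : h ≠ 1 := by
          rintro rfl
          rw [mul_one] at hx0
          exact hxN' (hx0 ▸ hn)
        obtain ⟨m, hm, e⟩ := hsurj h hh h1 n hn
        apply hx ⟨m, (le_sup_left : N ≤ N ⊔ H) hm⟩
        rw [Cfsg.Agent.Helper22.mem_conj_smul_iff, Subgroup.mem_subgroupOf]
        have e2 : m⁻¹ * (x : G) * m = h := by rw [← hx0, e]; group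
        simpa using e2 ▸ hh
    · intro hx
      have hx' : (x : G) ∈ N := Subgroup.mem_subgroupOf.mp hx
      by_cases hx1 : x = 1
      · left; exact hx1
      · right
        intro g hxg
        rw [Cfsg.Agent.Helper22.mem_conj_smul_iff, Subgroup.mem_subgroupOf] at hxg
        have h1 : (g : G)⁻¹ * (x : G) * (g : G) ∈ H := by simpa using hxg
        have h2 : (g : G)⁻¹ * (x : G) * (g : G) ∈ N := by
          have := Subgroup.Normal.conj_mem (inferInstance : N.Normal) _ hx' (g : G)⁻¹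
          simpa using this
        have h3 := hHN _ h1 h2
        apply hx1
        apply Subtype.ext
        have e : (x : G) = (g : G) * ((g : G)⁻¹ * (x : G) * (g : G)) * (g : G)⁻¹ := by group
        rw [e, h3]; simp

end Cfsg.Agent.S4108
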