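import Mathlib
import Cfsg.Statements.S4112
import Cfsg.Agent.Helper22.Supplement
import Cfsg.Agent.Helper22.FrobCount2

set_option autoImplicit false
open Cfsg

namespace Cfsg.Agent.S4112

open Cfsg.Agent.Helper22 in
/-- Let G be a finite group and M ≤ N non-trivial proper normal subgroups such that for every g outside N the conjugacy class of g is a union of cosets of M (equivalently gm is conjugate to g for every m ∈ M). Then (1) and (2) below are equivalent, and they imply (3): (1) every g outside N acts fixed-point-freely on M, that is C_G(x) ≤ N for every x ∈ M, x ≠ 1; (2) the index of N in G is coprime to the order of M; (3) there is a subgroup H of G with HN = G and H ∩ M = 1. -/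
theorem result {G : Type*} [Group G] [Finite G] (N M : Subgroup G) [N.Normal] [M.Normal] (hMN : M ≤ N) (hM1 : M ≠ ⊥) (hN2 : N ≠ ⊤)
    (hcam : ∀ g : G, g ∉ N → ∀ m ∈ M, ∃ x : G, x * g * x⁻¹ = g * m) :
    ((∀ x ∈ M, x ≠ 1 → Subgroup.centralizer ({x} : Set G) ≤ N) ↔ N.index.Coprime (Nat.card M)) ∧
    ((∀ x ∈ M, x ≠ 1 → Subgroup.centralizer ({x} : Set G) ≤ N) → ∃ H : Subgroup G, H ⊔ N = ⊤ ∧ H ⊓ M = ⊥) := by
  have h12 : (∀ x ∈ M, x ≠ 1 → Subgroup.centralizer ({x} : Set G) ≤ N) →
      N.index.Coprime (Nat.card M) := by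
    intro h1
    by_contra hcop
    obtain ⟨q, hq, hqN, hqM⟩ := Nat.Prime.not_coprime_iff_dvd.mp hcop
    haveI : Fact q.Prime := ⟨hq⟩
    obtain ⟨S⟩ : Nonempty (Sylow q G) := inferInstance
    obtain ⟨x, hxM, hx1, hxS⟩ := exists_fixed_of_pgroup_normal q S S.isPGroup' M hqM
    have hSN : (S : Subgroup G) ≤ N := by
      intro s hs
      apply h1 x hxM hx1
      rw [Subgroup.mem_centralizer_iff]
      intro y hy
      rw [Set.mem_singleton_iff] at hy
      rw [hy]; exact (hxS s hs).symm
    have := Subgroup.index_dvd_of_le hSN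
    exact S.not_dvd_index (Dvd.dvd.trans hqN this)
  refine ⟨⟨h12, ?_⟩, ?_⟩
  · intro hcop x hxM hx1 g hg
    by_contra hgN
    rw [Subgroup.mem_centralizer_iff] at hg
    have hgx : Commute g x := (hg x (Set.mem_singleton x)).symm
    obtain ⟨k, hk⟩ : ∃ k, k = orderOf g := ⟨_, rfl⟩
    have hkpos : 0 < k := by rw [hk]; exact orderOf_pos g
    obtain ⟨k1, hk1⟩ : ∃ k1, k1 = Nat.gcd k ((Nat.card M) ^ k) := ⟨_, rfl⟩
    have hk1k : k1 ∣ k := by rw [hk1]; exact Nat.gcd_dvd_left _ _
    have hk10 : k1 ≠ 0 := by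
      rintro rfl
      rw [zero_dvd_iff] at hk1k
      omega
    have hcop2 : Nat.Coprime (Nat.card M) (k / k1) := by
      rw [hk1]; exact coprime_div_gcd_pow hkpos
    have hg'N : g ^ k1 ∉ N := by
      intro h
      apply hgN
      have hc : Nat.Coprime k1 N.index := by
        have : k1 ∣ (Nat.card M) ^ k := by rw [hk1]; exact Nat.gcd_dvd_right _ _
        exact Nat.Coprime.coprime_dvd_left this (Nat.Coprime.pow_left k hcop.symm)
      exact coprime_pow_mem N g hc h (Subgroup.pow_index_mem N g)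
    have hord : orderOf (g ^ k1) = k / k1 := by
      rw [hk]; exact orderOf_pow_of_dvd hk10 (hk ▸ hk1k)
    obtain ⟨c, hc⟩ := hcam (g ^ k1) hg'N x hxM
    have h3 : orderOf (g ^ k1 * x) = orderOf (g ^ k1) := by
      rw [← hc]; exact (MulAut.conj c).orderOf_eq (g ^ k1)
    have hcomm : Commute (g ^ k1) x := hgx.pow_left k1
    have hxord : orderOf x ∣ Nat.card M := by
      rw [← Subgroup.orderOf_mk x hxM]; exact orderOf_dvd_natCard _
    have hcop3 : Nat.Coprime (orderOf (g ^ k1)) (orderOf x) := by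
      rw [hord]; exact (Nat.Coprime.coprime_dvd_left hxord hcop2).symm
    rw [hcomm.orderOf_mul_eq_mul_orderOf_of_coprime hcop3] at h3
    have hpos : 0 < orderOf (g ^ k1) := orderOf_pos _
    have h4 : orderOf x = 1 := by
      have : orderOf (g ^ k1) * orderOf x = orderOf (g ^ k1) * 1 := by rw [h3, mul_one]
      exact Nat.eq_of_mul_eq_mul_left hpos this
    exact hx1 (orderOf_eq_one_iff.mp h4)
  · intro h1
    have hcop := h12 h1
    obtain ⟨H, hH1, hH2⟩ := exists_supplement_primes N
    refine ⟨H, hH1, ?_⟩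
    rw [eq_bot_iff]
    intro x hx
    obtain ⟨hxH, hxM⟩ := Subgroup.mem_inf.mp hx
    rw [Subgroup.mem_bot, ← orderOf_eq_one_iff]
    by_contra hne
    obtain ⟨q, hq, hqd⟩ := Nat.exists_prime_and_dvd hne
    have h2 : q ∣ Nat.card H := by
      refine hqd.trans ?_
      rw [← Subgroup.orderOf_mk x hxH]; exact orderOf_dvd_natCard _
    have h3 : q ∣ Nat.card M := by
      refine hqd.trans ?_
      rw [← Subgroup.orderOf_mk x hxM]; exact orderOf_dvd_natCard _
    have h4 := hH2 q hq h2
    exact (Nat.Prime.not_coprime_iff_dvd.mpr ⟨q, hq, h4, h3⟩) hcop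

end Cfsg.Agent.S4112
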