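import Mathlib
import Cfsg.Statements.S4115
import Cfsg.Agent.Helper22.TIExt2
import Cfsg.Agent.Helper22.TIFrob

set_option autoImplicit false
universe u
open Cfsg

namespace Cfsg.Agent.S4115

/-- Let G be a finite group and H a subgroup that meets each of its conjugates by elements outside N_G(H) trivially and whose order is coprime to its index in N_G(H). Then H has a normal complement in N_G(H) if and only if H has a normal complement in G. Moreover, if H is not normal in G and has a normal complement in N_G(H), then H is isomorphic to a Frobenius complement of some finite Frobenius group. -/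
theorem result {G : Type u} [Group G] [Finite G] (H : Subgroup G)
    (hTI : Cfsg.IsTISubset (H : Set G)) (hHall : (Nat.card H).Coprime (H.subgroupOf (Subgroup.normalizer (H : Set G))).index) :
    ((∃ K : Subgroup (Subgroup.normalizer (H : Set G)), K.Normal ∧ K.IsComplement' (H.subgroupOf (Subgroup.normalizer (H : Set G)))) ↔
      (∃ N : Subgroup G, N.Normal ∧ N.IsComplement' H)) ∧
    (¬ H.Normal → (∃ K : Subgroup (Subgroup.normalizer (H : Set G)), K.Normal ∧ K.IsComplement' (H.subgroupOf (Subgroup.normalizer (H : Set G)))) →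
      ∃ (F : Type u) (_ : Group F) (_ : Finite F) (C : Subgroup F), Cfsg.IsFrobeniusComplement C ∧ Nonempty (H ≃* C)) := by
  refine ⟨⟨?_, ?_⟩, ?_⟩
  · rintro ⟨K, hKn, hKc⟩
    exact Cfsg.Agent.Helper22.ti_hall_complement H hTI hHall K hKn hKc
  · rintro ⟨M, hMn, hMc⟩
    haveI := hMn
    refine ⟨M.subgroupOf (Subgroup.normalizer (H : Set G)), Subgroup.normal_subgroupOf, ?_⟩
    apply Subgroup.isComplement'_of_disjoint_and_mul_eq_univ
    · rw [Subgroup.disjoint_def]
      intro x hxM hxH
      rw [Subgroup.mem_subgroupOf] at hxM hxH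
      have h := hMc.disjoint
      rw [Subgroup.disjoint_def] at h
      exact Subtype.ext (h hxM hxH)
    · rw [Set.eq_univ_iff_forall]
      intro x
      obtain ⟨⟨⟨m, hm⟩, ⟨h, hh⟩⟩, e⟩ := hMc.2 (x : G)
      have e' : m * h = (x : G) := e
      have hhN : h ∈ Subgroup.normalizer (H : Set G) := Subgroup.le_normalizer hh
      have hmN : m ∈ Subgroup.normalizer (H : Set G) := by
        have e2 : m = (x : G) * h⁻¹ := by rw [← e']; group
        rw [e2]
        exact Subgroup.mul_mem _ x.2 (Subgroup.inv_mem _ hhN)
      refine Set.mem_mul.mpr ⟨⟨m, hmN⟩, ?_, ⟨h, hhN⟩, ?_, ?_⟩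
      · exact Subgroup.mem_subgroupOf.mpr hm
      · exact Subgroup.mem_subgroupOf.mpr hh
      · exact Subtype.ext e'
  · rintro hnn ⟨K, hKn, hKc⟩
    obtain ⟨M, hMn, hMc⟩ := Cfsg.Agent.Helper22.ti_hall_complement H hTI hHall K hKn hKc
    exact Cfsg.Agent.Helper22.ti_hall_frob_compl H hTI hHall hnn M hMn hMc

end Cfsg.Agent.S4115
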