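import Mathlib
import Cfsg.Statements.S4117
import Cfsg.Agent.Helper22.CoprimeZ

set_option autoImplicit false
open Cfsg

namespace Cfsg.Agent.S4117

open Cfsg.Agent.Helper22 in
open scoped commutatorElement in
/-- Let A be a finite group acting on the finite group G by automorphisms with the orders of A and G coprime, and suppose every Sylow subgroup of G is cyclic. Then the fixed-point subgroup C_G(A) is a Hall subgroup of G (its order is coprime to its index), the subgroup [G, A] generated by the elements g⁻¹·a(g) is cyclic and normal with [G, A] ∩ C_G(A) = 1 and [G, A]·C_G(A) = G. -/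
theorem result {G A : Type*} [Group G] [Finite G] [Group A] [Finite A]
    [MulDistribMulAction A G] (hcop : (Nat.card A).Coprime (Nat.card G))
    (hcyc : ∀ (p : ℕ) [Fact p.Prime] (P : Sylow p G), IsCyclic (P : Subgroup G)) :
    (Nat.card (MulAction.fixedPoints A G : Set G)).Coprime (Nat.card G / Nat.card (MulAction.fixedPoints A G : Set G)) ∧
    IsCyclic (Subgroup.closure {y : G | ∃ (a : A) (g : G), y = g⁻¹ * a • g}) ∧
    (Subgroup.closure {y : G | ∃ (a : A) (g : G), y = g⁻¹ * a • g}).Normal ∧
    (Subgroup.closure {y : G | ∃ (a : A) (g : G), y = g⁻¹ * a • g} : Set G) ∩ MulAction.fixedPoints A G = {1} ∧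
    Subgroup.closure {y : G | ∃ (a : A) (g : G), y = g⁻¹ * a • g} ⊔ Subgroup.closure (MulAction.fixedPoints A G) = ⊤ := by
  haveI hZ : IsZGroup G := ⟨fun p hp P => by haveI := Fact.mk hp; exact hcyc p P⟩
  have hsolv : Group.IsSolvable G := inferInstance
  have hgen := comm_gen_le_comm_comm (G := G) (A := A) hcop hsolv
  have hprod := exists_fixed_mul_comm (G := G) (A := A) hcop hsolv
  have hKinv := comm_gen_smul_mem (G := G) (A := A)
  haveI hKn := comm_gen_normal (G := G) (A := A)
  obtain ⟨K, hK⟩ : ∃ K : Subgroup G,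
      K = Subgroup.closure {y : G | ∃ (a : A) (g : G), y = g⁻¹ * a • g} := ⟨_, rfl⟩
  rw [← hK] at hgen hprod hKinv hKn ⊢
  -- `[K, K]` is cyclic
  have hcycK' : IsCyclic ↥⁅K, K⁆ := by
    have h1 : IsCyclic (commutator K) := IsZGroup.isCyclic_commutator K
    let f := Subgroup.equivMapOfInjective (commutator K) _ K.subtype_injective
    rw [Subgroup.map_subtype_commutator] at f
    exact isCyclic_of_surjective f f.surjective
  obtain ⟨w, hw⟩ := hcycK'.exists_generator
  have hw' : ∀ x ∈ ⁅K, K⁆, x ∈ Subgroup.zpowers (w : G) := by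
    intro x hx
    obtain ⟨n, hn⟩ := Subgroup.mem_zpowers_iff.mp (hw ⟨x, hx⟩)
    rw [Subgroup.mem_zpowers_iff]
    refine ⟨n, ?_⟩
    have := congrArg Subtype.val hn
    simpa using this
  have hcen := comm_central K hKinv hgen (w : G) hw' w.2
  -- `K` is nilpotent, hence cyclic
  have hKnil : Group.IsNilpotent K := by
    apply Subgroup.isNilpotent_of_ker_le_center (Abelianization.of (G := K))
    rw [Abelianization.ker_of]
    intro z hz
    rw [Subgroup.mem_center_iff]
    intro k
    have hzG : (z : G) ∈ ⁅K, K⁆ := by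
      rw [← Subgroup.map_subtype_commutator]
      exact Subgroup.mem_map_of_mem _ hz
    obtain ⟨n, hn⟩ := Subgroup.mem_zpowers_iff.mp (hw' _ hzG)
    apply Subtype.ext
    simp only [Subgroup.coe_mul]
    rw [← hn]
    have h1 : Commute (k : G) (w : G) := hcen k k.2
    exact (h1.zpow_right n).eq
  have hKcyc : IsCyclic K := inferInstance
  have hcomm : ∀ x ∈ K, ∀ y ∈ K, x * y = y * x := by
    intro x hx y hy
    letI := IsCyclic.commGroup (α := K)
    have := mul_comm (⟨x, hx⟩ : K) ⟨y, hy⟩
    exact congrArg Subtype.val this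
  have hfix : ∀ x ∈ K, (∀ a : A, a • x = x) → x = 1 := fun x hx hxf =>
    fixed_eq_one_of_abelian_comm K hcomm hKinv hgen
      (hcop.coprime_dvd_right (Subgroup.card_subgroup_dvd_card K)) x hx hxf
  have hKC : K ⊓ FixedPoints.subgroup A G = ⊥ := by
    rw [eq_bot_iff]
    intro x hx
    rw [Subgroup.mem_bot]
    exact hfix x hx.1 hx.2
  have hcompl : (FixedPoints.subgroup A G).IsComplement' K := by
    apply Subgroup.isComplement'_of_disjoint_and_mul_eq_univ
    · rw [disjoint_iff, inf_comm]; exact hKC
    · rw [Set.eq_univ_iff_forall]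
      intro g
      obtain ⟨k, hk, hgk⟩ := hprod g
      exact ⟨g * k, hgk, k⁻¹, K.inv_mem hk, by group⟩
  have hcard := hcompl.card_mul_card
  have hcardC : Nat.card (MulAction.fixedPoints A G : Set G) =
      Nat.card (FixedPoints.subgroup A G) := rfl
  have hCpos : 0 < Nat.card (FixedPoints.subgroup A G) := Nat.card_pos
  refine ⟨?_, hKcyc, hKn, ?_, ?_⟩
  · rw [hcardC]
    have : Nat.card G / Nat.card (FixedPoints.subgroup A G) = Nat.card K := by
      rw [← hcard]
      exact Nat.mul_div_cancel_left _ hCpos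
    rw [this]
    exact coprime_card_of_cyclic_sylow hcyc K _ hKC
  · ext x
    constructor
    · rintro ⟨hx1, hx2⟩
      exact hfix x hx1 hx2
    · intro hx
      rw [Set.mem_singleton_iff] at hx
      rw [hx]
      exact ⟨K.one_mem, fun a => smul_one a⟩
  · rw [eq_top_iff]
    intro g _
    obtain ⟨k, hk, hgk⟩ := hprod g
    have h2 : g = (g * k) * k⁻¹ := by group
    rw [h2, sup_comm]
    exact Subgroup.mul_mem_sup (Subgroup.subset_closure hgk) (K.inv_mem hk)

end Cfsg.Agent.S4117
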