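import Mathlib
import Cfsg.Statements.S4127
import Cfsg.Agent.Helper10.AxB
import Cfsg.Agent.Helper22.FrobCount
import Cfsg.Agent.S4314
import Cfsg.Agent.Lead.Coprime
import Cfsg.Agent.Lead.SylowSub

set_option autoImplicit false
open Cfsg
open scoped commutatorElement
open Pointwise

namespace Cfsg.Agent.S4127

/-- a normal `p`-subgroup lies in every Sylow `p`-subgroup. -/
theorem normal_le_sylow {K : Type*} [Group K] [Finite K] {p : ℕ} [Fact p.Prime] (Q : Subgroup K)
    [hQn : Q.Normal] (hQ : IsPGroup p Q) (P : Sylow p K) : Q ≤ (P : Subgroup K) := by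
  obtain ⟨P', hP'⟩ := hQ.exists_le_sylow
  obtain ⟨g, hg⟩ := MulAction.exists_smul_eq K P' P
  intro q hq
  have h1 : g⁻¹ * q * g ∈ Q := by simpa using hQn.conj_mem q hq g⁻¹
  have h2 : q ∈ MulAut.conj g • (P' : Subgroup K) := by
    rw [Cfsg.Agent.Lead.mem_conj_smul']; exact hP' h1
  rw [← Sylow.coe_subgroup_smul, hg] at h2
  exact h2

/-- **Camina's lemma** (via Frobenius' theorem): if the centralizer of every `p'`-element has index
prime to `p`, then the `p'`-elements form a subgroup centralizing a Sylow `p`-subgroup. -/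
theorem camina {K : Type*} [Group K] [Finite K] (p : ℕ) [Fact p.Prime] (P : Sylow p K)
    (h : ∀ y : K, (orderOf y).Coprime p → ¬ p ∣ (Subgroup.centralizer ({y} : Set K)).index) :
    ∃ H : Subgroup K, (∀ y : K, y ∈ H ↔ y ^ (P : Subgroup K).index = 1) ∧
      Nat.card H = (P : Subgroup K).index ∧
      H ≤ Subgroup.centralizer ((P : Subgroup K) : Set K) := by
  classical
  set m := (P : Subgroup K).index with hm
  have hp : p.Prime := Fact.out
  have hmp : ¬ p ∣ m := P.not_dvd_index
  have hm0 : 0 < m := Nat.pos_of_ne_zero Subgroup.index_ne_zero_of_finite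
  have hcopm : Nat.Coprime m p := ((Nat.Prime.coprime_iff_not_dvd hp).mpr hmp).symm
  set D := Subgroup.centralizer ((P : Subgroup K) : Set K) with hD
  -- Schur–Zassenhaus inside D
  set N : Subgroup D := (P : Subgroup K).subgroupOf D with hN
  have hNnormal : N.Normal := by
    constructor
    intro n hn d
    have hn' : (n : K) ∈ (P : Subgroup K) := hn
    have hd : (d : K) * (n : K) = (n : K) * (d : K) :=
      (Subgroup.mem_centralizer_iff.mp d.2 n hn').symm
    have h1 : ((d * n * d⁻¹ : D) : K) = n := by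
      push_cast
      rw [hd, mul_inv_cancel_right]
    show ((d * n * d⁻¹ : D) : K) ∈ (P : Subgroup K)
    rw [h1]; exact hn'
  have hNp : IsPGroup p N := P.isPGroup'.comap_subtype
  have hNidx : ¬ p ∣ N.index := by
    intro hdvd
    have h1 : (P : Subgroup K).relIndex (D ⊔ (P : Subgroup K)) = (P : Subgroup K).relIndex D :=
      Cfsg.Agent.Lead.relIndex_sup_of_le_normalizer D (P : Subgroup K)
        (Subgroup.centralizer_le_normalizer _)
    have h2 := Subgroup.relIndex_mul_index (le_sup_right : (P : Subgroup K) ≤ D ⊔ (P : Subgroup K))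
    rw [h1] at h2
    exact hmp (Dvd.dvd.trans hdvd (Dvd.intro _ h2))
  obtain ⟨n₀, hn₀⟩ := IsPGroup.iff_card.mp hNp
  have hcopN : Nat.Coprime (Nat.card N) N.index := by
    rw [hn₀]; exact Nat.Coprime.pow_left n₀ ((Nat.Prime.coprime_iff_not_dvd hp).mpr hNidx)
  obtain ⟨H', hH'⟩ := Subgroup.exists_right_complement'_of_coprime hcopN
  have hH'card : Nat.card H' = N.index := by
    have h1 := hH'.card_mul_card
    have h2 := Subgroup.card_mul_index N
    have h3 : 0 < Nat.card N := Nat.card_pos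
    exact Nat.eq_of_mul_eq_mul_left h3 (h1.trans h2.symm)
  set H₀ : Subgroup K := H'.map D.subtype with hH₀
  have hH₀card : Nat.card H₀ = N.index := by
    rw [← hH'card]
    exact (Nat.card_congr (H'.equivMapOfInjective D.subtype D.subtype_injective).toEquiv).symm
  have hH₀D : H₀ ≤ D := Subgroup.map_subtype_le H'
  -- (b) p'-elements of D lie in H₀
  have hb : ∀ y ∈ D, y ^ m = 1 → y ∈ H₀ := by
    intro y hyD hym
    obtain ⟨⟨n, h⟩, hnh⟩ := hH'.2 (⟨y, hyD⟩ : D)
    have hnh' : (n : D) * (h : D) = ⟨y, hyD⟩ := hnh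
    have hnP : ((n : D) : K) ∈ (P : Subgroup K) := n.2
    have hcomm : Commute (n : D) (h : D) := by
      apply Subtype.ext
      push_cast
      exact (Subgroup.mem_centralizer_iff.mp (h : D).2 _ hnP)
    have h1 : (n : D) ^ m * (h : D) ^ m = 1 := by
      rw [← hcomm.mul_pow, hnh']
      exact Subtype.ext (by push_cast; exact hym)
    have h2 : (n : D) ^ m ∈ N ⊓ H' := by
      refine ⟨N.pow_mem n.2 m, ?_⟩
      have : (n : D) ^ m = ((h : D) ^ m)⁻¹ := eq_inv_of_mul_eq_one_left h1
      rw [this]; exact H'.inv_mem (H'.pow_mem h.2 m)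
    have h3 : (n : D) ^ m = 1 := by
      have := hH'.disjoint.eq_bot
      rw [this] at h2; exact h2
    have h4 : (n : N) ^ m = 1 := Subtype.ext (by push_cast; exact h3)
    obtain ⟨j, hj⟩ := hNp n
    have h5 : orderOf (n : N) ∣ Nat.gcd m (p ^ j) :=
      Nat.dvd_gcd (orderOf_dvd_of_pow_eq_one h4) (orderOf_dvd_of_pow_eq_one hj)
    rw [Nat.Coprime.pow_right j hcopm, Nat.dvd_one, orderOf_eq_one_iff] at h5
    have h6 : (h : D) = ⟨y, hyD⟩ := by rw [← hnh', h5]; simp
    rw [hH₀, Subgroup.mem_map]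
    exact ⟨h, h.2, by rw [h6]; rfl⟩
  -- (d) |P| * |H₀| divides the order of the normalizer of H₀
  set M := Subgroup.normalizer (H₀ : Set K) with hM
  have hPM : (P : Subgroup K) ≤ M :=
    le_trans (Subgroup.le_centralizer_iff.mp hH₀D) (Subgroup.centralizer_le_normalizer _)
  have hH₀M : H₀ ≤ M := Subgroup.le_normalizer
  obtain ⟨e, he⟩ := IsPGroup.iff_card.mp P.isPGroup'
  have hcopPH : Nat.Coprime (Nat.card (P : Subgroup K)) (Nat.card H₀) := by
    rw [he, hH₀card]; exact Nat.Coprime.pow_left e ((Nat.Prime.coprime_iff_not_dvd hp).mpr hNidx)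
  have hdvdM : Nat.card (P : Subgroup K) * Nat.card H₀ ∣ Nat.card M :=
    Nat.Coprime.mul_dvd_of_dvd_of_dvd hcopPH (Subgroup.card_dvd_of_le hPM)
      (Subgroup.card_dvd_of_le hH₀M)
  have hKcard : Nat.card (P : Subgroup K) * m = Nat.card K := Subgroup.card_mul_index _
  have hMcard : Nat.card M * M.index = Nat.card K := Subgroup.card_mul_index M
  have hle : Nat.card H₀ * M.index ≤ m := by
    obtain ⟨t, ht⟩ := hdvdM
    have hP0 : 0 < Nat.card (P : Subgroup K) := Nat.card_pos
    have h1 : Nat.card (P : Subgroup K) * (Nat.card H₀ * M.index * t) =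
        Nat.card (P : Subgroup K) * m := by
      rw [hKcard, ← hMcard, ht]; ring
    have h2 := Nat.eq_of_mul_eq_mul_left hP0 h1
    exact Nat.le_of_dvd hm0 ⟨t, h2.symm⟩
  -- Frobenius
  have hfrob : m ∣ Nat.card {y : K // y ^ m = 1} :=
    Cfsg.Agent.Helper22.frobenius_dvd_card_pow_eq_one m (Subgroup.index_dvd_card _)
  have hYpos : 0 < Nat.card {y : K // y ^ m = 1} := by
    haveI : Nonempty {y : K // y ^ m = 1} := ⟨⟨1, one_pow m⟩⟩
    exact Nat.card_pos
  have hmY : m ≤ Nat.card {y : K // y ^ m = 1} := Nat.le_of_dvd hYpos hfrob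
  -- (g) every solution is conjugate into H₀
  have hg : ∀ y : K, y ^ m = 1 → ∃ c : K, c⁻¹ * y * c ∈ H₀ := by
    intro y hy
    have hyo : (orderOf y).Coprime p :=
      Nat.Coprime.coprime_dvd_left (orderOf_dvd_of_pow_eq_one hy) hcopm
    have hidx := h y hyo
    set Cy := Subgroup.centralizer ({y} : Set K) with hCy
    obtain ⟨Q⟩ : Nonempty (Sylow p Cy) := inferInstance
    have hfac : (Nat.card K).factorization p = (Nat.card Cy).factorization p := by
      rw [← Subgroup.card_mul_index Cy, Nat.factorization_mul Nat.card_pos.ne'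
        Subgroup.index_ne_zero_of_finite, Finsupp.add_apply,
        Nat.factorization_eq_zero_of_not_dvd hidx, add_zero]
    have hcard : Nat.card ((Q : Subgroup Cy).map Cy.subtype) = p ^ (Nat.card K).factorization p := by
      rw [hfac]; exact Cfsg.Agent.Lead.card_sylow_map Cy Q
    obtain ⟨c, hc⟩ := MulAction.exists_smul_eq K P (Sylow.ofCard _ hcard)
    have hc' : MulAut.conj c • (P : Subgroup K) = (Q : Subgroup Cy).map Cy.subtype := by
      rw [← Sylow.coe_subgroup_smul, hc]; rfl
    have hle' : MulAut.conj c • (P : Subgroup K) ≤ Cy := by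
      rw [hc']; exact Subgroup.map_subtype_le _
    refine ⟨c, hb _ ?_ ?_⟩
    · rw [hD, Subgroup.mem_centralizer_iff]
      intro u hu
      have h1 : c * u * c⁻¹ ∈ MulAut.conj c • (P : Subgroup K) := by
        rw [Cfsg.Agent.Lead.mem_conj_smul']
        have hu' : u ∈ (P : Subgroup K) := hu
        have h0 : c⁻¹ * (c * u * c⁻¹) * c = u := by group
        rw [h0]; exact hu'
      have h2 := Subgroup.mem_centralizer_iff.mp (hle' h1) y (Set.mem_singleton y)
      -- h2 : y * (c * u * c⁻¹) = c * u * c⁻¹ * y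
      calc u * (c⁻¹ * y * c) = c⁻¹ * (c * u * c⁻¹ * y) * c := by group
        _ = c⁻¹ * (y * (c * u * c⁻¹)) * c := by rw [h2]
        _ = c⁻¹ * y * c * u := by group
    · have : c⁻¹ * y * c = c⁻¹ * y * c⁻¹⁻¹ := by rw [inv_inv]
      rw [this, conj_pow, hy, mul_one, mul_inv_cancel]
  -- the counting map
  have hex : ∀ y : K, y ^ m = 1 → ∃ c : K, c⁻¹ * y * c ∈ H₀ ∧ (y = 1 → c = 1) := by
    intro y hy
    by_cases h1 : y = 1
    · exact ⟨1, by simp [h1, H₀.one_mem], fun _ => rfl⟩
    · obtain ⟨c, hc⟩ := hg y hy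
      exact ⟨c, hc, fun h => absurd h h1⟩
  choose! c hc hc1 using hex
  set r : K → K := fun y => (QuotientGroup.mk (c y) : K ⧸ M).out with hr
  have hrmem : ∀ y : K, y ^ m = 1 → (r y)⁻¹ * y * r y ∈ H₀ := by
    intro y hy
    obtain ⟨μ, hμ⟩ := QuotientGroup.mk_out_eq_mul M (c y)
    have hμ' : r y = c y * (μ : K) := hμ
    rw [hμ']
    have hμinv : (μ : K)⁻¹ ∈ M := M.inv_mem μ.2
    have h1 := (Subgroup.mem_normalizer_iff.mp hμinv ((c y)⁻¹ * y * c y)).mp (hc y hy)
    have h2 : (c y * (μ : K))⁻¹ * y * (c y * (μ : K)) =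
        (μ : K)⁻¹ * ((c y)⁻¹ * y * c y) * (μ : K)⁻¹⁻¹ := by group
    rw [h2]; exact h1
  let F : {y : K // y ^ m = 1} → (K ⧸ M) × H₀ := fun y =>
    (QuotientGroup.mk (c y.1), ⟨(r y.1)⁻¹ * y.1 * r y.1, hrmem y.1 y.2⟩)
  have hFinj : Function.Injective F := by
    intro y y' hyy'
    have h1 : (QuotientGroup.mk (c y.1) : K ⧸ M) = QuotientGroup.mk (c y'.1) :=
      congrArg Prod.fst hyy'
    have h2 : r y.1 = r y'.1 := by simp only [hr]; rw [h1]
    have h3 : (r y.1)⁻¹ * y.1 * r y.1 = (r y'.1)⁻¹ * y'.1 * r y'.1 :=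
      congrArg (fun z => ((z.2 : H₀) : K)) hyy'
    rw [h2] at h3
    exact Subtype.ext (by simpa using h3)
  have hMtop : M = ⊤ := by
    by_contra hne
    obtain ⟨g, hg'⟩ : ∃ g : K, g ∉ M := by
      by_contra hcon
      exact hne (eq_top_iff.mpr (fun g _ => by_contra (fun hgM => hcon ⟨g, hgM⟩)))
    have hns : ¬ Function.Surjective F := by
      intro hsur
      obtain ⟨y, hy⟩ := hsur (QuotientGroup.mk g, 1)
      have h1 : (r y.1)⁻¹ * y.1 * r y.1 = 1 := congrArg (fun z => ((z.2 : H₀) : K)) hy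
      have h2 : y.1 = 1 := by
        have h3 : y.1 = r y.1 * ((r y.1)⁻¹ * y.1 * r y.1) * (r y.1)⁻¹ := by group
        rw [h3, h1]; group
      have h4 : (QuotientGroup.mk (c y.1) : K ⧸ M) = QuotientGroup.mk g := congrArg Prod.fst hy
      rw [hc1 y.1 y.2 h2, QuotientGroup.eq] at h4
      apply hg'
      have := M.inv_mem h4
      simpa using this
    have hlt : Nat.card {y : K // y ^ m = 1} < Nat.card ((K ⧸ M) × H₀) := by
      let _i1 : Fintype {y : K // y ^ m = 1} := Fintype.ofFinite _
      let _i2 : Fintype ((K ⧸ M) × H₀) := Fintype.ofFinite _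
      rw [Nat.card_eq_fintype_card, Nat.card_eq_fintype_card]
      exact Fintype.card_lt_of_injective_not_surjective F hFinj hns
    rw [Nat.card_prod, ← Subgroup.index_eq_card] at hlt
    have : Nat.card H₀ * M.index ≤ m := hle
    have h5 : M.index * Nat.card H₀ ≤ m := by rw [mul_comm]; exact this
    omega
  have hYH : ∀ y : K, y ^ m = 1 → y ∈ H₀ := by
    intro y hy
    have hcM : c y ∈ M := by rw [hMtop]; exact Subgroup.mem_top _
    have h1 := (Subgroup.mem_normalizer_iff.mp hcM ((c y)⁻¹ * y * c y)).mp (hc y hy)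
    have h2 : c y * ((c y)⁻¹ * y * c y) * (c y)⁻¹ = y := by group
    rw [h2] at h1; exact h1
  have hcardH₀ : Nat.card H₀ = m := by
    have h1 : Nat.card {y : K // y ^ m = 1} ≤ Nat.card H₀ :=
      Nat.card_le_card_of_injective (fun y => (⟨y.1, hYH y.1 y.2⟩ : H₀))
        (fun y y' hyy' => Subtype.ext (congrArg (fun z : H₀ => (z : K)) hyy'))
    have h2 : Nat.card H₀ ≤ m := by
      have := hle
      rw [hMtop, Subgroup.index_top, mul_one] at this
      exact this
    omega
  refine ⟨H₀, fun y => ⟨fun hy => ?_, hYH y⟩, hcardH₀, hH₀D⟩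
  have h1 : (⟨y, hy⟩ : H₀) ^ Nat.card H₀ = 1 := pow_card_eq_one'
  rw [hcardH₀] at h1
  have h2 := congrArg (fun z : H₀ => (z : K)) h1
  simpa using h2

/-- Let G be a finite group, p a prime and p^a the largest power of p dividing the size of any conjugacy class of G. If some element of p-power order has a conjugacy class of size exactly p^a, then G has a normal p-complement. -/
theorem result {G : Type*} [Group G] [Finite G] (p : ℕ) [Fact p.Prime]
    (a : ℕ) (hmax : ∀ y : G, ¬ p ^ (a + 1) ∣ (Subgroup.centralizer ({y} : Set G)).index)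
    (hx : ∃ x : G, (∃ k : ℕ, orderOf x = p ^ k) ∧ (Subgroup.centralizer ({x} : Set G)).index = p ^ a) :
    Cfsg.HasNormalPComplement p G := by
  classical
  have hp : p.Prime := Fact.out
  obtain ⟨x, ⟨k, hk⟩, hidx⟩ := hx
  set C := Subgroup.centralizer ({x} : Set G) with hC
  -- Step 1: p'-elements of C have centralizers of p'-index in C
  have step1 : ∀ y : C, (orderOf y).Coprime p →
      ¬ p ∣ (Subgroup.centralizer ({y} : Set C)).index := by
    intro y hy hdvd
    have hyx : x * (y : G) = (y : G) * x :=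
      Subgroup.mem_centralizer_iff.mp y.2 x (Set.mem_singleton x)
    have hoy : orderOf (y : G) = orderOf y := Subgroup.orderOf_coe y
    have hco : Nat.Coprime (orderOf x) (orderOf (y : G)) := by
      rw [hk, hoy]; exact Nat.Coprime.pow_left k hy.symm
    obtain ⟨s, t, hst⟩ : ∃ s t : ℤ, (orderOf x : ℤ) * s + (orderOf (y : G) : ℤ) * t = 1 := by
      refine ⟨Int.gcdA (orderOf x) (orderOf (y : G)), Int.gcdB (orderOf x) (orderOf (y : G)), ?_⟩
      rw [← Int.gcd_eq_gcd_ab, Int.gcd_natCast_natCast]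
      exact_mod_cast hco
    have hcomm : Commute x (y : G) := hyx
    have hxz : x = (x * (y : G)) ^ ((orderOf (y : G) : ℤ) * t) := by
      rw [hcomm.mul_zpow]
      have h1 : (y : G) ^ ((orderOf (y : G) : ℤ) * t) = 1 := by
        rw [zpow_mul, zpow_natCast, pow_orderOf_eq_one, one_zpow]
      have h2 : x ^ ((orderOf (y : G) : ℤ) * t) = x := by
        have : (orderOf (y : G) : ℤ) * t = 1 - (orderOf x : ℤ) * s := by linarith
        rw [this, zpow_sub, zpow_one, zpow_mul, zpow_natCast, pow_orderOf_eq_one, one_zpow,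
          inv_one, mul_one]
      rw [h1, h2, mul_one]
    have hyz : (y : G) = (x * (y : G)) ^ ((orderOf x : ℤ) * s) := by
      rw [hcomm.mul_zpow]
      have h1 : x ^ ((orderOf x : ℤ) * s) = 1 := by
        rw [zpow_mul, zpow_natCast, pow_orderOf_eq_one, one_zpow]
      have h2 : (y : G) ^ ((orderOf x : ℤ) * s) = (y : G) := by
        have : (orderOf x : ℤ) * s = 1 - (orderOf (y : G) : ℤ) * t := by linarith
        rw [this, zpow_sub, zpow_one, zpow_mul, zpow_natCast, pow_orderOf_eq_one, one_zpow,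
          inv_one, mul_one]
      rw [h1, h2, one_mul]
    have hle : Subgroup.centralizer ({x * (y : G)} : Set G) ≤
        C ⊓ Subgroup.centralizer ({(y : G)} : Set G) := by
      intro g hg
      have hgz : Commute g (x * (y : G)) :=
        (Subgroup.mem_centralizer_iff.mp hg _ (Set.mem_singleton _)).symm
      refine Subgroup.mem_inf.mpr ⟨?_, ?_⟩
      · rw [hC, Subgroup.mem_centralizer_iff]
        intro w hw
        rw [Set.mem_singleton_iff] at hw
        rw [hw]
        have h1 : Commute g ((x * (y : G)) ^ ((orderOf (y : G) : ℤ) * t)) := hgz.zpow_right _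
        rw [← hxz] at h1
        exact h1.eq.symm
      · rw [Subgroup.mem_centralizer_iff]
        intro w hw
        rw [Set.mem_singleton_iff] at hw
        rw [hw]
        have h1 : Commute g ((x * (y : G)) ^ ((orderOf x : ℤ) * s)) := hgz.zpow_right _
        rw [← hyz] at h1
        exact h1.eq.symm
    have h3 := Subgroup.relIndex_mul_index
      (inf_le_left : C ⊓ Subgroup.centralizer ({(y : G)} : Set G) ≤ C)
    rw [Subgroup.inf_relIndex_left, hidx] at h3
    have h4 : Subgroup.centralizer ({y} : Set C) =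
        (Subgroup.centralizer ({(y : G)} : Set G)).subgroupOf C := by
      ext g
      simp only [Subgroup.mem_centralizer_iff, Subgroup.mem_subgroupOf, Set.mem_singleton_iff,
        forall_eq]
      constructor
      · intro h; exact congrArg Subtype.val h
      · intro h; exact Subtype.ext h
    have h5 : p ∣ (Subgroup.centralizer ({(y : G)} : Set G)).relIndex C := by
      rw [h4] at hdvd; exact hdvd
    have h6 : p ^ (a + 1) ∣ (C ⊓ Subgroup.centralizer ({(y : G)} : Set G)).index := by
      rw [← h3, pow_succ, mul_comm (p ^ a) p]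
      exact Nat.mul_dvd_mul_right h5 _
    exact hmax (x * (y : G)) (Dvd.dvd.trans h6 (Subgroup.index_dvd_of_le hle))
  -- Step 2: Camina's lemma in C
  obtain ⟨P₁⟩ : Nonempty (Sylow p C) := inferInstance
  obtain ⟨H', hH'mem, hH'card, hH'cent⟩ := camina p P₁ step1
  set m := (P₁ : Subgroup C).index with hm
  have hmp : ¬ p ∣ m := P₁.not_dvd_index
  have hcopm : Nat.Coprime m p := ((Nat.Prime.coprime_iff_not_dvd hp).mpr hmp).symm
  set H : Subgroup G := H'.map C.subtype with hH
  have hHmem : ∀ g : G, g ∈ H ↔ g ∈ C ∧ g ^ m = 1 := by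
    intro g
    rw [hH, Subgroup.mem_map]
    constructor
    · rintro ⟨c, hc, rfl⟩
      refine ⟨c.2, ?_⟩
      have h2 := congrArg Subtype.val ((hH'mem c).mp hc)
      simpa using h2
    · rintro ⟨hgC, hgm⟩
      exact ⟨⟨g, hgC⟩, (hH'mem _).mpr (Subtype.ext (by simpa using hgm)), rfl⟩
  -- Step 3: the normal closure of x is a p-group
  have hxp : IsPGroup p (Subgroup.zpowers x) := by
    apply IsPGroup.of_card (n := k)
    rw [Nat.card_zpowers, hk]
  obtain ⟨P₂, hP₂⟩ := hxp.exists_le_sylow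
  have hxP₂ : x ∈ (P₂ : Subgroup G) := hP₂ (Subgroup.mem_zpowers x)
  have hcopidx : Nat.Coprime (P₂ : Subgroup G).index C.index := by
    rw [hidx]
    exact Nat.Coprime.pow_right a ((Nat.Prime.coprime_iff_not_dvd hp).mpr P₂.not_dvd_index).symm
  have hconj : ∀ g : G, g * x * g⁻¹ ∈ (P₂ : Subgroup G) := by
    intro g
    obtain ⟨u, hu, c, hc, rfl⟩ :=
      Cfsg.Agent.S4314.exists_mul_of_coprime (P₂ : Subgroup G) C hcopidx g
    have hcx : x * c = c * x := Subgroup.mem_centralizer_iff.mp hc x (Set.mem_singleton x)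
    have h1 : u * c * x * (u * c)⁻¹ = u * x * u⁻¹ := by
      rw [mul_inv_rev, mul_assoc u c x, ← hcx]; group
    rw [h1]
    exact (P₂ : Subgroup G).mul_mem ((P₂ : Subgroup G).mul_mem hu hxP₂)
      ((P₂ : Subgroup G).inv_mem hu)
  set N := Subgroup.normalClosure ({x} : Set G) with hN
  have hNle : N ≤ (P₂ : Subgroup G) := by
    show Subgroup.closure (Group.conjugatesOfSet ({x} : Set G)) ≤ _
    rw [Subgroup.closure_le]
    intro w hw
    rw [SetLike.mem_coe]
    rw [Group.mem_conjugatesOfSet_iff] at hw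
    obtain ⟨b, hb, hbw⟩ := hw
    rw [Set.mem_singleton_iff] at hb
    rw [hb, isConj_iff] at hbw
    obtain ⟨g, rfl⟩ := hbw
    exact hconj g
  have hNp : IsPGroup p N := P₂.isPGroup'.to_le hNle
  have hNnormal : N.Normal := Subgroup.normalClosure_normal
  -- Step 4: Thompson's A × B lemma
  have hHC : H ≤ C := fun g hg => ((hHmem g).mp hg).1
  have hAB : ⁅Subgroup.zpowers x, H⁆ = ⊥ := by
    rw [Subgroup.commutator_eq_bot_iff_le_centralizer, Subgroup.zpowers_le,
      Subgroup.mem_centralizer_iff]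
    intro h hh
    exact (Subgroup.mem_centralizer_iff.mp (hHC hh) x (Set.mem_singleton x)).symm
  have hB : ∀ b ∈ H, (orderOf b).Coprime p := fun b hb =>
    Nat.Coprime.coprime_dvd_left (orderOf_dvd_of_pow_eq_one ((hHmem b).mp hb).2) hcopm
  have hNC : N ⊓ Subgroup.centralizer ((Subgroup.zpowers x : Subgroup G) : Set G) ≤
      Subgroup.centralizer (H : Set G) := by
    intro n hn
    obtain ⟨hnN, hnx⟩ := hn
    have hnC : n ∈ C := by
      rw [hC, Subgroup.mem_centralizer_iff]
      intro w hw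
      rw [Set.mem_singleton_iff] at hw
      rw [hw]
      exact Subgroup.mem_centralizer_iff.mp hnx x (Subgroup.mem_zpowers x)
    have hQp : IsPGroup p (N.subgroupOf C) := hNp.comap_subtype
    have hnP₁ : (⟨n, hnC⟩ : C) ∈ (P₁ : Subgroup C) :=
      normal_le_sylow (N.subgroupOf C) hQp P₁ (show (⟨n, hnC⟩ : C) ∈ N.subgroupOf C from hnN)
    rw [Subgroup.mem_centralizer_iff]
    intro h hh
    obtain ⟨h', hh', rfl⟩ := Subgroup.mem_map.mp hh
    have h1 := Subgroup.mem_centralizer_iff.mp (hH'cent hh') ⟨n, hnC⟩ hnP₁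
    exact (congrArg Subtype.val h1).symm
  have hcomm := Cfsg.Agent.Helper10.thompson_AxB (Subgroup.zpowers x) H N hNp hxp hB hAB
    (by rw [Subgroup.normalizer_eq_top]; exact le_top)
    (by rw [Subgroup.normalizer_eq_top]; exact le_top)
    (by rw [Subgroup.commutator_eq_bot_iff_le_centralizer]; exact hNC)
  have hHE : H ≤ Subgroup.centralizer (N : Set G) := by
    rw [Subgroup.commutator_eq_bot_iff_le_centralizer] at hcomm
    exact Subgroup.le_centralizer_iff.mp hcomm
  -- Step 5: H is normal in G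
  have hEnormal : (Subgroup.centralizer (N : Set G)).Normal := inferInstance
  have hEC : Subgroup.centralizer (N : Set G) ≤ C := by
    intro g hg
    rw [hC, Subgroup.mem_centralizer_iff]
    intro w hw
    rw [Set.mem_singleton_iff] at hw
    rw [hw]
    exact Subgroup.mem_centralizer_iff.mp hg x
      (Subgroup.subset_normalClosure (Set.mem_singleton x))
  have hHnormal : H.Normal := by
    constructor
    intro h hh g
    rw [hHmem]
    refine ⟨hEC (hEnormal.conj_mem h (hHE hh) g), ?_⟩
    rw [conj_pow, ((hHmem h).mp hh).2, mul_one, mul_inv_cancel]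
  have hHcard : Nat.card H = m := by
    rw [← hH'card]
    exact (Nat.card_congr (H'.equivMapOfInjective C.subtype C.subtype_injective).toEquiv).symm
  obtain ⟨e, he⟩ := IsPGroup.iff_card.mp P₂.isPGroup'
  obtain ⟨e₁, he₁⟩ := IsPGroup.iff_card.mp P₁.isPGroup'
  have hG1 : Nat.card G = p ^ e₁ * m * p ^ a := by
    rw [← hidx, ← Subgroup.card_mul_index C, ← he₁, ← Subgroup.card_mul_index (P₁ : Subgroup C)]
  have hG2 : Nat.card G = p ^ e * (P₂ : Subgroup G).index := by
    rw [← he, Subgroup.card_mul_index]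
  have hi : ¬ p ∣ (P₂ : Subgroup G).index := P₂.not_dvd_index
  have hpe : p ^ e = p ^ (e₁ + a) := by
    apply Nat.dvd_antisymm
    · have h1 : p ^ e ∣ p ^ (e₁ + a) * m :=
        ⟨(P₂ : Subgroup G).index, by rw [← hG2, hG1]; ring⟩
      exact Nat.Coprime.dvd_of_dvd_mul_right (Nat.Coprime.pow_left e hcopm.symm) h1
    · have h1 : p ^ (e₁ + a) ∣ p ^ e * (P₂ : Subgroup G).index :=
        ⟨m, by rw [← hG2, hG1]; ring⟩
      exact Nat.Coprime.dvd_of_dvd_mul_right
        (Nat.Coprime.pow_left _ ((Nat.Prime.coprime_iff_not_dvd hp).mpr hi)) h1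
  show ∃ (P : Sylow p G) (N : Subgroup G), N.Normal ∧ N.IsComplement' (P : Subgroup G)
  refine ⟨P₂, H, hHnormal, Subgroup.isComplement'_of_coprime ?_ ?_⟩
  · rw [hHcard, he, hpe, hG1]; ring
  · rw [hHcard, he]; exact Nat.Coprime.pow_right e hcopm

end Cfsg.Agent.S4127
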