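import Cfsg.Statements.S4142

set_option autoImplicit false
open Cfsg

namespace Cfsg.Agent.S4142

theorem card_mul_relIndex {G : Type*} [Group G] (A B : Subgroup G) :
    Nat.card (A ⊓ B : Subgroup G) * A.relIndex B = Nat.card B := by
  rw [← Subgroup.inf_relIndex_right, Subgroup.relIndex, ← Subgroup.card_mul_index ((A ⊓ B).subgroupOf B)]
  congr 1
  exact Nat.card_congr (Subgroup.subgroupOfEquivOfLe inf_le_right).toEquiv.symm

/-- the preimage `D` of the centralizer of `gN` -/
def preC {G : Type*} [Group G] (N : Subgroup G) [N.Normal] (g : G) : Subgroup G :=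
  (Subgroup.centralizer ({(QuotientGroup.mk g : G ⧸ N)} : Set (G ⧸ N))).comap (QuotientGroup.mk' N)

theorem mem_preC {G : Type*} [Group G] (N : Subgroup G) [N.Normal] (g x : G) :
    x ∈ preC N g ↔ g⁻¹ * (x * g * x⁻¹) ∈ N := by
  rw [preC, Subgroup.mem_comap, Subgroup.mem_centralizer_iff]
  simp only [Set.mem_singleton_iff, forall_eq, QuotientGroup.mk'_apply]
  rw [← QuotientGroup.mk_mul, ← QuotientGroup.mk_mul, QuotientGroup.eq]
  have e1 : (g * x)⁻¹ * (x * g) = x⁻¹ * (g⁻¹ * (x * g)) := by group
  have e2 : g⁻¹ * (x * g * x⁻¹) = (g⁻¹ * (x * g)) * x⁻¹ := by group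
  rw [e1, e2]
  exact Subgroup.Normal.mem_comm_iff inferInstance

theorem card_preC {G : Type*} [Group G] [Finite G] (N : Subgroup G) [N.Normal] (g : G) :
    Nat.card (preC N g) = Nat.card N *
      Nat.card (Subgroup.centralizer ({(QuotientGroup.mk g : G ⧸ N)} : Set (G ⧸ N))) := by
  set Z := Subgroup.centralizer ({(QuotientGroup.mk g : G ⧸ N)} : Set (G ⧸ N)) with hZ
  have h1 : (preC N g).index = Z.index :=
    Subgroup.index_comap_of_surjective Z (QuotientGroup.mk'_surjective N)
  have h2 := Subgroup.card_mul_index (preC N g)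
  have h3 := Subgroup.card_mul_index Z
  have h4 := Subgroup.card_mul_index N
  rw [Subgroup.index_eq_card N] at h4
  have hpos : 0 < Z.index := Nat.pos_of_ne_zero Subgroup.index_ne_zero_of_finite
  apply Nat.eq_of_mul_eq_mul_right hpos
  rw [h1] at h2
  rw [h2, mul_assoc, h3, h4]

theorem key {G : Type*} [Group G] [Finite G] (N : Subgroup G) [N.Normal] (g : G) :
    (∀ n ∈ N, ∃ x : G, x * g * x⁻¹ = g * n) ↔
      Nat.card (Subgroup.centralizer ({g} : Set G)) =
        Nat.card (Subgroup.centralizer ({(QuotientGroup.mk g : G ⧸ N)} : Set (G ⧸ N))) := by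
  classical
  set D := preC N g with hD
  set C := Subgroup.centralizer ({g} : Set G) with hC
  set Z := Subgroup.centralizer ({(QuotientGroup.mk g : G ⧸ N)} : Set (G ⧸ N)) with hZ
  let act : MulAction D G := MulAction.compHom G ((MulAut.conj : G →* MulAut G).comp D.subtype)
  have hsm : ∀ (d : D) (y : G), d • y = (d : G) * y * (d : G)⁻¹ := fun d y => rfl
  have hCD : C ≤ D := by
    intro x hx
    rw [hD, mem_preC]
    rw [hC, Subgroup.mem_centralizer_iff] at hx
    have := hx g rfl
    have e : g⁻¹ * (x * g * x⁻¹) = 1 := by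
      rw [← this]; group
    rw [e]; exact N.one_mem
  have hstab : MulAction.stabilizer D g = C.subgroupOf D := by
    ext d
    rw [MulAction.mem_stabilizer_iff, Subgroup.mem_subgroupOf, hC, Subgroup.mem_centralizer_iff, hsm]
    simp only [Set.mem_singleton_iff, forall_eq]
    constructor
    · intro h
      calc g * (d : G) = ((d : G) * g * (d : G)⁻¹) * d := by rw [h]
        _ = d * g := by group
    · intro h
      calc (d : G) * g * (d : G)⁻¹ = (g * d) * (d : G)⁻¹ := by rw [h]
        _ = g := by group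
  -- orbit-stabilizer
  have horb : (MulAction.orbit D g).ncard * Nat.card C = Nat.card N * Nat.card Z := by
    rw [← MulAction.index_stabilizer, hstab, ← Subgroup.relIndex, ← card_preC N g, ← hD]
    have := card_mul_relIndex C D
    rw [inf_of_le_left hCD] at this
    rw [mul_comm]; exact this
  -- the coset gN
  set S : Set G := (fun n : G => g * n) '' (N : Set G) with hS
  have hScard : S.ncard = Nat.card N := by
    rw [hS, Set.ncard_image_of_injective _ (mul_right_injective g)]
    exact (Nat.card_coe_set_eq (N : Set G)).symm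
  have hSfin : S.Finite := Set.toFinite S
  have hsub : MulAction.orbit D g ⊆ S := by
    rintro y ⟨d, rfl⟩
    refine ⟨g⁻¹ * ((d : G) * g * (d : G)⁻¹), (mem_preC N g d).mp d.2, ?_⟩
    change g * (g⁻¹ * ((d : G) * g * (d : G)⁻¹)) = d • g
    rw [hsm]; group
  have hcam : (∀ n ∈ N, ∃ x : G, x * g * x⁻¹ = g * n) ↔ S ⊆ MulAction.orbit D g := by
    constructor
    · rintro h y ⟨n, hn, rfl⟩
      obtain ⟨x, hx⟩ := h n hn
      have hxD : x ∈ D := by
        rw [hD, mem_preC, hx]
        simpa using hn
      exact ⟨⟨x, hxD⟩, hx⟩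
    · intro h n hn
      obtain ⟨d, hd⟩ := h ⟨n, hn, rfl⟩
      exact ⟨d, hd⟩
  have hNpos : 0 < Nat.card N := Nat.card_pos
  have hCpos : 0 < Nat.card C := Nat.card_pos
  rw [hcam]
  constructor
  · intro h
    have heq : MulAction.orbit D g = S := Set.Subset.antisymm hsub h
    rw [heq, hScard] at horb
    exact Nat.eq_of_mul_eq_mul_left hNpos horb
  · intro h
    rw [← h] at horb
    have h2 : (MulAction.orbit D g).ncard = Nat.card N := Nat.eq_of_mul_eq_mul_right hCpos horb
    have heq : MulAction.orbit D g = S :=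
      Set.eq_of_subset_of_ncard_le hsub (by rw [hScard, h2]) hSfin
    rw [heq]

theorem result {G : Type*} [Group G] [Finite G] (N : Subgroup G) [N.Normal] :
    (∀ g : G, g ∉ N → ∀ n ∈ N, ∃ x : G, x * g * x⁻¹ = g * n) ↔
      ∀ g : G, g ∉ N → Nat.card (Subgroup.centralizer ({g} : Set G)) =
        Nat.card (Subgroup.centralizer ({(QuotientGroup.mk g : G ⧸ N)} : Set (G ⧸ N))) := by
  constructor
  · intro h g hg
    exact (key N g).mp (h g hg)
  · intro h g hg
    exact (key N g).mpr (h g hg)

end Cfsg.Agent.S4142
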