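import Mathlib
import Cfsg.Statements.S4145

set_option autoImplicit false
open Cfsg

namespace Cfsg.Agent.S4145

/-- two nontrivial subgroups of a cyclic `p`-group meet nontrivially -/
theorem inf_ne_bot_of_cyclic {P : Type*} [Group P] [Finite P] [IsCyclic P] {p : ℕ}
    [Fact p.Prime] (hP : IsPGroup p P) (A B : Subgroup P) (hA : A ≠ ⊥) (hB : B ≠ ⊥) :
    A ⊓ B ≠ ⊥ := by
  classical
  have hp : p.Prime := Fact.out
  have key : ∀ C : Subgroup P, C ≠ ⊥ → ∃ c ∈ C, orderOf c = p := by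
    intro C hC
    obtain ⟨c, hc⟩ := Subgroup.ne_bot_iff_exists_ne_one.1 hC
    obtain ⟨c₀, hc₀, hc₀1⟩ : ∃ c₀ : P, c₀ ∈ C ∧ c₀ ≠ 1 :=
      ⟨c.1, c.2, fun h => hc (Subtype.ext h)⟩
    obtain ⟨j, hj⟩ := hP c₀
    have hdvd : orderOf c₀ ∣ p ^ j := orderOf_dvd_of_pow_eq_one hj
    obtain ⟨i, hi, hio⟩ := (Nat.dvd_prime_pow hp).1 hdvd
    have hi0 : i ≠ 0 := by
      intro h0
      rw [h0, pow_zero, orderOf_eq_one_iff] at hio
      exact hc₀1 hio
    have hpd : p ∣ orderOf c₀ := by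
      rw [hio]
      exact dvd_pow_self p hi0
    refine ⟨c₀ ^ (orderOf c₀ / p), C.pow_mem hc₀ _, ?_⟩
    exact orderOf_pow_orderOf_div (orderOf_pos c₀).ne' hpd
  obtain ⟨a, haA, hao⟩ := key A hA
  obtain ⟨b, hbB, hbo⟩ := key B hB
  have hsub : ((Subgroup.zpowers a : Subgroup P) : Set P) ⊆ {x : P | x ^ p = 1} := by
    intro x hx
    obtain ⟨i, rfl⟩ := Subgroup.mem_zpowers_iff.1 hx
    show (a ^ i) ^ p = 1
    rw [← zpow_natCast, ← zpow_mul, mul_comm, zpow_mul, zpow_natCast, ← hao, pow_orderOf_eq_one,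
      one_zpow]
  have : Fintype P := Fintype.ofFinite P
  have hcard : ({x : P | x ^ p = 1} : Set P).ncard ≤ ((Subgroup.zpowers a : Subgroup P) : Set P).ncard := by
    have h1 : ((Subgroup.zpowers a : Subgroup P) : Set P).ncard = p := by
      rw [← hao, ← Nat.card_zpowers]
      rfl
    rw [h1]
    have h2 := IsCyclic.card_pow_eq_one_le (α := P) hp.pos
    have h3 : ({x : P | x ^ p = 1} : Set P).ncard
        = (Finset.univ.filter (fun x : P => x ^ p = 1)).card := by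
      rw [← Set.ncard_coe_finset]
      congr 1
      ext x
      simp
    rw [h3]
    exact h2
  have heq := Set.eq_of_subset_of_ncard_le hsub hcard (Set.toFinite _)
  have hb : b ∈ Subgroup.zpowers a := by
    have : b ∈ ({x : P | x ^ p = 1} : Set P) := by
      show b ^ p = 1
      rw [← hbo, pow_orderOf_eq_one]
    rw [← heq] at this
    exact this
  have hbA : b ∈ A := (Subgroup.zpowers_le.2 haA) hb
  intro hbot
  have : b ∈ A ⊓ B := ⟨hbA, hbB⟩
  rw [hbot, Subgroup.mem_bot] at this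
  rw [this, orderOf_one] at hbo
  exact hp.one_lt.ne hbo

/-- a coprime automorphism (induced by `t`) of a cyclic `p`-group is trivial or
fixed-point-free -/
theorem cyc_dich {G : Type*} [Group G] [Finite G] {p : ℕ} [Fact p.Prime] (P : Subgroup G)
    (hcyc : IsCyclic P) (hpP : IsPGroup p P) (t : G) (ht : ∀ z ∈ P, t * z * t⁻¹ ∈ P)
    (k : ℕ) (hk : k.Coprime p) (htk : ∀ z ∈ P, t ^ k * z * (t ^ k)⁻¹ = z) :
    (∀ z ∈ P, t * z * t⁻¹ = z) ∨
      ((∀ z ∈ P, t * z * t⁻¹ = z → z = 1) ∧ ∀ w ∈ P, ∃ z ∈ P, t * z * t⁻¹ * z⁻¹ = w) := by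
  have hp : p.Prime := Fact.out
  have hcomm : ∀ a ∈ P, ∀ b ∈ P, a * b = b * a := by
    intro a ha b hb
    have hc : IsMulCommutative P := IsCyclic.isMulCommutative
    exact congrArg Subtype.val (hc.is_comm.comm (⟨a, ha⟩ : P) ⟨b, hb⟩)
  let β : P →* P :=
    { toFun := fun z => ⟨t * z.1 * t⁻¹ * z.1⁻¹, P.mul_mem (ht z.1 z.2) (P.inv_mem z.2)⟩
      map_one' := by
        ext
        simp
      map_mul' := fun z z' => by
        ext
        show t * (z.1 * z'.1) * t⁻¹ * (z.1 * z'.1)⁻¹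
          = (t * z.1 * t⁻¹ * z.1⁻¹) * (t * z'.1 * t⁻¹ * z'.1⁻¹)
        have h1 := hcomm z.1⁻¹ (P.inv_mem z.2) (t * z'.1 * t⁻¹ * z'.1⁻¹)
          (P.mul_mem (ht z'.1 z'.2) (P.inv_mem z'.2))
        calc t * (z.1 * z'.1) * t⁻¹ * (z.1 * z'.1)⁻¹
            = (t * z.1 * t⁻¹) * ((t * z'.1 * t⁻¹ * z'.1⁻¹) * z.1⁻¹) := by group
          _ = (t * z.1 * t⁻¹) * (z.1⁻¹ * (t * z'.1 * t⁻¹ * z'.1⁻¹)) := by rw [h1]
          _ = _ := by group }
  have hstep1 : ∀ z ∈ P, t * z * t⁻¹ = z → (∃ u ∈ P, t * u * t⁻¹ * u⁻¹ = z) → z = 1 := by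
    intro z hz hfix ⟨u, hu, huz⟩
    have h1 : t * u * t⁻¹ = z * u := by
      rw [← huz]
      group
    have h2 : ∀ i : ℕ, t ^ i * u * (t ^ i)⁻¹ = z ^ i * u := by
      intro i
      induction i with
      | zero => simp
      | succ i ih =>
        have h3 : t * z ^ i * t⁻¹ = z ^ i := by
          have := conj_pow (i := i) (a := t) (b := z)
          rw [← this, hfix]
        calc t ^ (i + 1) * u * (t ^ (i + 1))⁻¹ = t * (t ^ i * u * (t ^ i)⁻¹) * t⁻¹ := by
              rw [pow_succ']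
              group
          _ = t * (z ^ i * u) * t⁻¹ := by rw [ih]
          _ = (t * z ^ i * t⁻¹) * (t * u * t⁻¹) := by group
          _ = z ^ i * (z * u) := by rw [h3, h1]
          _ = z ^ (i + 1) * u := by
              rw [pow_succ]
              group
    have h4 := h2 k
    rw [htk u hu] at h4
    have h5 : z ^ k = 1 := by
      have : z ^ k * u = 1 * u := by
        rw [one_mul]
        exact h4.symm
      exact mul_right_cancel this
    obtain ⟨j, hj⟩ := hpP ⟨z, hz⟩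
    have hj' : z ^ p ^ j = 1 := congrArg Subtype.val hj
    have hd1 : orderOf z ∣ k := orderOf_dvd_of_pow_eq_one h5
    have hd2 : orderOf z ∣ p ^ j := orderOf_dvd_of_pow_eq_one hj'
    have hcop : (k).Coprime (p ^ j) := Nat.Coprime.pow_right j hk
    have : orderOf z = 1 := Nat.eq_one_of_dvd_coprimes hcop hd1 hd2
    exact orderOf_eq_one_iff.1 this
  by_cases hker : ∀ z ∈ P, t * z * t⁻¹ = z → z = 1
  · right
    refine ⟨hker, ?_⟩
    have hinj : Function.Injective β := by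
      rw [injective_iff_map_eq_one]
      intro z hz
      have h1 : t * z.1 * t⁻¹ * z.1⁻¹ = 1 := congrArg Subtype.val hz
      have h2 : t * z.1 * t⁻¹ = z.1 := by
        calc t * z.1 * t⁻¹ = (t * z.1 * t⁻¹ * z.1⁻¹) * z.1 := by group
          _ = z.1 := by rw [h1, one_mul]
      exact Subtype.ext (hker z.1 z.2 h2)
    have hsurj : Function.Surjective β := Finite.injective_iff_surjective.1 hinj
    intro w hw
    obtain ⟨z, hz⟩ := hsurj ⟨w, hw⟩
    exact ⟨z.1, z.2, congrArg Subtype.val hz⟩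
  · left
    push Not at hker
    obtain ⟨z₁, hz₁, hfix₁, hne₁⟩ := hker
    by_contra hcon
    push Not at hcon
    obtain ⟨u, hu, hune⟩ := hcon
    have hA : β.ker ≠ ⊥ := by
      intro h
      have : (⟨z₁, hz₁⟩ : P) ∈ β.ker := by
        rw [MonoidHom.mem_ker]
        apply Subtype.ext
        show t * z₁ * t⁻¹ * z₁⁻¹ = 1
        rw [hfix₁, mul_inv_cancel]
      rw [h, Subgroup.mem_bot] at this
      exact hne₁ (congrArg Subtype.val this)
    have hB : β.range ≠ ⊥ := by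
      intro h
      have : β ⟨u, hu⟩ ∈ β.range := ⟨_, rfl⟩
      rw [h, Subgroup.mem_bot] at this
      have h1 : t * u * t⁻¹ * u⁻¹ = 1 := congrArg Subtype.val this
      apply hune
      calc t * u * t⁻¹ = (t * u * t⁻¹ * u⁻¹) * u := by group
        _ = u := by rw [h1, one_mul]
    have hAB := inf_ne_bot_of_cyclic hpP β.ker β.range hA hB
    apply hAB
    rw [eq_bot_iff]
    rintro z ⟨hz1, ⟨u', hu'⟩⟩
    rw [Subgroup.mem_bot]
    apply Subtype.ext
    have hz1' : β z = 1 := hz1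
    have h1 : t * z.1 * t⁻¹ * z.1⁻¹ = 1 := congrArg Subtype.val hz1'
    have h2 : t * z.1 * t⁻¹ = z.1 := by
      calc t * z.1 * t⁻¹ = (t * z.1 * t⁻¹ * z.1⁻¹) * z.1 := by group
        _ = z.1 := by rw [h1, one_mul]
    exact hstep1 z.1 z.2 h2 ⟨u'.1, u'.2, congrArg Subtype.val hu'⟩

open Pointwise

theorem cent_subgroupOf_normal {G : Type*} [Group G] (K : Subgroup G) :
    ((Subgroup.centralizer (K : Set G)).subgroupOf (Subgroup.normalizer (K : Set G))).Normal := by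
  constructor
  intro c hc g
  rw [Subgroup.mem_subgroupOf] at hc ⊢
  rw [Subgroup.mem_centralizer_iff] at hc ⊢
  intro z hz
  have hg : (g : G) ∈ Subgroup.normalizer (K : Set G) := g.2
  rw [Subgroup.mem_normalizer_iff] at hg
  have hz' : (g : G)⁻¹ * z * (g : G) ∈ K := by
    apply (hg _).2
    have : (g : G) * ((g : G)⁻¹ * z * (g : G)) * (g : G)⁻¹ = z := by group
    show (g : G) * ((g : G)⁻¹ * z * (g : G)) * (g : G)⁻¹ ∈ K
    rw [this]
    exact hz
  have h1 := hc _ hz'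
  show z * ((g : G) * (c : G) * (g : G)⁻¹) = (g : G) * (c : G) * (g : G)⁻¹ * z
  calc z * ((g : G) * (c : G) * (g : G)⁻¹)
      = (g : G) * (((g : G)⁻¹ * z * (g : G)) * (c : G)) * (g : G)⁻¹ := by group
    _ = (g : G) * ((c : G) * ((g : G)⁻¹ * z * (g : G))) * (g : G)⁻¹ := by rw [h1]
    _ = (g : G) * (c : G) * (g : G)⁻¹ * z := by group

/-- a power of `t ∈ N_G(P)` prime to `p` centralizes an abelian Sylow subgroup `P` -/
theorem exists_pow_centralize {G : Type*} [Group G] [Finite G] {p : ℕ} [Fact p.Prime]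
    (P : Sylow p G) (hcomm : ∀ a ∈ P, ∀ b ∈ P, a * b = b * a) (t : G)
    (ht : t ∈ Subgroup.normalizer ((P : Subgroup G) : Set G)) :
    ∃ k : ℕ, k.Coprime p ∧ ∀ z ∈ P, t ^ k * z * (t ^ k)⁻¹ = z := by
  have hp : p.Prime := Fact.out
  have hPC : (P : Subgroup G) ≤ Subgroup.centralizer ((P : Subgroup G) : Set G) := by
    intro a ha
    rw [Subgroup.mem_centralizer_iff]
    intro b hb
    exact hcomm b hb a ha
  have hCn := cent_subgroupOf_normal (P : Subgroup G)
  obtain ⟨k, hkdef⟩ : ∃ k : ℕ, k = ((Subgroup.centralizer ((P : Subgroup G) : Set G)).subgroupOf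
      (Subgroup.normalizer ((P : Subgroup G) : Set G))).index := ⟨_, rfl⟩
  refine ⟨k, ?_, ?_⟩
  · have h1 : (Subgroup.centralizer ((P : Subgroup G) : Set G)).relIndex
        (Subgroup.normalizer ((P : Subgroup G) : Set G))
        ∣ (P : Subgroup G).relIndex (Subgroup.normalizer ((P : Subgroup G) : Set G)) :=
      Subgroup.relIndex_dvd_of_le_left _ hPC
    have h2 : (P : Subgroup G).relIndex (Subgroup.normalizer ((P : Subgroup G) : Set G))
        ∣ (P : Subgroup G).index :=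
      Subgroup.relIndex_dvd_index_of_le Subgroup.le_normalizer
    have h3 : ¬ p ∣ (P : Subgroup G).index := P.not_dvd_index
    have h4 : ¬ p ∣ k := by
      rw [hkdef]
      exact fun h => h3 (dvd_trans h (dvd_trans h1 h2))
    exact ((Nat.Prime.coprime_iff_not_dvd hp).2 h4).symm
  · intro z hz
    have h1 := Subgroup.pow_index_mem ((Subgroup.centralizer ((P : Subgroup G) : Set G)).subgroupOf
      (Subgroup.normalizer ((P : Subgroup G) : Set G)))
      (⟨t, ht⟩ : Subgroup.normalizer ((P : Subgroup G) : Set G))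
    rw [← hkdef, Subgroup.mem_subgroupOf] at h1
    have h2 : t ^ k ∈ Subgroup.centralizer ((P : Subgroup G) : Set G) := h1
    rw [Subgroup.mem_centralizer_iff] at h2
    have h3 := h2 z hz
    calc t ^ k * z * (t ^ k)⁻¹ = (z * t ^ k) * (t ^ k)⁻¹ := by rw [h3]
      _ = z := by group

/-- the dichotomy for elements normalizing a cyclic Sylow subgroup -/
theorem sylow_dich {G : Type*} [Group G] [Finite G] {p : ℕ} [Fact p.Prime]
    (P : Sylow p G) (hcyc : IsCyclic (P : Subgroup G)) (t : G)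
    (ht : ∀ z ∈ P, t * z * t⁻¹ ∈ P) :
    (∀ z ∈ P, t * z * t⁻¹ = z) ∨
      ((∀ z ∈ P, t * z * t⁻¹ = z → z = 1) ∧ ∀ w ∈ P, ∃ z ∈ P, t * z * t⁻¹ * z⁻¹ = w) := by
  have hcomm : ∀ a ∈ P, ∀ b ∈ P, a * b = b * a := by
    intro a ha b hb
    have hc : IsMulCommutative (P : Subgroup G) := IsCyclic.isMulCommutative
    exact congrArg Subtype.val (hc.is_comm.comm (⟨a, ha⟩ : (P : Subgroup G)) ⟨b, hb⟩)
  have htN : t ∈ Subgroup.normalizer ((P : Subgroup G) : Set G) :=
    Subgroup.mem_normalizer_fintype (fun n hn => ht n hn)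
  obtain ⟨k, hk, hkc⟩ := exists_pow_centralize P hcomm t htN
  exact cyc_dich (P : Subgroup G) hcyc P.2 t ht k hk hkc

/-- the normalizer of a Sylow subgroup of `H` lies in its centralizer -/
theorem part1 {G : Type*} [Group G] [Finite G] (p : ℕ) [Fact p.Prime]
    (P : Sylow p G) (hP : IsCyclic (P : Subgroup G)) (H : Subgroup G) [H.Normal]
    (hPH : ¬ (P : Subgroup G) ≤ H) (Q₀ : Sylow p H)
    (hQP : (Q₀ : Subgroup H).map H.subtype ≤ P) :
    Subgroup.normalizer ((Q₀ : Subgroup H) : Set H)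
      ≤ Subgroup.centralizer ((Q₀ : Subgroup H) : Set H) := by
  have hHn : ∀ a ∈ H, ∀ g : G, g * a * g⁻¹ ∈ H := fun a ha g =>
    (inferInstance : H.Normal).conj_mem a ha g
  have hcomm : ∀ a ∈ P, ∀ b ∈ P, a * b = b * a := by
    intro a ha b hb
    have hc : IsMulCommutative (P : Subgroup G) := IsCyclic.isMulCommutative
    exact congrArg Subtype.val (hc.is_comm.comm (⟨a, ha⟩ : (P : Subgroup G)) ⟨b, hb⟩)
  intro y hy
  set Q := (Q₀ : Subgroup H).map H.subtype with hQ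
  have hyQ : ∀ q ∈ Q, (y : G)⁻¹ * q * (y : G) ∈ Q := by
    intro q hq
    obtain ⟨q', hq', rfl⟩ := hq
    rw [Subgroup.mem_normalizer_iff] at hy
    have h1 : y⁻¹ * q' * y ∈ (Q₀ : Subgroup H) := by
      apply (hy _).2
      have : y * (y⁻¹ * q' * y) * y⁻¹ = q' := by group
      show y * (y⁻¹ * q' * y) * y⁻¹ ∈ (Q₀ : Subgroup H)
      rw [this]
      exact hq'
    exact ⟨y⁻¹ * q' * y, h1, rfl⟩
  obtain ⟨D, hD⟩ : ∃ D : Subgroup G,
      D = Subgroup.centralizer (Q : Set G) ⊓ (H ⊔ (P : Subgroup G)) := ⟨_, rfl⟩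
  have hPD : (P : Subgroup G) ≤ D := by
    rw [hD]
    apply le_inf _ le_sup_right
    intro a ha
    rw [Subgroup.mem_centralizer_iff]
    intro b hb
    exact hcomm b (hQP hb) a ha
  have hPyD : (((y : G) • P : Sylow p G) : Subgroup G) ≤ D := by
    intro x hx
    rw [Sylow.coe_subgroup_smul, Subgroup.mem_pointwise_smul_iff_inv_smul_mem] at hx
    have hx' : (y : G)⁻¹ * x * (y : G) ∈ (P : Subgroup G) := by
      simpa [MulAut.smul_def] using hx
    have hxe : x = (y : G) * ((y : G)⁻¹ * x * (y : G)) * (y : G)⁻¹ := by group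
    rw [hD, Subgroup.mem_inf]
    refine ⟨?_, ?_⟩
    · rw [Subgroup.mem_centralizer_iff]
      intro q hq
      have h1 := hcomm _ (hQP (hyQ q hq)) _ hx'
      calc q * x = (y : G) * (((y : G)⁻¹ * q * (y : G)) * ((y : G)⁻¹ * x * (y : G))) * (y : G)⁻¹ := by
            group
        _ = (y : G) * (((y : G)⁻¹ * x * (y : G)) * ((y : G)⁻¹ * q * (y : G))) * (y : G)⁻¹ := by
            rw [h1]
        _ = x * q := by group
    · rw [hxe]
      exact Subgroup.mul_mem _ (Subgroup.mul_mem _ (Subgroup.mem_sup_left y.2)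
        (Subgroup.mem_sup_right hx')) (Subgroup.inv_mem _ (Subgroup.mem_sup_left y.2))
  obtain ⟨d, hd⟩ := MulAction.exists_smul_eq D (((y : G) • P : Sylow p G).subtype hPyD)
    (P.subtype hPD)
  -- `t = d y` normalizes `P`
  have htP : ∀ z ∈ P, ((d : G) * (y : G)) * z * ((d : G) * (y : G))⁻¹ ∈ P := by
    intro z hz
    have hz1 : (y : G) * z * (y : G)⁻¹ ∈ (((y : G) • P : Sylow p G) : Subgroup G) := by
      rw [Sylow.coe_subgroup_smul, Subgroup.mem_pointwise_smul_iff_inv_smul_mem]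
      have he : (MulAut.conj (y : G))⁻¹ • ((y : G) * z * (y : G)⁻¹) = z := by
        simp [MulAut.smul_def, mul_assoc]
      rw [he]
      exact hz
    have hz2 : (⟨(y : G) * z * (y : G)⁻¹, hPyD hz1⟩ : D)
        ∈ ((((y : G) • P : Sylow p G).subtype hPyD : Sylow p D) : Subgroup D) := by
      rw [Sylow.coe_subtype, Subgroup.mem_subgroupOf]
      exact hz1
    have hz3 : d * (⟨(y : G) * z * (y : G)⁻¹, hPyD hz1⟩ : D) * d⁻¹
        ∈ ((d • ((y : G) • P : Sylow p G).subtype hPyD : Sylow p D) : Subgroup D) := by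
      rw [Sylow.coe_subgroup_smul, Subgroup.mem_pointwise_smul_iff_inv_smul_mem]
      simpa [MulAut.smul_def, mul_assoc] using hz2
    rw [hd, Sylow.coe_subtype, Subgroup.mem_subgroupOf] at hz3
    have : (d : G) * (y : G) * z * ((d : G) * (y : G))⁻¹
        = ((d * (⟨(y : G) * z * (y : G)⁻¹, hPyD hz1⟩ : D) * d⁻¹ : D) : G) := by
      simp [mul_assoc]
    rw [this]
    exact hz3
  have hd2 : (d : G) ∈ Subgroup.centralizer (Q : Set G) ⊓ (H ⊔ (P : Subgroup G)) := hD.le d.2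
  have htHP : (d : G) * (y : G) ∈ ((H ⊔ (P : Subgroup G) : Subgroup G) : Set G) :=
    Subgroup.mul_mem _ (Subgroup.mem_inf.1 hd2).2 (Subgroup.mem_sup_left y.2)
  rw [Subgroup.normal_mul] at htHP
  obtain ⟨h, hh, z₀, hz₀, hhz⟩ := htHP
  have hh' : h ∈ H := hh
  have hz₀' : z₀ ∈ (P : Subgroup G) := hz₀
  have hhz' : h * z₀ = (d : G) * (y : G) := hhz
  have hhe : h = (d : G) * (y : G) * z₀⁻¹ := by
    rw [← hhz']
    group
  have hhP : ∀ z ∈ P, h * z * h⁻¹ ∈ P := by
    intro z hz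
    have h1 := htP (z₀⁻¹ * z * z₀) (P.mul_mem (P.mul_mem (P.inv_mem hz₀') hz) hz₀')
    have h2 : h * z * h⁻¹ = (d : G) * (y : G) * (z₀⁻¹ * z * z₀) * ((d : G) * (y : G))⁻¹ := by
      rw [hhe]
      group
    rw [h2]
    exact h1
  have hhc : ∀ z ∈ P, h * z * h⁻¹ = z := by
    rcases sylow_dich P hP h hhP with h1 | ⟨_, h2⟩
    · exact h1
    · exfalso
      apply hPH
      intro w hw
      obtain ⟨z, hz, rfl⟩ := h2 w hw
      have h3 : h * z * h⁻¹ * z⁻¹ = h * (z * h⁻¹ * z⁻¹) := by group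
      rw [h3]
      exact H.mul_mem hh' (hHn _ (H.inv_mem hh') z)
  rw [Subgroup.mem_centralizer_iff]
  intro q hq
  apply Subtype.ext
  have hqQ : (q : G) ∈ Q := ⟨q, hq, rfl⟩
  have hqP : (q : G) ∈ (P : Subgroup G) := hQP hqQ
  have hdq : (q : G) * (d : G) = (d : G) * (q : G) := by
    have hd3 : (d : G) ∈ Subgroup.centralizer (Q : Set G) := (Subgroup.mem_inf.1 hd2).1
    rw [Subgroup.mem_centralizer_iff] at hd3
    exact hd3 _ hqQ
  have htq : (d : G) * (y : G) * (q : G) * ((d : G) * (y : G))⁻¹ = (q : G) := by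
    rw [← hhz']
    have h1 := hhc _ hqP
    have h2 := hcomm z₀ hz₀' _ hqP
    calc h * z₀ * (q : G) * (h * z₀)⁻¹ = h * (z₀ * (q : G)) * z₀⁻¹ * h⁻¹ := by group
      _ = h * ((q : G) * z₀) * z₀⁻¹ * h⁻¹ := by rw [h2]
      _ = h * (q : G) * h⁻¹ := by group
      _ = (q : G) := h1
  show (q : G) * (y : G) = (y : G) * (q : G)
  have h5 : (y : G) * (q : G) * (y : G)⁻¹ = (q : G) := by
    calc (y : G) * (q : G) * (y : G)⁻¹
        = (d : G)⁻¹ * ((d : G) * (y : G) * (q : G) * ((d : G) * (y : G))⁻¹) * (d : G) := by group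
      _ = (d : G)⁻¹ * (q : G) * (d : G) := by rw [htq]
      _ = (d : G)⁻¹ * ((q : G) * (d : G)) := by group
      _ = (d : G)⁻¹ * ((d : G) * (q : G)) := by rw [hdq]
      _ = (q : G) := by group
  calc (q : G) * (y : G) = ((y : G) * (q : G) * (y : G)⁻¹) * (y : G) := by rw [h5]
    _ = (y : G) * (q : G) := by group

/-- a normal complement to a Sylow `p`-subgroup consists of the elements of order prime to `p` -/
theorem mem_compl_iff {H : Type*} [Group H] [Finite H] {p : ℕ} [Fact p.Prime] (Q₀ : Sylow p H)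
    (N : Subgroup H) [N.Normal] (hc : N.IsComplement' (Q₀ : Subgroup H)) (x : H) :
    x ∈ N ↔ (orderOf x).Coprime p := by
  have hp : p.Prime := Fact.out
  constructor
  · intro hx
    have h1 : (Q₀ : Subgroup H).index = Nat.card N := hc.index_eq_card
    have h2 : ¬ p ∣ Nat.card N := by
      rw [← h1]
      exact Q₀.not_dvd_index
    have h3 : orderOf x ∣ Nat.card N := by
      have := orderOf_dvd_natCard (⟨x, hx⟩ : N)
      rwa [Subgroup.orderOf_mk] at this
    have h4 : ¬ p ∣ orderOf x := fun h => h2 (dvd_trans h h3)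
    exact ((Nat.Prime.coprime_iff_not_dvd hp).2 h4).symm
  · intro hx
    have h1 : N.index = Nat.card (Q₀ : Subgroup H) := hc.symm.index_eq_card
    obtain ⟨a, ha⟩ := IsPGroup.iff_card.1 Q₀.2
    have h2 : orderOf (QuotientGroup.mk x : H ⧸ N) ∣ orderOf x := by
      apply orderOf_dvd_of_pow_eq_one
      rw [← QuotientGroup.mk_pow, pow_orderOf_eq_one]
      rfl
    have h3 : orderOf (QuotientGroup.mk x : H ⧸ N) ∣ p ^ a := by
      have := orderOf_dvd_natCard (QuotientGroup.mk x : H ⧸ N)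
      rwa [← Subgroup.index_eq_card, h1, ha] at this
    have h4 : orderOf (QuotientGroup.mk x : H ⧸ N) = 1 :=
      Nat.eq_one_of_dvd_coprimes (Nat.Coprime.pow_right a hx) h2 h3
    rw [orderOf_eq_one_iff] at h4
    exact (QuotientGroup.eq_one_iff x).1 h4

/-- the image in `G` of a subgroup of a normal subgroup `H` cut out by orders is normal -/
theorem compl_map_normal {G : Type*} [Group G] (H : Subgroup G) [H.Normal] {p : ℕ}
    (N : Subgroup H) (hN : ∀ x : H, x ∈ N ↔ (orderOf x).Coprime p) :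
    (N.map H.subtype).Normal := by
  constructor
  intro x hx g
  obtain ⟨n, hn, rfl⟩ := hx
  have hmem : g * (n : G) * g⁻¹ ∈ H := (inferInstance : H.Normal).conj_mem _ n.2 g
  refine ⟨⟨g * (n : G) * g⁻¹, hmem⟩, ?_, rfl⟩
  have hn : n ∈ N := hn
  show (⟨g * (n : G) * g⁻¹, hmem⟩ : H) ∈ N
  rw [hN] at hn ⊢
  have h1 : orderOf (⟨g * (n : G) * g⁻¹, hmem⟩ : H) = orderOf (g * (n : G) * g⁻¹) :=
    Subgroup.orderOf_mk _ _
  have h2 : orderOf (g * (n : G) * g⁻¹) = orderOf (n : G) := by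
    have := MulEquiv.orderOf_eq (MulAut.conj g) (n : G)
    simpa [MulAut.conj_apply] using this
  have h3 : orderOf (n : G) = orderOf n := Subgroup.orderOf_coe n
  rw [h1, h2, h3]
  exact hn

theorem part2 {G : Type*} [Group G] [Finite G] (p : ℕ) [Fact p.Prime]
    (P : Sylow p G) (hP : IsCyclic (P : Subgroup G)) (H : Subgroup G) [H.Normal]
    (Q₀ : Sylow p H) (hQP : (Q₀ : Subgroup H).map H.subtype ≤ P)
    (hQ₀ : (Q₀ : Subgroup H) ≠ ⊥)
    (N : Subgroup H) [N.Normal] (hc : N.IsComplement' (Q₀ : Subgroup H)) :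
    Cfsg.IsPSolvable p G := by
  have hp : p.Prime := Fact.out
  have hHn : ∀ a ∈ H, ∀ g : G, g * a * g⁻¹ ∈ H := fun a ha g =>
    (inferInstance : H.Normal).conj_mem a ha g
  have hcomm : ∀ a ∈ P, ∀ b ∈ P, a * b = b * a := by
    intro a ha b hb
    have hc : IsMulCommutative (P : Subgroup G) := IsCyclic.isMulCommutative
    exact congrArg Subtype.val (hc.is_comm.comm (⟨a, ha⟩ : (P : Subgroup G)) ⟨b, hb⟩)
  have hNiff := mem_compl_iff Q₀ N hc
  have hKn : (N.map H.subtype).Normal := compl_map_normal H N hNiff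
  obtain ⟨K, hK⟩ : ∃ K : Subgroup G, K = N.map H.subtype := ⟨_, rfl⟩
  rw [← hK] at hKn
  have hKH : K ≤ H := by
    rw [hK]
    exact Subgroup.map_subtype_le N
  have hKc : ∀ a ∈ K, ∀ g : G, g * a * g⁻¹ ∈ K := fun a ha g => hKn.conj_mem a ha g
  have hKP : ∀ x ∈ K, x ∈ P → x = 1 := by
    intro x hxK hxP
    rw [hK] at hxK
    obtain ⟨n, hn, rfl⟩ := hxK
    have h1 := (hNiff n).1 hn
    rw [← Subgroup.orderOf_coe] at h1
    obtain ⟨j, hj⟩ := P.2 ⟨(n : G), hxP⟩
    have hj' : (n : G) ^ p ^ j = 1 := congrArg Subtype.val hj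
    have h2 : orderOf (n : G) ∣ p ^ j := orderOf_dvd_of_pow_eq_one hj'
    have h3 : orderOf (n : G) = 1 :=
      Nat.eq_one_of_dvd_coprimes (Nat.Coprime.pow_right j h1) dvd_rfl h2
    exact orderOf_eq_one_iff.1 h3
  let C₁ : Subgroup G :=
    { carrier := {g | ∀ h ∈ H, g * h * g⁻¹ * h⁻¹ ∈ K}
      mul_mem' := by
        intro a b ha hb h hh
        have h1 : a * b * h * (a * b)⁻¹ * h⁻¹
            = a * (b * h * b⁻¹ * h⁻¹) * a⁻¹ * (a * h * a⁻¹ * h⁻¹) := by group
        rw [h1]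
        exact K.mul_mem (hKc _ (hb h hh) a) (ha h hh)
      one_mem' := by
        intro h hh
        simp
      inv_mem' := by
        intro a ha h hh
        have h1 : a⁻¹ * h * a⁻¹⁻¹ * h⁻¹ = a⁻¹ * (a * h * a⁻¹ * h⁻¹)⁻¹ * a⁻¹⁻¹ := by group
        rw [h1]
        exact hKc _ (K.inv_mem (ha h hh)) a⁻¹ }
  have hC₁mem : ∀ g : G, g ∈ C₁ ↔ ∀ h ∈ H, g * h * g⁻¹ * h⁻¹ ∈ K := fun g => Iff.rfl
  have hC₁n : C₁.Normal := by
    constructor
    intro a ha g
    rw [hC₁mem] at ha ⊢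
    intro h hh
    have h1 : g * a * g⁻¹ * h * (g * a * g⁻¹)⁻¹ * h⁻¹
        = g * (a * (g⁻¹ * h * g⁻¹⁻¹) * a⁻¹ * (g⁻¹ * h * g⁻¹⁻¹)⁻¹) * g⁻¹ := by group
    rw [h1]
    exact hKc _ (ha _ (hHn h hh g⁻¹)) g
  have hPC₁ : (P : Subgroup G) ≤ C₁ := by
    intro z hz
    rw [hC₁mem]
    intro h hh
    obtain ⟨⟨n, q⟩, hnq, _⟩ := Subgroup.isComplement_iff_existsUnique.1 (Subgroup.isComplement'_def.1 hc)
      (⟨h, hh⟩ : H)
    have hnq' : ((n : H) : G) * ((q : H) : G) = h := congrArg Subtype.val hnq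
    have hqP : ((q : H) : G) ∈ (P : Subgroup G) := hQP ⟨q, q.2, rfl⟩
    have hnK : ((n : H) : G) ∈ K := by
      rw [hK]
      exact ⟨n, n.2, rfl⟩
    have h1 := hcomm z hz _ hqP
    rw [← hnq']
    have h2 : z * (((n : H) : G) * ((q : H) : G)) * z⁻¹ * (((n : H) : G) * ((q : H) : G))⁻¹
        = z * ((n : H) : G) * z⁻¹ * ((z * ((q : H) : G)) * z⁻¹ * ((q : H) : G)⁻¹)
          * ((n : H) : G)⁻¹ := by group
    rw [h2, h1]
    have h3 : z * ((n : H) : G) * z⁻¹ * (((q : H) : G) * z * z⁻¹ * ((q : H) : G)⁻¹)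
        * ((n : H) : G)⁻¹ = (z * ((n : H) : G) * z⁻¹) * ((n : H) : G)⁻¹ := by group
    rw [h3]
    exact K.mul_mem (hKc _ hnK z) (K.inv_mem hnK)
  -- a nontrivial element of `Q`
  obtain ⟨y₀, hy₀⟩ := Subgroup.ne_bot_iff_exists_ne_one.1 hQ₀
  have hy₀P : ((y₀ : H) : G) ∈ (P : Subgroup G) := hQP ⟨y₀, y₀.2, rfl⟩
  have hy₀H : ((y₀ : H) : G) ∈ H := (y₀ : H).2
  have hy₀1 : ((y₀ : H) : G) ≠ 1 := by
    intro h
    apply hy₀
    apply Subtype.ext
    apply Subtype.ext
    exact h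
  have hN₁ : Subgroup.normalizer (((P.subtype hPC₁ : Sylow p C₁) : Subgroup C₁) : Set C₁)
      ≤ Subgroup.centralizer (((P.subtype hPC₁ : Sylow p C₁) : Subgroup C₁) : Set C₁) := by
    intro t ht
    have htP : ∀ z ∈ P, (t : G) * z * (t : G)⁻¹ ∈ P := by
      intro z hz
      rw [Subgroup.mem_normalizer_iff] at ht
      have h1 : (⟨z, hPC₁ hz⟩ : C₁) ∈ ((P.subtype hPC₁ : Sylow p C₁) : Subgroup C₁) := by
        rw [Sylow.coe_subtype, Subgroup.mem_subgroupOf]
        exact hz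
      have h2 := (ht _).1 h1
      have h3 : t * (⟨z, hPC₁ hz⟩ : C₁) * t⁻¹ ∈ ((P.subtype hPC₁ : Sylow p C₁) : Subgroup C₁) := h2
      rw [Sylow.coe_subtype, Subgroup.mem_subgroupOf] at h3
      exact h3
    have hfix : (t : G) * ((y₀ : H) : G) * (t : G)⁻¹ = ((y₀ : H) : G) := by
      have h1 : (t : G) * ((y₀ : H) : G) * (t : G)⁻¹ * ((y₀ : H) : G)⁻¹ ∈ K :=
        (hC₁mem _).1 t.2 _ hy₀H
      have h2 : (t : G) * ((y₀ : H) : G) * (t : G)⁻¹ * ((y₀ : H) : G)⁻¹ ∈ (P : Subgroup G) :=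
        (P : Subgroup G).mul_mem (htP _ hy₀P) ((P : Subgroup G).inv_mem hy₀P)
      have h3 := hKP _ h1 h2
      calc (t : G) * ((y₀ : H) : G) * (t : G)⁻¹
          = ((t : G) * ((y₀ : H) : G) * (t : G)⁻¹ * ((y₀ : H) : G)⁻¹) * ((y₀ : H) : G) := by group
        _ = ((y₀ : H) : G) := by rw [h3, one_mul]
    have hcen : ∀ z ∈ P, (t : G) * z * (t : G)⁻¹ = z := by
      rcases sylow_dich P hP (t : G) htP with h1 | ⟨h2, _⟩
      · exact h1
      · exact absurd (h2 _ hy₀P hfix) hy₀1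
    rw [Subgroup.mem_centralizer_iff]
    intro z hz
    rw [Sylow.coe_subtype] at hz
    have hz' : (z : G) ∈ (P : Subgroup G) := Subgroup.mem_subgroupOf.1 hz
    apply Subtype.ext
    have h1 := hcen _ hz'
    show (z : G) * (t : G) = (t : G) * (z : G)
    calc (z : G) * (t : G) = ((t : G) * (z : G) * (t : G)⁻¹) * (t : G) := by rw [h1]
      _ = (t : G) * (z : G) := by group
  have hcL := MonoidHom.ker_transferSylow_isComplement' (P.subtype hPC₁) hN₁
  obtain ⟨L₀, hL₀⟩ : ∃ L₀ : Subgroup C₁,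
      L₀ = (MonoidHom.transferSylow (P.subtype hPC₁) hN₁).ker := ⟨_, rfl⟩
  rw [← hL₀] at hcL
  have hL₀n : L₀.Normal := by
    rw [hL₀]
    infer_instance
  have hLiff := mem_compl_iff (P.subtype hPC₁) L₀ hcL
  have hLn : (L₀.map C₁.subtype).Normal := compl_map_normal C₁ L₀ hLiff
  refine ⟨3, ![⊥, L₀.map C₁.subtype, C₁, ⊤], rfl, rfl, ?_, ?_, ?_⟩
  · rw [Fin.monotone_iff_le_succ]
    intro i
    fin_cases i
    · exact bot_le
    · exact Subgroup.map_subtype_le L₀
    · exact le_top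
  · intro i
    fin_cases i
    · show (⊥ : Subgroup G).Normal
      infer_instance
    · exact hLn
    · exact hC₁n
    · show (⊤ : Subgroup G).Normal
      infer_instance
  · intro i
    fin_cases i
    · right
      show ((⊥ : Subgroup G).relIndex (L₀.map C₁.subtype)).Coprime p
      rw [Subgroup.relIndex_bot_left]
      have h1 : Nat.card (L₀.map C₁.subtype) = Nat.card L₀ :=
        (Nat.card_congr (Subgroup.equivMapOfInjective L₀ C₁.subtype
          (Subgroup.subtype_injective C₁)).toEquiv).symm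
      have h2 : ((P.subtype hPC₁ : Sylow p C₁) : Subgroup C₁).index = Nat.card L₀ :=
        hcL.index_eq_card
      have h3 : ¬ p ∣ ((P.subtype hPC₁ : Sylow p C₁) : Subgroup C₁).index :=
        (P.subtype hPC₁).not_dvd_index
      rw [h1, ← h2]
      exact ((Nat.Prime.coprime_iff_not_dvd hp).2 h3).symm
    · left
      show ∃ m : ℕ, (L₀.map C₁.subtype).relIndex C₁ = p ^ m
      have h1 : (L₀.map C₁.subtype).relIndex C₁ = L₀.index := by
        unfold Subgroup.relIndex Subgroup.subgroupOf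
        rw [Subgroup.comap_map_eq_self_of_injective (Subgroup.subtype_injective C₁)]
      have h2 : L₀.index = Nat.card ((P.subtype hPC₁ : Sylow p C₁) : Subgroup C₁) :=
        hcL.symm.index_eq_card
      obtain ⟨a, ha⟩ := IsPGroup.iff_card.1 (P.subtype hPC₁).2
      exact ⟨a, by rw [h1, h2, ha]⟩
    · right
      show (C₁.relIndex ⊤).Coprime p
      rw [Subgroup.relIndex_top_right]
      have h1 : C₁.index ∣ (P : Subgroup G).index := Subgroup.index_dvd_of_le hPC₁
      have h2 : ¬ p ∣ (P : Subgroup G).index := P.not_dvd_index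
      have h3 : ¬ p ∣ C₁.index := fun h => h2 (dvd_trans h h1)
      exact ((Nat.Prime.coprime_iff_not_dvd hp).2 h3).symm

/-- Let G be a finite group with a cyclic Sylow p-subgroup and H a normal subgroup such that p divides both the order of H and the index of H. Then H has a normal p-complement and G is p-solvable. -/
theorem result {G : Type*} [Group G] [Finite G] (p : ℕ) [Fact p.Prime]
    (P : Sylow p G) (hP : IsCyclic (P : Subgroup G)) (H : Subgroup G) [H.Normal] (h1 : p ∣ Nat.card H) (h2 : p ∣ H.index) :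
    Cfsg.HasNormalPComplement p H ∧ Cfsg.IsPSolvable p G := by
  obtain ⟨Q₀⟩ : Nonempty (Sylow p H) := inferInstance
  obtain ⟨P', hQP'⟩ := IsPGroup.exists_le_sylow (Q₀.2.map H.subtype)
  have hP' : IsCyclic (P' : Subgroup G) := (MulEquiv.isCyclic (Sylow.equiv P P')).1 hP
  have hP'H : ¬ (P' : Subgroup G) ≤ H := by
    intro hle
    have h3 : H.index ∣ (P' : Subgroup G).index := Subgroup.index_dvd_of_le hle
    exact P'.not_dvd_index (dvd_trans h2 h3)
  have hN := part1 p P' hP' H hP'H Q₀ hQP'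
  have hcomp := MonoidHom.ker_transferSylow_isComplement' Q₀ hN
  have hQ₀ : (Q₀ : Subgroup H) ≠ ⊥ := Q₀.ne_bot_of_dvd_card h1
  exact ⟨⟨Q₀, (MonoidHom.transferSylow Q₀ hN).ker, inferInstance, hcomp⟩,
    part2 p P' hP' H Q₀ hQP' hQ₀ (MonoidHom.transferSylow Q₀ hN).ker hcomp⟩

end Cfsg.Agent.S4145
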