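import Cfsg.Statements.S4152
import Mathlib

set_option autoImplicit false
open Cfsg

namespace Cfsg.Agent.S4152

/-- `x` is a `π`-element: every prime divisor of its order lies in `π`. -/
def PiElt {X : Type*} [Monoid X] (π : Set ℕ) (x : X) : Prop :=
  ∀ q : ℕ, q.Prime → q ∣ orderOf x → q ∈ π

theorem exists_split (π : Set ℕ) (n : ℕ) (hn : n ≠ 0) :
    ∃ A B : ℕ, n = A * B ∧ (∀ q : ℕ, q.Prime → q ∣ A → q ∈ π) ∧
      (∀ q : ℕ, q.Prime → q ∣ B → q ∉ π) := by
  induction n using induction_on_primes with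
  | zero => exact absurd rfl hn
  | one =>
    refine ⟨1, 1, rfl, ?_, ?_⟩
    · intro q hq hd
      exact absurd (Nat.dvd_one.mp hd) hq.ne_one
    · intro q hq hd
      exact absurd (Nat.dvd_one.mp hd) hq.ne_one
  | prime_mul p a hp ih =>
    have ha : a ≠ 0 := by
      rintro rfl
      exact hn (mul_zero p)
    obtain ⟨A, B, hAB, hA, hB⟩ := ih ha
    by_cases hpπ : p ∈ π
    · refine ⟨p * A, B, by rw [hAB, mul_assoc], ?_, hB⟩
      intro q hq hd
      rcases (Nat.Prime.dvd_mul hq).mp hd with h | h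
      · rw [(Nat.prime_dvd_prime_iff_eq hq hp).mp h]; exact hpπ
      · exact hA q hq h
    · refine ⟨A, p * B, by rw [hAB]; ring, hA, ?_⟩
      intro q hq hd
      rcases (Nat.Prime.dvd_mul hq).mp hd with h | h
      · rw [(Nat.prime_dvd_prime_iff_eq hq hp).mp h]; exact hpπ
      · exact hB q hq h

theorem coprime_of_split (π : Set ℕ) {A B : ℕ} (hA : ∀ q : ℕ, q.Prime → q ∣ A → q ∈ π)
    (hB : ∀ q : ℕ, q.Prime → q ∣ B → q ∉ π) : A.Coprime B :=
  Nat.coprime_of_dvd fun k hk hkA hkB => hB k hk hkB (hA k hk hkA)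

/-- existence of the `π`-decomposition -/
theorem exists_decomp {G : Type*} [Group G] (π : Set ℕ) (x : G) (hx : orderOf x ≠ 0) :
    ∃ k l : ℕ, PiElt π (x ^ k) ∧ PiElt πᶜ (x ^ l) ∧ x ^ k * x ^ l = x := by
  obtain ⟨A, B, hAB, hA, hB⟩ := exists_split π (orderOf x) hx
  have hcop : A.Coprime B := coprime_of_split π hA hB
  obtain ⟨k, hk1, hk2⟩ := Nat.chineseRemainder hcop 1 0
  obtain ⟨l, hl1, hl2⟩ := Nat.chineseRemainder hcop 0 1
  have hkA : orderOf (x ^ k) ∣ A := by
    apply orderOf_dvd_of_pow_eq_one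
    rw [← pow_mul]
    apply orderOf_dvd_iff_pow_eq_one.mp
    rw [hAB, mul_comm k A]
    exact mul_dvd_mul_left A ((Nat.modEq_zero_iff_dvd).mp hk2)
  have hlB : orderOf (x ^ l) ∣ B := by
    apply orderOf_dvd_of_pow_eq_one
    rw [← pow_mul]
    apply orderOf_dvd_iff_pow_eq_one.mp
    rw [hAB]
    exact mul_dvd_mul ((Nat.modEq_zero_iff_dvd).mp hl1) dvd_rfl
  refine ⟨k, l, ?_, ?_, ?_⟩
  · intro q hq hd
    exact hA q hq (hd.trans hkA)
  · intro q hq hd
    exact hB q hq (hd.trans hlB)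
  · rw [← pow_add]
    have h1 : k + l ≡ 1 [MOD A] := by
      have := Nat.ModEq.add hk1 hl1
      simpa using this
    have h2 : k + l ≡ 1 [MOD B] := by
      have := Nat.ModEq.add hk2 hl2
      simpa using this
    have h3 : k + l ≡ 1 [MOD orderOf x] := by
      rw [hAB]
      exact (Nat.modEq_and_modEq_iff_modEq_mul hcop).mp ⟨h1, h2⟩
    have := (pow_eq_pow_iff_modEq (x := x) (n := k + l) (m := 1)).mpr h3
    rw [this, pow_one]

/-- the two factors of a commuting `π`/`π'` product are powers of the product -/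
theorem eq_pow_of_commute {G : Type*} [Group G] (π : Set ℕ) (u v : G) (huv : Commute u v)
    (hu : PiElt π u) (hv : PiElt πᶜ v) :
    (∃ k : ℕ, (u * v) ^ k = u) ∧ (∃ l : ℕ, (u * v) ^ l = v) := by
  have hcop : (orderOf u).Coprime (orderOf v) :=
    coprime_of_split π hu (fun q hq hd => hv q hq hd)
  obtain ⟨k, hk1, hk2⟩ := Nat.chineseRemainder hcop 1 0
  obtain ⟨l, hl1, hl2⟩ := Nat.chineseRemainder hcop 0 1
  constructor
  · refine ⟨k, ?_⟩
    rw [huv.mul_pow]
    have h1 : u ^ k = u ^ 1 := (pow_eq_pow_iff_modEq).mpr hk1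
    have h2 : v ^ k = v ^ 0 := (pow_eq_pow_iff_modEq).mpr hk2
    rw [h1, h2, pow_one, pow_zero, mul_one]
  · refine ⟨l, ?_⟩
    rw [huv.mul_pow]
    have h1 : u ^ l = u ^ 0 := (pow_eq_pow_iff_modEq).mpr hl1
    have h2 : v ^ l = v ^ 1 := (pow_eq_pow_iff_modEq).mpr hl2
    rw [h1, h2, pow_one, pow_zero, one_mul]

/-- uniqueness of the `π`-decomposition -/
theorem decomp_unique {G : Type*} [Group G] [Finite G] (π : Set ℕ) (u v u' v' : G)
    (huv : Commute u v) (huv' : Commute u' v')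
    (hu : PiElt π u) (hv : PiElt πᶜ v) (hu' : PiElt π u') (hv' : PiElt πᶜ v')
    (h : u * v = u' * v') : u = u' ∧ v = v' := by
  obtain ⟨⟨k, hk⟩, ⟨l, hl⟩⟩ := eq_pow_of_commute π u v huv hu hv
  obtain ⟨⟨k', hk'⟩, ⟨l', hl'⟩⟩ := eq_pow_of_commute π u' v' huv' hu' hv'
  rw [← h] at hk' hl'
  obtain ⟨z, hz⟩ : ∃ z, z = u * v := ⟨_, rfl⟩
  rw [← hz] at hk hl hk' hl'
  have cuu' : Commute u u' := by
    rw [← hk, ← hk']; exact (Commute.refl z).pow_pow k k'
  have cvv' : Commute v v' := by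
    rw [← hl, ← hl']; exact (Commute.refl z).pow_pow l l'
  -- t = u⁻¹ u' = v v'⁻¹
  have ht : u⁻¹ * u' = v * v'⁻¹ := by
    rw [inv_mul_eq_iff_eq_mul, ← mul_assoc, eq_mul_inv_iff_mul_eq]
    exact h.symm
  have h1 : (u⁻¹ * u') ^ (orderOf u * orderOf u') = 1 := by
    rw [(cuu'.inv_left).mul_pow, inv_pow, pow_mul, pow_orderOf_eq_one, one_pow, inv_one, one_mul,
      mul_comm, pow_mul, pow_orderOf_eq_one, one_pow]
  have h2 : (u⁻¹ * u') ^ (orderOf v * orderOf v') = 1 := by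
    rw [ht, (cvv'.inv_right).mul_pow, inv_pow, pow_mul, pow_orderOf_eq_one, one_pow, one_mul,
      mul_comm, pow_mul, pow_orderOf_eq_one, one_pow, inv_one]
  have hcop : (orderOf u * orderOf u').Coprime (orderOf v * orderOf v') := by
    apply coprime_of_split π
    · intro q hq hd
      rcases (Nat.Prime.dvd_mul hq).mp hd with hd | hd
      · exact hu q hq hd
      · exact hu' q hq hd
    · intro q hq hd
      rcases (Nat.Prime.dvd_mul hq).mp hd with hd | hd
      · exact hv q hq hd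
      · exact hv' q hq hd
  have h3 : orderOf (u⁻¹ * u') = 1 :=
    Nat.eq_one_of_dvd_coprimes hcop (orderOf_dvd_of_pow_eq_one h1) (orderOf_dvd_of_pow_eq_one h2)
  have h4 : u⁻¹ * u' = 1 := orderOf_eq_one_iff.mp h3
  have h5 : u = u' := (inv_mul_eq_one.mp h4)
  refine ⟨h5, ?_⟩
  rw [h5] at h
  exact mul_left_cancel h


theorem decomp_spec {G : Type*} [Group G] [Finite G] (π : Set ℕ) (x : G) :
    ∃ p : G × G, PiElt π p.1 ∧ PiElt πᶜ p.2 ∧ p.1 * p.2 = x ∧ (∃ k : ℕ, p.1 = x ^ k) ∧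
      (∃ l : ℕ, p.2 = x ^ l) := by
  obtain ⟨k, l, h1, h2, h3⟩ := exists_decomp π x (orderOf_pos x).ne'
  exact ⟨(x ^ k, x ^ l), h1, h2, h3, ⟨k, rfl⟩, ⟨l, rfl⟩⟩

/-- the `π`-part -/
noncomputable def piP {G : Type*} [Group G] [Finite G] (π : Set ℕ) (x : G) : G :=
  (Classical.choose (decomp_spec π x)).1

/-- the `π'`-part -/
noncomputable def piP' {G : Type*} [Group G] [Finite G] (π : Set ℕ) (x : G) : G :=
  (Classical.choose (decomp_spec π x)).2

section Parts
variable {G : Type*} [Group G] [Finite G] (π : Set ℕ) (x : G)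

theorem piP_pi : PiElt π (piP π x) := (Classical.choose_spec (decomp_spec π x)).1
theorem piP'_pi : PiElt πᶜ (piP' π x) := (Classical.choose_spec (decomp_spec π x)).2.1
theorem piP_mul : piP π x * piP' π x = x := (Classical.choose_spec (decomp_spec π x)).2.2.1
theorem piP_pow : ∃ k : ℕ, piP π x = x ^ k := (Classical.choose_spec (decomp_spec π x)).2.2.2.1
theorem piP'_pow : ∃ l : ℕ, piP' π x = x ^ l := (Classical.choose_spec (decomp_spec π x)).2.2.2.2

theorem piP_mem (N : Subgroup G) (hx : x ∈ N) : piP π x ∈ N := by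
  obtain ⟨k, hk⟩ := piP_pow π x
  rw [hk]; exact N.pow_mem hx k

theorem piP'_mem (N : Subgroup G) (hx : x ∈ N) : piP' π x ∈ N := by
  obtain ⟨k, hk⟩ := piP'_pow π x
  rw [hk]; exact N.pow_mem hx k

theorem piP_commute (y : G) (h : Commute x y) : Commute (piP π x) y := by
  obtain ⟨k, hk⟩ := piP_pow π x
  rw [hk]; exact h.pow_left k

theorem piP'_commute (y : G) (h : Commute x y) : Commute (piP' π x) y := by
  obtain ⟨k, hk⟩ := piP'_pow π x
  rw [hk]; exact h.pow_left k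

theorem piP_piP'_commute : Commute (piP π x) (piP' π x) := by
  obtain ⟨k, hk⟩ := piP_pow π x
  obtain ⟨l, hl⟩ := piP'_pow π x
  rw [hk, hl]; exact (Commute.refl x).pow_pow k l

end Parts

theorem orderOf_conj' {G : Type*} [Group G] (a x : G) : orderOf (a * x * a⁻¹) = orderOf x :=
  (MulAut.conj a).orderOf_eq x

section Count
variable {G : Type*} [Group G] [Finite G]

/-- a copy of `N`, acting on `G` by conjugation -/
def CN (N : Subgroup G) : Type _ := ↥N

instance instGroupCN (N : Subgroup G) : Group (CN N) := inferInstanceAs (Group ↥N)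
instance instFiniteCN (N : Subgroup G) : Finite (CN N) := inferInstanceAs (Finite ↥N)
instance instMulActionCN (N : Subgroup G) : MulAction (CN N) G :=
  MulAction.compHom G ((MulAut.conj).comp N.subtype)

/-- underlying element -/
def CN.val {N : Subgroup G} (n : CN N) : G := Subtype.val (p := fun x => x ∈ N) n

theorem CN.val_mem {N : Subgroup G} (n : CN N) : n.val ∈ N :=
  Subtype.property (p := fun x => x ∈ N) n

/-- constructor -/
def CN.mk {N : Subgroup G} (x : G) (hx : x ∈ N) : CN N := (⟨x, hx⟩ : ↥N)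

theorem CN.val_mk {N : Subgroup G} (x : G) (hx : x ∈ N) : (CN.mk x hx : CN N).val = x := rfl

theorem CN.val_injective {N : Subgroup G} : Function.Injective (CN.val (N := N)) :=
  fun _ _ h => Subtype.ext h

theorem CN.smul_def {N : Subgroup G} (n : CN N) (x : G) : n • x = n.val * x * n.val⁻¹ := rfl

/-- the `π`-elements of the coset `g N` -/
def cosetSet (N : Subgroup G) [hN : N.Normal] (π : Set ℕ) (g : G) : SubMulAction (CN N) G where
  carrier := {x | g⁻¹ * x ∈ N ∧ PiElt π x}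
  smul_mem' := by
    intro n x hx
    obtain ⟨h1, h2⟩ := hx
    refine ⟨?_, ?_⟩
    · rw [CN.smul_def]
      have e : g⁻¹ * (n.val * x * n.val⁻¹) =
          (g⁻¹ * n.val * g⁻¹⁻¹) * (g⁻¹ * x) * n.val⁻¹ := by group
      rw [e]
      exact N.mul_mem (N.mul_mem (hN.conj_mem _ n.val_mem _) h1) (N.inv_mem n.val_mem)
    · intro q hq hd
      apply h2 q hq
      rw [CN.smul_def, orderOf_conj'] at hd
      exact hd

theorem mem_cosetSet (N : Subgroup G) [N.Normal] (π : Set ℕ) (g x : G) :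
    x ∈ cosetSet N π g ↔ g⁻¹ * x ∈ N ∧ PiElt π x := Iff.rfl

/-- the `π`-elements of `N` -/
def piSet (N : Subgroup G) [hN : N.Normal] (π : Set ℕ) : SubMulAction (CN N) G where
  carrier := {x | x ∈ N ∧ PiElt π x}
  smul_mem' := by
    intro n x hx
    obtain ⟨h1, h2⟩ := hx
    refine ⟨?_, ?_⟩
    · rw [CN.smul_def]
      exact N.mul_mem (N.mul_mem n.val_mem h1) (N.inv_mem n.val_mem)
    · intro q hq hd
      apply h2 q hq
      rw [CN.smul_def, orderOf_conj'] at hd
      exact hd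

theorem mem_piSet (N : Subgroup G) [N.Normal] (π : Set ℕ) (x : G) :
    x ∈ piSet N π ↔ x ∈ N ∧ PiElt π x := Iff.rfl

theorem c1 (N : Subgroup G) [N.Normal] (π : Set ℕ) (g : G) :
    Nat.card (Σ n : CN N, MulAction.fixedBy ↥(cosetSet N π g) n) ≤
      Nat.card {p : G × G // p.1 ∈ N ∧ (g⁻¹ * p.2 ∈ N ∧ PiElt π p.2) ∧ p.1 * p.2 = p.2 * p.1} := by
  apply Nat.card_le_card_of_injective
    (fun s => (⟨(s.1.val, (s.2.1 : G)), s.1.val_mem, (mem_cosetSet N π g _).mp s.2.1.2, by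
      have h := s.2.2
      rw [MulAction.mem_fixedBy] at h
      have h' : s.1.val * (s.2.1 : G) * s.1.val⁻¹ = (s.2.1 : G) := congrArg Subtype.val h
      exact mul_inv_eq_iff_eq_mul.mp h'⟩ :
      {p : G × G // p.1 ∈ N ∧ (g⁻¹ * p.2 ∈ N ∧ PiElt π p.2) ∧ p.1 * p.2 = p.2 * p.1}))
  rintro ⟨n, ⟨⟨x, hxS⟩, hx⟩⟩ ⟨n', ⟨⟨x', hxS'⟩, hx'⟩⟩ h
  have h' := congrArg Subtype.val h
  simp only [Prod.mk.injEq] at h'
  obtain ⟨h1, h2⟩ := h'
  have hn : n = n' := CN.val_injective h1
  subst hn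
  subst h2
  rfl

theorem c2 (N : Subgroup G) [N.Normal] (π : Set ℕ) (g : G) :
    Nat.card {p : G × G // p.1 ∈ N ∧ (g⁻¹ * p.2 ∈ N ∧ PiElt π p.2) ∧ p.1 * p.2 = p.2 * p.1} ≤
      Nat.card {p : G × G // g⁻¹ * p.1 ∈ N ∧ (p.2 ∈ N ∧ PiElt π p.2) ∧ p.1 * p.2 = p.2 * p.1} := by
  apply Nat.card_le_card_of_injective
    (fun p => (⟨(p.1.2 * piP' π p.1.1, piP π p.1.1), by
      obtain ⟨⟨n, x⟩, hn, ⟨hx1, hx2⟩, hc⟩ := p
      have hc' : Commute n x := hc
      refine ⟨?_, ⟨piP_mem π n N hn, piP_pi π n⟩, ?_⟩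
      · show g⁻¹ * (x * piP' π n) ∈ N
        rw [← mul_assoc]
        exact N.mul_mem hx1 (piP'_mem π n N hn)
      · show x * piP' π n * piP π n = piP π n * (x * piP' π n)
        exact ((piP_commute π n x hc').symm.mul_left (piP_piP'_commute π n).symm).eq⟩ :
      {p : G × G // g⁻¹ * p.1 ∈ N ∧ (p.2 ∈ N ∧ PiElt π p.2) ∧ p.1 * p.2 = p.2 * p.1}))
  rintro ⟨⟨n, x⟩, hn, ⟨hx1, hx2⟩, hc⟩ ⟨⟨n', x'⟩, hn', ⟨hx1', hx2'⟩, hc'⟩ h
  have h' := congrArg Subtype.val h
  simp only [Prod.mk.injEq] at h'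
  obtain ⟨h1, h2⟩ := h'
  have hcn : Commute n x := hc
  have hcn' : Commute n' x' := hc'
  obtain ⟨e1, e2⟩ := decomp_unique π x (piP' π n) x' (piP' π n')
    (piP'_commute π n x hcn).symm (piP'_commute π n' x' hcn').symm hx2 (piP'_pi π n) hx2'
    (piP'_pi π n') h1
  have e3 : n = n' := by
    rw [← piP_mul π n, ← piP_mul π n', h2, e2]
  subst e3
  subst e1
  rfl

/-- a chosen element of the coset `g N` commuting with `m` -/
noncomputable def y0 (N : Subgroup G) (g m : G) : G := by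
  classical
  exact if h : ∃ y : G, g⁻¹ * y ∈ N ∧ y * m = m * y then Classical.choose h else 1

theorem y0_spec (N : Subgroup G) (g m y : G) (hy : g⁻¹ * y ∈ N) (hc : y * m = m * y) :
    g⁻¹ * y0 N g m ∈ N ∧ y0 N g m * m = m * y0 N g m := by
  classical
  have h : ∃ y : G, g⁻¹ * y ∈ N ∧ y * m = m * y := ⟨y, hy, hc⟩
  have e : y0 N g m = Classical.choose h := by
    unfold y0
    rw [dif_pos h]
  rw [e]
  exact Classical.choose_spec h

theorem c3 (N : Subgroup G) [N.Normal] (π : Set ℕ) (g : G) :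
    Nat.card {p : G × G // g⁻¹ * p.1 ∈ N ∧ (p.2 ∈ N ∧ PiElt π p.2) ∧ p.1 * p.2 = p.2 * p.1} ≤
      Nat.card {p : G × G // p.1 ∈ N ∧ (p.2 ∈ N ∧ PiElt π p.2) ∧ p.1 * p.2 = p.2 * p.1} := by
  apply Nat.card_le_card_of_injective
    (fun p => (⟨((y0 N g p.1.2)⁻¹ * p.1.1, p.1.2), by
      obtain ⟨⟨y, m⟩, hy, hm, hc⟩ := p
      obtain ⟨s1, s2⟩ := y0_spec N g m y hy hc
      have s2' : Commute (y0 N g m) m := s2
      have hc' : Commute y m := hc
      refine ⟨?_, hm, ?_⟩
      · show (y0 N g m)⁻¹ * y ∈ N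
        have e : (y0 N g m)⁻¹ * y = (g⁻¹ * y0 N g m)⁻¹ * (g⁻¹ * y) := by group
        rw [e]
        exact N.mul_mem (N.inv_mem s1) hy
      · show (y0 N g m)⁻¹ * y * m = m * ((y0 N g m)⁻¹ * y)
        exact (s2'.inv_left.mul_left hc').eq⟩ :
      {p : G × G // p.1 ∈ N ∧ (p.2 ∈ N ∧ PiElt π p.2) ∧ p.1 * p.2 = p.2 * p.1}))
  rintro ⟨⟨y, m⟩, hy, hm, hc⟩ ⟨⟨y', m'⟩, hy', hm', hc'⟩ h
  have h' := congrArg Subtype.val h
  simp only [Prod.mk.injEq] at h'
  obtain ⟨h1, h2⟩ := h'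
  subst h2
  have h3 : y = y' := mul_left_cancel h1
  subst h3
  rfl

theorem c4 (N : Subgroup G) [N.Normal] (π : Set ℕ) :
    Nat.card {p : G × G // p.1 ∈ N ∧ (p.2 ∈ N ∧ PiElt π p.2) ∧ p.1 * p.2 = p.2 * p.1} ≤
      Nat.card (Σ n : CN N, MulAction.fixedBy ↥(piSet N π) n) := by
  apply Nat.card_le_card_of_injective
    (fun p => (⟨CN.mk p.1.1 p.2.1, ⟨⟨p.1.2, (mem_piSet N π _).mpr p.2.2.1⟩, by
      rw [MulAction.mem_fixedBy]
      apply Subtype.ext
      show p.1.1 * p.1.2 * p.1.1⁻¹ = p.1.2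
      exact mul_inv_eq_iff_eq_mul.mpr p.2.2.2⟩⟩ :
      Σ n : CN N, MulAction.fixedBy ↥(piSet N π) n))
  intro p p' h
  have h1 : p.1.1 = p'.1.1 := by
    have := congrArg (fun s : (Σ n : CN N, MulAction.fixedBy ↥(piSet N π) n) => s.1.val) h
    exact this
  have h2 : p.1.2 = p'.1.2 := by
    have := congrArg (fun s : (Σ n : CN N, MulAction.fixedBy ↥(piSet N π) n) => (s.2.1 : G)) h
    exact this
  exact Subtype.ext (Prod.ext h1 h2)

theorem orbits_le (N : Subgroup G) [N.Normal] (π : Set ℕ) (g : G) :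
    Nat.card (Quotient (MulAction.orbitRel (CN N) ↥(cosetSet N π g))) ≤
      Nat.card (Quotient (MulAction.orbitRel (CN N) ↥(piSet N π))) := by
  have e1 := Nat.card_congr
    (MulAction.sigmaFixedByEquivOrbitsProdGroup (CN N) ↥(cosetSet N π g))
  have e2 := Nat.card_congr (MulAction.sigmaFixedByEquivOrbitsProdGroup (CN N) ↥(piSet N π))
  rw [Nat.card_prod] at e1 e2
  have h := (c1 N π g).trans ((c2 N π g).trans ((c3 N π g).trans (c4 N π)))
  rw [e1, e2] at h
  exact Nat.le_of_mul_le_mul_right h Nat.card_pos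

end Count


/-- the class predicate of the statement -/
def PiClass {X : Type*} [Monoid X] (π : Set ℕ) (C : ConjClasses X) : Prop :=
  ∀ q : ℕ, q.Prime → (∃ g : X, ConjClasses.mk g = C ∧ q ∣ orderOf g) → q ∈ π

theorem piClass_mk {X : Type*} [Group X] (π : Set ℕ) (x : X) (hx : PiElt π x) :
    PiClass π (ConjClasses.mk x) := by
  intro q hq ⟨g, hg, hd⟩
  rw [ConjClasses.mk_eq_mk_iff_isConj, isConj_iff] at hg
  obtain ⟨c, hc⟩ := hg
  apply hx q hq
  rw [← hc, orderOf_conj']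
  exact hd

/-- a representative -/
noncomputable def rep {X : Type*} [Monoid X] (C : ConjClasses X) : X :=
  Classical.choose (ConjClasses.exists_rep C)

theorem rep_spec {X : Type*} [Monoid X] (C : ConjClasses X) : ConjClasses.mk (rep C) = C :=
  Classical.choose_spec (ConjClasses.exists_rep C)

theorem pi_rep {X : Type*} [Monoid X] (π : Set ℕ) (C : ConjClasses X) (h : PiClass π C) :
    PiElt π (rep C) := fun q hq hd => h q hq ⟨rep C, rep_spec C, hd⟩

theorem orbits_pi_le {G : Type*} [Group G] [Finite G] (N : Subgroup G) [N.Normal] (π : Set ℕ) :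
    Nat.card (Quotient (MulAction.orbitRel (CN N) ↥(piSet N π))) ≤
      Nat.card {C : ConjClasses N // PiClass π C} := by
  have hf : ∀ m : ↥(piSet N π), PiClass π (ConjClasses.mk (⟨m.1, m.2.1⟩ : N)) := by
    intro m
    apply piClass_mk
    intro q hq hd
    apply m.2.2 q hq
    rw [Subgroup.orderOf_mk] at hd
    exact hd
  apply Nat.card_le_card_of_injective
    (fun c => (⟨ConjClasses.mk (⟨c.out.1, c.out.2.1⟩ : N), hf c.out⟩ :
      {C : ConjClasses N // PiClass π C}))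
  intro c c' h
  have h1 : ConjClasses.mk (⟨c.out.1, c.out.2.1⟩ : N) =
      ConjClasses.mk (⟨c'.out.1, c'.out.2.1⟩ : N) := congrArg Subtype.val h
  rw [ConjClasses.mk_eq_mk_iff_isConj, isConj_iff] at h1
  obtain ⟨n, hn⟩ := h1
  have hn' : (n : G) * c.out.1 * (n : G)⁻¹ = c'.out.1 := congrArg Subtype.val hn
  rw [← Quotient.out_eq c, ← Quotient.out_eq c']
  symm
  apply Quotient.sound
  show c'.out ∈ MulAction.orbit (CN N) c.out
  rw [MulAction.mem_orbit_iff]
  refine ⟨CN.mk n.1 n.2, ?_⟩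
  apply Subtype.ext
  exact hn'

theorem pi_quot {G : Type*} [Group G] (N : Subgroup G) [N.Normal] (π : Set ℕ) (x : G)
    (hx : PiElt π x) : PiElt π (QuotientGroup.mk' N x) :=
  fun q hq hd => hx q hq (hd.trans (orderOf_map_dvd _ x))

theorem fiber_le {G : Type*} [Group G] [Finite G] (N : Subgroup G) [N.Normal] (π : Set ℕ)
    (F : {C : ConjClasses G // PiClass π C} → {C : ConjClasses (G ⧸ N) // PiClass π C})
    (hF : ∀ C, (F C).1 = ConjClasses.mk (QuotientGroup.mk' N (rep C.1)))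
    (D : {C : ConjClasses (G ⧸ N) // PiClass π C}) :
    Nat.card {C : {C : ConjClasses G // PiClass π C} // F C = D} ≤
      Nat.card {C : ConjClasses N // PiClass π C} := by
  obtain ⟨g, hg⟩ := QuotientGroup.mk'_surjective N (rep D.1)
  have key : ∀ C : {C : {C : ConjClasses G // PiClass π C} // F C = D},
      ∃ x : ↥(cosetSet N π g), ConjClasses.mk (x : G) = C.1.1 := by
    intro C
    have h1 : ConjClasses.mk (QuotientGroup.mk' N (rep C.1.1)) =
        ConjClasses.mk (QuotientGroup.mk' N g) := by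
      rw [← hF C.1, C.2, hg, rep_spec]
    rw [ConjClasses.mk_eq_mk_iff_isConj, isConj_iff] at h1
    obtain ⟨cb, hcb⟩ := h1
    obtain ⟨c, rfl⟩ := QuotientGroup.mk'_surjective N cb
    have h2 : QuotientGroup.mk' N g = QuotientGroup.mk' N (c * rep C.1.1 * c⁻¹) := by
      rw [← hcb]; simp
    have h3 : g⁻¹ * (c * rep C.1.1 * c⁻¹) ∈ N := QuotientGroup.eq.mp h2
    have h4 : PiElt π (c * rep C.1.1 * c⁻¹) := by
      intro q hq hd
      rw [orderOf_conj'] at hd
      exact pi_rep π C.1.1 C.1.2 q hq hd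
    refine ⟨⟨c * rep C.1.1 * c⁻¹, (mem_cosetSet N π g _).mpr ⟨h3, h4⟩⟩, ?_⟩
    show ConjClasses.mk (c * rep C.1.1 * c⁻¹) = C.1.1
    rw [← rep_spec C.1.1, ConjClasses.mk_eq_mk_iff_isConj, isConj_iff]
    exact ⟨c⁻¹, by rw [rep_spec]; group⟩
  choose ψ hψ using key
  have h1 : Nat.card {C : {C : ConjClasses G // PiClass π C} // F C = D} ≤
      Nat.card (Quotient (MulAction.orbitRel (CN N) ↥(cosetSet N π g))) := by
    apply Nat.card_le_card_of_injective
      (fun C => (Quotient.mk (MulAction.orbitRel (CN N) ↥(cosetSet N π g)) (ψ C)))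
    intro C C' h
    have h2 := Quotient.exact h
    have h3 : ψ C ∈ MulAction.orbit (CN N) (ψ C') := h2
    rw [MulAction.mem_orbit_iff] at h3
    obtain ⟨n, hn⟩ := h3
    have hn' : n.val * (ψ C' : G) * n.val⁻¹ = (ψ C : G) := congrArg Subtype.val hn
    have h4 : ConjClasses.mk (ψ C' : G) = ConjClasses.mk (ψ C : G) := by
      rw [ConjClasses.mk_eq_mk_iff_isConj, isConj_iff]
      exact ⟨n.val, hn'⟩
    rw [hψ C, hψ C'] at h4
    exact Subtype.ext (Subtype.ext h4.symm)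
  exact h1.trans ((orbits_le N π g).trans (orbits_pi_le N π))

/-- Let G be a finite group, N a normal subgroup and π a set of primes. Then the number of conjugacy classes of π-elements of G (elements whose order is divisible only by primes in π) is at most the number of conjugacy classes of π-elements of N (under conjugation by N) times the number of conjugacy classes of π-elements of G/N. -/
theorem result {G : Type*} [Group G] [Finite G] (N : Subgroup G) [N.Normal] (π : Set ℕ) :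
    Nat.card {C : ConjClasses G // ∀ q : ℕ, q.Prime → (∃ g : G, ConjClasses.mk g = C ∧ q ∣ orderOf g) → q ∈ π} ≤ Nat.card {C : ConjClasses N // ∀ q : ℕ, q.Prime → (∃ g : N, ConjClasses.mk g = C ∧ q ∣ orderOf g) → q ∈ π} * Nat.card {C : ConjClasses (G ⧸ N) // ∀ q : ℕ, q.Prime → (∃ g : (G ⧸ N), ConjClasses.mk g = C ∧ q ∣ orderOf g) → q ∈ π} := by
  classical
  change Nat.card {C : ConjClasses G // PiClass π C} ≤
    Nat.card {C : ConjClasses N // PiClass π C} * Nat.card {C : ConjClasses (G ⧸ N) // PiClass π C}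
  let F : {C : ConjClasses G // PiClass π C} → {C : ConjClasses (G ⧸ N) // PiClass π C} :=
    fun C => ⟨ConjClasses.mk (QuotientGroup.mk' N (rep C.1)),
      piClass_mk π _ (pi_quot N π _ (pi_rep π C.1 C.2))⟩
  have hF : ∀ C, (F C).1 = ConjClasses.mk (QuotientGroup.mk' N (rep C.1)) := fun C => rfl
  haveI : Fintype {C : ConjClasses (G ⧸ N) // PiClass π C} := Fintype.ofFinite _
  rw [← Nat.card_congr (Equiv.sigmaFiberEquiv F), Nat.card_sigma]
  calc ∑ D : {C : ConjClasses (G ⧸ N) // PiClass π C},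
        Nat.card {C : {C : ConjClasses G // PiClass π C} // F C = D}
      ≤ ∑ _D : {C : ConjClasses (G ⧸ N) // PiClass π C},
        Nat.card {C : ConjClasses N // PiClass π C} :=
        Finset.sum_le_sum (fun D _ => fiber_le N π F hF D)
    _ = Nat.card {C : ConjClasses N // PiClass π C} *
        Nat.card {C : ConjClasses (G ⧸ N) // PiClass π C} := by
        rw [Finset.sum_const, Finset.card_univ, smul_eq_mul, ← Nat.card_eq_fintype_card, mul_comm]

end Cfsg.Agent.S4152
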