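import Cfsg.Statements.S4154

set_option autoImplicit false
open Cfsg

namespace Cfsg.Agent.S4154

/-- fixed points of an automorphism -/
def fix {G : Type*} [Group G] (α : MulAut G) : Subgroup G where
  carrier := {c | α c = c}
  one_mem' := by simp
  mul_mem' := by
    intro a b ha hb
    simp only [Set.mem_ofPred_eq] at ha hb ⊢
    rw [map_mul, ha, hb]
  inv_mem' := by
    intro a ha
    simp only [Set.mem_ofPred_eq] at ha ⊢
    rw [map_inv, ha]

theorem mem_fix {G : Type*} [Group G] (α : MulAut G) (c : G) : c ∈ fix α ↔ α c = c := Iff.rfl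

/-- the twisted map `g ↦ g * α g⁻¹` is constant on left cosets of the fixed points -/
theorem out_eq {G : Type*} [Group G] (α : MulAut G) (g : G) :
    ((g : G ⧸ fix α)).out * α ((g : G ⧸ fix α).out)⁻¹ = g * α g⁻¹ := by
  obtain ⟨h, hh⟩ := QuotientGroup.mk_out_eq_mul (fix α) g
  rw [hh]
  have h1 : α (h : G) = h := h.2
  rw [mul_inv_rev, map_mul, map_inv α (h : G), h1]
  group

/-- uniqueness of the decomposition `c * k` -/
theorem uniq {G : Type*} [Group G] [Finite G] (α : MulAut G)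
    (hccp : ∀ x : G, ∃ c g : G, α c = c ∧ x = c * (g⁻¹ * α g))
    (c g g' : G) (hc : α c = c) (h : c * (g⁻¹ * α g) = g'⁻¹ * α g') : c = 1 := by
  classical
  let m : fix α × (G ⧸ fix α) → G := fun p => (p.1 : G) * (p.2.out * α (p.2.out)⁻¹)
  have hsurj : Function.Surjective m := by
    intro x
    obtain ⟨c, g, hc, hx⟩ := hccp x
    refine ⟨(⟨c, hc⟩, ((g⁻¹ : G) : G ⧸ fix α)), ?_⟩
    simp only [m]
    rw [out_eq, hx, inv_inv]
  have hcard : Nat.card (fix α × (G ⧸ fix α)) ≤ Nat.card G := by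
    rw [Nat.card_prod, ← Subgroup.index_eq_card, Subgroup.card_mul_index]
  have hbij := hsurj.bijective_of_nat_card_le hcard
  have h1 : m (⟨c, hc⟩, ((g⁻¹ : G) : G ⧸ fix α)) = m (1, ((g'⁻¹ : G) : G ⧸ fix α)) := by
    simp only [m]
    rw [out_eq, out_eq, inv_inv, inv_inv, h]
    simp
  have h2 := hbij.1 h1
  have h3 := congrArg (fun p => (p.1 : G)) h2
  simpa using h3

theorem result {G : Type*} [Group G] [Finite G] (α : MulAut G)
    (hccp : ∀ x : G, ∃ c g : G, α c = c ∧ x = c * (g⁻¹ * α g))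
    (N : Subgroup G) [N.Normal] (hN : ∀ n ∈ N, α n ∈ N) :
    (∀ x : G, ∃ c g : G, c⁻¹ * α c ∈ N ∧ x⁻¹ * (c * (g⁻¹ * α g)) ∈ N) ∧
    (∀ x : G, x⁻¹ * α x ∈ N → ∃ c : G, α c = c ∧ c⁻¹ * x ∈ N) := by
  classical
  constructor
  · intro x
    obtain ⟨c, g, hc, hx⟩ := hccp x
    refine ⟨c, g, ?_, ?_⟩
    · rw [hc]; simp
    · rw [← hx]; simp
  · -- the finite set A of elements `k = g⁻¹ α g` with `k⁻¹ α k ∈ N`
    let A := {k : G // (∃ g : G, k = g⁻¹ * α g) ∧ k⁻¹ * α k ∈ N}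
    let κ : A → A := fun k => ⟨(k : G)⁻¹ * α k, ⟨⟨k, rfl⟩, by
      have h1 := k.2.2
      exact N.mul_mem (N.inv_mem h1) (hN _ h1)⟩⟩
    have hκinj : Function.Injective κ := by
      intro k k' hkk
      have h1 : (k : G)⁻¹ * α k = (k' : G)⁻¹ * α k' := congrArg Subtype.val hkk
      obtain ⟨g, hg⟩ := k.2.1
      obtain ⟨g', hg'⟩ := k'.2.1
      -- c = k' k⁻¹ is fixed
      have hc : α ((k' : G) * (k : G)⁻¹) = (k' : G) * (k : G)⁻¹ := by
        rw [map_mul, map_inv]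
        have : α (k : G) = (k : G) * ((k' : G)⁻¹ * α k') := by rw [← h1]; group
        rw [this]; group
      have h2 : (k' : G) * (k : G)⁻¹ * (g⁻¹ * α g) = g'⁻¹ * α g' := by
        rw [← hg, ← hg']; group
      have h3 := uniq α hccp _ g g' hc h2
      apply Subtype.ext
      have : (k' : G) = (k' : G) * (k : G)⁻¹ * k := by group
      rw [this, h3, one_mul]
    have hκsurj : Function.Surjective κ := Finite.surjective_of_injective hκinj
    intro x hx
    obtain ⟨c, g, hc, hxe⟩ := hccp x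
    refine ⟨c, hc, ?_⟩
    have hk : c⁻¹ * x = g⁻¹ * α g := by rw [hxe]; group
    have hkA : (c⁻¹ * x)⁻¹ * α (c⁻¹ * x) ∈ N := by
      have : (c⁻¹ * x)⁻¹ * α (c⁻¹ * x) = x⁻¹ * α x := by
        rw [map_mul, map_inv, hc]; group
      rw [this]; exact hx
    obtain ⟨k', hk'⟩ := hκsurj ⟨c⁻¹ * x, ⟨⟨g, hk⟩, hkA⟩⟩
    have h4 : (k' : G)⁻¹ * α k' = c⁻¹ * x := congrArg Subtype.val hk'
    rw [← h4]
    exact k'.2.2

end Cfsg.Agent.S4154
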