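import Mathlib
import Cfsg.Statements.S4156

set_option autoImplicit false
open Cfsg

namespace Cfsg.Agent.S4156

section aux

variable {F : Type*} [Field F] {n : ℕ}

/-- lift of `F^n` to the sum-zero vectors of `F^(n+1)` -/
def lam (x : Fin n → F) : Fin (n + 1) → F := Fin.snoc x (-∑ i, x i)

/-- forget the last coordinate -/
def pr (w : Fin (n + 1) → F) : Fin n → F := fun i => w (Fin.castSucc i)

theorem lam_castSucc (x : Fin n → F) (i : Fin n) : lam x (Fin.castSucc i) = x i := by
  simp [lam]

theorem lam_last (x : Fin n → F) : lam x (Fin.last n) = -∑ i, x i := by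
  simp [lam]

theorem pr_lam (x : Fin n → F) : pr (lam x) = x := by
  ext i
  exact lam_castSucc x i

theorem lam_sum (x : Fin n → F) : ∑ i, lam x i = 0 := by
  rw [Fin.sum_univ_castSucc]
  simp only [lam_castSucc, lam_last]
  ring

theorem lam_pr (w : Fin (n + 1) → F) (hw : ∑ i, w i = 0) : lam (pr w) = w := by
  rw [Fin.sum_univ_castSucc] at hw
  ext j
  refine Fin.lastCases ?_ (fun i => ?_) j
  · rw [lam_last]
    simp only [pr]
    linear_combination -hw
  · rw [lam_castSucc]
    rfl

theorem lam_add (x y : Fin n → F) : lam (x + y) = lam x + lam y := by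
  ext j
  refine Fin.lastCases ?_ (fun i => ?_) j
  · simp only [Pi.add_apply, lam_last, Finset.sum_add_distrib]
    ring
  · simp only [Pi.add_apply, lam_castSucc]

theorem lam_smul (c : F) (x : Fin n → F) : lam (c • x) = c • lam x := by
  ext j
  refine Fin.lastCases ?_ (fun i => ?_) j
  · simp only [Pi.smul_apply, lam_last, smul_eq_mul, ← Finset.mul_sum]
    ring
  · simp only [Pi.smul_apply, lam_castSucc]

/-- the action of a permutation on the deleted permutation module -/
def T (σ : Equiv.Perm (Fin (n + 1))) (x : Fin n → F) : Fin n → F :=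
  pr (fun i => lam x (σ.symm i))

theorem T_one (x : Fin n → F) : T 1 x = x := pr_lam x

theorem T_mul (σ τ : Equiv.Perm (Fin (n + 1))) (x : Fin n → F) : T σ (T τ x) = T (σ * τ) x := by
  have hw : ∑ i, (fun i => lam x (τ.symm i)) i = 0 := by
    rw [Equiv.sum_comp τ.symm (lam x)]
    exact lam_sum x
  unfold T
  rw [lam_pr _ hw]
  rfl

/-- `T σ` as a linear map -/
def Tl (σ : Equiv.Perm (Fin (n + 1))) : (Fin n → F) →ₗ[F] (Fin n → F) where
  toFun := T σ
  map_add' := by
    intro x y
    unfold T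
    rw [lam_add]
    rfl
  map_smul' := by
    intro c x
    unfold T
    rw [lam_smul]
    rfl

theorem Tl_apply (σ : Equiv.Perm (Fin (n + 1))) (x : Fin n → F) : Tl σ x = T σ x := rfl

end aux

/-- Let n ≥ 5 and F a finite field. Then the projective special linear group PSL_n(F) contains a subgroup isomorphic to the alternating group of degree n + 1. -/
theorem result (n : ℕ) (hn : 5 ≤ n) (F : Type*) [Field F] [Finite F] :
    ∃ f : alternatingGroup (Fin (n + 1)) →* Matrix.ProjectiveSpecialLinearGroup (Fin n) F, Function.Injective f := by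
  classical
  have hcomp : ∀ σ τ : Equiv.Perm (Fin (n + 1)),
      (Tl σ : (Fin n → F) →ₗ[F] (Fin n → F)).comp (Tl τ) = Tl (σ * τ) :=
    fun σ τ => LinearMap.ext fun x => by
      simp only [LinearMap.comp_apply, Tl_apply]
      exact T_mul σ τ x
  have hone : (Tl (1 : Equiv.Perm (Fin (n + 1))) : (Fin n → F) →ₗ[F] (Fin n → F))
      = LinearMap.id := LinearMap.ext fun x => T_one x
  let M : Equiv.Perm (Fin (n + 1)) → Matrix (Fin n) (Fin n) F :=
    fun σ => LinearMap.toMatrix' (Tl σ)
  have hMmul : ∀ σ τ, M σ * M τ = M (σ * τ) := by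
    intro σ τ
    show LinearMap.toMatrix' (Tl σ) * LinearMap.toMatrix' (Tl τ) = LinearMap.toMatrix' (Tl (σ * τ))
    rw [← LinearMap.toMatrix'_comp, hcomp]
  have hMone : M 1 = 1 := by
    show LinearMap.toMatrix' (Tl 1) = 1
    rw [hone, LinearMap.toMatrix'_id]
  have hMapp : ∀ σ (i j : Fin n), M σ i j = lam (Pi.single j (1 : F)) (σ.symm (Fin.castSucc i)) := by
    intro σ i j
    show LinearMap.toMatrix' (Tl σ) i j = _
    rw [LinearMap.toMatrix'_apply]
    show T σ _ i = _
    unfold T pr
    congr 2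
  let U : Equiv.Perm (Fin (n + 1)) →* Matrix.GeneralLinearGroup (Fin n) F :=
    MonoidHom.mk' (fun σ => ⟨M σ, M σ⁻¹, by rw [hMmul, mul_inv_cancel, hMone],
      by rw [hMmul, inv_mul_cancel, hMone]⟩) (by
        intro σ τ
        apply Units.ext
        exact (hMmul σ τ).symm)
  have h5 : 5 ≤ Nat.card (Fin (n + 1)) := by
    rw [Nat.card_fin]
    omega
  have hperf := commutator_alternatingGroup_eq_top h5
  let d : alternatingGroup (Fin (n + 1)) →* Fˣ :=
    (Matrix.GeneralLinearGroup.det).comp (U.comp (alternatingGroup (Fin (n + 1))).subtype)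
  have hd : ∀ g : alternatingGroup (Fin (n + 1)), d g = 1 := by
    intro g
    have h := Abelianization.commutator_subset_ker d
    rw [hperf] at h
    exact h (Subgroup.mem_top g)
  have hdet : ∀ g : alternatingGroup (Fin (n + 1)), (M g.1).det = 1 := by
    intro g
    have h := congrArg Units.val (hd g)
    exact h
  let φ : alternatingGroup (Fin (n + 1)) →* Matrix.SpecialLinearGroup (Fin n) F :=
    MonoidHom.mk' (fun g => ⟨M g.1, hdet g⟩) (by
      intro g h
      apply Subtype.ext
      exact (hMmul g.1 h.1).symm)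
  let f : alternatingGroup (Fin (n + 1)) →* Matrix.ProjectiveSpecialLinearGroup (Fin n) F :=
    (QuotientGroup.mk' (Subgroup.center (Matrix.SpecialLinearGroup (Fin n) F))).comp φ
  refine ⟨f, ?_⟩
  haveI := alternatingGroup.isSimpleGroup h5
  rcases (MonoidHom.normal_ker f).eq_bot_or_eq_top with hk | hk
  · exact (MonoidHom.ker_eq_bot_iff f).1 hk
  · exfalso
    let a0 : Fin (n + 1) := ⟨0, by omega⟩
    let a1 : Fin (n + 1) := ⟨1, by omega⟩
    let a2 : Fin (n + 1) := ⟨2, by omega⟩
    let a3 : Fin (n + 1) := ⟨3, by omega⟩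
    have h01 : a0 ≠ a1 := by simp [a0, a1, Fin.ext_iff]
    have h23 : a2 ≠ a3 := by simp [a2, a3, Fin.ext_iff]
    have h02 : a0 ≠ a2 := by simp [a0, a2, Fin.ext_iff]
    have h03 : a0 ≠ a3 := by simp [a0, a3, Fin.ext_iff]
    let σ0 : Equiv.Perm (Fin (n + 1)) := Equiv.swap a0 a1 * Equiv.swap a2 a3
    have hσ0 : σ0 ∈ alternatingGroup (Fin (n + 1)) := by
      rw [Equiv.Perm.mem_alternatingGroup, Equiv.Perm.sign_mul, Equiv.Perm.sign_swap h01,
        Equiv.Perm.sign_swap h23]
      decide
    have hker : (⟨σ0, hσ0⟩ : alternatingGroup (Fin (n + 1))) ∈ f.ker := by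
      rw [hk]
      exact Subgroup.mem_top _
    have hcen : φ ⟨σ0, hσ0⟩ ∈ Subgroup.center (Matrix.SpecialLinearGroup (Fin n) F) := by
      have h := MonoidHom.mem_ker.1 hker
      exact (QuotientGroup.eq_one_iff _).1 h
    obtain ⟨r, -, hr⟩ := Matrix.SpecialLinearGroup.mem_center_iff.1 hcen
    have hM : Matrix.scalar (Fin n) r = M σ0 := hr
    have hent := congrFun (congrFun hM (⟨1, by omega⟩ : Fin n)) (⟨0, by omega⟩ : Fin n)
    rw [hMapp] at hent
    have hs : σ0.symm (Fin.castSucc (⟨1, by omega⟩ : Fin n)) = Fin.castSucc (⟨0, by omega⟩ : Fin n) := by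
      rw [Equiv.symm_apply_eq]
      show a1 = (Equiv.swap a0 a1 * Equiv.swap a2 a3) a0
      rw [Equiv.Perm.mul_apply, Equiv.swap_apply_of_ne_of_ne h02 h03, Equiv.swap_apply_left]
    rw [hs, lam_castSucc] at hent
    simp [Matrix.scalar_apply, Matrix.diagonal_apply, Fin.ext_iff] at hent

end Cfsg.Agent.S4156
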