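import Cfsg.Statements.S4157
import Cfsg.Agent.Helper26.Kul15

set_option autoImplicit false
open Cfsg

namespace Cfsg.Agent.S4157

open Cfsg.Agent.Helper26

/-- Let G be a finite p-group of order p^m that is not cyclic and, when p = 2, not of maximal class (nilpotency class m − 1). Then for every 1 ≤ k < m the number of subgroups of G of order p^k is congruent to 1 + p modulo p². -/
theorem result {G : Type*} [Group G] [Finite G] {p : ℕ} [Fact p.Prime] (m : ℕ)
    (hG : Nat.card G = p ^ m) (hnc : ¬ IsCyclic G) (h2 : p = 2 → Group.nilpotencyClass G ≠ m - 1)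
    (k : ℕ) (hk1 : 1 ≤ k) (hk2 : k < m) :
    Nat.card {H : Subgroup G // Nat.card H = p ^ k} ≡ 1 + p [MOD p ^ 2] := by
  have hp := (Fact.out : p.Prime)
  by_cases hp2 : p = 2
  · subst hp2
    refine kul2_kulakoff m G hG hnc ?_ k hk1 hk2
    intro hTK
    apply h2 rfl
    rcases Nat.lt_or_ge m 3 with hm | hm
    · have hm2 : m = 2 := by omega
      subst hm2
      haveI : Group.IsNilpotent G := (IsPGroup.of_card hG).isNilpotent
      have hc1 : Nat.card (commutator G) = 1 := by
        unfold KulTK at hTK
        rw [hG] at hTK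
        have h4 : (2 : ℕ) ^ 2 = 1 * 4 := by norm_num
        rw [h4] at hTK
        exact Nat.eq_of_mul_eq_mul_right (by norm_num) hTK
      have hbot : commutator G = ⊥ := Subgroup.card_eq_one.mp hc1
      have hle : Group.nilpotencyClass G ≤ 1 := by
        apply Subgroup.lowerCentralSeries_eq_bot_iff_nilpotencyClass_le.mp
        rw [Subgroup.top_lowerCentralSeries_one]; exact hbot
      have hne : ¬ Group.nilpotencyClass G ≤ 0 := by
        intro h
        have h1 := Subgroup.lowerCentralSeries_eq_bot_iff_nilpotencyClass_le.mpr h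
        rw [Subgroup.lowerCentralSeries_zero] at h1
        have h3 : Nat.card G = 1 := by
          rw [← Subgroup.card_top (G := G), h1, Subgroup.card_bot]
        rw [hG] at h3
        norm_num at h3
      omega
    · obtain ⟨m', rfl⟩ : ∃ m', m = m' + 3 := ⟨m - 3, by omega⟩
      obtain ⟨a, y, hidx, hy, k', hrel⟩ := kul_taussky m' G hG hTK
      exact kul_mc_class hG hidx hy hrel
  · exact kul_kulakoff hp2 m G hG hnc k hk1 hk2

end Cfsg.Agent.S4157
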