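import Cfsg.Statements.S4160
import Mathlib
-- import your own Cfsg.Agent.* helpers here

set_option autoImplicit false
open Cfsg

namespace Cfsg.Agent.S4160

/-- If `p` does not divide the class size of `x`, then a conjugate of `x` centralizes the given
Sylow `p`-subgroup. -/
theorem exists_conj_mem_centralizer {G : Type*} [Group G] [Finite G] (p : ℕ) [Fact p.Prime]
    (P : Sylow p G) (x : G) (hx : ¬ p ∣ (Subgroup.centralizer ({x} : Set G)).index) :
    ∃ s : G, s * x * s⁻¹ ∈ Subgroup.centralizer ((P : Subgroup G) : Set G) := by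
  have hp : p.Prime := Fact.out
  set K := Subgroup.centralizer ({x} : Set G) with hK
  obtain ⟨P₀⟩ := (inferInstance : Nonempty (Sylow p K))
  set R := (P₀ : Subgroup K).map K.subtype with hR
  have hRK : R ≤ K := by
    rw [hR]; intro y hy
    obtain ⟨z, -, rfl⟩ := Subgroup.mem_map.mp hy
    exact z.2
  have hcard : Nat.card R = p ^ (Nat.card G).factorization p := by
    have h1 : Nat.card R = p ^ (Nat.card K).factorization p := by
      rw [← P₀.card_eq_multiplicity]
      exact (Nat.card_congr ((P₀ : Subgroup K).equivMapOfInjective _ K.subtype_injective).toEquiv).symm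
    rw [h1, ← K.card_mul_index, Nat.factorization_mul Nat.card_pos.ne' Subgroup.index_ne_zero_of_finite]
    simp [Nat.factorization_eq_zero_of_not_dvd hx]
  obtain ⟨t, ht⟩ := MulAction.exists_smul_eq G (Sylow.ofCard R hcard) P
  refine ⟨t, ?_⟩
  rw [Subgroup.mem_centralizer_iff]
  intro y hy
  have hy' : y ∈ ((t • Sylow.ofCard R hcard : Sylow p G) : Subgroup G) := by rw [ht]; exact hy
  rw [Sylow.coe_subgroup_smul, Subgroup.mem_pointwise_smul_iff_inv_smul_mem] at hy'
  have hy2 : t⁻¹ * y * t ∈ R := by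
    have : (MulAut.conj t)⁻¹ • y = t⁻¹ * y * t := by
      rw [← map_inv]; simp [MulAut.smul_def]
    rw [← this]; exact hy'
  have hc := hRK hy2
  rw [hK, Subgroup.mem_centralizer_iff] at hc
  have hc' := hc x (Set.mem_singleton x)
  -- hc' : x * (t⁻¹ * y * t) = t⁻¹ * y * t * x
  calc y * (t * x * t⁻¹) = t * ((t⁻¹ * y * t) * x) * t⁻¹ := by group
    _ = t * (x * (t⁻¹ * y * t)) * t⁻¹ := by rw [hc']
    _ = t * x * t⁻¹ * y := by group

/-- Counting the non-identity elements conjugate into a subgroup `C` normalized by `N`. -/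
theorem card_conj_mul_le {G : Type*} [Group G] [Finite G] (C N : Subgroup G)
    (hN : ∀ n ∈ N, ∀ c ∈ C, n⁻¹ * c * n ∈ C) :
    Nat.card {u : G // u ≠ 1 ∧ ∃ s : G, s * u * s⁻¹ ∈ C} * Nat.card N + Nat.card G ≤
      Nat.card G * Nat.card C := by
  classical
  let U := {u : G // u ≠ 1 ∧ ∃ s : G, s * u * s⁻¹ ∈ C}
  let sf : U → G := fun u => u.2.2.choose
  have hsf : ∀ u : U, sf u * (u : G) * (sf u)⁻¹ ∈ C := fun u => u.2.2.choose_spec
  let φ : (U × N) ⊕ G → G × C := fun z =>
    match z with
    | Sum.inl (u, n) => ((sf u)⁻¹ * (n : G),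
        ⟨(n : G)⁻¹ * (sf u * (u : G) * (sf u)⁻¹) * (n : G), hN n n.2 _ (hsf u)⟩)
    | Sum.inr a => (a, 1)
  have hφ : Function.Injective φ := by
    rintro (⟨u, n⟩ | a) (⟨u', n'⟩ | a') hEq
    · have h1 : (sf u)⁻¹ * (n : G) = (sf u')⁻¹ * (n' : G) := congrArg Prod.fst hEq
      have h2 : (n : G)⁻¹ * (sf u * (u : G) * (sf u)⁻¹) * (n : G) =
          (n' : G)⁻¹ * (sf u' * (u' : G) * (sf u')⁻¹) * (n' : G) :=
        congrArg (fun z : G × C => (z.2 : G)) hEq
      have hu : (u : G) = (u' : G) := by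
        calc (u : G) = ((sf u)⁻¹ * (n : G)) * ((n : G)⁻¹ * (sf u * (u : G) * (sf u)⁻¹) * (n : G)) *
              ((sf u)⁻¹ * (n : G))⁻¹ := by group
          _ = ((sf u')⁻¹ * (n' : G)) * ((n' : G)⁻¹ * (sf u' * (u' : G) * (sf u')⁻¹) * (n' : G)) *
              ((sf u')⁻¹ * (n' : G))⁻¹ := by rw [h1, h2]
          _ = (u' : G) := by group
      have hu' : u = u' := Subtype.ext hu
      subst hu'
      have hn : (n : G) = (n' : G) := mul_left_cancel h1
      have hn' : n = n' := Subtype.ext hn
      rw [hn']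
    · exfalso
      have h2 : (n : G)⁻¹ * (sf u * (u : G) * (sf u)⁻¹) * (n : G) = 1 :=
        congrArg (fun z : G × C => (z.2 : G)) hEq
      have : (u : G) = 1 := by
        calc (u : G) = ((sf u)⁻¹ * (n : G)) * ((n : G)⁻¹ * (sf u * (u : G) * (sf u)⁻¹) * (n : G)) *
              ((sf u)⁻¹ * (n : G))⁻¹ := by group
          _ = 1 := by rw [h2]; group
      exact u.2.1 this
    · exfalso
      have h2 : (1 : G) = (n' : G)⁻¹ * (sf u' * (u' : G) * (sf u')⁻¹) * (n' : G) :=
        congrArg (fun z : G × C => (z.2 : G)) hEq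
      have : (u' : G) = 1 := by
        calc (u' : G) = ((sf u')⁻¹ * (n' : G)) * ((n' : G)⁻¹ * (sf u' * (u' : G) * (sf u')⁻¹) * (n' : G)) *
              ((sf u')⁻¹ * (n' : G))⁻¹ := by group
          _ = 1 := by rw [← h2]; group
      exact u'.2.1 this
    · have h1 : a = a' := congrArg Prod.fst hEq
      rw [h1]
  have hle := Nat.card_le_card_of_injective φ hφ
  rw [Nat.card_sum, Nat.card_prod, Nat.card_prod] at hle
  exact hle

/-- Arithmetic core. -/
theorem arith_aux {g a n u k : ℕ} (ha : 0 < a) (hg : g = a * k) (hn : 2 * a ≤ n) (hng : n ≤ g)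
    (h : u * n + g ≤ g * a) : 2 * u + 2 ≤ g := by
  have hk : 2 ≤ k := by
    by_contra hk
    have : k ≤ 1 := by omega
    have : a * k ≤ a * 1 := Nat.mul_le_mul_left a this
    omega
  have h1 : u * (2 * a) ≤ u * n := Nat.mul_le_mul_left u hn
  have h2 : a * (2 * u + k) ≤ a * (k * a) := by
    calc a * (2 * u + k) = u * (2 * a) + a * k := by ring
      _ ≤ u * n + g := by rw [hg]; omega
      _ ≤ g * a := h
      _ = a * (k * a) := by rw [hg]; ring
  have h3 : 2 * u + k ≤ k * a := Nat.le_of_mul_le_mul_left h2 ha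
  have h4 : k * a = g := by rw [hg]; ring
  omega

/-- Let G be a finite group and p ≠ q primes each dividing the size of some conjugacy class of G, such that no conjugacy class size is divisible by pq. Then G has a normal p-complement or a normal q-complement. -/
theorem result {G : Type*} [Group G] [Finite G] (p q : ℕ) (hp : p.Prime) (hq : q.Prime) (hpq : p ≠ q)
    (hp' : ∃ x : G, p ∣ (Subgroup.centralizer ({x} : Set G)).index) (hq' : ∃ x : G, q ∣ (Subgroup.centralizer ({x} : Set G)).index) (h : ∀ x : G, ¬ p * q ∣ (Subgroup.centralizer ({x} : Set G)).index) :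
    Cfsg.HasNormalPComplement p G ∨ Cfsg.HasNormalPComplement q G := by
  classical
  haveI : Fact p.Prime := ⟨hp⟩
  haveI : Fact q.Prime := ⟨hq⟩
  obtain ⟨P⟩ := (inferInstance : Nonempty (Sylow p G))
  obtain ⟨Q⟩ := (inferInstance : Nonempty (Sylow q G))
  by_cases hP : Subgroup.normalizer ((P : Subgroup G) : Set G) ≤ Subgroup.centralizer ((P : Subgroup G) : Set G)
  · left
    exact ⟨P, (MonoidHom.transferSylow P hP).ker, inferInstance,
      MonoidHom.ker_transferSylow_isComplement' P hP⟩
  by_cases hQ : Subgroup.normalizer ((Q : Subgroup G) : Set G) ≤ Subgroup.centralizer ((Q : Subgroup G) : Set G)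
  · right
    exact ⟨Q, (MonoidHom.transferSylow Q hQ).ker, inferInstance,
      MonoidHom.ker_transferSylow_isComplement' Q hQ⟩
  exfalso
  -- the two sets
  set CP := Subgroup.centralizer ((P : Subgroup G) : Set G) with hCP
  set CQ := Subgroup.centralizer ((Q : Subgroup G) : Set G) with hCQ
  set NP := Subgroup.normalizer ((P : Subgroup G) : Set G) with hNP
  set NQ := Subgroup.normalizer ((Q : Subgroup G) : Set G) with hNQ
  let SP : Set G := {u : G | u ≠ 1 ∧ ∃ s : G, s * u * s⁻¹ ∈ CP}
  let SQ : Set G := {u : G | u ≠ 1 ∧ ∃ s : G, s * u * s⁻¹ ∈ CQ}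
  have hcover : (Set.univ : Set G) ⊆ ({1} ∪ SP) ∪ SQ := by
    intro x _
    by_cases hx1 : x = 1
    · left; left; exact hx1
    by_cases hxp : p ∣ (Subgroup.centralizer ({x} : Set G)).index
    · have hxq : ¬ q ∣ (Subgroup.centralizer ({x} : Set G)).index := fun hxq =>
        h x (Nat.Coprime.mul_dvd_of_dvd_of_dvd ((Nat.coprime_primes hp hq).mpr hpq) hxp hxq)
      right
      exact ⟨hx1, exists_conj_mem_centralizer q Q x hxq⟩
    · left; right
      exact ⟨hx1, exists_conj_mem_centralizer p P x hxp⟩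
  have hcard : Nat.card G ≤ 1 + SP.ncard + SQ.ncard := by
    have h1 : (Set.univ : Set G).ncard ≤ (({1} ∪ SP) ∪ SQ).ncard :=
      Set.ncard_le_ncard hcover (Set.toFinite _)
    rw [Set.ncard_univ] at h1
    have h2 := Set.ncard_union_le ({1} ∪ SP) SQ
    have h3 := Set.ncard_union_le ({1} : Set G) SP
    rw [Set.ncard_singleton] at h3
    omega
  -- normalizer normalizes the centralizer
  have hnorm : ∀ (R : Subgroup G), ∀ n ∈ Subgroup.normalizer (R : Set G),
      ∀ c ∈ Subgroup.centralizer (R : Set G), n⁻¹ * c * n ∈ Subgroup.centralizer (R : Set G) := by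
    intro R n hn c hc
    rw [Subgroup.mem_centralizer_iff] at hc ⊢
    intro y hy
    have hy' : n * y * n⁻¹ ∈ R := (Subgroup.mem_normalizer_iff.mp hn y).mp hy
    have := hc _ hy'
    calc y * (n⁻¹ * c * n) = n⁻¹ * ((n * y * n⁻¹) * c) * n := by group
      _ = n⁻¹ * (c * (n * y * n⁻¹)) * n := by rw [this]
      _ = n⁻¹ * c * n * y := by group
  have hcle : ∀ (R : Subgroup G), Subgroup.centralizer (R : Set G) ≤ Subgroup.normalizer (R : Set G) :=
    fun R => Subgroup.centralizer_le_normalizer _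
  have key : ∀ (R : Subgroup G),
      ¬ Subgroup.normalizer (R : Set G) ≤ Subgroup.centralizer (R : Set G) →
      2 * ({u : G | u ≠ 1 ∧ ∃ s : G, s * u * s⁻¹ ∈ Subgroup.centralizer (R : Set G)} : Set G).ncard + 2
        ≤ Nat.card G := by
    intro R hR
    have h1 := card_conj_mul_le (Subgroup.centralizer (R : Set G)) (Subgroup.normalizer (R : Set G))
      (hnorm R)
    have hlt : Subgroup.centralizer (R : Set G) < Subgroup.normalizer (R : Set G) :=
      lt_of_le_of_ne (hcle R) (fun hEq => hR (le_of_eq hEq.symm))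
    have hdvd : Nat.card (Subgroup.centralizer (R : Set G)) ∣ Nat.card (Subgroup.normalizer (R : Set G)) :=
      Subgroup.card_dvd_of_le (hcle R)
    have hlt' : Nat.card (Subgroup.centralizer (R : Set G)) < Nat.card (Subgroup.normalizer (R : Set G)) := by
      have hle := Subgroup.card_le_of_le (hcle R)
      rcases lt_or_eq_of_le hle with h' | h'
      · exact h'
      · exact absurd (Subgroup.eq_of_le_of_card_ge (hcle R) (le_of_eq h'.symm)) (ne_of_lt hlt)
    have h2a : 2 * Nat.card (Subgroup.centralizer (R : Set G)) ≤ Nat.card (Subgroup.normalizer (R : Set G)) := by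
      obtain ⟨k, hk⟩ := hdvd
      have hk2 : 2 ≤ k := by
        by_contra hk2
        have hk1 : k ≤ 1 := by omega
        have : Nat.card (Subgroup.centralizer (R : Set G)) * k ≤ Nat.card (Subgroup.centralizer (R : Set G)) * 1 :=
          Nat.mul_le_mul_left _ hk1
        omega
      rw [hk]
      calc 2 * Nat.card (Subgroup.centralizer (R : Set G)) = Nat.card (Subgroup.centralizer (R : Set G)) * 2 := by ring
        _ ≤ Nat.card (Subgroup.centralizer (R : Set G)) * k := Nat.mul_le_mul_left _ hk2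
    have hng : Nat.card (Subgroup.normalizer (R : Set G)) ≤ Nat.card G := Subgroup.card_le_card_group _
    have hg : Nat.card G = Nat.card (Subgroup.centralizer (R : Set G)) * (Subgroup.centralizer (R : Set G)).index :=
      (Subgroup.card_mul_index _).symm
    have hU : Nat.card {u : G // u ≠ 1 ∧ ∃ s : G, s * u * s⁻¹ ∈ Subgroup.centralizer (R : Set G)} =
        ({u : G | u ≠ 1 ∧ ∃ s : G, s * u * s⁻¹ ∈ Subgroup.centralizer (R : Set G)} : Set G).ncard := rfl
    rw [hU] at h1
    exact arith_aux Nat.card_pos hg h2a hng h1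
  have kP := key (P : Subgroup G) hP
  have kQ := key (Q : Subgroup G) hQ
  have eP : ({u : G | u ≠ 1 ∧ ∃ s : G, s * u * s⁻¹ ∈ Subgroup.centralizer ((P : Subgroup G) : Set G)} : Set G).ncard = SP.ncard := rfl
  have eQ : ({u : G | u ≠ 1 ∧ ∃ s : G, s * u * s⁻¹ ∈ Subgroup.centralizer ((Q : Subgroup G) : Set G)} : Set G).ncard = SQ.ncard := rfl
  rw [eP] at kP
  rw [eQ] at kQ
  omega

end Cfsg.Agent.S4160
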