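import Cfsg.Statements.S4163
-- import your own Cfsg.Agent.* helpers here

import Mathlib

set_option autoImplicit false
open Cfsg

namespace Cfsg.Agent.S4163

open scoped commutatorElement

/-- the key counting step: commutators of an abelian normal subgroup with an element of minimal
noncentral class size are central. -/
theorem comm_mem_center {G : Type*} [Group G] [Finite G] (A : Subgroup G) [hAn : A.Normal]
    (hAc : ∀ u ∈ A, ∀ v ∈ A, u * v = v * u) (m : ℕ)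
    (hmin : ∀ x : G, 1 < (Subgroup.centralizer ({x} : Set G)).index →
      m ≤ (Subgroup.centralizer ({x} : Set G)).index)
    (x : G) (hx : (Subgroup.centralizer ({x} : Set G)).index = m) (a : G) (ha : a ∈ A) :
    x * a * x⁻¹ * a⁻¹ ∈ Subgroup.center G := by
  by_contra hw
  obtain ⟨w, hwdef⟩ : ∃ w, w = x * a * x⁻¹ * a⁻¹ := ⟨_, rfl⟩
  rw [← hwdef] at hw
  have hwA : w ∈ A := by
    rw [hwdef]; exact A.mul_mem (hAn.conj_mem a ha x) (A.inv_mem ha)
  have hw1 : w ≠ 1 := fun h => hw (h ▸ Subgroup.one_mem _)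
  obtain ⟨Cx, hCx⟩ : ∃ Cx, Cx = Subgroup.centralizer ({x} : Set G) := ⟨_, rfl⟩
  obtain ⟨Cw, hCw⟩ : ∃ Cw, Cw = Subgroup.centralizer ({w} : Set G) := ⟨_, rfl⟩
  have hCxm : ∀ g, g ∈ Cx ↔ x * g = g * x := by
    intro g
    rw [hCx, Subgroup.mem_centralizer_iff]
    constructor
    · intro h; exact h x (Set.mem_singleton x)
    · intro h y hy; rw [Set.mem_singleton_iff] at hy; rw [hy]; exact h
  have hCwm : ∀ g, g ∈ Cw ↔ w * g = g * w := by
    intro g
    rw [hCw, Subgroup.mem_centralizer_iff]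
    constructor
    · intro h; exact h w (Set.mem_singleton w)
    · intro h y hy; rw [Set.mem_singleton_iff] at hy; rw [hy]; exact h
  rw [← hCx] at hx
  classical
  obtain ⟨rep, hrepdef⟩ : ∃ rep : G → G, rep = fun o =>
      if h : ∃ c₀, c₀ ∈ Cx ∧ c₀ * w * c₀⁻¹ = o then Classical.choose h else 1 := ⟨_, rfl⟩
  have hrep : ∀ c ∈ Cx, rep (c * w * c⁻¹) ∈ Cx ∧
      rep (c * w * c⁻¹) * w * (rep (c * w * c⁻¹))⁻¹ = c * w * c⁻¹ := by
    intro c hc
    have h : ∃ c₀, c₀ ∈ Cx ∧ c₀ * w * c₀⁻¹ = c * w * c⁻¹ := ⟨c, hc, rfl⟩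
    rw [hrepdef]
    simp only [dif_pos h]
    exact Classical.choose_spec h
  obtain ⟨val, hvaldef⟩ : ∃ val : G → G, val = fun c =>
      rep (c * w * c⁻¹) * a * (rep (c * w * c⁻¹))⁻¹ * ((rep (c * w * c⁻¹))⁻¹ * c) := ⟨_, rfl⟩
  -- the commutator of x with the conjugate of a
  have hkey : ∀ c ∈ Cx, x * (rep (c * w * c⁻¹) * a * (rep (c * w * c⁻¹))⁻¹) * x⁻¹ *
      (rep (c * w * c⁻¹) * a * (rep (c * w * c⁻¹))⁻¹)⁻¹ = c * w * c⁻¹ := by
    intro c hc
    obtain ⟨hr1, hr2⟩ := hrep c hc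
    obtain ⟨r, hr⟩ : ∃ r, r = rep (c * w * c⁻¹) := ⟨_, rfl⟩
    rw [← hr] at hr1 hr2 ⊢
    have hxr : x * r = r * x := (hCxm r).mp hr1
    have hxr' : x⁻¹ * r = r * x⁻¹ := by
      calc x⁻¹ * r = x⁻¹ * (r * x) * x⁻¹ := by group
        _ = x⁻¹ * (x * r) * x⁻¹ := by rw [hxr]
        _ = r * x⁻¹ := by group
    calc x * (r * a * r⁻¹) * x⁻¹ * (r * a * r⁻¹)⁻¹
        = (x * r) * a * r⁻¹ * (x⁻¹ * r) * a⁻¹ * r⁻¹ := by group
      _ = (r * x) * a * r⁻¹ * (r * x⁻¹) * a⁻¹ * r⁻¹ := by rw [hxr, hxr']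
      _ = r * (x * a * x⁻¹ * a⁻¹) * r⁻¹ := by group
      _ = c * w * c⁻¹ := by rw [← hwdef, hr2]
  have hval_mem : ∀ c ∈ Cx, val c ∈ Cw := by
    intro c hc
    obtain ⟨hr1, hr2⟩ := hrep c hc
    rw [hvaldef]
    obtain ⟨r, hr⟩ : ∃ r, r = rep (c * w * c⁻¹) := ⟨_, rfl⟩
    simp only
    rw [← hr] at hr1 hr2 ⊢
    apply Subgroup.mul_mem
    · rw [hCwm]
      exact hAc w hwA _ (hAn.conj_mem a ha r)
    · rw [hCwm]
      calc w * (r⁻¹ * c) = r⁻¹ * (r * w * r⁻¹) * c := by group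
        _ = r⁻¹ * (c * w * c⁻¹) * c := by rw [hr2]
        _ = r⁻¹ * c * w := by group
  have hval_inj : ∀ c ∈ Cx, ∀ c' ∈ Cx, val c = val c' → c = c' := by
    intro c hc c' hc' heq
    have hk := hkey c hc
    have hk' := hkey c' hc'
    obtain ⟨hr1, hr2⟩ := hrep c hc
    obtain ⟨hr1', hr2'⟩ := hrep c' hc'
    rw [hvaldef] at heq
    simp only at heq
    obtain ⟨r, hr⟩ : ∃ r, r = rep (c * w * c⁻¹) := ⟨_, rfl⟩
    obtain ⟨r', hr'⟩ : ∃ r', r' = rep (c' * w * c'⁻¹) := ⟨_, rfl⟩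
    rw [← hr] at hk hr1 heq
    rw [← hr'] at hk' hr1' heq
    -- e := (r'⁻¹ c') (r⁻¹ c)⁻¹ commutes with x
    have he : r * a * r⁻¹ = r' * a * r'⁻¹ * ((r'⁻¹ * c') * (r⁻¹ * c)⁻¹) := by
      calc r * a * r⁻¹ = (r * a * r⁻¹ * (r⁻¹ * c)) * (r⁻¹ * c)⁻¹ := by group
        _ = (r' * a * r'⁻¹ * (r'⁻¹ * c')) * (r⁻¹ * c)⁻¹ := by rw [heq]
        _ = r' * a * r'⁻¹ * ((r'⁻¹ * c') * (r⁻¹ * c)⁻¹) := by group
    have heC : (r'⁻¹ * c') * (r⁻¹ * c)⁻¹ ∈ Cx :=
      Cx.mul_mem (Cx.mul_mem (Cx.inv_mem hr1') hc') (Cx.inv_mem (Cx.mul_mem (Cx.inv_mem hr1) hc))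
    obtain ⟨e, hedef⟩ : ∃ e, e = (r'⁻¹ * c') * (r⁻¹ * c)⁻¹ := ⟨_, rfl⟩
    rw [← hedef] at he heC
    have hxe : x * e = e * x := (hCxm e).mp heC
    have hsame : c * w * c⁻¹ = c' * w * c'⁻¹ := by
      rw [← hk, ← hk', he]
      have hxe' : e * x⁻¹ = x⁻¹ * e := by
        calc e * x⁻¹ = x⁻¹ * (x * e) * x⁻¹ := by group
          _ = x⁻¹ * (e * x) * x⁻¹ := by rw [hxe]
          _ = x⁻¹ * e := by group
      calc x * (r' * a * r'⁻¹ * e) * x⁻¹ * (r' * a * r'⁻¹ * e)⁻¹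
          = x * (r' * a * r'⁻¹) * (e * x⁻¹) * e⁻¹ * (r' * a * r'⁻¹)⁻¹ := by group
        _ = x * (r' * a * r'⁻¹) * (x⁻¹ * e) * e⁻¹ * (r' * a * r'⁻¹)⁻¹ := by rw [hxe']
        _ = x * (r' * a * r'⁻¹) * x⁻¹ * (r' * a * r'⁻¹)⁻¹ := by group
    have hrr : r = r' := by rw [hr, hr', hsame]
    rw [← hrr] at heq
    have := mul_left_cancel heq
    exact mul_left_cancel this
  have hval_D : ∀ c ∈ Cx, ∀ d ∈ Cx ⊓ Cw, val c ≠ d := by
    intro c hc d hd heq
    have hk := hkey c hc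
    obtain ⟨hr1, hr2⟩ := hrep c hc
    rw [hvaldef] at heq
    simp only at heq
    obtain ⟨r, hr⟩ : ∃ r, r = rep (c * w * c⁻¹) := ⟨_, rfl⟩
    rw [← hr] at hk hr1 heq
    have h1 : r * a * r⁻¹ = d * (r⁻¹ * c)⁻¹ := by
      rw [← heq]; group
    have h2 : r * a * r⁻¹ ∈ Cx := by
      rw [h1]
      exact Cx.mul_mem (Subgroup.mem_inf.mp hd).1 (Cx.inv_mem (Cx.mul_mem (Cx.inv_mem hr1) hc))
    have h3 := (hCxm _).mp h2
    have h4 : c * w * c⁻¹ = 1 := by
      rw [← hk, h3]; group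
    apply hw1
    calc w = c⁻¹ * (c * w * c⁻¹) * c := by group
      _ = 1 := by rw [h4]; group
  -- the injection
  obtain ⟨F, hF⟩ : ∃ F : ↥Cx ⊕ ↥(Cx ⊓ Cw) → ↥Cw, F = Sum.elim
      (fun c => ⟨val c.1, hval_mem c.1 c.2⟩) (fun d => ⟨d.1, (Subgroup.mem_inf.mp d.2).2⟩) :=
    ⟨_, rfl⟩
  have hFinj : Function.Injective F := by
    rw [hF]
    rintro (c | d) (c' | d') heq
    · simp only [Sum.elim_inl, Subtype.mk.injEq] at heq
      exact congrArg Sum.inl (Subtype.ext (hval_inj c.1 c.2 c'.1 c'.2 heq))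
    · simp only [Sum.elim_inl, Sum.elim_inr, Subtype.mk.injEq] at heq
      exact absurd heq (hval_D c.1 c.2 d'.1 d'.2)
    · simp only [Sum.elim_inl, Sum.elim_inr, Subtype.mk.injEq] at heq
      exact absurd heq.symm (hval_D c'.1 c'.2 d.1 d.2)
    · simp only [Sum.elim_inr, Subtype.mk.injEq] at heq
      exact congrArg Sum.inr (Subtype.ext heq)
  have hcard := Nat.card_le_card_of_injective F hFinj
  rw [Nat.card_sum] at hcard
  have hDpos : 0 < Nat.card ↥(Cx ⊓ Cw) := Nat.card_pos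
  have hlt : Nat.card Cx < Nat.card Cw := by omega
  have e1 := Subgroup.index_mul_card Cx
  have e2 := Subgroup.index_mul_card Cw
  have hCwtop : Cw ≠ ⊤ := by
    intro h
    apply hw
    rw [Subgroup.mem_center_iff]
    intro g
    have : g ∈ Cw := by rw [h]; exact Subgroup.mem_top g
    exact ((hCwm g).mp this).symm
  have hidx1 : Cw.index ≠ 1 := fun h => hCwtop (Subgroup.index_eq_one.mp h)
  have hidx0 : Cw.index ≠ 0 := Subgroup.index_ne_zero_of_finite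
  have hmle := hmin w (by rw [← hCw]; omega)
  rw [← hCw] at hmle
  rw [hx] at e1
  have : m * Nat.card Cx < Cw.index * Nat.card Cw := by
    have hpos : 0 < Nat.card Cx := Nat.card_pos
    calc m * Nat.card Cx ≤ Cw.index * Nat.card Cx := Nat.mul_le_mul_right _ hmle
      _ < Cw.index * Nat.card Cw := Nat.mul_lt_mul_of_pos_left hlt (by omega)
  omega

/-- Let G be a finite group with a normal abelian subgroup A satisfying C_G(A) = A. Suppose some conjugacy class of G has size greater than 1, let m be the smallest such size, and let M be the subgroup generated by the elements whose class has size 1 or m. Then M is nilpotent of class at most 3. -/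
theorem aux {G : Type*} [Group G] [Finite G]
    (A : Subgroup G) [hAn : A.Normal] (hAc : ∀ u ∈ A, ∀ v ∈ A, u * v = v * u)
    (hCA : Subgroup.centralizer (A : Set G) = A)
    (m : ℕ) (hmin : ∀ x : G, 1 < (Subgroup.centralizer ({x} : Set G)).index → m ≤ (Subgroup.centralizer ({x} : Set G)).index)
    (T : Set G) (hT : T = {x : G | (Subgroup.centralizer ({x} : Set G)).index = 1 ∨ (Subgroup.centralizer ({x} : Set G)).index = m}) :
    (∀ g ∈ Subgroup.closure T, ∀ a ∈ A, g * a * g⁻¹ * a⁻¹ ∈ Subgroup.center G) ∧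
    (∀ g ∈ Subgroup.closure T, ∀ h ∈ Subgroup.closure T, g * h * g⁻¹ * h⁻¹ ∈ A) := by
  have hconj : ∀ z ∈ Subgroup.center G, ∀ g : G, g * z * g⁻¹ = z := by
    intro z hz g
    rw [Subgroup.mem_center_iff.mp hz g, mul_inv_cancel_right]
  have h1 : ∀ x ∈ T, ∀ a ∈ A, x * a * x⁻¹ * a⁻¹ ∈ Subgroup.center G := by
    intro x hx a ha
    rw [hT] at hx
    rcases hx with hx | hx
    · have htop := Subgroup.index_eq_one.mp hx
      have hxa : x * a = a * x := by
        have : a ∈ Subgroup.centralizer ({x} : Set G) := by rw [htop]; exact Subgroup.mem_top a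
        exact (Subgroup.mem_centralizer_iff.mp this) x (Set.mem_singleton x)
      have : x * a * x⁻¹ * a⁻¹ = 1 := by rw [hxa]; group
      rw [this]; exact Subgroup.one_mem _
    · exact comm_mem_center A hAc m hmin x hx a ha
  have h2 : ∀ g ∈ Subgroup.closure T, ∀ a ∈ A, g * a * g⁻¹ * a⁻¹ ∈ Subgroup.center G := by
    intro g hg
    induction hg using Subgroup.closure_induction with
    | mem x hx => exact h1 x hx
    | one =>
      intro a _
      have : (1 : G) * a * 1⁻¹ * a⁻¹ = 1 := by group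
      rw [this]; exact Subgroup.one_mem _
    | mul g h _ _ ihg ihh =>
      intro a ha
      have e : g * h * a * (g * h)⁻¹ * a⁻¹ =
          g * (h * a * h⁻¹ * a⁻¹) * g⁻¹ * (g * a * g⁻¹ * a⁻¹) := by group
      rw [e, hconj _ (ihh a ha) g]
      exact Subgroup.mul_mem _ (ihh a ha) (ihg a ha)
    | inv g _ ih =>
      intro a ha
      have hz := Subgroup.inv_mem _ (ih a ha)
      have e : g⁻¹ * a * g⁻¹⁻¹ * a⁻¹ = g⁻¹ * (g * a * g⁻¹ * a⁻¹)⁻¹ * g⁻¹⁻¹ := by group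
      rw [e, hconj _ hz g⁻¹]
      exact hz
  refine ⟨h2, ?_⟩
  intro g hg h hh
  have key : ∀ a ∈ A, g * h * a * (g * h)⁻¹ = h * g * a * (h * g)⁻¹ := by
    intro a ha
    have hz1 := h2 h hh a ha
    have hz2 := h2 g hg a ha
    calc g * h * a * (g * h)⁻¹
        = g * (h * a * h⁻¹ * a⁻¹) * g⁻¹ * (g * a * g⁻¹ * a⁻¹) * a := by group
      _ = (h * a * h⁻¹ * a⁻¹) * (g * a * g⁻¹ * a⁻¹) * a := by rw [hconj _ hz1 g]
      _ = (g * a * g⁻¹ * a⁻¹) * (h * a * h⁻¹ * a⁻¹) * a := by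
          rw [Subgroup.mem_center_iff.mp hz1 (g * a * g⁻¹ * a⁻¹)]
      _ = h * (g * a * g⁻¹ * a⁻¹) * h⁻¹ * (h * a * h⁻¹ * a⁻¹) * a := by rw [hconj _ hz2 h]
      _ = h * g * a * (h * g)⁻¹ := by group
  rw [← hCA, Subgroup.mem_centralizer_iff]
  intro a ha
  have ha' : (h * g)⁻¹ * a * (h * g) ∈ A := by
    have := hAn.conj_mem a ha (h * g)⁻¹
    simpa using this
  have h3 := key _ ha'
  have h4 : h * g * ((h * g)⁻¹ * a * (h * g)) * (h * g)⁻¹ = a := by group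
  rw [h4] at h3
  calc a * (g * h * g⁻¹ * h⁻¹) = (g * h * ((h * g)⁻¹ * a * (h * g)) * (g * h)⁻¹) * (g * h * g⁻¹ * h⁻¹) := by
        rw [h3]
    _ = g * h * g⁻¹ * h⁻¹ * a := by group

/-- Let G be a finite group with a normal abelian subgroup A satisfying C_G(A) = A. Suppose some conjugacy class of G has size greater than 1, let m be the smallest such size, and let M be the subgroup generated by the elements whose class has size 1 or m. Then M is nilpotent of class at most 3. -/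
theorem result {G : Type*} [Group G] [Finite G]
    (A : Subgroup G) [A.Normal] (hA : IsMulCommutative A) (hCA : Subgroup.centralizer (A : Set G) = A)
    (m : ℕ) (hm1 : 1 < m) (hm : ∃ x : G, (Subgroup.centralizer ({x} : Set G)).index = m) (hmin : ∀ x : G, 1 < (Subgroup.centralizer ({x} : Set G)).index → m ≤ (Subgroup.centralizer ({x} : Set G)).index) :
    Subgroup.upperCentralSeries ↥(Subgroup.closure {x : G | (Subgroup.centralizer ({x} : Set G)).index = 1 ∨ (Subgroup.centralizer ({x} : Set G)).index = m}) 3 = ⊤ := by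
  have hAc : ∀ u ∈ A, ∀ v ∈ A, u * v = v * u := fun u hu v hv =>
    congrArg Subtype.val (hA.is_comm.comm ⟨u, hu⟩ ⟨v, hv⟩)
  obtain ⟨T, hT⟩ : ∃ T : Set G, T = {x : G | (Subgroup.centralizer ({x} : Set G)).index = 1 ∨
      (Subgroup.centralizer ({x} : Set G)).index = m} := ⟨_, rfl⟩
  rw [← hT]
  obtain ⟨h2, h3⟩ := aux A hAc hCA m hmin T hT
  rw [eq_top_iff]
  intro u _
  rw [Subgroup.mem_upperCentralSeries_succ_iff]
  intro y
  rw [Subgroup.mem_upperCentralSeries_succ_iff]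
  intro v
  rw [Subgroup.upperCentralSeries_one, Subgroup.mem_center_iff]
  intro t
  apply Subtype.ext
  have hc : (u : G) * y * (u : G)⁻¹ * (y : G)⁻¹ ∈ A := h3 u u.2 y y.2
  have hz := h2 v v.2 _ hc
  have hz' := Subgroup.inv_mem _ hz
  have e : (((⁅⁅u, y⁆, v⁆ : ↥(Subgroup.closure T)) : G)) =
      ((v : G) * ((u : G) * y * (u : G)⁻¹ * (y : G)⁻¹) * (v : G)⁻¹ *
        ((u : G) * y * (u : G)⁻¹ * (y : G)⁻¹)⁻¹)⁻¹ := by
    simp only [commutatorElement_def, Subgroup.coe_mul, Subgroup.coe_inv]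
    group
  rw [Subgroup.coe_mul, Subgroup.coe_mul, e]
  exact Subgroup.mem_center_iff.mp hz' t

end Cfsg.Agent.S4163
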