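import Cfsg.Statements.S4168

set_option autoImplicit false
open Cfsg
open scoped commutatorElement

namespace Cfsg.Agent.S4168

theorem result {L : Type*} [Group L] [Finite L] (hL : Cfsg.IsQuasisimple L)
    (p : ℕ) (hp : p.Prime) (hdiv : p ∣ Nat.card (Subgroup.center L)) : p ∣ (Subgroup.center L).index := by
  classical
  by_contra hnd
  have : Fact p.Prime := ⟨hp⟩
  obtain ⟨hperf, -⟩ := hL
  obtain ⟨P⟩ := (inferInstance : Nonempty (Sylow p L))
  -- P ≤ center
  have hPZ : (P : Subgroup L) ≤ Subgroup.center L := by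
    intro x hx
    obtain ⟨k, hk⟩ := (IsPGroup.iff_orderOf.mp P.isPGroup') ⟨x, hx⟩
    rw [Subgroup.orderOf_mk] at hk
    have h1 : orderOf (QuotientGroup.mk' (Subgroup.center L) x) ∣ p ^ k := by
      rw [← hk]; exact orderOf_map_dvd _ x
    have h2 : orderOf (QuotientGroup.mk' (Subgroup.center L) x) ∣ (Subgroup.center L).index := by
      rw [Subgroup.index_eq_card]; exact orderOf_dvd_natCard _
    obtain ⟨j, -, hj⟩ := (Nat.dvd_prime_pow hp).mp h1
    rcases Nat.eq_zero_or_pos j with hj0 | hj0
    · rw [hj0, pow_zero, orderOf_eq_one_iff] at hj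
      exact (QuotientGroup.eq_one_iff x).mp hj
    · exfalso
      apply hnd
      refine dvd_trans ?_ h2
      rw [hj]
      exact dvd_pow_self p (by omega)
  have hcomm : ∀ a b : (P : Subgroup L), a * b = b * a := by
    intro a b
    apply Subtype.ext
    simp only [Subgroup.coe_mul]
    exact (Subgroup.mem_center_iff.mp (hPZ b.2) a.1)
  have hNC : Subgroup.normalizer ((P : Subgroup L) : Set L) ≤ Subgroup.centralizer ((P : Subgroup L) : Set L) := by
    intro g _
    rw [Subgroup.mem_centralizer_iff]
    intro h hh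
    exact (Subgroup.mem_center_iff.mp (hPZ hh) g).symm
  have hcomp := MonoidHom.ker_transferSylow_isComplement' P hNC
  have hker : (MonoidHom.transferSylow P hNC).ker = ⊤ := by
    rw [eq_top_iff, ← hperf.commutator_eq_top, commutator_def, Subgroup.commutator_le]
    intro a _ b _
    rw [MonoidHom.mem_ker, map_commutatorElement, commutatorElement_eq_one_iff_commute]
    exact hcomm _ _
  have h3 := hcomp.card_mul_card
  rw [hker, Subgroup.card_top] at h3
  have h4 : Nat.card (P : Subgroup L) = 1 := by
    have hpos : 0 < Nat.card L := Nat.card_pos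
    have : Nat.card L * Nat.card (P : Subgroup L) = Nat.card L * 1 := by rw [h3, mul_one]
    exact Nat.eq_of_mul_eq_mul_left hpos this
  have hpL : p ∣ Nat.card L := hdiv.trans (Subgroup.card_subgroup_dvd_card _)
  exact P.ne_bot_of_dvd_card hpL (Subgroup.card_eq_one.mp h4)

end Cfsg.Agent.S4168
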