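import Cfsg.Statements.S4169
-- import your own Cfsg.Agent.* helpers here

import Mathlib
import Cfsg.Agent.S4163
import Cfsg.Agent.Lead.Quat

set_option autoImplicit false
open Cfsg

namespace Cfsg.Agent.S4169

open scoped commutatorElement

/-- Let P be a finite p-group whose conjugacy classes have exactly two sizes (1 and one other value). Then P has nilpotency class at most 3. -/
theorem result {P : Type*} [Group P] [Finite P] {p : ℕ} [Fact p.Prime] (hP : IsPGroup p P)
    (m : ℕ) (hm : 1 < m) (h : ∀ x : P, (Subgroup.centralizer ({x} : Set P)).index = 1 ∨ (Subgroup.centralizer ({x} : Set P)).index = m) :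
    upperCentralSeries P 3 = ⊤ := by
  haveI : Nonempty {B : Subgroup P // B.Normal ∧ ∀ x ∈ B, ∀ y ∈ B, x * y = y * x} :=
    ⟨⟨⊥, inferInstance, by
      intro x hx y hy
      rw [Subgroup.mem_bot] at hx hy
      rw [hx, hy]⟩⟩
  obtain ⟨⟨A, hAn, hAc⟩, hAmax⟩ := Finite.exists_max
    (fun B : {B : Subgroup P // B.Normal ∧ ∀ x ∈ B, ∀ y ∈ B, x * y = y * x} =>
      Nat.card (B : Subgroup P))
  haveI := hAn
  have hmax : ∀ B : Subgroup P, B.Normal → (∀ x ∈ B, ∀ y ∈ B, x * y = y * x) → A ≤ B → B = A := by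
    intro B hBn hBc hAB
    have h1 := hAmax ⟨B, hBn, hBc⟩
    exact (Subgroup.eq_of_le_of_card_ge hAB h1).symm
  have hCA : Subgroup.centralizer (A : Set P) = A := by
    apply le_antisymm
    · exact Cfsg.Agent.Lead.centralizer_le_of_maximal_normal_abelian p hP A hAc hmax
    · intro a ha
      rw [Subgroup.mem_centralizer_iff]
      intro b hb
      exact hAc b hb a ha
  have hmin : ∀ x : P, 1 < (Subgroup.centralizer ({x} : Set P)).index →
      m ≤ (Subgroup.centralizer ({x} : Set P)).index := by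
    intro x hx
    rcases h x with h1 | h1
    · omega
    · omega
  obtain ⟨h2, h3⟩ := Cfsg.Agent.S4163.aux A hAc hCA m hmin _ rfl
  have hall : ∀ g : P, g ∈ Subgroup.closure {x : P | (Subgroup.centralizer ({x} : Set P)).index = 1 ∨
      (Subgroup.centralizer ({x} : Set P)).index = m} := fun g => Subgroup.subset_closure (h g)
  show Subgroup.upperCentralSeries P 3 = ⊤
  rw [eq_top_iff]
  intro u _
  rw [Subgroup.mem_upperCentralSeries_succ_iff]
  intro y
  rw [Subgroup.mem_upperCentralSeries_succ_iff]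
  intro v
  rw [Subgroup.upperCentralSeries_one, Subgroup.mem_center_iff]
  intro t
  have hc : u * y * u⁻¹ * y⁻¹ ∈ A := h3 u (hall u) y (hall y)
  have hz := h2 v (hall v) _ hc
  have hz' := Subgroup.inv_mem _ hz
  have e : ⁅⁅u, y⁆, v⁆ = (v * (u * y * u⁻¹ * y⁻¹) * v⁻¹ * (u * y * u⁻¹ * y⁻¹)⁻¹)⁻¹ := by
    simp only [commutatorElement_def]
    group
  rw [e]
  exact Subgroup.mem_center_iff.mp hz' t

end Cfsg.Agent.S4169
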