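import Cfsg.Statements.S4170
import Mathlib
import Cfsg.Agent.Helper13.Syl

set_option autoImplicit false
open scoped Pointwise
open Cfsg

namespace Cfsg.Agent.S4170

/-- a subgroup of index prime to `p` contains a Sylow `p`-subgroup -/
theorem exists_sylow_le {Z : Type*} [Group Z] [Finite Z] {p : ℕ} [Fact p.Prime] (S : Subgroup Z)
    (h : ¬ p ∣ S.index) : ∃ R : Sylow p Z, (R : Subgroup Z) ≤ S := by
  obtain ⟨Q₀⟩ : Nonempty (Sylow p S) := inferInstance
  have hQ1 : IsPGroup p ((Q₀ : Subgroup S).map S.subtype) := Q₀.2.map _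
  obtain ⟨R, hR⟩ := hQ1.exists_le_sylow
  refine ⟨R, ?_⟩
  have hcard : Nat.card (R : Subgroup Z) ≤ Nat.card ((Q₀ : Subgroup S).map S.subtype) := by
    rw [Subgroup.card_map_of_injective S.subtype_injective, Sylow.card_eq_multiplicity,
      Sylow.card_eq_multiplicity]
    have h2 : (Nat.card Z).factorization p = (Nat.card S).factorization p := by
      rw [← S.card_mul_index, Nat.factorization_mul Nat.card_pos.ne'
        Subgroup.index_ne_zero_of_finite]
      simp [Nat.factorization_eq_zero_of_not_dvd h]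
    rw [h2]
  have h3 := Subgroup.eq_of_le_of_card_ge hR hcard
  rw [← h3]
  exact Subgroup.map_subtype_le _


/-- Let p be an odd prime and G a nontrivial group of permutations of a finite set Ω that is generated by its elements of p-power order. Then Ω has two disjoint nonempty subsets Δ₁ and Δ₂ such that the index in G of the subgroup of elements mapping Δ₁ onto Δ₁ and Δ₂ onto Δ₂ (and hence also the complement of their union onto itself) is divisible by p. -/
theorem result {Ω : Type*} [Fintype Ω] (p : ℕ) [Fact p.Prime] (hp : p ≠ 2) (G : Subgroup (Equiv.Perm Ω)) (hG : G ≠ ⊥) (hgen : Subgroup.closure {g : G | ∃ k : ℕ, orderOf g = p ^ k} = ⊤) :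
    ∃ Δ₁ Δ₂ : Set Ω, Δ₁.Nonempty ∧ Δ₂.Nonempty ∧ Disjoint Δ₁ Δ₂ ∧ p ∣ (MulAction.stabilizer G Δ₁ ⊓ MulAction.stabilizer G Δ₂).index := by
  classical
  -- a nontrivial p-element
  have hx : ∃ x : G, x ≠ 1 ∧ ∃ k : ℕ, orderOf x = p ^ k := by
    by_contra hcon
    push Not at hcon
    have hsub : {g : G | ∃ k : ℕ, orderOf g = p ^ k} ⊆ ((⊥ : Subgroup G) : Set G) := by
      intro g hg
      by_contra hne
      obtain ⟨k, hk⟩ := hg
      exact hcon g (fun h => hne (by rw [h]; exact Subgroup.one_mem _)) k hk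
    have hle : (⊤ : Subgroup G) ≤ ⊥ := by rw [← hgen]; exact (Subgroup.closure_le _).2 hsub
    apply hG
    rw [Subgroup.eq_bot_iff_forall]
    intro g hg
    have h1 : (⟨g, hg⟩ : G) ∈ (⊥ : Subgroup G) := hle (Subgroup.mem_top _)
    rw [Subgroup.mem_bot] at h1
    exact congrArg Subtype.val h1
  obtain ⟨x, hx1, k, hxk⟩ := hx
  have hzp : IsPGroup p (Subgroup.zpowers x) :=
    IsPGroup.of_card (n := k) (by rw [Nat.card_zpowers, hxk])
  obtain ⟨P, hP⟩ := hzp.exists_le_sylow
  have hxP : x ∈ P := hP (Subgroup.mem_zpowers x)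
  obtain ⟨c, hc⟩ : ∃ c : Ω, x • c ≠ c := by
    by_contra hcon
    push Not at hcon
    apply hx1
    apply Subtype.ext
    ext ω
    exact hcon ω
  set F : Set Ω := {ω | ∀ y ∈ P, y • ω = ω} with hF
  have hcF : c ∉ F := fun h => hc (h x hxP)
  by_cases hFe : F = ∅
  · refine ⟨{c}, {x • c}, Set.singleton_nonempty _, Set.singleton_nonempty _, ?_, ?_⟩
    · rw [Set.disjoint_singleton]; exact fun h => hc h.symm
    · by_contra hnd
      obtain ⟨R, hR⟩ := exists_sylow_le _ hnd
      obtain ⟨g, rfl⟩ := MulAction.exists_smul_eq G P R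
      have h0 : g⁻¹ • c ∈ F := by
        intro y hy
        have h1 : g * y * g⁻¹ ∈ g • P := Cfsg.Agent.Helper13.conj_mem_smul_sylow P g y hy
        have h2 : g * y * g⁻¹ ∈ MulAction.stabilizer G ({c} : Set Ω) := (hR h1).1
        rw [MulAction.mem_stabilizer_iff, Set.smul_set_singleton,
          Set.singleton_eq_singleton_iff] at h2
        rw [mul_smul, mul_smul] at h2
        exact eq_inv_smul_iff.2 h2
      rw [hFe] at h0
      exact h0
  · refine ⟨{c}, F, Set.singleton_nonempty _, Set.nonempty_iff_ne_empty.2 hFe, ?_, ?_⟩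
    · rw [Set.disjoint_singleton_left]; exact hcF
    · by_contra hnd
      obtain ⟨R, hR⟩ := exists_sylow_le _ hnd
      set T := MulAction.stabilizer G F with hT
      have hPT : (P : Subgroup G) ≤ T := by
        intro y hy
        rw [hT, MulAction.mem_stabilizer_iff]
        ext ω
        constructor
        · rintro ⟨ω', hω', rfl⟩
          have h1 : y • ω' = ω' := hω' y hy
          show y • ω' ∈ F
          rw [h1]; exact hω'
        · intro hω
          exact ⟨ω, hω, hω y hy⟩
      have hRT : (R : Subgroup G) ≤ T := fun y hy => (hR hy).2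
      obtain ⟨h, hhT, hh⟩ := Cfsg.Agent.Helper13.exists_smul_eq_in T R P hRT hPT
      have h1 : h⁻¹ • c ∈ F := by
        intro y hy
        have h2 : h * y * h⁻¹ ∈ h • P := Cfsg.Agent.Helper13.conj_mem_smul_sylow P h y hy
        rw [hh] at h2
        have h3 : h * y * h⁻¹ ∈ MulAction.stabilizer G ({c} : Set Ω) := (hR h2).1
        rw [MulAction.mem_stabilizer_iff, Set.smul_set_singleton,
          Set.singleton_eq_singleton_iff] at h3
        rw [mul_smul, mul_smul] at h3
        exact eq_inv_smul_iff.2 h3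
      have h4 : h • F = F := MulAction.mem_stabilizer_iff.1 hhT
      apply hcF
      rw [← h4]
      exact ⟨h⁻¹ • c, h1, smul_inv_smul h c⟩

end Cfsg.Agent.S4170
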