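import Cfsg.Statements.S4172
import Mathlib
import Cfsg.Agent.Helper23.TateMinD

set_option autoImplicit false
open Cfsg
open scoped commutatorElement

namespace Cfsg.Agent.S4172

/-- Let p be a prime and G a finite group with a non-commutative Sylow p-subgroup P whose Frattini subgroup has index p² in P (P is generated by two elements). Suppose G has no nontrivial normal subgroup of order prime to p and the Frattini subgroup of P contains no nontrivial normal subgroup of G. Then the generalized Fitting subgroup F*(G) is the unique minimal normal subgroup of G, the image of P in G/F*(G) is cyclic, and if F*(G) is not commutative then P permutes the components of G transitively by conjugation. -/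
theorem result {G : Type*} [Group G] [Finite G] (p : ℕ) [Fact p.Prime] (P : Sylow p G) (hna : ¬ IsMulCommutative (P : Subgroup G)) (hgen : (frattini ↥(P : Subgroup G)).index = p ^ 2) (hcore : Cfsg.pPrimeCore p G = ⊥) (hfrat : ((frattini ↥(P : Subgroup G)).map (P : Subgroup G).subtype).normalCore = ⊥) [hFn : (Cfsg.generalizedFittingSubgroup G).Normal] :
    (Cfsg.generalizedFittingSubgroup G ≠ ⊥ ∧ ∀ K : Subgroup G, K.Normal → K ≠ ⊥ → Cfsg.generalizedFittingSubgroup G ≤ K) ∧
      IsCyclic ↥((P : Subgroup G).map (QuotientGroup.mk' (Cfsg.generalizedFittingSubgroup G))) ∧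
      (¬ IsMulCommutative (Cfsg.generalizedFittingSubgroup G) → ∀ K L : Subgroup G, Cfsg.IsComponent K → Cfsg.IsComponent L → ∃ x ∈ (P : Subgroup G), L = K.map (MulAut.conj x).toMonoidHom) := by
  obtain ⟨x0, hx0, y0, hy0, hxy⟩ :
      ∃ x ∈ (P : Subgroup G), ∃ y ∈ (P : Subgroup G), x * y ≠ y * x := by
    by_contra h
    push Not at h
    exact hna ⟨⟨fun a b => Subtype.ext (h a a.2 b b.2)⟩⟩
  have hc1 : ⁅x0, y0⁆ ≠ 1 := fun h => hxy (commutatorElement_eq_one_iff_mul_comm.mp h)
  have hAll : ∀ K : Subgroup G, K.Normal → K ≠ ⊥ → ⁅x0, y0⁆ ∈ K := by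
    intro K hKn hK
    haveI := hKn
    have hA := Cfsg.Agent.Helper23.TateMin.stepA P hcore hfrat K hK
    exact (Cfsg.Agent.Helper23.TateMin.stepB P hgen K
      (Cfsg.Agent.Helper23.TateMin.normal_le_normalizer _ K) hA).2 x0 hx0 y0 hy0
  obtain ⟨M, hMdef⟩ : ∃ M : Subgroup G, M = Subgroup.normalClosure ({⁅x0, y0⁆} : Set G) :=
    ⟨_, rfl⟩
  haveI hMn : M.Normal := by rw [hMdef]; exact Subgroup.normalClosure_normal
  have hcM : ⁅x0, y0⁆ ∈ M := by
    rw [hMdef]; exact Subgroup.subset_normalClosure (Set.mem_singleton _)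
  have hMne : M ≠ ⊥ := fun h => hc1 (by rw [h, Subgroup.mem_bot] at hcM; exact hcM)
  have hMc : ∀ N : Subgroup G, N.Normal → ⁅x0, y0⁆ ∈ N → M ≤ N := by
    intro N hN hcN
    haveI := hN
    rw [hMdef]
    exact Subgroup.normalClosure_le_normal (Set.singleton_subset_iff.mpr hcN)
  have hM : ∀ K : Subgroup G, K.Normal → K ≠ ⊥ → M ≤ K :=
    fun K hKn hK => hMc K hKn (hAll K hKn hK)
  have hMA := Cfsg.Agent.Helper23.TateMin.stepA P hcore hfrat M hMne
  have hKM : ∀ K : Subgroup G, Cfsg.IsComponent K → K ≤ M :=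
    fun K hK => Cfsg.Agent.Helper23.TateMin.comp_le_min P hgen M hM hMA K hK
  have hFM : Cfsg.generalizedFittingSubgroup G ≤ M := by
    unfold Cfsg.generalizedFittingSubgroup
    apply sup_le
    · exact sSup_le (fun K hK => hKM K hK)
    · rw [Cfsg.Agent.Helper10.fitting_eq_pCore_of_pPrimeCore_bot p hcore]
      apply sSup_le
      rintro W ⟨hWn, hWp⟩
      haveI := hWn
      exact Cfsg.Agent.Helper23.TateMin.pnormal_le_min P ⟨x0, hx0, y0, hy0, hxy⟩ hgen hfrat
        M hM hMA W hWp
  have hFne : Cfsg.generalizedFittingSubgroup G ≠ ⊥ := by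
    intro hF
    have h1 := Cfsg.Agent.Helper10.centralizer_gfitting_le G
    rw [hF] at h1
    have h2 : ⁅x0, y0⁆ ∈ Subgroup.centralizer ((⊥ : Subgroup G) : Set G) := by
      rw [Subgroup.mem_centralizer_iff]
      intro h hh
      rw [Subgroup.coe_bot, Set.mem_singleton_iff] at hh
      rw [hh, one_mul, mul_one]
    have := h1 h2
    rw [Subgroup.mem_bot] at this
    exact hc1 this
  refine ⟨⟨hFne, fun K hKn hK => le_trans hFM (hM K hKn hK)⟩, ?_, ?_⟩
  · have hA := Cfsg.Agent.Helper23.TateMin.stepA P hcore hfrat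
      (Cfsg.generalizedFittingSubgroup G) hFne
    obtain ⟨⟨g, hg⟩, -⟩ := Cfsg.Agent.Helper23.TateMin.stepB P hgen _
      (Cfsg.Agent.Helper23.TateMin.normal_le_normalizer _ (Cfsg.generalizedFittingSubgroup G)) hA
    have hmap : (P : Subgroup G).map (QuotientGroup.mk' (Cfsg.generalizedFittingSubgroup G))
        = Subgroup.zpowers (QuotientGroup.mk' (Cfsg.generalizedFittingSubgroup G) (g : G)) := by
      apply le_antisymm
      · rintro _ ⟨x, hx, rfl⟩
        have hx' : (⟨x, hx⟩ : ↥(P : Subgroup G)) ∈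
            (((Cfsg.generalizedFittingSubgroup G).subgroupOf (P : Subgroup G) ⊔
              Subgroup.zpowers g : Subgroup _) : Set _) := by
          rw [hg]; trivial
        rw [Subgroup.normal_mul] at hx'
        obtain ⟨s, hs, z, hz, hsz⟩ := Set.mem_mul.mp hx'
        obtain ⟨k, rfl⟩ := Subgroup.mem_zpowers_iff.mp hz
        have hval : x = (s : G) * (g : G) ^ k := by
          have := congrArg Subtype.val hsz
          simpa using this.symm
        rw [hval, map_mul, map_zpow]
        have h1 : QuotientGroup.mk' (Cfsg.generalizedFittingSubgroup G) (s : G) = 1 :=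
          (QuotientGroup.eq_one_iff _).mpr (Subgroup.mem_subgroupOf.mp hs)
        rw [h1, one_mul]
        exact Subgroup.zpow_mem_zpowers _ k
      · rw [Subgroup.zpowers_le]
        exact ⟨g, g.2, rfl⟩
    rw [hmap]
    infer_instance
  · intro _ K L hK hL
    exact Cfsg.Agent.Helper23.TateMin.comps_trans P hgen hcore M x0 y0 hx0 hy0 hMc hKM K L hK hL

end Cfsg.Agent.S4172
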