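import Cfsg.Statements.S4177

set_option autoImplicit false
open Cfsg

namespace Cfsg.Agent.S4177

/-- coprime orbit sizes: the stabilizer of `b` is transitive on the orbit of `a`. -/
theorem transitive_of_coprime {H X : Type*} [Group H] [Finite H] [MulAction H X] (a b : X)
    (hcop : (MulAction.stabilizer H a).index.Coprime (MulAction.stabilizer H b).index) :
    ∀ h : H, ∃ s ∈ MulAction.stabilizer H b, s • a = h • a := by
  classical
  set A := MulAction.stabilizer H a with hA
  set B := MulAction.stabilizer H b with hB
  have hA0 : A.index ≠ 0 := Subgroup.index_ne_zero_of_finite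
  have hB0 : B.index ≠ 0 := Subgroup.index_ne_zero_of_finite
  have h1 : (A ⊓ B).index = A.index * B.index := by
    apply le_antisymm Subgroup.index_inf_le
    apply Nat.le_of_dvd (Nat.pos_of_ne_zero Subgroup.index_ne_zero_of_finite)
    exact Nat.Coprime.mul_dvd_of_dvd_of_dvd hcop (Subgroup.index_dvd_of_le inf_le_left)
      (Subgroup.index_dvd_of_le inf_le_right)
  have h2 : A.relIndex B = A.index := by
    have h3 := Subgroup.relIndex_mul_index (inf_le_right : A ⊓ B ≤ B)
    rw [Subgroup.inf_relIndex_right, h1] at h3
    exact Nat.eq_of_mul_eq_mul_right (Nat.pos_of_ne_zero hB0) h3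
  have h4 : MulAction.stabilizer B a = A.subgroupOf B := by
    ext s
    rw [MulAction.mem_stabilizer_iff, Subgroup.mem_subgroupOf, hA, MulAction.mem_stabilizer_iff]
    rfl
  have h5 : (MulAction.orbit B a).ncard = (MulAction.orbit H a).ncard := by
    rw [← MulAction.index_stabilizer, ← MulAction.index_stabilizer, h4, ← Subgroup.relIndex, h2]
  have hfin : (MulAction.orbit H a).Finite := Set.finite_range _
  have h6 : MulAction.orbit B a = MulAction.orbit H a :=
    Set.eq_of_subset_of_ncard_le (MulAction.orbit_subgroup_subset B a) (le_of_eq h5.symm) hfin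
  intro h
  have h7 : h • a ∈ MulAction.orbit B a := by
    rw [h6]; exact MulAction.mem_orbit a h
  obtain ⟨s, hs⟩ := h7
  exact ⟨s, s.2, hs⟩

/-- a linear map constant on the orbit of `a` has image in a line. -/
theorem map_mem_span {k V H : Type*} [Field k] [AddCommGroup V] [Module k V] [Group H]
    (ρ : Representation k H V) (a : V)
    (hspan : Submodule.span k {u : V | ∃ h : H, ρ h a = u} = ⊤)
    (L : V →ₗ[k] V) (z : V) (hL : ∀ h : H, L (ρ h a) = z) (v : V) :
    L v ∈ Submodule.span k {z} := by
  have h1 : Submodule.span k {u : V | ∃ h : H, ρ h a = u} ≤ (Submodule.span k {z}).comap L := by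
    rw [Submodule.span_le]
    rintro u ⟨h, rfl⟩
    rw [SetLike.mem_coe, Submodule.mem_comap, hL h]
    exact Submodule.mem_span_singleton_self z
  rw [hspan] at h1
  exact h1 (Submodule.mem_top)

theorem result {k V H : Type*} [Field k] [AddCommGroup V] [Module k V] [Group H] [Finite H]
    (hchar : ¬ ringChar k ∣ Nat.card H) (ρ : Representation k H V) (a : V)
    (hspan : Submodule.span k {u : V | ∃ h : H, ρ h a = u} = ⊤) :
    Module.finrank k ρ.invariants ≤ 1 ∧
    ∀ b : V, (Nat.card {u : V | ∃ h : H, ρ h a = u}).Coprime (Nat.card {u : V | ∃ h : H, ρ h b = u}) → ∀ h : H, ρ h b = b := by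
  classical
  have : Fintype H := Fintype.ofFinite H
  have hcardH : (Nat.card H : k) ≠ 0 := by
    intro h
    exact hchar ((ringChar.spec k (Nat.card H)).mp h)
  -- the invariant vector w
  set w : V := ∑ g : H, ρ g a with hw
  have hw_inv : ∀ g : H, ρ g w = w := by
    intro g
    rw [hw, map_sum]
    have : ∀ h : H, ρ g (ρ h a) = ρ (g * h) a := by
      intro h; rw [map_mul]; rfl
    simp_rw [this]
    exact Fintype.sum_equiv (Equiv.mulLeft g) _ _ (fun h => rfl)
  -- the averaging operator
  have hE : ∀ h : H, (∑ g : H, ρ g) (ρ h a) = w := by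
    intro h
    rw [LinearMap.sum_apply, hw]
    have : ∀ g : H, ρ g (ρ h a) = ρ (g * h) a := by
      intro g; rw [map_mul]; rfl
    simp_rw [this]
    exact Fintype.sum_equiv (Equiv.mulRight h) _ _ (fun g => rfl)
  have hinv_le : ρ.invariants ≤ Submodule.span k {w} := by
    intro v hv
    have h1 := map_mem_span ρ a hspan (∑ g : H, ρ g) w hE v
    have h2 : (∑ g : H, ρ g) v = (Nat.card H : k) • v := by
      rw [LinearMap.sum_apply]
      have : ∀ g : H, ρ g v = v := fun g => hv g
      simp_rw [this]
      rw [Finset.sum_const, Finset.card_univ, Nat.card_eq_fintype_card, Nat.cast_smul_eq_nsmul]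
    rw [h2] at h1
    have h3 := Submodule.smul_mem _ ((Nat.card H : k)⁻¹) h1
    rwa [smul_smul, inv_mul_cancel₀ hcardH, one_smul] at h3
  have hspan_le : Submodule.span k {w} ≤ ρ.invariants := by
    rw [Submodule.span_le]
    intro v hv
    rw [Set.mem_singleton_iff] at hv
    subst hv
    exact hw_inv
  constructor
  · calc Module.finrank k ρ.invariants ≤ Module.finrank k (Submodule.span k {w}) :=
          Submodule.finrank_mono hinv_le
      _ ≤ 1 := by
          have := finrank_span_finset_le_card (R := k) ({w} : Finset V)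
          rw [Set.finrank, Finset.coe_singleton, Finset.card_singleton] at this
          exact this
  · intro b hcop h
    -- the action of H on V
    let act : MulAction H V :=
      { smul := fun h v => ρ h v
        one_smul := fun v => by change ρ 1 v = v; rw [map_one]; rfl
        mul_smul := fun g h v => by change ρ (g * h) v = ρ g (ρ h v); rw [map_mul]; rfl }
    have hsm : ∀ (g : H) (v : V), g • v = ρ g v := fun g v => rfl
    have horb : ∀ v : V, Nat.card {u : V | ∃ h : H, ρ h v = u} = (MulAction.stabilizer H v).index := by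
      intro v
      rw [MulAction.index_stabilizer, ← Nat.card_coe_set_eq]
      rfl
    rw [horb a, horb b] at hcop
    have htr := transitive_of_coprime a b hcop
    set B := MulAction.stabilizer H b with hB
    set z : V := ∑ s : B, ρ (s : H) a with hz
    have hz1 : ∀ g : H, ∑ s : B, ρ ((s : H) * g) a = z := by
      intro g
      obtain ⟨s₀, hs₀, hs₀a⟩ := htr g
      rw [hsm, hsm] at hs₀a
      have : ∀ s : B, ρ ((s : H) * g) a = ρ ((s * ⟨s₀, hs₀⟩ : B) : H) a := by
        intro s
        rw [Subgroup.coe_mul, map_mul, map_mul]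
        change ρ (s : H) (ρ g a) = ρ (s : H) (ρ s₀ a)
        rw [hs₀a]
      simp_rw [this]
      exact Fintype.sum_equiv (Equiv.mulRight (⟨s₀, hs₀⟩ : B)) _ _ (fun s => rfl)
    have hEb : ∀ g : H, (∑ s : B, ρ (s : H)) (ρ g a) = z := by
      intro g
      rw [LinearMap.sum_apply, ← hz1 g]
      apply Finset.sum_congr rfl
      intro s _
      rw [map_mul]; rfl
    have h1 := map_mem_span ρ a hspan (∑ s : B, ρ (s : H)) z hEb b
    have h2 : (∑ s : B, ρ (s : H)) b = (Nat.card B : k) • b := by
      rw [LinearMap.sum_apply]
      have : ∀ s : B, ρ (s : H) b = b := fun s => s.2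
      simp_rw [this]
      rw [Finset.sum_const, Finset.card_univ, Nat.card_eq_fintype_card, Nat.cast_smul_eq_nsmul]
    have hcardB : (Nat.card B : k) ≠ 0 := by
      intro h0
      apply hcardH
      obtain ⟨c, hc⟩ := Subgroup.card_subgroup_dvd_card B
      rw [hc, Nat.cast_mul, h0, zero_mul]
    rw [h2] at h1
    have h3 := Submodule.smul_mem _ ((Nat.card B : k)⁻¹) h1
    rw [smul_smul, inv_mul_cancel₀ hcardB, one_smul] at h3
    -- |H| z = |B| w
    have h4 : (Nat.card H : k) • z = (Nat.card B : k) • w := by
      have e1 : ∑ g : H, ∑ s : B, ρ ((s : H) * g) a = (Nat.card H : k) • z := by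
        simp_rw [hz1]
        rw [Finset.sum_const, Finset.card_univ, Nat.card_eq_fintype_card, Nat.cast_smul_eq_nsmul]
      have e2 : ∑ s : B, ∑ g : H, ρ ((s : H) * g) a = (Nat.card B : k) • w := by
        have : ∀ s : B, ∑ g : H, ρ ((s : H) * g) a = w := by
          intro s
          rw [hw]
          exact Fintype.sum_equiv (Equiv.mulLeft (s : H)) _ _ (fun g => rfl)
        simp_rw [this]
        rw [Finset.sum_const, Finset.card_univ, Nat.card_eq_fintype_card, Nat.cast_smul_eq_nsmul]
      rw [← e1, ← e2, Finset.sum_comm]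
    have h5 : z ∈ Submodule.span k {w} := by
      have : z = ((Nat.card H : k)⁻¹ * (Nat.card B : k)) • w := by
        rw [mul_smul, ← h4, smul_smul, inv_mul_cancel₀ hcardH, one_smul]
      rw [this]
      exact Submodule.smul_mem _ _ (Submodule.mem_span_singleton_self w)
    have h6 : b ∈ Submodule.span k {w} := by
      have : Submodule.span k {z} ≤ Submodule.span k {w} := by
        rw [Submodule.span_le]
        intro v hv
        rw [Set.mem_singleton_iff] at hv
        rw [hv]; exact h5
      exact this h3
    exact hspan_le h6 h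

end Cfsg.Agent.S4177
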