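import Cfsg.Statements.S4178
import Mathlib

set_option autoImplicit false
open Cfsg

namespace Cfsg.Agent.S4178

/-- generic orbit-stabiliser bound. -/
theorem index_le_of_orbit {G α : Type*} [Group G] [MulAction G α] (N : Subgroup G) (a : α)
    (s : Set α) (hs : s.Finite) (hstab : MulAction.stabilizer G a ≤ N)
    (horb : MulAction.orbit G a ⊆ s) : N.index ≤ s.ncard := by
  have h1 : N.index ∣ (MulAction.stabilizer G a).index := Subgroup.index_dvd_of_le hstab
  rw [MulAction.index_stabilizer] at h1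
  have h2 : (MulAction.orbit G a).ncard ≤ s.ncard := Set.ncard_le_ncard horb hs
  have h3 : 0 < (MulAction.orbit G a).ncard :=
    (Set.ncard_pos (hs.subset horb)).mpr (MulAction.nonempty_orbit a)
  exact (Nat.le_of_dvd h3 h1).trans h2

theorem ncard_ne_zero {F U : Type*} [Field F] [Fintype F] [AddCommGroup U] [Module F U]
    [FiniteDimensional F U] (W : Submodule F U) :
    ({w : U | w ∈ W ∧ w ≠ 0} : Set U).ncard = Fintype.card F ^ Module.finrank F W - 1 := by
  have : Finite U := Module.finite_of_finite F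
  have h1 : ({w : U | w ∈ W ∧ w ≠ 0} : Set U) = (W : Set U) \ {0} := by
    ext w
    simp
  rw [h1, Set.ncard_sdiff_singleton_of_mem (show (0 : U) ∈ (W : Set U) from W.zero_mem)]
  congr 1
  rw [← Nat.card_coe_set_eq, ← Nat.card_eq_fintype_card]
  exact Module.natCard_eq_pow_finrank (K := F) (V := W)

/-- the contragredient action of a group of linear automorphisms on the dual space. -/
@[reducible] def dualAction {F V : Type*} [Field F] [AddCommGroup V] [Module F V]
    (H : Subgroup (V ≃ₗ[F] V)) : MulAction H (Module.Dual F V) where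
  smul h f := f.comp (((h : V ≃ₗ[F] V)⁻¹ : V ≃ₗ[F] V) : V →ₗ[F] V)
  one_smul f := by
    ext v
    show f ((((1 : H) : V ≃ₗ[F] V)⁻¹ : V ≃ₗ[F] V) v) = f v
    simp
  mul_smul h1 h2 f := by
    ext v
    show f ((((h1 * h2 : H) : V ≃ₗ[F] V)⁻¹ : V ≃ₗ[F] V) v) =
      f (((h2 : V ≃ₗ[F] V)⁻¹ : V ≃ₗ[F] V) (((h1 : V ≃ₗ[F] V)⁻¹ : V ≃ₗ[F] V) v))
    simp [mul_inv_rev, LinearEquiv.mul_apply]

/-- Let F be a finite field with q elements, V a non-zero finite-dimensional F-space of dimension d, H a group of invertible linear maps of V, and R the subgroup of H generated by the elements of H that fix some non-zero vector (have eigenvalue 1). Then the index of R in H is at most q^d − 1; and if H leaves invariant some proper non-zero subspace, the index is at most q^(d/2) − 1. -/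
theorem result {F V : Type*} [Field F] [Fintype F] [AddCommGroup V] [Module F V] [FiniteDimensional F V] [Nontrivial V]
    (H : Subgroup (V ≃ₗ[F] V)) :
    (Subgroup.closure {h : ↥H | ∃ v : V, v ≠ 0 ∧ (h : V ≃ₗ[F] V) v = v}).index ≤ Fintype.card F ^ Module.finrank F V - 1 ∧
    ((∃ W : Submodule F V, W ≠ ⊥ ∧ W ≠ ⊤ ∧ ∀ h ∈ H, ∀ w ∈ W, h w ∈ W) →
      ((Subgroup.closure {h : ↥H | ∃ v : V, v ≠ 0 ∧ (h : V ≃ₗ[F] V) v = v}).index : ℝ) ≤ Real.sqrt ((Fintype.card F : ℝ) ^ Module.finrank F V) - 1) := by
  classical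
  have hfinV : Finite V := Module.finite_of_finite F
  have hfinD : Finite (Module.Dual F V) := Module.finite_of_finite F
  set N := Subgroup.closure {h : ↥H | ∃ v : V, v ≠ 0 ∧ (h : V ≃ₗ[F] V) v = v} with hN
  have hstab : ∀ w : V, w ≠ 0 → MulAction.stabilizer H w ≤ N := by
    intro w hw h hh
    apply Subgroup.subset_closure
    exact ⟨w, hw, hh⟩
  have horb : ∀ (W : Submodule F V), (∀ h ∈ H, ∀ w ∈ W, h w ∈ W) → ∀ w ∈ W, w ≠ 0 →
      MulAction.orbit H w ⊆ {u : V | u ∈ W ∧ u ≠ 0} := by
    rintro W hW w hw hw0 _ ⟨h, rfl⟩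
    refine ⟨hW h h.2 w hw, ?_⟩
    intro h0
    apply hw0
    have h1 : (h : V ≃ₗ[F] V) w = 0 := h0
    simpa using h1
  have hpart : ∀ (W : Submodule F V), W ≠ ⊥ → (∀ h ∈ H, ∀ w ∈ W, h w ∈ W) →
      N.index ≤ Fintype.card F ^ Module.finrank F W - 1 := by
    intro W hW0 hW
    obtain ⟨w, hw, hw0⟩ := Submodule.exists_mem_ne_zero_of_ne_bot hW0
    rw [← ncard_ne_zero W]
    exact index_le_of_orbit N w _ (Set.toFinite _) (hstab w hw0) (horb W hW w hw hw0)
  constructor
  · have h1 := hpart ⊤ top_ne_bot (fun _ _ _ _ => Submodule.mem_top)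
    rwa [finrank_top] at h1
  · rintro ⟨W, hW0, hWtop, hW⟩
    have h1 := hpart W hW0 hW
    letI := dualAction H
    set A : Submodule F (Module.Dual F V) := W.dualAnnihilator with hA
    have hdim : Module.finrank F W + Module.finrank F A = Module.finrank F V :=
      Subspace.finrank_add_finrank_dualAnnihilator_eq W
    have hdW : Module.finrank F W < Module.finrank F V := Submodule.finrank_lt hWtop
    have hA0 : A ≠ ⊥ := by
      intro h0
      rw [h0, finrank_bot] at hdim
      omega
    obtain ⟨f, hf, hf0⟩ := Submodule.exists_mem_ne_zero_of_ne_bot hA0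
    have hstabf : MulAction.stabilizer H f ≤ N := by
      intro h hh
      apply Subgroup.subset_closure
      have hfh : ∀ x : V, f (((h : V ≃ₗ[F] V)⁻¹ : V ≃ₗ[F] V) x) = f x := fun x =>
        LinearMap.congr_fun (show h • f = f from hh) x
      by_contra hcon
      simp only [Set.mem_ofPred_eq, not_exists, not_and] at hcon
      let T : V →ₗ[F] V := ((h : V ≃ₗ[F] V) : V →ₗ[F] V) - LinearMap.id
      have hTinj : Function.Injective T := by
        rw [← LinearMap.ker_eq_bot, LinearMap.ker_eq_bot']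
        intro v hv
        by_contra hv0
        exact hcon v hv0 (by simpa [T, sub_eq_zero] using hv)
      have hTsurj : Function.Surjective T := LinearMap.surjective_of_injective hTinj
      obtain ⟨u, hu⟩ : ∃ u, f u ≠ 0 := by
        by_contra hall
        push Not at hall
        exact hf0 (LinearMap.ext hall)
      obtain ⟨v, rfl⟩ := hTsurj u
      apply hu
      have h2 := hfh ((h : V ≃ₗ[F] V) v)
      have h3 : ((h : V ≃ₗ[F] V)⁻¹ : V ≃ₗ[F] V) ((h : V ≃ₗ[F] V) v) = v := by
        rw [← LinearEquiv.mul_apply, inv_mul_cancel]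
        rfl
      rw [h3] at h2
      simp [T, h2]
    have horbf : MulAction.orbit H f ⊆ {g | g ∈ A ∧ g ≠ 0} := by
      rintro _ ⟨h, rfl⟩
      have hdef : ∀ x : V, (h • f) x = f (((h : V ≃ₗ[F] V)⁻¹ : V ≃ₗ[F] V) x) := fun x => rfl
      constructor
      · rw [hA, Submodule.mem_dualAnnihilator]
        intro w hw
        rw [hdef]
        have h2 : ((h : V ≃ₗ[F] V)⁻¹ : V ≃ₗ[F] V) w ∈ W := hW _ (H.inv_mem h.2) w hw
        exact (Submodule.mem_dualAnnihilator f).mp hf _ h2
      · intro h0
        apply hf0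
        ext x
        have h2 := hdef ((h : V ≃ₗ[F] V) x)
        have h3 : ((h : V ≃ₗ[F] V)⁻¹ : V ≃ₗ[F] V) ((h : V ≃ₗ[F] V) x) = x := by
          rw [← LinearEquiv.mul_apply, inv_mul_cancel]
          rfl
        have h0' : h • f = 0 := h0
        rw [h3, h0'] at h2
        simpa using h2.symm
    have h2 : N.index ≤ Fintype.card F ^ Module.finrank F A - 1 := by
      rw [← ncard_ne_zero A]
      exact index_le_of_orbit N f _ (Set.toFinite _) hstabf horbf
    have hq : 0 < Fintype.card F := Fintype.card_pos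
    have hq1 : 0 < Fintype.card F ^ Module.finrank F W := pow_pos hq _
    have hq2 : 0 < Fintype.card F ^ Module.finrank F A := pow_pos hq _
    have h3 : (N.index + 1) ^ 2 ≤ Fintype.card F ^ Module.finrank F V := by
      rw [← hdim, pow_add, sq]
      exact Nat.mul_le_mul (by omega) (by omega)
    have h4 : ((N.index : ℝ) + 1) ^ 2 ≤ (Fintype.card F : ℝ) ^ Module.finrank F V := by
      exact_mod_cast h3
    have h5 : (N.index : ℝ) + 1 ≤ Real.sqrt ((Fintype.card F : ℝ) ^ Module.finrank F V) :=
      (Real.le_sqrt' (by positivity)).mpr h4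
    linarith

end Cfsg.Agent.S4178
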