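import Cfsg.Statements.S4184
import Cfsg.Agent.Helper17.Chen

set_option autoImplicit false
open Cfsg

namespace Cfsg.Agent.S4184

open Cfsg.Agent.Helper17.Chen in
/-- Let G and M be finite groups with trivial centres and the same set of conjugacy class sizes, and suppose the prime graph of M is disconnected: the prime divisors of #M split into two non-empty parts such that M has no element of order pq with p in one part and q in the other. Then #G = #M. -/
theorem result {G M : Type*}
    [Group G] [Finite G] [Group M] [Finite M] (hZG : Subgroup.center G = ⊥) (hZM : Subgroup.center M = ⊥)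
    (h : Set.range (fun g : G => (Subgroup.centralizer ({g} : Set G)).index) = Set.range (fun g : M => (Subgroup.centralizer ({g} : Set M)).index))
    (hdisc : ∃ A : Set ℕ, (∃ a ∈ A, a.Prime ∧ a ∣ Nat.card M) ∧ (∃ b ∉ A, b.Prime ∧ b ∣ Nat.card M) ∧
      ∀ a ∈ A, ∀ b ∉ A, a.Prime → b.Prime → a ∣ Nat.card M → b ∣ Nat.card M → ¬ ∃ x : M, orderOf x = a * b) :
    Nat.card G = Nat.card M := by
  classical
  obtain ⟨A, ⟨a0, ha0A, ha0p, ha0m⟩, ⟨b0, hb0A, hb0p, hb0m⟩, hno⟩ := hdisc
  have hm0 : Nat.card M ≠ 0 := Nat.card_pos.ne'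
  have hG0 : Nat.card G ≠ 0 := Nat.card_pos.ne'
  -- the key fact in M
  have MK : ∀ (x : M) (r s : ℕ), r.Prime → s.Prime → r ∣ orderOf x → s ∣ Nat.card M →
      (r ∈ A ↔ s ∉ A) → (cs x).factorization s = (Nat.card M).factorization s := by
    intro x r s hr hs hrx hsm hrs
    have hox : orderOf x ≠ 0 := (orderOf_pos x).ne'
    have hx' : orderOf (x ^ (orderOf x / r)) = r := orderOf_pow_orderOf_div hox hrx
    have hrm : r ∣ Nat.card M := hx' ▸ orderOf_dvd_natCard _
    have hrs_ne : r ≠ s := by
      rintro rfl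
      by_cases hrA : r ∈ A
      · exact (hrs.mp hrA) hrA
      · exact hrA (hrs.mpr hrA)
    have hnd : ¬ s ∣ Nat.card (Subgroup.centralizer ({x} : Set M)) := by
      intro hdvd
      haveI := Fact.mk hs
      obtain ⟨y, hy⟩ := exists_prime_orderOf_dvd_card' s hdvd
      have hy' : orderOf (y : M) = s := by
        rw [Subgroup.orderOf_coe]; exact hy
      have hcomm : Commute (y : M) x := by
        have := y.2
        rw [Subgroup.mem_centralizer_singleton_iff] at this
        exact this
      have hcomm' : Commute (y : M) (x ^ (orderOf x / r)) := hcomm.pow_right _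
      by_cases hrA : r ∈ A
      · have hsA : s ∉ A := hrs.mp hrA
        refine hno r hrA s hsA hr hs hrm hsm ⟨x ^ (orderOf x / r) * (y : M), ?_⟩
        rw [hcomm'.symm.orderOf_mul_eq_mul_orderOf_of_coprime, hx', hy']
        rw [hx', hy']
        exact (Nat.coprime_primes hr hs).mpr hrs_ne
      · have hsA : s ∈ A := by
          by_contra hsA
          exact hrA (hrs.mpr hsA)
        refine hno s hsA r hrA hs hr hsm hrm ⟨(y : M) * x ^ (orderOf x / r), ?_⟩
        rw [hcomm'.orderOf_mul_eq_mul_orderOf_of_coprime, hx', hy']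
        rw [hx', hy']
        exact (Nat.coprime_primes hs hr).mpr (Ne.symm hrs_ne)
    have := factorization_card_centralizer x s
    rw [Nat.factorization_eq_zero_of_not_dvd hnd, zero_add] at this
    exact this
  -- fullness predicates
  let full : Set ℕ → ℕ → Prop := fun S n =>
    ∀ r ∈ S, r.Prime → r ∣ Nat.card M → n.factorization r = (Nat.card M).factorization r
  have M1 : ∀ x : M, x ≠ 1 → full A (cs x) ∨ full Aᶜ (cs x) := by
    intro x hx
    have hox : orderOf x ≠ 1 := fun h => hx (orderOf_eq_one_iff.mp h)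
    have hr : (orderOf x).minFac.Prime := Nat.minFac_prime hox
    have hrx : (orderOf x).minFac ∣ orderOf x := Nat.minFac_dvd _
    by_cases hrA : (orderOf x).minFac ∈ A
    · right
      intro s hs hsp hsm
      exact MK x _ s hr hsp hrx hsm (iff_of_true hrA hs)
    · left
      intro s hs hsp hsm
      exact MK x _ s hr hsp hrx hsm (iff_of_false hrA (not_not.mpr hs))
  have M3 : ∀ x : M, ¬ (full A (cs x) ∧ full Aᶜ (cs x)) := by
    rintro x ⟨h1, h2⟩
    have hdvd : cs x ∣ Nat.card M := Subgroup.index_dvd_card _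
    have hcs0 : cs x ≠ 0 := fun h0 => hm0 (Nat.eq_zero_of_zero_dvd (h0 ▸ hdvd))
    have heq : cs x = Nat.card M := by
      apply Nat.eq_of_factorization_eq hcs0 hm0
      intro r
      by_cases hr : r.Prime
      · by_cases hrm : r ∣ Nat.card M
        · by_cases hrA : r ∈ A
          · exact h1 r hrA hr hrm
          · exact h2 r hrA hr hrm
        · rw [Nat.factorization_eq_zero_of_not_dvd hrm,
            Nat.factorization_eq_zero_of_not_dvd (fun h => hrm (h.trans hdvd))]
      · rw [Nat.factorization_eq_zero_of_not_prime _ hr,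
          Nat.factorization_eq_zero_of_not_prime _ hr]
    have hcard := Subgroup.card_mul_index (Subgroup.centralizer ({x} : Set M))
    have hc1 : Nat.card (Subgroup.centralizer ({x} : Set M)) = 1 := by
      have h3 : Nat.card (Subgroup.centralizer ({x} : Set M)) * Nat.card M = 1 * Nat.card M := by
        rw [one_mul]
        have : cs x = (Subgroup.centralizer ({x} : Set M)).index := rfl
        rw [← this, heq] at hcard
        exact hcard
      exact Nat.eq_of_mul_eq_mul_right (Nat.pos_of_ne_zero hm0) h3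
    have hbot := Subgroup.eq_bot_of_card_eq _ hc1
    have hxmem : x ∈ Subgroup.centralizer ({x} : Set M) := by
      rw [Subgroup.mem_centralizer_singleton_iff]
    rw [hbot, Subgroup.mem_bot] at hxmem
    subst hxmem
    rw [cs_one] at heq
    rw [← heq] at ha0m
    exact ha0p.one_lt.ne' (Nat.dvd_one.mp ha0m)
  have M4 : ∀ p : ℕ, p.Prime → p ∣ Nat.card M →
      ∃ x : M, (cs x).factorization p = (Nat.card M).factorization p := by
    intro p hp hpm
    by_cases hpA : p ∈ A
    · haveI := Fact.mk hb0p
      obtain ⟨y, hy⟩ := exists_prime_orderOf_dvd_card' (G := M) b0 hb0m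
      exact ⟨y, MK y b0 p hb0p hp (hy ▸ dvd_rfl) hpm (iff_of_false hb0A (not_not.mpr hpA))⟩
    · haveI := Fact.mk ha0p
      obtain ⟨y, hy⟩ := exists_prime_orderOf_dvd_card' (G := M) a0 ha0m
      exact ⟨y, MK y a0 p ha0p hp (hy ▸ dvd_rfl) hpm (iff_of_true ha0A hpA)⟩
  -- transfer
  have hGM : ∀ g : G, ∃ x : M, cs x = cs g := by
    intro g
    have : cs g ∈ Set.range (fun g : M => (Subgroup.centralizer ({g} : Set M)).index) :=
      h ▸ Set.mem_range_self g
    exact this
  have hMG : ∀ x : M, ∃ g : G, cs g = cs x := by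
    intro x
    have : cs x ∈ Set.range (fun g : G => (Subgroup.centralizer ({g} : Set G)).index) :=
      h.symm ▸ Set.mem_range_self x
    exact this
  have hdvd : ∀ g : G, cs g ∣ Nat.card M := by
    intro g
    obtain ⟨x, hx⟩ := hGM g
    rw [← hx]
    exact Subgroup.index_dvd_card _
  have htype : ∀ g : G, g ≠ 1 → full A (cs g) ∨ full Aᶜ (cs g) := by
    intro g hg
    obtain ⟨x, hx⟩ := hGM g
    have hx1 : x ≠ 1 := by
      rintro rfl
      rw [cs_one] at hx
      exact cs_ne_one hZG hg hx.symm
    rw [← hx]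
    exact M1 x hx1
  have hexcl : ∀ g : G, ¬ (full A (cs g) ∧ full Aᶜ (cs g)) := by
    intro g
    obtain ⟨x, hx⟩ := hGM g
    rw [← hx]
    exact M3 x
  have G4 : ∀ p : ℕ, p.Prime → p ∣ Nat.card M →
      (Nat.card M).factorization p ≤ (Nat.card G).factorization p := by
    intro p hp hpm
    obtain ⟨x, hx⟩ := M4 p hp hpm
    obtain ⟨g, hg⟩ := hMG x
    rw [← hx, ← hg]
    have hd : cs g ∣ Nat.card G := Subgroup.index_dvd_card _
    have hcs0 : cs g ≠ 0 := fun h0 => hG0 (Nat.eq_zero_of_zero_dvd (h0 ▸ hd))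
    exact (Nat.factorization_le_iff_dvd hcs0 hG0).mpr hd p
  have hmono : ∀ (S : Set ℕ) (n n' : ℕ), n ∣ n' → n' ∣ Nat.card M → full S n → full S n' := by
    intro S n n' hnn' hn'm hfull r hrS hr hrm
    have hn'0 : n' ≠ 0 := fun h0 => hm0 (Nat.eq_zero_of_zero_dvd (h0 ▸ hn'm))
    have hn0 : n ≠ 0 := fun h0 => hn'0 (Nat.eq_zero_of_zero_dvd (h0 ▸ hnn'))
    have h1 := (Nat.factorization_le_iff_dvd hn0 hn'0).mpr hnn' r
    have h2 := (Nat.factorization_le_iff_dvd hn'0 hm0).mpr hn'm r
    have h3 := hfull r hrS hr hrm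
    omega
  have hdvdG : ∀ q : ℕ, q.Prime → q ∣ Nat.card M → q ∣ Nat.card G := by
    intro q hq hqm
    have h1 := G4 q hq hqm
    have h2 := hq.factorization_pos_of_dvd hm0 hqm
    have h3 : 0 < (Nat.card G).factorization q := by omega
    exact Nat.dvd_of_factorization_pos h3.ne'
  -- conclusion
  apply Nat.eq_of_factorization_eq hG0 hm0
  intro p
  by_cases hp : p.Prime
  swap
  · rw [Nat.factorization_eq_zero_of_not_prime _ hp, Nat.factorization_eq_zero_of_not_prime _ hp]
  haveI := Fact.mk hp
  apply le_antisymm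
  · by_contra hlt
    push Not at hlt
    by_cases hpm : p ∣ Nat.card M
    · by_cases hpA : p ∈ A
      · haveI := Fact.mk hb0p
        exact core (G := G) (Nat.card M) hm0 (full A) (full Aᶜ) p b0
          (fun hh => hb0A (hh ▸ hpA)) hdvd htype hexcl (hmono A) (hmono Aᶜ)
          (fun n hn => hn p hpA hp hpm) (fun n hn => hn b0 hb0A hb0p hb0m) hpm hb0m
          (hdvdG b0 hb0p hb0m) hlt
      · haveI := Fact.mk ha0p
        exact core (G := G) (Nat.card M) hm0 (full Aᶜ) (full A) p a0
          (fun hh => hpA (hh ▸ ha0A)) hdvd (fun g hg => (htype g hg).symm)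
          (fun g hg => hexcl g hg.symm) (hmono Aᶜ) (hmono A)
          (fun n hn => hn p hpA hp hpm) (fun n hn => hn a0 ha0A ha0p ha0m) hpm ha0m
          (hdvdG a0 ha0p ha0m) hlt
    · have hcop : ∀ g : G, ¬ p ∣ cs g := fun g hh => hpm (hh.trans (hdvd g))
      obtain ⟨P⟩ : Nonempty (Sylow p G) := inferInstance
      have hle := sylow_le_center_of_coprime p hcop P
      rw [hZG, le_bot_iff] at hle
      have hcard := P.card_eq_multiplicity
      rw [hle, Subgroup.card_bot] at hcard
      have hpos : 0 < (Nat.card G).factorization p := by omega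
      have h3 : p ^ 1 ∣ p ^ (Nat.card G).factorization p := pow_dvd_pow p hpos
      rw [← hcard, pow_one] at h3
      exact hp.one_lt.ne' (Nat.dvd_one.mp h3)
  · by_cases hpm : p ∣ Nat.card M
    · exact G4 p hp hpm
    · rw [Nat.factorization_eq_zero_of_not_dvd hpm]
      exact Nat.zero_le _

end Cfsg.Agent.S4184
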