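import Cfsg.Statements.S4186

set_option autoImplicit false
open Cfsg

namespace Cfsg.Agent.S4186

/-- Let T and X be subgroups of a group with T a finite 2-group normalizing X but not centralizing it. Then some element of T inverts some non-identity element of X under conjugation. -/
theorem result {G : Type*} [Group G] (T X : Subgroup G) [Finite ↥T] (hT : IsPGroup 2 ↥T) (hTN : T ≤ Subgroup.normalizer (X : Set G)) (hTC : ¬ T ≤ Subgroup.centralizer (X : Set G)) : ∃ t ∈ T, ∃ x ∈ X, x ≠ 1 ∧ t * x * t⁻¹ = x⁻¹ := by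
  classical
  -- find t ∈ T and x ∈ X not commuting
  obtain ⟨t, htT, htC⟩ := Set.not_subset.mp hTC
  rw [SetLike.mem_coe, Subgroup.mem_centralizer_iff] at htC
  push Not at htC
  obtain ⟨x, hxX, hx⟩ := htC
  -- t has 2-power order
  obtain ⟨k, hk⟩ := hT ⟨t, htT⟩
  have hk' : t ^ 2 ^ k = 1 := by
    have := congrArg Subtype.val hk
    simpa using this
  -- the least j with t^(2^j) commuting with x
  have hex : ∃ j, x * t ^ 2 ^ j = t ^ 2 ^ j * x := ⟨k, by rw [hk']; simp⟩
  set j := Nat.find hex with hj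
  have hjspec : x * t ^ 2 ^ j = t ^ 2 ^ j * x := Nat.find_spec hex
  have hj0 : j ≠ 0 := by
    intro h0
    rw [h0] at hjspec
    simp at hjspec
    exact hx hjspec
  obtain ⟨i, hi⟩ := Nat.exists_eq_succ_of_ne_zero hj0
  have hmin : ¬ (x * t ^ 2 ^ i = t ^ 2 ^ i * x) := by
    apply Nat.find_min hex
    omega
  set s := t ^ 2 ^ i with hs
  have hsT : s ∈ T := T.pow_mem htT _
  have hs2 : x * (s * s) = (s * s) * x := by
    have : s * s = t ^ 2 ^ j := by
      rw [hs, hi, ← pow_add, Nat.succ_eq_add_one, pow_succ, mul_two]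
    rw [this]; exact hjspec
  have hsN := hTN hsT
  rw [Subgroup.mem_normalizer_iff] at hsN
  refine ⟨s, hsT, x⁻¹ * (s * x * s⁻¹), X.mul_mem (X.inv_mem hxX) ((hsN x).mp hxX), ?_, ?_⟩
  · intro h1
    apply hmin
    have : s * x * s⁻¹ = x := by
      have := congrArg (fun z => x * z) h1
      simpa using this
    have h2 := congrArg (fun z => z * s) this
    simp at h2
    exact h2.symm
  · have hcomm : Commute x (s * s) := hs2
    calc s * (x⁻¹ * (s * x * s⁻¹)) * s⁻¹ = s * x⁻¹ * s * (x * (s * s)⁻¹) := by group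
      _ = s * x⁻¹ * s * ((s * s)⁻¹ * x) := by rw [hcomm.inv_right.eq]
      _ = (x⁻¹ * (s * x * s⁻¹))⁻¹ := by group

end Cfsg.Agent.S4186
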