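import Cfsg.Statements.S4195

set_option autoImplicit false
open Cfsg

namespace Cfsg.Agent.S4195

/-- the subgroup of elements conjugating `x` to `x` or `x⁻¹`. -/
def invNormalizer {G : Type*} [Group G] (x : G) : Subgroup G where
  carrier := {g | g * x * g⁻¹ = x ∨ g * x * g⁻¹ = x⁻¹}
  one_mem' := by simp
  mul_mem' := by
    intro a b ha hb
    simp only [Set.mem_ofPred_eq] at ha hb ⊢
    have e : a * b * x * (a * b)⁻¹ = a * (b * x * b⁻¹) * a⁻¹ := by group
    rw [e]
    rcases hb with hb | hb
    · rw [hb]; exact ha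
    · rw [hb]
      have e2 : a * x⁻¹ * a⁻¹ = (a * x * a⁻¹)⁻¹ := by group
      rw [e2]
      rcases ha with ha | ha
      · right; rw [ha]
      · left; rw [ha, inv_inv]
  inv_mem' := by
    intro a ha
    simp only [Set.mem_ofPred_eq] at ha ⊢
    rcases ha with ha | ha
    · left
      have e : a⁻¹ * (a * x * a⁻¹) * a⁻¹⁻¹ = x := by group
      rw [ha] at e; exact e
    · right
      have e : a⁻¹ * (a * x * a⁻¹)⁻¹ * a⁻¹⁻¹ = x⁻¹ := by group
      rw [ha, inv_inv] at e; exact e

theorem result {G : Type*} [Group G] [Finite G] (x : G) (hx : x ≠ 1) (P : Sylow 2 G) (hP : (P : Subgroup G) ≤ Subgroup.centralizer ({x} : Set G)) (hreal : IsConj x x⁻¹) : orderOf x = 2 := by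
  classical
  have : Fact (Nat.Prime 2) := ⟨Nat.prime_two⟩
  by_cases hxx : x = x⁻¹
  · apply orderOf_eq_prime _ hx
    rw [pow_two]
    calc x * x = x * x⁻¹ := by rw [← hxx]
      _ = 1 := by group
  exfalso
  obtain ⟨t, ht⟩ := isConj_iff.mp hreal
  set C := Subgroup.centralizer ({x} : Set G) with hC
  have memC : ∀ g : G, g ∈ C ↔ g * x * g⁻¹ = x := by
    intro g
    rw [hC, Subgroup.mem_centralizer_iff]
    simp only [Set.mem_singleton_iff, forall_eq]
    constructor
    · intro h; rw [← h]; group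
    · intro h
      calc x * g = (g * x * g⁻¹) * g := by rw [h]
        _ = g * x := by group
  have hCN : C ≤ invNormalizer x := by
    intro g hg
    left
    exact (memC g).mp hg
  have h2 : C.relIndex (invNormalizer x) = 2 := by
    rw [Subgroup.relIndex_eq_two_iff]
    refine ⟨t, Or.inr ht, ?_⟩
    intro b hb
    rw [memC, memC]
    have e : b * t * x * (b * t)⁻¹ = b * (t * x * t⁻¹) * b⁻¹ := by group
    rw [e, ht]
    have e2 : b * x⁻¹ * b⁻¹ = (b * x * b⁻¹)⁻¹ := by group
    rw [e2]
    rcases hb with hb | hb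
    · right
      refine ⟨hb, ?_⟩
      rw [hb]
      exact fun h => hxx h.symm
    · left
      refine ⟨by rw [hb, inv_inv], ?_⟩
      rw [hb]
      exact fun h => hxx h.symm
  have h3 : 2 ∣ C.index := by
    rw [← Subgroup.relIndex_mul_index hCN, h2]
    exact dvd_mul_right _ _
  have h4 : C.index ∣ (P : Subgroup G).index := Subgroup.index_dvd_of_le hP
  exact P.not_dvd_index (h3.trans h4)

end Cfsg.Agent.S4195
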