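import Cfsg.Statements.S4196
import Cfsg.Agent.S4195

set_option autoImplicit false
open Cfsg

namespace Cfsg.Agent.S4196

theorem result {G : Type*} [Group G] [Finite G] (P : Sylow 2 G) :
    (IsMulCommutative (P : Subgroup G) ∧ ∀ x ∈ (P : Subgroup G), x ^ 2 = 1) ↔
      ∀ x : G, (∃ k : ℕ, orderOf x = 2 ^ k) → (∃ Q : Sylow 2 G, (Q : Subgroup G) ≤ Subgroup.centralizer ({x} : Set G)) ∧ IsConj x x⁻¹ := by
  classical
  have : Fact (Nat.Prime 2) := ⟨Nat.prime_two⟩
  constructor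
  · rintro ⟨hcomm, hexp⟩ x ⟨k, hk⟩
    rw [isMulCommutative_iff] at hcomm
    -- x lies in some Sylow 2-subgroup Q
    have hx2 : IsPGroup 2 (Subgroup.zpowers x) := by
      apply IsPGroup.of_card (n := k)
      rw [Nat.card_zpowers, hk]
    obtain ⟨Q, hQ⟩ := hx2.exists_le_sylow
    have hxQ : x ∈ (Q : Subgroup G) := hQ (Subgroup.mem_zpowers x)
    obtain ⟨g, hg⟩ := MulAction.exists_smul_eq G P Q
    -- elements of Q are conjugates of elements of P
    have hQP : ∀ y ∈ (Q : Subgroup G), g⁻¹ * y * g ∈ (P : Subgroup G) := by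
      intro y hy
      rw [← hg, Sylow.coe_subgroup_smul, Subgroup.mem_pointwise_smul_iff_inv_smul_mem] at hy
      simpa [MulAut.smul_def, mul_assoc] using hy
    have hQcomm : ∀ y ∈ (Q : Subgroup G), ∀ z ∈ (Q : Subgroup G), y * z = z * y := by
      intro y hy z hz
      have h1 := hcomm ⟨_, hQP y hy⟩ ⟨_, hQP z hz⟩
      have h2 := congrArg Subtype.val h1
      simp only [Subgroup.coe_mul] at h2
      calc y * z = g * ((g⁻¹ * y * g) * (g⁻¹ * z * g)) * g⁻¹ := by group
        _ = g * ((g⁻¹ * z * g) * (g⁻¹ * y * g)) * g⁻¹ := by rw [h2]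
        _ = z * y := by group
    have hQexp : ∀ y ∈ (Q : Subgroup G), y ^ 2 = 1 := by
      intro y hy
      have h1 := hexp _ (hQP y hy)
      calc y ^ 2 = g * (g⁻¹ * y * g) ^ 2 * g⁻¹ := by rw [pow_two, pow_two]; group
        _ = 1 := by rw [h1]; group
    refine ⟨⟨Q, ?_⟩, ?_⟩
    · intro y hy
      rw [Subgroup.mem_centralizer_iff]
      intro h hh
      rw [Set.mem_singleton_iff] at hh
      subst hh
      exact hQcomm h hxQ y hy
    · have h1 := hQexp x hxQ
      have h2 : x⁻¹ = x := by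
        rw [pow_two] at h1
        exact inv_eq_of_mul_eq_one_left h1
      rw [h2]
  · intro h
    have hexp : ∀ x ∈ (P : Subgroup G), x ^ 2 = 1 := by
      intro x hx
      by_cases hx1 : x = 1
      · rw [hx1]; simp
      have hk : ∃ k : ℕ, orderOf x = 2 ^ k := by
        obtain ⟨k, hk⟩ := (IsPGroup.iff_orderOf.mp P.isPGroup') ⟨x, hx⟩
        refine ⟨k, ?_⟩
        rw [← hk, Subgroup.orderOf_mk]
      obtain ⟨⟨Q, hQ⟩, hconj⟩ := h x hk
      have h2 := Cfsg.Agent.S4195.result x hx1 Q hQ hconj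
      rw [← h2]
      exact pow_orderOf_eq_one x
    refine ⟨?_, hexp⟩
    rw [isMulCommutative_iff]
    rintro ⟨a, ha⟩ ⟨b, hb⟩
    apply Subtype.ext
    simp only [Subgroup.coe_mul]
    have h1 := hexp a ha
    have h2 := hexp b hb
    have h3 := hexp (a * b) (Subgroup.mul_mem _ ha hb)
    rw [pow_two] at h1 h2 h3
    calc a * b = (a * a) * (a⁻¹ * b⁻¹) * (b * b) := by group
      _ = a⁻¹ * b⁻¹ := by rw [h1, h2]; group
      _ = a⁻¹ * (a * b * (a * b)) * b⁻¹ := by rw [h3]; group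
      _ = b * a := by group

end Cfsg.Agent.S4196
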