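import Cfsg.Statements.S4203
import Cfsg.Agent.S4261
import Mathlib

set_option autoImplicit false
open Cfsg

namespace Cfsg.Agent.S4203

open Equiv in
set_option maxRecDepth 100000 in
theorem dec1 : ∀ g1 g2 : Perm (Fin 4), Perm.sign g1 = 1 → Perm.sign g2 = 1 →
    (swap 0 1 * swap 2 3) * (g1 * g2 * g1⁻¹ * g2⁻¹) = (g1 * g2 * g1⁻¹ * g2⁻¹) * (swap 0 1 * swap 2 3) ∧
    (swap 0 2 * swap 1 3) * (g1 * g2 * g1⁻¹ * g2⁻¹) = (g1 * g2 * g1⁻¹ * g2⁻¹) * (swap 0 2 * swap 1 3) := by
  decide

open Equiv in
set_option maxRecDepth 100000 in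
theorem dec2 : ∀ g1 g2 : Perm (Fin 4),
    (swap 0 1 * swap 2 3) * g1 = g1 * (swap 0 1 * swap 2 3) →
    (swap 0 2 * swap 1 3) * g1 = g1 * (swap 0 2 * swap 1 3) →
    (swap 0 1 * swap 2 3) * g2 = g2 * (swap 0 1 * swap 2 3) →
    (swap 0 2 * swap 1 3) * g2 = g2 * (swap 0 2 * swap 1 3) →
    g1 * g2 * g1⁻¹ * g2⁻¹ = 1 := by
  decide

open Equiv in
theorem s4_solvable : Group.IsSolvable (Perm (Fin 4)) := by
  refine ⟨⟨3, ?_⟩⟩
  have h1 : derivedSeries (Perm (Fin 4)) 1 ≤ alternatingGroup (Fin 4) := by
    rw [derivedSeries_one]
    exact Abelianization.commutator_subset_ker Perm.sign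
  have h2 : derivedSeries (Perm (Fin 4)) 2 ≤ Subgroup.centralizer
      ({swap 0 1 * swap 2 3, swap 0 2 * swap 1 3} : Set (Perm (Fin 4))) := by
    rw [derivedSeries_succ]
    refine (Subgroup.commutator_mono h1 h1).trans ?_
    rw [Subgroup.commutator_le]
    intro g1 hg1 g2 hg2
    have h := dec1 g1 g2 (Perm.mem_alternatingGroup.1 hg1) (Perm.mem_alternatingGroup.1 hg2)
    rw [Subgroup.mem_centralizer_iff, commutatorElement_def]
    intro x hx
    rcases hx with rfl | rfl
    · exact h.1
    · exact h.2
  rw [derivedSeries_succ, eq_bot_iff]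
  refine (Subgroup.commutator_mono h2 h2).trans ?_
  rw [Subgroup.commutator_le]
  intro g1 hg1 g2 hg2
  rw [Subgroup.mem_centralizer_iff] at hg1 hg2
  rw [Subgroup.mem_bot, commutatorElement_def]
  exact dec2 g1 g2 (hg1 _ (Or.inl rfl)) (hg1 _ (Or.inr rfl)) (hg2 _ (Or.inl rfl)) (hg2 _ (Or.inr rfl))

open Equiv in
theorem solvable_perm_of_card_le_four (β : Type*) [Fintype β] [DecidableEq β]
    (h : Fintype.card β ≤ 4) : Group.IsSolvable (Perm β) := by
  haveI := s4_solvable
  have key : Nonempty (β ↪ Fin 4) := Function.Embedding.nonempty_of_card_le (by simpa using h)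
  exact Group.isSolvable_of_isSolvable_injective (Equiv.Perm.viaEmbeddingHom_injective key.some)

/-- a nontrivial finite group has a minimal normal subgroup. -/
theorem exists_minimal_normal (G : Type*) [Group G] [Finite G] [Nontrivial G] :
    ∃ N : Subgroup G, N.Normal ∧ N ≠ ⊥ ∧ ∀ K : Subgroup G, K.Normal → K ≤ N → K = ⊥ ∨ K = N := by
  classical
  have hex : ∃ m, ∃ N : Subgroup G, N.Normal ∧ N ≠ ⊥ ∧ Nat.card N = m :=
    ⟨_, ⊤, inferInstance, top_ne_bot, rfl⟩
  obtain ⟨N, hNn, hN1, hNc⟩ := Nat.find_spec hex
  refine ⟨N, hNn, hN1, fun K hKn hKN => ?_⟩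
  by_contra hcon
  push Not at hcon
  have hlt : Nat.card K < Nat.card N := by
    rcases lt_or_ge (Nat.card K) (Nat.card N) with h | h
    · exact h
    · exact absurd (Subgroup.eq_of_le_of_card_ge hKN h) hcon.2
  exact Nat.find_min hex (hNc ▸ hlt) ⟨K, hKn, hcon.1, rfl⟩

theorem coatom_comap {G : Type*} [Group G] (N : Subgroup G) [N.Normal] (M : Subgroup (G ⧸ N))
    (hM : IsCoatom M) : IsCoatom (M.comap (QuotientGroup.mk' N)) := by
  have hsurj : Function.Surjective (QuotientGroup.mk' N) := QuotientGroup.mk'_surjective N
  constructor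
  · intro htop
    apply hM.1
    rw [← Subgroup.map_comap_eq_self_of_surjective hsurj M, htop,
      Subgroup.map_top_of_surjective _ hsurj]
  · intro K hK
    have hNK : N ≤ K := by
      refine le_trans ?_ hK.le
      intro x hx
      rw [Subgroup.mem_comap]
      have : QuotientGroup.mk' N x = 1 := (QuotientGroup.eq_one_iff x).mpr hx
      rw [this]
      exact M.one_mem
    have h1 : M < K.map (QuotientGroup.mk' N) := by
      rw [lt_iff_le_and_ne]
      constructor
      · rw [← Subgroup.map_comap_eq_self_of_surjective hsurj M]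
        exact Subgroup.map_mono hK.le
      · intro heq
        have : K ≤ M.comap (QuotientGroup.mk' N) := by
          rw [heq]
          exact Subgroup.le_comap_map _ _
        exact (not_le_of_gt hK) this
    have h2 := hM.2 _ h1
    have h3 := Cfsg.Agent.S4261.comap_map_mk N K hNK
    rw [h2, Subgroup.comap_top] at h3
    exact h3.symm

/-- if `N_G(P) ≤ M` for a Sylow `p`-subgroup `P`, then `[G : M] ≡ 1 (mod p)`. -/
theorem index_modEq_one {G : Type*} [Group G] [Finite G] {p : ℕ} [Fact p.Prime] (P : Sylow p G)
    (M : Subgroup G) (h : Subgroup.normalizer ((P : Subgroup G) : Set G) ≤ M) :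
    M.index ≡ 1 [MOD p] := by
  have hPM : (P : Subgroup G) ≤ M := le_trans Subgroup.le_normalizer h
  have h1 : Nat.card (Sylow p G) = (Subgroup.normalizer ((P : Subgroup G) : Set G)).index :=
    P.card_eq_index_normalizer
  have h2 : Nat.card (Sylow p M) =
      (Subgroup.normalizer (((P.subtype hPM : Sylow p M) : Subgroup M) : Set M)).index :=
    (P.subtype hPM).card_eq_index_normalizer
  have h3 : Subgroup.normalizer (((P.subtype hPM : Sylow p M) : Subgroup M) : Set M) =
      (Subgroup.normalizer ((P : Subgroup G) : Set G)).subgroupOf M := by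
    rw [Sylow.coe_subtype]
    exact (Subgroup.subgroupOf_normalizer_eq hPM).symm
  have h4 : (Subgroup.normalizer ((P : Subgroup G) : Set G)).relIndex M * M.index =
      (Subgroup.normalizer ((P : Subgroup G) : Set G)).index := Subgroup.relIndex_mul_index h
  have h5 : Nat.card (Sylow p G) ≡ 1 [MOD p] := card_sylow_modEq_one p G
  have h6 : Nat.card (Sylow p M) ≡ 1 [MOD p] := card_sylow_modEq_one p M
  rw [h1, ← h4] at h5
  rw [h2, h3] at h6
  have h7 : (Subgroup.normalizer ((P : Subgroup G) : Set G)).relIndex M * M.index ≡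
      1 * M.index [MOD p] := Nat.ModEq.mul_right _ h6
  rw [one_mul] at h7
  exact h7.symm.trans h5

universe u

theorem main : ∀ (n : ℕ) (G : Type u) [Group G] [Finite G], Nat.card G = n →
    (∀ M : Subgroup G, IsCoatom M → ∃ p : ℕ, p.Prime ∧ (M.index = p ∨ M.index = p ^ 2)) →
    Group.IsSolvable G := by
  intro n
  induction n using Nat.strong_induction_on with
  | _ n ih =>
  intro G _ _ hn h
  by_cases htriv : Subsingleton G
  · infer_instance
  · rw [not_subsingleton_iff_nontrivial] at htriv
    obtain ⟨N, hNn, hN1, hNmin⟩ := exists_minimal_normal G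
    have := hNn
    have hcardN : Nat.card N ≠ 1 := fun h1 => hN1 (Subgroup.card_eq_one.mp h1)
    have hcardN2 : 2 ≤ Nat.card N := by
      have : 0 < Nat.card N := Nat.card_pos
      omega
    have hQ : Group.IsSolvable (G ⧸ N) := by
      apply ih (Nat.card (G ⧸ N)) _ (G ⧸ N) rfl
      · intro M hM
        obtain ⟨p, hp, hpi⟩ := h (M.comap (QuotientGroup.mk' N)) (coatom_comap N M hM)
        refine ⟨p, hp, ?_⟩
        rwa [Subgroup.index_comap_of_surjective _ (QuotientGroup.mk'_surjective N)] at hpi
      · rw [← hn, ← Subgroup.card_mul_index N]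
        have h0 : 0 < N.index := Nat.pos_of_ne_zero Subgroup.index_ne_zero_of_finite
        have : Nat.card (G ⧸ N) = N.index := rfl
        rw [this]
        nlinarith
    have hNs : Group.IsSolvable N := by
      by_contra hNs
      have hne : (Nat.card N).primeFactors.Nonempty := by
        rw [Nat.nonempty_primeFactors]
        omega
      set p := (Nat.card N).primeFactors.max' hne with hpdef
      have hpmem : p ∈ (Nat.card N).primeFactors := Finset.max'_mem _ hne
      have hp : p.Prime := Nat.prime_of_mem_primeFactors hpmem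
      have hpN : p ∣ Nat.card N := Nat.dvd_of_mem_primeFactors hpmem
      have : Fact p.Prime := ⟨hp⟩
      have hmax : ∀ q : ℕ, q.Prime → q ∣ Nat.card N → q ≤ p := by
        intro q hq hqN
        exact Finset.le_max' _ q (Nat.mem_primeFactors.mpr ⟨hq, hqN, by omega⟩)
      let P0 : Sylow p N := default
      set Q : Subgroup G := (P0 : Subgroup N).map N.subtype with hQdef
      have hQN : Q ≤ N := Subgroup.map_subtype_le _
      have hQp : IsPGroup p Q := P0.isPGroup'.map _
      have hQ1 : Q ≠ ⊥ := by
        intro h0
        have h1 : (P0 : Subgroup N) = ⊥ := by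
          rw [hQdef, Subgroup.map_eq_bot_iff_of_injective _ N.subtype_injective] at h0
          exact h0
        have h2 : Nat.card (P0 : Subgroup N) = 1 := by rw [h1]; exact Subgroup.card_bot
        have h3 := P0.card_eq_multiplicity
        rw [h2] at h3
        have h4 : (Nat.card N).factorization p ≠ 0 := by
          rw [← Nat.pos_iff_ne_zero]
          exact hp.factorization_pos_of_dvd (by omega) hpN
        have h5 : 1 < p ^ (Nat.card N).factorization p := Nat.one_lt_pow h4 hp.one_lt
        omega
      have hQnn : ¬ Q.Normal := by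
        intro hQn
        rcases hNmin Q hQn hQN with h0 | h0
        · exact hQ1 h0
        · apply hNs
          have hNp : IsPGroup p N := h0 ▸ hQp
          have := hNp.isNilpotent
          infer_instance
      have hnorm : Subgroup.normalizer (Q : Set G) ≠ ⊤ :=
        fun h0 => hQnn (Subgroup.normalizer_eq_top_iff.mp h0)
      obtain ⟨M, hM, hle⟩ := (eq_top_or_exists_le_coatom _).resolve_left hnorm
      have hfrat : Subgroup.normalizer (Q : Set G) ⊔ N = ⊤ := Sylow.normalizer_sup_eq_top P0
      have hMN : M ⊔ N = ⊤ := top_le_iff.mp (hfrat ▸ sup_le_sup_right hle N)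
      obtain ⟨P, hQP⟩ := hQp.exists_le_sylow
      have hPN : (P : Subgroup G) ⊓ N = Q := by
        have h1 : IsPGroup p (((P : Subgroup G) ⊓ N).subgroupOf N) :=
          (P.isPGroup'.to_le inf_le_left).comap_of_injective N.subtype N.subtype_injective
        have h2 : (P0 : Subgroup N) ≤ ((P : Subgroup G) ⊓ N).subgroupOf N := by
          intro x hx
          rw [Subgroup.mem_subgroupOf]
          exact ⟨hQP (Subgroup.mem_map_of_mem _ hx), x.2⟩
        have h3 := P0.is_maximal' h1 h2
        rw [hQdef, ← h3, Subgroup.subgroupOf_map_subtype]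
        simp
      have hNP : Subgroup.normalizer ((P : Subgroup G) : Set G) ≤
          Subgroup.normalizer (Q : Set G) := by
        intro g hg
        rw [Subgroup.mem_normalizer_iff] at hg ⊢
        intro x
        have hxN : x ∈ N ↔ g * x * g⁻¹ ∈ N :=
          ⟨fun hx => hNn.conj_mem x hx g, fun hx => by simpa [mul_assoc] using hNn.conj_mem _ hx g⁻¹⟩
        rw [← hPN, Subgroup.mem_inf, Subgroup.mem_inf, ← hg x, ← hxN]
      have hmod : M.index ≡ 1 [MOD p] := index_modEq_one P M (hNP.trans hle)
      have hdvd : M.index ∣ Nat.card N := by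
        have h1 := Cfsg.Agent.S4261.relIndex_sup_of_normal N M
        rw [hMN, Subgroup.relIndex_top_right] at h1
        rw [h1]
        exact Subgroup.relIndex_dvd_card M N
      obtain ⟨q, hq, hqi⟩ := h M hM
      have hqN : q ∣ Nat.card N := by
        rcases hqi with h1 | h1
        · exact h1 ▸ hdvd
        · exact (dvd_pow_self q two_ne_zero).trans (h1 ▸ hdvd)
      have hqp : q ≤ p := hmax q hq hqN
      have hp2 : 2 ≤ p := hp.two_le
      have hq2 : 2 ≤ q := hq.two_le
      have hmod' : M.index % p = 1 := by
        have := hmod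
        unfold Nat.ModEq at this
        rw [this, Nat.mod_eq_of_lt (by omega)]
      have h4 : M.index = 4 := by
        rcases hqi with h1 | h1
        · exfalso
          rw [h1] at hmod'
          rcases Nat.lt_or_ge q p with hlt | hge
          · rw [Nat.mod_eq_of_lt hlt] at hmod'
            omega
          · have : q = p := le_antisymm hqp hge
            rw [this, Nat.mod_self] at hmod'
            omega
        · rw [h1] at hmod'
          have hqne : q ≠ p := by
            intro hqe
            rw [hqe] at hmod'
            have : p ^ 2 % p = 0 := Nat.mod_eq_zero_of_dvd (dvd_pow_self p two_ne_zero)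
            omega
          have hqlt : q < p := lt_of_le_of_ne hqp hqne
          have hdvd2 : p ∣ q ^ 2 - 1 := by
            have h5 : q ^ 2 % p = 1 % p := by rw [hmod', Nat.mod_eq_of_lt (by omega)]
            exact (Nat.modEq_iff_dvd' (Nat.one_le_pow _ _ (by omega))).mp h5.symm
          have hfac : q ^ 2 - 1 = (q - 1) * (q + 1) := by
            obtain ⟨k, rfl⟩ : ∃ k, q = k + 1 := ⟨q - 1, by omega⟩
            simp only [Nat.add_sub_cancel]
            have : (k + 1) ^ 2 = k * (k + 1 + 1) + 1 := by ring
            rw [this]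
            simp
          rw [hfac] at hdvd2
          rcases hp.dvd_mul.mp hdvd2 with h6 | h6
          · exfalso
            have := Nat.le_of_dvd (by omega) h6
            omega
          · have h7 := Nat.le_of_dvd (by omega) h6
            have hpq : p = q + 1 := by omega
            rcases hq.eq_two_or_odd' with h8 | h8
            · rw [h1, h8]; norm_num
            · exfalso
              have h9 : 2 ∣ p := by
                rw [hpq]
                obtain ⟨k, hk⟩ := h8
                exact ⟨k + 1, by omega⟩
              have h10 := (Nat.prime_dvd_prime_iff_eq Nat.prime_two hp).mp h9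
              omega
      classical
      haveI : Fintype (G ⧸ M) := Fintype.ofFinite _
      let φ : G →* Equiv.Perm (G ⧸ M) := MulAction.toPermHom G (G ⧸ M)
      have hker : φ.ker = M.normalCore := (Subgroup.normalCore_eq_ker M).symm
      have hK : (N ⊓ φ.ker) = ⊥ := by
        rcases hNmin (N ⊓ φ.ker) inferInstance inf_le_left with h0 | h0
        · exact h0
        · exfalso
          have hNM : N ≤ M := by
            rw [← h0]
            exact inf_le_right.trans (hker ▸ Subgroup.normalCore_le M)
          have h5 : M ⊔ N = M := sup_of_le_left hNM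
          exact hM.1 (h5 ▸ hMN)
      have hinj : Function.Injective (φ.comp N.subtype) := by
        rw [← MonoidHom.ker_eq_bot_iff, eq_bot_iff]
        intro x hx
        rw [MonoidHom.mem_ker, MonoidHom.comp_apply] at hx
        have h5 : (x : G) ∈ N ⊓ φ.ker := ⟨x.2, hx⟩
        rw [hK, Subgroup.mem_bot] at h5
        rw [Subgroup.mem_bot]
        exact Subtype.ext h5
      haveI : Group.IsSolvable (Equiv.Perm (G ⧸ M)) :=
        solvable_perm_of_card_le_four _ (by
          rw [← Nat.card_eq_fintype_card]
          exact h4.le)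
      exact hNs (Group.isSolvable_of_isSolvable_injective hinj)
    exact Group.isSolvable_of_ker_le_range N.subtype (QuotientGroup.mk' N) (by simp)

/-- P. Hall: if every maximal subgroup has index a prime or the square of a prime then the group is solvable. -/
theorem result {G : Type*} [Group G] [Finite G] (h : ∀ M : Subgroup G, IsCoatom M → ∃ p : ℕ, p.Prime ∧ (M.index = p ∨ M.index = p ^ 2)) : Group.IsSolvable G :=
  main _ G rfl h

end Cfsg.Agent.S4203
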