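import Cfsg.Statements.S4230

set_option autoImplicit false
open Cfsg
open Polynomial

namespace Cfsg.Agent.S4230

/-- `p ∣ Φ_f(q)` iff `q` is a root of `Φ_f` mod `p`. -/
theorem dvd_iff_root (p q f : ℕ) :
    ((p : ℤ) ∣ (Polynomial.cyclotomic f ℤ).eval (q : ℤ)) ↔
      (cyclotomic f (ZMod p)).IsRoot (q : ZMod p) := by
  rw [← ZMod.intCast_zmod_eq_zero_iff_dvd, IsRoot.def, ← map_cyclotomic_int f (ZMod p)]
  have h := eval_intCast_map (Int.castRingHom (ZMod p)) (cyclotomic f ℤ) (q : ℤ)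
  simp only [Int.cast_natCast, eq_intCast] at h
  rw [h]

/-- for `p ∤ m`, root of `Φ_{m p^j}` mod `p` iff `orderOf = m`. -/
theorem root_iff (p q m j : ℕ) [hp : Fact p.Prime] (hm : ¬ p ∣ m) :
    (cyclotomic (m * p ^ j) (ZMod p)).IsRoot (q : ZMod p) ↔ orderOf (q : ZMod p) = m := by
  have hne : NeZero ((m : ℕ) : ZMod p) := ⟨by
    rw [Ne, ZMod.natCast_eq_zero_iff]; exact hm⟩
  have h0 : (cyclotomic m (ZMod p)).IsRoot (q : ZMod p) ↔ orderOf (q : ZMod p) = m := by
    rw [isRoot_cyclotomic_iff]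
    constructor
    · intro h; exact h.eq_orderOf.symm
    · intro h; rw [← h]; exact IsPrimitiveRoot.orderOf _
  rcases Nat.eq_zero_or_pos j with hj | hj
  · rw [hj, pow_zero, mul_one]; exact h0
  · rw [mul_comm, cyclotomic_mul_prime_pow_eq (ZMod p) hm hj, ← h0]
    have hpos : 0 < p ^ j - p ^ (j - 1) := by
      have : p ^ (j - 1) < p ^ j := Nat.pow_lt_pow_right hp.out.one_lt (by omega)
      omega
    rw [IsRoot.def, eval_pow, pow_eq_zero_iff hpos.ne', IsRoot.def]

theorem result (p q f : ℕ) (hp : p.Prime) (hp2 : p ≠ 2) (hpq : ¬ p ∣ q) :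
    ((p : ℤ) ∣ (Polynomial.cyclotomic f ℤ).eval (q : ℤ)) ↔ ∃ j : ℕ, f = orderOf (q : ZMod p) * p ^ j := by
  have hpf : Fact p.Prime := ⟨hp⟩
  have hq0 : (q : ZMod p) ≠ 0 := by
    rw [Ne, ZMod.natCast_eq_zero_iff]; exact hpq
  have hq1 : (q : ZMod p) ^ (p - 1) = 1 := ZMod.pow_card_sub_one_eq_one hq0
  have he_dvd : orderOf (q : ZMod p) ∣ p - 1 := orderOf_dvd_of_pow_eq_one hq1
  have hp1 : 0 < p - 1 := by have := hp.two_le; omega
  have he_pos : 0 < orderOf (q : ZMod p) := Nat.pos_of_dvd_of_pos he_dvd hp1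
  have he_ndvd : ¬ p ∣ orderOf (q : ZMod p) := by
    intro h
    have := Nat.le_of_dvd hp1 (h.trans he_dvd)
    omega
  rcases Nat.eq_zero_or_pos f with hf | hf
  · subst hf
    constructor
    · intro h
      simp only [cyclotomic_zero, eval_one] at h
      have := Int.le_of_dvd one_pos h
      have := hp.two_le
      omega
    · rintro ⟨j, hj⟩
      have : 0 < orderOf (q : ZMod p) * p ^ j := Nat.mul_pos he_pos (pow_pos hp.pos j)
      omega
  · obtain ⟨j, m, hm, hfm⟩ := Nat.exists_eq_pow_mul_and_not_dvd hf.ne' p hp.ne_one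
    rw [dvd_iff_root, hfm, mul_comm, root_iff p q m j hm]
    constructor
    · intro h
      exact ⟨j, by rw [h]⟩
    · rintro ⟨j', hj'⟩
      -- m * p^j = e * p^j' with p ∤ m, p ∤ e
      rcases lt_trichotomy j j' with hlt | heq | hgt
      · exfalso
        apply hm
        have : m * p ^ j = orderOf (q : ZMod p) * p ^ (j' - j) * p ^ j := by
          rw [hj', mul_assoc, ← pow_add]; congr 2; omega
        have h2 := Nat.eq_of_mul_eq_mul_right (pow_pos hp.pos j) this
        rw [h2]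
        exact Dvd.dvd.mul_left (dvd_pow_self p (by omega)) _
      · subst heq
        exact (Nat.eq_of_mul_eq_mul_right (pow_pos hp.pos j) hj').symm
      · exfalso
        apply he_ndvd
        have : orderOf (q : ZMod p) * p ^ j' = m * p ^ (j - j') * p ^ j' := by
          rw [← hj', mul_assoc, ← pow_add]; congr 2; omega
        have h2 := Nat.eq_of_mul_eq_mul_right (pow_pos hp.pos j') this
        rw [h2]
        exact Dvd.dvd.mul_left (dvd_pow_self p (by omega)) _

end Cfsg.Agent.S4230
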