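import Cfsg.Statements.S4234
import Cfsg.Agent.Helper9.Mn5

set_option autoImplicit false
open Cfsg

namespace Cfsg.Agent.S4234

open Cfsg.Agent.Helper9

theorem result {K S : Type*} [Group K] [CommGroup S] [Finite K] [Finite S]
    (hK : Nonempty (K ≃* Matrix.ProjectiveSpecialLinearGroup (Fin 2) (ZMod 13)) ∨
      Nonempty (K ≃* Matrix.SpecialLinearGroup (Fin 2) (ZMod 13)))
    (hKS : (Nat.card K).Coprime (Nat.card S)) (H : Subgroup (K × S)) (hH : ¬ H.Normal) :
    IsCoatom (Subgroup.normalizer (H : Set (K × S))) := by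
  exact mn_statement_h9 hK hKS H hH

end Cfsg.Agent.S4234
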