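import Cfsg.Statements.S4304
import Mathlib

set_option autoImplicit false
open Cfsg

namespace Cfsg.Agent.S4304

universe u

open scoped Pointwise

/-- The number of Sylow subgroups of a quotient divides that of the group. -/
theorem card_sylow_quot_dvd {G : Type u} [Group G] [Finite G] (p : ℕ) [Fact p.Prime]
    (M : Subgroup G) [M.Normal] :
    Nat.card (Sylow p (G ⧸ M)) ∣ Nat.card (Sylow p G) := by
  obtain ⟨P⟩ : Nonempty (Sylow p G) := inferInstance
  have hf : Function.Surjective (QuotientGroup.mk' M) := QuotientGroup.mk'_surjective M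
  rw [(P.mapSurjective hf).card_eq_index_normalizer, P.card_eq_index_normalizer,
    ← Subgroup.index_comap_of_surjective _ hf]
  apply Subgroup.index_dvd_of_le
  rw [← Subgroup.map_le_iff_le_comap]
  exact Subgroup.le_normalizer_map _

/-- A subgroup containing all Sylow subgroups has the same number of them. -/
theorem card_sylow_of_forall_le {G : Type u} [Group G] [Finite G] (p : ℕ) [Fact p.Prime]
    (L : Subgroup G) (hL : ∀ P : Sylow p G, (P : Subgroup G) ≤ L) :
    Nat.card (Sylow p L) = Nat.card (Sylow p G) := by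
  symm
  apply Nat.card_congr
  refine Equiv.ofBijective (fun P => P.subtype (hL P)) ⟨?_, ?_⟩
  · intro P Q h
    exact Sylow.subtype_injective h
  · intro Q
    obtain ⟨P, hP⟩ := (Q.2.map L.subtype).exists_le_sylow
    refine ⟨P, Sylow.ext (Q.3 (P.subtype (hL P)).2 ?_)⟩
    intro x hx
    show (x : G) ∈ (P : Subgroup G)
    exact hP ⟨x, hx, rfl⟩

/-- `N/C` for a subgroup of prime order. -/
theorem relIndex_cent_dvd {G : Type u} [Group G] [Finite G] (p : ℕ) [Fact p.Prime]
    (H : Subgroup G) (hH : Nat.card H = p) :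
    (Subgroup.centralizer (H : Set G)).relIndex (Subgroup.normalizer (H : Set G)) ∣ p - 1 := by
  have hcyc : IsCyclic H := isCyclic_of_prime_card hH
  have key := Subgroup.card_dvd_of_injective _
    (QuotientGroup.kerLift_injective H.normalizerMonoidHom)
  rw [Subgroup.normalizerMonoidHom_ker, ← Subgroup.index, ← Subgroup.relIndex] at key
  rw [IsCyclic.card_mulAut, hH, Nat.totient_prime Fact.out] at key
  exact key

theorem eq_one_of_dvd15 {c : ℕ} (h1 : c ∣ 15) (h2 : c ≡ 1 [MOD 7]) (h3 : c ≠ 15) : c = 1 := by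
  have hle : c ≤ 15 := Nat.le_of_dvd (by norm_num) h1
  unfold Nat.ModEq at h2
  interval_cases c <;> omega

/-- A counterexample of minimal order. -/
def MinCex (G : Type u) [Group G] [Finite G] : Prop :=
  Nat.card (Sylow 7 G) = 15 ∧
    ∀ (H : Type u) [Group H] [Finite H], Nat.card H < Nat.card G → Nat.card (Sylow 7 H) ≠ 15

section Min

variable {G : Type u} [Group G] [Finite G] [hp7 : Fact (Nat.Prime 7)]

theorem quot_sylow_card_one (h : MinCex G) (D : Subgroup G) [D.Normal] (hne : D ≠ ⊥) :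
    Nat.card (Sylow 7 (G ⧸ D)) = 1 := by
  have hlt : Nat.card (G ⧸ D) < Nat.card G := by
    rw [← Subgroup.index_eq_card, ← Subgroup.card_mul_index D]
    have h1 : 1 < Nat.card D := (Subgroup.one_lt_card_iff_ne_bot D).mpr hne
    have h2 : 0 < D.index := Nat.pos_of_ne_zero (Subgroup.index_ne_zero_of_finite)
    nlinarith
  have h1 := card_sylow_quot_dvd 7 D
  rw [h.1] at h1
  exact eq_one_of_dvd15 h1 (card_sylow_modEq_one 7 (G ⧸ D)) (h.2 (G ⧸ D) hlt)

theorem no_normal_pgroup (h : MinCex G) (D : Subgroup G) [D.Normal] (hD : IsPGroup 7 D) :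
    D = ⊥ := by
  by_contra hne
  obtain ⟨P⟩ : Nonempty (Sylow 7 G) := inferInstance
  have h4 := quot_sylow_card_one h D hne
  have hf : Function.Surjective (QuotientGroup.mk' D) := QuotientGroup.mk'_surjective D
  haveI : Subsingleton (Sylow 7 (G ⧸ D)) := (Nat.card_eq_one_iff_unique.mp h4).1
  have hn : ((P.mapSurjective hf : Sylow 7 (G ⧸ D)) : Subgroup (G ⧸ D)).Normal :=
    Sylow.normal_of_subsingleton _
  have hcomap : ((P : Subgroup G).map (QuotientGroup.mk' D)).comap (QuotientGroup.mk' D) = P := by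
    rw [QuotientGroup.comap_map_mk']
    exact sup_eq_right.mpr (hD.le_sylow_of_normal P)
  have hPn : (P : Subgroup G).Normal := by
    rw [← hcomap]
    exact hn.comap _
  haveI := Sylow.unique_of_normal P hPn
  have h5 : Nat.card (Sylow 7 G) = 1 := Nat.card_unique
  rw [h.1] at h5
  omega

theorem bot_of_le_all (h : MinCex G) (D : Subgroup G) (hD : ∀ S : Sylow 7 G, D ≤ S) : D = ⊥ := by
  obtain ⟨P⟩ : Nonempty (Sylow 7 G) := inferInstance
  have hK : (P : Subgroup G).normalCore = ⊥ :=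
    no_normal_pgroup h _ (P.2.to_le (Subgroup.normalCore_le _))
  rw [eq_bot_iff, ← hK]
  intro d hd b
  have h1 : d ∈ ((b⁻¹ • P : Sylow 7 G) : Subgroup G) := hD _ hd
  rw [Sylow.coe_subgroup_smul, Subgroup.mem_pointwise_smul_iff_inv_smul_mem] at h1
  simpa [MulAut.smul_def] using h1

theorem eq_top_of_not_dvd_index (h : MinCex G) (K : Subgroup G) [K.Normal]
    (hK : ¬ 7 ∣ K.index) : K = ⊤ := by
  by_contra hne
  have hle : ∀ P : Sylow 7 G, (P : Subgroup G) ≤ K := by
    intro P x hx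
    rw [← QuotientGroup.eq_one_iff (N := K)]
    obtain ⟨k, hk⟩ := P.2 ⟨x, hx⟩
    have hk' : x ^ 7 ^ k = 1 := by
      have := congrArg Subtype.val hk
      simpa using this
    have h1 : orderOf (x : G ⧸ K) ∣ 7 ^ k := by
      apply orderOf_dvd_of_pow_eq_one
      rw [← QuotientGroup.mk_pow, hk']
      rfl
    have h2 : orderOf (x : G ⧸ K) ∣ K.index := by
      rw [Subgroup.index_eq_card]
      exact orderOf_dvd_natCard _
    have h3 : Nat.Coprime (7 ^ k) K.index :=
      Nat.Coprime.pow_left _ ((Nat.Prime.coprime_iff_not_dvd hp7.out).mpr hK)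
    have h4 : orderOf (x : G ⧸ K) = 1 := Nat.eq_one_of_dvd_coprimes h3 h1 h2
    exact orderOf_eq_one_iff.mp h4
  have hc := card_sylow_of_forall_le 7 K hle
  rw [h.1] at hc
  have hlt : Nat.card K < Nat.card G :=
    lt_of_le_of_ne (Subgroup.card_le_card_group K) (fun he => hne (Subgroup.eq_top_of_card_eq K he))
  exact h.2 K hlt hc

theorem stab_eq (P Q : Sylow 7 G) :
    MulAction.stabilizer (P : Subgroup G) Q = (Q : Subgroup G).subgroupOf P := by
  ext y
  rw [MulAction.mem_stabilizer_iff, Subgroup.mem_subgroupOf, Subgroup.smul_def,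
    Sylow.smul_eq_iff_mem_normalizer]
  constructor
  · intro hy
    have h1 := (P.2.inf_normalizer_sylow Q).le (Subgroup.mem_inf.mpr ⟨y.2, hy⟩)
    exact (Subgroup.mem_inf.mp h1).2
  · intro hy
    exact Subgroup.le_normalizer hy

theorem not_mem_orbit (P Q : Sylow 7 G) (hPQ : P ≠ Q) :
    P ∉ MulAction.orbit (P : Subgroup G) Q := by
  rintro ⟨y, hy⟩
  apply hPQ
  have h1 : (y⁻¹ : (P : Subgroup G)) • P = P := by
    rw [Subgroup.smul_def, Sylow.smul_eq_iff_mem_normalizer]
    exact Subgroup.le_normalizer (y⁻¹).2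
  have hy' : y • Q = P := hy
  have h2 : (y⁻¹ : (P : Subgroup G)) • P = Q := inv_smul_eq_iff.mpr hy'.symm
  exact h1.symm.trans h2

theorem orbit_ncard (h15 : Nat.card (Sylow 7 G) = 15) (P Q : Sylow 7 G) (hPQ : P ≠ Q) :
    (MulAction.orbit (P : Subgroup G) Q).ncard = 7 := by
  have hPnot := not_mem_orbit P Q hPQ
  obtain ⟨n, hn⟩ := P.2.card_orbit Q
  rw [Nat.card_coe_set_eq] at hn
  have hle : (MulAction.orbit (P : Subgroup G) Q).ncard + 1 ≤ 15 := by
    rw [← h15, ← Set.ncard_insert_of_notMem hPnot]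
    exact Set.ncard_le_card _
  have hne1 : (MulAction.orbit (P : Subgroup G) Q).ncard ≠ 1 := by
    intro h1
    apply hPQ
    have hsub : ∀ y : (P : Subgroup G), y • Q = Q := by
      intro y
      obtain ⟨a, ha⟩ := Set.ncard_eq_one.mp h1
      have e1 : y • Q ∈ MulAction.orbit (P : Subgroup G) Q := MulAction.mem_orbit _ _
      have e2 : Q ∈ MulAction.orbit (P : Subgroup G) Q := MulAction.mem_orbit_self _
      rw [ha, Set.mem_singleton_iff] at e1 e2
      rw [e1, e2]
    have hfix : Q ∈ MulAction.fixedPoints (P : Subgroup G) (Sylow 7 G) := hsub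
    have hle' : (P : Subgroup G) ≤ Q := (P.2.sylow_mem_fixedPoints_iff).mp hfix
    exact (Sylow.ext (P.3 Q.2 hle')).symm
  rcases n with _ | _ | n
  · rw [pow_zero] at hn; exact absurd hn hne1
  · rw [hn]; norm_num
  · exfalso
    have h49 : 49 ≤ 7 ^ (n + 1 + 1) := by
      calc 49 = 7 ^ 2 := by norm_num
        _ ≤ 7 ^ (n + 1 + 1) := Nat.pow_le_pow_right (by norm_num) (by omega)
    omega

theorem pair_facts (h15 : Nat.card (Sylow 7 G) = 15) (P Q : Sylow 7 G) (hPQ : P ≠ Q) :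
    Nat.card P = 7 * Nat.card ((P : Subgroup G) ⊓ Q : Subgroup G) ∧
    ∀ x ∈ (P : Subgroup G), MulAut.conj x • ((P : Subgroup G) ⊓ Q) = (P : Subgroup G) ⊓ Q := by
  have hidx : ((Q : Subgroup G).subgroupOf P).index = 7 := by
    rw [← stab_eq, MulAction.index_stabilizer, orbit_ncard h15 P Q hPQ]
  have hc1 : Nat.card ((Q : Subgroup G).subgroupOf P)
      = Nat.card ((P : Subgroup G) ⊓ Q : Subgroup G) := by
    rw [← Subgroup.inf_subgroupOf_left (Q : Subgroup G) (P : Subgroup G)]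
    exact Nat.card_congr (Subgroup.subgroupOfEquivOfLe inf_le_left).toEquiv
  have hcard : Nat.card P = 7 * Nat.card ((P : Subgroup G) ⊓ Q : Subgroup G) := by
    have h0 := Subgroup.card_mul_index ((Q : Subgroup G).subgroupOf P)
    rw [hidx, hc1] at h0
    omega
  refine ⟨hcard, ?_⟩
  obtain ⟨m, hm⟩ := IsPGroup.iff_card.mp P.2
  have hm0 : m ≠ 0 := by
    rintro rfl
    rw [pow_zero] at hm
    omega
  haveI hnorm : ((Q : Subgroup G).subgroupOf P).Normal := by
    apply Subgroup.normal_of_index_eq_minFac_card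
    rw [hidx, hm, Nat.pow_minFac hm0, Nat.Prime.minFac_eq hp7.out]
  have hle : ∀ x ∈ (P : Subgroup G),
      MulAut.conj x • ((P : Subgroup G) ⊓ Q) ≤ (P : Subgroup G) ⊓ Q := by
    intro x hx
    rintro _ ⟨d, hd, rfl⟩
    have hd' : d ∈ (P : Subgroup G) ⊓ Q := hd
    have h1 : (⟨x, hx⟩ : (P : Subgroup G)) * ⟨d, hd'.1⟩ * (⟨x, hx⟩ : (P : Subgroup G))⁻¹
        ∈ (Q : Subgroup G).subgroupOf P :=
      hnorm.conj_mem _ (Subgroup.mem_subgroupOf.mpr hd'.2) _
    rw [Subgroup.mem_subgroupOf] at h1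
    have h1' : x * d * x⁻¹ ∈ (Q : Subgroup G) := by simpa using h1
    show MulAut.conj x • d ∈ (P : Subgroup G) ⊓ Q
    rw [MulAut.smul_def, MulAut.conj_apply, Subgroup.mem_inf]
    exact ⟨Subgroup.mul_mem _ (Subgroup.mul_mem _ hx hd'.1) (Subgroup.inv_mem _ hx), h1'⟩
  intro x hx
  refine le_antisymm (hle x hx) ?_
  rw [Subgroup.subset_pointwise_smul_iff, ← map_inv]
  exact hle x⁻¹ (inv_mem hx)

theorem eight_le (h15 : Nat.card (Sylow 7 G) = 15) (P Q : Sylow 7 G) (hPQ : P ≠ Q) (g : G) :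
    8 ≤ {S : Sylow 7 G | MulAut.conj g • ((P : Subgroup G) ⊓ Q) ≤ (S : Subgroup G)}.ncard := by
  obtain ⟨-, hnorm⟩ := pair_facts h15 P Q hPQ
  have hPnot := not_mem_orbit P Q hPQ
  have h1 : (insert P (MulAction.orbit (P : Subgroup G) Q)).ncard = 8 := by
    rw [Set.ncard_insert_of_notMem hPnot, orbit_ncard h15 P Q hPQ]
  have hsub : (fun S : Sylow 7 G => g • S) '' (insert P (MulAction.orbit (P : Subgroup G) Q))
      ⊆ {S : Sylow 7 G | MulAut.conj g • ((P : Subgroup G) ⊓ Q) ≤ (S : Subgroup G)} := by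
    rintro _ ⟨S, hS, rfl⟩
    show MulAut.conj g • ((P : Subgroup G) ⊓ Q) ≤ ((g • S : Sylow 7 G) : Subgroup G)
    rw [Sylow.coe_subgroup_smul, Subgroup.pointwise_smul_le_pointwise_smul_iff]
    rcases hS with hS | ⟨y, hy⟩
    · rw [hS]; exact inf_le_left
    · rw [← hy]
      show _ ≤ ((y • Q : Sylow 7 G) : Subgroup G)
      rw [Subgroup.smul_def, Sylow.coe_subgroup_smul]
      refine le_trans (le_of_eq (hnorm y y.2).symm) ?_
      rw [Subgroup.pointwise_smul_le_pointwise_smul_iff]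
      exact inf_le_right
  calc 8 = (insert P (MulAction.orbit (P : Subgroup G) Q)).ncard := h1.symm
    _ = ((fun S : Sylow 7 G => g • S) '' (insert P (MulAction.orbit (P : Subgroup G) Q))).ncard :=
        (Set.ncard_image_of_injective _ (MulAction.injective g)).symm
    _ ≤ _ := Set.ncard_le_ncard hsub

theorem inter_le_one (h15 : Nat.card (Sylow 7 G) = 15) (P Q : Sylow 7 G) (hPQ : P ≠ Q)
    (E1 E2 : Subgroup G)
    (hE1 : Nat.card E1 = Nat.card ((P : Subgroup G) ⊓ Q : Subgroup G))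
    (hE2 : Nat.card E2 = Nat.card ((P : Subgroup G) ⊓ Q : Subgroup G)) (hne : E1 ≠ E2) :
    ({S : Sylow 7 G | E1 ≤ (S : Subgroup G)} ∩ {S : Sylow 7 G | E2 ≤ (S : Subgroup G)}).ncard
      ≤ 1 := by
  obtain ⟨hcard, -⟩ := pair_facts h15 P Q hPQ
  have key : ∀ T : Sylow 7 G, E1 ≤ (T : Subgroup G) → E2 ≤ (T : Subgroup G) →
      (T : Subgroup G) = E1 ⊔ E2 := by
    intro T h1 h2
    symm
    apply Subgroup.eq_of_le_of_card_ge (sup_le h1 h2)
    have hT : Nat.card T = 7 * Nat.card E1 := by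
      rw [hE1, ← hcard, T.card_eq_multiplicity, P.card_eq_multiplicity]
    have hd1 : Nat.card E1 ∣ Nat.card (E1 ⊔ E2 : Subgroup G) :=
      Subgroup.card_dvd_of_le le_sup_left
    have hd2 : Nat.card (E1 ⊔ E2 : Subgroup G) ∣ Nat.card T :=
      Subgroup.card_dvd_of_le (sup_le h1 h2)
    obtain ⟨m, hm⟩ := hd1
    have hE1pos : 0 < Nat.card E1 := Nat.card_pos
    rw [hm, hT] at hd2
    have hm7 : m ∣ 7 := by
      have h3 : Nat.card E1 * m ∣ Nat.card E1 * 7 := by rwa [mul_comm (Nat.card E1) 7]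
      exact (Nat.mul_dvd_mul_iff_left hE1pos).mp h3
    have hm1 : m ≠ 1 := by
      intro h1'
      rw [h1', mul_one] at hm
      have e1 : E1 = E1 ⊔ E2 := Subgroup.eq_of_le_of_card_ge le_sup_left (le_of_eq hm)
      have e2 : E2 ≤ E1 := by rw [e1]; exact le_sup_right
      have e3 : E2 = E1 := Subgroup.eq_of_le_of_card_ge e2 (by rw [hE1, hE2])
      exact hne e3.symm
    have hm7' : m = 7 := by
      rcases (Nat.dvd_prime (by norm_num : Nat.Prime 7)).mp hm7 with h | h
      · exact absurd h hm1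
      · exact h
    rw [hT, hm, hm7', mul_comm]
  rw [Set.ncard_le_one_iff]
  intro S S' hS hS'
  apply Sylow.ext
  rw [key S hS.1 hS.2, key S' hS'.1 hS'.2]

theorem no_three (h15 : Nat.card (Sylow 7 G) = 15) (P Q : Sylow 7 G) (hPQ : P ≠ Q)
    (g1 g2 g3 : G)
    (h12 : MulAut.conj g1 • ((P : Subgroup G) ⊓ Q) ≠ MulAut.conj g2 • ((P : Subgroup G) ⊓ Q))
    (h13 : MulAut.conj g1 • ((P : Subgroup G) ⊓ Q) ≠ MulAut.conj g3 • ((P : Subgroup G) ⊓ Q))
    (h23 : MulAut.conj g2 • ((P : Subgroup G) ⊓ Q) ≠ MulAut.conj g3 • ((P : Subgroup G) ⊓ Q)) :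
    False := by
  have hc : ∀ g : G, Nat.card (MulAut.conj g • ((P : Subgroup G) ⊓ Q) : Subgroup G)
      = Nat.card ((P : Subgroup G) ⊓ Q : Subgroup G) := fun g =>
    Nat.card_congr (Subgroup.equivSMul (MulAut.conj g) ((P : Subgroup G) ⊓ Q)).toEquiv.symm
  have hA := eight_le h15 P Q hPQ g1
  have hB := eight_le h15 P Q hPQ g2
  have hC := eight_le h15 P Q hPQ g3
  have hAB := inter_le_one h15 P Q hPQ _ _ (hc g1) (hc g2) h12
  have hAC := inter_le_one h15 P Q hPQ _ _ (hc g1) (hc g3) h13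
  have hBC := inter_le_one h15 P Q hPQ _ _ (hc g2) (hc g3) h23
  obtain ⟨A, hAdef⟩ : ∃ A : Set (Sylow 7 G),
    A = {S : Sylow 7 G | MulAut.conj g1 • ((P : Subgroup G) ⊓ Q) ≤ (S : Subgroup G)} := ⟨_, rfl⟩
  obtain ⟨B, hBdef⟩ : ∃ B : Set (Sylow 7 G),
    B = {S : Sylow 7 G | MulAut.conj g2 • ((P : Subgroup G) ⊓ Q) ≤ (S : Subgroup G)} := ⟨_, rfl⟩
  obtain ⟨C, hCdef⟩ : ∃ C : Set (Sylow 7 G),
    C = {S : Sylow 7 G | MulAut.conj g3 • ((P : Subgroup G) ⊓ Q) ≤ (S : Subgroup G)} := ⟨_, rfl⟩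
  rw [← hAdef] at hA hAB hAC
  rw [← hBdef] at hB hAB hBC
  rw [← hCdef] at hC hAC hBC
  have e1 := Set.ncard_union_add_ncard_inter A B
  have e2 := Set.ncard_union_add_ncard_inter (A ∪ B) C
  have e3 : ((A ∪ B) ∩ C).ncard ≤ (A ∩ C).ncard + (B ∩ C).ncard := by
    rw [Set.union_inter_distrib_right]; exact Set.ncard_union_le _ _
  have e4 : ((A ∪ B) ∪ C).ncard ≤ 15 := by rw [← h15]; exact Set.ncard_le_card _
  omega

theorem conj_fixed (h15 : Nat.card (Sylow 7 G) = 15) (P Q : Sylow 7 G) (hPQ : P ≠ Q)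
    (y : G) (k : ℕ) (hy : y ^ 7 ^ k = 1) :
    MulAut.conj y • ((P : Subgroup G) ⊓ Q) = (P : Subgroup G) ⊓ Q := by
  by_contra hne
  obtain ⟨D, hD⟩ : ∃ D : Subgroup G, D = (P : Subgroup G) ⊓ Q := ⟨_, rfl⟩
  rw [← hD] at hne
  have h1D : MulAut.conj (1 : G) • D = D := by rw [map_one, one_smul]
  have hyy : MulAut.conj (y * y) • D = MulAut.conj y • (MulAut.conj y • D) := by
    rw [map_mul, mul_smul]
  have h12 : MulAut.conj y • D ≠ MulAut.conj (y * y) • D := by
    rw [hyy]
    intro heq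
    exact hne (smul_left_cancel _ heq).symm
  have hsq : MulAut.conj (y * y) • D = D := by
    by_contra h3
    apply no_three h15 P Q hPQ 1 y (y * y)
    · rw [← hD, h1D]; exact fun e => hne e.symm
    · rw [← hD, h1D]; exact fun e => h3 e.symm
    · rw [← hD]; exact h12
  have hpow : ∀ j : ℕ, MulAut.conj ((y * y) ^ j) • D = D := by
    intro j
    induction j with
    | zero => rw [pow_zero]; exact h1D
    | succ j ih => rw [pow_succ, map_mul, mul_smul, hsq, ih]
  have hodd : 7 ^ k % 2 = 1 := by simp [Nat.pow_mod]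
  have hy2 : (y * y) ^ ((7 ^ k + 1) / 2) = y := by
    rw [← pow_two, ← pow_mul]
    have h2 : 2 * ((7 ^ k + 1) / 2) = 7 ^ k + 1 := by omega
    rw [h2, pow_succ, hy, one_mul]
  apply hne
  have h4 := hpow ((7 ^ k + 1) / 2)
  rw [hy2] at h4
  exact h4

theorem inf_eq_bot (h : MinCex G) (P Q : Sylow 7 G) (hPQ : P ≠ Q) :
    (P : Subgroup G) ⊓ Q = ⊥ := by
  apply bot_of_le_all h
  intro S
  have hD : IsPGroup 7 ((P : Subgroup G) ⊓ Q : Subgroup G) := P.2.to_le inf_le_left
  have hnorm : (S : Subgroup G)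
      ≤ Subgroup.normalizer (((P : Subgroup G) ⊓ Q : Subgroup G) : Set G) := by
    intro y hy
    obtain ⟨k, hk⟩ := S.2 ⟨y, hy⟩
    have hk' : y ^ 7 ^ k = 1 := by simpa using congrArg Subtype.val hk
    have hfix := conj_fixed h.1 P Q hPQ y k hk'
    rw [Subgroup.mem_normalizer_iff]
    intro d
    constructor
    · intro hd
      have h1 := Subgroup.smul_mem_pointwise_smul d (MulAut.conj y) _ hd
      rw [hfix] at h1
      simpa [MulAut.smul_def] using h1
    · intro hd
      have h1 : MulAut.conj y • d ∈ MulAut.conj y • ((P : Subgroup G) ⊓ Q) := by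
        rw [hfix]
        simpa [MulAut.smul_def] using hd
      exact Subgroup.smul_mem_pointwise_smul_iff.mp h1
  have hsup := hD.to_sup_of_normal_left' S.2 hnorm
  have h2 := S.3 hsup le_sup_right
  rw [← h2]; exact le_sup_left

theorem card_sylow7 (h : MinCex G) (P : Sylow 7 G) : Nat.card P = 7 := by
  have hex : ∃ Q : Sylow 7 G, P ≠ Q := by
    by_contra hcon
    push Not at hcon
    haveI : Subsingleton (Sylow 7 G) := ⟨fun a b => by rw [← hcon a, ← hcon b]⟩
    have h1 : Nat.card (Sylow 7 G) = 1 := Nat.card_unique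
    rw [h.1] at h1; omega
  obtain ⟨Q, hPQ⟩ := hex
  obtain ⟨hcard, -⟩ := pair_facts h.1 P Q hPQ
  rw [hcard, inf_eq_bot h P Q hPQ, Subgroup.card_bot]

theorem fixes_all_eq_one (h : MinCex G) (e : G) (he : ∀ S : Sylow 7 G, e • S = S) : e = 1 := by
  obtain ⟨P⟩ : Nonempty (Sylow 7 G) := inferInstance
  obtain ⟨K0, hK0⟩ : ∃ K0 : Subgroup G, K0 = (MulAction.toPermHom G (Sylow 7 G)).ker :=
    ⟨_, rfl⟩
  haveI : K0.Normal := by rw [hK0]; infer_instance
  have hmem : ∀ g : G, g ∈ K0 ↔ ∀ S : Sylow 7 G, g • S = S := by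
    intro g
    rw [hK0, MonoidHom.mem_ker, Equiv.Perm.ext_iff]
    rfl
  have hbot : K0 = ⊥ := by
    by_contra hne
    have h4 := quot_sylow_card_one h K0 hne
    have hf : Function.Surjective (QuotientGroup.mk' K0) := QuotientGroup.mk'_surjective K0
    haveI : Subsingleton (Sylow 7 (G ⧸ K0)) := (Nat.card_eq_one_iff_unique.mp h4).1
    have hn : ((P.mapSurjective hf : Sylow 7 (G ⧸ K0)) : Subgroup (G ⧸ K0)).Normal :=
      Sylow.normal_of_subsingleton _
    have hcomap : ((P : Subgroup G).map (QuotientGroup.mk' K0)).comap (QuotientGroup.mk' K0)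
        = K0 ⊔ P := QuotientGroup.comap_map_mk' K0 P
    haveI hLn : (K0 ⊔ (P : Subgroup G)).Normal := by rw [← hcomap]; exact hn.comap _
    have hidx : ¬ 7 ∣ (K0 ⊔ (P : Subgroup G)).index := fun hd =>
      P.not_dvd_index (hd.trans (Subgroup.index_dvd_of_le le_sup_right))
    have htop := eq_top_of_not_dvd_index h _ hidx
    have hle : K0 ⊔ (P : Subgroup G) ≤ Subgroup.normalizer ((P : Subgroup G) : Set G) := by
      apply sup_le
      · intro g hg
        exact Sylow.smul_eq_iff_mem_normalizer.mp ((hmem g).mp hg P)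
      · exact Subgroup.le_normalizer
    rw [htop] at hle
    have hPn : (P : Subgroup G).Normal :=
      Subgroup.normalizer_eq_top_iff.mp (top_le_iff.mp hle)
    haveI := Sylow.unique_of_normal P hPn
    have h5 : Nat.card (Sylow 7 G) = 1 := Nat.card_unique
    rw [h.1] at h5; omega
  have h6 : e ∈ K0 := (hmem e).mpr he
  rw [hbot] at h6
  exact Subgroup.mem_bot.mp h6

theorem smul_eq_iff_eq (h : MinCex G) (P S : Sylow 7 G) (x : G) (hx : x ∈ (P : Subgroup G))
    (hx1 : x ≠ 1) : x • S = S ↔ S = P := by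
  constructor
  · intro hxS
    by_contra hne
    have h1 : x ∈ (P : Subgroup G) ⊓ Subgroup.normalizer (S : Set G) :=
      Subgroup.mem_inf.mpr ⟨hx, Sylow.smul_eq_iff_mem_normalizer.mp hxS⟩
    rw [P.2.inf_normalizer_sylow S, inf_eq_bot h P S (fun e => hne e.symm)] at h1
    exact hx1 (Subgroup.mem_bot.mp h1)
  · intro hS
    rw [hS, Sylow.smul_eq_iff_mem_normalizer]
    exact Subgroup.le_normalizer hx

set_option maxHeartbeats 1000000 in
theorem cent_prime (h : MinCex G) (P : Sylow 7 G) (r : ℕ) (hr : r.Prime) (e : G)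
    (he : orderOf e = r) (hec : e ∈ Subgroup.centralizer ((P : Subgroup G) : Set G)) :
    r = 7 := by
  classical
  by_contra hr7
  haveI : Fact r.Prime := ⟨hr⟩
  haveI : Fintype (Sylow 7 G) := Fintype.ofFinite _
  have hcardΩ : Fintype.card (Sylow 7 G) = 15 := by rw [← Nat.card_eq_fintype_card]; exact h.1
  obtain ⟨σ, hσ⟩ : ∃ σ : Equiv.Perm (Sylow 7 G), σ = MulAction.toPermHom G (Sylow 7 G) e :=
    ⟨_, rfl⟩
  have hσapp : ∀ S, σ S = e • S := fun S => by rw [hσ]; rfl
  have hσr : σ ^ r ^ 1 = 1 := by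
    rw [pow_one, hσ, ← map_pow, ← he, pow_orderOf_eq_one, map_one]
  have hmemF : ∀ S : Sylow 7 G, S ∈ σ.supportᶜ ↔ e • S = S := by
    intro S
    rw [Finset.mem_compl, Equiv.Perm.mem_support, not_not, hσapp]
  have hFr : σ.supportᶜ.card ≡ 15 [MOD r] := by
    rw [← hcardΩ]; exact Equiv.Perm.card_compl_support_modEq hσr
  -- a nontrivial element of P
  have hP7 := card_sylow7 h P
  have hPne : (P : Subgroup G) ≠ ⊥ := by
    rw [← Subgroup.one_lt_card_iff_ne_bot, hP7]; norm_num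
  obtain ⟨x, hx1⟩ := (Subgroup.ne_bot_iff_exists_ne_one).mp hPne
  have hx1' : (x : G) ≠ 1 := fun e1 => hx1 (Subtype.ext e1)
  have hx7 : (x : G) ^ 7 = 1 := by
    have h2 : x ^ Nat.card (P : Subgroup G) = 1 := pow_card_eq_one'
    rw [hP7] at h2
    simpa using congrArg Subtype.val h2
  have hcomm : (x : G) * e = e * x := hec x x.2
  obtain ⟨τ, hτ⟩ : ∃ τ : Equiv.Perm (Sylow 7 G), τ = MulAction.toPermHom G (Sylow 7 G) x :=
    ⟨_, rfl⟩
  have hτapp : ∀ S, τ S = (x : G) • S := fun S => by rw [hτ]; rfl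
  have hτ7 : τ ^ 7 = 1 := by rw [hτ, ← map_pow, hx7, map_one]
  have hinv : ∀ S, τ S ∈ σ.supportᶜ ↔ S ∈ σ.supportᶜ := by
    intro S
    rw [hmemF, hmemF, hτapp, smul_smul, ← hcomm, mul_smul]
    constructor
    · intro h1; exact smul_left_cancel _ h1
    · intro h1; rw [h1]
  have hτ'7 : (τ.subtypePerm hinv) ^ 7 ^ 1 = 1 := by
    rw [pow_one]
    refine Equiv.Perm.ext fun S => Subtype.ext ?_
    rw [Equiv.Perm.subtypePerm_pow]
    show (τ ^ 7) S.1 = S.1
    rw [hτ7]; rfl
  have hF7 : σ.supportᶜ.card ≡ 1 [MOD 7] := by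
    have h3 := Equiv.Perm.card_compl_support_modEq hτ'7
    rw [Fintype.card_coe] at h3
    have hPF : P ∈ σ.supportᶜ := by
      rw [hmemF, Sylow.smul_eq_iff_mem_normalizer]
      exact Subgroup.centralizer_le_normalizer _ hec
    have h4 : (τ.subtypePerm hinv).supportᶜ = {⟨P, hPF⟩} := by
      ext S
      rw [Finset.mem_compl, Equiv.Perm.mem_support, not_not, Finset.mem_singleton]
      constructor
      · intro h5
        have h6 : τ S.1 = S.1 := congrArg Subtype.val h5
        rw [hτapp] at h6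
        exact Subtype.ext ((smul_eq_iff_eq h P S.1 x x.2 hx1').mp h6)
      · intro h5
        apply Subtype.ext
        show τ S.1 = S.1
        rw [hτapp]
        exact (smul_eq_iff_eq h P S.1 x x.2 hx1').mpr (congrArg Subtype.val h5)
    rw [h4, Finset.card_singleton] at h3
    exact h3.symm
  have hFle : σ.supportᶜ.card ≤ 15 := by rw [← hcardΩ]; exact Finset.card_le_univ _
  have hFne : σ.supportᶜ.card ≠ 15 := by
    intro h15
    have huniv : σ.supportᶜ = Finset.univ := by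
      apply Finset.eq_univ_of_card; rw [h15, hcardΩ]
    have he1 : e = 1 := fixes_all_eq_one h e (fun S => (hmemF S).mp (by rw [huniv]; exact Finset.mem_univ _))
    rw [he1, orderOf_one] at he
    exact hr.one_lt.ne he
  -- so the number of fixed points is 1 or 8
  have hF18 : σ.supportᶜ.card = 1 ∨ σ.supportᶜ.card = 8 := by
    unfold Nat.ModEq at hF7
    omega
  have hr2 : r = 2 ∧ σ.supportᶜ.card = 1 := by
    rcases hF18 with h1 | h8
    · rw [h1] at hFr
      have hd : r ∣ 15 - 1 := (Nat.modEq_iff_dvd' (by norm_num)).mp hFr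
      have hd' : r ∣ 2 * 7 := by norm_num at hd ⊢; exact hd
      rcases (Nat.Prime.dvd_mul hr).mp hd' with h2 | h7
      · exact ⟨(Nat.prime_dvd_prime_iff_eq hr (by norm_num)).mp h2, h1⟩
      · exact absurd ((Nat.prime_dvd_prime_iff_eq hr (by norm_num)).mp h7) hr7
    · rw [h8] at hFr
      have hd : r ∣ 15 - 8 := (Nat.modEq_iff_dvd' (by norm_num)).mp hFr
      have hd' : r ∣ 7 := by norm_num at hd ⊢; exact hd
      exact absurd ((Nat.prime_dvd_prime_iff_eq hr (by norm_num)).mp hd') hr7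
  obtain ⟨hr2', hF1⟩ := hr2
  have hσ2 : σ ^ 2 = 1 := by
    rw [hr2', pow_one] at hσr; exact hσr
  have hsign : Equiv.Perm.sign σ = -1 := by
    rw [Equiv.Perm.sign_of_pow_two_eq_one hσ2, Equiv.Perm.card_fixedPoints,
      Equiv.Perm.sum_cycleType, hcardΩ]
    have hsup : σ.support.card = 14 := by
      have h5 := Finset.card_compl σ.support
      rw [hF1, hcardΩ] at h5
      have h6 : σ.support.card ≤ 15 := by rw [← hcardΩ]; exact Finset.card_le_univ _
      omega
    rw [hsup]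
    decide
  -- the sign homomorphism
  obtain ⟨ψ, hψ⟩ : ∃ ψ : G →* ℤˣ, ψ = (Equiv.Perm.sign).comp (MulAction.toPermHom G (Sylow 7 G)) :=
    ⟨_, rfl⟩
  have hidx : ¬ 7 ∣ ψ.ker.index := by
    rw [Subgroup.index_ker]
    intro hd
    have h7 : Nat.card ψ.range ∣ Nat.card ℤˣ := Subgroup.card_subgroup_dvd_card _
    have hZ : Nat.card ℤˣ = 2 := by simp [Nat.card_eq_fintype_card]
    rw [hZ] at h7
    have h8 := Nat.le_of_dvd (by norm_num) (hd.trans h7)
    omega
  have htop := eq_top_of_not_dvd_index h ψ.ker hidx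
  have hek : e ∈ ψ.ker := by rw [htop]; exact Subgroup.mem_top e
  rw [MonoidHom.mem_ker, hψ, MonoidHom.comp_apply, ← hσ, hsign] at hek
  exact absurd hek (by decide)

theorem sylow_card_eq_prime (p : ℕ) [Fact p.Prime] (Q : Sylow p G) (h1 : p ∣ Nat.card G)
    (h2 : ¬ p ^ 2 ∣ Nat.card G) : Nat.card Q = p := by
  obtain ⟨j, hj⟩ := IsPGroup.iff_card.mp Q.2
  rcases j with _ | _ | j
  · exfalso
    rw [pow_zero] at hj
    have h3 := Subgroup.card_mul_index (Q : Subgroup G)
    rw [hj, one_mul] at h3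
    exact Q.not_dvd_index (h3 ▸ h1)
  · rw [hj]; simp
  · exfalso
    apply h2
    have h3 : p ^ 2 ∣ Nat.card Q := by rw [hj]; exact pow_dvd_pow p (by omega)
    exact h3.trans (Subgroup.card_subgroup_dvd_card _)

theorem transfer_contra (h : MinCex G) (p : ℕ) [Fact p.Prime] (hp : p ≠ 7) (Q : Sylow p G)
    (hQ : Nat.card Q = p) (hcop : Nat.Coprime (Nat.card G) (p - 1)) : False := by
  have h1 := relIndex_cent_dvd p (Q : Subgroup G) hQ
  have h2 : (Subgroup.centralizer ((Q : Subgroup G) : Set G)).relIndex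
      (Subgroup.normalizer ((Q : Subgroup G) : Set G)) ∣ Nat.card G :=
    (Subgroup.relIndex_dvd_card _ _).trans (Subgroup.card_subgroup_dvd_card _)
  have h3 := Nat.eq_one_of_dvd_coprimes hcop h2 h1
  have hle : Subgroup.normalizer ((Q : Subgroup G) : Set G)
      ≤ Subgroup.centralizer ((Q : Subgroup G) : Set G) := Subgroup.relIndex_eq_one.mp h3
  have hcomp := MonoidHom.ker_transferSylow_isComplement' Q hle
  have hidx : (MonoidHom.transferSylow Q hle).ker.index = p := by
    rw [hcomp.symm.index_eq_card, hQ]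
  have hnd : ¬ 7 ∣ (MonoidHom.transferSylow Q hle).ker.index := by
    rw [hidx]
    intro hd
    exact hp ((Nat.prime_dvd_prime_iff_eq (by norm_num) Fact.out).mp hd).symm
  have htop := eq_top_of_not_dvd_index h _ hnd
  rw [htop, Subgroup.index_top] at hidx
  exact (Fact.out : p.Prime).one_lt.ne hidx

theorem final (h : MinCex G) : False := by
  obtain ⟨P⟩ : Nonempty (Sylow 7 G) := inferInstance
  have hP7 := card_sylow7 h P
  obtain ⟨N, hN⟩ : ∃ N : Subgroup G, N = Subgroup.normalizer ((P : Subgroup G) : Set G) :=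
    ⟨_, rfl⟩
  obtain ⟨C, hC⟩ : ∃ C : Subgroup G, C = Subgroup.centralizer ((P : Subgroup G) : Set G) :=
    ⟨_, rfl⟩
  have hidx : N.index = 15 := by rw [hN, ← h.1]; exact (P.card_eq_index_normalizer).symm
  have hG : Nat.card G = 15 * Nat.card N := by
    rw [← hidx, mul_comm]; exact (Subgroup.card_mul_index N).symm
  have hrel : C.relIndex N ∣ 6 := by
    rw [hC, hN]; exact relIndex_cent_dvd 7 (P : Subgroup G) hP7
  have hCN : C ≤ N := by rw [hC, hN]; exact Subgroup.centralizer_le_normalizer _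
  have hNcard : Nat.card N = Nat.card C * C.relIndex N := by
    have h1 := Subgroup.card_mul_index (C.subgroupOf N)
    rw [Nat.card_congr (Subgroup.subgroupOfEquivOfLe hCN).toEquiv] at h1
    exact h1.symm
  have hCpow : ∃ a, Nat.card C = 7 ^ a := by
    refine ⟨_, Nat.eq_prime_pow_of_unique_prime_dvd Nat.card_pos.ne' ?_⟩
    intro r hr hrd
    haveI : Fact r.Prime := ⟨hr⟩
    obtain ⟨e, he⟩ := exists_prime_orderOf_dvd_card' r hrd
    apply cent_prime h P r hr (e : G)
    · rw [Subgroup.orderOf_coe]; exact he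
    · rw [← hC]; exact e.2
  obtain ⟨a, ha⟩ := hCpow
  have hC7 : Nat.card C ∣ 7 := by
    obtain ⟨S, hS⟩ := (IsPGroup.of_card ha).exists_le_sylow
    have h1 := Subgroup.card_dvd_of_le hS
    rwa [card_sylow7 h S] at h1
  have h7N : 7 ∣ Nat.card N := by
    have h1 := Subgroup.card_dvd_of_le
      (show (P : Subgroup G) ≤ N by rw [hN]; exact Subgroup.le_normalizer)
    rwa [hP7] at h1
  have hdle : C.relIndex N ≤ 6 := Nat.le_of_dvd (by norm_num) hrel
  obtain ⟨d, hd⟩ : ∃ d, d = C.relIndex N := ⟨_, rfl⟩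
  obtain ⟨c, hc⟩ : ∃ c, c = Nat.card C := ⟨_, rfl⟩
  rw [← hd] at hrel hdle hNcard
  rw [← hc] at hC7 hNcard
  have hd0 : d ≠ 0 := by rintro rfl; simp at hrel
  have hc7 : c = 7 := by
    rcases (Nat.dvd_prime (by norm_num : Nat.Prime 7)).mp hC7 with h1 | h7
    · exfalso
      rw [h1, one_mul] at hNcard
      rw [hNcard] at h7N
      have h2 := Nat.le_of_dvd (Nat.pos_of_ne_zero hd0) h7N
      omega
    · exact h7
  rw [hc7] at hNcard
  rw [hNcard] at hG
  have hd_cases : d = 1 ∨ d = 2 ∨ d = 3 ∨ d = 6 := by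
    interval_cases d <;> omega
  rcases hd_cases with rfl | rfl | rfl | rfl
  · haveI : Fact (Nat.Prime 5) := ⟨by norm_num⟩
    obtain ⟨Q⟩ : Nonempty (Sylow 5 G) := inferInstance
    have hQ : Nat.card Q = 5 :=
      sylow_card_eq_prime 5 Q (by rw [hG]; norm_num) (by rw [hG]; norm_num)
    exact transfer_contra h 5 (by norm_num) Q hQ (by rw [hG]; norm_num)
  · haveI : Fact (Nat.Prime 2) := ⟨by norm_num⟩
    obtain ⟨Q⟩ : Nonempty (Sylow 2 G) := inferInstance
    have hQ : Nat.card Q = 2 :=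
      sylow_card_eq_prime 2 Q (by rw [hG]; norm_num) (by rw [hG]; norm_num)
    exact transfer_contra h 2 (by norm_num) Q hQ (by rw [hG]; norm_num)
  · haveI : Fact (Nat.Prime 5) := ⟨by norm_num⟩
    obtain ⟨Q⟩ : Nonempty (Sylow 5 G) := inferInstance
    have hQ : Nat.card Q = 5 :=
      sylow_card_eq_prime 5 Q (by rw [hG]; norm_num) (by rw [hG]; norm_num)
    exact transfer_contra h 5 (by norm_num) Q hQ (by rw [hG]; norm_num)
  · haveI : Fact (Nat.Prime 2) := ⟨by norm_num⟩
    obtain ⟨Q⟩ : Nonempty (Sylow 2 G) := inferInstance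
    have hQ : Nat.card Q = 2 :=
      sylow_card_eq_prime 2 Q (by rw [hG]; norm_num) (by rw [hG]; norm_num)
    exact transfer_contra h 2 (by norm_num) Q hQ (by rw [hG]; norm_num)

end Min

theorem no15 : ∀ (n : ℕ) (G : Type u) [Group G] [Finite G], Nat.card G = n →
    Nat.card (Sylow 7 G) ≠ 15 := by
  intro n
  induction n using Nat.strong_induction_on with
  | _ n ih =>
    intro G _ _ hn h15
    haveI : Fact (Nat.Prime 7) := ⟨by norm_num⟩
    exact final (G := G) ⟨h15, fun H _ _ hlt => ih (Nat.card H) (hn ▸ hlt) H rfl⟩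

/-- No finite group has exactly 15 Sylow 7-subgroups. -/
theorem result {G : Type*} [Group G] [Finite G] : Nat.card (Sylow 7 G) ≠ 15 :=
  no15 _ G rfl

end Cfsg.Agent.S4304
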