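import Cfsg.Statements.S4237
import Cfsg.Agent.Helper26.Kul7

set_option autoImplicit false
open Cfsg

namespace Cfsg.Agent.S4237

open Cfsg.Agent.Helper26

/-- Let G be a finite group, p a prime and a a natural number such that p^(a+1) divides the order of G. Then the number of subgroups of G of order p^a is congruent to 1 or to 1 + p modulo p². -/
theorem result {G : Type*} [Group G] [Finite G] (p a : ℕ) (hp : p.Prime) (hdvd : p ^ (a + 1) ∣ Nat.card G) :
    Nat.card {H : Subgroup G // Nat.card H = p ^ a} ≡ 1 [MOD p ^ 2] ∨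
      Nat.card {H : Subgroup G // Nat.card H = p ^ a} ≡ 1 + p [MOD p ^ 2] := by
  haveI : Fact p.Prime := ⟨hp⟩
  obtain ⟨P⟩ : Nonempty (Sylow p G) := inferInstance
  have hPcard := P.card_eq_multiplicity
  obtain ⟨n, hn⟩ : ∃ n : ℕ, n = (Nat.card G).factorization p := ⟨_, rfl⟩
  rw [← hn] at hPcard
  have hG0 : Nat.card G ≠ 0 := Nat.card_pos.ne'
  have han : a + 1 ≤ n := by
    rw [hn]; exact (hp.pow_dvd_iff_le_factorization hG0).mp hdvd
  have hmax : ∀ (Q : Subgroup G) (k : ℕ), Nat.card Q = p ^ k → k ≤ n := by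
    intro Q k hQ
    have : p ^ k ∣ Nat.card G := hQ ▸ Subgroup.card_subgroup_dvd_card Q
    rw [hn]; exact (hp.pow_dvd_iff_le_factorization hG0).mp this
  have hred := kul_sylow_red (P : Subgroup G) hPcard hmax (by omega : a < n)
  have hfrob := kul_frob n (P : Subgroup G) hPcard a (by omega)
  by_cases hp2 : p = 2
  · subst hp2
    have h1 : Nat.card {H : Subgroup G // Nat.card H = 2 ^ a} ≡ 1 [MOD 2] :=
      (hred.of_dvd (by norm_num)).trans hfrob
    have h4 : (2 : ℕ) ^ 2 = 4 := by norm_num
    rw [h4]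
    unfold Nat.ModEq at h1 ⊢
    omega
  · by_cases hcyc : IsCyclic (P : Subgroup G)
    · left
      rw [kul_cyclic_count hPcard hcyc a (by omega)] at hred
      exact hred
    · rcases Nat.eq_zero_or_pos a with h0 | h0
      · left
        subst h0
        have : Nat.card {H : Subgroup G // Nat.card H = p ^ 0} = 1 := by
          rw [Nat.card_eq_one_iff_unique]
          refine ⟨⟨fun H K => ?_⟩, ⟨⟨⊥, by simp⟩⟩⟩
          apply Subtype.ext
          have h1 : H.1 = ⊥ := Subgroup.card_eq_one.mp (by rw [H.2, pow_zero])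
          have h2 : K.1 = ⊥ := Subgroup.card_eq_one.mp (by rw [K.2, pow_zero])
          rw [h1, h2]
        rw [this]
      · right
        exact hred.trans (kul_kulakoff hp2 n (P : Subgroup G) hPcard hcyc a h0 (by omega))

end Cfsg.Agent.S4237
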