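import Cfsg.Statements.S4244

set_option autoImplicit false
open Cfsg

namespace Cfsg.Agent.S4244

theorem card_mul_relIndex {G : Type*} [Group G] (A B : Subgroup G) :
    Nat.card (A ⊓ B : Subgroup G) * A.relIndex B = Nat.card B := by
  rw [← Subgroup.inf_relIndex_right, Subgroup.relIndex, ← Subgroup.card_mul_index ((A ⊓ B).subgroupOf B)]
  congr 1
  exact Nat.card_congr (Subgroup.subgroupOfEquivOfLe inf_le_right).toEquiv.symm

/-- normal case: if `H` is normal then `|H : H ∩ K|` divides `|G : K|`. -/
theorem normal_case {G : Type*} [Group G] [Finite G] (H K : Subgroup G) [H.Normal] :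
    K.relIndex H ∣ K.index := by
  have hK : K ≤ K ⊔ H := le_sup_left
  have hH : H ≤ K ⊔ H := le_sup_right
  have e1 := card_mul_relIndex K (K ⊔ H)
  rw [inf_of_le_left hK] at e1
  have e2 := card_mul_relIndex K H
  have e3 := card_mul_relIndex H (K ⊔ H)
  rw [inf_of_le_left hH] at e3
  have e4 := card_mul_relIndex H K
  have e5 : H.relIndex (K ⊔ H) = H.relIndex K := Subgroup.relIndex_sup_right K H
  rw [e5] at e3
  rw [inf_comm] at e4
  have hpos1 : 0 < Nat.card K := Nat.card_pos
  have hpos2 : 0 < Nat.card (K ⊓ H : Subgroup G) := Nat.card_pos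
  have key : K.relIndex (K ⊔ H) = K.relIndex H := by
    have h1 : Nat.card K * Nat.card (K ⊓ H : Subgroup G) * K.relIndex (K ⊔ H) =
        Nat.card K * Nat.card (K ⊓ H : Subgroup G) * K.relIndex H := by
      calc Nat.card K * Nat.card (K ⊓ H : Subgroup G) * K.relIndex (K ⊔ H)
          = Nat.card (K ⊓ H : Subgroup G) * (Nat.card K * K.relIndex (K ⊔ H)) := by ring
        _ = Nat.card (K ⊓ H : Subgroup G) * Nat.card (K ⊔ H : Subgroup G) := by rw [e1]
        _ = Nat.card (K ⊓ H : Subgroup G) * (Nat.card H * H.relIndex K) := by rw [e3]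
        _ = Nat.card H * (Nat.card (K ⊓ H : Subgroup G) * H.relIndex K) := by ring
        _ = Nat.card H * Nat.card K := by rw [e4]
        _ = Nat.card K * (Nat.card (K ⊓ H : Subgroup G) * K.relIndex H) := by rw [e2]; ring
        _ = Nat.card K * Nat.card (K ⊓ H : Subgroup G) * K.relIndex H := by ring
    exact Nat.eq_of_mul_eq_mul_left (Nat.mul_pos hpos1 hpos2) h1
  rw [← key]
  exact Subgroup.relIndex_dvd_index_of_le hK

theorem result {G : Type*} [Group G] [Finite G] (H : Subgroup G) (hH : H.IsSubnormal) (K : Subgroup G) :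
    (H ⊓ K).relIndex H ∣ K.index := by
  induction hH generalizing K with
  | top => simp
  | step H M h_le hSubn hN ih =>
    refine dvd_trans ?_ (ih K)
    have h1 := normal_case (H.subgroupOf M) (K.subgroupOf M)
    rw [Subgroup.relIndex_subgroupOf h_le] at h1
    rw [Subgroup.inf_relIndex_left, Subgroup.inf_relIndex_left]
    exact h1

end Cfsg.Agent.S4244
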