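import Cfsg.Statements.S4250
-- import your own Cfsg.Agent.* helpers here

import Mathlib
import Cfsg.Agent.Helper23.AlperinDec
import Cfsg.Agent.Helper13.Fusion3

set_option autoImplicit false
open Cfsg

namespace Cfsg.Agent.S4250

open Cfsg.Agent.Helper13 Cfsg.Agent.Helper23
open scoped commutatorElement

/-- Let P be a Sylow p-subgroup of a finite group G. Call an intersection H = P ∩ Q with a Sylow p-subgroup Q tame when N_P(H) and N_Q(H) are Sylow p-subgroups of N_G(H). Then P ∩ G′ is generated by [P, N_G(P)] together with the commutator subgroups [P ∩ Q, ⟨x⟩] for all tame intersections P ∩ Q and all p-elements x of N_G(P ∩ Q). -/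
theorem result {G : Type*} [Group G] [Finite G] (p : ℕ) [Fact p.Prime] (P : Sylow p G) :
    (P : Subgroup G) ⊓ commutator G =
      ⁅(P : Subgroup G), Subgroup.normalizer ((P : Subgroup G) : Set G)⁆ ⊔
        ⨆ (Q : Sylow p G) (_ : (¬ p ∣ ((P : Subgroup G) ⊓ Subgroup.normalizer (((P : Subgroup G) ⊓ (Q : Subgroup G) : Subgroup G) : Set G)).relIndex (Subgroup.normalizer (((P : Subgroup G) ⊓ (Q : Subgroup G) : Subgroup G) : Set G)) ∧ ¬ p ∣ ((Q : Subgroup G) ⊓ Subgroup.normalizer (((P : Subgroup G) ⊓ (Q : Subgroup G) : Subgroup G) : Set G)).relIndex (Subgroup.normalizer (((P : Subgroup G) ⊓ (Q : Subgroup G) : Subgroup G) : Set G))))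
          (x : G) (_ : x ∈ Subgroup.normalizer (((P : Subgroup G) ⊓ (Q : Subgroup G) : Subgroup G) : Set G) ∧ ∃ k : ℕ, orderOf x = p ^ k),
          ⁅(P : Subgroup G) ⊓ (Q : Subgroup G), Subgroup.zpowers x⁆ := by
  obtain ⟨D, hD⟩ : ∃ D, D = ⁅(P : Subgroup G), Subgroup.normalizer ((P : Subgroup G) : Set G)⁆ ⊔
        ⨆ (Q : Sylow p G) (_ : (¬ p ∣ ((P : Subgroup G) ⊓ Subgroup.normalizer (((P : Subgroup G) ⊓ (Q : Subgroup G) : Subgroup G) : Set G)).relIndex (Subgroup.normalizer (((P : Subgroup G) ⊓ (Q : Subgroup G) : Subgroup G) : Set G)) ∧ ¬ p ∣ ((Q : Subgroup G) ⊓ Subgroup.normalizer (((P : Subgroup G) ⊓ (Q : Subgroup G) : Subgroup G) : Set G)).relIndex (Subgroup.normalizer (((P : Subgroup G) ⊓ (Q : Subgroup G) : Subgroup G) : Set G))))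
          (x : G) (_ : x ∈ Subgroup.normalizer (((P : Subgroup G) ⊓ (Q : Subgroup G) : Subgroup G) : Set G) ∧ ∃ k : ℕ, orderOf x = p ^ k),
          ⁅(P : Subgroup G) ⊓ (Q : Subgroup G), Subgroup.zpowers x⁆ := ⟨_, rfl⟩
  rw [← hD]
  have hD1 : ⁅(P : Subgroup G), Subgroup.normalizer ((P : Subgroup G) : Set G)⁆ ≤ D := by
    rw [hD]; exact le_sup_left
  have hD2 : ∀ (Q : Sylow p G), (¬ p ∣ ((P : Subgroup G) ⊓ Subgroup.normalizer (((P : Subgroup G) ⊓ (Q : Subgroup G) : Subgroup G) : Set G)).relIndex (Subgroup.normalizer (((P : Subgroup G) ⊓ (Q : Subgroup G) : Subgroup G) : Set G)) ∧ ¬ p ∣ ((Q : Subgroup G) ⊓ Subgroup.normalizer (((P : Subgroup G) ⊓ (Q : Subgroup G) : Subgroup G) : Set G)).relIndex (Subgroup.normalizer (((P : Subgroup G) ⊓ (Q : Subgroup G) : Subgroup G) : Set G))) →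
      ∀ x : G, (x ∈ Subgroup.normalizer (((P : Subgroup G) ⊓ (Q : Subgroup G) : Subgroup G) : Set G) ∧ ∃ k : ℕ, orderOf x = p ^ k) →
      ⁅(P : Subgroup G) ⊓ (Q : Subgroup G), Subgroup.zpowers x⁆ ≤ D := by
    intro Q hQ x hx
    rw [hD]
    exact le_sup_of_le_right (le_iSup_of_le Q (le_iSup_of_le hQ (le_iSup_of_le x
      (le_iSup_of_le hx le_rfl))))
  apply le_antisymm
  · rw [commutator_def]
    apply focal_le P D
    intro b hb u hu
    have hQ : Subgroup.zpowers b ≤ (P : Subgroup G) := by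
      rw [Subgroup.zpowers_le]; exact hb
    have hrc : rc u⁻¹ (Subgroup.zpowers b) ≤ (P : Subgroup G) := by
      intro y hy
      rw [mem_rc] at hy
      obtain ⟨k, hk⟩ := Subgroup.mem_zpowers_iff.mp hy
      have e : y = (u * b * u⁻¹) ^ k := by
        rw [conj_zpow, hk]; group
      rw [e]
      exact Subgroup.zpow_mem _ hu k
    have hdec := alperin_dec P (Subgroup.zpowers b) hQ u⁻¹ hrc
    have key := sdec_gen (stp := astp P)
      (fun (R : Subgroup G) (g : G) => ∀ b ∈ R, b * (g⁻¹ * b * g)⁻¹ ∈ D)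
      (by
        intro R b _
        simp)
      (by
        intro R g₁ g₂ h1 h2 b hb
        have h3 := h1 b hb
        have hb' : g₁⁻¹ * b * g₁ ∈ rc g₁ R := by
          rw [mem_rc]
          have e : g₁ * (g₁⁻¹ * b * g₁) * g₁⁻¹ = b := by group
          rw [e]; exact hb
        have h4 := h2 _ hb'
        have e : b * ((g₁ * g₂)⁻¹ * b * (g₁ * g₂))⁻¹ =
            (b * (g₁⁻¹ * b * g₁)⁻¹) * ((g₁⁻¹ * b * g₁) * (g₂⁻¹ * (g₁⁻¹ * b * g₁) * g₂)⁻¹) := by
          group
        rw [e]
        exact D.mul_mem h3 h4)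
      (Nat.card (Subgroup.zpowers b))
      (by
        intro D' x hst R hRD _ b hb
        obtain ⟨Q₁, hD', hxN, htP, htQ, hor⟩ := hst
        have e : b * (x⁻¹ * b * x)⁻¹ = ⁅b, x⁻¹⁆ := by
          rw [commutatorElement_def]; group
        rw [e]
        subst hD'
        rcases hor with hQP | hk
        · apply hD1
          rw [hQP, inf_idem] at hRD hxN
          exact Subgroup.commutator_mem_commutator (hRD hb) (Subgroup.inv_mem _ hxN)
        · apply hD2 Q₁ ⟨htP, htQ⟩ x ⟨hxN, hk⟩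
          exact Subgroup.commutator_mem_commutator (hRD hb)
            (Subgroup.inv_mem _ (Subgroup.mem_zpowers x)))
      hdec rfl
    have h5 := key b (Subgroup.mem_zpowers b)
    rw [inv_inv] at h5
    exact h5
  · rw [hD]
    apply sup_le
    · rw [Subgroup.commutator_le]
      intro b hb n hn
      refine Subgroup.mem_inf.mpr ⟨?_, ?_⟩
      · have e : ⁅b, n⁆ = b * (n * b⁻¹ * n⁻¹) := by
          rw [commutatorElement_def]; group
        rw [e]
        exact Subgroup.mul_mem _ hb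
          ((Subgroup.mem_normalizer_iff.mp hn b⁻¹).mp (Subgroup.inv_mem _ hb))
      · rw [commutator_def]
        exact Subgroup.commutator_mem_commutator (Subgroup.mem_top _) (Subgroup.mem_top _)
    · refine iSup_le fun Q => iSup_le fun _ => iSup_le fun x => iSup_le fun hx => ?_
      rw [Subgroup.commutator_le]
      intro b hb n hn
      have hnN : n ∈ Subgroup.normalizer (((P : Subgroup G) ⊓ (Q : Subgroup G) : Subgroup G) : Set G) :=
        (Subgroup.zpowers_le.mpr hx.1) hn
      refine Subgroup.mem_inf.mpr ⟨?_, ?_⟩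
      · have e : ⁅b, n⁆ = b * (n * b⁻¹ * n⁻¹) := by
          rw [commutatorElement_def]; group
        rw [e]
        have h1 := (Subgroup.mem_normalizer_iff.mp hnN b⁻¹).mp (Subgroup.inv_mem _ hb)
        exact (Subgroup.mem_inf.mp (Subgroup.mul_mem _ hb h1)).1
      · rw [commutator_def]
        exact Subgroup.commutator_mem_commutator (Subgroup.mem_top _) (Subgroup.mem_top _)

end Cfsg.Agent.S4250
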