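import Cfsg.Statements.S4252

set_option autoImplicit false
open Cfsg
open scoped Pointwise

namespace Cfsg.Agent.S4252

theorem mem_conj_smul {G : Type*} [Group G] (H : Subgroup G) (w u : G) :
    u ∈ MulAut.conj w • H ↔ w⁻¹ * u * w ∈ H := by
  rw [Subgroup.mem_pointwise_smul_iff_inv_smul_mem]
  simp [MulAut.smul_def]

theorem mem_conj_stab {G Ω : Type*} [Group G] [MulAction G Ω] (α : Ω) (w u : G) :
    u ∈ MulAut.conj w • MulAction.stabilizer G α ↔ u • (w • α) = w • α := by
  rw [mem_conj_smul, MulAction.mem_stabilizer_iff, mul_smul, mul_smul, inv_smul_eq_iff]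

theorem result {G Ω : Type*} [Group G] [Finite G] [Fintype Ω] [MulAction G Ω] (hΩ : 1 < Fintype.card Ω)
    (htrans : ∀ α β : Ω, ∃ g : G, g • α = β) (hnreg : ∃ g : G, g ≠ 1 ∧ ∃ α : Ω, g • α = α)
    (hfix : ∀ g : G, g ≠ 1 → ∀ α β : Ω, g • α = α → g • β = β → α = β) (α : Ω) :
    Cfsg.IsFrobeniusComplement (MulAction.stabilizer G α) ∧
      Cfsg.frobeniusKernel (MulAction.stabilizer G α) = {g : G | g = 1 ∨ ∀ ω : Ω, g • ω ≠ ω} := by
  refine ⟨⟨?_, ?_, ?_⟩, ?_⟩
  · obtain ⟨g, hg1, α', hg⟩ := hnreg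
    obtain ⟨k, hk⟩ := htrans α' α
    intro hbot
    have h1 : k * g * k⁻¹ ∈ MulAction.stabilizer G α := by
      rw [MulAction.mem_stabilizer_iff, mul_smul, mul_smul, ← hk, inv_smul_smul, hg]
    rw [hbot, Subgroup.mem_bot] at h1
    apply hg1
    calc g = k⁻¹ * (k * g * k⁻¹) * k := by group
      _ = 1 := by rw [h1]; group
  · intro htop
    obtain ⟨β, hβ⟩ := Fintype.exists_ne_of_one_lt_card hΩ α
    obtain ⟨g, hg⟩ := htrans α β
    have : g ∈ MulAction.stabilizer G α := by rw [htop]; trivial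
    rw [MulAction.mem_stabilizer_iff] at this
    exact hβ (by rw [← hg, this])
  · intro g hg
    rw [eq_bot_iff]
    intro x hx
    rw [Subgroup.mem_inf, mem_conj_stab, MulAction.mem_stabilizer_iff] at hx
    rw [Subgroup.mem_bot]
    by_contra hx1
    apply hg
    rw [MulAction.mem_stabilizer_iff]
    exact (hfix x hx1 _ _ hx.1 hx.2).symm
  · ext x
    simp only [Cfsg.frobeniusKernel, Set.mem_ofPred_eq]
    constructor
    · rintro (h | h)
      · left; exact h
      · right
        intro ω hω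
        obtain ⟨g, hg⟩ := htrans α ω
        apply h g
        rw [mem_conj_stab, hg, hω]
    · rintro (h | h)
      · left; exact h
      · right
        intro g hg
        rw [mem_conj_stab] at hg
        exact h _ hg

end Cfsg.Agent.S4252
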