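import Cfsg.Statements.S4253

set_option autoImplicit false
open Cfsg
open scoped Pointwise

namespace Cfsg.Agent.S4253

theorem mem_conj_smul {G : Type*} [Group G] (H : Subgroup G) (w u : G) :
    u ∈ MulAut.conj w • H ↔ w⁻¹ * u * w ∈ H := by
  rw [Subgroup.mem_pointwise_smul_iff_inv_smul_mem]
  simp [MulAut.smul_def]

theorem result {G : Type*} [Group G] [Finite G] (H : Subgroup G) (hH : Cfsg.IsFrobeniusComplement H)
    (g : G) (hg : g ≠ 1) (a b : G ⧸ H) (ha : g • a = a) (hb : g • b = b) : a = b := by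
  obtain ⟨-, -, hF⟩ := hH
  induction a using QuotientGroup.induction_on with
  | H x =>
  induction b using QuotientGroup.induction_on with
  | H y =>
  rw [MulAction.Quotient.smul_mk, QuotientGroup.eq] at ha hb
  by_contra hab
  rw [QuotientGroup.eq] at hab
  have hu : x⁻¹ * g * x ∈ H := by
    have := H.inv_mem ha
    have e : ((g • x)⁻¹ * x)⁻¹ = x⁻¹ * g * x := by simp [smul_eq_mul, mul_assoc]
    rwa [e] at this
  have hv : y⁻¹ * g * y ∈ H := by
    have := H.inv_mem hb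
    have e : ((g • y)⁻¹ * y)⁻¹ = y⁻¹ * g * y := by simp [smul_eq_mul, mul_assoc]
    rwa [e] at this
  have h1 : x⁻¹ * g * x ∈ H ⊓ (MulAut.conj (x⁻¹ * y) • H) := by
    rw [Subgroup.mem_inf]
    refine ⟨hu, ?_⟩
    rw [mem_conj_smul]
    have e : (x⁻¹ * y)⁻¹ * (x⁻¹ * g * x) * (x⁻¹ * y) = y⁻¹ * g * y := by group
    rw [e]; exact hv
  rw [hF _ hab, Subgroup.mem_bot] at h1
  apply hg
  calc g = x * (x⁻¹ * g * x) * x⁻¹ := by group
    _ = 1 := by rw [h1]; group

end Cfsg.Agent.S4253
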