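import Cfsg.Statements.S4263
import Cfsg.Agent.S0008
import Cfsg.Agent.S4244
import Mathlib

set_option autoImplicit false
open Cfsg

namespace Cfsg.Agent.S4263

/-- In a finite nilpotent group, `x ^ [F : M] ∈ M` for every subgroup `M`. -/
theorem pow_index_mem_of_nilpotent {F : Type*} [Group F] [Finite F] [hF : Group.IsNilpotent F] :
    ∀ (n : ℕ) (M : Subgroup F), M.index = n → ∀ x : F, x ^ n ∈ M := by
  intro n
  induction n using Nat.strong_induction_on with
  | _ n ih =>
  intro M hM x
  by_cases hMtop : M = ⊤
  · subst hMtop; simp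
  · have hnc : NormalizerCondition F := Group.normalizerCondition_of_isNilpotent
    have hlt : M < Subgroup.normalizer (M : Set F) := hnc M (lt_top_iff_ne_top.mpr hMtop)
    have hidx : M.relIndex (Subgroup.normalizer (M : Set F)) *
        (Subgroup.normalizer (M : Set F)).index = M.index :=
      Subgroup.relIndex_mul_index hlt.le
    have hrel1 : M.relIndex (Subgroup.normalizer (M : Set F)) ≠ 1 := by
      intro h1
      rw [Subgroup.relIndex_eq_one] at h1
      exact (not_le_of_gt hlt) h1
    have hrel0 : M.relIndex (Subgroup.normalizer (M : Set F)) ≠ 0 := by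
      intro h0
      rw [h0, zero_mul] at hidx
      exact Subgroup.index_ne_zero_of_finite hidx.symm
    have hN0 : (Subgroup.normalizer (M : Set F)).index ≠ 0 := Subgroup.index_ne_zero_of_finite
    have hM1lt : (Subgroup.normalizer (M : Set F)).index < n := by
      rw [← hM, ← hidx]
      have h2 : 2 ≤ M.relIndex (Subgroup.normalizer (M : Set F)) := by omega
      nlinarith [Nat.pos_of_ne_zero hN0]
    have h1 : x ^ (Subgroup.normalizer (M : Set F)).index ∈ Subgroup.normalizer (M : Set F) :=
      ih _ hM1lt _ rfl x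
    have h2 : (⟨x ^ (Subgroup.normalizer (M : Set F)).index, h1⟩ :
        Subgroup.normalizer (M : Set F)) ^ (M.relIndex (Subgroup.normalizer (M : Set F))) ∈
        M.subgroupOf (Subgroup.normalizer (M : Set F)) :=
      Subgroup.pow_index_mem (M.subgroupOf (Subgroup.normalizer (M : Set F))) _
    rw [Subgroup.mem_subgroupOf] at h2
    rw [← hM, ← hidx, mul_comm, pow_mul]
    simpa using h2

theorem fitting_normal' (G : Type*) [Group G] : (Cfsg.fittingSubgroup G).Normal :=
  Subgroup.sSup_normal _ (fun _ h => h.1)

/-- Let G be a finite group. An element x lies in the Fitting subgroup F(G) if and only if, for every subgroup H of G, the power x^[G : H] lies in H. -/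
theorem result {G : Type*} [Group G] [Finite G] (x : G) :
    x ∈ Cfsg.fittingSubgroup G ↔ ∀ H : Subgroup G, x ^ H.index ∈ H := by
  have hFn : (Cfsg.fittingSubgroup G).Normal := fitting_normal' G
  constructor
  · intro hx H
    have hnil : Group.IsNilpotent (Cfsg.fittingSubgroup G) := Cfsg.Agent.S0008.result
    have h1 := pow_index_mem_of_nilpotent (F := Cfsg.fittingSubgroup G) _
      (H.subgroupOf (Cfsg.fittingSubgroup G)) rfl ⟨x, hx⟩
    rw [Subgroup.mem_subgroupOf] at h1
    have h2 : H.relIndex (Cfsg.fittingSubgroup G) ∣ H.index :=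
      Cfsg.Agent.S4244.normal_case (Cfsg.fittingSubgroup G) H
    obtain ⟨c, hc⟩ := h2
    rw [hc, pow_mul]
    exact H.pow_mem (by simpa [Subgroup.relIndex] using h1) c
  · intro h
    set d := orderOf (QuotientGroup.mk x : G ⧸ Cfsg.fittingSubgroup G) with hd
    by_contra hxF
    have hd1 : d ≠ 1 := by
      intro h1
      rw [hd, orderOf_eq_one_iff, QuotientGroup.eq_one_iff] at h1
      exact hxF h1
    obtain ⟨q, hq, hqd⟩ := Nat.exists_prime_and_dvd hd1
    have : Fact q.Prime := ⟨hq⟩
    let Q : Sylow q G := default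
    have hidx : ∀ P : Sylow q G, (P : Subgroup G).index = (Q : Subgroup G).index := by
      intro P
      have h1 := Subgroup.card_mul_index (P : Subgroup G)
      have h2 := Subgroup.card_mul_index (Q : Subgroup G)
      have h3 : Nat.card (P : Subgroup G) = Nat.card (Q : Subgroup G) := by
        rw [Sylow.card_eq_multiplicity, Sylow.card_eq_multiplicity]
      rw [h3, ← h2] at h1
      exact Nat.eq_of_mul_eq_mul_left Nat.card_pos h1
    have hcore : x ^ (Q : Subgroup G).index ∈ ⨅ P : Sylow q G, (P : Subgroup G) := by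
      rw [Subgroup.mem_iInf]
      intro P
      rw [← hidx P]
      exact h P
    have hcn : (⨅ P : Sylow q G, (P : Subgroup G)).Normal := Cfsg.Agent.S0010.iInf_sylow_normal q
    have hcp : IsPGroup q ↥(⨅ P : Sylow q G, (P : Subgroup G)) :=
      Q.isPGroup'.to_le (iInf_le _ Q)
    have hcnil : Group.IsNilpotent ↥(⨅ P : Sylow q G, (P : Subgroup G)) := hcp.isNilpotent
    have hle : (⨅ P : Sylow q G, (P : Subgroup G)) ≤ Cfsg.fittingSubgroup G :=
      le_sSup ⟨hcn, hcnil⟩
    have hxm : x ^ (Q : Subgroup G).index ∈ Cfsg.fittingSubgroup G := hle hcore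
    have h1 : (QuotientGroup.mk x : G ⧸ Cfsg.fittingSubgroup G) ^ (Q : Subgroup G).index = 1 := by
      rw [← QuotientGroup.mk_pow, QuotientGroup.eq_one_iff]
      exact hxm
    have h2 : d ∣ (Q : Subgroup G).index := orderOf_dvd_of_pow_eq_one h1
    exact Q.not_dvd_index (hqd.trans h2)

end Cfsg.Agent.S4263
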