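import Mathlib
import Cfsg.Statements.S4269

set_option autoImplicit false
open Cfsg
open scoped commutatorElement Pointwise

namespace Cfsg.Agent.S4269

section
variable {G : Type*} [Group G]

theorem mem_cj (g y : G) (K : Subgroup G) :
    y ∈ K.map (MulAut.conj g).toMonoidHom ↔ ∃ k ∈ K, g * k * g⁻¹ = y := by
  rw [Subgroup.mem_map]
  rfl

theorem cj_mul (a b : G) (K : Subgroup G) :
    K.map (MulAut.conj (a * b)).toMonoidHom
      = (K.map (MulAut.conj b).toMonoidHom).map (MulAut.conj a).toMonoidHom := by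
  ext y
  rw [mem_cj, mem_cj]
  constructor
  · rintro ⟨k, hk, rfl⟩
    exact ⟨b * k * b⁻¹, (mem_cj _ _ _).2 ⟨k, hk, rfl⟩, by group⟩
  · rintro ⟨z, hz, rfl⟩
    obtain ⟨k, hk, rfl⟩ := (mem_cj _ _ _).1 hz
    exact ⟨k, hk, by group⟩

theorem cj_self (K : Subgroup G) {h : G} (hh : h ∈ K) :
    K.map (MulAut.conj h).toMonoidHom = K := by
  ext y
  rw [mem_cj]
  constructor
  · rintro ⟨k, hk, rfl⟩
    exact K.mul_mem (K.mul_mem hh hk) (K.inv_mem hh)
  · intro hy
    exact ⟨h⁻¹ * y * h, K.mul_mem (K.mul_mem (K.inv_mem hh) hy) hh, by group⟩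

theorem mem_norm_of_cj (K : Subgroup G) {g : G}
    (h : K.map (MulAut.conj g).toMonoidHom = K) : g ∈ Subgroup.normalizer (K : Set G) := by
  rw [Subgroup.mem_normalizer_iff]
  intro k
  constructor
  · intro hk
    have : g * k * g⁻¹ ∈ K.map (MulAut.conj g).toMonoidHom := (mem_cj _ _ _).2 ⟨k, hk, rfl⟩
    rw [h] at this
    exact this
  · intro hk
    have hk' : g * k * g⁻¹ ∈ K := hk
    rw [← h, mem_cj] at hk'
    obtain ⟨k', hk', he⟩ := hk'
    have : k' = k := by
      have h1 : g⁻¹ * (g * k' * g⁻¹) * g = g⁻¹ * (g * k * g⁻¹) * g := by rw [he]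
      simpa [mul_assoc] using h1
    rw [← this]
    exact hk'

theorem cj_of_mem_norm (K : Subgroup G) {g : G} (h : g ∈ Subgroup.normalizer (K : Set G)) :
    K.map (MulAut.conj g).toMonoidHom = K := by
  rw [Subgroup.mem_normalizer_iff] at h
  ext y
  rw [mem_cj]
  constructor
  · rintro ⟨k, hk, rfl⟩
    exact (h k).1 hk
  · intro hy
    refine ⟨g⁻¹ * y * g, ?_, by group⟩
    apply (h _).2
    have : g * (g⁻¹ * y * g) * g⁻¹ = y := by group
    show g * (g⁻¹ * y * g) * g⁻¹ ∈ K
    rw [this]
    exact hy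

end

/-- Let G be a finite group, V an abelian normal subgroup and H a subgroup with HV = G. Then H is pronormal in G (H and gHg⁻¹ are conjugate inside the subgroup they generate, for every g) if and only if every H-invariant subgroup U of V satisfies U = N_U(H)·[H, U], that is, U is the join of U ∩ N_G(H) and the commutator subgroup [H, U]. -/
theorem result {G : Type*} [Group G] [Finite G]
    (V : Subgroup G) [V.Normal] (hV : IsMulCommutative ↥V) (H : Subgroup G) (hHV : H ⊔ V = ⊤) :
    Cfsg.IsPronormal H ↔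
      ∀ U : Subgroup G, U ≤ V → (∀ h ∈ H, U.map (MulAut.conj h).toMonoidHom = U) →
        U = (U ⊓ Subgroup.normalizer (H : Set G)) ⊔ ⁅H, U⁆ := by
  have hVc : ∀ a ∈ V, ∀ b ∈ V, a * b = b * a := by
    intro a ha b hb
    have := hV.is_comm.comm (⟨a, ha⟩ : V) ⟨b, hb⟩
    exact congrArg Subtype.val this
  have hVn : ∀ a ∈ V, ∀ g : G, g * a * g⁻¹ ∈ V := fun a ha g =>
    (inferInstance : V.Normal).conj_mem a ha g
  constructor
  · intro hpro U hUV hUH
    have hWU : ⁅H, U⁆ ≤ U := by
      rw [Subgroup.commutator_le]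
      intro h hh u hu
      rw [commutatorElement_def]
      have h1 : h * u * h⁻¹ ∈ U := by
        have : h * u * h⁻¹ ∈ U.map (MulAut.conj h).toMonoidHom := (mem_cj _ _ _).2 ⟨u, hu, rfl⟩
        rw [hUH h hh] at this
        exact this
      exact U.mul_mem h1 (U.inv_mem hu)
    have hHW : H ≤ Subgroup.normalizer ((⁅H, U⁆ : Subgroup G) : Set G) := by
      intro h hh
      apply mem_norm_of_cj
      rw [Subgroup.map_commutator, cj_self H hh, hUH h hh]
    apply le_antisymm
    · intro u hu
      obtain ⟨x, hx, hxeq⟩ := hpro u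
      have hle : H ⊔ H.map (MulAut.conj u).toMonoidHom ≤ ⁅H, U⁆ ⊔ H := by
        apply sup_le le_sup_right
        intro y hy
        obtain ⟨h, hh, rfl⟩ := (mem_cj _ _ _).1 hy
        have h1 : u * h * u⁻¹ = ⁅h, u⁆⁻¹ * h := by
          rw [commutatorElement_def]
          group
        rw [h1]
        exact Subgroup.mul_mem_sup
          (Subgroup.inv_mem _ (Subgroup.commutator_mem_commutator hh hu)) hh
      have hx' : x ∈ ((⁅H, U⁆ ⊔ H : Subgroup G) : Set G) := hle hx
      rw [Subgroup.coe_mul_of_right_le_normalizer_left _ _ hHW] at hx'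
      obtain ⟨w, hw, h, hh, rfl⟩ := hx'
      have hw' : w ∈ ⁅H, U⁆ := hw
      have hh' : h ∈ H := hh
      have h2 : H.map (MulAut.conj u).toMonoidHom = H.map (MulAut.conj w).toMonoidHom := by
        rw [hxeq, cj_mul, cj_self H hh']
      have h3 : w⁻¹ * u ∈ Subgroup.normalizer (H : Set G) := by
        apply mem_norm_of_cj
        rw [cj_mul, h2, ← cj_mul, inv_mul_cancel]
        exact cj_self H H.one_mem
      have h4 : u = w * (w⁻¹ * u) := by group
      rw [h4]
      rw [sup_comm]
      exact Subgroup.mul_mem_sup hw' ⟨U.mul_mem (U.inv_mem (hWU hw')) hu, h3⟩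
    · exact sup_le inf_le_left hWU
  · intro hcond g
    have hg : g ∈ ((V ⊔ H : Subgroup G) : Set G) := by
      rw [sup_comm, hHV]
      trivial
    rw [Subgroup.normal_mul] at hg
    obtain ⟨v, hv, h, hh, rfl⟩ := hg
    have hv' : v ∈ V := hv
    have hh' : h ∈ H := hh
    have hgv : H.map (MulAut.conj (v * h)).toMonoidHom = H.map (MulAut.conj v).toMonoidHom := by
      rw [cj_mul, cj_self H hh']
    rw [hgv]
    set K := H ⊔ H.map (MulAut.conj v).toMonoidHom with hK
    let U : Subgroup G := Subgroup.closure {y | ∃ h ∈ H, y = h * v * h⁻¹}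
    have hUV : U ≤ V := by
      rw [Subgroup.closure_le]
      rintro y ⟨h, hh, rfl⟩
      exact hVn v hv' h
    have hUH : ∀ h ∈ H, U.map (MulAut.conj h).toMonoidHom = U := by
      intro h hh
      show (Subgroup.closure {y | ∃ h ∈ H, y = h * v * h⁻¹}).map (MulAut.conj h).toMonoidHom = _
      rw [MonoidHom.map_closure]
      congr 1
      ext y
      constructor
      · rintro ⟨z, ⟨h', hh', rfl⟩, rfl⟩
        exact ⟨h * h', H.mul_mem hh hh', by simp [MulAut.conj_apply, mul_assoc]⟩
      · rintro ⟨h', hh', rfl⟩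
        refine ⟨(h⁻¹ * h') * v * (h⁻¹ * h')⁻¹, ⟨h⁻¹ * h', H.mul_mem (H.inv_mem hh) hh', rfl⟩, ?_⟩
        simp [MulAut.conj_apply, mul_assoc]
    have hvU : v ∈ U := Subgroup.subset_closure ⟨1, H.one_mem, by simp⟩
    have hU := hcond U hUV hUH
    have hWV : ⁅H, U⁆ ≤ V := by
      rw [Subgroup.commutator_le]
      intro h hh u hu
      rw [commutatorElement_def]
      exact V.mul_mem (hVn u (hUV hu) h) (V.inv_mem (hUV hu))
    have hNW : U ⊓ Subgroup.normalizer (H : Set G)
        ≤ Subgroup.normalizer ((⁅H, U⁆ : Subgroup G) : Set G) := by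
      intro a ha
      rw [Subgroup.mem_normalizer_iff]
      intro w
      constructor
      · intro hw
        have : a * w * a⁻¹ = w := by
          rw [hVc a (hUV ha.1) w (hWV hw)]
          group
        show a * w * a⁻¹ ∈ ⁅H, U⁆
        rw [this]
        exact hw
      · intro hw
        have hw' : a * w * a⁻¹ ∈ ⁅H, U⁆ := hw
        have h1 : a * w * a⁻¹ ∈ V := hWV hw'
        have h2 : w ∈ V := by
          have := hVn _ h1 a⁻¹
          simpa [mul_assoc] using this
        have : a * w * a⁻¹ = w := by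
          rw [hVc a (hUV ha.1) w h2]
          group
        rw [this] at hw'
        exact hw'
    have hvmem : v ∈ (((U ⊓ Subgroup.normalizer (H : Set G)) ⊔ ⁅H, U⁆ : Subgroup G) : Set G) := by
      rw [← hU]
      exact hvU
    rw [Subgroup.coe_mul_of_left_le_normalizer_right _ _ hNW] at hvmem
    obtain ⟨n, hn, w, hw, hnwv⟩ := hvmem
    have hvnw : n * w = v := hnwv
    have hn' : n ∈ U ⊓ Subgroup.normalizer (H : Set G) := hn
    have hw' : w ∈ ⁅H, U⁆ := hw
    -- the commutator lies in K
    have hth : ∀ h ∈ H, h * v * h⁻¹ * v⁻¹ ∈ K := by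
      intro h hh
      have h1 : h * v * h⁻¹ * v⁻¹ = h * (v * h⁻¹ * v⁻¹) := by group
      rw [h1]
      exact Subgroup.mul_mem_sup hh ((mem_cj _ _ _).2 ⟨h⁻¹, H.inv_mem hh, rfl⟩)
    have hWK : ⁅H, U⁆ ≤ K := by
      rw [Subgroup.commutator_le]
      intro h hh u hu
      have key : u ∈ V ∧ ⁅h, u⁆ ∈ K := by
        induction hu using Subgroup.closure_induction with
        | mem y hy =>
          obtain ⟨h', hh', rfl⟩ := hy
          refine ⟨hVn _ hv' h', ?_⟩
          have h1 : ⁅h, h' * v * h'⁻¹⁆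
              = ((h * h') * v * (h * h')⁻¹ * v⁻¹)
                * (h' * v * h'⁻¹ * v⁻¹)⁻¹ := by
            rw [commutatorElement_def]
            group
          rw [h1]
          exact K.mul_mem (hth _ (H.mul_mem hh hh')) (K.inv_mem (hth _ hh'))
        | one =>
          refine ⟨V.one_mem, ?_⟩
          rw [commutatorElement_def]
          simp
        | mul y z _ _ hy hz =>
          refine ⟨V.mul_mem hy.1 hz.1, ?_⟩
          have hzV : ⁅h, z⁆ ∈ V := by
            rw [commutatorElement_def]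
            exact V.mul_mem (hVn z hz.1 h) (V.inv_mem hz.1)
          have h1 : ⁅h, y * z⁆ = ⁅h, y⁆ * (y * ⁅h, z⁆ * y⁻¹) := by
            rw [commutatorElement_def, commutatorElement_def, commutatorElement_def]
            group
          have h2 : y * ⁅h, z⁆ * y⁻¹ = ⁅h, z⁆ := by
            rw [hVc y hy.1 _ hzV]
            group
          rw [h1, h2]
          exact K.mul_mem hy.2 hz.2
        | inv y _ hy =>
          refine ⟨V.inv_mem hy.1, ?_⟩
          have hyV : ⁅h, y⁆ ∈ V := by
            rw [commutatorElement_def]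
            exact V.mul_mem (hVn y hy.1 h) (V.inv_mem hy.1)
          have h1 : ⁅h, y⁻¹⁆ = y⁻¹ * ⁅h, y⁆⁻¹ * y := by
            rw [commutatorElement_def, commutatorElement_def]
            group
          have h2 : y⁻¹ * ⁅h, y⁆⁻¹ * y = ⁅h, y⁆⁻¹ := by
            rw [hVc y⁻¹ (V.inv_mem hy.1) _ (V.inv_mem hyV)]
            group
          rw [h1, h2]
          exact K.inv_mem hy.2
      exact key.2
    refine ⟨w, hWK hw', ?_⟩
    have hnw : n * w = w * n := hVc n (hUV hn'.1) w (hWV hw')
    rw [← hvnw, hnw, cj_mul, cj_of_mem_norm H hn'.2]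

end Cfsg.Agent.S4269
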