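import Cfsg.Statements.S4331
import Mathlib
import Cfsg.Agent.Helper24.Subnormal

set_option autoImplicit false
open Cfsg

namespace Cfsg.Agent.S4331


open Cfsg.Agent.Helper24

/-- The sign attached to a Boolean. -/
def sgn (e : Bool) : ZMod 3 := if e then -1 else 1

theorem sgn_false : sgn false = 1 := rfl

theorem sgn_true : sgn true = -1 := rfl

/-- Semilinear affine maps `x ↦ α σ^e(x) + β` of the field with nine elements `F₃[i]`, where
`α = a + b i` (possibly zero) and `β = v + w i`. -/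
@[ext] structure M5 where
  a : ZMod 3
  b : ZMod 3
  e : Bool
  v : ZMod 3
  w : ZMod 3
deriving DecidableEq, Fintype

namespace M5

instance : Mul M5 := ⟨fun x y =>
  ⟨x.a * y.a - sgn x.e * x.b * y.b, x.a * sgn x.e * y.b + x.b * y.a, xor x.e y.e,
   x.a * y.v - sgn x.e * x.b * y.w + x.v, x.a * sgn x.e * y.w + x.b * y.v + x.w⟩⟩

instance : One M5 := ⟨⟨1, 0, false, 0, 0⟩⟩

theorem mul_def (x y : M5) : x * y =
    ⟨x.a * y.a - sgn x.e * x.b * y.b, x.a * sgn x.e * y.b + x.b * y.a, xor x.e y.e,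
     x.a * y.v - sgn x.e * x.b * y.w + x.v, x.a * sgn x.e * y.w + x.b * y.v + x.w⟩ := rfl

theorem one_def : (1 : M5) = ⟨1, 0, false, 0, 0⟩ := rfl

theorem mul_assoc' (x y z : M5) : x * y * z = x * (y * z) := by
  obtain ⟨a, b, e, v, w⟩ := x
  obtain ⟨a', b', e', v', w'⟩ := y
  obtain ⟨a'', b'', e'', v'', w''⟩ := z
  cases e <;> cases e' <;> cases e'' <;>
    (simp only [mul_def, sgn_false, sgn_true, M5.mk.injEq, Bool.xor_false, Bool.xor_true,
      Bool.not_false, Bool.not_true, true_and]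
     refine ⟨?_, ?_, ?_, ?_⟩ <;> ring)

theorem one_mul' (x : M5) : 1 * x = x := by
  obtain ⟨a, b, e, v, w⟩ := x
  simp only [mul_def, one_def, sgn_false, M5.mk.injEq, Bool.false_xor, true_and]
  refine ⟨?_, ?_, ?_, ?_⟩ <;> ring

theorem mul_one' (x : M5) : x * 1 = x := by
  obtain ⟨a, b, e, v, w⟩ := x
  simp only [mul_def, one_def, M5.mk.injEq, Bool.xor_false, true_and]
  refine ⟨?_, ?_, ?_, ?_⟩ <;> ring

instance : Monoid M5 where
  mul_assoc := mul_assoc'
  one_mul := one_mul'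
  mul_one := mul_one'

/-- The candidate inverse. -/
def inv (x : M5) : M5 :=
  ⟨(x.a * x.a + x.b * x.b) * x.a, -(sgn x.e * (x.a * x.a + x.b * x.b) * x.b), x.e,
   -((x.a * x.a + x.b * x.b) * (x.a * x.v + x.b * x.w)),
   -(sgn x.e * (x.a * x.a + x.b * x.b) * (x.a * x.w - x.b * x.v))⟩

/-- The involution `σ`. -/
def a0 : M5 := ⟨1, 0, true, 0, 0⟩

/-- `h` conjugates `m` to an element fixing `0` or commuting with `σ`. -/
def good (h m : M5) : Prop :=
  h * inv h = 1 ∧ inv h * h = 1 ∧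
    (((h * m * inv h).v = 0 ∧ (h * m * inv h).w = 0) ∨
      (h * m * inv h) * a0 = a0 * (h * m * inv h))

instance (h m : M5) : Decidable (good h m) := by
  unfold good; infer_instance

theorem dec_main : ∀ a b : ZMod 3, ∀ e : Bool, ∀ v w : ZMod 3, (a ≠ 0 ∨ b ≠ 0) →
    (∃ t1 t2 : ZMod 3, good ⟨1, 0, false, t1, t2⟩ ⟨a, b, e, v, w⟩) ∨
    (∃ p q t : ZMod 3, good ⟨p, q, false, 0, t⟩ ⟨a, b, e, v, w⟩) := by
  decide +kernel

theorem dec_pow : ∀ a b : ZMod 3, ∀ e : Bool, (a ≠ 0 ∨ b ≠ 0) →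
    (⟨a, b, e, 0, 0⟩ : M5) ^ 8 = 1 := by
  decide +kernel

/-- Forgetting the translation part. -/
def proj : M5 →* M5 where
  toFun x := ⟨x.a, x.b, x.e, 0, 0⟩
  map_one' := rfl
  map_mul' x y := by
    simp only [mul_def, M5.mk.injEq, true_and]
    refine ⟨?_, ?_⟩ <;> ring

/-- The involution, as a unit. -/
def aU : M5ˣ := ⟨a0, a0, by decide, by decide⟩

/-- A translation, as a unit. -/
def tU : M5ˣ := ⟨⟨1, 0, false, 0, 1⟩, ⟨1, 0, false, 0, -1⟩, by decide, by decide⟩

/-- The retraction of the group onto the stabiliser of `0`. -/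
def rho : M5ˣ →* M5ˣ := Units.map proj

theorem unit_ne (c : M5ˣ) : c.val.a ≠ 0 ∨ c.val.b ≠ 0 := by
  by_contra hcon
  push Not at hcon
  have h : (c.val * c.inv).a = (1 : M5).a := congrArg M5.a c.val_inv
  change c.val.a * c.inv.a - sgn c.val.e * c.val.b * c.inv.b = 1 at h
  rw [hcon.1, hcon.2] at h
  simp at h

theorem rho_pow (c : M5ˣ) : (rho c) ^ 8 = 1 := by
  apply Units.ext
  rw [Units.val_pow_eq_pow_val]
  exact dec_pow c.val.a c.val.b c.val.e (unit_ne c)

theorem isPGroup_range : IsPGroup 2 rho.range := by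
  rintro ⟨g, c, rfl⟩
  refine ⟨3, ?_⟩
  apply Subtype.ext
  simp only [Subgroup.coe_pow, Subgroup.coe_one]
  exact rho_pow c

theorem mem_range_of (g : M5ˣ) (hv : g.val.v = 0) (hw : g.val.w = 0) : g ∈ rho.range := by
  refine ⟨g, ?_⟩
  apply Units.ext
  show (⟨g.val.a, g.val.b, g.val.e, 0, 0⟩ : M5) = g.val
  ext <;> simp [hv, hw]

theorem ker_comm (x y : rho.ker) : x * y = y * x := by
  have hx := x.2
  have hy := y.2
  rw [MonoidHom.mem_ker] at hx hy
  have hx' : proj x.1.val = 1 := congrArg Units.val hx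
  have hy' : proj y.1.val = 1 := congrArg Units.val hy
  have hxa : x.1.val.a = 1 := congrArg M5.a hx'
  have hxb : x.1.val.b = 0 := congrArg M5.b hx'
  have hxe : x.1.val.e = false := congrArg M5.e hx'
  have hya : y.1.val.a = 1 := congrArg M5.a hy'
  have hyb : y.1.val.b = 0 := congrArg M5.b hy'
  have hye : y.1.val.e = false := congrArg M5.e hy'
  apply Subtype.ext
  apply Units.ext
  show x.1.val * y.1.val = y.1.val * x.1.val
  rw [mul_def, mul_def]
  simp only [hxa, hxb, hxe, hya, hyb, hye, sgn_false, M5.mk.injEq, true_and, Bool.xor_false]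
  refine ⟨?_, ?_⟩ <;> ring

theorem solvable : Group.IsSolvable M5ˣ := by
  have : Group.IsSolvable rho.ker := Group.isSolvable_of_comm ker_comm
  have : Fact (Nat.Prime 2) := ⟨Nat.prime_two⟩
  have : Group.IsNilpotent rho.range := isPGroup_range.isNilpotent
  exact Group.isSolvable_of_ker_le_range rho.ker.subtype rho.rangeRestrict
    (by rw [MonoidHom.ker_rangeRestrict, Subgroup.range_subtype])

theorem class_main (c : M5ˣ) :
    ∃ g : M5ˣ, IsConj c g ∧ (g ∈ rho.range ∨ g * aU = aU * g) := by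
  obtain ⟨h, h1, h2, h3⟩ : ∃ h : M5, good h c.val := by
    rcases dec_main c.val.a c.val.b c.val.e c.val.v c.val.w (unit_ne c) with
      ⟨t1, t2, h⟩ | ⟨p, q, t, h⟩
    · exact ⟨_, h⟩
    · exact ⟨_, h⟩
  refine ⟨(⟨h, inv h, h1, h2⟩ : M5ˣ) * c * (⟨h, inv h, h1, h2⟩ : M5ˣ)⁻¹,
    isConj_iff.mpr ⟨_, rfl⟩, ?_⟩
  rcases h3 with ⟨hv, hw⟩ | hcomm
  · left; exact mem_range_of _ hv hw
  · right; apply Units.ext; exact hcomm

theorem aU_mem : aU ∈ rho.range := mem_range_of aU rfl rfl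

end M5

/-- There is a finite solvable group G with a subgroup A of order 2 such that every conjugacy class of G contains an element g for which A is subnormal in the subgroup generated by A and g, and yet A is not contained in O_2(G). (So the corresponding criteria for odd primes fail at the prime 2, even for solvable groups.) -/
theorem result :
    ∃ (G : Type) (_ : Group G) (_ : Finite G) (A : Subgroup G), Group.IsSolvable G ∧ Nat.card A = 2 ∧
      (∀ c : G, ∃ g : G, IsConj c g ∧ (A.subgroupOf (A ⊔ Subgroup.zpowers g)).IsSubnormal) ∧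
      ¬ A ≤ Cfsg.pCore 2 G := by
  refine ⟨M5ˣ, inferInstance, inferInstance, Subgroup.zpowers M5.aU, M5.solvable, ?_, ?_, ?_⟩
  · rw [Nat.card_zpowers]
    have : Fact (Nat.Prime 2) := ⟨Nat.prime_two⟩
    refine orderOf_eq_prime ?_ ?_
    · rw [pow_two]; apply Units.ext; decide
    · intro h
      have := congrArg (fun u : M5ˣ => u.val.e) h
      exact absurd this (by decide)
  · intro c
    obtain ⟨g, hconj, hg⟩ := M5.class_main c
    refine ⟨g, hconj, ?_⟩
    rcases hg with hg | hg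
    · have hle : Subgroup.zpowers M5.aU ⊔ Subgroup.zpowers g ≤ M5.rho.range :=
        sup_le (Subgroup.zpowers_le.mpr M5.aU_mem) (Subgroup.zpowers_le.mpr hg)
      have : Fact (Nat.Prime 2) := ⟨Nat.prime_two⟩
      exact h24_isSubnormal_subgroupOf_of_isPGroup 2 _ _ (M5.isPGroup_range.to_le hle)
    · apply Subgroup.Normal.isSubnormal
      rw [Subgroup.normal_subgroupOf_iff_le_normalizer le_sup_left]
      apply sup_le Subgroup.le_normalizer
      rw [Subgroup.zpowers_le]
      apply Subgroup.centralizer_le_normalizer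
      rw [Subgroup.mem_centralizer_iff]
      intro z hz
      obtain ⟨m, rfl⟩ := Subgroup.mem_zpowers_iff.mp hz
      exact (Commute.zpow_left (show Commute M5.aU g from hg.symm) m).eq
  · intro hle
    have : Fact (Nat.Prime 2) := ⟨Nat.prime_two⟩
    have hOn : (Cfsg.pCore 2 M5ˣ).Normal := Subgroup.sSup_normal _ (fun _ h => h.1)
    have hOp : IsPGroup 2 (Cfsg.pCore 2 M5ˣ) :=
      Sylow.sSup_of_normal _ (fun _ h => h.2) (fun _ h => h.1)
    have ha : M5.aU ∈ Cfsg.pCore 2 M5ˣ := hle (Subgroup.mem_zpowers M5.aU)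
    have ht : M5.tU ∈ Cfsg.pCore 2 M5ˣ := by
      have h1 : M5.tU * M5.aU⁻¹ * M5.tU⁻¹ ∈ Cfsg.pCore 2 M5ˣ :=
        hOn.conj_mem _ ((Cfsg.pCore 2 M5ˣ).inv_mem ha) M5.tU
      have h2 : M5.aU * (M5.tU * M5.aU⁻¹ * M5.tU⁻¹) ∈ Cfsg.pCore 2 M5ˣ :=
        (Cfsg.pCore 2 M5ˣ).mul_mem ha h1
      have e : M5.aU * (M5.tU * M5.aU⁻¹ * M5.tU⁻¹) = M5.tU := by
        apply Units.ext; decide
      rwa [e] at h2
    obtain ⟨k, hk⟩ := hOp ⟨M5.tU, ht⟩
    have hk' : M5.tU ^ 2 ^ k = 1 := by simpa using congrArg Subtype.val hk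
    have h3 : M5.tU ^ 3 = 1 := by
      apply Units.ext; decide
    have hne : M5.tU ≠ 1 := by
      intro h
      have := congrArg (fun u : M5ˣ => u.val.w) h
      exact absurd this (by decide)
    have hd1 := orderOf_dvd_of_pow_eq_one hk'
    have hd2 := orderOf_dvd_of_pow_eq_one h3
    have hcop : Nat.Coprime (2 ^ k) 3 := Nat.Coprime.pow_left k (by norm_num)
    exact hne (orderOf_eq_one_iff.mp (Nat.eq_one_of_dvd_coprimes hcop hd1 hd2))

end Cfsg.Agent.S4331
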