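import Cfsg.Statements.S4332
import Mathlib

set_option autoImplicit false
open Pointwise
open Cfsg

namespace Cfsg.Agent.S4332


open Equiv in
theorem conj_swap_mul_swap (c : Equiv.Perm (Fin 8)) (a b d : Fin 8) :
    c * (swap a b * swap a d) * c⁻¹ = swap (c a) (c b) * swap (c a) (c d) := by
  rw [Equiv.swap_apply_apply, Equiv.swap_apply_apply]; group

open Equiv in
theorem fix_of_ne (a b d y : Fin 8) (h1 : y ≠ a) (h2 : y ≠ b) (h3 : y ≠ d) :
    (swap a b * swap a d) y = y := by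
  rw [Equiv.Perm.mul_apply, swap_apply_of_ne_of_ne h1 h3, swap_apply_of_ne_of_ne h1 h2]

theorem exists_case (c : Equiv.Perm (Fin 8)) :
    (∃ x, c x ≠ x ∧ c (c (c x)) = x) ∨
    (∃ a b d, a ≠ b ∧ a ≠ d ∧ b ≠ d ∧ c a = a ∧ c b = b ∧ c d = d) ∨
    (∃ a x, c a = a ∧ c x ≠ x ∧ c (c x) = x) ∨
    (∃ x1 x2 x3, x1 ≠ x2 ∧ x1 ≠ x3 ∧ x2 ≠ x3 ∧
      c x1 ≠ x1 ∧ c x1 ≠ x2 ∧ c x1 ≠ x3 ∧
      c x2 ≠ x1 ∧ c x2 ≠ x2 ∧ c x2 ≠ x3 ∧
      c x3 ≠ x1 ∧ c x3 ≠ x2 ∧ c x3 ≠ x3) := by
  classical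
  by_cases h1 : ∃ x, c x ≠ x ∧ c (c (c x)) = x
  · exact Or.inl h1
  by_cases h2 : ∃ a b d, a ≠ b ∧ a ≠ d ∧ b ≠ d ∧ c a = a ∧ c b = b ∧ c d = d
  · exact Or.inr (Or.inl h2)
  by_cases h3 : ∃ a x, c a = a ∧ c x ≠ x ∧ c (c x) = x
  · exact Or.inr (Or.inr (Or.inl h3))
  refine Or.inr (Or.inr (Or.inr ?_))
  set F := Finset.univ.filter (fun x => c x = x) with hF
  set NF := Finset.univ.filter (fun x => ¬ c x = x) with hNF
  have hcard : F.card + NF.card = 8 := by
    have := Finset.card_filter_add_card_filter_not (s := (Finset.univ : Finset (Fin 8)))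
      (fun x => c x = x)
    simpa using this
  have hF2 : F.card ≤ 2 := by
    by_contra hlt
    push Not at hlt
    obtain ⟨a, b, d, ha, hb, hd, hab, had, hbd⟩ := Finset.two_lt_card_iff.mp hlt
    simp only [hF, Finset.mem_filter, Finset.mem_univ, true_and] at ha hb hd
    exact h2 ⟨a, b, d, hab, had, hbd, ha, hb, hd⟩
  have hmemNF : ∀ x, x ∈ NF ↔ c x ≠ x := by
    intro x; simp [hNF]
  have fin : ∀ x1 x2, c x1 ≠ x1 → c x2 ≠ x2 → x1 ≠ x2 → c x1 ≠ x2 → c x2 ≠ x1 →
      ({x1, c x1, c⁻¹ x1, x2, c x2, c⁻¹ x2} : Finset (Fin 8)).card < NF.card →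
      ∃ x1 x2 x3, x1 ≠ x2 ∧ x1 ≠ x3 ∧ x2 ≠ x3 ∧
      c x1 ≠ x1 ∧ c x1 ≠ x2 ∧ c x1 ≠ x3 ∧
      c x2 ≠ x1 ∧ c x2 ≠ x2 ∧ c x2 ≠ x3 ∧
      c x3 ≠ x1 ∧ c x3 ≠ x2 ∧ c x3 ≠ x3 := by
    intro x1 x2 h11 h22 h12 hc12 hc21 hlt
    obtain ⟨x3, hx3, hx3'⟩ := Finset.exists_mem_notMem_of_card_lt_card hlt
    simp only [Finset.mem_insert, Finset.mem_singleton, not_or] at hx3'
    rw [hmemNF] at hx3
    obtain ⟨n1, n2, n3, n4, n5, n6⟩ := hx3'
    refine ⟨x1, x2, x3, h12, fun h => n1 h.symm, fun h => n4 h.symm, h11, hc12,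
      fun h => n2 h.symm, hc21, h22, fun h => n5 h.symm, ?_, ?_, hx3⟩
    · intro h; apply n3; rw [← h]; simp
    · intro h; apply n6; rw [← h]; simp
  have hNFpos : 0 < NF.card := by omega
  obtain ⟨x1, hx1⟩ := Finset.card_pos.mp hNFpos
  rw [hmemNF] at hx1
  rcases Nat.lt_or_ge F.card 2 with hF1 | hF2'
  · -- at most one fixed point
    have h7 : 7 ≤ NF.card := by omega
    have hlt : ({x1, c x1, c⁻¹ x1} : Finset (Fin 8)).card < NF.card :=
      lt_of_le_of_lt Finset.card_le_three (by omega)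
    obtain ⟨x2, hx2, hx2'⟩ := Finset.exists_mem_notMem_of_card_lt_card hlt
    simp only [Finset.mem_insert, Finset.mem_singleton, not_or] at hx2'
    rw [hmemNF] at hx2
    obtain ⟨n1, n2, n3⟩ := hx2'
    refine fin x1 x2 hx1 hx2 (fun h => n1 h.symm) (fun h => n2 h.symm) ?_
      (lt_of_le_of_lt Finset.card_le_six (by omega))
    intro h; apply n3; rw [← h]; simp
  · -- exactly two fixed points
    have hF2eq : F.card = 2 := le_antisymm hF2 hF2'
    have h6 : NF.card = 6 := by omega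
    have hFpos : 0 < F.card := by omega
    obtain ⟨a, ha⟩ := Finset.card_pos.mp hFpos
    simp only [hF, Finset.mem_filter, Finset.mem_univ, true_and] at ha
    have hx2ne : c (c x1) ≠ x1 := fun h => h3 ⟨a, x1, ha, hx1, h⟩
    have hx3ne : c (c (c x1)) ≠ x1 := fun h => h1 ⟨x1, hx1, h⟩
    refine fin x1 (c (c x1)) hx1 ?_ (Ne.symm hx2ne) ?_ hx3ne ?_
    · intro h; exact hx1 (c.injective (c.injective h))
    · intro h; exact hx1 (c.injective h).symm
    · have hsub : ({x1, c x1, c⁻¹ x1, c (c x1), c (c (c x1)), c⁻¹ (c (c x1))} : Finset (Fin 8))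
          ⊆ {x1, c x1, c⁻¹ x1, c (c x1), c (c (c x1))} := by
        intro y hy
        have e : c⁻¹ (c (c x1)) = c x1 := by simp
        rw [e] at hy
        simp only [Finset.mem_insert, Finset.mem_singleton] at hy ⊢
        tauto
      exact lt_of_le_of_lt (le_trans (Finset.card_le_card hsub) Finset.card_le_five) (by omega)

open Equiv in
theorem key (c : Equiv.Perm (Fin 8)) :
    ∃ τ : Equiv.Perm (Fin 8), τ.IsThreeCycle ∧ Commute (c * τ * c⁻¹) τ := by
  rcases exists_case c with ⟨x, hx, hx3⟩ | ⟨a, b, d, hab, had, hbd, ha, hb, hd⟩ |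
    ⟨a, x, ha, hx, hx2⟩ |
    ⟨x1, x2, x3, h12, h13, h23, h11, hc12, hc13, hc21, hc22, hc23, hc31, hc32, hc33⟩
  · have hx2 : c (c x) ≠ x := by
      intro h; rw [h] at hx3; exact hx hx3
    have hx12 : c x ≠ c (c x) := fun h => hx (c.injective h).symm
    refine ⟨swap x (c x) * swap x (c (c x)),
      Equiv.Perm.isThreeCycle_swap_mul_swap_same (Ne.symm hx) (Ne.symm hx2) hx12, ?_⟩
    rw [conj_swap_mul_swap, hx3]
    have : swap (c x) (c (c x)) * swap (c x) x = swap x (c x) * swap x (c (c x)) := by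
      have e := Equiv.swap_mul_swap_mul_swap (x := c (c x)) (y := x) (z := c x) hx2 hx12.symm
      -- e : swap x (c x) * swap (c (c x)) x * swap x (c x) = swap (c x) (c (c x))
      rw [← e, mul_assoc, Equiv.swap_comm (c x) x, Equiv.swap_mul_self, mul_one,
        Equiv.swap_comm (c (c x)) x]
    rw [this]
  · refine ⟨swap a b * swap a d, Equiv.Perm.isThreeCycle_swap_mul_swap_same hab had hbd, ?_⟩
    rw [conj_swap_mul_swap, ha, hb, hd]
  · have hax : a ≠ x := by rintro rfl; exact hx ha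
    have hacx : a ≠ c x := by
      intro h
      have : c a = x := by rw [h, hx2]
      rw [ha] at this
      exact hax this
    refine ⟨swap a x * swap a (c x),
      Equiv.Perm.isThreeCycle_swap_mul_swap_same hax hacx (Ne.symm hx), ?_⟩
    have : c * (swap a x * swap a (c x)) * c⁻¹ = (swap a x * swap a (c x))⁻¹ := by
      rw [conj_swap_mul_swap, ha, hx2, mul_inv_rev, Equiv.swap_inv, Equiv.swap_inv]
    rw [this]
    exact (Commute.refl _).inv_left
  · refine ⟨swap x1 x2 * swap x1 x3, Equiv.Perm.isThreeCycle_swap_mul_swap_same h12 h13 h23, ?_⟩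
    rw [conj_swap_mul_swap]
    apply Equiv.Perm.Disjoint.commute
    intro y
    by_cases hy1 : y = x1
    · left; subst hy1
      exact fix_of_ne _ _ _ _ (Ne.symm h11) (Ne.symm hc21) (Ne.symm hc31)
    by_cases hy2 : y = x2
    · left; subst hy2
      exact fix_of_ne _ _ _ _ (Ne.symm hc12) (Ne.symm hc22) (Ne.symm hc32)
    by_cases hy3 : y = x3
    · left; subst hy3
      exact fix_of_ne _ _ _ _ (Ne.symm hc13) (Ne.symm hc23) (Ne.symm hc33)
    right
    exact fix_of_ne _ _ _ _ hy1 hy2 hy3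

theorem pCore_eq_bot : Cfsg.pCore 3 (Equiv.Perm (Fin 8)) = ⊥ := by
  classical
  have : Fact (Nat.Prime 3) := ⟨by norm_num⟩
  set N := Cfsg.pCore 3 (Equiv.Perm (Fin 8)) with hN
  have hNn : N.Normal := Subgroup.sSup_normal _ (fun _ h => h.1)
  have hNp : IsPGroup 3 N :=
    Sylow.sSup_of_normal _ (fun _ h => h.2) (fun _ h => h.1)
  have hs : IsSimpleGroup (alternatingGroup (Fin 8)) :=
    alternatingGroup.isSimpleGroup (by simp)
  have hsub : (N.subgroupOf (alternatingGroup (Fin 8))).Normal := hNn.subgroupOf _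
  have hbot : N.subgroupOf (alternatingGroup (Fin 8)) = ⊥ := by
    rcases hsub.eq_bot_or_eq_top with h | h
    · exact h
    · exfalso
      rw [Subgroup.subgroupOf_eq_top] at h
      have hmem : (Equiv.swap (0 : Fin 8) 1 * Equiv.swap (2 : Fin 8) 3) ∈ N := by
        apply h
        rw [Equiv.Perm.mem_alternatingGroup]
        decide
      obtain ⟨k, hk⟩ := hNp ⟨_, hmem⟩
      have hk' : (Equiv.swap (0 : Fin 8) 1 * Equiv.swap (2 : Fin 8) 3) ^ 3 ^ k = 1 := by
        have := congrArg Subtype.val hk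
        simpa using this
      have h2 : (Equiv.swap (0 : Fin 8) 1 * Equiv.swap (2 : Fin 8) 3) ^ 2 = 1 := by decide
      have hne : (Equiv.swap (0 : Fin 8) 1 * Equiv.swap (2 : Fin 8) 3) ≠ 1 := by decide
      have hd1 := orderOf_dvd_of_pow_eq_one hk'
      have hd2 := orderOf_dvd_of_pow_eq_one h2
      have hcop : Nat.Coprime (3 ^ k) 2 := Nat.Coprime.pow_left k (by norm_num)
      have : orderOf (Equiv.swap (0 : Fin 8) 1 * Equiv.swap (2 : Fin 8) 3) = 1 :=
        Nat.eq_one_of_dvd_coprimes hcop hd1 hd2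
      exact hne (orderOf_eq_one_iff.mp this)
  rw [Subgroup.eq_bot_iff_forall]
  intro n hn
  have hn2 : n * n ∈ alternatingGroup (Fin 8) := by
    rw [Equiv.Perm.mem_alternatingGroup, Equiv.Perm.sign_mul]
    exact Int.units_mul_self _
  have hnn : n * n = 1 := by
    have hmem : (⟨n * n, hn2⟩ : alternatingGroup (Fin 8)) ∈
        N.subgroupOf (alternatingGroup (Fin 8)) := by
      rw [Subgroup.mem_subgroupOf]
      exact N.mul_mem hn hn
    rw [hbot, Subgroup.mem_bot] at hmem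
    have := congrArg Subtype.val hmem
    simpa using this
  obtain ⟨k, hk⟩ := hNp ⟨n, hn⟩
  have hk' : n ^ 3 ^ k = 1 := by
    have := congrArg Subtype.val hk
    simpa using this
  have hd1 := orderOf_dvd_of_pow_eq_one hk'
  have hd2 : orderOf n ∣ 2 := orderOf_dvd_of_pow_eq_one (by rw [pow_two]; exact hnn)
  have hcop : Nat.Coprime (3 ^ k) 2 := Nat.Coprime.pow_left k (by norm_num)
  have : orderOf n = 1 := Nat.eq_one_of_dvd_coprimes hcop hd1 hd2
  exact orderOf_eq_one_iff.mp this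

/-- In the symmetric group of degree 8, let A be the subgroup generated by a 3-cycle. Then every conjugacy class contains an element g for which A is subnormal in the subgroup generated by A and its conjugate by g, although O_3 of the symmetric group of degree 8 is trivial. -/
theorem result
    (σ : Equiv.Perm (Fin 8)) (hσ : σ.IsThreeCycle) :
    (∀ c : Equiv.Perm (Fin 8), ∃ g : Equiv.Perm (Fin 8), IsConj c g ∧
      ((Subgroup.zpowers σ).subgroupOf (Subgroup.zpowers σ ⊔ MulAut.conj g • Subgroup.zpowers σ)).IsSubnormal) ∧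
    Cfsg.pCore 3 (Equiv.Perm (Fin 8)) = ⊥ := by
  refine ⟨fun c => ?_, pCore_eq_bot⟩
  obtain ⟨τ, hτ, hcomm⟩ := key c
  have hconj : IsConj τ σ := by
    rw [Equiv.Perm.isConj_iff_cycleType_eq, hτ.cycleType, hσ.cycleType]
  obtain ⟨h, hh⟩ := isConj_iff.mp hconj
  refine ⟨h * c * h⁻¹, isConj_iff.mpr ⟨h, rfl⟩, ?_⟩
  set g := h * c * h⁻¹ with hg
  have hcomm' : Commute (g * σ * g⁻¹) σ := by
    have : g * σ * g⁻¹ = h * (c * τ * c⁻¹) * h⁻¹ := by rw [hg, ← hh]; group
    rw [this, ← hh]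
    exact (Commute.conj_iff h).mpr hcomm
  apply Subgroup.Normal.isSubnormal
  rw [Subgroup.normal_subgroupOf_iff_le_normalizer le_sup_left]
  apply sup_le Subgroup.le_normalizer
  intro y hy
  rw [Subgroup.mem_pointwise_smul_iff_inv_smul_mem] at hy
  obtain ⟨k, hk⟩ := Subgroup.mem_zpowers_iff.mp hy
  have hy' : y = (g * σ * g⁻¹) ^ k := by
    have : y = MulAut.conj g • ((MulAut.conj g)⁻¹ • y) := (smul_inv_smul _ _).symm
    rw [this, ← hk, MulAut.smul_def, MulAut.conj_apply, conj_zpow]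
  apply Subgroup.centralizer_le_normalizer
  rw [Subgroup.mem_centralizer_iff]
  intro z hz
  obtain ⟨m, rfl⟩ := Subgroup.mem_zpowers_iff.mp hz
  rw [hy']
  exact (hcomm'.zpow_zpow k m).symm.eq

end Cfsg.Agent.S4332
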