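import Cfsg.Statements.S4341
import Cfsg.Agent.Helper24.SylowCount

set_option autoImplicit false
open Cfsg

namespace Cfsg.Agent.S4341

open Cfsg.Agent.Helper24

/-- Let K be a normal subgroup of a finite group G, p a prime and P a Sylow p-subgroup of G; let N be the normalizer of P ∩ K inside the subgroup PK. Then the number of Sylow p-subgroups of G equals the product of the numbers of Sylow p-subgroups of G/K, of K, and of N/(P ∩ K). (The normality of P ∩ K in N, which always holds, is assumed as a hypothesis so that the quotient can be formed.) -/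
theorem result {G : Type*} [Group G] [Finite G]
    (p : ℕ) [Fact p.Prime] (K : Subgroup G) [K.Normal] (P : Sylow p G) (N : Subgroup G)
    (hN : N = ((P : Subgroup G) ⊔ K) ⊓ Subgroup.normalizer (((P : Subgroup G) ⊓ K : Subgroup G) : Set G))
    [hn : (((P : Subgroup G) ⊓ K).subgroupOf N).Normal] :
    Nat.card (Sylow p G) =
      Nat.card (Sylow p (G ⧸ K)) * Nat.card (Sylow p K) * Nat.card (Sylow p (N ⧸ ((P : Subgroup G) ⊓ K).subgroupOf N)) := by
  have hKn : K.Normal := inferInstance
  let ψ : Sylow p G → Sylow p (G ⧸ K) × Sylow p ↥K :=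
    fun Q => (Q.mapSurjective (QuotientGroup.mk'_surjective K), h24_sylInter K Q)
  have hψsurj : Function.Surjective ψ := by
    rintro ⟨Rbar, T⟩
    obtain ⟨Q1, hQ1⟩ := Sylow.mapSurjective_surjective (QuotientGroup.mk'_surjective K) p Rbar
    obtain ⟨k, hk⟩ := MulAction.exists_smul_eq (↥K) (h24_sylInter K Q1) T
    refine ⟨(k : G) • Q1, Prod.ext ?_ ?_⟩
    · show ((k : G) • Q1).mapSurjective (QuotientGroup.mk'_surjective K) = Rbar
      rw [← hQ1]
      apply Sylow.ext
      ext y
      show y ∈ (((k : G) • Q1 : Sylow p G) : Subgroup G).map (QuotientGroup.mk' K)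
        ↔ y ∈ (Q1 : Subgroup G).map (QuotientGroup.mk' K)
      rw [h24_mem_map_smul_sylow]
      have h1 : QuotientGroup.mk' K (k : G) = 1 := (QuotientGroup.eq_one_iff _).2 k.2
      rw [h1]; simp
    · show h24_sylInter K ((k : G) • Q1) = T
      rw [← hk]
      apply Sylow.ext
      ext y
      show y ∈ h24_sylInter K ((k : G) • Q1) ↔ y ∈ k • h24_sylInter K Q1
      rw [h24_mem_sylInter, sc_mem_smul_sylow_iff p k y, h24_mem_sylInter]
      exact sc_mem_smul_sylow_iff p (k : G) (y : G) Q1
  have hcompat : ∀ (g : G) (z z' : Sylow p G), ψ z = ψ z' → ψ (g • z) = ψ (g • z') := by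
    intro g z z' hzz
    have hz1 : z.mapSurjective (QuotientGroup.mk'_surjective K)
        = z'.mapSurjective (QuotientGroup.mk'_surjective K) := congrArg Prod.fst hzz
    have hz2 : h24_sylInter K z = h24_sylInter K z' := congrArg Prod.snd hzz
    refine Prod.ext ?_ ?_
    · apply Sylow.ext
      have h0 : (z : Subgroup G).map (QuotientGroup.mk' K) = (z' : Subgroup G).map (QuotientGroup.mk' K) := by
        have h0 := congrArg (fun R : Sylow p (G ⧸ K) => R.toSubgroup) hz1
        exact h0
      ext y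
      show y ∈ ((g • z : Sylow p G) : Subgroup G).map (QuotientGroup.mk' K)
        ↔ y ∈ ((g • z' : Sylow p G) : Subgroup G).map (QuotientGroup.mk' K)
      rw [h24_mem_map_smul_sylow, h24_mem_map_smul_sylow, h0]
    · apply Sylow.ext
      ext y
      show y ∈ h24_sylInter K (g • z) ↔ y ∈ h24_sylInter K (g • z')
      rw [h24_mem_sylInter, h24_mem_sylInter]
      have a : (y : G) ∈ g • z ↔ g⁻¹ * (y : G) * g ∈ z := sc_mem_smul_sylow_iff p g (y : G) z
      have b : (y : G) ∈ g • z' ↔ g⁻¹ * (y : G) * g ∈ z' := sc_mem_smul_sylow_iff p g (y : G) z'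
      have hK : g⁻¹ * (y : G) * g ∈ K := by
        have h5 := hKn.conj_mem _ y.2 g⁻¹
        simpa using h5
      have c : (⟨g⁻¹ * (y : G) * g, hK⟩ : ↥K) ∈ h24_sylInter K z
          ↔ (⟨g⁻¹ * (y : G) * g, hK⟩ : ↥K) ∈ h24_sylInter K z' := by rw [hz2]
      rw [h24_mem_sylInter, h24_mem_sylInter] at c
      exact a.trans (c.trans b.symm)
  have h1 := h24_card_eq_mul_fiber (G := G) ψ hψsurj hcompat P
  rw [h1, Nat.card_prod]
  congr 1
  have hPN : (P : Subgroup G) ≤ N := by
    rw [hN]; exact le_inf le_sup_left (h24_le_normalizer_inf_normal _ K)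
  have hL : IsPGroup p (((P : Subgroup G) ⊓ K).subgroupOf N) := (P.2.to_le inf_le_left).comap_subtype
  rw [h24_card_sylow_quot_of_pgroup (↥N) p _ hL, ← h24_card_sylow_le N P hPN]
  apply Nat.card_congr
  refine Equiv.subtypeEquivRight (fun Q => ?_)
  constructor
  · intro hQ
    have hz1 : Q.mapSurjective (QuotientGroup.mk'_surjective K)
        = P.mapSurjective (QuotientGroup.mk'_surjective K) := congrArg Prod.fst hQ
    have hz2 : h24_sylInter K Q = h24_sylInter K P := congrArg Prod.snd hQ
    rw [hN]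
    refine le_inf ((h24_map_eq_iff K P Q).1 hz1) ?_
    have heq : (Q : Subgroup G) ⊓ K = (P : Subgroup G) ⊓ K := by
      ext y
      constructor
      · rintro ⟨h1, h2⟩
        have h3 : (⟨y, h2⟩ : ↥K) ∈ h24_sylInter K Q := (h24_mem_sylInter K Q ⟨y, h2⟩).2 h1
        rw [hz2] at h3
        exact ⟨(h24_mem_sylInter K P ⟨y, h2⟩).1 h3, h2⟩
      · rintro ⟨h1, h2⟩
        have h3 : (⟨y, h2⟩ : ↥K) ∈ h24_sylInter K P := (h24_mem_sylInter K P ⟨y, h2⟩).2 h1
        rw [← hz2] at h3
        exact ⟨(h24_mem_sylInter K Q ⟨y, h2⟩).1 h3, h2⟩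
    rw [← heq]
    exact h24_le_normalizer_inf_normal _ K
  · intro hQ
    refine Prod.ext ?_ ?_
    · exact (h24_map_eq_iff K P Q).2 (hQ.trans (by rw [hN]; exact inf_le_left))
    · apply Sylow.ext
      have hle : ((h24_sylInter K P : Sylow p ↥K) : Subgroup ↥K)
          ≤ ((h24_sylInter K Q : Sylow p ↥K) : Subgroup ↥K) := by
        intro k hk
        have hkP : (k : G) ∈ (P : Subgroup G) := hk
        have hkN : (k : G) ∈ N := hPN hkP
        have h2 : (⟨(k : G), hkN⟩ : ↥N) ∈ ((P : Subgroup G) ⊓ K).subgroupOf N := by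
          rw [Subgroup.mem_subgroupOf]; exact ⟨hkP, k.2⟩
        have h3 := hL.le_sylow_of_normal (Q.subtype hQ) h2
        have h4 : (⟨(k : G), hkN⟩ : ↥N) ∈ ((Q : Subgroup G).subgroupOf N) := h3
        exact (Subgroup.mem_subgroupOf.1 h4)
      exact (h24_sylInter K P).is_maximal' (h24_sylInter K Q).2 hle

end Cfsg.Agent.S4341
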