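import Cfsg.Statements.S4342

set_option autoImplicit false
open Cfsg

namespace Cfsg.Agent.S4342

theorem sylow_le_of_normal {G : Type*} [Group G] [Finite G] (p : ℕ) [Fact p.Prime]
    (H : Subgroup G) [H.Normal] (hp : ¬ p ∣ H.index) (P : Sylow p G) : (P : Subgroup G) ≤ H := by
  have h1 : IsPGroup p ((P : Subgroup G).map (QuotientGroup.mk' H)) := P.2.map _
  obtain ⟨n, hn⟩ := IsPGroup.iff_card.1 h1
  have h2 : Nat.card ((P : Subgroup G).map (QuotientGroup.mk' H)) ∣ H.index := by
    rw [Subgroup.index]
    exact Subgroup.card_subgroup_dvd_card _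
  have hn0 : n = 0 := by
    by_contra h
    apply hp
    rw [hn] at h2
    exact (dvd_pow_self p h).trans h2
  rw [hn0, pow_zero] at hn
  have h3 : (P : Subgroup G).map (QuotientGroup.mk' H) = ⊥ := Subgroup.card_eq_one.1 hn
  rw [Subgroup.map_eq_bot_iff, QuotientGroup.ker_mk'] at h3
  exact h3

theorem card_sylow_eq_of_normal {G : Type*} [Group G] [Finite G] (p : ℕ) [Fact p.Prime]
    (H : Subgroup G) [H.Normal] (hp : ¬ p ∣ H.index) :
    Nat.card (Sylow p G) = Nat.card (Sylow p H) := by
  apply Nat.card_eq_of_bijective (fun P : Sylow p G => P.subtype (sylow_le_of_normal p H hp P))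
  constructor
  · intro P Q h
    exact Sylow.subtype_injective h
  · intro Q
    obtain ⟨P, hP⟩ := Q.exists_comap_subtype_eq
    refine ⟨P, ?_⟩
    apply Sylow.ext
    rw [Sylow.coe_subtype]
    exact hP

theorem card_sylow_quot_center (H : Type*) [Group H] [Finite H] (p : ℕ) [Fact p.Prime] :
    Nat.card (Sylow p (H ⧸ Subgroup.center H)) = Nat.card (Sylow p H) := by
  symm
  have hf : Function.Surjective (QuotientGroup.mk' (Subgroup.center H)) :=
    QuotientGroup.mk'_surjective _
  apply Nat.card_eq_of_bijective (Sylow.mapSurjective hf)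
  refine ⟨?_, Sylow.mapSurjective_surjective hf p⟩
  intro P Q hPQ
  have h1 : (P : Subgroup H).map (QuotientGroup.mk' (Subgroup.center H))
      = (Q : Subgroup H).map (QuotientGroup.mk' (Subgroup.center H)) := by
    have h0 := congrArg (fun R : Sylow p (H ⧸ Subgroup.center H) => R.toSubgroup) hPQ
    exact h0
  have h2 : (P : Subgroup H) ⊔ Subgroup.center H = (Q : Subgroup H) ⊔ Subgroup.center H := by
    have h0 := congrArg (Subgroup.comap (QuotientGroup.mk' (Subgroup.center H))) h1
    rwa [Subgroup.comap_map_eq, Subgroup.comap_map_eq, QuotientGroup.ker_mk'] at h0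
  have h3 : (Q : Subgroup H) ≤ Subgroup.normalizer ((P : Subgroup H) : Set H) := by
    have h4 : (P : Subgroup H) ⊔ Subgroup.center H ≤ Subgroup.normalizer ((P : Subgroup H) : Set H) :=
      sup_le Subgroup.le_normalizer (Subgroup.center_le_normalizer _)
    have h7 : (Q : Subgroup H) ≤ (Q : Subgroup H) ⊔ Subgroup.center H := le_sup_left
    exact (h7.trans h2.ge).trans h4
  have h5 : (Q : Subgroup H) ⊓ Subgroup.normalizer ((P : Subgroup H) : Set H)
      = (Q : Subgroup H) ⊓ (P : Subgroup H) := Q.2.inf_normalizer_sylow P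
  rw [inf_eq_left.2 h3] at h5
  have h6 : (Q : Subgroup H) ≤ (P : Subgroup H) := by
    rw [h5]
    exact inf_le_right
  exact Sylow.ext (Q.is_maximal' P.2 h6)

/-- Let H be a normal subgroup of a finite group G and p a prime not dividing the index of H. Then the number of Sylow p-subgroups of H/Z(H) equals the number of Sylow p-subgroups of G. -/
theorem result {G : Type*} [Group G] [Finite G]
    (p : ℕ) [Fact p.Prime] (H : Subgroup G) [H.Normal] (hp : ¬ p ∣ H.index) :
    Nat.card (Sylow p (H ⧸ Subgroup.center H)) = Nat.card (Sylow p G) := by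
  rw [card_sylow_quot_center, card_sylow_eq_of_normal p H hp]

end Cfsg.Agent.S4342
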