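import Cfsg.Statements.S4343

set_option autoImplicit false
open Cfsg

namespace Cfsg.Agent.S4343

theorem mem_smul_sylow_iff {G : Type*} [Group G] (p : ℕ) (g x : G) (P : Sylow p G) :
    x ∈ g • P ↔ g⁻¹ * x * g ∈ P := by
  have h : x ∈ ((g • P : Sylow p G) : Subgroup G) ↔ g⁻¹ * x * g ∈ (P : Subgroup G) := by
    rw [Sylow.coe_subgroup_smul, Subgroup.mem_pointwise_smul_iff_inv_smul_mem]
    simp [MulAut.smul_def]
  exact h

theorem iInf_sylow_eq_bot {S : Type*} [Group S] [Finite S] [IsSimpleGroup S]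
    (hS : ¬ IsMulCommutative S) (p : ℕ) [Fact p.Prime] :
    (⨅ Q : Sylow p S, (Q : Subgroup S)) = ⊥ := by
  have hn : (⨅ Q : Sylow p S, (Q : Subgroup S)).Normal := by
    constructor
    intro n hn g
    rw [Subgroup.mem_iInf] at hn ⊢
    intro Q
    have h1 := hn (g⁻¹ • Q)
    have h2 : g * n * g⁻¹ ∈ Q := by simpa using (mem_smul_sylow_iff p g⁻¹ n Q).1 h1
    exact h2
  rcases IsSimpleGroup.eq_bot_or_eq_top_of_normal _ hn with h | h
  · exact h
  · exfalso
    apply hS
    obtain ⟨P⟩ : Nonempty (Sylow p S) := inferInstance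
    have hP : (P : Subgroup S) = ⊤ := by
      rw [eq_top_iff, ← h]
      exact iInf_le _ P
    have hpg : IsPGroup p S := by
      have h1 : IsPGroup p (P : Subgroup S) := P.2
      rw [hP] at h1
      exact h1.of_equiv Subgroup.topEquiv
    have hc : Nontrivial (Subgroup.center S) := hpg.center_nontrivial
    have hc2 : Subgroup.center S ≠ ⊥ := (Subgroup.nontrivial_iff_ne_bot _).1 hc
    have hc3 : Subgroup.center S = ⊤ := by
      rcases IsSimpleGroup.eq_bot_or_eq_top_of_normal (Subgroup.center S) inferInstance with h' | h'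
      · exact absurd h' hc2
      · exact h'
    refine ⟨⟨fun a b => ?_⟩⟩
    have hb : b ∈ Subgroup.center S := by rw [hc3]; exact Subgroup.mem_top b
    exact (Subgroup.mem_center_iff.1 hb a)

theorem normal_step {S : Type*} [Group S] [Finite S] (p : ℕ) [Fact p.Prime]
    (hn : Nat.card (Sylow p S) < p ^ 2) (P Q : Sylow p S) :
    (P : Subgroup S) ≤
      Subgroup.normalizer (((Q : Subgroup S) ⊓ (P : Subgroup S) : Subgroup S) : Set S) := by
  have hpp : p.Prime := Fact.out
  have hstab : MulAction.stabilizer (↥(P : Subgroup S)) Q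
      = (Q : Subgroup S).subgroupOf (P : Subgroup S) := by
    ext s
    rw [MulAction.mem_stabilizer_iff, Subgroup.mem_subgroupOf]
    have h1 : s • Q = Q ↔ (s : S) ∈ Subgroup.normalizer ((Q : Subgroup S) : Set S) := by
      have h0 : s • Q = (s : S) • Q := rfl
      rw [h0]
      exact Sylow.smul_eq_iff_mem_normalizer
    rw [h1]
    have h2 : (P : Subgroup S) ⊓ Subgroup.normalizer ((Q : Subgroup S) : Set S)
        = (P : Subgroup S) ⊓ (Q : Subgroup S) := P.2.inf_normalizer_sylow Q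
    constructor
    · intro h
      have h3 : (s : S) ∈ (P : Subgroup S) ⊓ Subgroup.normalizer ((Q : Subgroup S) : Set S) :=
        ⟨s.2, h⟩
      rw [h2] at h3
      exact h3.2
    · intro h
      exact Subgroup.le_normalizer h
  have hidx : ((Q : Subgroup S).subgroupOf (P : Subgroup S)).index < p ^ 2 := by
    rw [← hstab, MulAction.index_stabilizer]
    refine lt_of_le_of_lt ?_ hn
    rw [← Set.ncard_univ]
    exact Set.ncard_le_ncard (Set.subset_univ _)
  obtain ⟨k, hk⟩ := P.2.index ((Q : Subgroup S).subgroupOf (P : Subgroup S))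
  rw [hk] at hidx
  have hk2 : k < 2 := (Nat.pow_lt_pow_iff_right hpp.one_lt).1 hidx
  have hk01 : k = 0 ∨ k = 1 := by omega
  rcases hk01 with rfl | rfl
  · rw [pow_zero, Subgroup.index_eq_one, Subgroup.subgroupOf_eq_top] at hk
    rw [inf_eq_right.2 hk]
    exact Subgroup.le_normalizer
  · rw [pow_one] at hk
    have hnorm : ((Q : Subgroup S).subgroupOf (P : Subgroup S)).Normal := by
      apply Subgroup.normal_of_index_eq_minFac_card
      rw [hk]
      obtain ⟨m, hm⟩ := IsPGroup.iff_card.1 P.2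
      have hm0 : m ≠ 0 := by
        rintro rfl
        have h1 : ((Q : Subgroup S).subgroupOf (P : Subgroup S)).index
            ∣ Nat.card (P : Subgroup S) := Subgroup.index_dvd_card _
        rw [hk, hm, pow_zero] at h1
        exact hpp.one_lt.ne' (Nat.dvd_one.1 h1)
      rw [hm, Nat.pow_minFac hm0, hpp.minFac_eq]
    exact Subgroup.normal_subgroupOf_iff_le_normalizer_inf.1 hnorm

theorem inf_eq_bot_exists {S : Type*} [Group S] [Finite S] [IsSimpleGroup S]
    (hS : ¬ IsMulCommutative S) (p : ℕ) [Fact p.Prime]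
    (hn : Nat.card (Sylow p S) < p ^ 2) :
    ∃ S0 T0 : Sylow p S, (S0 : Subgroup S) ⊓ (T0 : Subgroup S) = ⊥ := by
  obtain ⟨⟨S0, T0⟩, hmin⟩ := Finite.exists_min (fun x : Sylow p S × Sylow p S =>
    Nat.card ((x.1 : Subgroup S) ⊓ (x.2 : Subgroup S) : Subgroup S))
  refine ⟨S0, T0, ?_⟩
  have hS0N : (S0 : Subgroup S) ≤ Subgroup.normalizer
      (((S0 : Subgroup S) ⊓ (T0 : Subgroup S) : Subgroup S) : Set S) := by
    have h0 := normal_step p hn S0 T0
    rw [inf_comm] at h0
    exact h0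
  have hT0N : (T0 : Subgroup S) ≤ Subgroup.normalizer
      (((S0 : Subgroup S) ⊓ (T0 : Subgroup S) : Subgroup S) : Set S) := normal_step p hn T0 S0
  generalize hD : (S0 : Subgroup S) ⊓ (T0 : Subgroup S) = D at hS0N hT0N ⊢
  generalize hN : Subgroup.normalizer (D : Set S) = N at hS0N hT0N
  have claim1 : ∀ R : Sylow p S, (R : Subgroup S) ⊓ N ≤ (S0 : Subgroup S) →
      D ≤ (R : Subgroup S) := by
    intro R hR
    have h1 : (R : Subgroup S) ⊓ (T0 : Subgroup S) ≤ D := by
      rw [← hD]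
      apply le_inf
      · exact (inf_le_inf_left _ hT0N).trans hR
      · exact inf_le_right
    have h2 : Nat.card D ≤ Nat.card ((R : Subgroup S) ⊓ (T0 : Subgroup S) : Subgroup S) := by
      have h0 := hmin (R, T0)
      rw [← hD]
      exact h0
    have h3 : (R : Subgroup S) ⊓ (T0 : Subgroup S) = D := Subgroup.eq_of_le_of_card_ge h1 h2
    rw [← h3]
    exact inf_le_left
  have claim2 : ∀ R : Sylow p S, ∃ x ∈ N,
      ((x • R : Sylow p S) : Subgroup S) ⊓ N ≤ (S0 : Subgroup S) := by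
    intro R
    have hQ0 : IsPGroup p (((R : Subgroup S) ⊓ N).subgroupOf N) :=
      (R.2.to_le inf_le_left).comap_subtype
    obtain ⟨Q', hQ'⟩ := hQ0.exists_le_sylow
    obtain ⟨n, hn'⟩ := MulAction.exists_smul_eq (↥N) Q' (S0.subtype hS0N)
    refine ⟨(n : S), n.2, ?_⟩
    intro y hy
    obtain ⟨hy1, hy2⟩ := hy
    have hy1' := (mem_smul_sylow_iff p (n : S) y R).1 hy1
    have hyN : (n : S)⁻¹ * y * (n : S) ∈ N := N.mul_mem (N.mul_mem (N.inv_mem n.2) hy2) n.2
    have h4 : (⟨(n : S)⁻¹ * y * (n : S), hyN⟩ : ↥N) ∈ Q' := by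
      apply hQ'
      rw [Subgroup.mem_subgroupOf]
      exact ⟨hy1', hyN⟩
    have h5 : (⟨y, hy2⟩ : ↥N) ∈ n • Q' := by
      rw [mem_smul_sylow_iff]
      have h0 : n⁻¹ * (⟨y, hy2⟩ : ↥N) * n = ⟨(n : S)⁻¹ * y * (n : S), hyN⟩ :=
        Subtype.ext (by simp)
      rw [h0]
      exact h4
    rw [hn'] at h5
    have h6 : (⟨y, hy2⟩ : ↥N) ∈ ((S0.subtype hS0N : Sylow p ↥N) : Subgroup ↥N) := h5
    rw [Sylow.coe_subtype, Subgroup.mem_subgroupOf] at h6
    exact h6
  have hDle : ∀ R : Sylow p S, D ≤ (R : Subgroup S) := by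
    intro R
    obtain ⟨x, hxN, hx⟩ := claim2 R
    have h7 := claim1 (x • R) hx
    intro d hd
    rw [← hN] at hxN
    have h8 : x * d * x⁻¹ ∈ D := (Subgroup.mem_normalizer_iff.1 hxN d).1 hd
    have h9 : d ∈ R := by simpa [mul_assoc] using (mem_smul_sylow_iff p x _ R).1 (h7 h8)
    exact h9
  have hbot : D ≤ ⊥ := by
    rw [← iInf_sylow_eq_bot hS p]
    exact le_iInf hDle
  exact le_bot_iff.1 hbot

/-- Let S be a finite non-abelian simple group and p a prime dividing its order. If S has fewer than p² Sylow p-subgroups, then its Sylow p-subgroups have order p. -/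
theorem result {S : Type*} [Group S] [Finite S]
    [IsSimpleGroup S] (hS : ¬ IsMulCommutative S) (p : ℕ) [Fact p.Prime] (hp : p ∣ Nat.card S)
    (hn : Nat.card (Sylow p S) < p ^ 2) (P : Sylow p S) : Nat.card P = p := by
  have hpp : p.Prime := Fact.out
  obtain ⟨S0, T0, h0⟩ := inf_eq_bot_exists hS p hn
  have hinj : Function.Injective (fun s : ↥(S0 : Subgroup S) => (s : S) • T0) := by
    intro s s' h
    dsimp only at h
    have h1 : ((s' : S)⁻¹ * (s : S)) • T0 = T0 := by
      rw [mul_smul, h, ← mul_smul, inv_mul_cancel, one_smul]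
    have h2 : (s' : S)⁻¹ * (s : S) ∈ Subgroup.normalizer ((T0 : Subgroup S) : Set S) :=
      Sylow.smul_eq_iff_mem_normalizer.1 h1
    have h3 : (s' : S)⁻¹ * (s : S) ∈
        (S0 : Subgroup S) ⊓ Subgroup.normalizer ((T0 : Subgroup S) : Set S) :=
      ⟨(S0 : Subgroup S).mul_mem ((S0 : Subgroup S).inv_mem s'.2) s.2, h2⟩
    have h4 : (S0 : Subgroup S) ⊓ Subgroup.normalizer ((T0 : Subgroup S) : Set S)
        = (S0 : Subgroup S) ⊓ (T0 : Subgroup S) := S0.2.inf_normalizer_sylow T0
    rw [h4, h0, Subgroup.mem_bot] at h3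
    apply Subtype.ext
    have h5 := inv_mul_eq_one.1 h3
    exact h5.symm
  have hcard : Nat.card (S0 : Subgroup S) < p ^ 2 :=
    lt_of_le_of_lt (Nat.card_le_card_of_injective _ hinj) hn
  rw [Sylow.card_eq_multiplicity] at hcard ⊢
  have hpos : 0 < (Nat.card S).factorization p :=
    Nat.Prime.factorization_pos_of_dvd hpp Nat.card_pos.ne' hp
  have hlt : (Nat.card S).factorization p < 2 := (Nat.pow_lt_pow_iff_right hpp.one_lt).1 hcard
  have h1 : (Nat.card S).factorization p = 1 := by omega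
  rw [h1, pow_one]

end Cfsg.Agent.S4343
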