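import Cfsg.Statements.S4344

set_option autoImplicit false
open Cfsg

namespace Cfsg.Agent.S4344

theorem mem_sylow_of_comm {S : Type*} [Group S] (p : ℕ) [Fact p.Prime]
    (P : Sylow p S) (C : Subgroup S) (hC : ∀ a ∈ C, ∀ b ∈ C, a * b = b * a) (hP : (P : Subgroup S) ≤ C)
    (c : S) (hc : c ∈ C) (k : ℕ) (hk : orderOf c = p ^ k) : c ∈ (P : Subgroup S) := by
  have hZ : IsPGroup p (Subgroup.zpowers c) := by
    apply IsPGroup.of_card (n := k)
    rw [Nat.card_zpowers, hk]
  have hle : Subgroup.zpowers c ≤ Subgroup.normalizer ((P : Subgroup S) : Set S) := by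
    rw [Subgroup.zpowers_le, Subgroup.mem_normalizer_iff]
    intro h
    constructor
    · intro hh
      have h1 : c * h * c⁻¹ = h := by
        rw [hC c hc h (hP hh)]
        group
      rw [h1]
      exact hh
    · intro hh
      have h2 := hC c hc _ (hP hh)
      have h1 : c * h * c⁻¹ = h := mul_left_cancel (a := c) (by rw [h2]; group)
      rw [← h1]
      exact hh
  have h3 : Subgroup.zpowers c ⊓ Subgroup.normalizer ((P : Subgroup S) : Set S)
      = Subgroup.zpowers c ⊓ (P : Subgroup S) := hZ.inf_normalizer_sylow P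
  rw [inf_eq_left.2 hle] at h3
  have h4 : Subgroup.zpowers c ≤ (P : Subgroup S) := by
    rw [h3]
    exact inf_le_right
  exact h4 (Subgroup.mem_zpowers c)

/-- Let S be a finite non-abelian simple group, M a maximal subgroup of S and C a cyclic normal subgroup of M. If a Sylow p-subgroup P of S (for a prime p dividing the order of S) is contained in C, then the number of Sylow p-subgroups of S equals the index of M. -/
theorem result {S : Type*} [Group S] [Finite S]
    [IsSimpleGroup S] (hS : ¬ IsMulCommutative S) (p : ℕ) [Fact p.Prime] (hp : p ∣ Nat.card S)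
    (M : Subgroup S) (hM : IsCoatom M) (C : Subgroup S) (hCM : C ≤ M) (hCn : (C.subgroupOf M).Normal)
    (hC : IsCyclic C) (P : Sylow p S) (hP : (P : Subgroup S) ≤ C) :
    Nat.card (Sylow p S) = M.index := by
  classical
  rw [Sylow.card_eq_index_normalizer P]
  congr 1
  have hCcomm : ∀ a ∈ C, ∀ b ∈ C, a * b = b * a := by
    intro a ha b hb
    have h1 := (IsCyclic.isMulCommutative (α := C)).is_comm.comm ⟨a, ha⟩ ⟨b, hb⟩
    exact congrArg Subtype.val h1
  have key : ∀ m ∈ M, ∀ y ∈ (P : Subgroup S), m * y * m⁻¹ ∈ (P : Subgroup S) := by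
    intro m hm y hy
    have hyC : m * y * m⁻¹ ∈ C := by
      have h1 := hCn.conj_mem ⟨y, hCM (hP hy)⟩ (Subgroup.mem_subgroupOf.2 (hP hy)) ⟨m, hm⟩
      exact Subgroup.mem_subgroupOf.1 h1
    obtain ⟨k, hk⟩ := (IsPGroup.iff_orderOf.1 P.2) ⟨y, hy⟩
    refine mem_sylow_of_comm p P C hCcomm hP _ hyC k ?_
    rw [← MulAut.conj_apply, MulEquiv.orderOf_eq, ← hk, Subgroup.orderOf_mk]
  have hMle : M ≤ Subgroup.normalizer ((P : Subgroup S) : Set S) := by
    intro m hm
    rw [Subgroup.mem_normalizer_iff]
    intro h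
    constructor
    · exact key m hm h
    · intro hh
      have h1 := key m⁻¹ (M.inv_mem hm) _ hh
      simpa [mul_assoc] using h1
  have hne : Subgroup.normalizer ((P : Subgroup S) : Set S) ≠ ⊤ := by
    intro htop
    have hnorm : (P : Subgroup S).Normal := Subgroup.normalizer_eq_top_iff.1 htop
    rcases hnorm.eq_bot_or_eq_top with h | h
    · exact P.ne_bot_of_dvd_card hp h
    · have h1 : M = ⊤ := top_le_iff.1 (h ▸ (hP.trans hCM))
      exact hM.1 h1
  by_contra hne2
  have hlt : M < Subgroup.normalizer ((P : Subgroup S) : Set S) := lt_of_le_of_ne hMle (Ne.symm hne2)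
  exact hne (hM.2 _ hlt)

end Cfsg.Agent.S4344
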