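import Cfsg.Statements.S4345
import Cfsg.Agent.Helper24.SylowCount

set_option autoImplicit false
open Cfsg

namespace Cfsg.Agent.S4345

open Cfsg.Agent.Helper24

universe u

theorem exists_normal_pgroup {G : Type*} [Group G] [Finite G] [Nontrivial G]
    (h : Group.IsSolvable G) :
    ∃ (q : ℕ) (K : Subgroup G), q.Prime ∧ K.Normal ∧ IsPGroup q K ∧ K ≠ ⊥ := by
  classical
  have hex : ∃ n, derivedSeries G n = ⊥ := h.solvable
  have hn := Nat.find_spec hex
  have hmin := fun m => Nat.find_min hex (m := m)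
  have hn0 : Nat.find hex ≠ 0 := by
    intro h0
    rw [h0] at hn
    have h1 : (⊤ : Subgroup G) = ⊥ := hn
    exact top_ne_bot h1
  obtain ⟨m, hm⟩ := Nat.exists_eq_succ_of_ne_zero hn0
  have hA : derivedSeries G m ≠ ⊥ := hmin m (by omega)
  have hAA : ⁅derivedSeries G m, derivedSeries G m⁆ = ⊥ := by
    have h1 := hn
    rw [hm] at h1
    exact h1
  have hAn : (derivedSeries G m).Normal := derivedSeries_normal G m
  generalize derivedSeries G m = A at hA hAA hAn
  have hcomm : ∀ a ∈ A, ∀ b ∈ A, a * b = b * a := by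
    intro a ha b hb
    have h1 := Subgroup.commutator_eq_bot_iff_le_centralizer.1 hAA
    have h2 := h1 ha b hb
    exact h2.symm
  have hcard : Nat.card A ≠ 1 := fun h1 => hA (Subgroup.card_eq_one.1 h1)
  obtain ⟨q, hq, hqd⟩ := Nat.exists_prime_and_dvd hcard
  haveI : Fact q.Prime := ⟨hq⟩
  let K : Subgroup G :=
    { carrier := {a | a ∈ A ∧ ∃ k : ℕ, a ^ (q ^ k) = 1}
      one_mem' := ⟨A.one_mem, 0, by simp⟩
      mul_mem' := by
        rintro a b ⟨ha, k, hk⟩ ⟨hb, l, hl⟩
        refine ⟨A.mul_mem ha hb, k + l, ?_⟩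
        have hc : Commute a b := hcomm a ha b hb
        rw [hc.mul_pow, pow_add, pow_mul, hk, one_pow, mul_comm (q ^ k) (q ^ l), pow_mul, hl,
          one_pow, one_mul]
      inv_mem' := by
        rintro a ⟨ha, k, hk⟩
        exact ⟨A.inv_mem ha, k, by rw [inv_pow, hk, inv_one]⟩ }
  refine ⟨q, K, hq, ?_, ?_, ?_⟩
  · constructor
    rintro a ⟨ha, k, hk⟩ g
    exact ⟨hAn.conj_mem a ha g, k, by rw [conj_pow, hk]; group⟩
  · rintro ⟨a, ha, k, hk⟩
    exact ⟨k, Subtype.ext (by simpa using hk)⟩
  · obtain ⟨a, ha⟩ := exists_prime_orderOf_dvd_card' q hqd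
    intro hK
    have h0 : (a : G) ^ q = 1 := by
      rw [← ha, ← Subgroup.orderOf_coe, pow_orderOf_eq_one]
    have h1 : (a : G) ∈ K := ⟨a.2, 1, by rw [pow_one]; exact h0⟩
    rw [hK, Subgroup.mem_bot] at h1
    have h2 : a = 1 := Subtype.ext h1
    rw [h2, orderOf_one] at ha
    exact hq.ne_one ha.symm

theorem card_sylow_sup_dvd {G : Type*} [Group G] [Finite G] {p : ℕ} [Fact p.Prime]
    (K : Subgroup G) [K.Normal] (P : Sylow p G) :
    Nat.card (Sylow p ↥((P : Subgroup G) ⊔ K)) ∣ Nat.card K := by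
  have hle : (P : Subgroup G) ≤ (P : Subgroup G) ⊔ K := le_sup_left
  have h1 := Sylow.card_dvd_index (P.subtype hle)
  have h2 : ((P.subtype hle : Sylow p ↥((P : Subgroup G) ⊔ K)) :
      Subgroup ↥((P : Subgroup G) ⊔ K)).index = (P : Subgroup G).relIndex K := by
    rw [Sylow.coe_subtype]
    exact h24_relIndex_sup_of_normal _ K
  rw [h2] at h1
  exact h1.trans (Subgroup.relIndex_dvd_card _ _)

theorem main (p ℓ : ℕ) [Fact p.Prime] (hℓ : ℓ.Prime) :
    ∀ (n : ℕ) (G : Type u) [Group G] [Finite G], Nat.card G = n → Group.IsSolvable G →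
      ℓ ^ (Nat.card (Sylow p G)).factorization ℓ ≡ 1 [MOD p] := by
  intro n
  induction n using Nat.strong_induction_on with
  | _ n ih =>
    intro G _ _ hcard hsol
    by_cases hnt : Nontrivial G
    · obtain ⟨q, K, hq, hKn, hKq, hKne⟩ := exists_normal_pgroup hsol
      haveI := hKn
      haveI := hsol
      obtain ⟨P⟩ : Nonempty (Sylow p G) := inferInstance
      have hprod := h24_card_sylow_eq_quot_mul K P
      have hlt : Nat.card (G ⧸ K) < n := by
        rw [← hcard, ← Subgroup.index_eq_card, ← Subgroup.card_mul_index K]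
        have h1 : 1 < Nat.card K := by
          rcases Nat.lt_or_ge 1 (Nat.card K) with h | h
          · exact h
          · exfalso
            apply hKne
            apply Subgroup.card_eq_one.1
            have h3 := Nat.card_pos (α := K)
            omega
        have h2 : 0 < K.index := Nat.pos_of_ne_zero Subgroup.index_ne_zero_of_finite
        nlinarith
      have ih1 := ih _ hlt (G ⧸ K) rfl inferInstance
      have hbq : ∃ j, Nat.card (Sylow p ↥((P : Subgroup G) ⊔ K)) = q ^ j := by
        haveI : Fact q.Prime := ⟨hq⟩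
        obtain ⟨m, hm⟩ := IsPGroup.iff_card.1 hKq
        have h3 : Nat.card (Sylow p ↥((P : Subgroup G) ⊔ K)) ∣ q ^ m := by
          rw [← hm]; exact card_sylow_sup_dvd K P
        obtain ⟨j, _, hj⟩ := (Nat.dvd_prime_pow hq).1 h3
        exact ⟨j, hj⟩
      obtain ⟨j, hj⟩ := hbq
      have hb1 : Nat.card (Sylow p ↥((P : Subgroup G) ⊔ K)) ≡ 1 [MOD p] := card_sylow_modEq_one p _
      have ha0 : Nat.card (Sylow p (G ⧸ K)) ≠ 0 := Nat.card_pos.ne'
      have hb0 : Nat.card (Sylow p ↥((P : Subgroup G) ⊔ K)) ≠ 0 := Nat.card_pos.ne'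
      have hbl : ℓ ^ (Nat.card (Sylow p ↥((P : Subgroup G) ⊔ K))).factorization ℓ ≡ 1 [MOD p] := by
        by_cases hlq : q = ℓ
        · subst hlq
          have h5 : (Nat.card (Sylow p ↥((P : Subgroup G) ⊔ K))).factorization q = j := by
            rw [hj, Nat.Prime.factorization_pow hq, Finsupp.single_apply, if_pos rfl]
          rw [h5, ← hj]
          exact hb1
        · have h5 : (Nat.card (Sylow p ↥((P : Subgroup G) ⊔ K))).factorization ℓ = 0 := by
            rw [hj, Nat.Prime.factorization_pow hq, Finsupp.single_apply, if_neg hlq]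
          rw [h5, pow_zero]
      rw [hprod, Nat.factorization_mul ha0 hb0, Finsupp.add_apply, pow_add]
      have h6 := Nat.ModEq.mul ih1 hbl
      rw [mul_one] at h6
      exact h6
    · rw [not_nontrivial_iff_subsingleton] at hnt
      have h1 : Nat.card (Sylow p G) = 1 := by
        haveI : Subsingleton (Sylow p G) := ⟨fun Q Q' => Sylow.ext (Subsingleton.elim _ _)⟩
        obtain ⟨P⟩ : Nonempty (Sylow p G) := inferInstance
        exact Nat.card_of_subsingleton P
      rw [h1]
      simp [Nat.ModEq]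

/-- Let G be a finite solvable group and p, ℓ primes. Then the largest power of ℓ dividing the number of Sylow p-subgroups of G is congruent to 1 modulo p. -/
theorem result {G : Type*} [Group G] [Finite G]
    (hG : Group.IsSolvable G) (p ℓ : ℕ) [Fact p.Prime] (hℓ : ℓ.Prime) :
    ℓ ^ (Nat.card (Sylow p G)).factorization ℓ ≡ 1 [MOD p] := by
  exact main p ℓ hℓ _ G rfl hG

end Cfsg.Agent.S4345
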