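import Cfsg.Statements.S4354
import Cfsg.Agent.Helper24.ClassSize

set_option autoImplicit false
open Cfsg

namespace Cfsg.Agent.S4354

open Cfsg.Agent.Helper24

/-- Let G be a finite group and p a prime such that the Sylow p-subgroups of G are non-abelian while every element of p-power order has conjugacy class size prime to p, and suppose no nontrivial proper normal subgroup N of G has this property and no quotient G/N by such an N has it. Then G is simple. -/
theorem result {G : Type*} [Group G] [Finite G]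
    (p : ℕ) [Fact p.Prime] (h : ((∃ P : Sylow p G, ¬ IsMulCommutative P) ∧ ∀ x : G, (∃ k : ℕ, orderOf x = p ^ k) → ¬ p ∣ (Subgroup.centralizer ({x} : Set G)).index))
    (hmin : ∀ (N : Subgroup G) [N.Normal], N ≠ ⊥ → N ≠ ⊤ →
      ¬ ((∃ P : Sylow p N, ¬ IsMulCommutative P) ∧ ∀ x : N, (∃ k : ℕ, orderOf x = p ^ k) → ¬ p ∣ (Subgroup.centralizer ({x} : Set N)).index) ∧
      ¬ ((∃ P : Sylow p (G ⧸ N), ¬ IsMulCommutative P) ∧ ∀ x : (G ⧸ N), (∃ k : ℕ, orderOf x = p ^ k) → ¬ p ∣ (Subgroup.centralizer ({x} : Set (G ⧸ N))).index)) :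
    IsSimpleGroup G := by
  classical
  obtain ⟨⟨P, hPnc⟩, hcl⟩ := h
  have hnt : Nontrivial G := by
    by_contra hcon
    rw [not_nontrivial_iff_subsingleton] at hcon
    apply hPnc
    exact ⟨⟨fun a b => Subsingleton.elim _ _⟩⟩
  refine { toNontrivial := hnt, eq_bot_or_eq_top_of_normal := ?_ }
  intro N hN
  by_contra hcon
  push Not at hcon
  obtain ⟨hNbot, hNtop⟩ := hcon
  haveI := hN
  obtain ⟨hmN, hmQ⟩ := hmin N hNbot hNtop
  have habN : ∀ R : Sylow p N, IsMulCommutative R := by
    intro R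
    by_contra hR
    exact hmN ⟨⟨R, hR⟩, class_cond_normal p hcl N⟩
  have habQ : ∀ R : Sylow p (G ⧸ N), IsMulCommutative R := by
    intro R
    by_contra hR
    exact hmQ ⟨⟨R, hR⟩, class_cond_quot p hcl N⟩
  exact hPnc (abelian_sylow_of_normal p hcl N habN habQ P)

end Cfsg.Agent.S4354
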