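import Cfsg.Statements.S4365
import Mathlib

set_option autoImplicit false
open Cfsg

namespace Cfsg.Agent.S4365


variable {P : Type*} [Group P]

theorem comm_one_iff (y g : P) : y * g * y⁻¹ * g⁻¹ = 1 ↔ g * y = y * g := by
  rw [← commutatorElement_def, commutatorElement_eq_one_iff_mul_comm]
  exact eq_comm

theorem comm_pow_right (y g : P) (hc : y * g * y⁻¹ * g⁻¹ ∈ Subgroup.center P) (m : ℕ) :
    y * g ^ m * y⁻¹ * (g ^ m)⁻¹ = (y * g * y⁻¹ * g⁻¹) ^ m := by
  have h1 : y * g * y⁻¹ = (y * g * y⁻¹ * g⁻¹) * g := by group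
  have h2 : y * g ^ m * y⁻¹ = ((y * g * y⁻¹ * g⁻¹) * g) ^ m := by rw [← h1, conj_pow]
  have hcomm : Commute (y * g * y⁻¹ * g⁻¹) g := (Subgroup.mem_center_iff.mp hc g).symm
  rw [h2, hcomm.mul_pow]
  group

theorem comm_pow_left (y g : P) (hc : y * g * y⁻¹ * g⁻¹ ∈ Subgroup.center P) (n : ℕ) :
    y ^ n * g * (y ^ n)⁻¹ * g⁻¹ = (y * g * y⁻¹ * g⁻¹) ^ n := by
  have hc' : g * y * g⁻¹ * y⁻¹ ∈ Subgroup.center P := by
    have : g * y * g⁻¹ * y⁻¹ = (y * g * y⁻¹ * g⁻¹)⁻¹ := by group
    rw [this]
    exact inv_mem hc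
  have h := comm_pow_right g y hc' n
  have e1 : y ^ n * g * (y ^ n)⁻¹ * g⁻¹ = (g * y ^ n * g⁻¹ * (y ^ n)⁻¹)⁻¹ := by group
  have e2 : y * g * y⁻¹ * g⁻¹ = (g * y * g⁻¹ * y⁻¹)⁻¹ := by group
  rw [e1, h, e2, inv_pow]

theorem index_of_not_mem (p a : ℕ)
    (hcs : {k : ℕ | ∃ x : P, (Subgroup.centralizer ({x} : Set P)).index = k} = {1, p ^ a})
    (x : P) (hx : x ∉ Subgroup.center P) :
    (Subgroup.centralizer ({x} : Set P)).index = p ^ a := by
  have hmem : (Subgroup.centralizer ({x} : Set P)).index ∈ ({1, p ^ a} : Set ℕ) := by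
    rw [← hcs]; exact ⟨x, rfl⟩
  rcases hmem with h | h
  · exfalso; apply hx
    rw [Subgroup.index_eq_one] at h
    rw [Subgroup.mem_center_iff]; intro g
    have : g ∈ Subgroup.centralizer ({x} : Set P) := by rw [h]; trivial
    exact Subgroup.mem_centralizer_singleton_iff.mp this
  · exact h

theorem cent_eq_of_le [Finite P] (p : ℕ) [Fact p.Prime] (a : ℕ)
    (hcs : {k : ℕ | ∃ x : P, (Subgroup.centralizer ({x} : Set P)).index = k} = {1, p ^ a})
    (x y : P) (hx : x ∉ Subgroup.center P) (hy : y ∉ Subgroup.center P)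
    (hle : Subgroup.centralizer ({x} : Set P) ≤ Subgroup.centralizer ({y} : Set P)) :
    Subgroup.centralizer ({x} : Set P) = Subgroup.centralizer ({y} : Set P) := by
  have h1 := index_of_not_mem p a hcs x hx
  have h2 := index_of_not_mem p a hcs y hy
  apply Subgroup.eq_of_le_of_card_ge hle
  have e1 := Subgroup.card_mul_index (Subgroup.centralizer ({x} : Set P))
  have e2 := Subgroup.card_mul_index (Subgroup.centralizer ({y} : Set P))
  rw [h1] at e1; rw [h2] at e2
  have hpos : 0 < p ^ a := pow_pos (Fact.out : p.Prime).pos a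
  have : Nat.card (Subgroup.centralizer ({y} : Set P)) * p ^ a =
      Nat.card (Subgroup.centralizer ({x} : Set P)) * p ^ a := by rw [e1, e2]
  exact (Nat.eq_of_mul_eq_mul_right hpos this).le

theorem cent_le_pow (x : P) (n : ℕ) :
    Subgroup.centralizer ({x} : Set P) ≤ Subgroup.centralizer ({x ^ n} : Set P) := by
  intro g hg
  rw [Subgroup.mem_centralizer_singleton_iff] at hg ⊢
  exact ((show Commute g x from hg).pow_right n).eq

theorem exists_pow_order_p (p : ℕ) (hP : IsPGroup p P) (c : P) (hc : c ≠ 1) :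
    ∃ m : ℕ, c ^ m ≠ 1 ∧ (c ^ m) ^ p = 1 := by
  classical
  have hex := hP c
  have hk := Nat.find_spec hex
  have hk0 : Nat.find hex ≠ 0 := by
    intro h0
    rw [h0] at hk
    simp at hk
    exact hc hk
  obtain ⟨j, hj⟩ := Nat.exists_eq_succ_of_ne_zero hk0
  refine ⟨p ^ j, ?_, ?_⟩
  · exact Nat.find_min hex (by omega : j < Nat.find hex)
  · rw [← pow_mul, ← pow_succ, ← Nat.succ_eq_add_one, ← hj]
    exact hk

theorem z2_pow [Finite P] (p : ℕ) [Fact p.Prime] (hP : IsPGroup p P) (a : ℕ)
    (hcs : {k : ℕ | ∃ x : P, (Subgroup.centralizer ({x} : Set P)).index = k} = {1, p ^ a})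
    (y : P) (hy : ∀ g : P, y * g * y⁻¹ * g⁻¹ ∈ Subgroup.center P) :
    y ^ p ∈ Subgroup.center P := by
  by_contra hyp
  have hyZ : y ∉ Subgroup.center P := fun h => hyp (pow_mem h p)
  have heq := cent_eq_of_le p a hcs y (y ^ p) hyZ hyp (cent_le_pow y p)
  obtain ⟨g, hg⟩ : ∃ g, g * y ≠ y * g := by
    by_contra hall
    push Not at hall
    exact hyZ (Subgroup.mem_center_iff.mpr hall)
  have hc1 : y * g * y⁻¹ * g⁻¹ ≠ 1 := fun h => hg ((comm_one_iff y g).mp h)
  obtain ⟨m, hm1, hm2⟩ := exists_pow_order_p p hP _ hc1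
  have e1 : y * g ^ m * y⁻¹ * (g ^ m)⁻¹ = (y * g * y⁻¹ * g⁻¹) ^ m := comm_pow_right y g (hy g) m
  have e2 : y ^ p * g ^ m * (y ^ p)⁻¹ * (g ^ m)⁻¹ = ((y * g * y⁻¹ * g⁻¹) ^ m) ^ p := by
    rw [comm_pow_left y (g ^ m) (hy _) p, e1]
  rw [hm2, comm_one_iff] at e2
  have hmem : g ^ m ∈ Subgroup.centralizer ({y ^ p} : Set P) :=
    Subgroup.mem_centralizer_singleton_iff.mpr e2
  rw [← heq, Subgroup.mem_centralizer_singleton_iff] at hmem
  apply hm1
  rw [← e1, comm_one_iff]
  exact hmem

theorem exists_z2 [Finite P] (p : ℕ) [Fact p.Prime] (hP : IsPGroup p P) (x : P)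
    (hx : x ∉ Subgroup.center P) :
    ∃ y0 : P, y0 ∉ Subgroup.center P ∧ ∀ g : P, y0 * g * y0⁻¹ * g⁻¹ ∈ Subgroup.center P := by
  have hnt : Nontrivial (P ⧸ Subgroup.center P) := by
    refine ⟨⟨(QuotientGroup.mk x : P ⧸ Subgroup.center P), 1, ?_⟩⟩
    intro h
    exact hx ((QuotientGroup.eq_one_iff x).mp h)
  have hQ : IsPGroup p (P ⧸ Subgroup.center P) := hP.to_quotient _
  have hcn := hQ.center_nontrivial
  obtain ⟨⟨z, hz⟩, hz1⟩ := exists_ne (1 : Subgroup.center (P ⧸ Subgroup.center P))
  obtain ⟨y0, rfl⟩ := QuotientGroup.mk_surjective z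
  refine ⟨y0, ?_, ?_⟩
  · intro h
    apply hz1
    apply Subtype.ext
    exact (QuotientGroup.eq_one_iff y0).mpr h
  · intro g
    rw [← QuotientGroup.eq_one_iff]
    have h := Subgroup.mem_center_iff.mp hz (QuotientGroup.mk g)
    simp only [QuotientGroup.mk_mul, QuotientGroup.mk_inv]
    rw [← h]
    group

/-- The commutator map `g ↦ [y, g]` for `y` in the second centre. -/
def commHom (y : P) (hy : ∀ g : P, y * g * y⁻¹ * g⁻¹ ∈ Subgroup.center P) : P →* P :=
  MonoidHom.mk' (fun g => y * g * y⁻¹ * g⁻¹) (by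
    intro g h
    have hz := Subgroup.mem_center_iff.mp (hy h) g
    calc y * (g * h) * y⁻¹ * (g * h)⁻¹
        = y * g * y⁻¹ * g⁻¹ * (g * (y * h * y⁻¹ * h⁻¹)) * g⁻¹ := by group
      _ = y * g * y⁻¹ * g⁻¹ * ((y * h * y⁻¹ * h⁻¹) * g) * g⁻¹ := by rw [hz]
      _ = y * g * y⁻¹ * g⁻¹ * (y * h * y⁻¹ * h⁻¹) := by group)

theorem commHom_apply (y : P) (hy : ∀ g : P, y * g * y⁻¹ * g⁻¹ ∈ Subgroup.center P) (g : P) :
    commHom y hy g = y * g * y⁻¹ * g⁻¹ := rfl

theorem conj_index_lt {H : Type*} [Group H] [Finite H] (N : Subgroup H) [hNn : N.Normal] (h : H)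
    (hN : h ∈ N) (h1 : h ≠ 1) :
    (Subgroup.centralizer ({h} : Set H)).index < Nat.card N := by
  have hfin : Finite (ConjAct H) := inferInstanceAs (Finite H)
  have e1 : (Subgroup.centralizer ({h} : Set H)).index =
      (MulAction.stabilizer (ConjAct H) h).index := by
    have c1 := Subgroup.card_mul_index (Subgroup.centralizer ({h} : Set H))
    have c2 := Subgroup.card_mul_index (MulAction.stabilizer (ConjAct H) h)
    have c3 := Subgroup.nat_card_centralizer_nat_card_stabilizer h
    have c4 : Nat.card (ConjAct H) = Nat.card H := rfl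
    rw [c4, ← c1, c3] at c2
    exact (Nat.eq_of_mul_eq_mul_left Nat.card_pos c2).symm
  rw [e1, MulAction.index_stabilizer]
  have hsub : MulAction.orbit (ConjAct H) h ⊆ (N : Set H) \ {1} := by
    rintro _ ⟨g, rfl⟩
    refine ⟨?_, ?_⟩
    · show g • h ∈ N
      rw [ConjAct.smul_def]
      exact hNn.conj_mem h hN _
    · intro hh
      apply h1
      have hh' : g • h = 1 := hh
      rw [ConjAct.smul_def] at hh'
      exact conj_eq_one_iff.mp hh'
  calc (MulAction.orbit (ConjAct H) h).ncard ≤ ((N : Set H) \ {1}).ncard :=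
        Set.ncard_le_ncard hsub (Set.toFinite _)
    _ < (N : Set H).ncard := Set.ncard_sdiff_singleton_lt_of_mem N.one_mem (Set.toFinite _)
    _ = Nat.card N := (Nat.card_coe_set_eq _).symm

/-- Let P be a finite p-group whose conjugacy class sizes are exactly 1 and pᵃ for some a ≥ 1. Then every element of P has its p-th power in the center of P (P/Z(P) has exponent p). -/
theorem result {P : Type*} [Group P] [Finite P] (p : ℕ) [Fact p.Prime]
    (hP : IsPGroup p P) (a : ℕ) (ha : 1 ≤ a)
    (hcs : {k : ℕ | ∃ x : P, (Subgroup.centralizer ({x} : Set P)).index = k} = {1, p ^ a}) (x : P) :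
    x ^ p ∈ Subgroup.center P := by
  by_contra hxp
  have hxZ : x ∉ Subgroup.center P := fun h => hxp (pow_mem h p)
  have hB := cent_eq_of_le (P := P) p a hcs
  have hCxp : Subgroup.centralizer ({x} : Set P) = Subgroup.centralizer ({x ^ p} : Set P) :=
    hB x (x ^ p) hxZ hxp (cent_le_pow x p)
  obtain ⟨y0, hy0Z, hy0⟩ := exists_z2 p hP x hxZ
  have hy0p : y0 ^ p ∈ Subgroup.center P := z2_pow p hP a hcs y0 hy0
  -- `y0` commutes with `x`
  have hcomm : x * y0 = y0 * x := by
    have e1 := comm_pow_right y0 x (hy0 x) p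
    have e2 := comm_pow_left y0 x (hy0 x) p
    have e3 : y0 ^ p * x * (y0 ^ p)⁻¹ * x⁻¹ = 1 := by
      rw [comm_one_iff]; exact Subgroup.mem_center_iff.mp hy0p x
    rw [e3] at e2
    rw [← e2, comm_one_iff] at e1
    have hmem : y0 ∈ Subgroup.centralizer ({x ^ p} : Set P) :=
      Subgroup.mem_centralizer_singleton_iff.mpr e1.symm
    rw [← hCxp, Subgroup.mem_centralizer_singleton_iff] at hmem
    exact hmem.symm
  have hxy : (x * y0) ^ p = x ^ p * y0 ^ p := (show Commute x y0 from hcomm).mul_pow p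
  have hxyp : (x * y0) ^ p ∉ Subgroup.center P := by
    intro h; apply hxp
    have : x ^ p = (x * y0) ^ p * (y0 ^ p)⁻¹ := by rw [hxy]; group
    rw [this]; exact mul_mem h (inv_mem hy0p)
  have hxyZ : x * y0 ∉ Subgroup.center P := fun h => hxyp (pow_mem h p)
  have h1 : Subgroup.centralizer ({x * y0} : Set P) =
      Subgroup.centralizer ({(x * y0) ^ p} : Set P) := hB _ _ hxyZ hxyp (cent_le_pow _ p)
  have h2 : Subgroup.centralizer ({(x * y0) ^ p} : Set P) =
      Subgroup.centralizer ({x ^ p} : Set P) := by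
    ext g
    simp only [Subgroup.mem_centralizer_singleton_iff]
    rw [hxy]
    have hz : Commute g (y0 ^ p) := Subgroup.mem_center_iff.mp hy0p g
    constructor
    · intro h
      have h' : Commute g (x ^ p * y0 ^ p * (y0 ^ p)⁻¹) :=
        (show Commute g (x ^ p * y0 ^ p) from h).mul_right hz.inv_right
      rw [mul_inv_cancel_right] at h'
      exact h'.eq
    · intro h
      exact ((show Commute g (x ^ p) from h).mul_right hz).eq
  have hCxy : Subgroup.centralizer ({x * y0} : Set P) = Subgroup.centralizer ({x} : Set P) := by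
    rw [h1, h2, ← hCxp]
  have hle : Subgroup.centralizer ({x} : Set P) ≤ Subgroup.centralizer ({y0} : Set P) := by
    intro g hg
    have hg' : g ∈ Subgroup.centralizer ({x * y0} : Set P) := by rw [hCxy]; exact hg
    rw [Subgroup.mem_centralizer_singleton_iff] at hg hg' ⊢
    have h' : Commute g (x⁻¹ * (x * y0)) :=
      (show Commute g x from hg).inv_right.mul_right (show Commute g (x * y0) from hg')
    rw [inv_mul_cancel_left] at h'
    exact h'.eq
  have hC : Subgroup.centralizer ({x} : Set P) = Subgroup.centralizer ({y0} : Set P) :=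
    hB x y0 hxZ hy0Z hle
  -- the commutator homomorphism of `y0`
  have hker : ∀ g, g * x = x * g ↔ commHom y0 hy0 g = 1 := by
    intro g
    rw [← Subgroup.mem_centralizer_singleton_iff, hC, Subgroup.mem_centralizer_singleton_iff,
      commHom_apply, comm_one_iff]
  have hCn : (Subgroup.centralizer ({x} : Set P)).Normal := by
    have : Subgroup.centralizer ({x} : Set P) = (commHom y0 hy0).ker := by
      ext g
      rw [MonoidHom.mem_ker, Subgroup.mem_centralizer_singleton_iff]
      exact hker g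
    rw [this]
    exact MonoidHom.normal_ker _
  -- the counting: `|A/Z| ≤ p^a`
  obtain ⟨g0, hg0⟩ : ∃ g, g * x ≠ x * g := by
    by_contra hall
    push Not at hall
    exact hxZ (Subgroup.mem_center_iff.mpr hall)
  have hg0Z : g0 ∉ Subgroup.center P := fun h => hg0 ((Subgroup.mem_center_iff.mp h x).symm)
  have hAZ : Subgroup.centralizer ({g0} : Set P) ⊓
      Subgroup.centralizer (Subgroup.centralizer ({x} : Set P) : Set P) ≤ Subgroup.center P := by
    intro z hz
    by_contra hzZ
    have hle' : Subgroup.centralizer ({x} : Set P) ≤ Subgroup.centralizer ({z} : Set P) := by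
      intro c hc
      rw [Subgroup.mem_centralizer_singleton_iff]
      exact (Subgroup.mem_centralizer_iff.mp hz.2 c hc)
    have heq := hB x z hxZ hzZ hle'
    have hz1 := Subgroup.mem_centralizer_singleton_iff.mp hz.1
    have : g0 ∈ Subgroup.centralizer ({z} : Set P) :=
      Subgroup.mem_centralizer_singleton_iff.mpr hz1.symm
    rw [← heq, Subgroup.mem_centralizer_singleton_iff] at this
    exact hg0 this
  have hAn : (Subgroup.centralizer (Subgroup.centralizer ({x} : Set P) : Set P)).Normal :=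
    Subgroup.normal_centralizer
  have hZA : Subgroup.center P ≤
      Subgroup.centralizer (Subgroup.centralizer ({x} : Set P) : Set P) :=
    Subgroup.center_le_centralizer _
  have hidx : (Subgroup.center P).index ≤
      p ^ a * (Subgroup.centralizer (Subgroup.centralizer ({x} : Set P) : Set P)).index := by
    calc (Subgroup.center P).index
        ≤ (Subgroup.centralizer ({g0} : Set P) ⊓
            Subgroup.centralizer (Subgroup.centralizer ({x} : Set P) : Set P)).index :=
          Subgroup.index_antitone hAZ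
      _ ≤ (Subgroup.centralizer ({g0} : Set P)).index *
            (Subgroup.centralizer (Subgroup.centralizer ({x} : Set P) : Set P)).index :=
          Subgroup.index_inf_le
      _ = p ^ a * (Subgroup.centralizer (Subgroup.centralizer ({x} : Set P) : Set P)).index := by
          rw [index_of_not_mem p a hcs g0 hg0Z]
  have hAbar_idx : ((Subgroup.centralizer (Subgroup.centralizer ({x} : Set P) : Set P)).map
      (QuotientGroup.mk' (Subgroup.center P))).index =
      (Subgroup.centralizer (Subgroup.centralizer ({x} : Set P) : Set P)).index :=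
    Subgroup.index_map_eq _ (QuotientGroup.mk'_surjective _)
      (by rw [QuotientGroup.ker_mk']; exact hZA)
  have hcardAbar : Nat.card ((Subgroup.centralizer (Subgroup.centralizer ({x} : Set P) : Set P)).map
      (QuotientGroup.mk' (Subgroup.center P))) ≤ p ^ a := by
    have e := Subgroup.card_mul_index
      ((Subgroup.centralizer (Subgroup.centralizer ({x} : Set P) : Set P)).map
        (QuotientGroup.mk' (Subgroup.center P)))
    rw [hAbar_idx, ← Subgroup.index_eq_card] at e
    have hpos : 0 < (Subgroup.centralizer (Subgroup.centralizer ({x} : Set P) : Set P)).index :=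
      Nat.pos_of_ne_zero Subgroup.index_ne_zero_of_finite
    have hle2 : Nat.card ((Subgroup.centralizer (Subgroup.centralizer ({x} : Set P) : Set P)).map
        (QuotientGroup.mk' (Subgroup.center P))) *
        (Subgroup.centralizer (Subgroup.centralizer ({x} : Set P) : Set P)).index ≤
        p ^ a * (Subgroup.centralizer (Subgroup.centralizer ({x} : Set P) : Set P)).index := by
      rw [e]; exact hidx
    exact Nat.le_of_mul_le_mul_right hle2 hpos
  -- an element `s` outside `C` moving `x` by a central element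
  obtain ⟨s, hs1, hs2⟩ : ∃ s : P, s * x * s⁻¹ * x⁻¹ ∈ Subgroup.center P ∧ s * x ≠ x * s := by
    by_contra hH
    push Not at hH
    have hxA : x ∈ Subgroup.centralizer (Subgroup.centralizer ({x} : Set P) : Set P) := by
      rw [Subgroup.mem_centralizer_iff]
      intro c hc
      exact Subgroup.mem_centralizer_singleton_iff.mp hc
    have hxbar : (QuotientGroup.mk' (Subgroup.center P)) x ∈
        (Subgroup.centralizer (Subgroup.centralizer ({x} : Set P) : Set P)).map
          (QuotientGroup.mk' (Subgroup.center P)) := Subgroup.mem_map_of_mem _ hxA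
    have hxbar1 : (QuotientGroup.mk' (Subgroup.center P)) x ≠ 1 := by
      intro h; exact hxZ ((QuotientGroup.eq_one_iff x).mp h)
    have hAbn : ((Subgroup.centralizer (Subgroup.centralizer ({x} : Set P) : Set P)).map
        (QuotientGroup.mk' (Subgroup.center P))).Normal :=
      hAn.map _ (QuotientGroup.mk'_surjective _)
    have hlt := conj_index_lt _ _ hxbar hxbar1
    have hcomap : (Subgroup.centralizer ({(QuotientGroup.mk' (Subgroup.center P)) x} :
        Set (P ⧸ Subgroup.center P))).comap (QuotientGroup.mk' (Subgroup.center P)) =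
        Subgroup.centralizer ({x} : Set P) := by
      ext s
      rw [Subgroup.mem_comap, Subgroup.mem_centralizer_singleton_iff,
        Subgroup.mem_centralizer_singleton_iff]
      constructor
      · intro h
        apply hH
        rw [← QuotientGroup.eq_one_iff]
        have e : ((s * x * s⁻¹ * x⁻¹ : P) : P ⧸ Subgroup.center P) =
            (QuotientGroup.mk' (Subgroup.center P)) s * (QuotientGroup.mk' (Subgroup.center P)) x *
            ((QuotientGroup.mk' (Subgroup.center P)) s)⁻¹ *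
            ((QuotientGroup.mk' (Subgroup.center P)) x)⁻¹ := by simp
        rw [e, comm_one_iff]
        exact h.symm
      · intro h
        have := congrArg (QuotientGroup.mk' (Subgroup.center P)) h
        simpa using this
    have hidx2 := Subgroup.index_comap_of_surjective
      (Subgroup.centralizer ({(QuotientGroup.mk' (Subgroup.center P)) x} :
        Set (P ⧸ Subgroup.center P))) (QuotientGroup.mk'_surjective (Subgroup.center P))
    rw [hcomap, index_of_not_mem p a hcs x hxZ] at hidx2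
    rw [← hidx2] at hlt
    omega
  -- every commutator `[t, x]` is central
  have hall : ∀ t : P, t * x * t⁻¹ * x⁻¹ ∈ Subgroup.center P := by
    intro t
    by_contra hu
    have hule : Subgroup.centralizer ({x} : Set P) ≤
        Subgroup.centralizer ({t * x * t⁻¹ * x⁻¹} : Set P) := by
      intro c hc
      have hc' : t⁻¹ * c * t ∈ Subgroup.centralizer ({x} : Set P) := by
        have := hCn.conj_mem c hc t⁻¹
        simpa using this
      rw [Subgroup.mem_centralizer_singleton_iff] at hc hc' ⊢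
      have e1 : c * (t * x * t⁻¹) = (t * x * t⁻¹) * c := by
        calc c * (t * x * t⁻¹) = t * ((t⁻¹ * c * t) * x) * t⁻¹ := by group
          _ = t * (x * (t⁻¹ * c * t)) * t⁻¹ := by rw [hc']
          _ = (t * x * t⁻¹) * c := by group
      have e2 : c * x⁻¹ = x⁻¹ * c := ((show Commute c x from hc).inv_right).eq
      calc c * (t * x * t⁻¹ * x⁻¹) = (c * (t * x * t⁻¹)) * x⁻¹ := by group
        _ = (t * x * t⁻¹) * (c * x⁻¹) := by rw [e1]; group
        _ = t * x * t⁻¹ * x⁻¹ * c := by rw [e2]; group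
    have hueq := hB x _ hxZ hu hule
    have hdx : (s⁻¹ * t⁻¹ * s * t) * x = x * (s⁻¹ * t⁻¹ * s * t) := by
      rw [hker]
      simp only [map_mul, map_inv]
      have hst : commHom y0 hy0 t * commHom y0 hy0 s = commHom y0 hy0 s * commHom y0 hy0 t :=
        Subgroup.mem_center_iff.mp (hy0 s) (commHom y0 hy0 t)
      calc (commHom y0 hy0 s)⁻¹ * (commHom y0 hy0 t)⁻¹ * commHom y0 hy0 s * commHom y0 hy0 t
          = (commHom y0 hy0 s)⁻¹ * (commHom y0 hy0 t)⁻¹ *
              (commHom y0 hy0 s * commHom y0 hy0 t) := by group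
        _ = (commHom y0 hy0 s)⁻¹ * (commHom y0 hy0 t)⁻¹ *
              (commHom y0 hy0 t * commHom y0 hy0 s) := by rw [hst]
        _ = 1 := by group
    have hz := Subgroup.mem_center_iff.mp hs1
    have key : s * (t * x * t⁻¹) * s⁻¹ = (s * x * s⁻¹ * x⁻¹) * (t * x * t⁻¹) := by
      calc s * (t * x * t⁻¹) * s⁻¹
          = t * (s * ((s⁻¹ * t⁻¹ * s * t) * x) * (s⁻¹ * t⁻¹ * s * t)⁻¹ * s⁻¹) * t⁻¹ := by group
        _ = t * (s * (x * (s⁻¹ * t⁻¹ * s * t)) * (s⁻¹ * t⁻¹ * s * t)⁻¹ * s⁻¹) * t⁻¹ := by rw [hdx]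
        _ = (t * (s * x * s⁻¹ * x⁻¹)) * x * t⁻¹ := by group
        _ = ((s * x * s⁻¹ * x⁻¹) * t) * x * t⁻¹ := by rw [hz t]
        _ = (s * x * s⁻¹ * x⁻¹) * (t * x * t⁻¹) := by group
    have hzu : (s * x * s⁻¹ * x⁻¹) * (t * x * t⁻¹ * x⁻¹) =
        (t * x * t⁻¹ * x⁻¹) * (s * x * s⁻¹ * x⁻¹) := (hz (t * x * t⁻¹ * x⁻¹)).symm
    have hsu : s * (t * x * t⁻¹ * x⁻¹) = (t * x * t⁻¹ * x⁻¹) * s := by
      calc s * (t * x * t⁻¹ * x⁻¹) = (s * (t * x * t⁻¹) * s⁻¹) * (s * x * s⁻¹)⁻¹ * s := by group
        _ = ((s * x * s⁻¹ * x⁻¹) * (t * x * t⁻¹)) * (s * x * s⁻¹)⁻¹ * s := by rw [key]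
        _ = ((s * x * s⁻¹ * x⁻¹) * (t * x * t⁻¹ * x⁻¹)) * (s * x * s⁻¹ * x⁻¹)⁻¹ * s := by group
        _ = ((t * x * t⁻¹ * x⁻¹) * (s * x * s⁻¹ * x⁻¹)) * (s * x * s⁻¹ * x⁻¹)⁻¹ * s := by
            rw [hzu]
        _ = (t * x * t⁻¹ * x⁻¹) * s := by group
    have hsmem : s ∈ Subgroup.centralizer ({t * x * t⁻¹ * x⁻¹} : Set P) :=
      Subgroup.mem_centralizer_singleton_iff.mpr hsu
    rw [← hueq, Subgroup.mem_centralizer_singleton_iff] at hsmem
    exact hs2 hsmem
  have hx2 : ∀ g : P, x * g * x⁻¹ * g⁻¹ ∈ Subgroup.center P := by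
    intro g
    have : x * g * x⁻¹ * g⁻¹ = (g * x * g⁻¹ * x⁻¹)⁻¹ := by group
    rw [this]
    exact inv_mem (hall g)
  exact hxp (z2_pow p hP a hcs x hx2)

end Cfsg.Agent.S4365
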