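import Cfsg.Statements.S4370
import Mathlib
import Cfsg.Agent.Helper19.RootSub
import Cfsg.Agent.Helper17.SPE
import Cfsg.Agent.S0016
-- import your own Cfsg.Agent.* helpers here

set_option autoImplicit false
open Cfsg

namespace Cfsg.Agent.S4370


open Cfsg.Agent.Helper19 Cfsg.Agent.Helper17

theorem quat1_comm (x y : QuaternionGroup (2 ^ 0)) : x * y = y * x := by
  revert x y
  decide

theorem comm_coprime {G : Type*} [Group G] [Finite G] (hG : Group.IsNilpotent G) (x y : G)
    (hxy : (orderOf x).Coprime (orderOf y)) : Commute x y := by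
  classical
  have hn : ∀ {p : ℕ} [Fact p.Prime] (P : Sylow p G), (P : Subgroup G).Normal := by
    intro p _ P
    exact Sylow.normal_of_normalizerCondition Group.normalizerCondition_of_isNilpotent P
  obtain ⟨φ, hφ⟩ : ∃ φ : (∀ p : (Nat.card G).primeFactors, ∀ P : Sylow p G, ↥(P : Subgroup G)) ≃* G,
      φ = Sylow.directProductOfNormal hn := ⟨_, rfl⟩
  obtain ⟨f, rfl⟩ := φ.surjective x
  obtain ⟨g, rfl⟩ := φ.surjective y
  rw [MulEquiv.orderOf_eq, MulEquiv.orderOf_eq] at hxy
  have hfg : Commute f g := by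
    show f * g = g * f
    funext p P
    show f p P * g p P = g p P * f p P
    have hpp : (p : ℕ).Prime := Nat.prime_of_mem_primeFactors p.2
    haveI : Fact (p : ℕ).Prime := ⟨hpp⟩
    obtain ⟨i, hi⟩ := (IsPGroup.iff_orderOf.mp P.isPGroup') (f p P)
    obtain ⟨j, hj⟩ := (IsPGroup.iff_orderOf.mp P.isPGroup') (g p P)
    have d1 : orderOf (f p P) ∣ orderOf f := by
      apply orderOf_dvd_of_pow_eq_one
      have h1 : (f ^ orderOf f) p P = 1 := by rw [pow_orderOf_eq_one]; rfl
      exact h1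
    have d2 : orderOf (g p P) ∣ orderOf g := by
      apply orderOf_dvd_of_pow_eq_one
      have h1 : (g ^ orderOf g) p P = 1 := by rw [pow_orderOf_eq_one]; rfl
      exact h1
    have hc : (orderOf (f p P)).Coprime (orderOf (g p P)) := Nat.Coprime.of_dvd d1 d2 hxy
    rw [hi, hj] at hc
    rcases Nat.eq_zero_or_pos i with h0 | h0
    · have h2 : f p P = 1 := by rw [← orderOf_eq_one_iff, hi, h0, pow_zero]
      rw [h2, one_mul, mul_one]
    · have hj0 : j = 0 := by
        by_contra hj0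
        have h3 : (p : ℕ) ∣ Nat.gcd ((p : ℕ) ^ i) ((p : ℕ) ^ j) :=
          Nat.dvd_gcd (dvd_pow_self _ (by omega)) (dvd_pow_self _ hj0)
        rw [hc] at h3
        exact hpp.one_lt.ne' (Nat.dvd_one.mp h3)
      have h2 : g p P = 1 := by rw [← orderOf_eq_one_iff, hj, hj0, pow_zero]
      rw [h2, one_mul, mul_one]
  exact hfg.map φ

theorem cyc_comm {G : Type*} [Group G] (K : Subgroup G) (hK : IsCyclic ↥K) {a b : G}
    (ha : a ∈ K) (hb : b ∈ K) : Commute a b := by
  obtain ⟨g, hg⟩ := hK.exists_generator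
  obtain ⟨i, hi⟩ := Subgroup.mem_zpowers_iff.mp (hg ⟨a, ha⟩)
  obtain ⟨j, hj⟩ := Subgroup.mem_zpowers_iff.mp (hg ⟨b, hb⟩)
  have h1 : (⟨a, ha⟩ : ↥K) * ⟨b, hb⟩ = ⟨b, hb⟩ * ⟨a, ha⟩ := by
    rw [← hi, ← hj, ← zpow_add, ← zpow_add, add_comm]
  exact congrArg Subtype.val h1

theorem cyc_comm_type {T : Type*} [Group T] (h : IsCyclic T) (a b : T) : a * b = b * a := by
  obtain ⟨g, hg⟩ := h.exists_generator
  obtain ⟨i, rfl⟩ := Subgroup.mem_zpowers_iff.mp (hg a)
  obtain ⟨j, rfl⟩ := Subgroup.mem_zpowers_iff.mp (hg b)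
  rw [← zpow_add, ← zpow_add, add_comm]

theorem zp_of_cyc {G : Type*} [Group G] [Finite G] {p : ℕ} [Fact p.Prime] (K : Subgroup G)
    (hK : IsCyclic ↥K) {z u : G} (hz : z ∈ K) (hu : u ∈ K) (hzo : orderOf z = p)
    (hup : u ^ p = 1) : u ∈ Subgroup.zpowers z := by
  haveI := hK
  have ho : orderOf (⟨z, hz⟩ : ↥K) = p := by rw [← Subgroup.orderOf_coe]; exact hzo
  have hup' : (⟨u, hu⟩ : ↥K) ^ p = 1 := Subtype.ext (by simpa using hup)
  have h1 := unique_order_p_of_cyclic ho ⟨u, hu⟩ hup'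
  obtain ⟨i, hi⟩ := Subgroup.mem_zpowers_iff.mp h1
  exact Subgroup.mem_zpowers_iff.mpr ⟨i, by have h2 := congrArg Subtype.val hi; simpa using h2⟩

theorem forward {G : Type*} [Group G] [Finite G] (hG : Group.IsNilpotent G)
    (hna : ¬ IsMulCommutative G)
    (hcyc : ∀ x : G, x ∉ Subgroup.center G → IsCyclic (Subgroup.centralizer ({x} : Set G))) :
    ∃ (k m : ℕ), 1 ≤ k ∧ Odd m ∧
      Nonempty (G ≃* QuaternionGroup (2 ^ k) × Multiplicative (ZMod m)) := by
  classical
  have hZ : Subgroup.center G ≠ ⊤ := by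
    intro h; apply hna
    refine ⟨⟨fun a b => ?_⟩⟩
    have hb : b ∈ Subgroup.center G := by rw [h]; exact Subgroup.mem_top b
    exact Subgroup.mem_center_iff.mp hb a
  have hidx : (Subgroup.center G).index ≠ 1 := fun h => hZ (Subgroup.index_eq_one.mp h)
  obtain ⟨p, hp, hpd⟩ := Nat.exists_prime_and_dvd hidx
  haveI : Fact p.Prime := ⟨hp⟩
  obtain ⟨P, -⟩ : ∃ P : Sylow p G, True := ⟨default, trivial⟩
  haveI hPn : (P : Subgroup G).Normal :=
    Sylow.normal_of_normalizerCondition Group.normalizerCondition_of_isNilpotent P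
  have hPidx : ¬ p ∣ (P : Subgroup G).index := P.not_dvd_index
  have hPZ : ¬ (P : Subgroup G) ≤ Subgroup.center G := by
    intro hle
    exact hPidx (hpd.trans (Subgroup.index_dvd_of_le hle))
  obtain ⟨x, hxP, hxZ⟩ := SetLike.not_le_iff_exists.mp hPZ
  obtain ⟨pa, hpa⟩ : ∃ pa, pa = Nat.card (P : Subgroup G) := ⟨_, rfl⟩
  obtain ⟨m', hm'⟩ : ∃ m', m' = (P : Subgroup G).index := ⟨_, rfl⟩
  obtain ⟨a, ha⟩ := IsPGroup.iff_card.mp P.isPGroup'
  have hcard : pa * m' = Nat.card G := by
    rw [hpa, hm']; exact (P : Subgroup G).card_mul_index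
  have hcop : Nat.Coprime pa m' := by
    rw [hpa, ha, hm']
    exact Nat.Coprime.pow_left a ((Nat.Prime.coprime_iff_not_dvd hp).mpr hPidx)
  have hpow : ∀ g : G, g ^ (pa * m') = 1 := by
    intro g; rw [hcard]; exact pow_card_eq_one'
  have hPmem : ∀ g : G, g ^ pa = 1 → g ∈ (P : Subgroup G) := by
    intro g hg
    rw [← QuotientGroup.eq_one_iff (N := (P : Subgroup G)) g, ← orderOf_eq_one_iff]
    have d1 : orderOf (QuotientGroup.mk g : G ⧸ (P : Subgroup G)) ∣ pa := by
      apply orderOf_dvd_of_pow_eq_one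
      rw [← QuotientGroup.mk_pow, hg]; rfl
    have d2 : orderOf (QuotientGroup.mk g : G ⧸ (P : Subgroup G)) ∣ m' := by
      rw [hm']; exact orderOf_dvd_natCard _
    exact Nat.eq_one_of_dvd_coprimes hcop d1 d2
  have hPord : ∀ u ∈ (P : Subgroup G), orderOf u ∣ pa := by
    intro u hu
    rw [hpa]; exact Subgroup.orderOf_dvd_natCard _ hu
  have hH_ord : ∀ v : G, v ^ m' = 1 → orderOf v ∣ m' := fun v hv => orderOf_dvd_of_pow_eq_one hv
  have hcomm : ∀ u ∈ (P : Subgroup G), ∀ v : G, v ^ m' = 1 → Commute u v := by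
    intro u hu v hv
    exact comm_coprime hG u v (Nat.Coprime.of_dvd (hPord u hu) (hH_ord v hv) hcop)
  have hCx := hcyc x hxZ
  have hHC : ∀ v : G, v ^ m' = 1 → v ∈ Subgroup.centralizer ({x} : Set G) := by
    intro v hv
    rw [Subgroup.mem_centralizer_singleton_iff]
    exact ((hcomm x hxP v hv).eq).symm
  have hHH : ∀ v w : G, v ^ m' = 1 → w ^ m' = 1 → Commute v w := fun v w hv hw =>
    cyc_comm _ hCx (hHC v hv) (hHC w hw)
  obtain ⟨H, hH⟩ : ∃ H : Subgroup G, ∀ v, v ∈ H ↔ v ^ m' = 1 :=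
    ⟨{ carrier := {v | v ^ m' = 1}
       mul_mem' := fun {v w} hv hw => by
         show (v * w) ^ m' = 1
         rw [(hHH v w hv hw).mul_pow, hv, hw, one_mul]
       one_mem' := one_pow _
       inv_mem' := fun {v} hv => by
         show (v⁻¹) ^ m' = 1
         rw [inv_pow, hv, inv_one] }, fun v => Iff.rfl⟩
  obtain ⟨s, t, hst⟩ : ∃ s t : ℤ, s * (pa : ℤ) + t * (m' : ℤ) = 1 :=
    Nat.isCoprime_iff_coprime.mpr hcop
  have hdec : ∀ g : G, ∃ u ∈ (P : Subgroup G), ∃ w ∈ H, g = u * w := by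
    intro g
    refine ⟨(g ^ m') ^ t, ?_, (g ^ pa) ^ s, ?_, ?_⟩
    · apply zpow_mem
      apply hPmem
      rw [← pow_mul, mul_comm]; exact hpow g
    · rw [hH, ← zpow_natCast, ← zpow_mul, mul_comm, zpow_mul, zpow_natCast, ← pow_mul, hpow g,
        one_zpow]
    · calc g = g ^ (1 : ℤ) := (zpow_one g).symm
        _ = g ^ (t * (m' : ℤ) + s * (pa : ℤ)) := by rw [← hst, add_comm]
        _ = (g ^ m') ^ t * (g ^ pa) ^ s := by
          rw [zpow_add, mul_comm t, mul_comm s, zpow_mul, zpow_mul, zpow_natCast, zpow_natCast]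
  have hHcen : H ≤ Subgroup.center G := by
    intro v hv
    rw [Subgroup.mem_center_iff]
    intro g
    obtain ⟨u, hu, w, hw, rfl⟩ := hdec g
    have c1 : Commute u v := hcomm u hu v ((hH v).mp hv)
    have c2 : Commute w v := hHH w v ((hH w).mp hw) ((hH v).mp hv)
    exact (c1.mul_left c2).eq
  have hHcyc : IsCyclic ↥H := by
    haveI := hCx
    exact Subgroup.isCyclic_of_le (fun v hv => hHC v ((hH v).mp hv))
  have hPH : ∀ u ∈ (P : Subgroup G), u ∈ H → u = 1 := by
    intro u hu hu'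
    rw [← orderOf_eq_one_iff]
    exact Nat.eq_one_of_dvd_coprimes hcop (hPord u hu) (hH_ord u ((hH u).mp hu'))
  obtain ⟨ψ, hψ⟩ : ∃ ψ : ↥(P : Subgroup G) × ↥H →* G, ∀ uv, ψ uv = (uv.1 : G) * (uv.2 : G) :=
    ⟨MonoidHom.noncommCoprod (P : Subgroup G).subtype H.subtype
      (fun u v => hcomm u.1 u.2 v.1 ((hH v.1).mp v.2)), fun uv => rfl⟩
  have hψbij : Function.Bijective ψ := by
    constructor
    · rw [injective_iff_map_eq_one]
      rintro ⟨u, v⟩ huv
      rw [hψ] at huv
      have h1 : (u : G) = (v : G)⁻¹ := eq_inv_of_mul_eq_one_left huv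
      have h2 : (u : G) = 1 := hPH u u.2 (by rw [h1]; exact inv_mem v.2)
      have h3 : (v : G) = 1 := by
        have h4 : (u : G) * (v : G) = 1 := huv
        rw [h2, one_mul] at h4; exact h4
      exact Prod.ext (Subtype.ext h2) (Subtype.ext h3)
    · intro g
      obtain ⟨u, hu, w, hw, rfl⟩ := hdec g
      exact ⟨(⟨u, hu⟩, ⟨w, hw⟩), hψ _⟩
  have hPab : (∀ u ∈ (P : Subgroup G), ∀ v ∈ (P : Subgroup G), Commute u v) → False := by
    intro hab
    apply hxZ
    rw [Subgroup.mem_center_iff]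
    intro g
    obtain ⟨u, hu, w, hw, rfl⟩ := hdec g
    have c1 : Commute u x := hab u hu x hxP
    have c2 : Commute w x := (hcomm x hxP w ((hH w).mp hw)).symm
    exact (c1.mul_left c2).eq
  have hx1 : x ≠ 1 := by
    rintro rfl; exact hxZ (Subgroup.one_mem _)
  haveI : Nontrivial ↥(P : Subgroup G) :=
    ⟨⟨⟨x, hxP⟩, 1, fun h => hx1 (congrArg Subtype.val h)⟩⟩
  haveI : Nontrivial ↥(Subgroup.center ↥(P : Subgroup G)) := P.isPGroup'.center_nontrivial
  have hcp : IsPGroup p ↥(Subgroup.center ↥(P : Subgroup G)) := P.isPGroup'.to_subgroup _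
  obtain ⟨c, hc⟩ := IsPGroup.iff_card.mp hcp
  have hc0 : c ≠ 0 := by
    rintro rfl
    rw [pow_zero] at hc
    exact (Finite.one_lt_card (α := ↥(Subgroup.center ↥(P : Subgroup G)))).ne' hc
  obtain ⟨z₀, hz₀⟩ := exists_prime_orderOf_dvd_card' (G := ↥(Subgroup.center ↥(P : Subgroup G))) p
    (by rw [hc]; exact dvd_pow_self p hc0)
  obtain ⟨z, hz⟩ : ∃ z : G, z = ((z₀ : ↥(P : Subgroup G)) : G) := ⟨_, rfl⟩
  have hzP : z ∈ (P : Subgroup G) := by rw [hz]; exact (z₀ : ↥(P : Subgroup G)).2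
  have hzo : orderOf z = p := by
    rw [hz, Subgroup.orderOf_coe, Subgroup.orderOf_coe]; exact hz₀
  have hzc : ∀ g : G, Commute z g := by
    intro g
    obtain ⟨u, hu, w, hw, rfl⟩ := hdec g
    have c1 : Commute z u := by
      have h1 := Subgroup.mem_center_iff.mp z₀.2 ⟨u, hu⟩
      have h2 := congrArg Subtype.val h1
      rw [hz]
      exact h2.symm
    have c2 : Commute z w := hcomm z hzP w ((hH w).mp hw)
    exact c1.mul_right c2
  have huz : ∀ u : G, orderOf u = p → u ∈ Subgroup.zpowers z := by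
    intro u hu
    have hup : u ^ p = 1 := by rw [← hu]; exact pow_orderOf_eq_one u
    by_cases huZ : u ∈ Subgroup.center G
    · have hzK : z ∈ Subgroup.centralizer ({x} : Set G) := by
        rw [Subgroup.mem_centralizer_singleton_iff]; exact (hzc x).eq
      have huK : u ∈ Subgroup.centralizer ({x} : Set G) := by
        rw [Subgroup.mem_centralizer_singleton_iff]
        exact (Subgroup.mem_center_iff.mp huZ x).symm
      exact zp_of_cyc _ hCx hzK huK hzo hup
    · have hzK : z ∈ Subgroup.centralizer ({u} : Set G) := by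
        rw [Subgroup.mem_centralizer_singleton_iff]; exact (hzc u).eq
      have huK : u ∈ Subgroup.centralizer ({u} : Set G) := by
        rw [Subgroup.mem_centralizer_singleton_iff]
      exact zp_of_cyc _ (hcyc u huZ) hzK huK hzo hup
  have huniq : ∀ H₁ K₁ : Subgroup ↥(P : Subgroup G), Nat.card H₁ = p → Nat.card K₁ = p →
      H₁ = K₁ := by
    have key : ∀ H₁ : Subgroup ↥(P : Subgroup G), Nat.card H₁ = p →
        H₁ = Subgroup.zpowers (z₀ : ↥(P : Subgroup G)) := by
      intro H₁ hH₁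
      have hne : ∃ h ∈ H₁, h ≠ 1 := by
        by_contra hcon
        push Not at hcon
        have h1 : H₁ = ⊥ := (Subgroup.eq_bot_iff_forall _).mpr hcon
        rw [h1, Subgroup.card_bot] at hH₁
        exact hp.one_lt.ne hH₁
      obtain ⟨h, hhH, hh1⟩ := hne
      have h2 := zp_eq_of_prime hp hH₁ hhH hh1
      have h3 : orderOf h = p := by rw [← Nat.card_zpowers, h2, hH₁]
      have h4 : (h : G) ∈ Subgroup.zpowers z := huz _ (by rw [Subgroup.orderOf_coe]; exact h3)
      obtain ⟨i, hi⟩ := Subgroup.mem_zpowers_iff.mp h4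
      have h5 : h ∈ Subgroup.zpowers (z₀ : ↥(P : Subgroup G)) := by
        refine Subgroup.mem_zpowers_iff.mpr ⟨i, Subtype.ext ?_⟩
        rw [Subgroup.coe_zpow, ← hz]; exact hi
      have h6 : Subgroup.zpowers h ≤ Subgroup.zpowers (z₀ : ↥(P : Subgroup G)) := by
        rw [Subgroup.zpowers_le]; exact h5
      rw [← h2]
      apply Subgroup.eq_of_le_of_card_ge h6
      rw [Nat.card_zpowers, Nat.card_zpowers, h3, Subgroup.orderOf_coe, hz₀]
    intro H₁ K₁ h1 h2
    rw [key H₁ h1, key K₁ h2]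
  rcases Cfsg.Agent.S0016.result p P.isPGroup' huniq with hPc | ⟨hp2, n, ⟨eP⟩⟩
  · exfalso
    apply hPab
    intro u hu v hv
    exact congrArg Subtype.val (cyc_comm_type hPc ⟨u, hu⟩ ⟨v, hv⟩)
  subst hp2
  have hn0 : n ≠ 0 := by
    rintro rfl
    apply hPab
    intro u hu v hv
    have h1 : eP ⟨u, hu⟩ * eP ⟨v, hv⟩ = eP ⟨v, hv⟩ * eP ⟨u, hu⟩ := quat1_comm _ _
    rw [← map_mul, ← map_mul] at h1
    exact congrArg Subtype.val (eP.injective h1)
  have hodd : Odd (Nat.card ↥H) := by
    rw [← Nat.not_even_iff_odd]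
    intro hev
    obtain ⟨w, hw⟩ := exists_prime_orderOf_dvd_card' (G := ↥H) 2 (even_iff_two_dvd.mp hev)
    have h1 : orderOf (w : G) = 2 := by rw [Subgroup.orderOf_coe]; exact hw
    have h2 : (2 : ℕ) ∣ m' := by rw [← h1]; exact hH_ord _ ((hH _).mp w.2)
    rw [hm'] at h2
    exact hPidx h2
  refine ⟨n, Nat.card ↥H, Nat.one_le_iff_ne_zero.mpr hn0, hodd, ⟨?_⟩⟩
  exact (MulEquiv.ofBijective ψ hψbij).symm.trans
    (MulEquiv.prodCongr eP (zmodCyclicMulEquiv hHcyc).symm)

theorem quat_centralizer (n : ℕ) [NeZero n] (q : QuaternionGroup n)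
    (hq : q ∉ Subgroup.center (QuaternionGroup n)) :
    ∃ g : QuaternionGroup n, ∀ y, y * q = q * y → y ∈ Subgroup.zpowers g := by
  have hn : n ≠ 0 := NeZero.ne n
  haveI : NeZero (2 * n) := ⟨by omega⟩
  cases q with
  | a i =>
    refine ⟨QuaternionGroup.a 1, ?_⟩
    intro y hy
    cases y with
    | a j =>
      refine Subgroup.mem_zpowers_iff.mpr ⟨(j.val : ℤ), ?_⟩
      rw [zpow_natCast, QuaternionGroup.a_one_pow, ZMod.natCast_zmod_val]
    | xa j =>
      exfalso
      apply hq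
      rw [QuaternionGroup.xa_mul_a, QuaternionGroup.a_mul_xa] at hy
      have h1 : j + i = j - i := QuaternionGroup.xa.inj hy
      have h2 : i = -i := by linear_combination h1
      rw [Subgroup.mem_center_iff]
      intro g
      cases g with
      | a l => rw [QuaternionGroup.a_mul_a, QuaternionGroup.a_mul_a, add_comm]
      | xa l =>
        rw [QuaternionGroup.xa_mul_a, QuaternionGroup.a_mul_xa]
        congr 1
        linear_combination h2
  | xa i =>
    refine ⟨QuaternionGroup.xa i, ?_⟩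
    intro y hy
    cases y with
    | a j =>
      rw [QuaternionGroup.a_mul_xa, QuaternionGroup.xa_mul_a] at hy
      have h1 : i - j = i + j := QuaternionGroup.xa.inj hy
      have h2 : (QuaternionGroup.a j : QuaternionGroup n) ^ 2 = 1 := by
        rw [pow_two, QuaternionGroup.a_mul_a, QuaternionGroup.one_def]
        congr 1
        linear_combination -h1
      rcases quaternion_sq_eq_one hn _ h2 with h3 | h3
      · rw [h3]; exact Subgroup.one_mem _
      · rw [h3]
        refine Subgroup.mem_zpowers_iff.mpr ⟨((2 : ℕ) : ℤ), ?_⟩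
        rw [zpow_natCast, QuaternionGroup.xa_sq]
    | xa j =>
      rw [QuaternionGroup.xa_mul_xa, QuaternionGroup.xa_mul_xa] at hy
      have h1 : (n : ZMod (2 * n)) + i - j = (n : ZMod (2 * n)) + j - i :=
        QuaternionGroup.a.inj hy
      have h2 : (QuaternionGroup.a (j - i) : QuaternionGroup n) ^ 2 = 1 := by
        rw [pow_two, QuaternionGroup.a_mul_a, QuaternionGroup.one_def]
        congr 1
        linear_combination -h1
      rcases quaternion_sq_eq_one hn _ h2 with h3 | h3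
      · rw [QuaternionGroup.one_def] at h3
        have h4 : j - i = 0 := QuaternionGroup.a.inj h3
        have h5 : j = i := sub_eq_zero.mp h4
        rw [h5]; exact Subgroup.mem_zpowers _
      · have h4 : j - i = (n : ZMod (2 * n)) := QuaternionGroup.a.inj h3
        have h5 : j = i + n := by linear_combination h4
        refine Subgroup.mem_zpowers_iff.mpr ⟨((3 : ℕ) : ℤ), ?_⟩
        rw [zpow_natCast, pow_succ', QuaternionGroup.xa_sq, QuaternionGroup.xa_mul_a, h5]

theorem backward {G : Type*} [Group G] [Finite G] (k m : ℕ) (hm : Odd m)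
    (e : G ≃* QuaternionGroup (2 ^ k) × Multiplicative (ZMod m)) (x : G)
    (hx : x ∉ Subgroup.center G) :
    IsCyclic (Subgroup.centralizer ({x} : Set G)) := by
  classical
  haveI : NeZero (2 ^ k) := ⟨by positivity⟩
  haveI : NeZero m := ⟨fun h => by rw [h] at hm; simp at hm⟩
  have hq : (e x).1 ∉ Subgroup.center (QuaternionGroup (2 ^ k)) := by
    intro hc
    apply hx
    rw [Subgroup.mem_center_iff]
    intro g
    apply e.injective
    rw [map_mul, map_mul]
    apply Prod.ext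
    · exact Subgroup.mem_center_iff.mp hc (e g).1
    · exact mul_comm _ _
  obtain ⟨g, hg⟩ := quat_centralizer (2 ^ k) (e x).1 hq
  have hcyc : IsCyclic (↥(Subgroup.zpowers g) × Multiplicative (ZMod m)) := by
    rw [Group.isCyclic_prod_iff]
    refine ⟨inferInstance, inferInstance, ?_⟩
    have h1 : Nat.card ↥(Subgroup.zpowers g) ∣ 2 ^ (k + 2) := by
      have h3 := Subgroup.card_subgroup_dvd_card (Subgroup.zpowers g)
      rw [Nat.card_eq_fintype_card (α := QuaternionGroup (2 ^ k)), QuaternionGroup.card] at h3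
      have h4 : 4 * 2 ^ k = 2 ^ (k + 2) := by ring
      rw [← h4]; exact h3
    have h2 : Nat.card (Multiplicative (ZMod m)) = m := by
      rw [Nat.card_eq_fintype_card]; simp
    rw [h2]
    exact Nat.Coprime.coprime_dvd_left h1 (Nat.Coprime.pow_left _ (Nat.coprime_two_left.mpr hm))
  obtain ⟨φ, hφ⟩ : ∃ φ : ↥(Subgroup.centralizer ({x} : Set G)) →*
      QuaternionGroup (2 ^ k) × Multiplicative (ZMod m), ∀ y, φ y = e y.1 :=
    ⟨e.toMonoidHom.comp (Subgroup.centralizer ({x} : Set G)).subtype, fun y => rfl⟩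
  have hmem : ∀ y, ((MonoidHom.fst _ _).comp φ) y ∈ Subgroup.zpowers g := by
    intro y
    apply hg
    show (φ y).1 * (e x).1 = (e x).1 * (φ y).1
    rw [hφ]
    have h1 := Subgroup.mem_centralizer_singleton_iff.mp y.2
    have h2 := congrArg (fun t => (e t).1) h1
    simpa using h2
  obtain ⟨f, hf⟩ : ∃ f : ↥(Subgroup.centralizer ({x} : Set G)) →*
      ↥(Subgroup.zpowers g) × Multiplicative (ZMod m),
      ∀ y, ((f y).1 : QuaternionGroup (2 ^ k)) = (e y.1).1 ∧ (f y).2 = (e y.1).2 :=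
    ⟨MonoidHom.prod (((MonoidHom.fst _ _).comp φ).codRestrict _ hmem)
      ((MonoidHom.snd _ _).comp φ), fun y => ⟨by
        show (φ y).1 = _
        rw [hφ], by
        show (φ y).2 = _
        rw [hφ]⟩⟩
  haveI := hcyc
  apply isCyclic_of_injective f
  intro y₁ y₂ h
  apply Subtype.ext
  apply e.injective
  apply Prod.ext
  · rw [← (hf y₁).1, ← (hf y₂).1, h]
  · rw [← (hf y₁).2, ← (hf y₂).2, h]



/-- Let G be a finite non-abelian nilpotent group. Then the centralizer of every non-central element of G is cyclic if and only if G is isomorphic to the direct product of a generalized quaternion group and a cyclic group of odd order. -/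
theorem result {G : Type*} [Group G] [Finite G] (hG : Group.IsNilpotent G)
    (hna : ¬ IsMulCommutative G) :
    (∀ x : G, x ∉ Subgroup.center G → IsCyclic (Subgroup.centralizer ({x} : Set G))) ↔
      ∃ (k m : ℕ), 1 ≤ k ∧ Odd m ∧ Nonempty (G ≃* QuaternionGroup (2 ^ k) × Multiplicative (ZMod m)) := by
  constructor
  · intro h
    exact forward hG hna h
  · rintro ⟨k, m, -, hm, ⟨e⟩⟩ x hx
    exact backward k m hm e x hx

end Cfsg.Agent.S4370
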