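import Cfsg.Statements.S4377

set_option autoImplicit false
open Cfsg

namespace Cfsg.Agent.S4377

theorem card_pow_eq (G : Type*) [Group G] [Finite G] (n : ℕ) (hn : n ≠ 0) :
    Nat.card {g : G // g ^ n = 1} = ∑ d ∈ n.divisors, Nat.card {g : G // orderOf g = d} := by
  classical
  haveI := Fintype.ofFinite G
  have h1 : ∀ d, Nat.card {g : G // orderOf g = d}
      = (Finset.univ.filter (fun g : G => orderOf g = d)).card := by
    intro d
    rw [Nat.card_eq_fintype_card, Fintype.card_subtype]
  have h2 : Nat.card {g : G // g ^ n = 1} = (Finset.univ.filter (fun g : G => g ^ n = 1)).card := by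
    rw [Nat.card_eq_fintype_card, Fintype.card_subtype]
  rw [h2, Finset.card_eq_sum_card_fiberwise (f := orderOf) (t := n.divisors)]
  · apply Finset.sum_congr rfl
    intro d hd
    rw [h1]
    congr 1
    ext g
    simp only [Finset.mem_filter, Finset.mem_univ, true_and]
    constructor
    · exact fun h => h.2
    · intro h
      refine ⟨?_, h⟩
      have h3 : orderOf g ∣ n := h ▸ (Nat.mem_divisors.1 hd).1
      exact orderOf_dvd_iff_pow_eq_one.1 h3
  · intro g hg
    simp only [Finset.coe_filter, Finset.mem_univ, true_and, Set.mem_ofPred_eq] at hg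
    exact Nat.mem_divisors.2 ⟨orderOf_dvd_of_pow_eq_one hg, hn⟩

theorem card_pow_zero (G : Type*) [Group G] [Finite G] :
    Nat.card {g : G // g ^ 0 = 1} = Nat.card G :=
  Nat.card_congr (Equiv.subtypeUnivEquiv (fun g => pow_zero g))

theorem card_pow_big (G : Type*) [Group G] [Finite G] (N : ℕ) (hN : Nat.card G ∣ N) :
    Nat.card {g : G // g ^ N = 1} = Nat.card G := by
  apply Nat.card_congr (Equiv.subtypeUnivEquiv _)
  intro g
  obtain ⟨c, rfl⟩ := hN
  rw [pow_mul, pow_card_eq_one', one_pow]

theorem card_order_zero (G : Type*) [Group G] [Finite G] :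
    Nat.card {g : G // orderOf g = 0} = 0 := by
  haveI : IsEmpty {g : G // orderOf g = 0} := ⟨fun ⟨g, hg⟩ => (orderOf_pos g).ne' hg⟩
  exact Nat.card_of_isEmpty

/-- Two finite groups have the same number of elements of each order if and only if, for every n, they have the same number of elements g with gⁿ = 1. -/
theorem result {G H : Type*} [Group G] [Finite G] [Group H] [Finite H] :
    (∀ n : ℕ, Nat.card {g : G // orderOf g = n} = Nat.card {h : H // orderOf h = n}) ↔
      ∀ n : ℕ, Nat.card {g : G // g ^ n = 1} = Nat.card {h : H // h ^ n = 1} := by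
  constructor
  · intro h n
    by_cases hn : n = 0
    · subst hn
      rw [card_pow_zero, card_pow_zero]
      have hN : Nat.card G * Nat.card H ≠ 0 :=
        Nat.mul_ne_zero Nat.card_pos.ne' Nat.card_pos.ne'
      have h1 : Nat.card G = ∑ d ∈ (Nat.card G * Nat.card H).divisors,
          Nat.card {g : G // orderOf g = d} := by
        rw [← card_pow_eq G _ hN, card_pow_big G _ (Dvd.intro _ rfl)]
      have h2 : Nat.card H = ∑ d ∈ (Nat.card G * Nat.card H).divisors,
          Nat.card {g : H // orderOf g = d} := by
        rw [← card_pow_eq H _ hN, card_pow_big H _ (Dvd.intro_left _ rfl)]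
      exact h1.trans ((Finset.sum_congr rfl (fun d _ => h d)).trans h2.symm)
    · rw [card_pow_eq G n hn, card_pow_eq H n hn]
      exact Finset.sum_congr rfl (fun d _ => h d)
  · intro h n
    induction n using Nat.strong_induction_on with
    | _ n ih =>
      by_cases hn : n = 0
      · subst hn
        rw [card_order_zero, card_order_zero]
      · have h1 := h n
        rw [card_pow_eq G n hn, card_pow_eq H n hn, ← Nat.insert_self_properDivisors hn,
          Finset.sum_insert Nat.self_notMem_properDivisors,
          Finset.sum_insert Nat.self_notMem_properDivisors] at h1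
        have hs : ∑ d ∈ n.properDivisors, Nat.card {g : G // orderOf g = d}
            = ∑ d ∈ n.properDivisors, Nat.card {g : H // orderOf g = d} :=
          Finset.sum_congr rfl (fun d hd => ih d (Nat.mem_properDivisors.1 hd).2)
        omega

end Cfsg.Agent.S4377
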