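import Cfsg.Statements.S4381
import Cfsg.Agent.S0012
import Cfsg.Agent.Lead.Maschke
import Mathlib

set_option autoImplicit false
open Pointwise
open Cfsg

namespace Cfsg.Agent.S4381

open scoped commutatorElement

/-- Let the finite group A act by automorphisms on the finite group G with the orders of A and G coprime, and assume that A or G is solvable. Call a proper A-invariant subgroup of G maximal A-invariant when no A-invariant subgroup lies strictly between it and G. Then all maximal A-invariant subgroups of G are conjugate under elements of the fixed-point subgroup C_G(A) if and only if G is a p-group for some prime p and A leaves invariant no subgroup strictly between the Frattini subgroup of G and G. In that case, if G is nontrivial, the Frattini subgroup is the only maximal A-invariant subgroup (a trivial G has none). -/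
theorem result {A G : Type*} [Group A] [Finite A]
    [Group G] [Finite G] [MulDistribMulAction A G] (hcop : (Nat.card A).Coprime (Nat.card G)) (hsol : Group.IsSolvable A ∨ Group.IsSolvable G) :
    ((∀ M N : Subgroup G, (M ≠ ⊤ ∧ (∀ a : A, ∀ x ∈ M, a • x ∈ M) ∧ ∀ L : Subgroup G, M < L → (∀ a : A, ∀ x ∈ L, a • x ∈ L) → L = ⊤) → (N ≠ ⊤ ∧ (∀ a : A, ∀ x ∈ N, a • x ∈ N) ∧ ∀ L : Subgroup G, N < L → (∀ a : A, ∀ x ∈ L, a • x ∈ L) → L = ⊤) →
        ∃ c : G, (∀ a : A, a • c = c) ∧ N = MulAut.conj c • M) ↔
      ((∃ p : ℕ, p.Prime ∧ IsPGroup p G) ∧ ∀ L : Subgroup G, frattini G < L → (∀ a : A, ∀ x ∈ L, a • x ∈ L) → L = ⊤)) ∧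
    (((∃ p : ℕ, p.Prime ∧ IsPGroup p G) ∧ ∀ L : Subgroup G, frattini G < L → (∀ a : A, ∀ x ∈ L, a • x ∈ L) → L = ⊤) →
      ∀ M : Subgroup G, (M ≠ ⊤ ∧ (∀ a : A, ∀ x ∈ M, a • x ∈ M) ∧ ∀ L : Subgroup G, M < L → (∀ a : A, ∀ x ∈ L, a • x ∈ L) → L = ⊤) ↔ (M = frattini G ∧ M ≠ ⊤)) := by
  have hΦinv : ∀ a : A, ∀ x ∈ frattini G, a • x ∈ frattini G :=
    Lead.inv_of_characteristic (frattini G)
  have key : (∀ L : Subgroup G, frattini G < L → (∀ a : A, ∀ x ∈ L, a • x ∈ L) → L = ⊤) →
      ∀ M : Subgroup G, (M ≠ ⊤ ∧ (∀ a : A, ∀ x ∈ M, a • x ∈ M) ∧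
        ∀ L : Subgroup G, M < L → (∀ a : A, ∀ x ∈ L, a • x ∈ L) → L = ⊤) ↔
          (M = frattini G ∧ M ≠ ⊤) := by
    intro hR M
    constructor
    · rintro ⟨hM, hMinv, hMmax⟩
      have h1 : M ⊔ frattini G ≠ ⊤ := fun h => hM (frattini_nongenerating h)
      have h2 : M = M ⊔ frattini G := by
        rcases (le_sup_left : M ≤ M ⊔ frattini G).eq_or_lt with h | h
        · exact h
        · exact absurd (hMmax _ h (Lead.inv_sup M _ hMinv hΦinv)) h1
      have h3 : frattini G ≤ M := by rw [h2]; exact le_sup_right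
      rcases h3.eq_or_lt with h | h
      · exact ⟨h.symm, hM⟩
      · exact absurd (hR M h hMinv) hM
    · rintro ⟨rfl, hM⟩
      exact ⟨hM, hΦinv, hR⟩
  refine ⟨⟨fun H => ?_, fun hR M N hM hN => ?_⟩, fun hR => key hR.2⟩
  · -- Step 1: G is a p-group
    have hp : ∃ p : ℕ, p.Prime ∧ IsPGroup p G := by
      by_contra hno
      have hno' : ∀ p : ℕ, p.Prime → ¬ IsPGroup p G := fun p hp h => hno ⟨p, hp, h⟩
      have hbot : (⊥ : Subgroup G) ≠ ⊤ := by
        intro h
        apply hno' 2 Nat.prime_two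
        intro g
        refine ⟨0, ?_⟩
        have hg : g ∈ (⊥ : Subgroup G) := by rw [h]; trivial
        rw [Subgroup.mem_bot] at hg
        rw [hg, one_pow]
      obtain ⟨M₀, -, hM₀⟩ := Lead.exists_max_inv (A := A) (⊥ : Subgroup G) hbot (fun a x hx => by
        rw [Subgroup.mem_bot] at hx ⊢; rw [hx, smul_one])
      have hdvd : Nat.card G ∣ Nat.card M₀ := by
        rw [Nat.dvd_iff_prime_pow_dvd_dvd]
        intro q k hq hqk
        haveI := Fact.mk hq
        obtain ⟨Q, hQ⟩ := Lead.exists_invariant_sylow_ext hcop hsol q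
        have hQtop : (Q : Subgroup G) ≠ ⊤ := by
          intro h
          apply hno' q hq
          intro g
          have hg : g ∈ (Q : Subgroup G) := by rw [h]; trivial
          obtain ⟨n, hn⟩ := Q.isPGroup' ⟨g, hg⟩
          refine ⟨n, ?_⟩
          have h2 := congrArg Subtype.val hn
          simpa using h2
        obtain ⟨N, hQN, hN⟩ := Lead.exists_max_inv (Q : Subgroup G) hQtop hQ
        obtain ⟨c, -, hc⟩ := H M₀ N hM₀ hN
        have h1 : q ^ k ∣ Nat.card (Q : Subgroup G) := Q.pow_dvd_card_of_pow_dvd_card hqk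
        have h2 : Nat.card (Q : Subgroup G) ∣ Nat.card N := Subgroup.card_dvd_of_le hQN
        have h3 : Nat.card N = Nat.card M₀ := by rw [hc, S0001.card_conj_smul]
        rw [← h3]
        exact h1.trans h2
      have hle : Nat.card M₀ ≤ Nat.card G :=
        Nat.le_of_dvd Nat.card_pos (Subgroup.card_subgroup_dvd_card M₀)
      have heq : Nat.card M₀ = Nat.card G := le_antisymm hle (Nat.le_of_dvd Nat.card_pos hdvd)
      exact hM₀.1 ((Subgroup.card_eq_iff_eq_top M₀).mp heq)
    refine ⟨hp, ?_⟩
    obtain ⟨p, hpp, hG⟩ := hp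
    haveI := Fact.mk hpp
    intro L hΦL hLinv
    by_contra hLtop
    have hpdvd : p ∣ Nat.card G := by
      rcases hG.card_eq_or_dvd with h | h
      · exfalso
        apply hLtop
        rw [← Subgroup.card_eq_iff_eq_top]
        have h1 : Nat.card L ∣ Nat.card G := Subgroup.card_subgroup_dvd_card L
        rw [h] at h1 ⊢
        exact Nat.dvd_one.mp h1
      · exact h
    have hcopp : (Nat.card A).Coprime p := Nat.Coprime.coprime_dvd_right hpdvd hcop
    obtain ⟨M, hLM, hM⟩ := Lead.exists_max_inv L hLtop hLinv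
    have hΦM : frattini G < M := lt_of_lt_of_le hΦL hLM
    obtain ⟨hcomm, hpow⟩ := S0012.result p hG
    have hMn : M.Normal := by
      constructor
      intro m hm g
      have e : g * m * g⁻¹ = ⁅g, m⁆ * m := by rw [commutatorElement_def]; group
      rw [e]
      exact M.mul_mem (hΦM.le (hcomm (Subgroup.commutator_mem_commutator
        (Subgroup.mem_top g) (Subgroup.mem_top m)))) hm
    letI act : MulDistribMulAction A (G ⧸ frattini G) := Lead.quotAction (frattini G) hΦinv
    have hVcomm : ∀ x y : G ⧸ frattini G, x * y = y * x := by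
      intro x y
      refine QuotientGroup.induction_on x (fun a => ?_)
      refine QuotientGroup.induction_on y (fun b => ?_)
      rw [← QuotientGroup.mk_mul, ← QuotientGroup.mk_mul, QuotientGroup.eq]
      have e : (a * b)⁻¹ * (b * a) = ⁅b⁻¹, a⁻¹⁆ := by rw [commutatorElement_def]; group
      rw [e]
      exact hcomm (Subgroup.commutator_mem_commutator (Subgroup.mem_top _) (Subgroup.mem_top _))
    have hVpow : ∀ v : G ⧸ frattini G, v ^ p = 1 := by
      intro v
      refine QuotientGroup.induction_on v (fun a => ?_)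
      rw [← QuotientGroup.mk_pow, QuotientGroup.eq_one_iff]
      exact hpow a
    obtain ⟨q, hq⟩ : ∃ q : G →* G ⧸ frattini G, q = QuotientGroup.mk' (frattini G) := ⟨_, rfl⟩
    have hqsurj : Function.Surjective q := hq ▸ QuotientGroup.mk'_surjective _
    have hker : q.ker = frattini G := hq ▸ QuotientGroup.ker_mk' _
    have hqact : ∀ (a : A) (g : G), q (a • g) = a • q g := by
      intro a g; rw [hq]; rfl
    have hUinv : ∀ a : A, ∀ x ∈ M.map q, a • x ∈ M.map q := by
      rintro a _ ⟨m, hm, rfl⟩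
      exact ⟨a • m, hM.2.1 a m hm, hqact a m⟩
    obtain ⟨W, hWinv, hUW, hUW'⟩ := Lead.maschke_elem hVcomm p hVpow hcopp (M.map q) hUinv
    have hW'inv : ∀ a : A, ∀ x ∈ W.comap q, a • x ∈ W.comap q := by
      intro a x hx
      rw [Subgroup.mem_comap] at hx ⊢
      rw [hqact]
      exact hWinv a _ hx
    have hcm : (M.map q).comap q = M := Subgroup.comap_map_eq_self (by rw [hker]; exact hΦM.le)
    have hmc : (W.comap q).map q = W := Subgroup.map_comap_eq_self_of_surjective hqsurj W
    have hW'top : W.comap q ≠ ⊤ := by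
      intro h
      have hWtop : W = ⊤ := by rw [← hmc, h, Subgroup.map_top_of_surjective q hqsurj]
      rw [hWtop, inf_top_eq] at hUW
      have h1 : M ≤ frattini G := by
        rw [← hker, ← Subgroup.map_eq_bot_iff]
        exact hUW
      exact absurd (lt_of_lt_of_le hΦM h1) (lt_irrefl _)
    obtain ⟨N, hWN, hN⟩ := Lead.exists_max_inv (W.comap q) hW'top hW'inv
    obtain ⟨c, -, hc⟩ := H M N hM hN
    rw [Subgroup.Normal.conj_smul_eq_self c M] at hc
    rw [hc] at hWN
    have hWU : W ≤ M.map q := by rw [← hmc]; exact Subgroup.map_mono hWN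
    have hWbot : W = ⊥ := by rw [← hUW]; exact (inf_eq_right.mpr hWU).symm
    rw [hWbot, sup_bot_eq] at hUW'
    have hMtop : M = ⊤ := by rw [← hcm, hUW', Subgroup.comap_top]
    exact hM.1 hMtop
  · have h1 := ((key hR.2 M).mp hM).1
    have h2 := ((key hR.2 N).mp hN).1
    refine ⟨1, fun a => smul_one a, ?_⟩
    rw [map_one, one_smul, h1, h2]

end Cfsg.Agent.S4381
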