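import Cfsg.Statements.S4387

set_option autoImplicit false
open Pointwise
open Cfsg

namespace Cfsg.Agent.S4387

theorem exists_not_mem_conj {G : Type*} [Group G] [Finite G] (M : Subgroup G) (hM : M ≠ ⊤) :
    ∃ x : G, ∀ g : G, x ∉ MulAut.conj g • M := by
  classical
  by_contra hcon
  push Not at hcon
  haveI := Fintype.ofFinite G
  haveI : Fintype (G ⧸ M) := Fintype.ofFinite _
  let t : G ⧸ M → Finset G :=
    fun q => (Finset.univ.filter (fun x => x ∈ MulAut.conj q.out • M)).erase 1
  have hsub : (Finset.univ : Finset G).erase 1 ⊆ Finset.univ.biUnion t := by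
    intro x hx
    rw [Finset.mem_erase] at hx
    obtain ⟨g, hg⟩ := hcon x
    rw [Finset.mem_biUnion]
    refine ⟨(g : G ⧸ M), Finset.mem_univ _, ?_⟩
    rw [Finset.mem_erase, Finset.mem_filter]
    refine ⟨hx.1, Finset.mem_univ _, ?_⟩
    obtain ⟨m, hm⟩ := QuotientGroup.mk_out_eq_mul M g
    rw [hm, map_mul, mul_smul, Subgroup.conj_smul_eq_self_of_mem m.2]
    exact hg
  have hcard_t : ∀ q, (t q).card = Nat.card M - 1 := by
    intro q
    rw [Finset.card_erase_of_mem]
    · congr 1
      rw [← Fintype.card_subtype, ← Nat.card_eq_fintype_card]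
      exact Subgroup.card_map_of_injective (MulAut.conj q.out).injective
    · rw [Finset.mem_filter]
      exact ⟨Finset.mem_univ _, Subgroup.one_mem _⟩
  have h1 := Finset.card_le_card hsub
  have h2 := Finset.card_biUnion_le (s := (Finset.univ : Finset (G ⧸ M))) (t := t)
  rw [Finset.card_erase_of_mem (Finset.mem_univ _), Finset.card_univ] at h1
  simp only [hcard_t, Finset.sum_const, Finset.card_univ, smul_eq_mul] at h2
  have h3 : Nat.card M * M.index = Nat.card G := M.card_mul_index
  have h4 : M.index = Fintype.card (G ⧸ M) := by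
    rw [Subgroup.index, Nat.card_eq_fintype_card]
  have h5 : Nat.card G = Fintype.card G := Nat.card_eq_fintype_card
  have h6 : 1 ≤ Nat.card M := Nat.card_pos
  have h7 : M.index ≠ 1 := fun h => hM (Subgroup.index_eq_one.1 h)
  have h8 : M.index ≠ 0 := Subgroup.index_ne_zero_of_finite
  have h11 : Fintype.card G - 1 ≤ M.index * (Nat.card M - 1) := by
    rw [h4]
    exact h1.trans h2
  have h9 : M.index * (Nat.card M - 1) = Nat.card G - M.index := by
    rw [Nat.mul_sub, mul_one, mul_comm, h3]
  have h10 : M.index ≤ Nat.card G := by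
    rw [← h3]
    exact Nat.le_mul_of_pos_left _ h6
  omega

/-- Let G be a non-trivial finite group in which any two maximal subgroups are conjugate. Then G is cyclic of prime-power order. -/
theorem result {G : Type*} [Group G] [Finite G] [Nontrivial G]
    (h : ∀ M N : Subgroup G, IsCoatom M → IsCoatom N → ∃ g : G, N = MulAut.conj g • M) :
    IsCyclic G ∧ IsPrimePow (Nat.card G) := by
  classical
  obtain ⟨M, hM⟩ : ∃ M : Subgroup G, IsCoatom M := by
    rcases eq_top_or_exists_le_coatom (⊥ : Subgroup G) with h | ⟨M, hM, _⟩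
    · exact absurd h bot_ne_top
    · exact ⟨M, hM⟩
  have hcyc : IsCyclic G := by
    by_contra hnc
    obtain ⟨x, hx⟩ := exists_not_mem_conj M hM.1
    have hxne : Subgroup.zpowers x ≠ ⊤ := by
      intro h
      exact hnc (isCyclic_iff_exists_zpowers_eq_top.2 ⟨x, h⟩)
    rcases eq_top_or_exists_le_coatom (Subgroup.zpowers x) with h1 | ⟨N, hN, hle⟩
    · exact hxne h1
    · obtain ⟨g, hg⟩ := h M N hM hN
      exact hx g (hg ▸ hle (Subgroup.mem_zpowers x))
  refine ⟨hcyc, ?_⟩
  have hcomm : ∀ a b : G, a * b = b * a := isMulCommutative_iff.1 IsCyclic.isMulCommutative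
  have huniq : ∀ N : Subgroup G, IsCoatom N → N = M := by
    intro N hN
    obtain ⟨g, hg⟩ := h M N hM hN
    rw [hg]
    ext y
    rw [Subgroup.mem_pointwise_smul_iff_inv_smul_mem]
    have h1 : (MulAut.conj g)⁻¹ • y = y := by
      simp only [MulAut.smul_def, MulAut.conj_inv_apply]
      rw [hcomm g⁻¹ y, inv_mul_cancel_right]
    rw [h1]
  obtain ⟨g, hg⟩ := hcyc.exists_generator
  have hord : orderOf g = Nat.card G := orderOf_eq_card_of_forall_mem_zpowers hg
  have hmem : ∀ p : ℕ, p.Prime → p ∣ Nat.card G → g ^ p ∈ M := by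
    intro p hp hpd
    have hne : Subgroup.zpowers (g ^ p) ≠ ⊤ := by
      intro htop
      have h1 : Nat.card (Subgroup.zpowers (g ^ p)) = Nat.card G := by
        rw [htop, Subgroup.card_top]
      rw [Nat.card_zpowers, orderOf_pow, hord, Nat.gcd_eq_right hpd] at h1
      have hpos : 0 < Nat.card G := Nat.card_pos
      have h2 := Nat.div_lt_self hpos hp.one_lt
      omega
    rcases eq_top_or_exists_le_coatom (Subgroup.zpowers (g ^ p)) with h1 | ⟨N, hN, hle⟩
    · exact absurd h1 hne
    · rw [huniq N hN] at hle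
      exact hle (Subgroup.mem_zpowers _)
  rw [isPrimePow_iff_unique_prime_dvd]
  have hcard : Nat.card G ≠ 1 := (Finite.one_lt_card).ne'
  have hp := Nat.minFac_prime hcard
  refine ⟨(Nat.card G).minFac, ⟨hp, Nat.minFac_dvd _⟩, ?_⟩
  rintro q ⟨hq, hqd⟩
  by_contra hne
  have hcop : Nat.gcd (Nat.card G).minFac q = 1 := (Nat.coprime_primes hp hq).2 (Ne.symm hne)
  have hgM : g ∈ M := by
    have h1 := hmem _ hp (Nat.minFac_dvd _)
    have h2 := hmem q hq hqd
    have hb := Nat.gcd_eq_gcd_ab ((Nat.card G).minFac) q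
    have h3 : g ^ (((Nat.card G).minFac : ℤ) * Nat.gcdA (Nat.card G).minFac q
        + (q : ℤ) * Nat.gcdB (Nat.card G).minFac q) ∈ M := by
      rw [zpow_add, zpow_mul, zpow_mul, zpow_natCast, zpow_natCast]
      exact M.mul_mem (M.zpow_mem h1 _) (M.zpow_mem h2 _)
    rw [← hb, hcop] at h3
    simpa using h3
  have htop : M = ⊤ := by
    rw [eq_top_iff]
    intro y _
    exact (Subgroup.zpowers_le.2 hgM) (hg y)
  exact hM.1 htop

end Cfsg.Agent.S4387
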