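import Cfsg.Statements.S4399
import Mathlib
import Cfsg.Agent.Helper4.Taussky
import Cfsg.Agent.S0646
import Cfsg.Agent.Helper9.Recog

set_option autoImplicit false
open Cfsg

namespace Cfsg.Agent.S4399

/-- Let S be a finite 2-group whose commutator quotient S/[S,S] is a Klein four-group (order 4 and exponent 2). Then S itself has order 4, or S is dihedral of order at least 8, semidihedral of order at least 16 (order 2^(k+4) with an element a of order 2^(k+3) and an involution b with b a b⁻¹ = a^(2^(k+2)−1)), or generalized quaternion of order at least 8. -/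
theorem result {S : Type*} [Group S] [Finite S] (h2 : IsPGroup 2 S) (hab : Nat.card (Abelianization S) = 4)
    (hexp : ∀ x : Abelianization S, x ^ 2 = 1) :
    Nat.card S = 4 ∨
    ((∃ k : ℕ, Nonempty (S ≃* DihedralGroup (2 ^ (k + 2)))) ∨
      (∃ k : ℕ, Nat.card S = 2 ^ (k + 4) ∧ ∃ a b : S, orderOf a = 2 ^ (k + 3) ∧ orderOf b = 2 ∧ b * a * b⁻¹ = a ^ (2 ^ (k + 2) - 1)) ∨
      (∃ k : ℕ, Nonempty (S ≃* QuaternionGroup (2 ^ (k + 1))))) := by
  have hidx : (commutator S).index = 4 := by
    rw [Subgroup.index_eq_card]; exact hab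
  obtain ⟨m, hm⟩ := IsPGroup.iff_card.mp h2
  have hci := (commutator S).card_mul_index
  rw [hidx, hm] at hci
  have hm2 : 2 ≤ m := by
    by_contra hlt
    have hm1 : m ≤ 1 := by omega
    have h1 : 2 ^ m ≤ 2 ^ 1 := Nat.pow_le_pow_right (by norm_num) hm1
    have h3 : 0 < Nat.card (commutator S) := Nat.card_pos
    omega
  by_cases hm3 : m = 2
  · left; rw [hm, hm3]; norm_num
  right
  obtain ⟨n, rfl⟩ : ∃ n, m = n + 3 := ⟨m - 3, by omega⟩
  obtain ⟨A, hAcyc, hAidx⟩ := Cfsg.Agent.Helper4.Taussky.exists_cyclic_index_two n S hm hidx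
  have hne4 : Nat.card S ≠ 4 := by
    rw [hm]
    have : 2 ^ 3 ≤ 2 ^ (n + 3) := Nat.pow_le_pow_right (by norm_num) (by omega)
    omega
  have hnc := Cfsg.Agent.Helper4.Taussky.not_comm_of_index hidx hne4
  have hna : ∃ x y : S, x * y ≠ y * x := by
    by_contra hcon
    push Not at hcon
    exact hnc hcon
  obtain ⟨a, b, ha, hbA, hcases⟩ :=
    Cfsg.Agent.S0646.result (n + 3) (by omega) hm A hAcyc hAidx hna
  have e1 : n + 3 - 1 = n + 2 := by omega
  have e2 : n + 3 - 2 = n + 1 := by omega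
  rw [e1] at ha
  rw [e2] at hcases
  have hb1 : b ≠ 1 := fun h => hbA (h ▸ one_mem _)
  rcases hcases with ⟨hb2, hconj⟩ | ⟨hb2, hconj⟩ | ⟨hn4, hb2, hconj⟩ | ⟨hn4, hb2, hconj⟩
  · -- dihedral
    left
    refine ⟨n, ?_⟩
    exact Cfsg.Agent.Helper9.dihedral_equiv_of (2 ^ (n + 2)) a b ha (by rw [← pow_two]; exact hb2)
      hconj hbA (by rw [hm]; ring)
  · -- quaternion
    right; right
    refine ⟨n, ?_⟩
    exact Cfsg.Agent.Helper9.quaternion_equiv_of (2 ^ (n + 1)) a b (by rw [ha]; ring)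
      (by rw [← pow_two]; exact hb2) hconj hbA (by rw [hm]; ring)
  · -- modular : impossible
    exfalso
    have haN : a ^ (2 ^ (n + 2)) = 1 := by rw [← ha]; exact pow_orderOf_eq_one a
    have hzb : b * a ^ (2 ^ (n + 1)) * b⁻¹ = a ^ (2 ^ (n + 1)) := by
      rw [← conj_pow, hconj, ← pow_mul, add_mul, one_mul, pow_add, mul_comm (2 ^ (n + 1)),
        show 2 ^ (n + 1) * 2 ^ (n + 1) = 2 ^ (n + 2) * 2 ^ n by ring, pow_mul (a := a) (2 ^ (n + 2)),
        haN, one_pow, mul_one]
    have hAidx' : (Subgroup.zpowers a).index = 2 := by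
      have := (Subgroup.zpowers a).card_mul_index
      rw [Nat.card_zpowers, ha, hm] at this
      have e : 2 ^ (n + 3) = 2 ^ (n + 2) * 2 := by ring
      have hpos : 0 < 2 ^ (n + 2) := by positivity
      rw [e] at this
      exact Nat.eq_of_mul_eq_mul_left hpos this
    have hform : ∀ s : S, s ∈ Subgroup.zpowers a ∨ s * b⁻¹ ∈ Subgroup.zpowers a := by
      intro s
      by_cases hs : s ∈ Subgroup.zpowers a
      · exact Or.inl hs
      · right
        have := (Subgroup.mul_mem_iff_of_index_two hAidx' (a := s) (b := b⁻¹))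
        rw [this]
        constructor
        · intro h; exact (hs h).elim
        · intro h; exact (hbA (by simpa using h)).elim
    have hNn : (Subgroup.zpowers (a ^ (2 ^ (n + 1)))).Normal := by
      constructor
      intro t ht g
      obtain ⟨i, rfl⟩ := Subgroup.mem_zpowers_iff.mp ht
      have key : ∀ g : S, (g ∈ Subgroup.zpowers a ∨ g * b⁻¹ ∈ Subgroup.zpowers a) →
          g * a ^ (2 ^ (n + 1)) * g⁻¹ = a ^ (2 ^ (n + 1)) := by
        intro g hg
        rcases hg with hg | hg
        · obtain ⟨j, rfl⟩ := Subgroup.mem_zpowers_iff.mp hg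
          have : Commute (a ^ j) (a ^ (2 ^ (n + 1))) := (Commute.refl a).zpow_left j |>.pow_right _
          rw [this.eq, mul_inv_cancel_right]
        · obtain ⟨j, hj⟩ := Subgroup.mem_zpowers_iff.mp hg
          have hg' : g = a ^ j * b := by rw [hj]; group
          rw [hg']
          have : Commute (a ^ j) (a ^ (2 ^ (n + 1))) := (Commute.refl a).zpow_left j |>.pow_right _
          calc a ^ j * b * a ^ (2 ^ (n + 1)) * (a ^ j * b)⁻¹
              = a ^ j * (b * a ^ (2 ^ (n + 1)) * b⁻¹) * (a ^ j)⁻¹ := by group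
            _ = a ^ (2 ^ (n + 1)) := by rw [hzb, this.eq, mul_inv_cancel_right]
      have e : g * (a ^ (2 ^ (n + 1))) ^ i * g⁻¹ = (g * a ^ (2 ^ (n + 1)) * g⁻¹) ^ i := by
        rw [conj_zpow]
      rw [e, key g (hform g)]
      exact zpow_mem (Subgroup.mem_zpowers _) i
    have hle : commutator S ≤ Subgroup.zpowers (a ^ (2 ^ (n + 1))) := by
      apply Cfsg.Agent.Helper4.Taussky.commutator_le_of_index_two (Subgroup.zpowers a) hAidx'
        _ b hbA
      · intro c hc
        obtain ⟨j, rfl⟩ := Subgroup.mem_zpowers_iff.mp hc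
        have h1 : b * (a ^ j)⁻¹ * b⁻¹ = (a ^ (1 + 2 ^ (n + 1))) ^ (-j) := by
          rw [← hconj, conj_zpow, zpow_neg]
        have h3 : a ^ j * b * (a ^ j)⁻¹ * b⁻¹ = (a ^ (2 ^ (n + 1))) ^ (-j) := by
          calc a ^ j * b * (a ^ j)⁻¹ * b⁻¹ = a ^ j * (b * (a ^ j)⁻¹ * b⁻¹) := by group
            _ = (a ^ (2 ^ (n + 1))) ^ (-j) := by
              rw [h1, ← zpow_natCast, ← zpow_natCast, ← zpow_mul, ← zpow_mul, ← zpow_add]
              congr 1
              push_cast
              ring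
        rw [h3]
        exact zpow_mem (Subgroup.mem_zpowers _) _
      · intro c hc d hd
        obtain ⟨i, rfl⟩ := Subgroup.mem_zpowers_iff.mp hc
        obtain ⟨j, rfl⟩ := Subgroup.mem_zpowers_iff.mp hd
        exact (Commute.zpow_zpow_self a i j).eq
    have hzord : orderOf (a ^ (2 ^ (n + 1))) ≤ 2 := by
      apply orderOf_le_of_pow_eq_one (by norm_num)
      rw [← pow_mul, ← pow_succ]; exact haN
    have h5 := Subgroup.card_le_of_le hle
    rw [Nat.card_zpowers] at h5
    have h6 : 2 ^ 4 ≤ 2 ^ (n + 3) := Nat.pow_le_pow_right (by norm_num) (by omega)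
    omega
  · -- semidihedral
    right; left
    obtain ⟨k, rfl⟩ : ∃ k, n = k + 1 := ⟨n - 1, by omega⟩
    refine ⟨k, hm, a, b, ha, ?_, hconj⟩
    exact orderOf_eq_prime hb2 hb1

end Cfsg.Agent.S4399
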