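import Cfsg.Statements.S4401
import Cfsg.Agent.Helper17.SecRank4d

set_option autoImplicit false
open Cfsg

namespace Cfsg.Agent.S4401

open Cfsg.Agent.Helper17.SecRank4

/-- Let S be a finite 2-group of sectional 2-rank at most 4 and P a proper non-abelian subgroup whose centre has order 2. Let S₀ be the centralizer in S of Z(P) and suppose P is normal in S₀. Then either S₀ = S, or P has sectional 2-rank at most 2 and S₀ has index 2 in S. -/
theorem result {S : Type*} [Group S] [Finite S] (h2 : IsPGroup 2 S) (hr : Cfsg.SectionalPRankLE 2 4 S)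
    (P : Subgroup S) (hPlt : P ≠ ⊤) (hP : ¬ IsMulCommutative ↥P) (hZP : Nat.card ↥(Subgroup.center ↥P) = 2)
    (S₀ : Subgroup S) (hS₀ : S₀ = Subgroup.centralizer (((Subgroup.center ↥P).map P.subtype : Subgroup S) : Set S))
    (hPn : ∀ s ∈ S₀, ∀ x ∈ P, s * x * s⁻¹ ∈ P) :
    S₀ = ⊤ ∨ (Cfsg.SectionalPRankLE 2 2 ↥P ∧ S₀.index = 2) := by
  classical
  haveI : Fact (Nat.Prime 2) := ⟨Nat.prime_two⟩
  haveI hnil : Group.IsNilpotent S := h2.isNilpotent
  have hsec : SecLE 4 S := secLE_of_sectional hr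
  obtain ⟨z, hzP, hz1, hzc, hzu⟩ := center_two P hZP
  have hcent : ∀ s, s ∈ S₀ ↔ s * z = z * s := by
    intro s
    rw [hS₀, Subgroup.mem_centralizer_iff]
    constructor
    · intro h
      exact (h z ((mem_map_center P z).mpr ⟨hzP, hzc⟩)).symm
    · intro h x hx
      rw [SetLike.mem_coe, mem_map_center] at hx
      rcases hzu x hx.1 hx.2 with e | e
      · rw [e]; simp
      · rw [e]; exact h.symm
  have hPS₀ : P ≤ S₀ := fun p hp => (hcent p).mpr (hzc p hp)
  have hnonab : ∃ a ∈ P, ∃ b ∈ P, a * b ≠ b * a := by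
    by_contra h
    push Not at h
    exact hP ⟨⟨fun a b => Subtype.ext (h a a.2 b b.2)⟩⟩
  have hG : Good S₀ P z := ⟨hPS₀, hPn, hnonab, hzP, hz1, hzc, hzu⟩
  by_cases htop : S₀ = ⊤
  · exact Or.inl htop
  right
  have hnc : NormalizerCondition S := Group.normalizerCondition_of_isNilpotent
  have hlt : S₀ < Subgroup.normalizer (S₀ : Set S) := hnc S₀ (lt_top_iff_ne_top.mpr htop)
  obtain ⟨t, htN, htS⟩ := SetLike.exists_of_lt hlt
  have c : Ctx S₀ P z t := ⟨hG, hcent, htN, htS⟩
  have hNtop : Subgroup.normalizer (S₀ : Set S) = ⊤ := by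
    by_contra hne
    have hlt2 := hnc _ (lt_top_iff_ne_top.mpr hne)
    obtain ⟨u, hu, huN⟩ := SetLike.exists_of_lt hlt2
    exact c.no_u h2 hsec u hu huN
  constructor
  · -- sectional rank of P
    apply sectional_of_secLE
    intro H N cc mm ss
    obtain ⟨Q, hQ⟩ : ∃ Q : Subgroup S, Q = cj t P := ⟨_, rfl⟩
    have G2 : Good S₀ Q (t * z * t⁻¹) := by rw [hQ]; exact c.good2
    have r := rel_main h2 hsec hG G2 (Ne.symm c.z2_ne)
    have h2Q : IsPGroup 2 ↥Q := h2.to_subgroup Q
    have hQna : ¬ IsMulCommutative ↥Q := by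
      intro hc
      obtain ⟨a, ha, b, hb, hab⟩ := G2.nonab
      exact hab (congrArg Subtype.val (hc.is_comm.comm (⟨a, ha⟩ : Q) ⟨b, hb⟩))
    have hiQ : 4 ≤ ((frattini ↥Q).map Q.subtype).relIndex Q := by
      have h1 := four_le_index_frattini h2Q hQna
      have e : ((frattini ↥Q).map Q.subtype).relIndex Q = (frattini ↥Q).index := by
        rw [Subgroup.relIndex]
        congr 1
        exact Subgroup.comap_map_eq_self_of_injective Q.subtype_injective _
      rw [e]; exact h1
    have hQprops := Cfsg.Agent.S4208.frattini_quot_props h2Q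
    have key := prod_section hsec (H.map P.subtype) (N.map P.subtype) Q
      ((frattini ↥Q).map Q.subtype)
      (by
        rintro _ ⟨a, -, rfl⟩ b hb
        exact r.1 a a.2 b hb)
      (by
        rw [eq_bot_iff, ← r.2.1]
        exact inf_le_inf_right _ (Subgroup.map_subtype_le H))
      (by
        rintro _ ⟨h, hh, rfl⟩ _ ⟨n, hn, rfl⟩
        exact ⟨h * n * h⁻¹, cc h hh n hn, by simp⟩)
      (by
        rintro _ ⟨a, ha, rfl⟩ _ ⟨b, hb, rfl⟩
        exact ⟨a * b * a⁻¹ * b⁻¹, mm a ha b hb, by simp⟩)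
      (by
        rintro _ ⟨a, ha, rfl⟩
        exact ⟨a ^ 2, ss a ha, by simp⟩)
      (by
        rintro h hh _ ⟨n, hn, rfl⟩
        exact ⟨⟨h, hh⟩ * n * ⟨h, hh⟩⁻¹,
          (inferInstance : (frattini ↥Q).Normal).conj_mem n hn ⟨h, hh⟩, rfl⟩)
      (by
        intro a ha b hb
        exact ⟨_, hQprops.1 ⟨a, ha⟩ ⟨b, hb⟩, rfl⟩)
      (by
        intro a ha
        exact ⟨_, hQprops.2 ⟨a, ha⟩, rfl⟩)
    rw [Subgroup.relIndex_map_map_of_injective _ _ P.subtype_injective] at key
    have h4 : N.relIndex H * 4 ≤ 2 ^ 4 := le_trans (Nat.mul_le_mul_left _ hiQ) key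
    norm_num at h4 ⊢
    omega
  · -- index 2
    rw [Subgroup.index_eq_two_iff]
    refine ⟨t, fun b => ?_⟩
    have hbN : b ∈ Subgroup.normalizer (S₀ : Set S) := by rw [hNtop]; exact Subgroup.mem_top b
    by_cases hb : b ∈ S₀
    · right
      refine ⟨hb, fun h => htS ?_⟩
      have : t = b⁻¹ * (b * t) := by group
      rw [this]
      exact S₀.mul_mem (S₀.inv_mem hb) h
    · left
      refine ⟨?_, hb⟩
      rw [hcent]
      have h3 := (c.swap h2 hsec hbN hb).2
      have e : b * t * z = (b * (t * z * t⁻¹) * b⁻¹) * (b * t) := by group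
      rw [e, h3]

end Cfsg.Agent.S4401
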