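import Cfsg.Statements.S4406
import Mathlib
-- import your own Cfsg.Agent.* helpers here

set_option autoImplicit false
open Cfsg

namespace Cfsg.Agent.S4406

/-- The alternating group of degree four. -/
abbrev AA : Type := ↥(alternatingGroup (Fin 4))

set_option maxRecDepth 100000 in
theorem d1 : ∀ x : AA, x ^ 4 = 1 → x ^ 2 = 1 := by decide

set_option maxRecDepth 100000 in
theorem ex3 : ∃ s0 : AA, s0 ^ 3 = 1 ∧ s0 ≠ 1 := by decide

set_option maxRecDepth 1000000 in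
set_option maxHeartbeats 4000000 in
set_option synthInstance.maxHeartbeats 2000000 in
set_option synthInstance.maxSize 100000 in
theorem l2 : ∀ t y1 y2 : AA, (t ^ 3 = 1 ∧ t ≠ 1 ∧ y1 ^ 2 = 1 ∧ y1 ≠ 1 ∧
    y2 ^ 2 = 1 ∧ y2 ≠ 1 ∧ y1 ≠ y2) →
    (t * y1 * t⁻¹ = y2 ∧ t * y2 * t⁻¹ = y1 * y2 ∧ t ^ 2 * y1 * (t ^ 2)⁻¹ = y1 * y2 ∧
      t ^ 2 * y2 * (t ^ 2)⁻¹ = y1) ∨
    (t * y1 * t⁻¹ = y1 * y2 ∧ t * y2 * t⁻¹ = y1 ∧ t ^ 2 * y1 * (t ^ 2)⁻¹ = y2 ∧
      t ^ 2 * y2 * (t ^ 2)⁻¹ = y1 * y2) := by decide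

set_option maxRecDepth 1000000 in
set_option maxHeartbeats 4000000 in
set_option synthInstance.maxHeartbeats 2000000 in
set_option synthInstance.maxSize 100000 in
theorem l3 : ∀ x1 x2 z : AA, (x1 ^ 2 = 1 ∧ x1 ≠ 1 ∧ x2 ^ 2 = 1 ∧ x2 ≠ 1 ∧ x1 ≠ x2 ∧ z ^ 2 = 1) →
    z = 1 ∨ z = x1 ∨ z = x2 ∨ z = x1 * x2 := by decide

/-- In a finite group, `x T x⁻¹ ⊆ T` implies `x` normalises `T`. -/
theorem mem_norm_of_conj {G : Type*} [Group G] [Finite G] {T : Subgroup G} {x : G}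
    (h : ∀ t ∈ T, x * t * x⁻¹ ∈ T) :
    x ∈ Subgroup.normalizer (T : Set G) := by
  have hle : T.map (MulAut.conj x).toMonoidHom ≤ T := by
    rintro _ ⟨t, ht, rfl⟩
    simpa [MulAut.conj_apply] using h t ht
  have hcard : Nat.card (T.map (MulAut.conj x).toMonoidHom) = Nat.card T :=
    Subgroup.card_map_of_injective (MulAut.conj x).injective
  have heq : T.map (MulAut.conj x).toMonoidHom = T :=
    Subgroup.eq_of_le_of_card_ge hle (le_of_eq hcard.symm)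
  rw [Subgroup.mem_normalizer_iff]
  intro t
  constructor
  · exact h t
  · intro ht
    rw [← heq] at ht
    obtain ⟨s, hs, hst⟩ := ht
    have : s = t := by
      have : x * s * x⁻¹ = x * t * x⁻¹ := by simpa [MulAut.conj_apply] using hst
      simpa using this
    rwa [← this]

/-- Every element of order dividing `3` has a conjugate in a given Sylow `3`-subgroup. -/
theorem exQ {G : Type*} [Group G] [Finite G] (Q : Sylow 3 G) (u : G) (hu : u ^ 3 = 1) :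
    ∃ g : G, g * u * g⁻¹ ∈ (Q : Subgroup G) := by
  have hp : IsPGroup 3 (Subgroup.zpowers u) := by
    intro g
    refine ⟨1, ?_⟩
    obtain ⟨g, hg⟩ := g
    obtain ⟨j, rfl⟩ := Subgroup.mem_zpowers_iff.1 hg
    apply Subtype.ext
    simp only [pow_one, Subgroup.coe_pow, Subgroup.coe_one]
    rw [← zpow_natCast, ← zpow_mul, mul_comm, zpow_mul, zpow_natCast, hu, one_zpow]
  obtain ⟨P, hP⟩ := hp.exists_le_sylow
  obtain ⟨g, hg⟩ := MulAction.exists_smul_eq G P Q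
  refine ⟨g, ?_⟩
  rw [← hg, Sylow.coe_subgroup_smul]
  have hu' : u ∈ (P : Subgroup G) := hP (Subgroup.mem_zpowers u)
  have h2 := Subgroup.smul_mem_pointwise_smul u (MulAut.conj g) (P : Subgroup G) hu'
  simpa [MulAut.smul_def] using h2

/-- In the direct product P = A₄ × A₄, let X be the Sylow 2-subgroup, X₁ and X₂ its intersections with the two direct factors, Q a Sylow 3-subgroup and Q₁, Q₂ its intersections with the two factors. Then every subgroup B of X of order 4 either meets X₁ or X₂ nontrivially, or is normalized by one of the two subgroups of Q of order 3 other than Q₁ and Q₂. -/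
theorem result
    (X : Sylow 2 (↥(alternatingGroup (Fin 4)) × ↥(alternatingGroup (Fin 4))))
    (Q : Sylow 3 (↥(alternatingGroup (Fin 4)) × ↥(alternatingGroup (Fin 4))))
    (B : Subgroup (↥(alternatingGroup (Fin 4)) × ↥(alternatingGroup (Fin 4)))) (hBX : B ≤ (X : Subgroup _)) (hB4 : Nat.card ↥B = 4) :
    B ⊓ ((X : Subgroup _) ⊓ Subgroup.prod ⊤ ⊥) ≠ ⊥ ∨ B ⊓ ((X : Subgroup _) ⊓ Subgroup.prod ⊥ ⊤) ≠ ⊥ ∨
      ∃ R : Subgroup (↥(alternatingGroup (Fin 4)) × ↥(alternatingGroup (Fin 4))), R ≤ (Q : Subgroup _) ∧ Nat.card ↥R = 3 ∧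
        R ≠ (Q : Subgroup _) ⊓ Subgroup.prod ⊤ ⊥ ∧ R ≠ (Q : Subgroup _) ⊓ Subgroup.prod ⊥ ⊤ ∧ R ≤ Subgroup.normalizer (B : Set _) := by
  classical
  by_cases h1 : B ⊓ ((X : Subgroup _) ⊓ Subgroup.prod ⊤ ⊥) = ⊥
  swap
  · exact Or.inl h1
  by_cases h2 : B ⊓ ((X : Subgroup _) ⊓ Subgroup.prod ⊥ ⊤) = ⊥
  swap
  · exact Or.inr (Or.inl h2)
  right; right
  -- basic facts
  have hsq : ∀ b ∈ B, b.1 ^ 2 = 1 ∧ b.2 ^ 2 = 1 := by
    intro b hb
    have h4 : b ^ 4 = 1 := by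
      have h := pow_card_eq_one' (G := B) (x := ⟨b, hb⟩)
      rw [hB4] at h
      simpa using congrArg Subtype.val h
    have h41 : b.1 ^ 4 = 1 := by simpa using congrArg Prod.fst h4
    have h42 : b.2 ^ 4 = 1 := by simpa using congrArg Prod.snd h4
    exact ⟨d1 _ h41, d1 _ h42⟩
  have hfst : ∀ b ∈ B, b.1 = 1 → b = 1 := by
    intro b hb h
    have hm : b ∈ B ⊓ ((X : Subgroup _) ⊓ Subgroup.prod ⊥ ⊤) := by
      refine ⟨hb, hBX hb, ?_⟩
      exact Subgroup.mem_prod.2 ⟨by rw [Subgroup.mem_bot]; exact h, Subgroup.mem_top _⟩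
    rw [h2, Subgroup.mem_bot] at hm
    exact hm
  have hsnd : ∀ b ∈ B, b.2 = 1 → b = 1 := by
    intro b hb h
    have hm : b ∈ B ⊓ ((X : Subgroup _) ⊓ Subgroup.prod ⊤ ⊥) := by
      refine ⟨hb, hBX hb, ?_⟩
      exact Subgroup.mem_prod.2 ⟨Subgroup.mem_top _, by rw [Subgroup.mem_bot]; exact h⟩
    rw [h1, Subgroup.mem_bot] at hm
    exact hm
  have hinj : ∀ b ∈ B, ∀ b' ∈ B, b.1 = b'.1 → b = b' := by
    intro b hb b' hb' h
    have h3 := hfst (b * b'⁻¹) (B.mul_mem hb (B.inv_mem hb')) (by simp [h])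
    exact mul_inv_eq_one.1 h3
  have hinj2 : ∀ b ∈ B, ∀ b' ∈ B, b.2 = b'.2 → b = b' := by
    intro b hb b' hb' h
    have h3 := hsnd (b * b'⁻¹) (B.mul_mem hb (B.inv_mem hb')) (by simp [h])
    exact mul_inv_eq_one.1 h3
  obtain ⟨b1, hb1, hb1ne⟩ : ∃ b ∈ B, b ≠ 1 := by
    have hne : B ≠ ⊥ := by
      rintro rfl
      simp at hB4
    obtain ⟨⟨b, hb⟩, hbne⟩ := (Subgroup.ne_bot_iff_exists_ne_one.1 hne)
    exact ⟨b, hb, fun h => hbne (Subtype.ext h)⟩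
  obtain ⟨b2, hb2, hb2ne, hb21⟩ : ∃ b ∈ B, b ≠ 1 ∧ b ≠ b1 := by
    by_contra hcon
    push Not at hcon
    have hle : B ≤ Subgroup.zpowers b1 := by
      intro b hb
      by_cases h : b = 1
      · rw [h]; exact Subgroup.one_mem _
      · rw [hcon b hb h]; exact Subgroup.mem_zpowers b1
    have hc := Subgroup.card_le_of_le hle
    rw [hB4, Nat.card_zpowers] at hc
    have ho : orderOf b1 ≤ 2 := orderOf_le_of_pow_eq_one (by norm_num) (by
      apply Prod.ext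
      · simpa using (hsq b1 hb1).1
      · simpa using (hsq b1 hb1).2)
    omega
  have hx1 : b1.1 ≠ 1 := fun h => hb1ne (hfst b1 hb1 h)
  have hy1 : b1.2 ≠ 1 := fun h => hb1ne (hsnd b1 hb1 h)
  have hx2 : b2.1 ≠ 1 := fun h => hb2ne (hfst b2 hb2 h)
  have hy2 : b2.2 ≠ 1 := fun h => hb2ne (hsnd b2 hb2 h)
  have hx12 : b1.1 ≠ b2.1 := fun h => hb21 (hinj b2 hb2 b1 hb1 h.symm)
  have hy12 : b1.2 ≠ b2.2 := fun h => hb21 (hinj2 b2 hb2 b1 hb1 h.symm)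
  have henum : ∀ b ∈ B, b = 1 ∨ b = b1 ∨ b = b2 ∨ b = b1 * b2 := by
    intro b hb
    rcases l3 b1.1 b2.1 b.1
      ⟨(hsq b1 hb1).1, hx1, (hsq b2 hb2).1, hx2, hx12, (hsq b hb).1⟩ with h | h | h | h
    · exact Or.inl (hfst b hb h)
    · exact Or.inr (Or.inl (hinj b hb b1 hb1 h))
    · exact Or.inr (Or.inr (Or.inl (hinj b hb b2 hb2 h)))
    · exact Or.inr (Or.inr (Or.inr (hinj b hb (b1 * b2) (B.mul_mem hb1 hb2) (by simpa using h))))
  -- elements of `Q`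
  obtain ⟨s0, hs03, hs0ne⟩ := ex3
  obtain ⟨g1, hg1⟩ := exQ Q ((s0, 1) : AA × AA) (by apply Prod.ext <;> simp [hs03])
  obtain ⟨g2, hg2⟩ := exQ Q ((1, s0) : AA × AA) (by apply Prod.ext <;> simp [hs03])
  obtain ⟨s, hs⟩ : ∃ s : AA, s = g1.1 * s0 * g1.1⁻¹ := ⟨_, rfl⟩
  obtain ⟨t, ht⟩ : ∃ t : AA, t = g2.2 * s0 * g2.2⁻¹ := ⟨_, rfl⟩
  have hsQ : ((s, 1) : AA × AA) ∈ (Q : Subgroup _) := by
    have h : g1 * (s0, 1) * g1⁻¹ = ((s, 1) : AA × AA) := by apply Prod.ext <;> simp [hs]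
    rw [← h]; exact hg1
  have htQ : ((1, t) : AA × AA) ∈ (Q : Subgroup _) := by
    have h : g2 * (1, s0) * g2⁻¹ = ((1, t) : AA × AA) := by apply Prod.ext <;> simp [ht]
    rw [← h]; exact hg2
  have hs3 : s ^ 3 = 1 := by rw [hs, conj_pow, hs03]; simp
  have ht3 : t ^ 3 = 1 := by rw [ht, conj_pow, hs03]; simp
  have hsne : s ≠ 1 := by rw [hs]; simpa using hs0ne
  have htne : t ≠ 1 := by rw [ht]; simpa using hs0ne
  have ht2ne : t ^ 2 ≠ 1 := by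
    intro h
    apply htne
    have h3 : t ^ 3 = t ^ 2 * t := pow_succ t 2
    rw [ht3, h, one_mul] at h3
    exact h3.symm
  -- key step
  have key : ∀ r : AA × AA, r ∈ (Q : Subgroup _) → r.1 ≠ 1 → r.2 ≠ 1 → r ^ 3 = 1 →
      r * b1 * r⁻¹ ∈ B → r * b2 * r⁻¹ ∈ B →
      ∃ R : Subgroup (AA × AA), R ≤ (Q : Subgroup _) ∧ Nat.card ↥R = 3 ∧
        R ≠ (Q : Subgroup _) ⊓ Subgroup.prod ⊤ ⊥ ∧ R ≠ (Q : Subgroup _) ⊓ Subgroup.prod ⊥ ⊤ ∧
        R ≤ Subgroup.normalizer (B : Set _) := by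
    intro r hrQ hr1 hr2 hr3 hrb1 hrb2
    have hrne : r ≠ 1 := fun h => hr1 (by rw [h]; rfl)
    refine ⟨Subgroup.zpowers r, (Subgroup.zpowers_le).2 hrQ, ?_, ?_, ?_, ?_⟩
    · rw [Nat.card_zpowers]; exact orderOf_eq_prime hr3 hrne
    · intro h
      have hm : r ∈ (Q : Subgroup _) ⊓ Subgroup.prod ⊤ ⊥ := h ▸ Subgroup.mem_zpowers r
      have hm2 := (Subgroup.mem_prod.1 hm.2).2
      exact hr2 (by simpa using hm2)
    · intro h
      have hm : r ∈ (Q : Subgroup _) ⊓ Subgroup.prod ⊥ ⊤ := h ▸ Subgroup.mem_zpowers r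
      have hm2 := (Subgroup.mem_prod.1 hm.2).1
      exact hr1 (by simpa using hm2)
    · rw [Subgroup.zpowers_le]
      apply mem_norm_of_conj
      intro b hb
      rcases henum b hb with rfl | rfl | rfl | rfl
      · simpa using B.one_mem
      · exact hrb1
      · exact hrb2
      · have e : r * (b1 * b2) * r⁻¹ = (r * b1 * r⁻¹) * (r * b2 * r⁻¹) := by group
        rw [e]; exact B.mul_mem hrb1 hrb2
  have hb12 : b1 * b2 ∈ B := B.mul_mem hb1 hb2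
  have hstQ : ((s, t) : AA × AA) ∈ (Q : Subgroup _) := by
    have h : ((s, t) : AA × AA) = (s, 1) * (1, t) := by simp
    rw [h]; exact Subgroup.mul_mem _ hsQ htQ
  have hst2Q : ((s, t ^ 2) : AA × AA) ∈ (Q : Subgroup _) := by
    have h : ((s, t ^ 2) : AA × AA) = (s, 1) * (1, t) ^ 2 := by simp
    rw [h]; exact Subgroup.mul_mem _ hsQ (Subgroup.pow_mem _ htQ 2)
  have hst3 : ((s, t) : AA × AA) ^ 3 = 1 := by apply Prod.ext <;> simp [hs3, ht3]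
  have hst23 : ((s, t ^ 2) : AA × AA) ^ 3 = 1 := by
    apply Prod.ext
    · simp [hs3]
    · simp only [Prod.pow_snd, Prod.snd_one]
      rw [← pow_mul, mul_comm, pow_mul, ht3, one_pow]
  rcases l2 s b1.1 b2.1 ⟨hs3, hsne, (hsq b1 hb1).1, hx1, (hsq b2 hb2).1, hx2, hx12⟩ with
    ⟨e1, e2, -, -⟩ | ⟨e1, e2, -, -⟩ <;>
  rcases l2 t b1.2 b2.2 ⟨ht3, htne, (hsq b1 hb1).2, hy1, (hsq b2 hb2).2, hy2, hy12⟩ with
    ⟨f1, f2, f3, f4⟩ | ⟨f1, f2, f3, f4⟩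
  · refine key (s, t) hstQ hsne htne hst3 ?_ ?_
    · have c : ((s, t) : AA × AA) * b1 * ((s, t) : AA × AA)⁻¹ = b2 := Prod.ext e1 f1
      rw [c]; exact hb2
    · have c : ((s, t) : AA × AA) * b2 * ((s, t) : AA × AA)⁻¹ = b1 * b2 := Prod.ext e2 f2
      rw [c]; exact hb12
  · refine key (s, t ^ 2) hst2Q hsne ht2ne hst23 ?_ ?_
    · have c : ((s, t ^ 2) : AA × AA) * b1 * ((s, t ^ 2) : AA × AA)⁻¹ = b2 := Prod.ext e1 f3
      rw [c]; exact hb2
    · have c : ((s, t ^ 2) : AA × AA) * b2 * ((s, t ^ 2) : AA × AA)⁻¹ = b1 * b2 :=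
        Prod.ext e2 f4
      rw [c]; exact hb12
  · refine key (s, t ^ 2) hst2Q hsne ht2ne hst23 ?_ ?_
    · have c : ((s, t ^ 2) : AA × AA) * b1 * ((s, t ^ 2) : AA × AA)⁻¹ = b1 * b2 :=
        Prod.ext e1 f3
      rw [c]; exact hb12
    · have c : ((s, t ^ 2) : AA × AA) * b2 * ((s, t ^ 2) : AA × AA)⁻¹ = b1 := Prod.ext e2 f4
      rw [c]; exact hb1
  · refine key (s, t) hstQ hsne htne hst3 ?_ ?_
    · have c : ((s, t) : AA × AA) * b1 * ((s, t) : AA × AA)⁻¹ = b1 * b2 := Prod.ext e1 f1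
      rw [c]; exact hb12
    · have c : ((s, t) : AA × AA) * b2 * ((s, t) : AA × AA)⁻¹ = b1 := Prod.ext e2 f2
      rw [c]; exact hb1

end Cfsg.Agent.S4406
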