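import Cfsg.Statements.S4412
import Cfsg.Agent.Helper24.EA8d

set_option autoImplicit false
open Cfsg

namespace Cfsg.Agent.S4412

open Cfsg.Agent.Helper24

/-- Let p be an odd prime, P a finite p-group and I an elementary abelian subgroup of order 8 of Aut(P). Call T ∈ I, T ≠ 1, broad when its fixed-point subgroup C_P(T) is not cyclic. Suppose I has a proper subgroup I₀ containing no broad element such that the product of any two broad elements lies in I₀. Then P is abelian of rank exactly 3 (generated by three elements but not by two), there are exactly three broad elements and they generate I, and I₀ is exactly the set of products of two broad elements. -/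
theorem result
    {P : Type*} [Group P] [Finite P] (p : ℕ) (hp : p.Prime) (hp2 : p ≠ 2) (hP : IsPGroup p P)
    (I : Subgroup (MulAut P)) (hI : Cfsg.IsElementaryAbelian 2 I) (hI8 : Nat.card ↥I = 8)
    (I₀ : Subgroup (MulAut P)) (hI₀ : I₀ < I)
    (hdisj : ∀ T ∈ I₀, T ≠ 1 → ∃ g : P, ∀ x : P, (T x = x ↔ x ∈ Subgroup.zpowers g))
    (hprod : ∀ T ∈ I, ∀ T' ∈ I, T ≠ 1 → T' ≠ 1 → (¬ ∃ g : P, ∀ x : P, (T x = x ↔ x ∈ Subgroup.zpowers g)) →
      (¬ ∃ g : P, ∀ x : P, (T' x = x ↔ x ∈ Subgroup.zpowers g)) → T * T' ∈ I₀) :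
    IsMulCommutative P ∧ (∃ a b c : P, Subgroup.closure {a, b, c} = ⊤) ∧ (¬ ∃ a b : P, Subgroup.closure {a, b} = ⊤) ∧
      Nat.card {T : MulAut P // T ∈ I ∧ T ≠ 1 ∧ ¬ ∃ g : P, ∀ x : P, (T x = x ↔ x ∈ Subgroup.zpowers g)} = 3 ∧
      Subgroup.closure {T : MulAut P | T ∈ I ∧ T ≠ 1 ∧ ¬ ∃ g : P, ∀ x : P, (T x = x ↔ x ∈ Subgroup.zpowers g)} = I ∧
      (I₀ : Set (MulAut P)) = {S : MulAut P | ∃ T T' : MulAut P, T ∈ I ∧ T' ∈ I ∧ T ≠ 1 ∧ T' ≠ 1 ∧
        (¬ ∃ g : P, ∀ x : P, (T x = x ↔ x ∈ Subgroup.zpowers g)) ∧ (¬ ∃ g : P, ∀ x : P, (T' x = x ↔ x ∈ Subgroup.zpowers g)) ∧ S = T * T'} := by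
  classical
  haveI : Fact p.Prime := ⟨hp⟩
  obtain ⟨n, hn⟩ := IsPGroup.iff_card.mp hP
  have hodd : Odd (Nat.card P) := by
    rw [hn]; exact (hp.odd_of_ne_two hp2).pow
  haveI : Group.IsNilpotent P := hP.isNilpotent
  have hcommI : ∀ a ∈ I, ∀ b ∈ I, a * b = b * a := by
    intro a ha b hb
    have := hI.1.is_comm.comm ⟨a, ha⟩ ⟨b, hb⟩
    exact congrArg Subtype.val this
  have hsq : ∀ a ∈ I, a * a = 1 := by
    intro a ha
    have := hI.2 a ha
    rw [pow_two] at this; exact this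
  have hinv := h24e8_invol I hsq
  have hcx := h24e8_commx I hcommI
  have hne : ∀ w : P, w ≠ 1 → w⁻¹ ≠ w := fun w hw h => hw (h24e8_inv_self hodd w h.symm)
  obtain ⟨T₁, hT₁, T₂, hT₂, T₃, hT₃, w₁, w₂, w₃, hw₁, hw₂, hw₃, h11, h12, h13, h21, h22, h23,
    h31, h32, h33⟩ := h24e8_dual hodd I hcommI hsq hI8
  -- broadness
  have hbroad : ∀ T ∈ I, ∀ S ∈ I, ∀ w w' : P, w ≠ 1 → w' ≠ 1 → T w = w → T w' = w' →
      S w = w⁻¹ → S w' = w' →
      ¬ ∃ g : P, ∀ x : P, (T x = x ↔ x ∈ Subgroup.zpowers g) := by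
    intro T hT S hS w w' hw hw' hTw hTw' hSw hSw' ⟨g, hg⟩
    rcases h24e8_cyc' hp hp2 hP T S (hcx T hT S hS) (hinv S hS) g hg with h | h
    · have := h w ((hg w).mp hTw)
      rw [hSw] at this
      exact hne w hw this
    · have := h w' ((hg w').mp hTw')
      rw [hSw'] at this
      exact hne w' hw' this.symm
  have hB1 := hbroad T₁ hT₁ T₂ hT₂ w₂ w₃ hw₂ hw₃ h12 h13 h22 h23
  have hB2 := hbroad T₂ hT₂ T₁ hT₁ w₁ w₃ hw₁ hw₃ h21 h23 h11 h13
  have hB3 := hbroad T₃ hT₃ T₁ hT₁ w₁ w₂ hw₁ hw₂ h31 h32 h11 h12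
  have hT₁1 : T₁ ≠ 1 := by
    intro h; rw [h] at h11; exact hne w₁ hw₁ h11.symm
  have hT₂1 : T₂ ≠ 1 := by
    intro h; rw [h] at h22; exact hne w₂ hw₂ h22.symm
  have hT₃1 : T₃ ≠ 1 := by
    intro h; rw [h] at h33; exact hne w₃ hw₃ h33.symm
  have hT12 : T₁ ≠ T₂ := by
    intro h; rw [h, h21] at h11; exact hne w₁ hw₁ h11.symm
  have hT13 : T₁ ≠ T₃ := by
    intro h; rw [h, h31] at h11; exact hne w₁ hw₁ h11.symm
  have hT23 : T₂ ≠ T₃ := by
    intro h; rw [h, h32] at h22; exact hne w₂ hw₂ h22.symm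
  have hP12 : T₁ * T₂ ∈ I₀ := hprod T₁ hT₁ T₂ hT₂ hT₁1 hT₂1 hB1 hB2
  have hP13 : T₁ * T₃ ∈ I₀ := hprod T₁ hT₁ T₃ hT₃ hT₁1 hT₃1 hB1 hB3
  have hP23 : T₂ * T₃ ∈ I₀ := hprod T₂ hT₂ T₃ hT₃ hT₂1 hT₃1 hB2 hB3
  have hN12 : T₁ * T₂ ≠ 1 := by
    intro h
    have h2 : T₁ (T₂ w₁) = w₁ := by
      have : (T₁ * T₂) w₁ = w₁ := by rw [h]; rfl
      exact this
    rw [h21, h11] at h2
    exact hne w₁ hw₁ h2
  have hN13 : T₁ * T₃ ≠ 1 := by
    intro h
    have h2 : T₁ (T₃ w₁) = w₁ := by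
      have : (T₁ * T₃) w₁ = w₁ := by rw [h]; rfl
      exact this
    rw [h31, h11] at h2
    exact hne w₁ hw₁ h2
  have hN23 : T₂ * T₃ ≠ 1 := by
    intro h
    have h2 : T₂ (T₃ w₂) = w₂ := by
      have : (T₂ * T₃) w₂ = w₂ := by rw [h]; rfl
      exact this
    rw [h32, h22] at h2
    exact hne w₂ hw₂ h2
  obtain ⟨g₃, hg₃⟩ := hdisj _ hP12 hN12
  obtain ⟨g₂, hg₂⟩ := hdisj _ hP13 hN13
  obtain ⟨g₁, hg₁⟩ := hdisj _ hP23 hN23
  have hact : ∀ T ∈ I, ∀ S ∈ I, ∀ g w : P, (∀ x, T x = x ↔ x ∈ Subgroup.zpowers g) → w ≠ 1 →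
      T w = w → (S w = w → ∀ x ∈ Subgroup.zpowers g, S x = x) ∧
        (S w = w⁻¹ → ∀ x ∈ Subgroup.zpowers g, S x = x⁻¹) := by
    intro T hT S hS g w hg hw hTw
    rcases h24e8_cyc' hp hp2 hP T S (hcx T hT S hS) (hinv S hS) g hg with h | h
    · refine ⟨fun _ => h, fun hSw => ?_⟩
      exfalso
      have := h w ((hg w).mp hTw)
      rw [hSw] at this
      exact hne w hw this
    · refine ⟨fun hSw => ?_, fun _ => h⟩
      exfalso
      have := h w ((hg w).mp hTw)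
      rw [hSw] at this
      exact hne w hw this.symm
  have hF1 : (T₂ * T₃) w₁ = w₁ := by show T₂ (T₃ w₁) = w₁; rw [h31, h21]
  have hF2 : (T₁ * T₃) w₂ = w₂ := by show T₁ (T₃ w₂) = w₂; rw [h32, h12]
  have hF3 : (T₁ * T₂) w₃ = w₃ := by show T₁ (T₂ w₃) = w₃; rw [h23, h13]
  have hI23 := I.mul_mem hT₂ hT₃
  have hI13 := I.mul_mem hT₁ hT₃
  have hI12 := I.mul_mem hT₁ hT₂
  have a11 := (hact _ hI23 T₁ hT₁ g₁ w₁ hg₁ hw₁ hF1).2 h11
  have a21 := (hact _ hI23 T₂ hT₂ g₁ w₁ hg₁ hw₁ hF1).1 h21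
  have a31 := (hact _ hI23 T₃ hT₃ g₁ w₁ hg₁ hw₁ hF1).1 h31
  have a12 := (hact _ hI13 T₁ hT₁ g₂ w₂ hg₂ hw₂ hF2).1 h12
  have a22 := (hact _ hI13 T₂ hT₂ g₂ w₂ hg₂ hw₂ hF2).2 h22
  have a32 := (hact _ hI13 T₃ hT₃ g₂ w₂ hg₂ hw₂ hF2).1 h32
  have a13 := (hact _ hI12 T₁ hT₁ g₃ w₃ hg₃ hw₃ hF3).1 h13
  have a23 := (hact _ hI12 T₂ hT₂ g₃ w₃ hg₃ hw₃ hF3).1 h23
  have a33 := (hact _ hI12 T₃ hT₃ g₃ w₃ hg₃ hw₃ hF3).2 h33
  have hpar := h24e8_param hodd I hI8 T₁ T₂ T₃ hT₁ hT₂ hT₃ w₁ w₂ w₃ hw₁ hw₂ hw₃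
    h11 h12 h13 h21 h22 h23 h31 h32 h33
  have hT₁I₀ : T₁ ∉ I₀ := fun h => hB1 (hdisj T₁ h hT₁1)
  have hT₂I₀ : T₂ ∉ I₀ := fun h => hB2 (hdisj T₂ h hT₂1)
  have hT₃I₀ : T₃ ∉ I₀ := fun h => hB3 (hdisj T₃ h hT₃1)
  have hT₀I₀ : T₁ * T₂ * T₃ ∉ I₀ := by
    intro h
    apply hT₃I₀
    have := I₀.mul_mem (I₀.inv_mem hP12) h
    rwa [inv_mul_cancel_left] at this
  have hI₀char : ∀ R ∈ I₀, R = 1 ∨ R = T₁ * T₂ ∨ R = T₁ * T₃ ∨ R = T₂ * T₃ := by
    intro R hR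
    rcases hpar R (hI₀.le hR) with h | h | h | h | h | h | h | h
    · exact Or.inl h
    · rw [h] at hR; exact absurd hR hT₁I₀
    · rw [h] at hR; exact absurd hR hT₂I₀
    · rw [h] at hR; exact absurd hR hT₃I₀
    · exact Or.inr (Or.inl h)
    · exact Or.inr (Or.inr (Or.inl h))
    · exact Or.inr (Or.inr (Or.inr h))
    · rw [h] at hR; exact absurd hR hT₀I₀
  have hidx := h24e8_idx2 I I₀ hI8 hI₀.le (T₁ * T₂) (T₁ * T₃) hP12 hP13 hN12 hN13
    (fun h => hT23 (mul_left_cancel h)) T₁ hT₁ hT₁I₀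
  have hGenC : ∀ y ∈ {y : P | ∃ T ∈ I, ∃ T' ∈ I, T ≠ 1 ∧ T' ≠ 1 ∧ T ≠ T' ∧ T y = y ∧ T' y = y},
      y ∈ Subgroup.zpowers g₁ ∨ y ∈ Subgroup.zpowers g₂ ∨ y ∈ Subgroup.zpowers g₃ := by
    rintro y ⟨T, hT, T', hT', hT1, hT'1, hTT', hTy, hT'y⟩
    have hex : ∃ R ∈ I₀, R ≠ 1 ∧ R y = y := by
      by_cases h1 : T ∈ I₀
      · exact ⟨T, h1, hT1, hTy⟩
      · by_cases h2 : T' ∈ I₀
        · exact ⟨T', h2, hT'1, hT'y⟩
        · refine ⟨T * T', hidx T hT T' hT' h1 h2, ?_, ?_⟩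
          · intro h
            apply hTT'
            calc T = T * (T' * T') := by rw [hsq T' hT', mul_one]
              _ = T' := by rw [← mul_assoc, h, one_mul]
          · show T (T' y) = y
            rw [hT'y, hTy]
    obtain ⟨R, hR, hR1, hRy⟩ := hex
    rcases hI₀char R hR with h | h | h | h
    · exact absurd h hR1
    · right; right; rw [h] at hRy; exact (hg₃ y).mp hRy
    · right; left; rw [h] at hRy; exact (hg₂ y).mp hRy
    · left; rw [h] at hRy; exact (hg₁ y).mp hRy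
  have hgen3 : Subgroup.closure {g₁, g₂, g₃} = ⊤ := by
    rw [eq_top_iff, ← h24e8_gen8 hodd I hcommI hsq hI8]
    apply (Subgroup.closure_le _).mpr
    intro y hy
    rcases hGenC y hy with h | h | h
    · exact (Subgroup.zpowers_le.mpr (Subgroup.subset_closure (by simp))) h
    · exact (Subgroup.zpowers_le.mpr (Subgroup.subset_closure (by simp))) h
    · exact (Subgroup.zpowers_le.mpr (Subgroup.subset_closure (by simp))) h
  have m1 := Subgroup.mem_zpowers g₁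
  have m2 := Subgroup.mem_zpowers g₂
  have m3 := Subgroup.mem_zpowers g₃
  have hcomm_pair : ∀ A ∈ I, ∀ B ∈ I, ∀ g : P, (∀ x, A x = x ↔ x ∈ Subgroup.zpowers g) →
      (∀ x ∈ Subgroup.zpowers g, B x = x⁻¹) → ∀ x y, B x = x → B y = y → x * y = y * x := by
    intro A hA B hB g hg hBg x y hx hy
    exact h24e8_comm_of_fpf hodd A (hinv A hA) (h24e8Fix B)
      (fun z hz => by
        show B (A z) = A z
        rw [hcx B hB A hA, show B z = z from hz])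
      (fun z hz hAz => h24e8_inv_self hodd z (by
        have := hBg z ((hg z).mp hAz)
        rw [show B z = z from hz] at this
        exact this)) x hx y hy
  have c12 : g₁ * g₂ = g₂ * g₁ :=
    hcomm_pair _ hI12 T₃ hT₃ g₃ hg₃ a33 g₁ g₂ (a31 g₁ m1) (a32 g₂ m2)
  have c13 : g₁ * g₃ = g₃ * g₁ :=
    hcomm_pair _ hI13 T₂ hT₂ g₂ hg₂ a22 g₁ g₃ (a21 g₁ m1) (a23 g₃ m3)
  have c23 : g₂ * g₃ = g₃ * g₂ :=
    hcomm_pair _ hI23 T₁ hT₁ g₁ hg₁ a11 g₂ g₃ (a12 g₂ m2) (a13 g₃ m3)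
  have hcommP : ∀ x y : P, x * y = y * x := h24e8_comm_of_gen {g₁, g₂, g₃} hgen3 (by
    intro x hx y hy
    simp only [Set.mem_insert_iff, Set.mem_singleton_iff] at hx hy
    rcases hx with hx | hx | hx <;> rcases hy with hy | hy | hy <;> rw [hx, hy] <;>
      first | exact c12 | exact c13 | exact c23 | exact c12.symm | exact c13.symm | exact c23.symm)
  have hT₀inv : ∀ x, (T₁ * T₂ * T₃) x = x⁻¹ :=
    h24e8_inv_of_gen hcommP {g₁, g₂, g₃} hgen3 (T₁ * T₂ * T₃) (by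
      intro s hs
      simp only [Set.mem_insert_iff, Set.mem_singleton_iff] at hs
      rcases hs with h | h | h
      · rw [h]
        show T₁ (T₂ (T₃ g₁)) = g₁⁻¹
        rw [a31 _ m1, a21 _ m1, a11 _ m1]
      · rw [h]
        show T₁ (T₂ (T₃ g₂)) = g₂⁻¹
        rw [a32 _ m2, a22 _ m2, map_inv, a12 _ m2]
      · rw [h]
        show T₁ (T₂ (T₃ g₃)) = g₃⁻¹
        rw [a33 _ m3, map_inv, map_inv, a23 _ m3, a13 _ m3])
  have hT₀nb : ∃ g : P, ∀ x : P, ((T₁ * T₂ * T₃) x = x ↔ x ∈ Subgroup.zpowers g) :=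
    ⟨1, fun x => by
      rw [hT₀inv, Subgroup.zpowers_one_eq_bot, Subgroup.mem_bot]
      constructor
      · intro h; exact h24e8_inv_self hodd x h.symm
      · intro h; rw [h, inv_one]⟩
  have hBset : {T : MulAut P | T ∈ I ∧ T ≠ 1 ∧
      ¬ ∃ g : P, ∀ x : P, (T x = x ↔ x ∈ Subgroup.zpowers g)} = {T₁, T₂, T₃} := by
    ext T
    simp only [Set.mem_setOf_eq, Set.mem_insert_iff, Set.mem_singleton_iff]
    constructor
    · rintro ⟨hT, hT1, hTb⟩
      rcases hpar T hT with h | h | h | h | h | h | h | h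
      · exact absurd h hT1
      · exact Or.inl h
      · exact Or.inr (Or.inl h)
      · exact Or.inr (Or.inr h)
      · exact absurd (hdisj T (by rw [h]; exact hP12) hT1) hTb
      · exact absurd (hdisj T (by rw [h]; exact hP13) hT1) hTb
      · exact absurd (hdisj T (by rw [h]; exact hP23) hT1) hTb
      · exact absurd (by rw [h]; exact hT₀nb) hTb
    · rintro (h | h | h)
      · rw [h]; exact ⟨hT₁, hT₁1, hB1⟩
      · rw [h]; exact ⟨hT₂, hT₂1, hB2⟩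
      · rw [h]; exact ⟨hT₃, hT₃1, hB3⟩
  refine ⟨⟨⟨hcommP⟩⟩, ⟨g₁, g₂, g₃, hgen3⟩, ?_, ?_, ?_, ?_⟩
  · -- not two-generated
    rintro ⟨a, b, hab⟩
    have hw1C : w₁ ∈ Subgroup.zpowers g₁ := (hg₁ w₁).mp hF1
    have hw2C : w₂ ∈ Subgroup.zpowers g₂ := (hg₂ w₂).mp hF2
    have hw3C : w₃ ∈ Subgroup.zpowers g₃ := (hg₃ w₃).mp hF3
    obtain ⟨z₁, hz₁, hz₁1, hz₁p⟩ := h24e8_ordp hP _ w₁ hw1C hw₁
    obtain ⟨z₂, hz₂, hz₂1, hz₂p⟩ := h24e8_ordp hP _ w₂ hw2C hw₂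
    obtain ⟨z₃, hz₃, hz₃1, hz₃p⟩ := h24e8_ordp hP _ w₃ hw3C hw₃
    have h1 : Subgroup.zpowers z₁ ≠ ⊥ := by
      intro h
      have : z₁ ∈ (⊥ : Subgroup P) := by rw [← h]; exact Subgroup.mem_zpowers z₁
      exact hz₁1 (Subgroup.mem_bot.mp this)
    have h12' : Subgroup.zpowers z₁ < Subgroup.closure {z₁, z₂} := by
      refine lt_of_le_of_ne (Subgroup.zpowers_le.mpr (Subgroup.subset_closure (by simp))) ?_
      intro h
      have hz : z₂ ∈ Subgroup.zpowers z₁ := by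
        rw [h]; exact Subgroup.subset_closure (by simp)
      have hz' : z₂ ∈ Subgroup.zpowers g₁ := (Subgroup.zpowers_le.mpr hz₁) hz
      have e1 := a21 z₂ hz'
      rw [a22 z₂ hz₂] at e1
      exact hne z₂ hz₂1 e1
    have h23' : Subgroup.closure {z₁, z₂} < Subgroup.closure {z₁, z₂, z₃} := by
      refine lt_of_le_of_ne (Subgroup.closure_mono (by
        intro x hx
        simp only [Set.mem_insert_iff, Set.mem_singleton_iff] at hx ⊢
        rcases hx with hx | hx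
        · exact Or.inl hx
        · exact Or.inr (Or.inl hx))) ?_
      intro h
      have hz : z₃ ∈ Subgroup.closure {z₁, z₂} := by
        rw [h]; exact Subgroup.subset_closure (by simp)
      have hle : Subgroup.closure {z₁, z₂} ≤ h24e8Fix T₃ := by
        apply (Subgroup.closure_le _).mpr
        intro x hx
        simp only [Set.mem_insert_iff, Set.mem_singleton_iff] at hx
        rcases hx with hx | hx
        · rw [hx]; exact a31 z₁ hz₁
        · rw [hx]; exact a32 z₂ hz₂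
      have e1 : T₃ z₃ = z₃ := hle hz
      rw [a33 z₃ hz₃] at e1
      exact hne z₃ hz₃1 e1
    have h3 : ∀ x ∈ Subgroup.closure {z₁, z₂, z₃}, x ^ p = 1 := by
      intro x hx
      induction hx using Subgroup.closure_induction with
      | mem y hy =>
        simp only [Set.mem_insert_iff, Set.mem_singleton_iff] at hy
        rcases hy with hy | hy | hy
        · rw [hy]; exact hz₁p
        · rw [hy]; exact hz₂p
        · rw [hy]; exact hz₃p
      | one => exact one_pow p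
      | mul y z _ _ ihy ihz =>
        have hc : Commute y z := hcommP y z
        rw [hc.mul_pow, ihy, ihz, one_mul]
      | inv y _ ih => rw [inv_pow, ih, inv_one]
    exact h24e8_rank2 hcommP hp hP a b hab _ _ _ h1 h12' h23' h3
  · have hcard : Nat.card ↥({T₁, T₂, T₃} : Set (MulAut P)) = 3 := by
      rw [Nat.card_coe_set_eq, Set.ncard_eq_three]
      exact ⟨T₁, T₂, T₃, hT12, hT13, hT23, rfl⟩
    rw [← hBset] at hcard
    exact hcard
  · rw [hBset]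
    apply le_antisymm
    · apply (Subgroup.closure_le _).mpr
      intro T hT
      simp only [Set.mem_insert_iff, Set.mem_singleton_iff] at hT
      rcases hT with h | h | h
      · rw [h]; exact hT₁
      · rw [h]; exact hT₂
      · rw [h]; exact hT₃
    · intro R hR
      have k1 : T₁ ∈ Subgroup.closure ({T₁, T₂, T₃} : Set (MulAut P)) :=
        Subgroup.subset_closure (by simp)
      have k2 : T₂ ∈ Subgroup.closure ({T₁, T₂, T₃} : Set (MulAut P)) :=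
        Subgroup.subset_closure (by simp)
      have k3 : T₃ ∈ Subgroup.closure ({T₁, T₂, T₃} : Set (MulAut P)) :=
        Subgroup.subset_closure (by simp)
      rcases hpar R hR with h | h | h | h | h | h | h | h
      · rw [h]; exact Subgroup.one_mem _
      · rw [h]; exact k1
      · rw [h]; exact k2
      · rw [h]; exact k3
      · rw [h]; exact Subgroup.mul_mem _ k1 k2
      · rw [h]; exact Subgroup.mul_mem _ k1 k3
      · rw [h]; exact Subgroup.mul_mem _ k2 k3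
      · rw [h]; exact Subgroup.mul_mem _ (Subgroup.mul_mem _ k1 k2) k3
  · ext S
    constructor
    · intro hS
      rcases hI₀char S hS with h | h | h | h
      · exact ⟨T₁, T₁, hT₁, hT₁, hT₁1, hT₁1, hB1, hB1, by rw [h, hsq T₁ hT₁]⟩
      · exact ⟨T₁, T₂, hT₁, hT₂, hT₁1, hT₂1, hB1, hB2, h⟩
      · exact ⟨T₁, T₃, hT₁, hT₃, hT₁1, hT₃1, hB1, hB3, h⟩
      · exact ⟨T₂, T₃, hT₂, hT₃, hT₂1, hT₃1, hB2, hB3, h⟩
    · rintro ⟨T, T', hT, hT', hT1, hT'1, hTb, hT'b, rfl⟩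
      exact hprod T hT T' hT' hT1 hT'1 hTb hT'b

end Cfsg.Agent.S4412
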