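import Cfsg.Statements.S4420

set_option autoImplicit false
open Cfsg

namespace Cfsg.Agent.S4420

theorem case2 {H : Type*} [Group H] [Finite H] (A : Subgroup H) (hA : A ≠ ⊤)
    (hD : ∀ x : H, x ∉ A → x ^ 2 = 1) (a0 : H) (ha0 : a0 ^ 2 ≠ 1) :
    A.Normal ∧ IsMulCommutative ↥A ∧ A.index = 2 ∧
      (∀ x : H, x ∉ A → x ^ 2 = 1 ∧ ∀ b ∈ A, x * b * x⁻¹ = b⁻¹) ∧
        ∀ B' : Subgroup H, B'.Normal → IsMulCommutative ↥B' → B'.index = 2 →
          (∀ x : H, x ∉ B' → x ^ 2 = 1 ∧ ∀ b ∈ B', x * b * x⁻¹ = b⁻¹) → B' = A := by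
  have ha0A : a0 ∈ A := by
    by_contra h
    exact ha0 (hD a0 h)
  have hinv : ∀ x : H, x ∉ A → ∀ a ∈ A, x * a * x⁻¹ = a⁻¹ := by
    intro x hx a ha
    have hxa : x * a ∉ A := fun h => hx (by simpa using A.mul_mem h (A.inv_mem ha))
    have h1 := hD _ hxa
    have h2 := hD _ hx
    have hxinv : x⁻¹ = x := by
      rw [inv_eq_iff_mul_eq_one, ← sq, h2]
    rw [hxinv, eq_inv_iff_mul_eq_one, ← h1, sq]
    group
  obtain ⟨x0, hx0⟩ : ∃ x0, x0 ∉ A := by
    by_contra h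
    push Not at h
    exact hA ((Subgroup.eq_top_iff' A).2 h)
  have hcomm : ∀ a ∈ A, ∀ b ∈ A, a * b = b * a := by
    intro a ha b hb
    have h1 := hinv x0 hx0 (a * b) (A.mul_mem ha hb)
    have h2 := hinv x0 hx0 a ha
    have h3 := hinv x0 hx0 b hb
    have h4 : x0 * (a * b) * x0⁻¹ = (x0 * a * x0⁻¹) * (x0 * b * x0⁻¹) := by group
    rw [h4, h2, h3, mul_inv_rev] at h1
    have h5 := congrArg (fun t => t⁻¹) h1
    simpa using h5.symm
  have hprod : ∀ x y : H, x ∉ A → y ∉ A → x * y ∈ A := by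
    intro x y hx hy
    by_contra hxy
    have h1 := hinv _ hxy a0 ha0A
    have h2 := hinv x hx a0 ha0A
    have h3 := hinv y hy a0 ha0A
    have h4 : x * y * a0 * (x * y)⁻¹ = x * (y * a0 * y⁻¹) * x⁻¹ := by group
    rw [h4, h3] at h1
    have h5 : x * a0⁻¹ * x⁻¹ = a0 := by
      have h6 : x * a0⁻¹ * x⁻¹ = (x * a0 * x⁻¹)⁻¹ := by group
      rw [h6, h2, inv_inv]
    rw [h5] at h1
    apply ha0
    rw [sq]
    nth_rewrite 2 [h1]
    exact mul_inv_cancel a0
  have hidx : A.index = 2 := by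
    rw [Subgroup.index_eq_two_iff_exists_notMem_and]
    refine ⟨x0, hx0, fun b => ?_⟩
    by_cases hb : b ∈ A
    · exact Or.inr hb
    · exact Or.inl (hprod b x0 hb hx0)
  refine ⟨Subgroup.normal_of_index_eq_two hidx, ⟨⟨fun a b => Subtype.ext (hcomm a a.2 b b.2)⟩⟩,
    hidx, fun x hx => ⟨hD x hx, hinv x hx⟩, ?_⟩
  intro B' _ hB'c _ hB'
  have ha0B : a0 ∈ B' := by
    by_contra h
    exact ha0 (hB' a0 h).1
  have hne : a0⁻¹ ≠ a0 := by
    intro h
    apply ha0
    rw [sq]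
    nth_rewrite 1 [← h]
    exact inv_mul_cancel a0
  apply le_antisymm
  · intro x hx
    by_contra hxA
    have h1 := hinv x hxA a0 ha0A
    have h2 : x * a0 = a0 * x := congrArg Subtype.val (hB'c.is_comm.comm ⟨x, hx⟩ ⟨a0, ha0B⟩)
    rw [h2, mul_inv_cancel_right] at h1
    exact hne h1.symm
  · intro x hx
    by_contra hxB
    have h1 := (hB' x hxB).2 a0 ha0B
    have h2 : x * a0 = a0 * x := hcomm x hx a0 ha0A
    rw [h2, mul_inv_cancel_right] at h1
    exact hne h1.symm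

theorem case1 {H : Type*} [Group H] [Finite H] (A : Subgroup H) (hA : A ≠ ⊤)
    (h2 : ∀ x : H, x ^ 2 = 1) :
    ∃ B : Subgroup H, B.Normal ∧ IsMulCommutative ↥B ∧ B.index = 2 ∧
      (∀ x : H, x ∉ B → x ^ 2 = 1 ∧ ∀ b ∈ B, x * b * x⁻¹ = b⁻¹) ∧ IsMulCommutative H := by
  have hinv : ∀ a : H, a⁻¹ = a := by
    intro a
    rw [inv_eq_iff_mul_eq_one, ← sq, h2]
  have hcomm : ∀ a b : H, a * b = b * a := by
    intro a b
    have h1 := hinv (a * b)
    rw [mul_inv_rev, hinv a, hinv b] at h1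
    exact h1.symm
  have hp : IsPGroup 2 H := fun g => ⟨1, by rw [pow_one]; exact h2 g⟩
  obtain ⟨n, hn⟩ := IsPGroup.iff_card.1 hp
  have hnt : Nontrivial H := by
    by_contra h
    rw [not_nontrivial_iff_subsingleton] at h
    exact hA (Subsingleton.elim _ _)
  have hn0 : n ≠ 0 := by
    rintro rfl
    rw [pow_zero] at hn
    have h3 := Finite.one_lt_card (α := H)
    omega
  obtain ⟨B, hB⟩ := Sylow.exists_subgroup_card_pow_prime 2 (n := n - 1) (G := H)
    (by rw [hn]; exact pow_dvd_pow 2 (Nat.sub_le n 1))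
  have hidx : B.index = 2 := by
    have h := B.card_mul_index
    rw [hB, hn] at h
    have h' : 2 ^ (n - 1) * B.index = 2 ^ (n - 1) * 2 := by
      rw [h, ← pow_succ]
      congr 1
      omega
    exact Nat.eq_of_mul_eq_mul_left (by positivity) h'
  refine ⟨B, ⟨fun b hb g => by rw [hcomm g b, mul_inv_cancel_right]; exact hb⟩,
    ⟨⟨fun a b => Subtype.ext (hcomm a b)⟩⟩, hidx, fun x _ => ⟨h2 x, fun b _ => ?_⟩, ⟨⟨hcomm⟩⟩⟩
  rw [hcomm x b, mul_inv_cancel_right]
  exact (hinv b).symm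

/-- Structure of groups in which every element outside some proper subgroup has square 1. Let H be a finite group with a proper subgroup A such that every element outside A has square 1. Then H has an abelian normal subgroup B of index 2 such that every element outside B is an involution inverting every element of B; and if H is not an elementary abelian 2-group, B is the only abelian normal subgroup of index 2 with this property. -/
theorem result {H : Type*} [Group H] [Finite H] (A : Subgroup H) (hA : A ≠ ⊤) (hD : ∀ x : H, x ∉ A → x ^ 2 = 1) :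
    ∃ B : Subgroup H, B.Normal ∧ IsMulCommutative ↥B ∧ B.index = 2 ∧
      (∀ x : H, x ∉ B → x ^ 2 = 1 ∧ ∀ b ∈ B, x * b * x⁻¹ = b⁻¹) ∧
      (¬ (IsMulCommutative H ∧ ∀ x : H, x ^ 2 = 1) →
        ∀ B' : Subgroup H, B'.Normal → IsMulCommutative ↥B' → B'.index = 2 →
          (∀ x : H, x ∉ B' → x ^ 2 = 1 ∧ ∀ b ∈ B', x * b * x⁻¹ = b⁻¹) → B' = B) := by
  by_cases h : ∀ x : H, x ^ 2 = 1
  · obtain ⟨B, hBn, hBc, hidx, hprop, hHc⟩ := case1 A hA h
    exact ⟨B, hBn, hBc, hidx, hprop, fun hneg => absurd ⟨hHc, h⟩ hneg⟩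
  · push Not at h
    obtain ⟨a0, ha0⟩ := h
    obtain ⟨h1, h2, h3, h4, h5⟩ := case2 A hA hD a0 ha0
    exact ⟨A, h1, h2, h3, h4, fun _ => h5⟩

end Cfsg.Agent.S4420
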