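import Cfsg.Statements.S4464
import Cfsg.Agent.Helper24.TISmall
import Cfsg.Agent.Helper24.Ito
import Cfsg.Agent.Helper2.TwoDegD

set_option autoImplicit false
open Cfsg

namespace Cfsg.Agent.S4464


open scoped Pointwise

universe u

/-- inheritance of the degree bound to subgroups -/
theorem s4464_sub {G : Type u} [Group G] [Finite G] (p : ℕ)
    (hb : ∀ χ : IrrCharacter G, charDegree (χ : G → ℂ) < p) (H : Subgroup G)
    (ψ : IrrCharacter H) : charDegree (ψ : H → ℂ) < p := by
  classical
  letI := Fintype.ofFinite G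
  letI : Fintype H := Fintype.ofFinite H
  obtain ⟨χ, hχ⟩ := Cfsg.Agent.Helper24.exists_irr_over H ψ
  have h1 := Cfsg.Agent.Helper2.constituent_degree_le
    (Cfsg.Agent.Helper2.isCharacter_restrict H (Cfsg.Agent.Helper25.irr_isCharacter χ)) ψ hχ
    (charDegree (χ : G → ℂ)) (by
      show (χ : G → ℂ) ((1 : H) : G) = _
      rw [Subgroup.coe_one]
      exact Cfsg.Agent.Helper25.irr_one_eq_degree χ)
  exact lt_of_le_of_lt h1 (hb χ)

/-- inheritance of the degree bound to quotients -/
theorem s4464_quot {G : Type u} [Group G] [Finite G] (p : ℕ)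
    (hb : ∀ χ : IrrCharacter G, charDegree (χ : G → ℂ) < p) (N : Subgroup G) [N.Normal]
    (χ : IrrCharacter (G ⧸ N)) : charDegree (χ : G ⧸ N → ℂ) < p := by
  have hirr := Cfsg.Agent.Helper2.isIrrCharacter_comp_of_surjective (QuotientGroup.mk' N)
    (QuotientGroup.mk'_surjective N) χ.2
  have h0 := hb ⟨_, hirr⟩
  have e : charDegree (fun g : G => (χ : G ⧸ N → ℂ) (QuotientGroup.mk' N g)) =
      charDegree (χ : G ⧸ N → ℂ) := by
    have h1 := Cfsg.Agent.Helper25.irr_one_eq_degree (⟨_, hirr⟩ : IrrCharacter G)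
    have h2 := Cfsg.Agent.Helper25.irr_one_eq_degree χ
    simp only [map_one] at h1
    rw [h2] at h1
    exact (Nat.cast_injective h1).symm
  rwa [e] at h0

/-- the Sylow subgroup is abelian -/
theorem s4464_abel {G : Type u} [Group G] [Finite G] (p : ℕ) [Fact p.Prime]
    (hb : ∀ χ : IrrCharacter G, charDegree (χ : G → ℂ) < p) (P : Sylow p G) :
    ∀ a b : (P : Subgroup G), a * b = b * a := by
  apply Cfsg.Agent.Helper24.comm_of_all_linear
  intro ψ
  have h1 := s4464_sub p hb (P : Subgroup G) ψ
  have h2 := Cfsg.Agent.Helper25.irr_degree_dvd_card ψ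
  obtain ⟨a, ha⟩ := IsPGroup.iff_card.mp P.2
  rw [ha] at h2
  obtain ⟨j, _, hj⟩ := (Nat.dvd_prime_pow (Fact.out : p.Prime)).mp h2
  rw [hj] at h1 ⊢
  have hj0 : j = 0 := by
    by_contra h
    have : p ≤ p ^ j := Nat.le_self_pow h p
    omega
  rw [hj0, pow_zero]

theorem s4464_normal (p : ℕ) [Fact p.Prime] : ∀ (n : ℕ) (G : Type u) [Group G] [Finite G],
    Nat.card G = n → (∀ χ : IrrCharacter G, charDegree (χ : G → ℂ) < p) →
    ∀ P : Sylow p G, (P : Subgroup G).Normal := by
  intro n
  induction n using Nat.strong_induction_on with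
  | _ n ih =>
  intro G _ _ hn hb P
  classical
  have hp : p.Prime := Fact.out
  have hab := s4464_abel p hb P
  have habG : ∀ x ∈ (P : Subgroup G), ∀ y ∈ (P : Subgroup G), x * y = y * x := fun x hx y hy =>
    congrArg Subtype.val (hab ⟨x, hx⟩ ⟨y, hy⟩)
  by_cases hcen : ∃ D : Subgroup G, D ≠ ⊥ ∧ D ≤ (P : Subgroup G) ∧ D ≤ Subgroup.center G
  · obtain ⟨D, hD1, hDP, hDZ⟩ := hcen
    haveI : D.Normal := by
      constructor
      intro d hd g
      have h1 := Subgroup.mem_center_iff.mp (hDZ hd) g
      rw [h1, mul_inv_cancel_right]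
      exact hd
    have hcard : Nat.card (G ⧸ D) < n := by
      have h1 : Nat.card G = Nat.card (G ⧸ D) * Nat.card D :=
        Subgroup.card_eq_card_quotient_mul_card_subgroup D
      have h2 : 1 < Nat.card D := by
        have h5 : Nat.card D ≠ 1 := fun h => hD1 (Subgroup.card_eq_one.mp h)
        have h6 : 0 < Nat.card D := Nat.card_pos
        omega
      have h3 : 0 < Nat.card (G ⧸ D) := Nat.card_pos
      rw [← hn, h1]
      nlinarith
    have hq := ih _ hcard (G ⧸ D) rfl (s4464_quot p hb D)
      (P.mapSurjective (QuotientGroup.mk'_surjective D))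
    rw [Sylow.coe_mapSurjective] at hq
    have h4 : ((P : Subgroup G).map (QuotientGroup.mk' D)).comap (QuotientGroup.mk' D)
        = (P : Subgroup G) := by
      rw [Subgroup.comap_map_eq, QuotientGroup.ker_mk', sup_eq_left.mpr hDP]
    rw [← h4]
    exact hq.comap _
  · have hTI : ∀ g : G, g ∉ Subgroup.normalizer ((P : Subgroup G) : Set G) →
        (P : Subgroup G) ⊓ (MulAut.conj g • (P : Subgroup G)) = ⊥ := by
      intro g hg
      by_contra hD
      obtain ⟨D, hDdef⟩ : ∃ D : Subgroup G, D = (P : Subgroup G) ⊓ (MulAut.conj g • (P : Subgroup G)) :=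
        ⟨_, rfl⟩
      rw [← hDdef] at hD
      obtain ⟨C, hC⟩ : ∃ C : Subgroup G, C = Subgroup.centralizer (D : Set G) := ⟨_, rfl⟩
      have hconj : ∀ x ∈ MulAut.conj g • (P : Subgroup G), g⁻¹ * x * g ∈ (P : Subgroup G) := by
        intro x hx
        have h1 := Subgroup.mem_pointwise_smul_iff_inv_smul_mem.mp hx
        simpa [MulAut.smul_def] using h1
      have hPC : (P : Subgroup G) ≤ C := by
        intro x hx
        rw [hC, Subgroup.mem_centralizer_iff]
        intro d hd
        rw [SetLike.mem_coe, hDdef] at hd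
        exact habG d hd.1 x hx
      have hPgC : MulAut.conj g • (P : Subgroup G) ≤ C := by
        intro x hx
        rw [hC, Subgroup.mem_centralizer_iff]
        intro d hd
        rw [SetLike.mem_coe, hDdef] at hd
        have h := habG _ (hconj d hd.2) _ (hconj x hx)
        have e1 : d * x = g * ((g⁻¹ * d * g) * (g⁻¹ * x * g)) * g⁻¹ := by group
        rw [e1, h]
        group
      have hCne : C ≠ ⊤ := by
        intro hCtop
        apply hcen
        refine ⟨D, hD, ?_, ?_⟩
        · rw [hDdef]; exact inf_le_left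
        · rw [hC] at hCtop
          exact Subgroup.centralizer_eq_top_iff_subset.mp hCtop
      have hCcard : Nat.card C < n := by
        rw [← hn]
        exact lt_of_le_of_ne (Subgroup.card_le_card_group C)
          (fun h => hCne (Subgroup.eq_top_of_card_eq C h))
      have hPg : ((g • P : Sylow p G) : Subgroup G) = MulAut.conj g • (P : Subgroup G) := rfl
      have hPgC' : ((g • P : Sylow p G) : Subgroup G) ≤ C := by rw [hPg]; exact hPgC
      have hQ1n : ((P.subtype hPC : Sylow p C) : Subgroup C).Normal :=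
        ih _ hCcard C rfl (s4464_sub p hb C) (P.subtype hPC)
      obtain ⟨c, hc⟩ := MulAction.exists_smul_eq C (P.subtype hPC) ((g • P).subtype hPgC')
      have hQ : P.subtype hPC = (g • P).subtype hPgC' := by
        rw [← hc]
        exact (Sylow.smul_eq_of_normal).symm
      have h5 : (P : Subgroup G).subgroupOf C = (MulAut.conj g • (P : Subgroup G)).subgroupOf C := by
        have h := congrArg (fun Q : Sylow p C => (Q : Subgroup C)) hQ
        simp only [Sylow.coe_subtype] at h
        rw [hPg] at h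
        exact h
      have h6 : (P : Subgroup G) = MulAut.conj g • (P : Subgroup G) := by
        have h := Subgroup.subgroupOf_inj.mp h5
        rwa [inf_eq_left.mpr hPC, inf_eq_left.mpr hPgC] at h
      exact hg (Sylow.smul_eq_iff_mem_normalizer.mp (Sylow.ext h6.symm))
    by_cases hP1 : (P : Subgroup G) = ⊥
    · rw [hP1]
      infer_instance
    have hPcard : p ≤ Nat.card (P : Subgroup G) := by
      obtain ⟨a, ha⟩ := IsPGroup.iff_card.mp P.2
      have ha0 : a ≠ 0 := by
        rintro rfl
        apply hP1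
        rw [pow_zero] at ha
        exact Subgroup.card_eq_one.mp ha
      rw [ha]
      exact Nat.le_self_pow ha0 p
    have hN := Cfsg.Agent.Helper24.ti_small_degree p P hTI
      (fun χ _ => lt_of_lt_of_le (hb χ) hPcard)
    exact Subgroup.normalizer_eq_top_iff.mp hN

/-- Let p be a prime and G a finite group all of whose irreducible character degrees are less than p. Then G has a normal abelian Sylow p-subgroup. -/
theorem result {G : Type*} [Group G] [Finite G] (p : ℕ) (hp : p.Prime) (hb : ∀ χ : Cfsg.IrrCharacter G, Cfsg.charDegree (χ : G → ℂ) < p) : ∃ P : Subgroup G, P.Normal ∧ (∀ x ∈ P, ∀ y ∈ P, x * y = y * x) ∧ IsPGroup p P ∧ ¬ p ∣ P.index := by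
  haveI : Fact p.Prime := ⟨hp⟩
  obtain ⟨P⟩ : Nonempty (Sylow p G) := inferInstance
  refine ⟨P, s4464_normal p _ G rfl hb P, ?_, P.2, P.not_dvd_index⟩
  intro x hx y hy
  exact congrArg Subtype.val (s4464_abel p hb P ⟨x, hx⟩ ⟨y, hy⟩)

end Cfsg.Agent.S4464
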