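import Mathlib
import Cfsg.Statements.S4477
import Cfsg.Agent.Lead.FS2
import Cfsg.Agent.S4058

set_option autoImplicit false
open Cfsg

namespace Cfsg.Agent.S4477

open Cfsg.Agent.Helper25 Cfsg.Agent.Lead.FS
open scoped commutatorElement

/-- Two units of `ℂ` of square one, both different from one, are equal. -/
theorem units_eq_of_sq (u v : ℂˣ) (hu : u ^ 2 = 1) (hv : v ^ 2 = 1) (hu1 : u ≠ 1) (hv1 : v ≠ 1) :
    u = v := by
  have hu' : (u : ℂ) * (u : ℂ) = 1 := by
    have := congrArg Units.val hu
    simpa [pow_two] using this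
  have hv' : (v : ℂ) * (v : ℂ) = 1 := by
    have := congrArg Units.val hv
    simpa [pow_two] using this
  rcases mul_self_eq_one_iff.mp hu' with h | h
  · exact absurd (Units.ext h) hu1
  · rcases mul_self_eq_one_iff.mp hv' with h' | h'
    · exact absurd (Units.ext h') hv1
    · exact Units.ext (h.trans h'.symm)

open Classical in
/-- For a finite 2-group acting on a finite set, the sum of an invariant integer function over
the non-fixed points is even. -/
theorem even_sum_nonfixed {Λ X : Type*} [Group Λ] [Finite Λ] [MulAction Λ X] [Fintype X]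
    (hΛ : IsPGroup 2 Λ) (F : X → ℤ) (hF : ∀ (l : Λ) (x : X), F (l • x) = F x) :
    (2 : ℤ) ∣ ∑ x, (if ∀ l : Λ, l • x = x then 0 else F x) := by
  classical
  apply Cfsg.Agent.S4058.dvd_sum_of_orbit (Λ := Λ)
  · intro l x
    have hiff : (∀ l' : Λ, l' • (l • x) = l • x) ↔ (∀ l' : Λ, l' • x = x) := by
      constructor
      · intro h l'
        have h1 := h (l * l' * l⁻¹)
        rw [← mul_smul, mul_assoc, inv_mul_cancel, mul_one, mul_smul] at h1
        exact smul_left_cancel l h1
      · intro h l'
        have h1 := h (l⁻¹ * l' * l)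
        rw [mul_smul, mul_smul, inv_smul_eq_iff] at h1
        exact h1
    simp only [hiff, hF]
  · intro x
    by_cases hx : ∀ l : Λ, l • x = x
    · simp [hx]
    · rw [if_neg hx]
      have hx' : ∃ l : Λ, l • x ≠ x := by
        by_contra hcon
        exact hx (fun l => by_contra (fun h => hcon ⟨l, h⟩))
      obtain ⟨l, hl⟩ := hx'
      have hidx : Nat.card (MulAction.orbit Λ x) = (MulAction.stabilizer Λ x).index := by
        rw [MulAction.index_stabilizer, Nat.card_coe_set_eq]
      have hne : (MulAction.stabilizer Λ x).index ≠ 1 := by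
        intro h1
        rw [Subgroup.index_eq_one] at h1
        have : l ∈ MulAction.stabilizer Λ x := by
          rw [h1]
          trivial
        exact hl this
      obtain ⟨n, hn⟩ := IsPGroup.iff_card.mp hΛ
      have hdvd : (MulAction.stabilizer Λ x).index ∣ 2 ^ n := by
        rw [← hn]
        exact Subgroup.index_dvd_card _
      obtain ⟨j, hj, hj2⟩ := (Nat.dvd_prime_pow Nat.prime_two).mp hdvd
      have hj0 : j ≠ 0 := by
        rintro rfl
        exact hne (by simpa using hj2)
      rw [hidx, hj2]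
      exact Dvd.dvd.mul_right (by exact_mod_cast dvd_pow_self 2 hj0) _

open Classical in
/-- A finite 2-group acting on a finite set with an invariant integer function of odd total
sum has a fixed point at which the function is odd. -/
theorem exists_fixed_of_odd {Λ X : Type*} [Group Λ] [Finite Λ] [MulAction Λ X] [Fintype X]
    (hΛ : IsPGroup 2 Λ) (F : X → ℤ) (hF : ∀ (l : Λ) (x : X), F (l • x) = F x)
    (hodd : Odd (∑ x, F x)) : ∃ x, Odd (F x) ∧ ∀ l : Λ, l • x = x := by
  classical
  by_contra hcon
  have h1 := even_sum_nonfixed hΛ F hF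
  have h2 : (2 : ℤ) ∣ ∑ x, (if ∀ l : Λ, l • x = x then F x else 0) := by
    apply Finset.dvd_sum
    intro x _
    by_cases hx : ∀ l : Λ, l • x = x
    · rw [if_pos hx]
      have : ¬ Odd (F x) := fun h => hcon ⟨x, h, hx⟩
      exact even_iff_two_dvd.mp (Int.not_odd_iff_even.mp this)
    · rw [if_neg hx]
      exact dvd_zero _
  have h3 : ∑ x, F x = ∑ x, (if ∀ l : Λ, l • x = x then F x else 0) +
      ∑ x, (if ∀ l : Λ, l • x = x then 0 else F x) := by
    rw [← Finset.sum_add_distrib]
    refine Finset.sum_congr rfl (fun x _ => ?_)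
    by_cases hx : ∀ l : Λ, l • x = x <;> simp [hx]
  have h4 : (2 : ℤ) ∣ ∑ x, F x := by
    rw [h3]
    exact dvd_add h2 h1
  exact (Int.not_even_iff_odd.mpr hodd) (even_iff_two_dvd.mpr h4)

/-- Let G be a finite 2-group whose number of involutions is congruent to 1 modulo 4. Then G is cyclic or its commutator subgroup has index 4. -/
theorem result {G : Type*} [Group G] [Finite G] (hG : IsPGroup 2 G) (ht : Nat.card {x : G // orderOf x = 2} % 4 = 1) : IsCyclic G ∨ (commutator G).index = 4 := by
  classical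
  by_cases hcyc : IsCyclic G
  · exact Or.inl hcyc
  right
  have hodd0 : ¬ Odd (0 : ℤ) := by simp
  haveI := Fintype.ofFinite G
  haveI : Fact (Nat.Prime 2) := ⟨Nat.prime_two⟩
  -- squares and commutators lie in the Frattini subgroup
  have hmemΦ : ∀ x : G, (∀ M : Subgroup G, IsCoatom M → x ∈ M) → x ∈ frattini G := by
    intro x hx
    simp only [frattini, Order.radical, Subgroup.mem_iInf, Set.mem_ofPred_eq]
    exact hx
  have hsq : ∀ x : G, x ^ 2 ∈ frattini G := fun x =>
    hmemΦ _ (fun M hM => (Cfsg.Agent.S4058.coatom_pgroup hG M hM).1 x)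
  have hcomm : ∀ x y : G, ⁅x, y⁆ ∈ frattini G := fun x y =>
    hmemΦ _ (fun M hM => (Cfsg.Agent.S4058.coatom_pgroup hG M hM).2 x y)
  letI instQ : CommGroup (G ⧸ frattini G) :=
    { (inferInstance : Group (G ⧸ frattini G)) with
      mul_comm := by
        intro a b
        induction a using QuotientGroup.induction_on with
        | _ x =>
          induction b using QuotientGroup.induction_on with
          | _ y =>
            rw [← QuotientGroup.mk_mul, ← QuotientGroup.mk_mul, QuotientGroup.eq]
            have := hcomm y⁻¹ x⁻¹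
            rw [commutatorElement_def] at this
            simpa [mul_assoc] using this }
  haveI : NeZero (Monoid.exponent (G ⧸ frattini G)) := ⟨Monoid.exponent_ne_zero_of_finite⟩
  have hΛcard : Nat.card ((G ⧸ frattini G) →* ℂˣ) = Nat.card (G ⧸ frattini G) :=
    CommGroup.card_monoidHom_of_hasEnoughRootsOfUnity (G ⧸ frattini G) ℂ
  haveI hΛfin : Finite ((G ⧸ frattini G) →* ℂˣ) := by
    apply Nat.finite_of_card_ne_zero
    rw [hΛcard]
    exact Nat.card_pos.ne'
  haveI := Fintype.ofFinite ((G ⧸ frattini G) →* ℂˣ)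
  -- the action of the dual of the Frattini quotient
  let ψ : ((G ⧸ frattini G) →* ℂˣ) →* (G →* ℂˣ) :=
    MonoidHom.compHom' (QuotientGroup.mk' (frattini G))
  have hψapp : ∀ (l : (G ⧸ frattini G) →* ℂˣ) (g : G), ψ l g = l (QuotientGroup.mk' (frattini G) g) :=
    fun l g => rfl
  have hψinj : Function.Injective ψ := by
    intro a b hab
    refine MonoidHom.ext (fun q => ?_)
    obtain ⟨g, rfl⟩ := QuotientGroup.mk'_surjective (frattini G) q
    have := congrArg (fun φ : G →* ℂˣ => φ g) hab
    simpa [hψapp] using this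
  letI act0 : MulAction (G →* ℂˣ) (IrrCharacter G) := twistAction
  letI act : MulAction ((G ⧸ frattini G) →* ℂˣ) (IrrCharacter G) :=
    MulAction.compHom (IrrCharacter G) ψ
  have hsmul : ∀ (l : (G ⧸ frattini G) →* ℂˣ) (χ : IrrCharacter G), l • χ = twist (ψ l) χ :=
    fun l χ => rfl
  have hlsq : ∀ (l : (G ⧸ frattini G) →* ℂˣ) (g : G), ψ l (g * g) = 1 := by
    intro l g
    rw [hψapp]
    have : QuotientGroup.mk' (frattini G) (g * g) = 1 := by
      rw [← sq]
      exact (QuotientGroup.eq_one_iff _).mpr (hsq g)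
    rw [this, map_one]
  -- the integer indicators
  have hz : ∀ χ : IrrCharacter G, ∃ z : ℤ,
      (Nat.card G : ℂ)⁻¹ * ∑ g : G, (χ : G → ℂ) (g * g) = z := fun χ => fs_int χ
  choose z hzdef using hz
  have hzinv : ∀ (l : (G ⧸ frattini G) →* ℂˣ) (χ : IrrCharacter G), z (l • χ) = z χ := by
    intro l χ
    have h1 := hzdef (l • χ)
    have h2 := hzdef χ
    have h3 : ∀ g : G, ((l • χ : IrrCharacter G) : G → ℂ) (g * g) = (χ : G → ℂ) (g * g) := by
      intro g
      rw [hsmul, twist_apply, hlsq, Units.val_one, one_mul]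
    simp only [h3] at h1
    rw [h2] at h1
    exact_mod_cast h1.symm
  have hdtw : ∀ (f : G →* ℂˣ) (χ : IrrCharacter G),
      charDegree ((twist f χ : IrrCharacter G) : G → ℂ) = charDegree (χ : G → ℂ) := by
    intro f χ
    unfold charDegree
    rw [twist_apply, map_one, Units.val_one, one_mul]
  have hdinv : ∀ (l : (G ⧸ frattini G) →* ℂˣ) (χ : IrrCharacter G),
      charDegree ((l • χ : IrrCharacter G) : G → ℂ) = charDegree (χ : G → ℂ) :=
    fun l χ => hdtw (ψ l) χ
  -- the count as an integer sum
  have hN : (Nat.card {x : G // x ^ 2 = 1} : ℤ) =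
      ∑ χ : IrrCharacter G, z χ * (charDegree (χ : G → ℂ) : ℤ) := by
    have h := card_sq_one (G := G)
    have h' : (Nat.card {x : G // x ^ 2 = 1} : ℂ) =
        ((∑ χ : IrrCharacter G, z χ * (charDegree (χ : G → ℂ) : ℤ) : ℤ) : ℂ) := by
      rw [h]
      push_cast
      refine Finset.sum_congr rfl (fun χ _ => ?_)
      rw [hzdef χ, irr_one_eq_degree]
    exact_mod_cast h'
  -- the count in terms of involutions
  have hcount : Nat.card {x : G // x ^ 2 = 1} = Nat.card {x : G // orderOf x = 2} + 1 := by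
    rw [Nat.card_eq_fintype_card, Nat.card_eq_fintype_card, Fintype.card_subtype,
      Fintype.card_subtype]
    have hsplit : (Finset.univ.filter (fun x : G => x ^ 2 = 1)) =
        insert 1 (Finset.univ.filter (fun x : G => orderOf x = 2)) := by
      ext x
      simp only [Finset.mem_filter, Finset.mem_univ, true_and, Finset.mem_insert]
      rw [orderOf_eq_prime_iff]
      constructor
      · intro h
        by_cases hx : x = 1
        · exact Or.inl hx
        · exact Or.inr ⟨h, hx⟩
      · rintro (h | h)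
        · rw [h, one_pow]
        · exact h.1
    rw [hsplit, Finset.card_insert_of_notMem]
    simp
  have hNmod : (∑ χ : IrrCharacter G, z χ * (charDegree (χ : G → ℂ) : ℤ)) % 4 = 2 := by
    rw [← hN, hcount]
    omega
  -- orders
  obtain ⟨n, hn⟩ := IsPGroup.iff_card.mp hG
  have hQdvd : Nat.card (G ⧸ frattini G) ∣ 2 ^ n := by
    rw [← hn]
    exact Subgroup.card_quotient_dvd_card (frattini G)
  obtain ⟨D, hDn, hD⟩ := (Nat.dvd_prime_pow Nat.prime_two).mp hQdvd
  -- non-cyclic: the Frattini quotient has order at least 4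
  have hD2 : 2 ≤ D := by
    by_contra hcon
    apply hcyc
    have hcycQ : IsCyclic (G ⧸ frattini G) := by
      have hD01 : D = 0 ∨ D = 1 := by omega
      rcases hD01 with rfl | rfl
      · haveI : Subsingleton (G ⧸ frattini G) := by
          rw [← Finite.card_le_one_iff_subsingleton, hD]
          norm_num
        exact isCyclic_of_subsingleton
      · exact isCyclic_of_prime_card (p := 2) (by rw [hD]; norm_num)
    obtain ⟨q, hq⟩ := hcycQ.exists_generator
    obtain ⟨x, rfl⟩ := QuotientGroup.mk'_surjective (frattini G) q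
    have htop : Subgroup.zpowers x ⊔ frattini G = ⊤ := by
      rw [eq_top_iff]
      intro g _
      obtain ⟨k, hk⟩ := Subgroup.mem_zpowers_iff.mp (hq (QuotientGroup.mk' (frattini G) g))
      have h1 : (x ^ k)⁻¹ * g ∈ frattini G := by
        rw [← QuotientGroup.eq, QuotientGroup.mk_zpow]
        exact hk
      have h2 : g = x ^ k * ((x ^ k)⁻¹ * g) := by group
      rw [h2]
      exact Subgroup.mul_mem_sup (Subgroup.zpow_mem_zpowers x k) h1
    have := frattini_nongenerating htop
    exact isCyclic_iff_exists_zpowers_eq_top.mpr ⟨x, this⟩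
  have hΛ4 : 4 ∣ Nat.card ((G ⧸ frattini G) →* ℂˣ) := by
    rw [hΛcard, hD]
    exact pow_dvd_pow 2 hD2
  have hΛp : IsPGroup 2 ((G ⧸ frattini G) →* ℂˣ) := IsPGroup.of_card (hΛcard.trans hD)
  -- degrees are powers of two
  have hdeg : ∀ χ : IrrCharacter G, ∃ a : ℕ, charDegree (χ : G → ℂ) = 2 ^ a := by
    intro χ
    have hddvd : charDegree (χ : G → ℂ) ∣ 2 ^ n := by
      rw [← hn]
      exact irr_degree_dvd_card χ
    obtain ⟨a, -, ha⟩ := (Nat.dvd_prime_pow Nat.prime_two).mp hddvd
    exact ⟨a, ha⟩
  -- stabilizer bound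
  have hstab : ∀ (χ : IrrCharacter G), (∀ l : (G ⧸ frattini G) →* ℂˣ, l • χ = χ) →
      Nat.card ((G ⧸ frattini G) →* ℂˣ) ≤ charDegree (χ : G → ℂ) ^ 2 := by
    intro χ hfix
    apply card_le_degree_sq ψ hψinj χ
    intro t
    have := hfix t
    rw [hsmul] at this
    exact this
  -- the three pieces of the sum
  set F1 : IrrCharacter G → ℤ := fun χ => if charDegree (χ : G → ℂ) = 1 then z χ else 0 with hF1
  set F2 : IrrCharacter G → ℤ := fun χ => if charDegree (χ : G → ℂ) = 2 then z χ else 0 with hF2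
  set F3 : IrrCharacter G → ℤ := fun χ =>
    if charDegree (χ : G → ℂ) = 1 ∨ charDegree (χ : G → ℂ) = 2 then 0
    else z χ * (charDegree (χ : G → ℂ) : ℤ) with hF3
  have hsplit : ∑ χ : IrrCharacter G, z χ * (charDegree (χ : G → ℂ) : ℤ) =
      ∑ χ, F1 χ + 2 * ∑ χ, F2 χ + ∑ χ, F3 χ := by
    rw [Finset.mul_sum, ← Finset.sum_add_distrib, ← Finset.sum_add_distrib]
    refine Finset.sum_congr rfl (fun χ _ => ?_)
    simp only [hF1, hF2, hF3]
    by_cases h1 : charDegree (χ : G → ℂ) = 1
    · simp [h1]
    · by_cases h2 : charDegree (χ : G → ℂ) = 2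
      · simp [h2]
        ring
      · simp [h1, h2]
  have h4F1 : (4 : ℤ) ∣ ∑ χ, F1 χ := by
    apply Cfsg.Agent.S4058.dvd_sum_of_orbit (Λ := (G ⧸ frattini G) →* ℂˣ)
    · intro l χ
      simp only [hF1, hzinv, hdinv]
    · intro χ
      by_cases h1 : charDegree (χ : G → ℂ) = 1
      · -- free orbit
        have hidx : Nat.card (MulAction.orbit ((G ⧸ frattini G) →* ℂˣ) χ) =
            (MulAction.stabilizer ((G ⧸ frattini G) →* ℂˣ) χ).index := by
          rw [MulAction.index_stabilizer, Nat.card_coe_set_eq]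
        have hS1 : Nat.card (MulAction.stabilizer ((G ⧸ frattini G) →* ℂˣ) χ) ≤ 1 := by
          haveI : Fintype (MulAction.stabilizer ((G ⧸ frattini G) →* ℂˣ) χ) := Fintype.ofFinite _
          have := card_le_degree_sq
            (ψ.comp (MulAction.stabilizer ((G ⧸ frattini G) →* ℂˣ) χ).subtype)
            (hψinj.comp Subtype.val_injective) χ (by
              intro t
              have h : (t : (G ⧸ frattini G) →* ℂˣ) • χ = χ := t.2
              rw [hsmul] at h
              exact h)
          rw [h1] at this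
          simpa using this
        have hS1' : Nat.card (MulAction.stabilizer ((G ⧸ frattini G) →* ℂˣ) χ) = 1 :=
          le_antisymm hS1 Nat.card_pos
        have hmul := Subgroup.card_mul_index (MulAction.stabilizer ((G ⧸ frattini G) →* ℂˣ) χ)
        rw [hS1', one_mul] at hmul
        rw [hidx, hmul]
        exact Dvd.dvd.mul_right (by exact_mod_cast hΛ4) _
      · simp [hF1, h1]
  have h4F3 : (4 : ℤ) ∣ ∑ χ, F3 χ := by
    apply Finset.dvd_sum
    intro χ _
    simp only [hF3]
    by_cases h12 : charDegree (χ : G → ℂ) = 1 ∨ charDegree (χ : G → ℂ) = 2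
    · rw [if_pos h12]
      exact dvd_zero _
    · rw [if_neg h12]
      obtain ⟨a, ha⟩ := hdeg χ
      have ha2 : 2 ≤ a := by
        by_contra hcon
        have : a = 0 ∨ a = 1 := by omega
        rcases this with rfl | rfl
        · exact h12 (Or.inl (by simpa using ha))
        · exact h12 (Or.inr (by simpa using ha))
      rw [ha]
      exact Dvd.dvd.mul_left (by exact_mod_cast pow_dvd_pow 2 ha2) _
  have hF2odd : Odd (∑ χ, F2 χ) := by
    rw [hsplit] at hNmod
    obtain ⟨u, hu⟩ := h4F1
    obtain ⟨v, hv⟩ := h4F3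
    rw [hu, hv] at hNmod
    rw [Int.odd_iff]
    omega
  have hF2inv : ∀ (l : (G ⧸ frattini G) →* ℂˣ) (χ : IrrCharacter G), F2 (l • χ) = F2 χ := by
    intro l χ
    simp only [hF2, hzinv, hdinv]
  -- a fixed character of degree two: the Frattini quotient has order four
  obtain ⟨χ₀, hχ₀odd, hχ₀fix⟩ := exists_fixed_of_odd hΛp F2 hF2inv hF2odd
  have hχ₀deg : charDegree (χ₀ : G → ℂ) = 2 := by
    by_contra hcon
    simp only [hF2, if_neg hcon] at hχ₀odd
    exact hodd0 hχ₀odd
  have hΛ4' : Nat.card ((G ⧸ frattini G) →* ℂˣ) = 4 := by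
    have h1 := hstab χ₀ hχ₀fix
    rw [hχ₀deg] at h1
    have h2 := Nat.le_of_dvd Nat.card_pos hΛ4
    omega
  -- the set `F` of fixed real characters of degree two
  set P : IrrCharacter G → Prop := fun χ =>
    (∀ l : (G ⧸ frattini G) →* ℂˣ, l • χ = χ) ∧ charDegree (χ : G → ℂ) = 2 ∧ Odd (z χ) with hP
  set G2 : IrrCharacter G → ℤ := fun χ => if P χ then 1 else 0 with hG2
  have hG2odd : Odd (∑ χ, G2 χ) := by
    have h1 : (2 : ℤ) ∣ ∑ χ, (if ∀ l : (G ⧸ frattini G) →* ℂˣ, l • χ = χ then 0 else F2 χ) := by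
      convert even_sum_nonfixed hΛp F2 hF2inv
    have h2 : (2 : ℤ) ∣ ∑ χ, ((if ∀ l : (G ⧸ frattini G) →* ℂˣ, l • χ = χ then F2 χ else 0) - G2 χ) := by
      apply Finset.dvd_sum
      intro χ _
      simp only [hG2, hP, hF2]
      by_cases hfix : ∀ l : (G ⧸ frattini G) →* ℂˣ, l • χ = χ
      · by_cases hd : charDegree (χ : G → ℂ) = 2
        · by_cases ho : Odd (z χ)
          · simp only [hfix, hd, ho, and_self, if_true, forall_const]
            obtain ⟨w, hw⟩ := ho
            exact ⟨w, by rw [hw]; ring⟩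
          · simp only [hfix, hd, ho, and_false, if_true, if_false, forall_const, sub_zero]
            exact even_iff_two_dvd.mp (Int.not_odd_iff_even.mp ho)
        · simp [hd]
      · simp [hfix]
    have h3 : ∑ χ, F2 χ = ∑ χ, G2 χ +
        (∑ χ, ((if ∀ l : (G ⧸ frattini G) →* ℂˣ, l • χ = χ then F2 χ else 0) - G2 χ) +
         ∑ χ, (if ∀ l : (G ⧸ frattini G) →* ℂˣ, l • χ = χ then 0 else F2 χ)) := by
      rw [← Finset.sum_add_distrib, ← Finset.sum_add_distrib]
      refine Finset.sum_congr rfl (fun χ _ => ?_)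
      by_cases hfix : ∀ l : (G ⧸ frattini G) →* ℂˣ, l • χ = χ <;> simp [hfix]
    obtain ⟨u, hu⟩ := h1
    obtain ⟨v, hv⟩ := h2
    rw [h3, hu, hv] at hF2odd
    rw [Int.odd_iff] at hF2odd ⊢
    omega
  -- the full dual group
  haveI : NeZero (Monoid.exponent (Abelianization G)) := ⟨Monoid.exponent_ne_zero_of_finite⟩
  have hLcard : Nat.card (G →* ℂˣ) = (commutator G).index := by
    rw [Nat.card_congr (Abelianization.lift (G := G) (A := ℂˣ)),
      CommGroup.card_monoidHom_of_hasEnoughRootsOfUnity (Abelianization G) ℂ,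
      Subgroup.index_eq_card]
    rfl
  haveI hLfin : Finite (G →* ℂˣ) := by
    apply Nat.finite_of_card_ne_zero
    rw [hLcard]
    exact Nat.card_pos.ne'
  obtain ⟨e, he⟩ : ∃ e : ℕ, Nat.card (G →* ℂˣ) = 2 ^ e := by
    have hdvd : (commutator G).index ∣ 2 ^ n := by
      rw [← hn]
      exact Subgroup.index_dvd_card _
    obtain ⟨e, -, he⟩ := (Nat.dvd_prime_pow Nat.prime_two).mp hdvd
    exact ⟨e, hLcard.trans he⟩
  have hLp : IsPGroup 2 (G →* ℂˣ) := IsPGroup.of_card he
  -- the subgroup `T` of linear characters of exponent dividing four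
  set T : Subgroup (G →* ℂˣ) := (powMonoidHom 4 : (G →* ℂˣ) →* (G →* ℂˣ)).ker with hT
  have hTmem : ∀ f : G →* ℂˣ, f ∈ T ↔ f ^ 4 = 1 := fun f => by
    rw [hT, MonoidHom.mem_ker]
    rfl
  have hTp : IsPGroup 2 T := hLp.to_subgroup T
  -- real valued on the Frattini subgroup
  have hTreal : ∀ f : G →* ℂˣ, f ∈ T → ∀ g : G, g ∈ frattini G → ((f g : ℂˣ) : ℂ).im = 0 := by
    intro f hf g hg
    -- `f ^ 2` has square one, so its kernel contains the Frattini subgroup
    have hf2 : ∀ x : G, (f x) ^ 2 * (f x) ^ 2 = 1 := by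
      intro x
      have := congrArg (fun φ : G →* ℂˣ => φ x) ((hTmem f).mp hf)
      simp only [MonoidHom.pow_apply, MonoidHom.one_apply] at this
      rw [← pow_add]
      exact this
    have hker : frattini G ≤ ((powMonoidHom 2 : ℂˣ →* ℂˣ).comp f).ker := by
      by_cases htop : ((powMonoidHom 2 : ℂˣ →* ℂˣ).comp f).ker = ⊤
      · rw [htop]
        exact le_top
      · apply frattini_le_coatom
        -- the kernel is a coatom
        refine ⟨htop, ?_⟩
        intro H hH
        obtain ⟨h, hhH, hhK⟩ := Set.exists_of_ssubset hH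
        rw [eq_top_iff]
        intro g _
        by_cases hgK : g ∈ ((powMonoidHom 2 : ℂˣ →* ℂˣ).comp f).ker
        · exact hH.le hgK
        · have hgh : g * h⁻¹ ∈ ((powMonoidHom 2 : ℂˣ →* ℂˣ).comp f).ker := by
            rw [MonoidHom.mem_ker, map_mul, map_inv, mul_inv_eq_one]
            apply units_eq_of_sq
            · have := hf2 g
              rw [← pow_two] at this
              exact this
            · have := hf2 h
              rw [← pow_two] at this
              exact this
            · exact hgK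
            · exact hhK
          have : g = (g * h⁻¹) * h := by group
          rw [this]
          exact H.mul_mem (hH.le hgh) hhH
    have h1 : (f g) ^ 2 = 1 := by
      have := hker hg
      rw [MonoidHom.mem_ker] at this
      exact this
    have h2 : ((f g : ℂˣ) : ℂ) * ((f g : ℂˣ) : ℂ) = 1 := by
      have := congrArg (fun u : ℂˣ => (u : ℂ)) h1
      simpa [pow_two] using this
    rcases mul_self_eq_one_iff.mp h2 with h | h <;> rw [h] <;> simp
  -- fixed characters vanish off the Frattini subgroup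
  have hvan : ∀ χ : IrrCharacter G, (∀ l : (G ⧸ frattini G) →* ℂˣ, l • χ = χ) →
      ∀ g : G, g ∉ frattini G → (χ : G → ℂ) g = 0 := by
    intro χ hfix g hg
    have hne : (QuotientGroup.mk' (frattini G) g) ≠ 1 :=
      fun h => hg ((QuotientGroup.eq_one_iff g).mp h)
    obtain ⟨l, hl⟩ :=
      CommGroup.exists_apply_ne_one_of_hasEnoughRootsOfUnity (G ⧸ frattini G) ℂ hne
    have h1 := congrArg (fun c : IrrCharacter G => (c : G → ℂ) g) (hfix l)
    simp only [hsmul, twist_apply, hψapp] at h1
    have h2 : ((l (QuotientGroup.mk' (frattini G) g) : ℂˣ) : ℂ) ≠ 1 := fun h => hl (Units.ext h)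
    have h3 : (((l (QuotientGroup.mk' (frattini G) g) : ℂˣ) : ℂ) - 1) * (χ : G → ℂ) g = 0 := by
      rw [sub_mul, one_mul, h1, sub_self]
    rcases mul_eq_zero.mp h3 with h | h
    · exact absurd (sub_eq_zero.mp h) h2
    · exact h
  -- `P` is stable under twisting by `T`
  have hPtw : ∀ f : G →* ℂˣ, f ∈ T → ∀ χ : IrrCharacter G, P χ → P (twist f χ) := by
    rintro f hf χ ⟨hfix, hd, ho⟩
    refine ⟨?_, (hdtw f χ).trans hd, ?_⟩
    · intro l
      rw [hsmul]
      have h0 := hfix l
      rw [hsmul] at h0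
      apply Subtype.ext
      funext g
      have h1 := congrArg (fun c : IrrCharacter G => (c : G → ℂ) g) h0
      simp only [twist_apply] at h1 ⊢
      rw [mul_left_comm, h1]
    · have hzne : (Nat.card G : ℂ)⁻¹ * ∑ g : G, (χ : G → ℂ) (g * g) ≠ 0 := by
        rw [hzdef χ]
        intro h0
        have h00 : z χ = 0 := by exact_mod_cast h0
        rw [h00] at ho
        exact hodd0 ho
      have hχreal := fs_ne_zero_real χ hzne
      have hreal : ∀ g : G, (((twist f χ : IrrCharacter G) : G → ℂ) g).im = 0 := by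
        intro g
        rw [twist_apply]
        by_cases hg : g ∈ frattini G
        · rw [Complex.mul_im, hTreal f hf g hg, hχreal g]
          ring
        · rw [hvan χ hfix g hg, mul_zero]
          rfl
      rcases fs_of_real (twist f χ) hreal with h | h
      · rw [hzdef] at h
        have h1 : z (twist f χ) = 1 := by exact_mod_cast h
        rw [h1]
        exact odd_one
      · rw [hzdef] at h
        have h1 : z (twist f χ) = -1 := by exact_mod_cast h
        rw [h1]
        exact Odd.neg odd_one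
  -- the action of `T`
  letI actT : MulAction T (IrrCharacter G) := MulAction.compHom (IrrCharacter G) T.subtype
  have hsmulT : ∀ (t : T) (χ : IrrCharacter G), t • χ = twist (t : G →* ℂˣ) χ := fun t χ => rfl
  have hG2invT : ∀ (t : T) (χ : IrrCharacter G), G2 (t • χ) = G2 χ := by
    intro t χ
    have hiff : P (t • χ) ↔ P χ := by
      constructor
      · intro h
        have h1 := hPtw ((t⁻¹ : T) : G →* ℂˣ) (t⁻¹).2 (t • χ) h
        have h2 : twist ((t⁻¹ : T) : G →* ℂˣ) (t • χ) = χ := by
          rw [← hsmulT, ← mul_smul, inv_mul_cancel, one_smul]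
        rwa [h2] at h1
      · intro h
        exact hPtw (t : G →* ℂˣ) t.2 χ h
    simp only [hG2, hiff]
  obtain ⟨χ₁, hχ₁odd, hχ₁fix⟩ := exists_fixed_of_odd hTp G2 hG2invT hG2odd
  have hPχ₁ : P χ₁ := by
    by_contra hcon
    simp only [hG2, if_neg hcon] at hχ₁odd
    exact hodd0 hχ₁odd
  have hTle : Nat.card T ≤ 4 := by
    haveI : Fintype T := Fintype.ofFinite T
    have h1 := card_le_degree_sq T.subtype Subtype.val_injective χ₁ (fun t => by
      have h2 := hχ₁fix t
      rw [hsmulT] at h2
      exact h2)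
    rw [hPχ₁.2.1] at h1
    simpa using h1
  -- `ψ` maps into `T`, onto by counting
  have hψsq : ∀ l : (G ⧸ frattini G) →* ℂˣ, (ψ l) ^ 2 = 1 := by
    intro l
    refine MonoidHom.ext (fun g => ?_)
    rw [MonoidHom.pow_apply, MonoidHom.one_apply, pow_two, ← map_mul]
    exact hlsq l g
  have hψT : ∀ l : (G ⧸ frattini G) →* ℂˣ, ψ l ∈ T := by
    intro l
    rw [hTmem, show (4 : ℕ) = 2 * 2 by norm_num, pow_mul, hψsq]
    exact one_pow (M := G →* ℂˣ) 2
  let ψT : ((G ⧸ frattini G) →* ℂˣ) → T := fun l => ⟨ψ l, hψT l⟩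
  have hψTinj : Function.Injective ψT := by
    intro a b hab
    exact hψinj (congrArg Subtype.val hab)
  have hψTbij : Function.Bijective ψT :=
    hψTinj.bijective_of_nat_card_le (by rw [hΛ4']; exact hTle)
  have hTcard : Nat.card T = 4 := by
    rw [← hΛ4']
    exact (Nat.card_eq_of_bijective ψT hψTbij).symm
  have hTsq : ∀ f : G →* ℂˣ, f ∈ T → f ^ 2 = 1 := by
    intro f hf
    obtain ⟨l, hl⟩ := hψTbij.2 ⟨f, hf⟩
    have : ψ l = f := congrArg Subtype.val hl
    rw [← this]
    exact hψsq l
  -- every linear character has square one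
  have hall : ∀ f : G →* ℂˣ, f ∈ T := by
    intro f
    have hord : orderOf f ∣ 2 ^ e := by
      rw [← he]
      exact orderOf_dvd_natCard f
    obtain ⟨j, -, hj⟩ := (Nat.dvd_prime_pow Nat.prime_two).mp hord
    by_cases hj1 : j ≤ 1
    · rw [hTmem]
      apply orderOf_dvd_iff_pow_eq_one.mp
      rw [hj]
      exact pow_dvd_pow 2 (by omega : j ≤ 2)
    · exfalso
      have hμ : f ^ 2 ^ (j - 2) ∈ T := by
        rw [hTmem, ← pow_mul, show 2 ^ (j - 2) * 4 = 2 ^ j by
          rw [show (4 : ℕ) = 2 ^ 2 by norm_num, ← pow_add]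
          congr 1
          omega]
        rw [← hj]
        exact pow_orderOf_eq_one f
      have h2 := hTsq _ hμ
      rw [← pow_mul, show 2 ^ (j - 2) * 2 = 2 ^ (j - 1) by
        rw [← pow_succ]
        congr 1
        omega] at h2
      have h3 := orderOf_dvd_of_pow_eq_one h2
      rw [hj] at h3
      have h4 := (Nat.pow_dvd_pow_iff_le_right (by norm_num : 1 < 2)).mp h3
      omega
  have hTtop : T = ⊤ := by
    rw [eq_top_iff]
    intro f _
    exact hall f
  rw [← hLcard, ← hTcard, hTtop, Subgroup.card_top]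

end Cfsg.Agent.S4477
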