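import Cfsg.Statements.S4479
import Cfsg.Agent.Helper24.Klein4
import Cfsg.Agent.Helper24.Klein4Char

set_option autoImplicit false
open Cfsg

namespace Cfsg.Agent.S4479

open Cfsg.Agent.Helper25 Cfsg.Agent.Helper24 Cfsg.Agent.Helper7

/-- An order formula from the principal 2-block. Let G be a finite group of order 4·g₀ with g₀ odd having no normal 2-complement (no normal subgroup of order g₀); let P be a Sylow 2-subgroup, J an involution of P, and fix a maximal ideal M of the algebraic integers containing 2. Suppose the principal 2-block consists of the principal character and three further distinct characters χ₁, χ₂, χ₃ of degrees x₁, x₂, x₃, with χ_i(J) = ε_i = ±1. Then, writing c(J) and c(P) for the orders of the centralizers of J and of P, the order of G equals 8·α·c(J)³/c(P)² with α = x₁x₂x₃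 / ((x₁ + ε₁)(x₂ + ε₂)(x₃ + ε₃)). -/
theorem result {G : Type*} [Group G] [Finite G] (M : Ideal Cfsg.AlgInt) (hM : Cfsg.IsPModular 2 M) (g₀ : ℕ) (hg₀ : Odd g₀) (hG : Nat.card G = 4 * g₀) (hnc : ¬ ∃ N : Subgroup G, N.Normal ∧ Nat.card N = g₀) (P : Sylow 2 G) (J : G) (hJ : J ∈ (P : Subgroup G)) (hJ2 : orderOf J = 2) (χ₁ χ₂ χ₃ : Cfsg.IrrCharacter G) (ε₁ ε₂ ε₃ : ℤ) (hB : Cfsg.principalBlock M G = {χ : Cfsg.IrrCharacter G | (χ : G → ℂ) = (fun _ => 1) ∨ χ = χ₁ ∨ χ = χ₂ ∨ χ = χ₃}) (hdist : (χ₁ : G → ℂ) ≠ (fun _ => 1) ∧ (χ₂ : G → ℂ) ≠ (fun _ => 1) ∧ (χ₃ : G → ℂ) ≠ (fun _ => 1) ∧ χ₁ ≠ χ₂ ∧ χ₁ ≠ χ₃ ∧ χ₂ ≠ χ₃) (hε : (ε₁ = 1 ∨ ε₁ = -1) ∧ (ε₂ = 1 ∨ ε₂ = -1) ∧ (ε₃ = 1 ∨ ε₃ = -1)) (hval : (χ₁ : G → ℂ) J = ε₁ ∧ (χ₂ : G → ℂ) J = ε₂ ∧ (χ₃ : G → ℂ) J = ε₃) : (Nat.card G : ℚ) = 8 * (((Cfsg.charDegree (χ₁ : G → ℂ) :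 ℚ) * Cfsg.charDegree (χ₂ : G → ℂ) * Cfsg.charDegree (χ₃ : G → ℂ)) / ((Cfsg.charDegree (χ₁ : G → ℂ) + ε₁) * (Cfsg.charDegree (χ₂ : G → ℂ) + ε₂) * (Cfsg.charDegree (χ₃ : G → ℂ) + ε₃))) * (Nat.card (Subgroup.centralizer ({J} : Set G)) : ℚ) ^ 3 / (Nat.card (Subgroup.centralizer ((P : Subgroup G) : Set G)) : ℚ) ^ 2 := by
  classical
  haveI := Fintype.ofFinite G
  obtain ⟨hfac, hcard, hsq, hNC⟩ := k4_of_no_complement g₀ hg₀ hG hnc P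
  obtain ⟨hJJ, hJ1⟩ := k4_invol hJ2
  have hT := k4_trans P hcard hsq hNC J hJ hJ1
  have hconj := k4_conj P J hT
  obtain ⟨hR1, hR2⟩ := k4_count g₀ hg₀ hG hnc P J hJ hJ2
  obtain ⟨I, hI⟩ : ∃ I : Finset G, I = Finset.univ.filter (fun s : G => orderOf s = 2) :=
    ⟨_, rfl⟩
  rw [← hI] at hR1 hR2
  obtain ⟨E, hE⟩ : ∃ E : ℕ,
      E = ((I ×ˢ I).filter (fun st : G × G => 2 ∣ orderOf (st.1 * st.2))).card := ⟨_, rfl⟩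
  rw [← hE] at hR2
  have hθ := k4_theta hM P hfac hsq J hJ2 hconj χ₁ χ₂ χ₃ ε₁ ε₂ ε₃ hB hdist hε hval
  have hcs : ∀ ψ : Cfsg.IrrCharacter G, ∑ s ∈ I, ∑ t ∈ I, (ψ : G → ℂ) (s * t)
      = (I.card : ℂ) ^ 2 * (ψ : G → ℂ) J ^ 2 / (ψ : G → ℂ) 1 := by
    intro ψ
    rw [hI]
    exact k4_class_sum J hJ2 hconj ψ
  have hsum1 : ∑ s ∈ I, ∑ t ∈ I, (if 2 ∣ orderOf (s * t) then (4 : ℂ) else 0)
      = 4 * (E : ℂ) := by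
    have hp := Finset.sum_product' I I (fun s t : G => if 2 ∣ orderOf (s * t) then (4 : ℂ) else 0)
    beta_reduce at hp
    rw [← hp, Finset.sum_ite, Finset.sum_const, Finset.sum_const_zero, add_zero, nsmul_eq_mul,
      hE]
    ring
  have hsum2 : ∑ s ∈ I, ∑ t ∈ I, (if 2 ∣ orderOf (s * t) then (4 : ℂ) else 0)
      = (I.card : ℂ) ^ 2 * (1 + (ε₁ : ℂ) * ((ε₁ : ℂ) ^ 2 / (χ₁ : G → ℂ) 1)
        + (ε₂ : ℂ) * ((ε₂ : ℂ) ^ 2 / (χ₂ : G → ℂ) 1)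
        + (ε₃ : ℂ) * ((ε₃ : ℂ) ^ 2 / (χ₃ : G → ℂ) 1)) := by
    have e : ∀ s ∈ I, ∀ t ∈ I, (if 2 ∣ orderOf (s * t) then (4 : ℂ) else 0)
        = (trivChar G : G → ℂ) (s * t) + (ε₁ : ℂ) * (χ₁ : G → ℂ) (s * t)
          + (ε₂ : ℂ) * (χ₂ : G → ℂ) (s * t) + (ε₃ : ℂ) * (χ₃ : G → ℂ) (s * t) := by
      intro s _ t _
      rw [← hθ (s * t), trivChar_apply]
    rw [Finset.sum_congr rfl (fun s hs => Finset.sum_congr rfl (fun t ht => e s hs t ht))]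
    simp only [Finset.sum_add_distrib, ← Finset.mul_sum]
    rw [hcs (trivChar G), hcs χ₁, hcs χ₂, hcs χ₃, hval.1, hval.2.1, hval.2.2]
    simp only [trivChar_apply]
    ring
  have hdeg := hθ 1
  rw [if_neg (by rw [orderOf_one]; norm_num)] at hdeg
  obtain ⟨x₁, hx₁⟩ : ∃ x : ℕ, x = Cfsg.charDegree (χ₁ : G → ℂ) := ⟨_, rfl⟩
  obtain ⟨x₂, hx₂⟩ : ∃ x : ℕ, x = Cfsg.charDegree (χ₂ : G → ℂ) := ⟨_, rfl⟩
  obtain ⟨x₃, hx₃⟩ : ∃ x : ℕ, x = Cfsg.charDegree (χ₃ : G → ℂ) := ⟨_, rfl⟩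
  have hχ₁1 : (χ₁ : G → ℂ) 1 = (x₁ : ℂ) := by rw [hx₁]; exact irr_one_eq_degree χ₁
  have hχ₂1 : (χ₂ : G → ℂ) 1 = (x₂ : ℂ) := by rw [hx₂]; exact irr_one_eq_degree χ₂
  have hχ₃1 : (χ₃ : G → ℂ) 1 = (x₃ : ℂ) := by rw [hx₃]; exact irr_one_eq_degree χ₃
  have hx₁pos : 0 < x₁ := hx₁ ▸ irr_degree_pos χ₁
  have hx₂pos : 0 < x₂ := hx₂ ▸ irr_degree_pos χ₂
  have hx₃pos : 0 < x₃ := hx₃ ▸ irr_degree_pos χ₃
  rw [← hx₁, ← hx₂, ← hx₃]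
  rw [hχ₁1, hχ₂1, hχ₃1] at hdeg hsum2
  obtain ⟨N, hN⟩ : ∃ N : ℕ, N = Nat.card G := ⟨_, rfl⟩
  obtain ⟨cJ, hcJ⟩ : ∃ c : ℕ, c = Nat.card (Subgroup.centralizer ({J} : Set G)) := ⟨_, rfl⟩
  obtain ⟨cP, hcP⟩ : ∃ c : ℕ,
      c = Nat.card (Subgroup.centralizer ((P : Subgroup G) : Set G)) := ⟨_, rfl⟩
  rw [← hN, ← hcJ] at hR1
  rw [← hN, ← hcJ, ← hcP] at hR2
  rw [← hN, ← hcJ, ← hcP]
  have hNpos : 0 < N := hN ▸ Nat.card_pos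
  have hcJpos : 0 < cJ := hcJ ▸ Nat.card_pos
  have hcPpos : 0 < cP := hcP ▸ Nat.card_pos
  have he₁ : (ε₁ : ℚ) ^ 2 = 1 := by
    rcases hε.1 with h | h <;> rw [h] <;> norm_num
  have he₂ : (ε₂ : ℚ) ^ 2 = 1 := by
    rcases hε.2.1 with h | h <;> rw [h] <;> norm_num
  have he₃ : (ε₃ : ℚ) ^ 2 = 1 := by
    rcases hε.2.2 with h | h <;> rw [h] <;> norm_num
  have he₁C : (ε₁ : ℂ) ^ 2 = 1 := by
    rcases hε.1 with h | h <;> rw [h] <;> norm_num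
  have he₂C : (ε₂ : ℂ) ^ 2 = 1 := by
    rcases hε.2.1 with h | h <;> rw [h] <;> norm_num
  have he₃C : (ε₃ : ℂ) ^ 2 = 1 := by
    rcases hε.2.2 with h | h <;> rw [h] <;> norm_num
  have hdegQ : (1 : ℚ) + ε₁ * x₁ + ε₂ * x₂ + ε₃ * x₃ = 0 := by
    have h : (((1 : ℚ) + ε₁ * x₁ + ε₂ * x₂ + ε₃ * x₃ : ℚ) : ℂ) = 0 := by
      push_cast
      exact hdeg
    exact_mod_cast h
  have hx₁C : (x₁ : ℂ) ≠ 0 := Nat.cast_ne_zero.mpr hx₁pos.ne'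
  have hx₂C : (x₂ : ℂ) ≠ 0 := Nat.cast_ne_zero.mpr hx₂pos.ne'
  have hx₃C : (x₃ : ℂ) ≠ 0 := Nat.cast_ne_zero.mpr hx₃pos.ne'
  have h4 : (4 : ℚ) * E * (x₁ * x₂ * x₃)
      = (I.card : ℚ) ^ 2 * (x₁ * x₂ * x₃ + ε₁ * x₂ * x₃ + ε₂ * x₁ * x₃ + ε₃ * x₁ * x₂) := by
    have hC : (4 : ℂ) * E * (x₁ * x₂ * x₃)
        = (I.card : ℂ) ^ 2 * (x₁ * x₂ * x₃ + ε₁ * x₂ * x₃ + ε₂ * x₁ * x₃ + ε₃ * x₁ * x₂) := by
      have h := hsum1.symm.trans hsum2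
      rw [he₁C, he₂C, he₃C] at h
      rw [h]
      field_simp
    exact_mod_cast hC
  have hR1' : (I.card : ℚ) * cJ = N := by exact_mod_cast hR1
  have hR2' : (E : ℚ) * cP ^ 2 = 2 * N * cJ := by exact_mod_cast hR2
  obtain ⟨D, hD⟩ : ∃ D : ℚ, D = ((x₁ : ℚ) + ε₁) * (x₂ + ε₂) * (x₃ + ε₃) := ⟨_, rfl⟩
  have hDY : D = (x₁ : ℚ) * x₂ * x₃ + ε₁ * x₂ * x₃ + ε₂ * x₁ * x₃ + ε₃ * x₁ * x₂ := by
    rw [hD]
    linear_combination ((ε₁ : ℚ) * ε₂ * ε₃) * hdegQ - ((ε₁ : ℚ) * ε₂ * x₃) * he₃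
      - ((ε₁ : ℚ) * ε₃ * x₂) * he₂ - ((ε₂ : ℚ) * ε₃ * x₁) * he₁
  rw [← hDY] at h4
  have hNQ : (N : ℚ) ≠ 0 := by exact_mod_cast hNpos.ne'
  have hkey : (N : ℚ) * (N * D * cP ^ 2 - 8 * (x₁ * x₂ * x₃) * cJ ^ 3) = 0 := by
    linear_combination (-((N : ℚ) + I.card * cJ) * D * cP ^ 2) * hR1'
      + (-((cJ : ℚ) ^ 2 * cP ^ 2)) * h4 + (4 * ((x₁ : ℚ) * x₂ * x₃) * cJ ^ 2) * hR2'
  have hND : (N : ℚ) * D * cP ^ 2 = 8 * (x₁ * x₂ * x₃) * cJ ^ 3 := by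
    have h := (mul_eq_zero.mp hkey).resolve_left hNQ
    linarith
  have hx₁Q : (0 : ℚ) < x₁ := by exact_mod_cast hx₁pos
  have hx₂Q : (0 : ℚ) < x₂ := by exact_mod_cast hx₂pos
  have hx₃Q : (0 : ℚ) < x₃ := by exact_mod_cast hx₃pos
  have hcJQ : (0 : ℚ) < cJ := by exact_mod_cast hcJpos
  have hcPQ : (0 : ℚ) < cP := by exact_mod_cast hcPpos
  have hD0 : D ≠ 0 := by
    intro h0
    rw [h0, mul_zero, zero_mul] at hND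
    have hpos : (0 : ℚ) < 8 * (x₁ * x₂ * x₃) * cJ ^ 3 := by positivity
    linarith
  rw [← hD, eq_div_iff (pow_ne_zero 2 hcPQ.ne')]
  field_simp
  linear_combination hND

end Cfsg.Agent.S4479
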