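import Cfsg.Statements.S4483
import Cfsg.Agent.Helper25.BlockBrauer

set_option autoImplicit false
open Cfsg

namespace Cfsg.Agent.S4483

open Cfsg.Agent.Helper25
open scoped ComplexConjugate

theorem sum_odd_real {G : Type*} [Group G] [Fintype G] (χ : IrrCharacter G)
    (hre : ∀ g : G, ((χ : G → ℂ) g).im = 0) :
    ∃ a : ℂ, IsIntegral ℤ a ∧
      ∑ g : G, pRegularPart 2 (fun _ : G => (1:ℂ)) g * (χ : G → ℂ) g⁻¹ =
        (χ : G → ℂ) 1 + 2 * a := by
  classical
  have hodd1 : ∀ x : G, x ≠ 1 → ¬ 2 ∣ orderOf x → x⁻¹ ≠ x := by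
    intro x hx1 hx2 h
    have h3 : x ^ 2 = 1 := by
      rw [pow_two]
      nth_rewrite 1 [← h]
      exact inv_mul_cancel x
    have h4 : orderOf x ∣ 2 := orderOf_dvd_of_pow_eq_one h3
    have h5 : orderOf x = 1 ∨ orderOf x = 2 := (Nat.dvd_prime Nat.prime_two).mp h4
    rcases h5 with h5 | h5
    · exact hx1 (orderOf_eq_one_iff.mp h5)
    · exact hx2 (by rw [h5])
  let X := {g : G // g ≠ 1 ∧ ¬ 2 ∣ orderOf g}
  let inv' : X → X := fun x => ⟨x.1⁻¹, by
    have := x.2.1
    simpa using this, by rw [orderOf_inv]; exact x.2.2⟩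
  let act : ℕ → X → X := fun j x => if Even j then x else inv' x
  have hinv2 : ∀ x : X, inv' (inv' x) = x := fun x => Subtype.ext (inv_inv _)
  have hinvne : ∀ x : X, inv' x ≠ x := by
    intro x h
    exact hodd1 x.1 x.2.1 x.2.2 (congrArg Subtype.val h)
  obtain ⟨T, hT⟩ := exists_transversal_of_free act 2 (by norm_num)
    (fun x => by simp [act])
    (fun j k x => by
      by_cases hj : Even j <;> by_cases hk : Even k
      · simp [act, hj, hk, Nat.even_add]
      · simp [act, hj, hk, Nat.even_add]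
      · simp [act, hj, hk, Nat.even_add]
      · simp [act, hj, hk, Nat.even_add, hinv2])
    (fun x j => by
      by_cases hj : Even j
      · simp only [act, hj, if_true, true_iff]
        exact even_iff_two_dvd.mp hj
      · simp only [act, hj, if_false]
        constructor
        · intro h
          exact absurd h (hinvne x)
        · intro h
          exact absurd (even_iff_two_dvd.mpr h) hj)
  refine ⟨∑ t ∈ T, (χ : G → ℂ) t.1, IsIntegral.sum _ (fun t _ => irr_isIntegral χ t.1), ?_⟩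
  have hreal : ∀ g : G, (χ : G → ℂ) g⁻¹ = (χ : G → ℂ) g := by
    intro g
    rw [irr_inv χ g]
    exact Complex.conj_eq_iff_im.mpr (hre g)
  have h1 : ∀ g : G, pRegularPart 2 (fun _ : G => (1:ℂ)) g * (χ : G → ℂ) g⁻¹ =
      (if g = 1 then (χ : G → ℂ) 1 else 0) +
        (if g ≠ 1 ∧ ¬ 2 ∣ orderOf g then (χ : G → ℂ) g else 0) := by
    intro g
    by_cases hg1 : g = 1
    · subst hg1
      rw [pRegularPart_of_reg (by simp)]
      simp
    · by_cases hg2 : 2 ∣ orderOf g
      · rw [pRegularPart_of_sing hg2]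
        simp [hg1, hg2]
      · rw [pRegularPart_of_reg hg2, hreal]
        simp [hg1, hg2]
  rw [Finset.sum_congr rfl (fun g _ => h1 g), Finset.sum_add_distrib, Finset.sum_ite_eq']
  simp only [Finset.mem_univ, if_true]
  congr 1
  rw [← Finset.sum_filter]
  rw [Finset.sum_subtype (Finset.univ.filter (fun g : G => g ≠ 1 ∧ ¬ 2 ∣ orderOf g))
    (p := fun g : G => g ≠ 1 ∧ ¬ 2 ∣ orderOf g) (by simp) (fun g => (χ : G → ℂ) g)]
  have h2 := hT (fun x : X => (χ : G → ℂ) x.1)
  rw [h2, Finset.mul_sum]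
  apply Finset.sum_congr rfl
  intro t _
  rw [Finset.sum_range_succ, Finset.sum_range_one]
  simp only [act, inv']
  simp only [Nat.not_even_one, if_false, Even.zero, if_true]
  rw [hreal]
  ring

theorem sum_odd_real_ne_zero {G : Type*} [Group G] [Fintype G] (χ : IrrCharacter G)
    (hre : ∀ g : G, ((χ : G → ℂ) g).im = 0) (hodd : Odd (charDegree (χ : G → ℂ))) :
    ∑ g : G, pRegularPart 2 (fun _ : G => (1:ℂ)) g * (χ : G → ℂ) g⁻¹ ≠ 0 := by
  obtain ⟨a, ha, hsum⟩ := sum_odd_real χ hre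
  intro h0
  rw [h0, irr_one_eq_degree] at hsum
  set d := charDegree (χ : G → ℂ) with hd
  have h1 : a = algebraMap ℚ ℂ (-(d : ℚ) / 2) := by
    have : (2 : ℂ) * a = -(d : ℂ) := by linear_combination -hsum
    have h2 : a = -(d : ℂ) / 2 := by
      rw [← this]; ring
    rw [h2]
    simp
  rw [h1] at ha
  have h2 : IsIntegral ℤ (-(d : ℚ) / 2) :=
    (isIntegral_algebraMap_iff (algebraMap ℚ ℂ).injective).mp ha
  obtain ⟨k, hk⟩ := IsIntegrallyClosed.isIntegral_iff.mp h2
  have h3 : (2 : ℚ) * (k : ℚ) = -(d : ℚ) := by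
    have : algebraMap ℤ ℚ k = (k : ℚ) := rfl
    rw [this] at hk
    rw [hk]; ring
  have h4 : (2 : ℤ) * k = -(d : ℤ) := by exact_mod_cast h3
  obtain ⟨m, hm⟩ := hodd
  omega

/-- Let G be a finite group of order 2^n·g₀ with g₀ odd, and M a maximal ideal of the algebraic integers containing 2. Every real-valued irreducible character of G of odd degree lies in the principal 2-block; consequently G has at most 2^(2n) real-valued irreducible characters of odd degree. -/
theorem result {G : Type*} [Group G] [Finite G] (M : Ideal Cfsg.AlgInt) (hM : Cfsg.IsPModular 2 M) : (∀ χ : Cfsg.IrrCharacter G, (∀ g : G, ((χ : G → ℂ) g).im = 0) → Odd (Cfsg.charDegree (χ : G → ℂ)) → χ ∈ Cfsg.principalBlock M G) ∧ Nat.card {χ : Cfsg.IrrCharacter G // (∀ g : G, ((χ : G → ℂ) g).im = 0) ∧ Odd (Cfsg.charDegree (χ : G → ℂ))} ≤ 2 ^ (2 * (Nat.card G).factorization 2) := by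
  classical
  have := Fintype.ofFinite G
  have hpart1 : ∀ χ : Cfsg.IrrCharacter G, (∀ g : G, ((χ : G → ℂ) g).im = 0) →
      Odd (Cfsg.charDegree (χ : G → ℂ)) → χ ∈ Cfsg.principalBlock M G := by
    intro χ hre hodd
    by_contra hχ
    have h0 := gram_eq_zero_of_lr hM (Cfsg.principalBlock M G)
      (fun g => blockCoeff_lr hM isPBlock_principalBlock g)
      (trivChar_mem_principalBlock hM) hχ
    rw [gram_eq] at h0
    have h1 := sum_odd_real_ne_zero χ hre hodd
    rcases mul_eq_zero.mp h0 with h2 | h2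
    · exact card_ne_zero (inv_eq_zero.mp h2)
    · exact h1 h2
  refine ⟨hpart1, ?_⟩
  set a := (Nat.card G).factorization 2 with ha
  set T := trivChar G with hT
  -- sum of norm squares
  have hsum : (∑ ψ : IrrCharacter G, Complex.normSq (gram 2 (T : G → ℂ) (ψ : G → ℂ))) ≤ 1 := by
    have h1 := gram_idem (p := 2) T T
    have h2 : ∀ ψ : IrrCharacter G, gram 2 (T : G → ℂ) (ψ : G → ℂ) * gram 2 (ψ : G → ℂ) (T : G → ℂ) =
        ((Complex.normSq (gram 2 (T : G → ℂ) (ψ : G → ℂ)) : ℝ) : ℂ) := by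
      intro ψ
      rw [gram_conj T ψ, Complex.mul_conj]
    rw [Finset.sum_congr rfl (fun ψ _ => h2 ψ), ← Complex.ofReal_sum] at h1
    have h3 : gram 2 (T : G → ℂ) (T : G → ℂ) =
        (((Nat.card G : ℝ)⁻¹ * ((Finset.univ.filter (fun g : G => ¬ 2 ∣ orderOf g)).card : ℝ) : ℝ) : ℂ) := by
      rw [gram_eq]
      push_cast
      congr 1
      rw [Finset.card_filter]
      push_cast
      apply Finset.sum_congr rfl
      intro g _
      by_cases hg : 2 ∣ orderOf g
      · rw [pRegularPart_of_sing hg]; simp [hg]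
      · rw [pRegularPart_of_reg hg]; simp [hg, hT]
    rw [h3] at h1
    have h4 := Complex.ofReal_injective h1
    rw [h4]
    have h5 : ((Finset.univ.filter (fun g : G => ¬ 2 ∣ orderOf g)).card : ℝ) ≤ (Nat.card G : ℝ) := by
      rw [Nat.card_eq_fintype_card]
      exact_mod_cast Finset.card_filter_le _ _
    have h6 : (0 : ℝ) < (Nat.card G : ℝ) := by exact_mod_cast Nat.card_pos
    rw [inv_mul_le_iff₀ h6]
    simpa using h5
  have hge : ∀ ψ : IrrCharacter G, (∀ g : G, ((ψ : G → ℂ) g).im = 0) →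
      Odd (Cfsg.charDegree (ψ : G → ℂ)) →
      (1 : ℝ) ≤ ((2:ℝ) ^ a) ^ 2 * Complex.normSq (gram 2 (T : G → ℂ) (ψ : G → ℂ)) := by
    intro ψ hre hodd
    obtain ⟨k, hk⟩ := gram_int (p := 2) Nat.prime_two T ψ
    have hne : gram 2 (T : G → ℂ) (ψ : G → ℂ) ≠ 0 := by
      rw [gram_eq]
      exact mul_ne_zero (inv_ne_zero card_ne_zero) (sum_odd_real_ne_zero ψ hre hodd)
    have hk0 : k ≠ 0 := by
      rintro rfl
      simp only [Int.cast_zero, mul_eq_zero] at hk
      rcases hk with hk | hk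
      · have : ((2 ^ (Nat.card G).factorization 2 : ℕ) : ℂ) ≠ 0 := by
          exact_mod_cast (pow_pos (by norm_num : 0 < 2) _).ne'
        exact this hk
      · exact hne hk
    have h1 := congrArg Complex.normSq hk
    rw [Complex.normSq_mul, Complex.normSq_natCast, Complex.normSq_intCast] at h1
    have h2 : (1 : ℝ) ≤ (k : ℝ) * (k : ℝ) := by
      have : (1 : ℤ) ≤ k * k := by
        rcases lt_or_gt_of_ne hk0 with h | h <;> nlinarith
      exact_mod_cast this
    rw [← h1] at h2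
    push_cast at h2
    rw [← ha] at h2
    calc (1 : ℝ) ≤ _ := h2
      _ = _ := by ring
  rw [Nat.card_eq_fintype_card, Fintype.card_subtype]
  have hfin : (((Finset.univ.filter (fun χ : IrrCharacter G => (∀ g : G, ((χ : G → ℂ) g).im = 0) ∧
      Odd (Cfsg.charDegree (χ : G → ℂ)))).card : ℕ) : ℝ) ≤ ((2 : ℝ) ^ a) ^ 2 := by
    rw [Finset.card_eq_sum_ones]
    push_cast
    calc ∑ χ ∈ Finset.univ.filter (fun χ : IrrCharacter G => (∀ g : G, ((χ : G → ℂ) g).im = 0) ∧
          Odd (Cfsg.charDegree (χ : G → ℂ))), (1 : ℝ)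
        ≤ ∑ χ ∈ Finset.univ.filter (fun χ : IrrCharacter G => (∀ g : G, ((χ : G → ℂ) g).im = 0) ∧
          Odd (Cfsg.charDegree (χ : G → ℂ))),
            ((2:ℝ) ^ a) ^ 2 * Complex.normSq (gram 2 (T : G → ℂ) (χ : G → ℂ)) := by
          apply Finset.sum_le_sum
          intro χ hχ
          obtain ⟨h1, h2⟩ := (Finset.mem_filter.mp hχ).2
          exact hge χ h1 h2
      _ ≤ ∑ χ : IrrCharacter G, ((2:ℝ) ^ a) ^ 2 * Complex.normSq (gram 2 (T : G → ℂ) (χ : G → ℂ)) := by
          apply Finset.sum_le_sum_of_subset_of_nonneg (Finset.filter_subset _ _)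
          intro χ _ _
          exact mul_nonneg (by positivity) (Complex.normSq_nonneg _)
      _ = ((2:ℝ) ^ a) ^ 2 * ∑ χ : IrrCharacter G, Complex.normSq (gram 2 (T : G → ℂ) (χ : G → ℂ)) := by
          rw [Finset.mul_sum]
      _ ≤ ((2:ℝ) ^ a) ^ 2 * 1 := by
          exact mul_le_mul_of_nonneg_left hsum (by positivity)
      _ = ((2:ℝ) ^ a) ^ 2 := mul_one _
  have hfin2 : ((2 : ℝ) ^ a) ^ 2 = ((2 ^ (2 * a) : ℕ) : ℝ) := by
    push_cast
    rw [← pow_mul, mul_comm]
  rw [hfin2] at hfin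
  exact_mod_cast hfin

end Cfsg.Agent.S4483
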