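import Cfsg.Statements.S4517
import Cfsg.Agent.Helper24.BlockDeg2

set_option autoImplicit false
open Cfsg

namespace Cfsg.Agent.S4517

open Cfsg.Agent.Helper25 Cfsg.Agent.Helper24

/-- Let G be a finite group, M a maximal ideal of the algebraic integers containing 2, and k a natural number coprime to the order of G with g ^ k = g⁻¹ for every element g of odd order (so that g ↦ g ^ k induces a field automorphism of the character values inverting the roots of unity of odd order). If B is a 2-block of full defect (its defect equals the exponent of 2 in the order of G) that is stable under χ ↦ χ ∘ (· ^ k), then B is the principal 2-block. -/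
theorem result {G : Type*} [Group G] [Finite G] (M : Ideal Cfsg.AlgInt) (hM : Cfsg.IsPModular 2 M) (k : ℕ) (hk : Nat.Coprime k (Nat.card G)) (hk₂ : ∀ g : G, Odd (orderOf g) → g ^ k = g⁻¹) (B : Set (Cfsg.IrrCharacter G)) (hB : Cfsg.IsPBlock M B) (hdef : Cfsg.blockDefect 2 B = (Nat.card G).factorization 2) (hstab : ∀ χ ∈ B, ∃ ψ ∈ B, ∀ g : G, (ψ : G → ℂ) g = (χ : G → ℂ) (g ^ k)) : B = Cfsg.principalBlock M G := by
  classical
  have := Fintype.ofFinite G
  have hp : (2 : ℕ).Prime := Nat.prime_two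
  set a := (Nat.card G).factorization 2 with ha
  obtain ⟨χ₁, hχ₁B⟩ : ∃ χ₁, χ₁ ∈ B := by
    obtain ⟨χ₁, h⟩ := hB
    exact ⟨χ₁, h ▸ self_mem_blockOf hM χ₁⟩
  set Sset := (fun ψ : Cfsg.IrrCharacter G => (Cfsg.charDegree (ψ : G → ℂ)).factorization 2) '' B
    with hSset
  have hSne : Sset.Nonempty := ⟨_, χ₁, hχ₁B, rfl⟩
  obtain ⟨χ₀, hχ₀, hχ₀h⟩ := Nat.sInf_mem hSne
  have hχ₀h' : (Cfsg.charDegree (χ₀ : G → ℂ)).factorization 2 = sInf Sset := hχ₀h
  have hdef' : a - sInf Sset = a := hdef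
  set d₀ := Cfsg.charDegree (χ₀ : G → ℂ) with hd₀
  have hd₀0 : d₀ ≠ 0 := (irr_degree_pos χ₀).ne'
  have hha : sInf Sset ≤ a := by
    rw [← hχ₀h']
    have h1 : 2 ^ (d₀.factorization 2) ∣ Nat.card G :=
      (Nat.ordProj_dvd d₀ 2).trans (irr_degree_dvd_card χ₀)
    exact (hp.pow_dvd_iff_le_factorization Nat.card_pos.ne').mp h1
  have hh0 : d₀.factorization 2 = 0 := by rw [hχ₀h']; omega
  have hodd : ¬ 2 ∣ d₀ := by
    intro h2
    have := hp.factorization_pos_of_dvd hd₀0 h2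
    omega
  obtain ⟨ψ, hψ, hψv⟩ := hstab χ₀ hχ₀
  have hsame := sameBlock_of_mem hM hB hχ₀ hψ
  have hψ1 : (ψ : G → ℂ) 1 = (χ₀ : G → ℂ) 1 := by rw [hψv, one_pow]
  have hψodd : ∀ g : G, ¬ 2 ∣ orderOf g → (ψ : G → ℂ) g = (χ₀ : G → ℂ) g⁻¹ := by
    intro g hg
    rw [hψv, hk₂ g (Nat.not_even_iff_odd.mp (fun h => hg (even_iff_two_dvd.mp h)))]
  suffices hmem : χ₀ ∈ Cfsg.principalBlock M G by
    rw [eq_blockOf_of_mem hM hB hχ₀, eq_blockOf_of_mem hM isPBlock_principalBlock hmem]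
  by_contra hχ
  have h0 := gram_eq_zero_of_lr hM (Cfsg.principalBlock M G)
    (fun g => blockCoeff_lr hM isPBlock_principalBlock g) (trivChar_mem_principalBlock hM) hχ
  rw [gram_eq] at h0
  set F : G → ℂ := fun g => (χ₀ : G → ℂ) g⁻¹ with hF
  have hD : ∑ g : G, Cfsg.pRegularPart 2 (fun _ : G => (1:ℂ)) g * F g = 0 := by
    rcases mul_eq_zero.mp h0 with h2 | h2
    · exact absurd (inv_eq_zero.mp h2) card_ne_zero
    · exact h2
  set idx : G → ℕ := fun g => (Subgroup.centralizer ({g} : Set G)).index with hidx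
  have hsplit : ∀ g : G, Cfsg.pRegularPart 2 (fun _ : G => (1:ℂ)) g * F g =
      (if g = 1 then F 1 else 0) +
      (if g ≠ 1 ∧ ¬ 2 ∣ orderOf g ∧ 2 ∣ idx g then F g else 0) +
      (if g ≠ 1 ∧ ¬ 2 ∣ orderOf g ∧ ¬ 2 ∣ idx g then F g else 0) := by
    intro g
    by_cases hg1 : g = 1
    · subst hg1
      rw [pRegularPart_of_reg (by simp)]
      simp
    · by_cases hg2 : 2 ∣ orderOf g
      · rw [pRegularPart_of_sing hg2]; simp [hg1, hg2]
      · rw [pRegularPart_of_reg hg2]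
        by_cases hg3 : 2 ∣ idx g <;> simp [hg1, hg2, hg3]
  have hsum : ∑ g : G, Cfsg.pRegularPart 2 (fun _ : G => (1:ℂ)) g * F g =
      F 1 + ∑ g : G, (if g ≠ 1 ∧ ¬ 2 ∣ orderOf g ∧ 2 ∣ idx g then F g else 0) +
        ∑ x : {g : G // g ≠ 1 ∧ ¬ 2 ∣ orderOf g ∧ ¬ 2 ∣ idx g}, F x.1 := by
    rw [Finset.sum_congr rfl (fun g _ => hsplit g), Finset.sum_add_distrib,
      Finset.sum_add_distrib, Finset.sum_ite_eq']
    simp only [Finset.mem_univ, if_true]
    congr 1
    rw [← Finset.sum_filter]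
    rw [Finset.sum_subtype (Finset.univ.filter
        (fun g : G => g ≠ 1 ∧ ¬ 2 ∣ orderOf g ∧ ¬ 2 ∣ idx g))
      (p := fun g : G => g ≠ 1 ∧ ¬ 2 ∣ orderOf g ∧ ¬ 2 ∣ idx g) (by simp) F]
  have h2li : Cfsg.MemLocalIdeal M (2 : ℂ) := by simpa using li_prime hM
  -- even-size classes
  have hA : Cfsg.MemLocalIdeal M
      (∑ g : G, (if g ≠ 1 ∧ ¬ 2 ∣ orderOf g ∧ 2 ∣ idx g then F g else 0)) := by
    apply li_sum_classFun hM
    · intro g x
      have h1 : (x * g * x⁻¹ ≠ 1) ↔ g ≠ 1 := by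
        constructor
        · intro h hg; apply h; rw [hg]; simp
        · intro h hg; apply h
          have h5 : g = x⁻¹ * (x * g * x⁻¹) * x := by group
          rw [h5, hg]; simp
      have h2 : orderOf (x * g * x⁻¹) = orderOf g := orderOf_conj_eq g x
      have h3 : idx (x * g * x⁻¹) = idx g := index_centralizer_conj g x
      have h4 : F (x * g * x⁻¹) = F g := by
        simp only [hF]
        rw [show (x * g * x⁻¹)⁻¹ = x * g⁻¹ * x⁻¹ by group]
        exact irr_conj χ₀ g⁻¹ x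
      simp only [h1, h2, h3, h4]
    · intro g
      by_cases hc : g ≠ 1 ∧ ¬ 2 ∣ orderOf g ∧ 2 ∣ idx g
      · rw [if_pos hc]
        obtain ⟨m, hm⟩ := hc.2.2
        have h5 : ((Subgroup.centralizer ({g} : Set G)).index : ℂ) * F g =
            (2 : ℂ) * ((m : ℂ) * F g) := by
          have h6 : ((Subgroup.centralizer ({g} : Set G)).index : ℂ) = 2 * (m : ℂ) := by
            exact_mod_cast hm
          rw [h6]; ring
        rw [h5]
        exact li_mul_lr hM h2li (lr_mul hM (lr_natCast hM m)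
          (lr_of_isIntegral hM (irr_isIntegral χ₀ _)))
      · rw [if_neg hc, mul_zero]; exact li_zero hM
  -- odd-size classes: pair x with x⁻¹
  let X := {g : G // g ≠ 1 ∧ ¬ 2 ∣ orderOf g ∧ ¬ 2 ∣ idx g}
  have hodd1 : ∀ x : G, x ≠ 1 → ¬ 2 ∣ orderOf x → x⁻¹ ≠ x := by
    intro x hx1 hx2 h
    have h3 : x ^ 2 = 1 := by
      rw [pow_two]
      nth_rewrite 1 [← h]
      exact inv_mul_cancel x
    have h4 : orderOf x ∣ 2 := orderOf_dvd_of_pow_eq_one h3
    have h5 : orderOf x = 1 ∨ orderOf x = 2 := (Nat.dvd_prime Nat.prime_two).mp h4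
    rcases h5 with h5 | h5
    · exact hx1 (orderOf_eq_one_iff.mp h5)
    · exact hx2 (by rw [h5])
  let inv' : X → X := fun x => ⟨x.1⁻¹, by
    have := x.2.1
    simpa using this, by rw [orderOf_inv]; exact x.2.2.1, by
    have h1 : idx x.1⁻¹ = idx x.1 := by
      simp only [hidx]; rw [centralizer_inv_eq]
    rw [h1]; exact x.2.2.2⟩
  let act : ℕ → X → X := fun j x => if Even j then x else inv' x
  have hinv2 : ∀ x : X, inv' (inv' x) = x := fun x => Subtype.ext (inv_inv _)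
  have hinvne : ∀ x : X, inv' x ≠ x := by
    intro x h
    exact hodd1 x.1 x.2.1 x.2.2.1 (congrArg Subtype.val h)
  obtain ⟨T, hT⟩ := exists_transversal_of_free act 2 (by norm_num)
    (fun x => by simp [act])
    (fun j k x => by
      by_cases hj : Even j <;> by_cases hk : Even k
      · simp [act, hj, hk, Nat.even_add]
      · simp [act, hj, hk, Nat.even_add]
      · simp [act, hj, hk, Nat.even_add]
      · simp [act, hj, hk, Nat.even_add, hinv2])
    (fun x j => by
      by_cases hj : Even j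
      · simp only [act, hj, if_true, true_iff]
        exact even_iff_two_dvd.mp hj
      · simp only [act, hj, if_false]
        constructor
        · intro h
          exact absurd h (hinvne x)
        · intro h
          exact absurd (even_iff_two_dvd.mpr h) hj)
  have hB2 : Cfsg.MemLocalIdeal M (∑ x : X, F x.1) := by
    rw [hT (fun x : X => F x.1)]
    apply li_sum hM
    intro t _
    rw [Finset.sum_range_succ, Finset.sum_range_one]
    simp only [act, inv']
    simp only [Nat.not_even_one, if_false, Even.zero, if_true]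
    simp only [hF, inv_inv]
    -- χ₀ t⁻¹ + χ₀ t = 2 χ₀ t + (ψ t - χ₀ t)
    have h1 : (χ₀ : G → ℂ) t.1⁻¹ + (χ₀ : G → ℂ) t.1 =
        (2 : ℂ) * (χ₀ : G → ℂ) t.1 - ((χ₀ : G → ℂ) t.1 - (ψ : G → ℂ) t.1) := by
      rw [hψodd t.1 t.2.2.1]; ring
    rw [h1]
    refine li_sub hM (li_mul_lr hM h2li (lr_of_isIntegral hM (irr_isIntegral χ₀ _))) ?_
    have h2 := hsame t.1
    unfold Cfsg.centralChar at h2
    rw [hψ1] at h2
    have hi : ¬ 2 ∣ (Subgroup.centralizer ({t.1} : Set G)).index := t.2.2.2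
    have hi0 : ((Subgroup.centralizer ({t.1} : Set G)).index : ℂ) ≠ 0 := by
      intro h0
      have : (Subgroup.centralizer ({t.1} : Set G)).index = 0 := by exact_mod_cast h0
      exact hi (this ▸ dvd_zero 2)
    have hd1 : (χ₀ : G → ℂ) 1 ≠ 0 := irr_one_ne_zero χ₀
    have h3 : (χ₀ : G → ℂ) t.1 - (ψ : G → ℂ) t.1 =
        ((((Subgroup.centralizer ({t.1} : Set G)).index : ℂ) * (χ₀ : G → ℂ) t.1 / (χ₀ : G → ℂ) 1 -
          ((Subgroup.centralizer ({t.1} : Set G)).index : ℂ) * (ψ : G → ℂ) t.1 / (χ₀ : G → ℂ) 1) *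
          (χ₀ : G → ℂ) 1) * ((Subgroup.centralizer ({t.1} : Set G)).index : ℂ)⁻¹ := by
      field_simp
    rw [h3]
    refine li_mul_lr hM (li_mul_lr hM h2 ?_) (lr_natCast_inv hM hi)
    rw [irr_one_eq_degree]
    exact lr_natCast hM _
  -- conclusion
  rw [hsum] at hD
  have h5 : F 1 = (d₀ : ℂ) := by
    simp only [hF, inv_one]
    exact irr_one_eq_degree χ₀
  have h6 : Cfsg.MemLocalIdeal M ((d₀ : ℂ)) := by
    have h7 : (d₀ : ℂ) = -((∑ g : G, (if g ≠ 1 ∧ ¬ 2 ∣ orderOf g ∧ 2 ∣ idx g then F g else 0)) +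
        ∑ x : X, F x.1) := by
      rw [← h5]; linear_combination hD
    rw [h7]
    exact li_neg (li_add hM hA hB2)
  exact hodd ((li_natCast_iff hM d₀).mp h6)

end Cfsg.Agent.S4517
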