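import Cfsg.Statements.S4518
import Cfsg.Agent.Helper24.InvConst
import Cfsg.Agent.Helper11.GalConj

set_option autoImplicit false
open Cfsg

namespace Cfsg.Agent.S4518

open Cfsg.Agent.Helper24 Cfsg.Agent.Helper2

/-- Let N be a normal subgroup of the finite group G whose index is not divisible by the prime p, and let k be coprime to the order of G with k ^ (p ^ e) ≡ 1 modulo the order of G for some e (so g ↦ g ^ k induces a field automorphism of p-power order on character values). If an irreducible character χ of G satisfies χ (g ^ k) = χ g for all g, then every irreducible constituent θ of the restriction of χ to N satisfies θ (n ^ k) = θ n for all n. -/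
theorem result {G : Type*} [Group G] [Fintype G] (p : ℕ) [Fact p.Prime] (N : Subgroup G) [N.Normal] [Fintype N] (hidx : ¬ p ∣ N.index) (k e : ℕ) (hk : Nat.Coprime k (Nat.card G)) (hke : k ^ (p ^ e) ≡ 1 [MOD Nat.card G]) (χ : Cfsg.IrrCharacter G) (hχ : ∀ g : G, (χ : G → ℂ) (g ^ k) = (χ : G → ℂ) g) (θ : Cfsg.IrrCharacter N) (hθ : Cfsg.classInner (fun n : N => (χ : G → ℂ) n) (θ : N → ℂ) ≠ 0) : ∀ n : N, (θ : N → ℂ) (n ^ k) = (θ : N → ℂ) n := by
  classical
  have hp : p.Prime := Fact.out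
  have hkN : Nat.Coprime k (Nat.card N) :=
    Nat.Coprime.coprime_dvd_right (Subgroup.card_subgroup_dvd_card N) hk
  have hθirr : Cfsg.IsIrrCharacter N (θ : N → ℂ) := θ.2
  have hθcl : Cfsg.IsClassFunction N (θ : N → ℂ) :=
    isClassFunction_of_isCharacter (isCharacter_of_isIrrCharacter hθirr)
  -- the Galois conjugate of θ
  have hσirr : Cfsg.IsIrrCharacter N (fun n : N => (θ : N → ℂ) (n ^ k)) :=
    (Cfsg.Agent.Helper11.char_pow_coprime k hkN (isCharacter_of_isIrrCharacter hθirr)).2 hθirr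
  -- inner product invariance under n ↦ n ^ k
  have hinner : Cfsg.classInner (fun n : N => (χ : G → ℂ) n) (fun n : N => (θ : N → ℂ) (n ^ k)) =
      Cfsg.classInner (fun n : N => (χ : G → ℂ) n) (θ : N → ℂ) := by
    unfold Cfsg.classInner
    congr 1
    refine Fintype.sum_equiv (powCoprime hkN.symm) _ _ (fun n => ?_)
    simp only [powCoprime_apply]
    have h1 : (χ : G → ℂ) ((n ^ k : N) : G) = (χ : G → ℂ) (n : G) := by
      rw [Subgroup.coe_pow]; exact hχ _
    rw [h1]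
  have hcon : Cfsg.classInner (fun n : N => (χ : G → ℂ) n)
      ((⟨fun n : N => (θ : N → ℂ) (n ^ k), hσirr⟩ : Cfsg.IrrCharacter N) : N → ℂ) ≠ 0 := by
    show Cfsg.classInner (fun n : N => (χ : G → ℂ) n) (fun n : N => (θ : N → ℂ) (n ^ k)) ≠ 0
    rw [hinner]; exact hθ
  obtain ⟨g₀, hg₀⟩ := clifford_conj N (χ : G → ℂ) χ.2 (θ : N → ℂ) hθirr hθ
    ⟨fun n : N => (θ : N → ℂ) (n ^ k), hσirr⟩ hcon
  have hg₀' : (fun n : N => (θ : N → ℂ) (n ^ k)) = conjChar N (θ : N → ℂ) g₀ := hg₀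
  -- iterate
  have hiter : ∀ j : ℕ, (fun n : N => (θ : N → ℂ) (n ^ (k ^ j))) = conjChar N (θ : N → ℂ) (g₀ ^ j) := by
    intro j
    induction j with
    | zero =>
      funext n
      simp only [pow_zero, pow_one, conjChar_one]
    | succ j ih =>
      funext n
      have h1 : (θ : N → ℂ) (n ^ (k ^ (j + 1))) = (θ : N → ℂ) ((n ^ k) ^ (k ^ j)) := by
        rw [← pow_mul, pow_succ' k j]
      rw [h1]
      have h2 : (θ : N → ℂ) ((n ^ k) ^ (k ^ j)) = conjChar N (θ : N → ℂ) (g₀ ^ j) (n ^ k) :=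
        congrFun ih (n ^ k)
      rw [h2, conjChar_apply, pow_succ', ← conjChar_mul, ← hg₀', conjChar_apply]
      refine congrArg _ (Subtype.ext ?_)
      simp only [Subgroup.coe_pow]
      rw [conj_pow]
  -- g₀ ^ (p ^ e) stabilizes θ
  have hstab : conjChar N (θ : N → ℂ) (g₀ ^ (p ^ e)) = (θ : N → ℂ) := by
    rw [← hiter (p ^ e)]
    funext n
    have h1 : n ^ (k ^ (p ^ e)) = n ^ 1 := by
      rw [pow_eq_pow_iff_modEq]
      exact Nat.ModEq.of_dvd ((orderOf_dvd_natCard n).trans (Subgroup.card_subgroup_dvd_card N)) hke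
    rw [h1, pow_one]
  -- g₀ stabilizes θ
  have hcop : (p ^ e).Coprime (orderOf (QuotientGroup.mk g₀ : G ⧸ N)) := by
    have h1 : orderOf (QuotientGroup.mk g₀ : G ⧸ N) ∣ N.index := by
      rw [Subgroup.index_eq_card]; exact orderOf_dvd_natCard _
    have h2 : (p ^ e).Coprime N.index :=
      Nat.Coprime.pow_left e ((Nat.Prime.coprime_iff_not_dvd hp).mpr hidx)
    exact Nat.Coprime.coprime_dvd_right h1 h2
  obtain ⟨a, ha⟩ := exists_pow_eq_self_of_coprime hcop
  have hmem : ((g₀ ^ (p ^ e)) ^ a)⁻¹ * g₀ ∈ N := by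
    rw [← QuotientGroup.eq]
    rw [QuotientGroup.mk_pow, QuotientGroup.mk_pow]
    exact ha
  have hg₀stab : conjChar N (θ : N → ℂ) g₀ = (θ : N → ℂ) := by
    have h1 : g₀ = (g₀ ^ (p ^ e)) ^ a * (((g₀ ^ (p ^ e)) ^ a)⁻¹ * g₀) := by group
    rw [h1, ← conjChar_mul, conjChar_pow N _ _ hstab a, conjChar_of_mem N _ hθcl hmem]
  intro n
  have h3 : (θ : N → ℂ) (n ^ k) = conjChar N (θ : N → ℂ) g₀ n := congrFun hg₀' n
  rw [h3, hg₀stab]

end Cfsg.Agent.S4518
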