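import Cfsg.Statements.S4520
import Cfsg.Agent.Helper24.InvPair
import Cfsg.Agent.Helper24.CliffOmega
import Cfsg.Agent.Helper7.ThirdMain

set_option autoImplicit false
open Cfsg

namespace Cfsg.Agent.S4520

open Cfsg.Agent.Helper25 Cfsg.Agent.Helper24 Cfsg.Agent.Helper7

theorem quot_real_odd {Q : Type*} [Group Q] [Finite Q] (hodd : Odd (Nat.card Q)) (a b : Q)
    (h : a * b * a⁻¹ = b⁻¹) : b = 1 := by
  -- a^2 commutes with b
  have h2 : a ^ 2 * b = b * a ^ 2 := by
    have e1 : a * b = b⁻¹ * a := by rw [← h]; group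
    have e2 : a * b⁻¹ = b * a := by
      have : a * b⁻¹ * a⁻¹ = b := by
        have h' := congrArg (fun t => t⁻¹) h
        simp only [mul_inv_rev, inv_inv] at h'
        rw [← mul_assoc] at h'
        exact h'
      calc a * b⁻¹ = (a * b⁻¹ * a⁻¹) * a := by group
        _ = b * a := by rw [this]
    calc a ^ 2 * b = a * (a * b) := by rw [pow_two, mul_assoc]
      _ = a * (b⁻¹ * a) := by rw [e1]
      _ = (a * b⁻¹) * a := by rw [mul_assoc]
      _ = b * a * a := by rw [e2]
      _ = b * a ^ 2 := by rw [pow_two, mul_assoc]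
  have hcomm : Commute (a ^ 2) b := h2
  have hao : Odd (orderOf a) := Odd.of_dvd_nat hodd (orderOf_dvd_natCard a)
  obtain ⟨t, ht⟩ := hao
  have h3 : a ^ (2 * t) * a = 1 := by
    rw [← pow_succ, ← ht, pow_orderOf_eq_one]
  have h4 : Commute (a ^ (2 * t)) b := by
    rw [pow_mul]; exact hcomm.pow_left t
  have h5 : a⁻¹ = a ^ (2 * t) := by
    exact inv_eq_of_mul_eq_one_left h3
  have h6 : Commute a⁻¹ b := by rw [h5]; exact h4
  have h7 : Commute a b := by
    have := h6.inv_left
    rwa [inv_inv] at this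
  have h8 : b = b⁻¹ := by
    rw [← h, h7.eq, mul_inv_cancel_right]
  have h9 : b ^ 2 = 1 := by
    rw [pow_two]
    nth_rewrite 1 [h8]
    exact inv_mul_cancel b
  have hbo : Odd (orderOf b) := Odd.of_dvd_nat hodd (orderOf_dvd_natCard b)
  have h10 : orderOf b ∣ 2 := orderOf_dvd_of_pow_eq_one h9
  have h11 : orderOf b = 1 := by
    rcases (Nat.dvd_prime Nat.prime_two).mp h10 with h | h
    · exact h
    · rw [h] at hbo; exact absurd hbo (by decide)
  exact orderOf_eq_one_iff.mp h11

/-- Let N be a normal subgroup of odd index in the finite group G, M a maximal ideal of the algebraic integers containing 2, and k coprime to the order of G with k ^ (2 ^ e) ≡ 1 modulo the order of G for some e and g ^ k = g⁻¹ for every element g of odd order. Let θ be an irreducible character of N and χ an irreducible character of G over θ, both unchanged by composing with g ↦ g ^ k. Then χ lies in the principal 2-block of G if and only if θ lies in the principal 2-block of N. -/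
theorem result {G : Type*} [Group G] [Fintype G] (M : Ideal Cfsg.AlgInt) (hM : Cfsg.IsPModular 2 M) (N : Subgroup G) [N.Normal] [Fintype N] (hidx : Odd N.index) (k e : ℕ) (hk : Nat.Coprime k (Nat.card G)) (hke : k ^ (2 ^ e) ≡ 1 [MOD Nat.card G]) (hk₂ : ∀ g : G, Odd (orderOf g) → g ^ k = g⁻¹) (θ : Cfsg.IrrCharacter N) (hθ : ∀ n : N, (θ : N → ℂ) (n ^ k) = (θ : N → ℂ) n) (χ : Cfsg.IrrCharacter G) (hχ : ∀ g : G, (χ : G → ℂ) (g ^ k) = (χ : G → ℂ) g) (hover : Cfsg.classInner (fun n : N => (χ : G → ℂ) n) (θ : N → ℂ) ≠ 0) : χ ∈ Cfsg.principalBlock M G ↔ θ ∈ Cfsg.principalBlock M N := by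
  classical
  haveI : Fact (Nat.Prime 2) := ⟨Nat.prime_two⟩
  have hNn : N.Normal := inferInstance
  have hχ1 : (χ : G → ℂ) 1 ≠ 0 := irr_one_ne_zero χ
  -- the remainder function
  set F : G → ℂ := fun g => if g ∈ N then 0 else regInd 2 G g * (χ : G → ℂ) g / (χ : G → ℂ) 1
    with hF
  have hFcl : ∀ g x : G, F (x * g * x⁻¹) = F g := by
    intro g x
    simp only [hF]
    have hmem : x * g * x⁻¹ ∈ N ↔ g ∈ N := by
      constructor
      · intro h
        have := hNn.conj_mem _ h x⁻¹
        simpa [mul_assoc] using this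
      · intro h
        exact hNn.conj_mem _ h x
    by_cases hg : g ∈ N
    · rw [if_pos hg, if_pos (hmem.mpr hg)]
    · rw [if_neg hg, if_neg (fun h => hg (hmem.mp h)), regInd_conj, irr_conj]
  have hFinv : ∀ g : G, F g⁻¹ = F g := by
    intro g
    simp only [hF]
    by_cases hg : g ∈ N
    · rw [if_pos hg, if_pos (N.inv_mem hg)]
    · rw [if_neg hg, if_neg (fun h => hg (by simpa using N.inv_mem h)), regInd_inv]
      by_cases h2 : 2 ∣ orderOf g
      · rw [regInd_sing h2, zero_mul, zero_mul]
      · have hodd : Odd (orderOf g) := Nat.not_even_iff_odd.mp (fun h => h2 h.two_dvd)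
        rw [← hk₂ g hodd, hχ g]
  have hFlr : ∀ g : G, MemLocalRing M (((Subgroup.centralizer ({g} : Set G)).index : ℂ) * F g) := by
    intro g
    simp only [hF]
    by_cases hg : g ∈ N
    · rw [if_pos hg, mul_zero]; exact lr_zero hM
    · rw [if_neg hg]
      have e : ((Subgroup.centralizer ({g} : Set G)).index : ℂ) *
          (regInd 2 G g * (χ : G → ℂ) g / (χ : G → ℂ) 1)
          = regInd 2 G g * centralChar (χ : G → ℂ) g := by
        unfold centralChar
        ring
      rw [e]
      exact lr_mul hM (regInd_lr hM g) (lr_centralChar hM χ g)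
  have hidx' : Odd (Nat.card (G ⧸ N)) := by
    rw [← Subgroup.index_eq_card]; exact hidx
  have hFfix : ∀ g x : G, x * g * x⁻¹ = g⁻¹ → F g = 0 := by
    intro g x hx
    simp only [hF]
    by_cases hg : g ∈ N
    · rw [if_pos hg]
    · exfalso
      have h1 : (x : G ⧸ N) * (g : G ⧸ N) * (x : G ⧸ N)⁻¹ = (g : G ⧸ N)⁻¹ := by
        rw [← QuotientGroup.mk_inv, ← QuotientGroup.mk_mul, ← QuotientGroup.mk_mul,
          ← QuotientGroup.mk_inv, hx]
      have h2 := quot_real_odd hidx' _ _ h1
      exact hg ((QuotientGroup.eq_one_iff g).mp h2)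
  have hR : MemLocalIdeal M (∑ g : G, F g) := li_sum_of_inv_pairing hM F hFcl hFinv hFlr hFfix
  -- the key identity
  have hf : ∀ (g : G) (n : N), regInd 2 N ⟨g * n * g⁻¹, hNn.conj_mem n n.2 g⟩ = regInd 2 N n := by
    intro g n
    rw [← regInd_coe N, ← regInd_coe N]
    exact regInd_conj (n : G) g
  have hkey : omega (regInd 2 G) χ = omega (regInd 2 N) θ + ∑ g : G, F g := by
    rw [← omega_restrict_normal N χ θ hover (regInd 2 N) hf]
    unfold omega
    have h1 : ∑ n : N, regInd 2 N n * (χ : G → ℂ) n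
        = ∑ g : G, if g ∈ N then regInd 2 G g * (χ : G → ℂ) g else 0 := by
      rw [← Finset.sum_filter]
      rw [Finset.sum_subtype (Finset.univ.filter (fun g : G => g ∈ N)) (p := fun g => g ∈ N)
        (by simp) (fun g => regInd 2 G g * (χ : G → ℂ) g)]
      apply Finset.sum_congr rfl
      intro n _
      rw [regInd_coe N]
    rw [h1, Finset.sum_div, Finset.sum_div, ← Finset.sum_add_distrib]
    apply Finset.sum_congr rfl
    intro g _
    simp only [hF]
    by_cases hg : g ∈ N
    · rw [if_pos hg, if_pos hg, add_zero]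
    · rw [if_neg hg, if_neg hg, zero_div, zero_add]
  constructor
  · intro hχB
    by_contra hθB
    have h1 := not_li_omega_regInd hM hχB
    rw [hkey, omega_regInd_of_not_mem hM hθB, zero_add] at h1
    exact h1 hR
  · intro hθB
    by_contra hχB
    have h1 := not_li_omega_regInd hM hθB
    have h2 := omega_regInd_of_not_mem hM hχB
    rw [hkey] at h2
    have h3 : omega (regInd 2 N) θ = -∑ g : G, F g := eq_neg_of_add_eq_zero_left h2
    rw [h3] at h1
    exact h1 (li_neg hR)

end Cfsg.Agent.S4520
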