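import Cfsg.Statements.S4521
import Cfsg.Agent.Helper24.CliffOmega
import Cfsg.Agent.Helper7.ThirdMain
import Cfsg.Agent.Helper25.CharClass

set_option autoImplicit false
open Cfsg

namespace Cfsg.Agent.S4521

open Cfsg.Agent.Helper25 Cfsg.Agent.Helper24 Cfsg.Agent.Helper7

theorem s4521_normal {G : Type*} [Group G] (U₁ U₂ : Subgroup G)
    (hcomm : ∀ u ∈ U₁, ∀ v ∈ U₂, u * v = v * u) (hgen : U₁ ⊔ U₂ = ⊤) : U₂.Normal := by
  have h1 : U₁ ≤ Subgroup.normalizer (U₂ : Set G) := by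
    intro u hu
    rw [Subgroup.mem_normalizer_iff]
    intro n
    constructor
    · intro hn
      have : u * n * u⁻¹ = n := by rw [hcomm u hu n hn, mul_inv_cancel_right]
      rw [this]; exact hn
    · intro hn
      have e : u⁻¹ * (u * n * u⁻¹) = (u * n * u⁻¹) * u⁻¹ := hcomm u⁻¹ (U₁.inv_mem hu) _ hn
      have : n = u * n * u⁻¹ := by
        calc n = u⁻¹ * (u * n * u⁻¹) * u := by group
          _ = (u * n * u⁻¹) * u⁻¹ * u := by rw [e]
          _ = u * n * u⁻¹ := by group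
      rw [this]; exact hn
  have h2 : U₁ ⊔ U₂ ≤ Subgroup.normalizer (U₂ : Set G) := sup_le h1 Subgroup.le_normalizer
  rw [hgen] at h2
  exact Subgroup.normalizer_eq_top_iff.mp (top_le_iff.mp h2)

theorem s4521_decomp {G : Type*} [Group G] (U₁ U₂ : Subgroup G)
    (hcomm : ∀ u ∈ U₁, ∀ v ∈ U₂, u * v = v * u) (hgen : U₁ ⊔ U₂ = ⊤) (g : G) :
    ∃ a ∈ U₁, ∃ b ∈ U₂, g = a * b := by
  haveI := s4521_normal U₁ U₂ hcomm hgen
  have h : g ∈ ((U₁ ⊔ U₂ : Subgroup G) : Set G) := by rw [hgen]; trivial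
  rw [Subgroup.mul_normal] at h
  obtain ⟨a, ha, b, hb, e⟩ := Set.mem_mul.mp h
  exact ⟨a, ha, b, hb, e.symm⟩

theorem s4521_prod {G : Type*} [Group G] [Fintype G] (U₁ U₂ : Subgroup G)
    (hcomm : ∀ u ∈ U₁, ∀ v ∈ U₂, u * v = v * u) (hgen : U₁ ⊔ U₂ = ⊤) (χ : IrrCharacter G)
    (a : G) (ha : a ∈ U₁) (b : G) (hb : b ∈ U₂) :
    (χ : G → ℂ) (a * b) * (χ : G → ℂ) 1 = (χ : G → ℂ) a * (χ : G → ℂ) b := by
  classical
  set ψ : G → ℂ := fun x => if IsConj a x then 1 else 0 with hψ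
  have hψc : ∀ g x : G, ψ (x * g * x⁻¹) = ψ g := by
    intro g x
    have : IsConj a (x * g * x⁻¹) ↔ IsConj a g := by
      constructor
      · intro h; exact h.trans (isConj_iff.mpr ⟨x⁻¹, by group⟩)
      · intro h; exact h.trans (isConj_iff.mpr ⟨x, rfl⟩)
    simp only [hψ, this]
  have h1 := irr_sum_classFun_mul χ ψ hψc b
  have hx : ∀ x : G, IsConj a x →
      (χ : G → ℂ) (x * b) = (χ : G → ℂ) (a * b) ∧ (χ : G → ℂ) x = (χ : G → ℂ) a := by
    intro x hx
    obtain ⟨c, hc⟩ := isConj_iff.mp hx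
    obtain ⟨u, hu, v, hv, rfl⟩ := s4521_decomp U₁ U₂ hcomm hgen c
    have e1 : x = u * a * u⁻¹ := by
      rw [← hc]
      have : v * a = a * v := (hcomm a ha v hv).symm
      calc u * v * a * (u * v)⁻¹ = u * (v * a) * v⁻¹ * u⁻¹ := by group
        _ = u * (a * v) * v⁻¹ * u⁻¹ := by rw [this]
        _ = u * a * u⁻¹ := by group
    have e2 : x * b = u * (a * b) * u⁻¹ := by
      have : u⁻¹ * b = b * u⁻¹ := hcomm u⁻¹ (U₁.inv_mem hu) b hb
      rw [e1]
      calc u * a * u⁻¹ * b = u * a * (u⁻¹ * b) := by group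
        _ = u * a * (b * u⁻¹) := by rw [this]
        _ = u * (a * b) * u⁻¹ := by group
    constructor
    · rw [e2]; exact irr_conj χ _ _
    · rw [e1]; exact irr_conj χ _ _
  have hL : ∑ x : G, ψ x * (χ : G → ℂ) (x * b) = (∑ x : G, ψ x) * (χ : G → ℂ) (a * b) := by
    rw [Finset.sum_mul]
    refine Finset.sum_congr rfl (fun x _ => ?_)
    by_cases hxa : IsConj a x
    · rw [(hx x hxa).1]
    · simp only [hψ, if_neg hxa, zero_mul]
  have hR : ∑ x : G, ψ x * (χ : G → ℂ) x = (∑ x : G, ψ x) * (χ : G → ℂ) a := by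
    rw [Finset.sum_mul]
    refine Finset.sum_congr rfl (fun x _ => ?_)
    by_cases hxa : IsConj a x
    · rw [(hx x hxa).2]
    · simp only [hψ, if_neg hxa, zero_mul]
  have hS : (∑ x : G, ψ x) ≠ 0 := by
    simp only [hψ]
    rw [Finset.sum_boole]
    have : 0 < (Finset.univ.filter (fun x : G => IsConj a x)).card :=
      Finset.card_pos.mpr ⟨a, Finset.mem_filter.mpr ⟨Finset.mem_univ _, IsConj.refl a⟩⟩
    exact_mod_cast this.ne'
  have hχ1 := irr_one_ne_zero χ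
  rw [hL, hR] at h1
  have h2 : (∑ x : G, ψ x) * ((χ : G → ℂ) (a * b) * (χ : G → ℂ) 1) =
      (∑ x : G, ψ x) * ((χ : G → ℂ) a * (χ : G → ℂ) b) := by
    field_simp at h1
    linear_combination (∑ x : G, ψ x) * h1
  exact mul_left_cancel₀ hS h2

theorem s4521_pow {G : Type*} [Group G] [Finite G] (p : ℕ) [hp : Fact p.Prime] :
    ∃ m : ℕ, (∀ x : G, ¬ p ∣ orderOf (x ^ m)) ∧ ∀ x : G, ¬ p ∣ orderOf x → x ^ m = x := by
  obtain ⟨e, n, hn, hN⟩ :=
    Nat.exists_eq_pow_mul_and_not_dvd (Nat.card_pos (α := G)).ne' p hp.out.ne_one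
  have hcop : Nat.Coprime (p ^ e) n :=
    Nat.Coprime.pow_left e (hp.out.coprime_iff_not_dvd.mpr hn)
  obtain ⟨m, hm0, hm1⟩ := Nat.chineseRemainder hcop 0 1
  refine ⟨m, fun x hx => ?_, fun x hx => ?_⟩
  · have h0 : p ^ e ∣ m := (Nat.modEq_zero_iff_dvd).mp hm0
    obtain ⟨c, hc⟩ := h0
    have h1 : (x ^ m) ^ n = 1 := by
      rw [← pow_mul, hc, mul_right_comm, ← hN, pow_mul, pow_card_eq_one', one_pow]
    exact hn (dvd_trans hx (orderOf_dvd_of_pow_eq_one h1))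
  · have h1 : orderOf x ∣ p ^ e * n := hN ▸ orderOf_dvd_natCard x
    have h2 : Nat.Coprime (orderOf x) (p ^ e) :=
      Nat.Coprime.pow_right e ((Nat.coprime_comm).mp (hp.out.coprime_iff_not_dvd.mpr hx))
    have h3 : orderOf x ∣ n := h2.dvd_of_dvd_mul_left h1
    have h4 : m ≡ 1 [MOD orderOf x] := hm1.of_dvd h3
    exact (pow_eq_pow_iff_modEq.mpr h4).trans (pow_one x)

theorem s4521_sum {G : Type*} [Group G] [Fintype G] (p : ℕ) [hp : Fact p.Prime]
    (U₁ U₂ : Subgroup G) [Fintype U₁] [Fintype U₂]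
    (hcomm : ∀ u ∈ U₁, ∀ v ∈ U₂, u * v = v * u) (hgen : U₁ ⊔ U₂ = ⊤)
    (hZ : IsPGroup p ↥(U₁ ⊓ U₂)) (F : G → ℂ) :
    ∑ g : G, regInd p G g * F g =
      ∑ a : U₁, ∑ b : U₂, regInd p U₁ a * regInd p U₂ b * F ((a : G) * (b : G)) := by
  classical
  have hL : ∑ g : G, regInd p G g * F g =
      ∑ g ∈ Finset.univ.filter (fun g : G => ¬ p ∣ orderOf g), F g := by
    rw [Finset.sum_filter]
    refine Finset.sum_congr rfl (fun g _ => ?_)
    by_cases h : p ∣ orderOf g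
    · rw [regInd_sing h, if_neg (not_not.mpr h), zero_mul]
    · rw [regInd_reg h, if_pos h, one_mul]
  have hR : ∑ a : U₁, ∑ b : U₂, regInd p U₁ a * regInd p U₂ b * F ((a : G) * (b : G)) =
      ∑ ab ∈ (Finset.univ : Finset (U₁ × U₂)).filter
        (fun ab => ¬ p ∣ orderOf ab.1 ∧ ¬ p ∣ orderOf ab.2), F ((ab.1 : G) * (ab.2 : G)) := by
    rw [Finset.sum_filter, Fintype.sum_prod_type]
    refine Finset.sum_congr rfl (fun a _ => Finset.sum_congr rfl (fun b _ => ?_))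
    by_cases h1 : p ∣ orderOf a
    · rw [regInd_sing h1, if_neg (fun h => h.1 h1)]; ring
    · by_cases h2 : p ∣ orderOf b
      · rw [regInd_sing h2, if_neg (fun h => h.2 h2)]; ring
      · rw [regInd_reg h1, regInd_reg h2, if_pos ⟨h1, h2⟩]; ring
  rw [hL, hR]
  symm
  refine Finset.sum_bij (fun ab _ => (ab.1 : G) * (ab.2 : G)) ?_ ?_ ?_ ?_
  · rintro ⟨a, b⟩ hab
    simp only [Finset.mem_filter, Finset.mem_univ, true_and] at hab ⊢
    intro hdiv
    have hc : Commute (a : G) (b : G) := hcomm a a.2 b b.2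
    have h1 := dvd_trans hdiv hc.orderOf_mul_dvd_lcm
    have h2 := dvd_trans h1 (Nat.lcm_dvd_mul _ _)
    rcases (hp.out.dvd_mul).mp h2 with h | h
    · exact hab.1 (by rwa [Subgroup.orderOf_coe] at h)
    · exact hab.2 (by rwa [Subgroup.orderOf_coe] at h)
  · rintro ⟨a, b⟩ hab ⟨a', b'⟩ hab' heq
    simp only [Finset.mem_filter, Finset.mem_univ, true_and] at hab hab'
    simp only at heq
    -- z = a'⁻¹ a = b' b⁻¹
    have hz : (a' : G)⁻¹ * a = b' * (b : G)⁻¹ := by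
      have : (a : G) = a' * b' * (b : G)⁻¹ := by rw [← heq]; group
      rw [this]; group
    have hz1 : (a' : G)⁻¹ * a ∈ U₁ := U₁.mul_mem (U₁.inv_mem a'.2) a.2
    have hz2 : (a' : G)⁻¹ * a ∈ U₂ := by rw [hz]; exact U₂.mul_mem b'.2 (U₂.inv_mem b.2)
    obtain ⟨k, hk⟩ := hZ ⟨(a' : G)⁻¹ * a, Subgroup.mem_inf.mpr ⟨hz1, hz2⟩⟩
    have hk' : ((a' : G)⁻¹ * a) ^ (p ^ k) = 1 := by
      have := congrArg (Subtype.val) hk
      simpa using this
    have hcz : Commute (a' : G) ((a' : G)⁻¹ * a) := hcomm a' a'.2 _ hz2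
    have hca : Commute (a' : G) (a : G) := by
      have : (a : G) = a' * ((a' : G)⁻¹ * a) := by group
      rw [this]; exact (Commute.refl _).mul_right hcz
    have hn : ((a' : G)⁻¹ * a) ^ (orderOf (a' : G) * orderOf (a : G)) = 1 := by
      rw [(hca.inv_left).mul_pow, inv_pow, pow_mul, pow_orderOf_eq_one, one_pow, inv_one,
        one_mul, mul_comm, pow_mul, pow_orderOf_eq_one, one_pow]
    have hcop : Nat.Coprime (p ^ k) (orderOf (a' : G) * orderOf (a : G)) := by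
      apply Nat.Coprime.pow_left
      rw [hp.out.coprime_iff_not_dvd]
      intro hd
      rcases (hp.out.dvd_mul).mp hd with h | h
      · exact hab'.1 (by rwa [Subgroup.orderOf_coe] at h)
      · exact hab.1 (by rwa [Subgroup.orderOf_coe] at h)
    have h1 := pow_gcd_eq_one.mpr ⟨hk', hn⟩
    rw [Nat.Coprime.gcd_eq_one hcop, pow_one] at h1
    have ha : (a : G) = a' := by
      have : (a : G) = a' * ((a' : G)⁻¹ * a) := by group
      rw [this, h1, mul_one]
    have hb : (b : G) = b' := by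
      rw [ha] at heq
      exact mul_left_cancel heq
    exact Prod.ext (Subtype.ext ha) (Subtype.ext hb)
  · intro g hg
    simp only [Finset.mem_filter, Finset.mem_univ, true_and] at hg
    obtain ⟨a₀, ha₀, b₀, hb₀, rfl⟩ := s4521_decomp U₁ U₂ hcomm hgen g
    obtain ⟨m, hm1, hm2⟩ := s4521_pow (G := G) p
    refine ⟨(⟨a₀ ^ m, U₁.pow_mem ha₀ m⟩, ⟨b₀ ^ m, U₂.pow_mem hb₀ m⟩), ?_, ?_⟩
    · simp only [Finset.mem_filter, Finset.mem_univ, true_and]
      constructor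
      · rw [← Subgroup.orderOf_coe]; exact hm1 a₀
      · rw [← Subgroup.orderOf_coe]; exact hm1 b₀
    · show a₀ ^ m * b₀ ^ m = a₀ * b₀
      have hc : Commute a₀ b₀ := hcomm a₀ ha₀ b₀ hb₀
      rw [← hc.mul_pow]
      exact hm2 _ hg
  · intro ab _
    rfl

/-- Let the finite group G be generated by subgroups U₁ and U₂ that commute elementwise and whose intersection is a p-group, and let M be a maximal ideal of the algebraic integers containing the prime p. If the irreducible character χ of G has the irreducible constituents ψ₁ on U₁ and ψ₂ on U₂, then χ lies in the principal block of G if and only if ψ₁ and ψ₂ lie in the principal blocks of U₁ and U₂. -/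
theorem result {G : Type*} [Group G] [Fintype G] (p : ℕ) [Fact p.Prime] (M : Ideal Cfsg.AlgInt) (hM : Cfsg.IsPModular p M) (U₁ U₂ : Subgroup G) [Fintype U₁] [Fintype U₂] (hcomm : ∀ u ∈ U₁, ∀ v ∈ U₂, u * v = v * u) (hgen : U₁ ⊔ U₂ = ⊤) (hZ : IsPGroup p ↥(U₁ ⊓ U₂)) (χ : Cfsg.IrrCharacter G) (ψ₁ : Cfsg.IrrCharacter U₁) (ψ₂ : Cfsg.IrrCharacter U₂) (h₁ : Cfsg.classInner (fun u : U₁ => (χ : G → ℂ) u) (ψ₁ : U₁ → ℂ) ≠ 0) (h₂ : Cfsg.classInner (fun u : U₂ => (χ : G → ℂ) u) (ψ₂ : U₂ → ℂ) ≠ 0) : χ ∈ Cfsg.principalBlock M G ↔ (ψ₁ ∈ Cfsg.principalBlock M U₁ ∧ ψ₂ ∈ Cfsg.principalBlock M U₂) := by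
  classical
  haveI hN2 : U₂.Normal := s4521_normal U₁ U₂ hcomm hgen
  haveI hN1 : U₁.Normal := s4521_normal U₂ U₁ (fun u hu v hv => (hcomm v hv u hu).symm)
    (by rw [sup_comm]; exact hgen)
  have hf1 : ∀ (g : G) (n : U₁), regInd p U₁ ⟨g * n * g⁻¹, hN1.conj_mem n n.2 g⟩ = regInd p U₁ n := by
    intro g n
    rw [← regInd_coe, ← regInd_coe]
    exact regInd_conj _ _
  have hf2 : ∀ (g : G) (n : U₂), regInd p U₂ ⟨g * n * g⁻¹, hN2.conj_mem n n.2 g⟩ = regInd p U₂ n := by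
    intro g n
    rw [← regInd_coe, ← regInd_coe]
    exact regInd_conj _ _
  have key : omega (regInd p G) χ = omega (regInd p U₁) ψ₁ * omega (regInd p U₂) ψ₂ := by
    rw [← omega_restrict_normal U₁ χ ψ₁ h₁ (regInd p U₁) hf1,
      ← omega_restrict_normal U₂ χ ψ₂ h₂ (regInd p U₂) hf2]
    unfold omega
    rw [s4521_sum p U₁ U₂ hcomm hgen hZ (fun g => (χ : G → ℂ) g)]
    have hχ1 := irr_one_ne_zero χ
    have hterm : ∀ a : U₁, ∀ b : U₂,
        regInd p U₁ a * regInd p U₂ b * (χ : G → ℂ) ((a : G) * (b : G)) =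
        (regInd p U₁ a * (χ : G → ℂ) a) * (regInd p U₂ b * (χ : G → ℂ) b) / (χ : G → ℂ) 1 := by
      intro a b
      have := s4521_prod U₁ U₂ hcomm hgen χ a a.2 b b.2
      field_simp
      linear_combination (regInd p U₁ a * regInd p U₂ b) * this
    simp_rw [hterm]
    simp_rw [← Finset.sum_div]
    rw [← Finset.sum_mul_sum]
    ring
  constructor
  · intro hχ
    have h := not_li_omega_regInd hM hχ
    rw [key] at h
    refine ⟨by_contra fun h1' => h ?_, by_contra fun h2' => h ?_⟩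
    · rw [omega_regInd_of_not_mem hM h1', zero_mul]; exact li_zero hM
    · rw [omega_regInd_of_not_mem hM h2', mul_zero]; exact li_zero hM
  · rintro ⟨hψ₁, hψ₂⟩
    by_contra hχ
    have h0 := omega_regInd_of_not_mem hM hχ
    rw [key] at h0
    rcases mul_eq_zero.mp h0 with h | h
    · exact not_li_omega_regInd hM hψ₁ (h ▸ li_zero hM)
    · exact not_li_omega_regInd hM hψ₂ (h ▸ li_zero hM)

end Cfsg.Agent.S4521
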