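import Cfsg.Statements.S4550
import Cfsg.Agent.Helper24.RegBlock
import Cfsg.Agent.Helper11.GalConj

set_option autoImplicit false
open Cfsg

namespace Cfsg.Agent.S4550

open Cfsg.Agent.Helper25 Cfsg.Agent.Helper24

/-- Let G be a finite group of even order and M a maximal ideal of the algebraic integers containing 2. Let k be a natural number with g ^ k = g ^ 3 for every 2-element g and g ^ k = g for every element g of odd order (such k exist); an irreducible character χ is unchanged by g ↦ g ^ k exactly when it is fixed by the field automorphism that cubes the 2-power roots of unity and fixes the roots of unity of odd order. Then the number of members χ of the principal 2-block of odd degree with χ (g ^ k) = χ g for all g is even. -/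
theorem result {G : Type*} [Group G] [Finite G] (M : Ideal Cfsg.AlgInt) (hM : Cfsg.IsPModular 2 M) (hev : Even (Nat.card G)) (k : ℕ) (hk₁ : ∀ g : G, (∃ j : ℕ, orderOf g = 2 ^ j) → g ^ k = g ^ 3) (hk₂ : ∀ g : G, Odd (orderOf g) → g ^ k = g) : Even (Nat.card {χ : Cfsg.IrrCharacter G // χ ∈ Cfsg.principalBlock M G ∧ Odd (Cfsg.charDegree (χ : G → ℂ)) ∧ ∀ g : G, (χ : G → ℂ) (g ^ k) = (χ : G → ℂ) g}) := by
  classical
  haveI := Fintype.ofFinite G
  haveI : Fact (Nat.Prime 2) := ⟨Nat.prime_two⟩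
  -- k coprime to |G|
  have hcop : Nat.Coprime k (Nat.card G) := by
    by_contra hnc
    obtain ⟨r, hr, hrk, hrG⟩ := Nat.Prime.not_coprime_iff_dvd.mp hnc
    haveI : Fact r.Prime := ⟨hr⟩
    obtain ⟨x, hx⟩ := exists_prime_orderOf_dvd_card' (G := G) r hrG
    have hxk : x ^ k = 1 := orderOf_dvd_iff_pow_eq_one.mp (hx ▸ hrk)
    have hx1 : x ≠ 1 := by
      intro h
      rw [h, orderOf_one] at hx
      exact hr.one_lt.ne hx
    rcases hr.eq_two_or_odd' with h2 | hodd
    · have h3 := hk₁ x ⟨1, by rw [hx, h2, pow_one]⟩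
      rw [hxk] at h3
      have hx2 : x ^ 2 = 1 := by rw [← h2, ← hx]; exact pow_orderOf_eq_one x
      apply hx1
      calc x = x ^ 3 * (x ^ 2)⁻¹ := by group
        _ = 1 := by rw [← h3, hx2]; simp
    · have h3 := hk₂ x (by rw [hx]; exact hodd)
      rw [hxk] at h3
      exact hx1 h3.symm
  obtain ⟨n, hn⟩ := exists_pow_pow_fix k hk₁ hk₂
  -- the Galois conjugation
  let σ : Cfsg.IrrCharacter G → Cfsg.IrrCharacter G := fun χ =>
    ⟨fun g => (χ : G → ℂ) (g ^ k),
      (Cfsg.Agent.Helper11.char_pow_coprime k hcop (irr_isCharacter χ)).2 χ.2⟩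
  have hσB : ∀ χ ∈ Cfsg.principalBlock M G, σ χ ∈ Cfsg.principalBlock M G := by
    intro χ hχ
    apply mem_block_of_eq_on_reg hM isPBlock_principalBlock hχ
    intro g hg
    show (χ : G → ℂ) (g ^ k) = (χ : G → ℂ) g
    rw [hk₂ g (Nat.not_even_iff_odd.mp (fun h => hg h.two_dvd))]
  have hσd : ∀ χ : Cfsg.IrrCharacter G,
      Cfsg.charDegree (σ χ : G → ℂ) = Cfsg.charDegree (χ : G → ℂ) := by
    intro χ
    unfold Cfsg.charDegree
    show ⌊((χ : G → ℂ) (1 ^ k)).re⌋₊ = _
    rw [one_pow]
  let X := {χ : Cfsg.IrrCharacter G //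
    χ ∈ Cfsg.principalBlock M G ∧ Odd (Cfsg.charDegree (χ : G → ℂ))}
  let f : Function.End X := fun x => ⟨σ x.1, hσB x.1 x.2.1, by rw [hσd]; exact x.2.2⟩
  have hfpow : ∀ (j : ℕ) (x : X) (g : G),
      (((f ^ j) x).1 : G → ℂ) g = (x.1 : G → ℂ) (g ^ (k ^ j)) := by
    intro j
    induction j with
    | zero =>
      intro x g
      rw [pow_zero, pow_zero, pow_one]
      rfl
    | succ j ih =>
      intro x g
      rw [pow_succ']
      show (((f ^ j) x).1 : G → ℂ) (g ^ k) = _
      rw [ih, ← pow_mul, ← pow_succ']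
  have hf1 : f ^ 2 ^ n = 1 := by
    funext x
    apply Subtype.ext
    apply Subtype.ext
    funext g
    rw [hfpow, hn]
    rfl
  have hmod := Equiv.Perm.card_fixedPoints_modEq (p := 2) (n := n) hf1
  rw [← Nat.card_eq_fintype_card, ← Nat.card_eq_fintype_card] at hmod
  have hXev : Even (Nat.card X) := even_card_odd_degree hM isPBlock_principalBlock hev
  have hfix : Nat.card {χ : Cfsg.IrrCharacter G // χ ∈ Cfsg.principalBlock M G ∧
      Odd (Cfsg.charDegree (χ : G → ℂ)) ∧ ∀ g : G, (χ : G → ℂ) (g ^ k) = (χ : G → ℂ) g}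
      = Nat.card (Function.fixedPoints f) := by
    apply Nat.card_congr
    refine ⟨fun y => ⟨⟨y.1, y.2.1, y.2.2.1⟩, ?_⟩, fun x => ⟨x.1.1, x.1.2.1, x.1.2.2, ?_⟩, ?_, ?_⟩
    · show f _ = _
      apply Subtype.ext
      apply Subtype.ext
      funext g
      exact y.2.2.2 g
    · intro g
      have h1 : f x.1 = x.1 := x.2
      have h2 := congrArg (fun z : X => (z.1 : G → ℂ) g) h1
      exact h2
    · intro y; rfl
    · intro x; rfl
  rw [hfix]
  have h5 : Nat.card X % 2 = Nat.card (Function.fixedPoints f) % 2 := hmod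
  rw [Nat.even_iff] at hXev ⊢
  omega

end Cfsg.Agent.S4550
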