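import Cfsg.Statements.S4558
import Mathlib
import Cfsg.Agent.Helper1.CharBasic
import Cfsg.Agent.Helper25.CharBasic

set_option autoImplicit false
open Cfsg

namespace Cfsg.Agent.S4558

/-- Let χ be a character of the finite group G and g an element of p-power order for the prime p. If χ g = 0, then p divides the degree of χ. -/
theorem result {G : Type*} [Group G] [Finite G] (p : ℕ) [Fact p.Prime] (χ : G → ℂ) (hχ : Cfsg.IsCharacter G χ) (g : G) (hg : ∃ j : ℕ, orderOf g = p ^ j) (h0 : χ g = 0) : p ∣ Cfsg.charDegree χ := by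
  classical
  obtain ⟨n, ρ, rfl⟩ := hχ
  rw [Cfsg.Agent.Helper25.rep_charDegree]
  obtain ⟨j, hj⟩ := hg
  have hp : p.Prime := Fact.out
  have hm : 0 < p ^ j := pow_pos hp.pos j
  have hpow : (ρ g) ^ (p ^ j) = 1 := by
    rw [← map_pow, ← hj, pow_orderOf_eq_one, map_one]
  obtain ⟨b, μ, hμ, hb⟩ := Cfsg.Agent.Helper1.exists_eigenbasis_of_pow_eq_one (ρ g) (p ^ j) hm hpow
  have htr : ρ.character g = ∑ i, μ i :=
    Cfsg.Agent.Helper1.trace_eq_sum_of_eigenbasis b (ρ g) μ hb
  have hfin : Module.finrank ℂ (Fin n → ℂ) = n := Module.finrank_fin_fun ℂ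
  rw [htr] at h0
  set ζ : ℂ := Complex.exp (2 * Real.pi * Complex.I / ((p ^ j : ℕ) : ℂ)) with hζ
  have hprim : IsPrimitiveRoot ζ (p ^ j) := Complex.isPrimitiveRoot_exp (p ^ j) hm.ne'
  have : NeZero (p ^ j) := ⟨hm.ne'⟩
  have hex : ∀ i, ∃ a : ℕ, ζ ^ a = μ i := by
    intro i
    obtain ⟨a, -, ha⟩ := hprim.eq_pow_of_pow_eq_one (hμ i)
    exact ⟨a, ha⟩
  choose a ha using hex
  set f : Polynomial ℤ := ∑ i, Polynomial.X ^ (a i) with hf
  have haeval : Polynomial.aeval ζ f = 0 := by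
    rw [hf, map_sum]
    simp only [map_pow, Polynomial.aeval_X, ha]
    exact h0
  have hint : IsIntegral ℤ ζ := hprim.isIntegral hm
  have hdvd : minpoly ℤ ζ ∣ f := minpoly.isIntegrallyClosed_dvd hint haeval
  rw [← Polynomial.cyclotomic_eq_minpoly hprim hm] at hdvd
  have hev := Polynomial.eval_dvd (x := (1 : ℤ)) hdvd
  have hf1 : Polynomial.eval 1 f = (n : ℤ) := by
    rw [hf, Polynomial.eval_finsetSum]
    simp [hfin]
  rw [hf1] at hev
  rcases Nat.eq_zero_or_pos j with hj0 | hjpos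
  · subst hj0
    -- all eigenvalues are 1, so the degree is 0
    have hμ1 : ∀ i, μ i = 1 := fun i => by simpa using hμ i
    simp only [hμ1, Finset.sum_const, Finset.card_univ, Fintype.card_fin, nsmul_eq_mul, mul_one,
      hfin] at h0
    have : n = 0 := by exact_mod_cast h0
    rw [this]
    exact dvd_zero p
  · obtain ⟨k, rfl⟩ := Nat.exists_eq_succ_of_ne_zero hjpos.ne'
    rw [Polynomial.eval_one_cyclotomic_prime_pow] at hev
    exact_mod_cast hev

end Cfsg.Agent.S4558
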