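import Cfsg.Statements.S4560
import Cfsg.Agent.Helper8.AN4
-- import your own Cfsg.Agent.* helpers here

set_option autoImplicit false
open Cfsg

namespace Cfsg.Agent.S4560

open Cfsg.Agent.Helper8

/-- For n ≥ 7 the alternating group on n letters has an irreducible character that vanishes at some 2-element and is the restriction of an irreducible character of the symmetric group, and an irreducible character that vanishes at some element of order 3 and is the restriction of an irreducible character of the symmetric group. -/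
theorem result (n : ℕ) (hn : 7 ≤ n) : (∃ χ : Cfsg.IrrCharacter (alternatingGroup (Fin n)), (∃ x : alternatingGroup (Fin n), (∃ j : ℕ, orderOf x = 2 ^ j) ∧ (χ : alternatingGroup (Fin n) → ℂ) x = 0) ∧ ∃ ψ : Cfsg.IrrCharacter (Equiv.Perm (Fin n)), ∀ x : alternatingGroup (Fin n), (ψ : Equiv.Perm (Fin n) → ℂ) x = (χ : alternatingGroup (Fin n) → ℂ) x) ∧ (∃ χ : Cfsg.IrrCharacter (alternatingGroup (Fin n)), (∃ y : alternatingGroup (Fin n), orderOf y = 3 ∧ (χ : alternatingGroup (Fin n) → ℂ) y = 0) ∧ ∃ ψ : Cfsg.IrrCharacter (Equiv.Perm (Fin n)), ∀ x : alternatingGroup (Fin n), (ψ : Equiv.Perm (Fin n) → ℂ) x = (χ : alternatingGroup (Fin n) → ℂ) x) := by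
  constructor
  · rcases Nat.even_or_odd n with he | ho
    · rw [Nat.even_iff] at he
      by_cases h4 : n % 4 = 0
      · obtain ⟨g, hgA, ⟨j, hj⟩, hsum, hns⟩ := ex_two_elt (n := n) (n / 4) 0 (by omega) (by omega)
        have hfix := fixed_zero g (by omega)
        obtain ⟨χ, hχ, ψ, hψ⟩ := chi_tworow hn ⟨g, hgA⟩ (fun i hi => hfix i (hns i hi))
        exact ⟨χ, ⟨⟨g, hgA⟩, ⟨j, by rw [← hj]; exact Subgroup.orderOf_mk g hgA⟩, hχ⟩, ψ, hψ⟩
      · obtain ⟨g, hgA, ⟨j, hj⟩, hsum, hns⟩ := ex_two_elt (n := n) (n / 4) 2 (by omega) (by omega)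
        obtain ⟨a₀, b₀, hab, hfix⟩ := fixed_two g hsum
        obtain ⟨χ, hχ, ψ, hψ⟩ := chi_hook hn ⟨g, hgA⟩ a₀ b₀ hab hfix hns
        exact ⟨χ, ⟨⟨g, hgA⟩, ⟨j, by rw [← hj]; exact Subgroup.orderOf_mk g hgA⟩, hχ⟩, ψ, hψ⟩
    · rw [Nat.odd_iff] at ho
      obtain ⟨g, hgA, ⟨j, hj⟩, hsum⟩ := ex_two_elt_odd (n := n) (n / 2) (by omega) (by omega)
      obtain ⟨χ, hχ, ψ, hψ⟩ := chi_std (by omega) ⟨g, hgA⟩ (fixed_one g hsum)
      exact ⟨χ, ⟨⟨g, hgA⟩, ⟨j, by rw [← hj]; exact Subgroup.orderOf_mk g hgA⟩, hχ⟩, ψ, hψ⟩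
  · obtain ⟨g, hgA, hord, hsum, hns⟩ := ex_three_elt (n := n) (n / 3) (n % 3) (by omega) (by omega)
    have hord' : orderOf (⟨g, hgA⟩ : alternatingGroup (Fin n)) = 3 := by
      rw [← hord]
      exact Subgroup.orderOf_mk g hgA
    have h3 : n % 3 = 0 ∨ n % 3 = 1 ∨ n % 3 = 2 := by omega
    rcases h3 with h | h | h
    · have hfix := fixed_zero g (by omega)
      obtain ⟨χ, hχ, ψ, hψ⟩ := chi_tworow hn ⟨g, hgA⟩ (fun i hi => hfix i (hns i hi))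
      exact ⟨χ, ⟨⟨g, hgA⟩, hord', hχ⟩, ψ, hψ⟩
    · obtain ⟨χ, hχ, ψ, hψ⟩ := chi_std (by omega) ⟨g, hgA⟩ (fixed_one g (by omega))
      exact ⟨χ, ⟨⟨g, hgA⟩, hord', hχ⟩, ψ, hψ⟩
    · obtain ⟨a₀, b₀, hab, hfix⟩ := fixed_two g (by omega)
      obtain ⟨χ, hχ, ψ, hψ⟩ := chi_hook hn ⟨g, hgA⟩ a₀ b₀ hab hfix hns
      exact ⟨χ, ⟨⟨g, hgA⟩, hord', hχ⟩, ψ, hψ⟩

end Cfsg.Agent.S4560
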