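import Cfsg.Statements.S4565
import Mathlib
import Cfsg.Agent.Helper25.CharOrth

set_option autoImplicit false
open Cfsg

namespace Cfsg.Agent.S4565

open Cfsg Cfsg.Agent.Helper25
open scoped ComplexConjugate

universe u

/-- A fully ramified character vanishes off the normal subgroup. -/
theorem vanish_off {H : Type u} [Group H] [Fintype H] (Z : Subgroup H) (χ : IrrCharacter H)
    (θ : IrrCharacter ↥Z) (e : ℕ) (he : e ^ 2 = Z.index)
    (hχθ : ∀ z : ↥Z, (χ : H → ℂ) z = (e : ℂ) * (θ : ↥Z → ℂ) z) (h : H) (hh : h ∉ Z) :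
    (χ : H → ℂ) h = 0 := by
  classical
  have h1 : ∑ x : H, Complex.normSq ((χ : H → ℂ) x) = (Nat.card H : ℝ) := by
    have h2 := irr_classInner χ χ
    rw [if_pos rfl] at h2
    unfold classInner at h2
    have h3 : ∑ x : H, (χ : H → ℂ) x * conj ((χ : H → ℂ) x)
        = ((∑ x : H, Complex.normSq ((χ : H → ℂ) x) : ℝ) : ℂ) := by
      push_cast
      apply Finset.sum_congr rfl
      intro x _
      rw [Complex.mul_conj]
    rw [h3] at h2
    have h4 : ((∑ x : H, Complex.normSq ((χ : H → ℂ) x) : ℝ) : ℂ) = (Nat.card H : ℂ) := by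
      have hne : (Nat.card H : ℂ) ≠ 0 := card_ne_zero
      field_simp at h2
      exact h2
    exact_mod_cast h4
  have h2 : ∑ z : ↥Z, Complex.normSq ((θ : ↥Z → ℂ) z) = (Nat.card ↥Z : ℝ) := by
    have h2 := irr_classInner θ θ
    rw [if_pos rfl] at h2
    unfold classInner at h2
    have h3 : ∑ x : ↥Z, (θ : ↥Z → ℂ) x * conj ((θ : ↥Z → ℂ) x)
        = ((∑ x : ↥Z, Complex.normSq ((θ : ↥Z → ℂ) x) : ℝ) : ℂ) := by
      push_cast
      apply Finset.sum_congr rfl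
      intro x _
      rw [Complex.mul_conj]
    rw [h3] at h2
    have h4 : ((∑ x : ↥Z, Complex.normSq ((θ : ↥Z → ℂ) x) : ℝ) : ℂ) = (Nat.card ↥Z : ℂ) := by
      have hne : (Nat.card ↥Z : ℂ) ≠ 0 := card_ne_zero
      field_simp at h2
      exact h2
    exact_mod_cast h4
  have h3 : ∑ x ∈ Finset.univ.filter (fun x : H => x ∈ Z), Complex.normSq ((χ : H → ℂ) x)
      = (Nat.card H : ℝ) := by
    rw [Finset.sum_subtype (Finset.univ.filter (fun x : H => x ∈ Z)) (p := fun x : H => x ∈ Z)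
      (fun x => by simp) (fun x : H => Complex.normSq ((χ : H → ℂ) x))]
    have h4 : ∀ z : ↥Z, Complex.normSq ((χ : H → ℂ) (z : H))
        = (e : ℝ) ^ 2 * Complex.normSq ((θ : ↥Z → ℂ) z) := by
      intro z
      rw [hχθ z, Complex.normSq_mul, Complex.normSq_natCast]
      ring
    rw [Finset.sum_congr rfl (fun z _ => h4 z), ← Finset.mul_sum, h2, ← Subgroup.card_mul_index Z,
      ← he]
    push_cast
    ring
  have h5 := Finset.sum_filter_add_sum_filter_not Finset.univ (fun x : H => x ∈ Z)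
    (fun x : H => Complex.normSq ((χ : H → ℂ) x))
  rw [h3, h1] at h5
  have h6 : ∑ x ∈ Finset.univ.filter (fun x : H => ¬ x ∈ Z), Complex.normSq ((χ : H → ℂ) x) = 0 := by
    linarith
  have h7 := (Finset.sum_eq_zero_iff_of_nonneg (fun x _ => Complex.normSq_nonneg _)).mp h6 h
    (by simp [hh])
  exact Complex.normSq_eq_zero.mp h7

/-- Let χ be an irreducible character of the finite group H that is fully ramified over the normal subgroup Z: the restriction of χ to Z is e times an irreducible character of Z with e ^ 2 equal to the index of Z. If Z ≠ H, then H/Z has no cyclic subgroup that is its own centralizer. -/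
theorem result {H : Type*} [Group H] [Finite H] (Z : Subgroup H) [Z.Normal] (χ : Cfsg.IrrCharacter H) (hfr : ∃ (θ : Cfsg.IrrCharacter ↥Z) (e : ℕ), e ^ 2 = Z.index ∧ ∀ z : ↥Z, (χ : H → ℂ) z = (e : ℂ) * (θ : ↥Z → ℂ) z) (hZ : Z ≠ ⊤) (C : Subgroup (H ⧸ Z)) (hC : IsCyclic C) : Subgroup.centralizer (C : Set (H ⧸ Z)) ≠ C := by
  classical
  haveI := Fintype.ofFinite H
  obtain ⟨θ, e, he, hχθ⟩ := hfr
  intro hcent
  have he0 : e ≠ 0 := by
    rintro rfl
    exact Subgroup.index_ne_zero_of_finite (H := Z) (by rw [← he]; norm_num)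
  have hvan := vanish_off Z χ θ e he hχθ
  obtain ⟨c, hc⟩ := hC.exists_generator
  obtain ⟨g, hg⟩ := QuotientGroup.mk_surjective (c : H ⧸ Z)
  -- every element of `C` is a power of the image of `g`
  have hpow : ∀ x : H, (QuotientGroup.mk x : H ⧸ Z) ∈ C → ∃ i : ℤ, g ^ (-i) * x ∈ Z := by
    intro x hx
    obtain ⟨i, hi⟩ := Subgroup.mem_zpowers_iff.mp (hc ⟨_, hx⟩)
    refine ⟨i, ?_⟩
    have h1 : ((c ^ i : C) : H ⧸ Z) = (QuotientGroup.mk x : H ⧸ Z) := congrArg Subtype.val hi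
    rw [Subgroup.coe_zpow, ← hg, ← QuotientGroup.mk_zpow] at h1
    rw [← QuotientGroup.eq_one_iff, QuotientGroup.mk_mul, QuotientGroup.mk_zpow, ← h1,
      QuotientGroup.mk_zpow, ← zpow_add]
    simp
  have hcentmem : ∀ x : H, (QuotientGroup.mk x : H ⧸ Z) ∈ C ↔
      (QuotientGroup.mk x : H ⧸ Z) * (QuotientGroup.mk g : H ⧸ Z)
        = (QuotientGroup.mk g : H ⧸ Z) * (QuotientGroup.mk x : H ⧸ Z) := by
    intro x
    constructor
    · intro hx
      rw [← hcent, Subgroup.mem_centralizer_iff] at hx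
      exact (hx _ (by rw [hg]; exact c.2)).symm
    · intro hx
      rw [← hcent, Subgroup.mem_centralizer_iff]
      intro y hy
      obtain ⟨i, hi⟩ := Subgroup.mem_zpowers_iff.mp (hc ⟨y, hy⟩)
      have h1 : ((c ^ i : C) : H ⧸ Z) = y := congrArg Subtype.val hi
      rw [Subgroup.coe_zpow, ← hg] at h1
      rw [← h1]
      exact ((Commute.zpow_right (show Commute (QuotientGroup.mk x : H ⧸ Z) (QuotientGroup.mk g) from hx) i).eq).symm
  by_cases hgZ : g ∈ Z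
  · apply hZ
    rw [eq_top_iff]
    intro x _
    have hx : (QuotientGroup.mk x : H ⧸ Z) ∈ C := by
      rw [hcentmem, (QuotientGroup.eq_one_iff g).mpr hgZ, mul_one, one_mul]
    obtain ⟨i, hi⟩ := hpow x hx
    have h2 : g ^ (-i) ∈ Z := Subgroup.zpow_mem Z hgZ _
    have h3 := Z.mul_mem (Z.inv_mem h2) hi
    rwa [inv_mul_cancel_left] at h3
  -- the twisted sums vanish
  have hkey : ∀ z : ↥Z, ∑ w : ↥Z, (χ : H → ℂ) ((g * z)⁻¹ * (w * (g * z) * (w : H)⁻¹)) = 0 := by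
    intro z
    obtain ⟨g₁, hg₁⟩ : ∃ g₁ : H, g₁ = g * z := ⟨_, rfl⟩
    rw [← hg₁]
    have hg₁Z : g₁ ∉ Z := by
      intro h
      apply hgZ
      have := Z.mul_mem h (Z.inv_mem z.2)
      rwa [hg₁, mul_inv_cancel_right] at this
    have hmk : (QuotientGroup.mk g₁ : H ⧸ Z) = QuotientGroup.mk g := by
      rw [hg₁, QuotientGroup.mk_mul, (QuotientGroup.eq_one_iff (z : H)).mpr z.2, mul_one]
    have h0 : ∑ x : H, (χ : H → ℂ) (g₁⁻¹ * (x * g₁ * x⁻¹)) = 0 := by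
      rw [irr_sum_conj_mul, hvan g₁ hg₁Z]
      simp
    -- terms outside the preimage of `C` vanish
    have hA : ∀ x : H, (QuotientGroup.mk x : H ⧸ Z) ∉ C →
        (χ : H → ℂ) (g₁⁻¹ * (x * g₁ * x⁻¹)) = 0 := by
      intro x hx
      apply hvan
      intro hmem
      apply hx
      rw [hcentmem, ← hmk]
      have h1 := (QuotientGroup.eq_one_iff _).mpr hmem
      rw [QuotientGroup.mk_mul, QuotientGroup.mk_mul, QuotientGroup.mk_mul, QuotientGroup.mk_inv,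
        QuotientGroup.mk_inv] at h1
      have h2 : (QuotientGroup.mk x : H ⧸ Z) * QuotientGroup.mk g₁
          = QuotientGroup.mk g₁ * ((QuotientGroup.mk g₁ : H ⧸ Z)⁻¹ *
            (QuotientGroup.mk x * QuotientGroup.mk g₁ * (QuotientGroup.mk x)⁻¹)) * QuotientGroup.mk x := by
        group
      rw [h2, h1, mul_one]
    -- on the preimage of `C`, summing over a coset gives the twisted sum
    have hB : ∀ x : H, (QuotientGroup.mk x : H ⧸ Z) ∈ C →
        ∑ u : ↥Z, (χ : H → ℂ) (g₁⁻¹ * (x * u * g₁ * (x * u)⁻¹))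
          = ∑ w : ↥Z, (χ : H → ℂ) (g₁⁻¹ * (w * g₁ * (w : H)⁻¹)) := by
      intro x hx
      obtain ⟨i, hi⟩ := hpow x hx
      have hi' : g₁ ^ (-i) * x ∈ Z := by
        rw [← QuotientGroup.eq_one_iff, QuotientGroup.mk_mul, QuotientGroup.mk_zpow, hmk,
          ← QuotientGroup.mk_zpow, ← QuotientGroup.mk_mul]
        exact (QuotientGroup.eq_one_iff _).mpr hi
      rw [← Equiv.sum_comp (Equiv.mulLeft (⟨g₁ ^ (-i) * x, hi'⟩ : ↥Z))
        (fun w : ↥Z => (χ : H → ℂ) (g₁⁻¹ * (w * g₁ * (w : H)⁻¹)))]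
      apply Finset.sum_congr rfl
      intro u _
      simp only [Equiv.coe_mulLeft, Subgroup.coe_mul]
      have h1 : g₁⁻¹ * (x * u * g₁ * (x * u)⁻¹)
          = g₁ ^ i * (g₁⁻¹ * (g₁ ^ (-i) * x * u * g₁ * (g₁ ^ (-i) * x * u)⁻¹)) * (g₁ ^ i)⁻¹ := by
        have hcomm : g₁ ^ i * g₁⁻¹ = g₁⁻¹ * g₁ ^ i := by
          rw [← zpow_neg_one, ← zpow_add, ← zpow_add, add_comm]
        rw [zpow_neg]
        simp only [mul_inv_rev, inv_inv, mul_assoc]
        rw [← mul_assoc (g₁ ^ i) g₁⁻¹, hcomm]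
        simp only [mul_assoc, inv_mul_cancel_left, mul_inv_cancel_left]
        rw [mul_inv_cancel, mul_one]
      rw [h1, irr_conj]
    have hsum : (Nat.card ↥Z : ℂ) * ∑ x : H, (χ : H → ℂ) (g₁⁻¹ * (x * g₁ * x⁻¹))
        = ∑ x : H, ∑ u : ↥Z, (χ : H → ℂ) (g₁⁻¹ * (x * u * g₁ * (x * u)⁻¹)) := by
      rw [Finset.sum_comm]
      have h1 : ∀ u : ↥Z, ∑ x : H, (χ : H → ℂ) (g₁⁻¹ * (x * u * g₁ * (x * u)⁻¹))
          = ∑ x : H, (χ : H → ℂ) (g₁⁻¹ * (x * g₁ * x⁻¹)) := by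
        intro u
        exact Equiv.sum_comp (Equiv.mulRight (u : H))
          (fun x : H => (χ : H → ℂ) (g₁⁻¹ * (x * g₁ * x⁻¹)))
      rw [Finset.sum_congr rfl (fun u _ => h1 u), Finset.sum_const, Finset.card_univ,
        nsmul_eq_mul, Nat.card_eq_fintype_card]
    rw [h0, mul_zero] at hsum
    have hsum2 : ∑ x : H, ∑ u : ↥Z, (χ : H → ℂ) (g₁⁻¹ * (x * u * g₁ * (x * u)⁻¹))
        = ((Finset.univ.filter (fun x : H => (QuotientGroup.mk x : H ⧸ Z) ∈ C)).card : ℂ) *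
          ∑ w : ↥Z, (χ : H → ℂ) (g₁⁻¹ * (w * g₁ * (w : H)⁻¹)) := by
      rw [← nsmul_eq_mul, ← Finset.sum_const, Finset.sum_filter]
      apply Finset.sum_congr rfl
      intro x _
      by_cases hx : (QuotientGroup.mk x : H ⧸ Z) ∈ C
      · rw [if_pos hx, hB x hx]
      · rw [if_neg hx]
        apply Finset.sum_eq_zero
        intro u _
        apply hA
        rw [QuotientGroup.mk_mul, (QuotientGroup.eq_one_iff (u : H)).mpr u.2, mul_one]
        exact hx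
    rw [hsum2] at hsum
    have hcard : ((Finset.univ.filter (fun x : H => (QuotientGroup.mk x : H ⧸ Z) ∈ C)).card : ℂ)
        ≠ 0 := by
      have : (1 : H) ∈ Finset.univ.filter (fun x : H => (QuotientGroup.mk x : H ⧸ Z) ∈ C) := by
        simp [C.one_mem]
      exact_mod_cast (Finset.card_pos.mpr ⟨1, this⟩).ne'
    exact (mul_eq_zero.mp hsum.symm).resolve_left hcard
  -- sum over `z` and evaluate with the orthogonality relations of `θ`
  have hθ1 : (θ : ↥Z → ℂ) 1 ≠ 0 := irr_one_ne_zero θ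
  have hZne : (Nat.card ↥Z : ℂ) ≠ 0 := card_ne_zero
  have hconjθ : ∀ w : ↥Z, ∀ hw : g⁻¹ * (w : H) * g ∈ Z,
      (θ : ↥Z → ℂ) ⟨g⁻¹ * (w : H) * g, hw⟩ = (θ : ↥Z → ℂ) w := by
    intro w hw
    have h1 := hχθ ⟨g⁻¹ * (w : H) * g, hw⟩
    have h2 := hχθ w
    have h3 : (χ : H → ℂ) (g⁻¹ * (w : H) * g) = (χ : H → ℂ) w := by
      have := irr_conj χ (w : H) g⁻¹
      rwa [inv_inv] at this
    have h4 : ((e : ℂ)) ≠ 0 := by exact_mod_cast he0
    simp only [] at h1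
    rw [h3, h2] at h1
    exact (mul_left_cancel₀ h4 h1).symm
  have htot : ∑ w : ↥Z, ∑ z : ↥Z, (χ : H → ℂ) ((g * z)⁻¹ * (w * (g * z) * (w : H)⁻¹))
      = (e : ℂ) * ((Nat.card ↥Z : ℂ) / (θ : ↥Z → ℂ) 1) * (Nat.card ↥Z : ℂ) := by
    have hw : ∀ w : ↥Z, ∑ z : ↥Z, (χ : H → ℂ) ((g * z)⁻¹ * (w * (g * z) * (w : H)⁻¹))
        = (e : ℂ) * ((Nat.card ↥Z : ℂ) / (θ : ↥Z → ℂ) 1) *
          ((θ : ↥Z → ℂ) w * (θ : ↥Z → ℂ) w⁻¹) := by
      intro w
      have hw' : g⁻¹ * (w : H) * g ∈ Z := by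
        have := ‹Z.Normal›.conj_mem (w : H) w.2 g⁻¹
        rwa [inv_inv] at this
      have h1 : ∀ z : ↥Z, (χ : H → ℂ) ((g * z)⁻¹ * (w * (g * z) * (w : H)⁻¹))
          = (e : ℂ) * (θ : ↥Z → ℂ) (w⁻¹ * (z⁻¹ * ⟨g⁻¹ * (w : H) * g, hw'⟩ * z⁻¹⁻¹)) := by
        intro z
        rw [irr_mul_comm θ w⁻¹ _, ← hχθ]
        congr 1
        simp only [Subgroup.coe_mul, Subgroup.coe_inv, mul_inv_rev, inv_inv, mul_assoc]
      have h2 : ∑ z : ↥Z, (θ : ↥Z → ℂ) (w⁻¹ * (z⁻¹ * ⟨g⁻¹ * (w : H) * g, hw'⟩ * z⁻¹⁻¹))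
          = ∑ y : ↥Z, (θ : ↥Z → ℂ) (w⁻¹ * (y * ⟨g⁻¹ * (w : H) * g, hw'⟩ * y⁻¹)) :=
        Equiv.sum_comp (Equiv.inv ↥Z)
          (fun y : ↥Z => (θ : ↥Z → ℂ) (w⁻¹ * (y * ⟨g⁻¹ * (w : H) * g, hw'⟩ * y⁻¹)))
      rw [Finset.sum_congr rfl (fun z _ => h1 z), ← Finset.mul_sum, h2,
        irr_sum_conj_mul, hconjθ w hw']
      ring
    rw [Finset.sum_congr rfl (fun w _ => hw w), ← Finset.mul_sum]
    have h2 := irr_bil θ θ
    rw [if_pos rfl] at h2
    unfold bil at h2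
    have h3 : ∑ w : ↥Z, (θ : ↥Z → ℂ) w * (θ : ↥Z → ℂ) w⁻¹ = (Nat.card ↥Z : ℂ) := by
      field_simp at h2
      exact h2
    rw [h3]
  rw [Finset.sum_comm, Finset.sum_congr rfl (fun z _ => hkey z), Finset.sum_const_zero] at htot
  have h4 : ((e : ℂ)) ≠ 0 := by exact_mod_cast he0
  have : (e : ℂ) * ((Nat.card ↥Z : ℂ) / (θ : ↥Z → ℂ) 1) * (Nat.card ↥Z : ℂ) ≠ 0 :=
    mul_ne_zero (mul_ne_zero h4 (div_ne_zero hZne hθ1)) hZne
  exact this htot.symm

end Cfsg.Agent.S4565
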