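import Cfsg.Statements.S4566
import Mathlib
import Cfsg.Agent.Helper1.CharComplete
import Cfsg.Agent.Helper11.AbelChar

set_option autoImplicit false
open Cfsg

namespace Cfsg.Agent.S4566


open Cfsg.Agent.Helper25

/-- a central element acts on an irreducible character by a scalar. -/
theorem central_scalar {G : Type*} [Group G] [Finite G] (χ : Cfsg.IrrCharacter G) (z : G)
    (hz : z ∈ Subgroup.center G) : ∃ c : ℂ, ∀ g : G, (χ : G → ℂ) (g * z) = c * (χ : G → ℂ) g := by
  obtain ⟨χ, n, ρ, hρ, rfl⟩ := χ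
  have := hρ
  have hT : ∀ g, ρ z ∘ₗ ρ g = ρ g ∘ₗ ρ z := by
    intro g
    have h1 : ρ z ∘ₗ ρ g = ρ (z * g) := by rw [map_mul]; rfl
    have h2 : ρ g ∘ₗ ρ z = ρ (g * z) := by rw [map_mul]; rfl
    rw [h1, h2, Subgroup.mem_center_iff.mp hz g]
  obtain ⟨c, hc⟩ := Cfsg.Agent.Helper1.exists_scalar_of_commute ρ (ρ z) hT
  refine ⟨c, fun g => ?_⟩
  show ρ.character (g * z) = c * ρ.character g
  unfold Representation.character
  have : ρ (g * z) = c • ρ g := by
    rw [map_mul, hc]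
    ext v
    simp
  rw [this, map_smul, smul_eq_mul]

/-- Let N be a central subgroup of the finite group G, ψ a faithful irreducible (hence degree-one) character of N, and χ an irreducible character of G whose restriction to N contains ψ. If g ∈ G and some x ∈ G has commutator x⁻¹ g⁻¹ x g in N but different from 1, then χ g = 0. -/
theorem result {G : Type*} [Group G] [Fintype G] (N : Subgroup G) [Fintype N] (hN : N ≤ Subgroup.center G) (ψ : Cfsg.IrrCharacter ↥N) (hfaith : ∀ n : ↥N, (ψ : ↥N → ℂ) n = (ψ : ↥N → ℂ) 1 → n = 1) (χ : Cfsg.IrrCharacter G) (hover : Cfsg.classInner (fun n : ↥N => (χ : G → ℂ) n) (ψ : ↥N → ℂ) ≠ 0) (g x : G) (hcomm : x⁻¹ * g⁻¹ * x * g ∈ N) (hne : x⁻¹ * g⁻¹ * x * g ≠ 1) : (χ : G → ℂ) g = 0 := by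
  classical
  set z := x⁻¹ * g⁻¹ * x * g with hz
  set w := z⁻¹ with hw
  have hwN : w ∈ N := N.inv_mem hcomm
  have hw1 : w ≠ 1 := fun h => hne (inv_eq_one.mp h)
  have hwc : w ∈ Subgroup.center G := hN hwN
  obtain ⟨c, hc⟩ := central_scalar χ w hwc
  have hconj : x⁻¹ * g * x = g * w := by
    rw [hw, hz]; group
  have h1 : (χ : G → ℂ) g = c * (χ : G → ℂ) g := by
    have := Cfsg.Agent.Helper25.irr_conj χ g x⁻¹
    rw [inv_inv, hconj, hc] at this
    exact this.symm
  have hc1 : c ≠ 1 := by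
    intro hc1
    have hχw : ∀ h : G, (χ : G → ℂ) (h * w) = (χ : G → ℂ) h := by
      intro h; rw [hc, hc1, one_mul]
    have hcommN : ∀ a b : N, a * b = b * a := by
      intro a b
      apply Subtype.ext
      exact Subgroup.mem_center_iff.mp (hN b.2) a
    have hψ1 : (ψ : N → ℂ) 1 = 1 := Cfsg.Agent.Helper11.irr_one_of_comm hcommN ψ
    have hψmul := Cfsg.Agent.Helper11.irr_mul_of_comm hcommN ψ
    set S := ∑ n : N, (χ : G → ℂ) n * (starRingEnd ℂ) ((ψ : N → ℂ) n) with hS
    have hS0 : S ≠ 0 := by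
      intro h0
      apply hover
      unfold Cfsg.classInner
      rw [← hS, h0, mul_zero]
    have hS' : S = (starRingEnd ℂ) ((ψ : N → ℂ) ⟨w, hwN⟩) * S := by
      conv_lhs => rw [hS, ← Equiv.sum_comp (Equiv.mulRight (⟨w, hwN⟩ : N))]
      rw [Finset.mul_sum]
      apply Finset.sum_congr rfl
      intro n _
      simp only [Equiv.coe_mulRight]
      rw [hψmul, map_mul]
      have : (((n * ⟨w, hwN⟩ : N)) : G) = (n : G) * w := rfl
      rw [this, hχw]
      ring
    have hψw : (ψ : N → ℂ) ⟨w, hwN⟩ = 1 := by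
      have h2 : (1 - (starRingEnd ℂ) ((ψ : N → ℂ) ⟨w, hwN⟩)) * S = 0 := by
        rw [sub_mul, one_mul, ← hS', sub_self]
      rcases mul_eq_zero.mp h2 with h | h
      · have h3 : (starRingEnd ℂ) ((ψ : N → ℂ) ⟨w, hwN⟩) = 1 := (sub_eq_zero.mp h).symm
        have h4 := congrArg (starRingEnd ℂ) h3
        simpa using h4
      · exact absurd h hS0
    have := hfaith ⟨w, hwN⟩ (by rw [hψw, hψ1])
    exact hw1 (congrArg Subtype.val this)
  have h2 : (1 - c) * (χ : G → ℂ) g = 0 := by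
    rw [sub_mul, one_mul, ← h1, sub_self]
  rcases mul_eq_zero.mp h2 with h | h
  · exact absurd (sub_eq_zero.mp h).symm hc1
  · exact h

end Cfsg.Agent.S4566
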