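import Cfsg.Statements.S4567
import Mathlib
import Cfsg.Agent.S4566
import Cfsg.Agent.Helper25.CharOrth
import Cfsg.Agent.Helper25.CharMore
import Cfsg.Agent.Helper11.AbelChar

set_option autoImplicit false
open Cfsg

universe u

namespace Cfsg.Agent.S4567


open Cfsg.Agent.Helper25

/-- The sum of a non-trivial multiplicative function over a finite group vanishes. -/
theorem sum_mult_eq {A : Type*} [Group A] [Fintype A] (μ : A → ℂ)
    (hμ : ∀ a b, μ (a * b) = μ a * μ b) (h1 : ¬ ∀ a, μ a = 1) : ∑ a, μ a = 0 := by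
  push Not at h1
  obtain ⟨a₀, ha₀⟩ := h1
  have h : μ a₀ * ∑ a, μ a = ∑ a, μ a := by
    rw [Finset.mul_sum]
    rw [← Fintype.sum_equiv (Equiv.mulLeft a₀) (fun a => μ (a₀ * a)) (fun a => μ a) (fun a => rfl)]
    exact Finset.sum_congr rfl (fun a _ => (hμ a₀ a).symm)
  have h2 : (μ a₀ - 1) * ∑ a, μ a = 0 := by rw [sub_mul, h, one_mul, sub_self]
  rcases mul_eq_zero.mp h2 with h3 | h3
  · exact absurd (sub_eq_zero.mp h3) ha₀
  · exact h3

/-- Class size times centralizer order. -/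
theorem card_class_mul_card_centralizer {Q : Type*} [Group Q] [Finite Q] (q : Q) :
    Nat.card {q' : Q // ConjClasses.mk q' = ConjClasses.mk q} *
      Nat.card (Subgroup.centralizer ({q} : Set Q)) = Nat.card Q := by
  rw [Subgroup.nat_card_centralizer_nat_card_stabilizer, ← Nat.card_prod]
  have e := MulAction.orbitProdStabilizerEquivGroup (ConjAct Q) q
  have h1 : Nat.card Q = Nat.card (ConjAct Q) := rfl
  rw [h1, ← Nat.card_congr e, Nat.card_prod, Nat.card_prod]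
  congr 1
  apply Nat.card_congr
  exact Equiv.subtypeEquivRight (fun q' => by
    rw [ConjAct.orbit_eq_carrier_conjClasses, ConjClasses.mem_carrier_iff_mk_eq])

/-- Burnside count restricted to a union of classes. -/
theorem sum_class_pred {Q : Type*} [Group Q] [Fintype Q] [Fintype (ConjClasses Q)]
    (P : ConjClasses Q → Prop) [DecidablePred P] :
    ∑ q : Q, (if P (ConjClasses.mk q) then
        (Nat.card (Subgroup.centralizer ({q} : Set Q)) : ℂ) else 0)
      = (Nat.card Q : ℂ) * (Nat.card {C : ConjClasses Q // P C} : ℂ) := by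
  classical
  rw [← Fintype.sum_fiberwise (ConjClasses.mk (α := Q))]
  have key : ∀ C : ConjClasses Q, ∑ q : {q : Q // ConjClasses.mk q = C},
      (if P (ConjClasses.mk (q : Q)) then
        (Nat.card (Subgroup.centralizer ({(q : Q)} : Set Q)) : ℂ) else 0) =
      if P C then (Nat.card Q : ℂ) else 0 := by
    intro C
    by_cases hC : P C
    · rw [if_pos hC]
      have hne : (Nat.card {q : Q // ConjClasses.mk q = C} : ℂ) ≠ 0 := by
        obtain ⟨q, hq⟩ := ConjClasses.exists_rep C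
        have : Nonempty {q : Q // ConjClasses.mk q = C} := ⟨⟨q, hq⟩⟩
        exact Nat.cast_ne_zero.mpr Nat.card_pos.ne'
      have : ∀ q : {q : Q // ConjClasses.mk q = C},
          (if P (ConjClasses.mk (q : Q)) then
            (Nat.card (Subgroup.centralizer ({(q : Q)} : Set Q)) : ℂ) else 0) =
          (Nat.card Q : ℂ) / (Nat.card {q : Q // ConjClasses.mk q = C} : ℂ) := by
        intro q
        rw [q.2, if_pos hC]
        have h := card_class_mul_card_centralizer (q : Q)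
        rw [q.2] at h
        rw [eq_div_iff hne, ← Nat.cast_mul, mul_comm, h]
      rw [Finset.sum_congr rfl (fun q _ => this q), Finset.sum_const, Finset.card_univ,
        nsmul_eq_mul, ← Nat.card_eq_fintype_card]
      field_simp
    · rw [if_neg hC]
      apply Finset.sum_eq_zero
      intro q _
      rw [q.2, if_neg hC]
  rw [Finset.sum_congr rfl (fun C _ => key C), Finset.sum_ite, Finset.sum_const_zero, add_zero,
    Finset.sum_const, nsmul_eq_mul, mul_comm]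
  congr 2
  rw [Nat.card_eq_fintype_card, Fintype.card_subtype]

/-- Summing a function of the coset over the group. -/
theorem sum_quot {G : Type*} [Group G] [Fintype G] (N : Subgroup G) [N.Normal]
    [Fintype (G ⧸ N)] (F : G ⧸ N → ℂ) :
    ∑ g : G, F (g : G ⧸ N) = (Nat.card N : ℂ) * ∑ q : G ⧸ N, F q := by
  classical
  rw [← Fintype.sum_fiberwise' (fun g : G => (g : G ⧸ N)) F, Finset.mul_sum]
  apply Finset.sum_congr rfl
  intro q _
  rw [Finset.sum_const, Finset.card_univ, nsmul_eq_mul, ← Nat.card_eq_fintype_card]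
  congr 2
  induction q using QuotientGroup.induction_on with
  | H g₀ =>
    apply Nat.card_congr
    exact
      { toFun := fun g => ⟨g₀⁻¹ * g.1, QuotientGroup.eq.mp g.2.symm⟩
        invFun := fun n => ⟨g₀ * n.1, QuotientGroup.mk_mul_of_mem g₀ n.2⟩
        left_inv := fun g => Subtype.ext (by simp)
        right_inv := fun n => Subtype.ext (by simp) }

section Special

variable {G : Type u} [Group G] (N : Subgroup G) [N.Normal]

/-- `g` is special: commutators with `g` lying in `N` are trivial. -/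
def Sp (g : G) : Prop := ∀ x : G, x⁻¹ * g⁻¹ * x * g ∈ N → x * g = g * x

omit [N.Normal] in
theorem sp_mul (hN : N ≤ Subgroup.center G) {g : G} (h : Sp N g) {n : G} (hn : n ∈ N) :
    Sp N (g * n) := by
  have hc : ∀ a : G, a * n = n * a := Subgroup.mem_center_iff.mp (hN hn)
  intro x hx
  have e : x⁻¹ * (g * n)⁻¹ * x * (g * n) = x⁻¹ * g⁻¹ * x * g := by
    have h1 : x⁻¹ * (g * n)⁻¹ * x * (g * n) = x⁻¹ * n⁻¹ * (g⁻¹ * x * g * n) := by group
    rw [h1, hc (g⁻¹ * x * g)]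
    group
  rw [e] at hx
  have h2 := h x hx
  calc x * (g * n) = (x * g) * n := by group
    _ = (g * x) * n := by rw [h2]
    _ = g * (x * n) := by group
    _ = g * (n * x) := by rw [hc x]
    _ = g * n * x := by group

omit [N.Normal] in
theorem sp_conj' (hNn : N.Normal) {g : G} (h : Sp N g) (y : G) : Sp N (y * g * y⁻¹) := by
  intro x hx
  have h1 : (y⁻¹ * x * y)⁻¹ * g⁻¹ * (y⁻¹ * x * y) * g ∈ N := by
    have := hNn.conj_mem _ hx y⁻¹
    have e : y⁻¹ * (x⁻¹ * (y * g * y⁻¹)⁻¹ * x * (y * g * y⁻¹)) * y⁻¹⁻¹ =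
        (y⁻¹ * x * y)⁻¹ * g⁻¹ * (y⁻¹ * x * y) * g := by group
    rwa [e] at this
  have h2 := h _ h1
  calc x * (y * g * y⁻¹) = y * ((y⁻¹ * x * y) * g) * y⁻¹ := by group
    _ = y * (g * (y⁻¹ * x * y)) * y⁻¹ := by rw [h2]
    _ = y * g * y⁻¹ * x := by group

/-- The class predicate of the statement. -/
def SpC (C : ConjClasses (G ⧸ N)) : Prop :=
  ∃ g : G, ConjClasses.mk (g : G ⧸ N) = C ∧ Sp N g

theorem spC_iff (hN : N ≤ Subgroup.center G) (g : G) :
    SpC N (ConjClasses.mk (g : G ⧸ N)) ↔ Sp N g := by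
  constructor
  · rintro ⟨g', hg', h⟩
    rw [ConjClasses.mk_eq_mk_iff_isConj, isConj_iff] at hg'
    obtain ⟨c, hc⟩ := hg'
    obtain ⟨y, rfl⟩ := QuotientGroup.mk_surjective c
    have h1 : ((y * g' * y⁻¹ : G) : G ⧸ N) = (g : G ⧸ N) := by
      rw [← hc]; rfl
    have h2 : (y * g' * y⁻¹)⁻¹ * g ∈ N := QuotientGroup.eq.mp h1
    have h3 := sp_mul N hN (sp_conj' N inferInstance h y) h2
    have e : y * g' * y⁻¹ * ((y * g' * y⁻¹)⁻¹ * g) = g := by group
    rwa [e] at h3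
  · intro h
    exact ⟨g, rfl, h⟩

theorem card_centralizer_sp [Finite G] {g : G} (h : Sp N g) :
    Nat.card (Subgroup.centralizer ({g} : Set G)) =
      Nat.card N * Nat.card (Subgroup.centralizer ({(g : G ⧸ N)} : Set (G ⧸ N))) := by
  rw [← Nat.card_prod]
  have hset : ((Subgroup.centralizer ({g} : Set G) : Subgroup G) : Set G) =
      QuotientGroup.mk ⁻¹' ((Subgroup.centralizer ({(g : G ⧸ N)} : Set (G ⧸ N)) :
        Subgroup (G ⧸ N)) : Set (G ⧸ N)) := by
    ext x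
    simp only [SetLike.mem_coe, Set.mem_preimage, Subgroup.mem_centralizer_singleton_iff]
    constructor
    · intro hx
      rw [← QuotientGroup.mk_mul, ← QuotientGroup.mk_mul, hx]
    · intro hx
      rw [← QuotientGroup.mk_mul, ← QuotientGroup.mk_mul] at hx
      have h1 := QuotientGroup.eq.mp hx
      first
        | exact (h x (by have e : x⁻¹ * g⁻¹ * x * g = (g * x)⁻¹ * (x * g) := by group
                         rw [e]; exact h1)).symm
        | exact (h x (by have e : x⁻¹ * g⁻¹ * x * g = (g * x)⁻¹ * (x * g) := by group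
                         rw [e]; exact h1))
        | (have h1' := QuotientGroup.eq.mp hx.symm
           first
            | exact (h x (by have e : x⁻¹ * g⁻¹ * x * g = (g * x)⁻¹ * (x * g) := by group
                             rw [e]; exact h1')).symm
            | exact (h x (by have e : x⁻¹ * g⁻¹ * x * g = (g * x)⁻¹ * (x * g) := by group
                             rw [e]; exact h1')))
  exact Nat.card_congr ((Equiv.setCongr hset).trans
    (QuotientGroup.preimageMkEquivSubgroupProdSet N _))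

end Special

section Chars

variable {G : Type u} [Group G] [Fintype G] (N : Subgroup G) [Fintype N]

/-- `χ` lies over the linear character `ψ` of the central subgroup `N`. -/
def Ov (ψ : ↥N → ℂ) (χ : Cfsg.IrrCharacter G) : Prop :=
  ∀ (g : G) (n : ↥N), (χ : G → ℂ) (g * n) = ψ n * (χ : G → ℂ) g

theorem irr_one_ne_zero (χ : Cfsg.IrrCharacter G) : (χ : G → ℂ) 1 ≠ 0 := by
  rw [irr_one_eq_degree]
  exact Nat.cast_ne_zero.mpr (irr_degree_pos χ).ne'

theorem exists_central_mult (hN : N ≤ Subgroup.center G) (χ : Cfsg.IrrCharacter G) :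
    ∃ c : ↥N → ℂ, (∀ a b, c (a * b) = c a * c b) ∧
      ∀ (g : G) (n : ↥N), (χ : G → ℂ) (g * n) = c n * (χ : G → ℂ) g := by
  have h1 := irr_one_ne_zero χ
  have key : ∀ n : ↥N, ∀ g : G, (χ : G → ℂ) (g * n) =
      ((χ : G → ℂ) n / (χ : G → ℂ) 1) * (χ : G → ℂ) g := by
    intro n g
    obtain ⟨c, hc⟩ := Cfsg.Agent.S4566.central_scalar χ (n : G) (hN n.2)
    have h2 := hc 1
    rw [one_mul] at h2
    have h3 : c = (χ : G → ℂ) n / (χ : G → ℂ) 1 := by rw [h2]; field_simp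
    rw [hc g, h3]
  refine ⟨fun n => (χ : G → ℂ) n / (χ : G → ℂ) 1, ?_, fun g n => key n g⟩
  intro a b
  have h2 := key b (a : G)
  have h3 : (χ : G → ℂ) ((a * b : ↥N) : G) = (χ : G → ℂ) ((a : G) * (b : G)) := rfl
  simp only
  rw [h3, h2]
  field_simp

theorem avg (hN : N ≤ Subgroup.center G) (ψ : Cfsg.IrrCharacter ↥N) (χ : Cfsg.IrrCharacter G)
    (g : G) [Decidable (Ov N (ψ : ↥N → ℂ) χ)] :
    (Nat.card N : ℂ)⁻¹ * ∑ n : ↥N, starRingEnd ℂ ((ψ : ↥N → ℂ) n) * (χ : G → ℂ) (g * n) =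
      if Ov N (ψ : ↥N → ℂ) χ then (χ : G → ℂ) g else 0 := by
  have hcomm : ∀ a b : ↥N, a * b = b * a := by
    intro a b
    apply Subtype.ext
    exact (Subgroup.mem_center_iff.mp (hN b.2) (a : G))
  have hψ1 : (ψ : ↥N → ℂ) 1 = 1 := Cfsg.Agent.Helper11.irr_one_of_comm hcomm ψ
  have hψm := Cfsg.Agent.Helper11.irr_mul_of_comm hcomm ψ
  obtain ⟨c, hcm, hc⟩ := exists_central_mult N hN χ
  have hcardN : (Nat.card N : ℂ) ≠ 0 := Nat.cast_ne_zero.mpr Nat.card_pos.ne'
  have hsum : ∑ n : ↥N, starRingEnd ℂ ((ψ : ↥N → ℂ) n) * (χ : G → ℂ) (g * n) =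
      (∑ n : ↥N, (ψ : ↥N → ℂ) n⁻¹ * c n) * (χ : G → ℂ) g := by
    rw [Finset.sum_mul]
    apply Finset.sum_congr rfl
    intro n _
    rw [hc g n, ← irr_inv ψ n, mul_assoc]
  have hμ : ∀ a b : ↥N, (ψ : ↥N → ℂ) (a * b)⁻¹ * c (a * b) =
      ((ψ : ↥N → ℂ) a⁻¹ * c a) * ((ψ : ↥N → ℂ) b⁻¹ * c b) := by
    intro a b
    rw [mul_inv_rev, hψm, hcm]
    ring
  have hinv : ∀ n : ↥N, (ψ : ↥N → ℂ) n⁻¹ * (ψ : ↥N → ℂ) n = 1 := by
    intro n
    rw [← hψm, inv_mul_cancel, hψ1]
  rw [hsum]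
  by_cases hov : Ov N (ψ : ↥N → ℂ) χ
  · rw [if_pos hov]
    have hcψ : ∀ n : ↥N, c n = (ψ : ↥N → ℂ) n := by
      intro n
      have h1 := hov 1 n
      rw [hc 1 n] at h1
      exact mul_right_cancel₀ (irr_one_ne_zero χ) h1
    have : ∑ n : ↥N, (ψ : ↥N → ℂ) n⁻¹ * c n = (Nat.card N : ℂ) := by
      rw [Finset.sum_congr rfl (fun n _ => by rw [hcψ n, hinv n]), Finset.sum_const,
        Finset.card_univ, nsmul_eq_mul, mul_one, Nat.card_eq_fintype_card]
    rw [this, ← mul_assoc, inv_mul_cancel₀ hcardN, one_mul]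
  · rw [if_neg hov]
    have hne : ¬ ∀ n : ↥N, (ψ : ↥N → ℂ) n⁻¹ * c n = 1 := by
      intro hall
      apply hov
      intro g' n
      rw [hc g' n]
      congr 1
      have h1 := hall n
      calc c n = ((ψ : ↥N → ℂ) n * (ψ : ↥N → ℂ) n⁻¹) * c n := by
            rw [mul_comm ((ψ : ↥N → ℂ) n), hinv n, one_mul]
        _ = (ψ : ↥N → ℂ) n * ((ψ : ↥N → ℂ) n⁻¹ * c n) := by ring
        _ = (ψ : ↥N → ℂ) n := by rw [h1, mul_one]
    rw [sum_mult_eq _ hμ hne, zero_mul, mul_zero]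

theorem ov_iff (hN : N ≤ Subgroup.center G) (ψ : Cfsg.IrrCharacter ↥N)
    (χ : Cfsg.IrrCharacter G) :
    Cfsg.classInner (fun n : ↥N => (χ : G → ℂ) n) (ψ : ↥N → ℂ) ≠ 0 ↔
      Ov N (ψ : ↥N → ℂ) χ := by
  classical
  have h := avg N hN ψ χ 1
  have e : Cfsg.classInner (fun n : ↥N => (χ : G → ℂ) n) (ψ : ↥N → ℂ) =
      (Nat.card N : ℂ)⁻¹ * ∑ n : ↥N, starRingEnd ℂ ((ψ : ↥N → ℂ) n) * (χ : G → ℂ) (1 * n) := by
    unfold Cfsg.classInner
    congr 1
    apply Finset.sum_congr rfl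
    intro n _
    rw [one_mul, mul_comm]
  rw [e, h]
  by_cases hov : Ov N (ψ : ↥N → ℂ) χ
  · rw [if_pos hov]
    exact ⟨fun _ => hov, fun _ => irr_one_ne_zero χ⟩
  · rw [if_neg hov]
    exact ⟨fun h0 => absurd rfl h0, fun h0 => absurd h0 hov⟩

end Chars

section Main

variable {G : Type u} [Group G] [Fintype G] (N : Subgroup G) [Fintype N]

open Classical in
theorem ov_sum (hN : N ≤ Subgroup.center G) (ψ : Cfsg.IrrCharacter ↥N) (g : G) (hg : Sp N g) :
    ∑ χ : Cfsg.IrrCharacter G,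
        (if Ov N (ψ : ↥N → ℂ) χ then (χ : G → ℂ) g * (χ : G → ℂ) g⁻¹ else 0) =
      (Nat.card N : ℂ)⁻¹ * (Nat.card (Subgroup.centralizer ({g} : Set G)) : ℂ) := by
  have hcomm : ∀ a b : ↥N, a * b = b * a := by
    intro a b
    apply Subtype.ext
    exact (Subgroup.mem_center_iff.mp (hN b.2) (a : G))
  have hψ1 : (ψ : ↥N → ℂ) 1 = 1 := Cfsg.Agent.Helper11.irr_one_of_comm hcomm ψ
  have h1 : ∀ χ : Cfsg.IrrCharacter G,
      (if Ov N (ψ : ↥N → ℂ) χ then (χ : G → ℂ) g * (χ : G → ℂ) g⁻¹ else 0) =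
      (Nat.card N : ℂ)⁻¹ * ∑ n : ↥N, starRingEnd ℂ ((ψ : ↥N → ℂ) n) *
        ((χ : G → ℂ) (g * n) * (χ : G → ℂ) g⁻¹) := by
    intro χ
    have h := avg N hN ψ χ g
    have e : ∑ n : ↥N, starRingEnd ℂ ((ψ : ↥N → ℂ) n) *
        ((χ : G → ℂ) (g * n) * (χ : G → ℂ) g⁻¹) =
        (∑ n : ↥N, starRingEnd ℂ ((ψ : ↥N → ℂ) n) * (χ : G → ℂ) (g * n)) * (χ : G → ℂ) g⁻¹ := by
      rw [Finset.sum_mul]
      exact Finset.sum_congr rfl (fun n _ => by ring)
    rw [e, ← mul_assoc, h]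
    split_ifs <;> simp
  rw [Finset.sum_congr rfl (fun χ _ => h1 χ), ← Finset.mul_sum, Finset.sum_comm]
  congr 1
  have h2 : ∀ n : ↥N, ∑ χ : Cfsg.IrrCharacter G, starRingEnd ℂ ((ψ : ↥N → ℂ) n) *
      ((χ : G → ℂ) (g * n) * (χ : G → ℂ) g⁻¹) =
      if n = 1 then (Nat.card (Subgroup.centralizer ({g} : Set G)) : ℂ) else 0 := by
    intro n
    rw [← Finset.mul_sum, second_orthogonality (g * n) g]
    by_cases hn : n = 1
    · rw [if_pos hn, hn, hψ1]
      have : IsConj (g * ((1 : ↥N) : G)) g := by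
        rw [Subgroup.coe_one, mul_one]
      rw [if_pos this]
      simp
    · rw [if_neg hn]
      have : ¬ IsConj (g * (n : G)) g := by
        intro hconj
        apply hn
        rw [isConj_iff] at hconj
        obtain ⟨c, hc⟩ := hconj
        have hz : ∀ a : G, a * (n : G) = (n : G) * a := Subgroup.mem_center_iff.mp (hN n.2)
        have h3 : c * g * (n : G) = g * c := by
          have := mul_inv_eq_iff_eq_mul.mp hc
          rw [← this]; group
        have h4 : c⁻¹⁻¹ * g⁻¹ * c⁻¹ * g = (n : G) := by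
          calc c⁻¹⁻¹ * g⁻¹ * c⁻¹ * g = c * g⁻¹ * c⁻¹ * (g * c) * c⁻¹ := by group
            _ = c * g⁻¹ * c⁻¹ * (c * g * (n : G)) * c⁻¹ := by rw [h3]
            _ = c * (n : G) * c⁻¹ := by group
            _ = (n : G) * c * c⁻¹ := by rw [hz c]
            _ = (n : G) := by group
        have h5 := hg c⁻¹ (by rw [h4]; exact n.2)
        -- c⁻¹ * g = g * c⁻¹
        have h6 : (n : G) = 1 := by
          rw [← h4]
          calc c⁻¹⁻¹ * g⁻¹ * c⁻¹ * g = c⁻¹⁻¹ * g⁻¹ * (c⁻¹ * g) := by group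
            _ = c⁻¹⁻¹ * g⁻¹ * (g * c⁻¹) := by rw [h5]
            _ = 1 := by group
        exact Subtype.ext h6
      rw [if_neg this, mul_zero]
  rw [Finset.sum_congr rfl (fun n _ => h2 n), Finset.sum_ite_eq' Finset.univ (1 : ↥N),
    if_pos (Finset.mem_univ _)]

theorem ov_zero (hN : N ≤ Subgroup.center G) (ψ : Cfsg.IrrCharacter ↥N)
    (hfaith : ∀ n : ↥N, (ψ : ↥N → ℂ) n = (ψ : ↥N → ℂ) 1 → n = 1) (g : G) (hg : ¬ Sp N g)
    (χ : Cfsg.IrrCharacter G) (hχ : Ov N (ψ : ↥N → ℂ) χ) : (χ : G → ℂ) g = 0 := by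
  unfold Sp at hg
  push Not at hg
  obtain ⟨x, hm, hx⟩ := hg
  have hz : ∀ a : G, a * (x⁻¹ * g⁻¹ * x * g) = (x⁻¹ * g⁻¹ * x * g) * a :=
    Subgroup.mem_center_iff.mp (hN hm)
  have h1 : x * g * x⁻¹ = g * (x⁻¹ * g⁻¹ * x * g) := by
    have h2 := hz x
    calc x * g * x⁻¹ = g * (x * (x⁻¹ * g⁻¹ * x * g)) * x⁻¹ := by group
      _ = g * ((x⁻¹ * g⁻¹ * x * g) * x) * x⁻¹ := by rw [h2]
      _ = g * (x⁻¹ * g⁻¹ * x * g) := by group
  have h3 : (χ : G → ℂ) g = (ψ : ↥N → ℂ) ⟨_, hm⟩ * (χ : G → ℂ) g := by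
    have h4 := hχ g ⟨_, hm⟩
    rw [← h4]
    change (χ : G → ℂ) g = (χ : G → ℂ) (g * (x⁻¹ * g⁻¹ * x * g))
    rw [← h1, irr_conj]
  by_contra h0
  have h5 : (ψ : ↥N → ℂ) ⟨_, hm⟩ = 1 := by
    have : (1 : ℂ) * (χ : G → ℂ) g = (ψ : ↥N → ℂ) ⟨_, hm⟩ * (χ : G → ℂ) g := by
      rw [one_mul]; exact h3
    exact (mul_right_cancel₀ h0 this).symm
  have hcomm : ∀ a b : ↥N, a * b = b * a := by
    intro a b
    apply Subtype.ext
    exact (Subgroup.mem_center_iff.mp (hN b.2) (a : G))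
  have hψ1 : (ψ : ↥N → ℂ) 1 = 1 := Cfsg.Agent.Helper11.irr_one_of_comm hcomm ψ
  have h6 := hfaith ⟨_, hm⟩ (by rw [h5, hψ1])
  have h7 : x⁻¹ * g⁻¹ * x * g = 1 := congrArg Subtype.val h6
  apply hx
  calc x * g = g * x * (x⁻¹ * g⁻¹ * x * g) := by group
    _ = g * x := by rw [h7, mul_one]

theorem irr_sum_sq (χ : Cfsg.IrrCharacter G) :
    ∑ g : G, (χ : G → ℂ) g * (χ : G → ℂ) g⁻¹ = (Nat.card G : ℂ) := by
  classical
  have h := irr_classInner χ χ
  rw [if_pos rfl] at h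
  unfold Cfsg.classInner at h
  have hne : (Nat.card G : ℂ) ≠ 0 := Nat.cast_ne_zero.mpr Nat.card_pos.ne'
  have e : ∑ g : G, (χ : G → ℂ) g * (χ : G → ℂ) g⁻¹ =
      ∑ g : G, (χ : G → ℂ) g * starRingEnd ℂ ((χ : G → ℂ) g) :=
    Finset.sum_congr rfl (fun g _ => by rw [irr_inv])
  rw [e]
  field_simp at h
  exact h

end Main

/-- Let N be a central subgroup of the finite group G and ψ a faithful irreducible (hence degree-one) character of N. Call a coset g N special when every x ∈ G whose commutator x⁻¹ g⁻¹ x g lies in N actually commutes with g (this depends only on the coset). Then the number of irreducible characters of G whose restriction to N contains ψ equals the number of conjugacy classes of G/N consisting of special cosets. -/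
theorem result {G : Type*} [Group G] [Fintype G] (N : Subgroup G) [N.Normal] [Fintype N] (hN : N ≤ Subgroup.center G) (ψ : Cfsg.IrrCharacter ↥N) (hfaith : ∀ n : ↥N, (ψ : ↥N → ℂ) n = (ψ : ↥N → ℂ) 1 → n = 1) : Nat.card {χ : Cfsg.IrrCharacter G // Cfsg.classInner (fun n : ↥N => (χ : G → ℂ) n) (ψ : ↥N → ℂ) ≠ 0} = Nat.card {C : ConjClasses (G ⧸ N) // ∃ g : G, ConjClasses.mk (g : G ⧸ N) = C ∧ ∀ x : G, x⁻¹ * g⁻¹ * x * g ∈ N → x * g = g * x} := by
  classical
  have hL : Nat.card {χ : Cfsg.IrrCharacter G // Cfsg.classInner (fun n : ↥N => (χ : G → ℂ) n)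
      (ψ : ↥N → ℂ) ≠ 0} = Nat.card {χ : Cfsg.IrrCharacter G // Ov N (ψ : ↥N → ℂ) χ} :=
    Nat.card_congr (Equiv.subtypeEquivRight (fun χ => ov_iff N hN ψ χ))
  have hR : Nat.card {C : ConjClasses (G ⧸ N) // ∃ g : G, ConjClasses.mk (g : G ⧸ N) = C ∧
      ∀ x : G, x⁻¹ * g⁻¹ * x * g ∈ N → x * g = g * x} =
      Nat.card {C : ConjClasses (G ⧸ N) // SpC N C} := rfl
  rw [hL, hR]
  have hcardG : (Nat.card G : ℂ) ≠ 0 := Nat.cast_ne_zero.mpr Nat.card_pos.ne'
  have hcardN : (Nat.card N : ℂ) ≠ 0 := Nat.cast_ne_zero.mpr Nat.card_pos.ne'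
  have hA : ∑ g : G, ∑ χ : Cfsg.IrrCharacter G,
      (if Ov N (ψ : ↥N → ℂ) χ then (χ : G → ℂ) g * (χ : G → ℂ) g⁻¹ else 0) =
      (Nat.card G : ℂ) * (Nat.card {χ : Cfsg.IrrCharacter G // Ov N (ψ : ↥N → ℂ) χ} : ℂ) := by
    rw [Finset.sum_comm]
    have : ∀ χ : Cfsg.IrrCharacter G, ∑ g : G,
        (if Ov N (ψ : ↥N → ℂ) χ then (χ : G → ℂ) g * (χ : G → ℂ) g⁻¹ else 0) =
        if Ov N (ψ : ↥N → ℂ) χ then (Nat.card G : ℂ) else 0 := by
      intro χ
      by_cases h : Ov N (ψ : ↥N → ℂ) χ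
      · simp only [if_pos h]; exact irr_sum_sq χ
      · simp only [if_neg h]; exact Finset.sum_const_zero
    rw [Finset.sum_congr rfl (fun χ _ => this χ), Finset.sum_ite, Finset.sum_const_zero, add_zero,
      Finset.sum_const, nsmul_eq_mul, mul_comm]
    congr 2
    rw [Nat.card_eq_fintype_card, Fintype.card_subtype]
  have hB : ∑ g : G, ∑ χ : Cfsg.IrrCharacter G,
      (if Ov N (ψ : ↥N → ℂ) χ then (χ : G → ℂ) g * (χ : G → ℂ) g⁻¹ else 0) =
      (Nat.card G : ℂ) * (Nat.card {C : ConjClasses (G ⧸ N) // SpC N C} : ℂ) := by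
    have h1 : ∀ g : G, ∑ χ : Cfsg.IrrCharacter G,
        (if Ov N (ψ : ↥N → ℂ) χ then (χ : G → ℂ) g * (χ : G → ℂ) g⁻¹ else 0) =
        (fun q : G ⧸ N => if SpC N (ConjClasses.mk q) then
          (Nat.card (Subgroup.centralizer ({q} : Set (G ⧸ N))) : ℂ) else 0) (g : G ⧸ N) := by
      intro g
      simp only
      by_cases hg : Sp N g
      · rw [if_pos ((spC_iff N hN g).mpr hg), ov_sum N hN ψ g hg, card_centralizer_sp N hg]
        push_cast
        field_simp
      · rw [if_neg (fun h => hg ((spC_iff N hN g).mp h))]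
        apply Finset.sum_eq_zero
        intro χ _
        split_ifs with hov
        · rw [ov_zero N hN ψ hfaith g hg χ hov, zero_mul]
        · rfl
    have hsq := sum_quot N (fun q : G ⧸ N => if SpC N (ConjClasses.mk q) then
          (Nat.card (Subgroup.centralizer ({q} : Set (G ⧸ N))) : ℂ) else 0)
    rw [Finset.sum_congr rfl (fun g _ => h1 g), hsq, sum_class_pred,
      Subgroup.card_eq_card_quotient_mul_card_subgroup N]
    push_cast
    ring
  have h2 := mul_left_cancel₀ hcardG (hA.symm.trans hB)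
  exact_mod_cast h2

end Cfsg.Agent.S4567
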