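import Cfsg.Statements.S4571
import Cfsg.Agent.Helper7.BlockQuot
import Cfsg.Agent.Helper7.BlockKer
import Cfsg.Agent.Helper7.ThirdMain
import Cfsg.Agent.Helper25.BlockOrth
import Cfsg.Agent.Helper25.BlockRank
import Cfsg.Agent.Helper25.CharClass

set_option autoImplicit false
open Cfsg

namespace Cfsg.Agent.S4571

open Cfsg.Agent.Helper25 Cfsg.Agent.Helper7

theorem s4571_index {G : Type*} [Group G] [Finite G] (p : ℕ) [hp : Fact p.Prime]
    (Q : Subgroup G) [Q.Normal] (hQ : IsPGroup p Q)
    (hsup : Q ⊔ Subgroup.centralizer (Q : Set G) = ⊤) :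
    ∃ k, (Subgroup.centralizer (Q : Set G)).index = p ^ k := by
  have h1 : (Subgroup.centralizer (Q : Set G)).relIndex (Q ⊔ Subgroup.centralizer (Q : Set G)) =
      (Subgroup.centralizer (Q : Set G)).relIndex Q := Subgroup.relIndex_sup_right _ _
  rw [hsup, Subgroup.relIndex_top_right] at h1
  obtain ⟨n, hn⟩ := IsPGroup.iff_card.mp hQ
  have h2 : (Subgroup.centralizer (Q : Set G)).relIndex Q ∣ p ^ n := hn ▸ Subgroup.relIndex_dvd_card _ _
  obtain ⟨m, _, hm⟩ := (Nat.dvd_prime_pow hp.out).mp h2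
  exact ⟨m, h1.trans hm⟩

theorem s4571_inflate_mem {G : Type*} [Group G] [Finite G] (p : ℕ) [hp : Fact p.Prime]
    (M : Ideal AlgInt) (hM : IsPModular p M)
    (Q : Subgroup G) [Q.Normal] (hQ : IsPGroup p Q) (k : ℕ)
    (hC : (Subgroup.centralizer (Q : Set G)).index = p ^ k) (χ : IrrCharacter (G ⧸ Q)) :
    irrComp χ (QuotientGroup.mk' Q) (QuotientGroup.mk'_surjective Q) ∈ principalBlock M G ↔
      χ ∈ principalBlock M (G ⧸ Q) := by
  constructor
  · intro h
    exact sameBlock_of_inflate hM Q hQ k hC (trivChar (G ⧸ Q)) χ h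
  · intro h
    exact sameBlock_inflate hM Q _ _ h

theorem s4571_eq_of_reg {G : Type*} [Group G] (p : ℕ) [hp : Fact p.Prime] (a b : G)
    (hc : Commute a b) (ha : ¬ p ∣ orderOf a) (hb : ¬ p ∣ orderOf b) (k : ℕ)
    (hz : (a⁻¹ * b) ^ (p ^ k) = 1) : a = b := by
  have hn : (a⁻¹ * b) ^ (orderOf a * orderOf b) = 1 := by
    rw [(hc.inv_left).mul_pow, inv_pow, pow_mul, pow_orderOf_eq_one, one_pow, inv_one, one_mul,
      mul_comm, pow_mul, pow_orderOf_eq_one, one_pow]
  have hcop : Nat.Coprime (p ^ k) (orderOf a * orderOf b) := by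
    apply Nat.Coprime.pow_left
    rw [hp.out.coprime_iff_not_dvd]
    intro hd
    rcases (hp.out.dvd_mul).mp hd with h | h
    · exact ha h
    · exact hb h
  have h1 := pow_gcd_eq_one.mpr ⟨hz, hn⟩
  rw [Nat.Coprime.gcd_eq_one hcop, pow_one] at h1
  calc a = a * 1 := (mul_one a).symm
    _ = a * (a⁻¹ * b) := by rw [h1]
    _ = b := by group

theorem s4571_sum_reg {G : Type*} [Group G] [Fintype G] (p : ℕ) [hp : Fact p.Prime]
    (Q : Subgroup G) [Q.Normal] [Fintype (G ⧸ Q)] (hQ : IsPGroup p Q) (k : ℕ)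
    (hC : (Subgroup.centralizer (Q : Set G)).index = p ^ k) (F : G ⧸ Q → ℂ) :
    ∑ g : G, regInd p G g * F (QuotientGroup.mk g) = ∑ x : G ⧸ Q, regInd p (G ⧸ Q) x * F x := by
  classical
  have hL : ∑ g : G, regInd p G g * F (QuotientGroup.mk g) =
      ∑ g ∈ Finset.univ.filter (fun g : G => ¬ p ∣ orderOf g), F (QuotientGroup.mk g) := by
    rw [Finset.sum_filter]
    refine Finset.sum_congr rfl (fun g _ => ?_)
    by_cases h : p ∣ orderOf g
    · rw [regInd_sing h, if_neg (not_not.mpr h), zero_mul]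
    · rw [regInd_reg h, if_pos h, one_mul]
  have hR : ∑ x : G ⧸ Q, regInd p (G ⧸ Q) x * F x =
      ∑ x ∈ Finset.univ.filter (fun x : G ⧸ Q => ¬ p ∣ orderOf x), F x := by
    rw [Finset.sum_filter]
    refine Finset.sum_congr rfl (fun g _ => ?_)
    by_cases h : p ∣ orderOf g
    · rw [regInd_sing h, if_neg (not_not.mpr h), zero_mul]
    · rw [regInd_reg h, if_pos h, one_mul]
  rw [hL, hR]
  refine Finset.sum_bij (fun g _ => (QuotientGroup.mk g : G ⧸ Q)) ?_ ?_ ?_ ?_
  · intro g hg
    simp only [Finset.mem_filter, Finset.mem_univ, true_and] at hg ⊢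
    intro hd
    exact hg (dvd_trans hd (orderOf_map_dvd (QuotientGroup.mk' Q) g))
  · intro a ha b hb heq
    simp only [Finset.mem_filter, Finset.mem_univ, true_and] at ha hb
    have haC := mem_centralizer_of_regular hp.out Q k hC a ha
    have hq : a⁻¹ * b ∈ Q := QuotientGroup.eq.mp heq
    have hcz : Commute a (a⁻¹ * b) := ((Subgroup.mem_centralizer_iff.mp haC) _ hq).symm
    have hc : Commute a b := by
      have : b = a * (a⁻¹ * b) := by group
      rw [this]; exact (Commute.refl _).mul_right hcz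
    obtain ⟨j, hj⟩ := hQ ⟨a⁻¹ * b, hq⟩
    have hj' : (a⁻¹ * b) ^ (p ^ j) = 1 := by
      have := congrArg (Subtype.val) hj
      simpa using this
    exact s4571_eq_of_reg p a b hc ha hb j hj'
  · intro x hx
    simp only [Finset.mem_filter, Finset.mem_univ, true_and] at hx
    obtain ⟨g, rfl, hg⟩ := exists_regular_lift hp.out Q x hx
    exact ⟨g, Finset.mem_filter.mpr ⟨Finset.mem_univ _, hg⟩, rfl⟩
  · intro g _
    rfl

open Classical in
theorem s4571_omega_ind {G : Type*} [Group G] [Fintype G] (Q : Subgroup G) [Q.Normal]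
    (χ : IrrCharacter G) :
    omega (fun g => if g ∈ Q then (1 : ℂ) else 0) χ =
      if Q ≤ irrKer χ then (Nat.card Q : ℂ) else 0 := by
  split_ifs with h
  · exact omega_indicator_of_le Q χ h
  · by_contra hne
    apply h
    have hsq := omega_indicator_sq Q χ
    have hval : omega (fun g => if g ∈ Q then (1 : ℂ) else 0) χ = (Nat.card Q : ℂ) :=
      mul_right_cancel₀ hne hsq
    have hψ1 := irr_one_ne_zero χ
    have hcardN : (Finset.univ.filter (fun g : G => g ∈ Q)).card = Nat.card Q := by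
      rw [Nat.card_eq_fintype_card, Fintype.card_subtype]
    have hfin : ∑ x ∈ Finset.univ.filter (fun g : G => g ∈ Q), (χ : G → ℂ) x =
        ((Finset.univ.filter (fun g : G => g ∈ Q)).card : ℂ) * (χ : G → ℂ) 1 := by
      rw [hcardN, ← hval]
      unfold omega
      rw [div_mul_cancel₀ _ hψ1, Finset.sum_filter]
      apply Finset.sum_congr rfl
      intro g _
      by_cases hgQ : g ∈ Q <;> simp [hgQ]
    intro n hn
    rw [mem_irrKer]
    exact irr_eq_one_of_sum_eq χ _ hfin n (Finset.mem_filter.mpr ⟨Finset.mem_univ _, hn⟩)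

open Classical in
theorem s4571_key {G : Type*} [Group G] [Fintype G] (p : ℕ) [hp : Fact p.Prime]
    (M : Ideal AlgInt) (hM : IsPModular p M) (Q : Subgroup G) [Q.Normal] (hQ : IsPGroup p Q)
    (B : Set (IrrCharacter G)) (hB : IsPBlock M B) (g : G) (hg : ¬ p ∣ orderOf g)
    (hgC : g ∈ Subgroup.centralizer (Q : Set G)) :
    ∑ χ ∈ (Set.toFinite B).toFinset, omega (fun g => if g ∈ Q then (1 : ℂ) else 0) χ *
        ((χ : G → ℂ) g * (χ : G → ℂ) g⁻¹) =
      ∑ χ ∈ (Set.toFinite B).toFinset, (χ : G → ℂ) g * (χ : G → ℂ) g⁻¹ := by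
  set f₁ : G → ℂ := fun g => if g ∈ Q then 1 else 0 with hf₁
  have hcl : ∀ g x : G, f₁ (x * g * x⁻¹) = f₁ g := by
    intro g x
    have : x * g * x⁻¹ ∈ Q ↔ g ∈ Q := by
      constructor
      · intro h
        have := Subgroup.Normal.conj_mem inferInstance _ h x⁻¹
        simpa [mul_assoc] using this
      · intro h
        exact Subgroup.Normal.conj_mem inferInstance g h x
    simp only [hf₁, this]
  have h1 : ∀ χ : IrrCharacter G, omega f₁ χ * (χ : G → ℂ) g =
      ∑ q : G, f₁ q * (χ : G → ℂ) (q * g) := by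
    intro χ
    rw [irr_sum_classFun_mul χ f₁ hcl g]
    unfold omega
    ring
  calc ∑ χ ∈ (Set.toFinite B).toFinset, omega f₁ χ * ((χ : G → ℂ) g * (χ : G → ℂ) g⁻¹)
      = ∑ χ ∈ (Set.toFinite B).toFinset, ∑ q : G,
          f₁ q * ((χ : G → ℂ) g⁻¹ * (χ : G → ℂ) (q * g)) := by
        refine Finset.sum_congr rfl (fun χ _ => ?_)
        rw [← mul_assoc, h1 χ, Finset.sum_mul]
        refine Finset.sum_congr rfl (fun q _ => by ring)
    _ = ∑ q : G, f₁ q * ∑ χ ∈ (Set.toFinite B).toFinset,
          (χ : G → ℂ) g⁻¹ * (χ : G → ℂ) (q * g) := by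
        rw [Finset.sum_comm]
        refine Finset.sum_congr rfl (fun q _ => ?_)
        rw [Finset.mul_sum]
    _ = f₁ 1 * ∑ χ ∈ (Set.toFinite B).toFinset,
          (χ : G → ℂ) g⁻¹ * (χ : G → ℂ) (1 * g) := by
        refine Finset.sum_eq_single 1 (fun q _ hq1 => ?_) (fun h => absurd (Finset.mem_univ _) h)
        by_cases hq : q ∈ Q
        · have hsing : p ∣ orderOf (q * g)⁻¹ := by
            rw [orderOf_inv]
            by_contra hns
            have hcq : Commute q g := (Subgroup.mem_centralizer_iff.mp hgC) q hq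
            have hc2 : Commute (q * g) g⁻¹ := Commute.mul_left hcq.inv_right (Commute.refl g).inv_right
            have hqe : q = (q * g) * g⁻¹ := by group
            have hd1 : orderOf q ∣ Nat.lcm (orderOf (q * g)) (orderOf g⁻¹) := by
              conv_lhs => rw [hqe]
              exact hc2.orderOf_mul_dvd_lcm
            obtain ⟨j, hj⟩ := hQ ⟨q, hq⟩
            have hj' : q ^ (p ^ j) = 1 := by
              have := congrArg (Subtype.val) hj
              simpa using this
            obtain ⟨i, _, hi⟩ := (Nat.dvd_prime_pow hp.out).mp (orderOf_dvd_of_pow_eq_one hj')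
            have hi0 : i ≠ 0 := by
              rintro rfl
              rw [pow_zero, orderOf_eq_one_iff] at hi
              exact hq1 hi
            have hpq : p ∣ orderOf q := hi ▸ dvd_pow_self p hi0
            have h3 := dvd_trans (dvd_trans hpq hd1) (Nat.lcm_dvd_mul _ _)
            rcases (hp.out.dvd_mul).mp h3 with h | h
            · exact hns h
            · rw [orderOf_inv] at h; exact hg h
          have := weak_block_orth hM hB g⁻¹ (q * g)⁻¹ (by rwa [orderOf_inv]) hsing
          rw [inv_inv] at this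
          rw [this, mul_zero]
        · simp [hf₁, hq]
    _ = ∑ χ ∈ (Set.toFinite B).toFinset, (χ : G → ℂ) g * (χ : G → ℂ) g⁻¹ := by
        simp only [hf₁, Q.one_mem, if_true, one_mul]
        refine Finset.sum_congr rfl (fun χ _ => mul_comm _ _)

/-- Let Q be a normal p-subgroup of the finite group G with G = Q·C_G(Q), and M a maximal ideal of the algebraic integers containing p. Then the principal p-blocks of G and of G/Q have the same p-regular rank (the same number of irreducible Brauer characters). -/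
theorem result {G : Type*} [Group G] [Finite G] (p : ℕ) [Fact p.Prime] (M : Ideal Cfsg.AlgInt) (hM : Cfsg.IsPModular p M) (Q : Subgroup G) [Q.Normal] (hQ : IsPGroup p Q) (hsup : Q ⊔ Subgroup.centralizer (Q : Set G) = ⊤) : Cfsg.blockRank p (Cfsg.principalBlock M G) = Cfsg.blockRank p (Cfsg.principalBlock M (G ⧸ Q)) := by
  classical
  haveI := Fintype.ofFinite G
  haveI := Fintype.ofFinite (G ⧸ Q)
  obtain ⟨k, hC⟩ := s4571_index p Q hQ hsup
  have hp := (Fact.out : p.Prime)
  have hB : IsPBlock M (principalBlock M G) := isPBlock_principalBlock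
  have hB' : IsPBlock M (principalBlock M (G ⧸ Q)) := isPBlock_principalBlock
  have e1 := blockRank_eq_sum_gram hM (principalBlock M G) (blockCoeff_lr hM hB)
  have e2 := blockRank_eq_sum_gram hM (principalBlock M (G ⧸ Q)) (blockCoeff_lr hM hB')
  apply Nat.cast_injective (R := ℂ)
  rw [e1, e2]
  set T : G ⧸ Q → ℂ := fun x => ∑ χ ∈ (Set.toFinite (principalBlock M (G ⧸ Q))).toFinset,
    (χ : G ⧸ Q → ℂ) x * (χ : G ⧸ Q → ℂ) x⁻¹ with hT
  have hgG : ∑ χ ∈ (Set.toFinite (principalBlock M G)).toFinset, gram p (χ : G → ℂ) (χ : G → ℂ) =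
      (Nat.card G : ℂ)⁻¹ * ∑ g : G, regInd p G g *
        ∑ χ ∈ (Set.toFinite (principalBlock M G)).toFinset, (χ : G → ℂ) g * (χ : G → ℂ) g⁻¹ := by
    simp_rw [gram_eq, ← Finset.mul_sum]
    congr 1
    rw [Finset.sum_comm]
    refine Finset.sum_congr rfl (fun g _ => ?_)
    rw [Finset.mul_sum]
    refine Finset.sum_congr rfl (fun χ _ => ?_)
    by_cases h : p ∣ orderOf g
    · rw [pRegularPart_of_sing h, regInd_sing h]; ring
    · rw [pRegularPart_of_reg h, regInd_reg h]; ring
  have hgQ : ∑ χ ∈ (Set.toFinite (principalBlock M (G ⧸ Q))).toFinset,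
      gram p (χ : G ⧸ Q → ℂ) (χ : G ⧸ Q → ℂ) =
      (Nat.card (G ⧸ Q) : ℂ)⁻¹ * ∑ x : G ⧸ Q, regInd p (G ⧸ Q) x * T x := by
    simp_rw [gram_eq, ← Finset.mul_sum]
    congr 1
    rw [Finset.sum_comm]
    refine Finset.sum_congr rfl (fun g _ => ?_)
    rw [hT, Finset.mul_sum]
    refine Finset.sum_congr rfl (fun χ _ => ?_)
    by_cases h : p ∣ orderOf g
    · rw [pRegularPart_of_sing h, regInd_sing h]; ring
    · rw [pRegularPart_of_reg h, regInd_reg h]; ring
  have hkey : ∀ g : G, regInd p G g *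
      ∑ χ ∈ (Set.toFinite (principalBlock M G)).toFinset, (χ : G → ℂ) g * (χ : G → ℂ) g⁻¹ =
      (Nat.card Q : ℂ) * (regInd p G g * T (QuotientGroup.mk g)) := by
    intro g
    by_cases h : p ∣ orderOf g
    · rw [regInd_sing h]; ring
    · have hgC := mem_centralizer_of_regular hp Q k hC g h
      rw [← s4571_key p M hM Q hQ (principalBlock M G) hB g h hgC]
      rw [regInd_reg h, one_mul, one_mul]
      simp_rw [s4571_omega_ind Q]
      simp_rw [ite_mul, zero_mul]
      rw [← Finset.sum_filter, ← Finset.mul_sum]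
      congr 1
      symm
      refine Finset.sum_bij (fun χ _ => irrComp χ (QuotientGroup.mk' Q)
        (QuotientGroup.mk'_surjective Q)) ?_ ?_ ?_ ?_
      · intro χ hχ
        rw [Set.Finite.mem_toFinset] at hχ
        rw [Finset.mem_filter, Set.Finite.mem_toFinset]
        refine ⟨(s4571_inflate_mem p M hM Q hQ k hC χ).mpr hχ, ?_⟩
        rw [irrKer_irrComp]
        intro q hq
        rw [Subgroup.mem_comap]
        have : (QuotientGroup.mk' Q) q = 1 := (QuotientGroup.eq_one_iff q).mpr hq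
        rw [this]; exact Subgroup.one_mem _
      · intro χ₁ _ χ₂ _ heq
        apply Subtype.ext
        funext x
        obtain ⟨g, rfl⟩ := QuotientGroup.mk_surjective x
        have := congrArg (fun ψ : IrrCharacter G => (ψ : G → ℂ) g) heq
        simpa using this
      · intro χ hχ
        rw [Finset.mem_filter, Set.Finite.mem_toFinset] at hχ
        obtain ⟨ψ, hψ⟩ := exists_deflate χ Q hχ.2
        have e : irrComp ψ (QuotientGroup.mk' Q) (QuotientGroup.mk'_surjective Q) = χ :=
          Subtype.ext (funext fun g => hψ g)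
        refine ⟨ψ, ?_, e⟩
        rw [Set.Finite.mem_toFinset]
        exact (s4571_inflate_mem p M hM Q hQ k hC ψ).mp (e ▸ hχ.1)
      · intro χ _
        rfl
  rw [hgG, hgQ]
  simp_rw [hkey]
  rw [← Finset.mul_sum, s4571_sum_reg p Q hQ k hC T]
  have hcard : (Nat.card G : ℂ) = (Nat.card (G ⧸ Q) : ℂ) * (Nat.card Q : ℂ) := by
    have := Subgroup.card_eq_card_quotient_mul_card_subgroup Q
    rw [this]; push_cast; ring
  have hQ0 : (Nat.card Q : ℂ) ≠ 0 := by
    have : Nat.card Q ≠ 0 := Nat.card_pos.ne'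
    exact_mod_cast this
  have hGQ0 : (Nat.card (G ⧸ Q) : ℂ) ≠ 0 := by
    have : Nat.card (G ⧸ Q) ≠ 0 := Nat.card_pos.ne'
    exact_mod_cast this
  rw [hcard]
  field_simp

end Cfsg.Agent.S4571
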