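import Cfsg.Statements.S4574
import Mathlib
import Cfsg.Agent.Helper26.CharZeros
import Cfsg.Agent.Helper11.CharBound
import Cfsg.Agent.S0138

set_option autoImplicit false
open Cfsg

namespace Cfsg.Agent.S4574

open Cfsg.Agent.Helper25 Cfsg.Agent.Helper26

/-- elements acting by scalars form a subgroup -/
def scalarSub {G : Type*} [Group G] {n : ℕ} (ρ : Representation ℂ G (Fin n → ℂ)) : Subgroup G where
  carrier := {g | ∃ ω : ℂ, ρ g = ω • (LinearMap.id : (Fin n → ℂ) →ₗ[ℂ] (Fin n → ℂ))}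
  one_mem' := ⟨1, by rw [map_one, one_smul]; rfl⟩
  mul_mem' := by
    rintro a b ⟨ω₁, h₁⟩ ⟨ω₂, h₂⟩
    refine ⟨ω₁ * ω₂, ?_⟩
    rw [map_mul, h₁, h₂]
    ext v
    simp [mul_smul]
    ring
  inv_mem' := by
    rintro a ⟨ω, h⟩
    refine ⟨ω⁻¹, ?_⟩
    have h1 : ρ a * ρ a⁻¹ = 1 := by rw [← map_mul, mul_inv_cancel, map_one]
    by_cases hω : ω = 0
    · rw [h, hω, zero_smul, zero_mul] at h1
      by_cases hn : n = 0
      · subst hn
        ext v i
        exact Fin.elim0 i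
      · exfalso
        have h2 := congrArg (fun f : (Fin n → ℂ) →ₗ[ℂ] (Fin n → ℂ) => f (fun _ => 1) ⟨0, Nat.pos_of_ne_zero hn⟩) h1
        simp at h2
    · have h2 : ρ a⁻¹ = ω⁻¹ • (ρ a * ρ a⁻¹) := by
        rw [h]
        ext v
        simp [hω]
      rw [h2, h1]
      rfl

/-- Let χ be an irreducible character of the finite group G, of degree d, and let Z(χ) be the set of elements g with |χ g| = d (the centre of χ). Then χ vanishes on at least (d ^ 2 - 1) · |Z(χ)| elements of G, with equality when every value |χ g| is 0, 1 or d. -/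
theorem result {G : Type*} [Group G] [Fintype G] [DecidableEq G] (χ : G → ℂ) (hχ : Cfsg.IsIrrCharacter G χ) : (Cfsg.charDegree χ ^ 2 - 1) * (Finset.univ.filter (fun g : G => ‖χ g‖ = (Cfsg.charDegree χ : ℝ))).card ≤ (Finset.univ.filter (fun g : G => χ g = 0)).card ∧ ((∀ g : G, ‖χ g‖ = 0 ∨ ‖χ g‖ = 1 ∨ ‖χ g‖ = (Cfsg.charDegree χ : ℝ)) → (Cfsg.charDegree χ ^ 2 - 1) * (Finset.univ.filter (fun g : G => ‖χ g‖ = (Cfsg.charDegree χ : ℝ))).card = (Finset.univ.filter (fun g : G => χ g = 0)).card) := by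
  classical
  obtain ⟨n, ρ, hρ, hχρ⟩ := hχ
  have hd : charDegree χ = n := by
    rw [← hχρ]
    exact rep_charDegree ρ
  have hchar : IsCharacter G χ := ⟨n, ρ, hχρ⟩
  set H := scalarSub ρ with hH
  have hmemH : ∀ g : G, g ∈ H ↔ ‖χ g‖ = (charDegree χ : ℝ) := by
    intro g
    have h1 := Cfsg.Agent.S0138.result ρ g
    rw [← hχρ] at *
    rw [hd]
    have h2 : (Module.finrank ℂ (Fin n → ℂ) : ℝ) = (n : ℝ) := by simp
    rw [h2] at h1
    exact h1.symm
  have hdpos : 0 < charDegree χ := irr_degree_pos (⟨χ, ⟨n, ρ, hρ, hχρ⟩⟩ : IrrCharacter G)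
  set Zs := Finset.univ.filter (fun g : G => ‖χ g‖ = (charDegree χ : ℝ)) with hZs
  set Zeros := Finset.univ.filter (fun g : G => χ g = 0) with hZeros
  set R := Finset.univ.filter (fun g : G => g ∉ H ∧ χ g ≠ 0) with hR
  have hZsH : ∀ g, g ∈ Zs ↔ g ∈ H := by
    intro g
    rw [hZs, Finset.mem_filter, hmemH]
    simp
  -- partition
  have hdisj1 : Disjoint Zs Zeros := by
    rw [Finset.disjoint_left]
    intro g h1 h2
    rw [hZs, Finset.mem_filter] at h1
    rw [hZeros, Finset.mem_filter] at h2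
    rw [h2.2, norm_zero] at h1
    have h3 : (0 : ℝ) < (charDegree χ : ℝ) := by exact_mod_cast hdpos
    linarith [h1.2]
  have hdisj2 : Disjoint (Zs ∪ Zeros) R := by
    rw [Finset.disjoint_left]
    intro g h1 h2
    rw [hR, Finset.mem_filter] at h2
    rcases Finset.mem_union.mp h1 with h3 | h3
    · exact h2.2.1 ((hZsH g).mp h3)
    · rw [hZeros, Finset.mem_filter] at h3
      exact h2.2.2 h3.2
  have hunion : (Zs ∪ Zeros) ∪ R = Finset.univ := by
    ext g
    simp only [Finset.mem_union, Finset.mem_univ, iff_true]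
    by_cases h1 : g ∈ H
    · exact Or.inl (Or.inl ((hZsH g).mpr h1))
    · by_cases h2 : χ g = 0
      · exact Or.inl (Or.inr (by rw [hZeros, Finset.mem_filter]; exact ⟨Finset.mem_univ _, h2⟩))
      · exact Or.inr (by rw [hR, Finset.mem_filter]; exact ⟨Finset.mem_univ _, h1, h2⟩)
  have hcardG : Zs.card + Zeros.card + R.card = Fintype.card G := by
    rw [← Finset.card_union_of_disjoint hdisj1, ← Finset.card_union_of_disjoint hdisj2, hunion,
      Finset.card_univ]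
  -- the sum of squares
  have hsumG : ∑ g : G, ‖χ g‖ ^ 2 = (Fintype.card G : ℝ) := by
    have h1 := Cfsg.Agent.Helper11.irr_sum_normSq (⟨χ, ⟨n, ρ, hρ, hχρ⟩⟩ : IrrCharacter G)
    rw [Nat.card_eq_fintype_card] at h1
    rw [← h1]
    apply Finset.sum_congr rfl
    intro g _
    rw [Complex.normSq_eq_norm_sq]
  have hsplit : ∑ g : G, ‖χ g‖ ^ 2 = ∑ g ∈ Zs, ‖χ g‖ ^ 2 + ∑ g ∈ Zeros, ‖χ g‖ ^ 2
      + ∑ g ∈ R, ‖χ g‖ ^ 2 := by
    rw [← Finset.sum_union hdisj1, ← Finset.sum_union hdisj2, hunion]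
  have hsZ : ∑ g ∈ Zs, ‖χ g‖ ^ 2 = (charDegree χ : ℝ) ^ 2 * Zs.card := by
    have h1 : ∀ g ∈ Zs, ‖χ g‖ ^ 2 = (charDegree χ : ℝ) ^ 2 := by
      intro g hg
      rw [hZs, Finset.mem_filter] at hg
      rw [hg.2]
    rw [Finset.sum_congr rfl h1, Finset.sum_const, nsmul_eq_mul, mul_comm]
  have hs0 : ∑ g ∈ Zeros, ‖χ g‖ ^ 2 = 0 := by
    apply Finset.sum_eq_zero
    intro g hg
    rw [hZeros, Finset.mem_filter] at hg
    rw [hg.2, norm_zero]
    ring
  have hRsum : ∑ g : G, (if g ∈ H then 0 else ‖χ g‖ ^ 2) = ∑ g ∈ R, ‖χ g‖ ^ 2 := by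
    rw [hR, Finset.sum_filter]
    apply Finset.sum_congr rfl
    intro g _
    by_cases h1 : g ∈ H
    · rw [if_pos h1, if_neg (fun h => h.1 h1)]
    · by_cases h2 : χ g = 0
      · rw [if_neg h1, if_neg (fun h => h.2 h2), h2, norm_zero]
        ring
      · rw [if_neg h1, if_pos ⟨h1, h2⟩]
  have hRcard : (Set.ncard {g : G | g ∉ H ∧ χ g ≠ 0} : ℝ) = (R.card : ℝ) := by
    have h1 : {g : G | g ∉ H ∧ χ g ≠ 0} = (R : Set G) := by
      ext g
      rw [hR]
      simp
    rw [h1, Set.ncard_coe_finset]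
  have hsR : (R.card : ℝ) ≤ ∑ g ∈ R, ‖χ g‖ ^ 2 := by
    have h1 := ncard_nonzero_le_sum hchar H
    rw [hRcard, hRsum] at h1
    exact h1
  have hdge : 1 ≤ charDegree χ ^ 2 := Nat.one_le_pow _ _ hdpos
  constructor
  · have h1 : ((charDegree χ ^ 2 - 1 : ℕ) : ℝ) * Zs.card ≤ (Zeros.card : ℝ) := by
      rw [Nat.cast_sub hdge]
      push_cast
      have h2 : (Zs.card : ℝ) + Zeros.card + R.card = (Fintype.card G : ℝ) := by
        exact_mod_cast hcardG
      rw [hsplit, hsZ, hs0] at hsumG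
      nlinarith
    exact_mod_cast h1
  · intro hall
    have hsR' : ∑ g ∈ R, ‖χ g‖ ^ 2 = (R.card : ℝ) := by
      have h0 : ∀ g ∈ R, ‖χ g‖ ^ 2 = (1 : ℝ) := by
        intro g hg
        rw [hR, Finset.mem_filter] at hg
        rcases hall g with h1 | h1 | h1
        · exact absurd (norm_eq_zero.mp h1) hg.2.2
        · rw [h1, one_pow]
        · exact absurd ((hmemH g).mpr h1) hg.2.1
      rw [Finset.sum_congr rfl h0, Finset.sum_const, nsmul_eq_mul, mul_one]
    have h1 : ((charDegree χ ^ 2 - 1 : ℕ) : ℝ) * Zs.card = (Zeros.card : ℝ) := by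
      rw [Nat.cast_sub hdge]
      push_cast
      have h2 : (Zs.card : ℝ) + Zeros.card + R.card = (Fintype.card G : ℝ) := by
        exact_mod_cast hcardG
      rw [hsplit, hsZ, hs0, hsR'] at hsumG
      nlinarith
    exact_mod_cast h1

end Cfsg.Agent.S4574
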