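import Cfsg.Statements.S4580
import Cfsg.Agent.S4483
import Cfsg.Agent.Helper7.DetChar
import Cfsg.Agent.Helper11.GalConj

set_option autoImplicit false
open Cfsg

namespace Cfsg.Agent.S4580

open Cfsg.Agent.Helper25 Cfsg.Agent.Helper7
open scoped ComplexConjugate

theorem detChar_conj {G : Type*} [Group G] [Finite G] (χ : G → ℂ) (hχ : IsCharacter G χ) :
    detChar (fun g => conj (χ g)) = fun g => conj (detChar χ g) := by
  obtain ⟨k, ρ, rfl⟩ := hχ
  have h1 : (fun g => conj (ρ.character g)) =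
      (Cfsg.Agent.Helper11.autRep (starRingEnd ℂ) ρ).character := by
    funext g
    exact (Cfsg.Agent.Helper11.autRep_character (starRingEnd ℂ) ρ g).symm
  rw [h1, detChar_rep, detChar_rep]
  funext g
  show LinearMap.det (Matrix.toLin' ((LinearMap.toMatrix' (ρ g)).map (starRingEnd ℂ))) =
    conj (LinearMap.det (ρ g))
  rw [LinearMap.det_toLin', ← LinearMap.det_toMatrix' (ρ g)]
  exact (RingHom.map_det (starRingEnd ℂ) _).symm

theorem hom_conj {G : Type*} [Group G] [Finite G] (f : G →* ℂˣ) (g : G) :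
    conj ((f g : ℂˣ) : ℂ) = (((f g)⁻¹ : ℂˣ) : ℂ) := by
  have hn : ‖((f g : ℂˣ) : ℂ)‖ = 1 := by
    apply Complex.norm_eq_one_of_pow_eq_one (n := Nat.card G) _ Nat.card_pos.ne'
    rw [← Units.val_pow_eq_pow_val, ← map_pow, pow_card_eq_one', map_one, Units.val_one]
  have h2 : ((f g : ℂˣ) : ℂ) * conj ((f g : ℂˣ) : ℂ) = 1 := by
    rw [Complex.mul_conj, Complex.normSq_eq_norm_sq, hn]
    simp
  rw [Units.val_inv_eq_inv_val]
  exact eq_inv_of_mul_eq_one_right h2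

theorem sameBlock_twist {G : Type*} [Group G] [Finite G] {p : ℕ} {M : Ideal AlgInt}
    (hM : IsPModular p M) (κ : G →* ℂˣ) (a : ℕ) (hκ : ∀ g, (κ g) ^ (p ^ a) = 1)
    (χ : IrrCharacter G) :
    SameBlock M (χ : G → ℂ) (fun g => ((κ g : ℂˣ) : ℂ) * (χ : G → ℂ) g) := by
  intro g
  have h1 : centralChar (fun g => ((κ g : ℂˣ) : ℂ) * (χ : G → ℂ) g) g =
      ((κ g : ℂˣ) : ℂ) * centralChar (χ : G → ℂ) g := by
    unfold centralChar
    simp only [map_one, Units.val_one, one_mul]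
    ring
  rw [h1]
  have h2 : centralChar (χ : G → ℂ) g - ((κ g : ℂˣ) : ℂ) * centralChar (χ : G → ℂ) g =
      -((((κ g : ℂˣ) : ℂ) - 1) * centralChar (χ : G → ℂ) g) := by ring
  rw [h2]
  apply li_neg
  apply li_mul_lr hM
  · apply li_sub_one_of_pow_eq_one hM a
    rw [← Units.val_pow_eq_pow_val, hκ, Units.val_one]
  · exact lr_of_isIntegral hM (centralChar_isIntegral χ g)

/-- Let N be a normal subgroup of the finite group G, M a maximal ideal of the algebraic integers containing 2, and θ a real-valued irreducible character of N of odd degree that extends to G (some irreducible character of G restricts to θ). Then θ has an extension to G lying in the principal 2-block of G. -/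
theorem result {G : Type*} [Group G] [Finite G] (N : Subgroup G) [N.Normal] (M : Ideal Cfsg.AlgInt) (hM : Cfsg.IsPModular 2 M) (θ : Cfsg.IrrCharacter N) (hreal : ∀ n : N, ((θ : N → ℂ) n).im = 0) (hodd : Odd (Cfsg.charDegree (θ : N → ℂ))) (hext : ∃ η : Cfsg.IrrCharacter G, ∀ n : N, (η : G → ℂ) n = (θ : N → ℂ) n) :
    ∃ η : Cfsg.IrrCharacter G, (∀ n : N, (η : G → ℂ) n = (θ : N → ℂ) n) ∧ η ∈ Cfsg.principalBlock M G := by
  classical
  obtain ⟨η₀, hη₀⟩ := hext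
  set d := Cfsg.charDegree (θ : N → ℂ) with hd
  obtain ⟨k, hk⟩ := hodd
  have hθ1 : (θ : N → ℂ) 1 = (d : ℂ) := irr_one_eq_degree θ
  have hη1 : (η₀ : G → ℂ) 1 = (d : ℂ) := by
    rw [← hθ1, ← hη₀ 1]; rfl
  have hc0 : IsCharacter G (η₀ : G → ℂ) := irr_isCharacter η₀
  have hc1 : IsCharacter G (fun g => conj ((η₀ : G → ℂ) g)) := Helper2.isCharacter_conj hc0
  obtain ⟨β, hβN, hβ, hβdet⟩ := exists_hom_of_two_char_extensions N (θ : N → ℂ) θ.2 d hθ1
    (η₀ : G → ℂ) (fun g => conj ((η₀ : G → ℂ) g)) hc0 hc1 hη₀ (fun n => by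
      show conj ((η₀ : G → ℂ) n) = _
      rw [hη₀ n]; exact Complex.conj_eq_iff_im.mpr (hreal n))
  have hβ' : ∀ g, conj ((η₀ : G → ℂ) g) = ((β g : ℂˣ) : ℂ) * (η₀ : G → ℂ) g := hβ
  obtain ⟨δ, hδ⟩ := exists_hom_detChar (η₀ : G → ℂ) hc0
  rw [detChar_conj _ hc0] at hβdet
  have hrel : ∀ g, (δ g)⁻¹ = (β g) ^ d * δ g := by
    intro g
    apply Units.ext
    have h1 := hβdet g
    simp only [hδ] at h1
    rw [hom_conj] at h1
    rw [h1]
    push_cast
    rfl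
  set ν : G →* ℂˣ := δ⁻¹ * (β⁻¹) ^ k with hν
  have hν2 : ∀ g, (ν g) ^ 2 = β g := by
    intro g
    have h := hrel g
    have h2 : (δ g)⁻¹ * (δ g)⁻¹ = (β g) ^ d := by
      calc (δ g)⁻¹ * (δ g)⁻¹ = ((β g) ^ d * δ g) * (δ g)⁻¹ := by rw [← h]
        _ = (β g) ^ d := mul_inv_cancel_right _ _
    show ((δ g)⁻¹ * ((β g)⁻¹) ^ k) ^ 2 = β g
    rw [mul_pow, sq, h2, hk, ← pow_mul, inv_pow, pow_succ]
    rw [mul_comm k 2, mul_right_comm, mul_inv_cancel, one_mul]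
  let χf : G → ℂ := fun g => ((ν g : ℂˣ) : ℂ) * (η₀ : G → ℂ) g
  have hχirr : IsIrrCharacter G χf := isIrrCharacter_hom_mul ν _ η₀.2
  let χ : IrrCharacter G := ⟨χf, hχirr⟩
  have hχreal : ∀ g, ((χ : G → ℂ) g).im = 0 := by
    intro g
    apply Complex.conj_eq_iff_im.mp
    show conj (((ν g : ℂˣ) : ℂ) * (η₀ : G → ℂ) g) = ((ν g : ℂˣ) : ℂ) * (η₀ : G → ℂ) g
    rw [map_mul, hβ' g, hom_conj, ← hν2 g]
    rw [Units.val_inv_eq_inv_val, Units.val_pow_eq_pow_val]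
    have hne : ((ν g : ℂˣ) : ℂ) ≠ 0 := Units.ne_zero _
    field_simp
  have hχ1 : (χ : G → ℂ) 1 = (θ : N → ℂ) 1 := by
    show ((ν 1 : ℂˣ) : ℂ) * (η₀ : G → ℂ) 1 = _
    rw [map_one, Units.val_one, one_mul, hη1, hθ1]
  have hχodd : Odd (Cfsg.charDegree (χ : G → ℂ)) := by
    have : Cfsg.charDegree (χ : G → ℂ) = d := by
      rw [hd]
      unfold Cfsg.charDegree
      rw [hχ1]
    rw [this]
    exact ⟨k, hk⟩
  have hχB : χ ∈ Cfsg.principalBlock M G :=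
    (Cfsg.Agent.S4483.result M hM).1 χ hχreal hχodd
  set a := (Nat.card G).factorization 2 with ha
  set m := Nat.card G / 2 ^ a with hm
  have hma : 2 ^ a * m = Nat.card G := Nat.ordProj_mul_ordCompl_eq_self (Nat.card G) 2
  have hmodd : ¬ 2 ∣ m := Nat.not_dvd_ordCompl Nat.prime_two Nat.card_pos.ne'
  obtain ⟨j, hj⟩ : ∃ j, m = 2 * j + 1 := ⟨m / 2, by omega⟩
  let κ : G →* ℂˣ := (ν ^ m)⁻¹
  have hκ : ∀ g, (κ g) ^ (2 ^ a) = 1 := by
    intro g
    show (((ν g) ^ m)⁻¹) ^ (2 ^ a) = 1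
    rw [inv_pow, ← pow_mul, mul_comm, hma, ← map_pow, pow_card_eq_one', map_one, inv_one]
  let ηf : G → ℂ := fun g => ((κ g : ℂˣ) : ℂ) * (χ : G → ℂ) g
  let η : IrrCharacter G := ⟨ηf, isIrrCharacter_hom_mul κ _ χ.2⟩
  refine ⟨η, ?_, ?_⟩
  · intro n
    show ((κ n : ℂˣ) : ℂ) * (((ν n : ℂˣ) : ℂ) * (η₀ : G → ℂ) n) = (θ : N → ℂ) n
    rw [hη₀ n, ← mul_assoc, ← Units.val_mul]
    have h0 : κ (n : G) * ν (n : G) = 1 := by
      show ((ν n) ^ m)⁻¹ * ν n = 1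
      have h1 : (ν (n : G)) ^ 2 = 1 := by rw [hν2, hβN]
      rw [hj, pow_succ, pow_mul, h1, one_pow, one_mul, inv_mul_cancel]
    rw [h0, Units.val_one, one_mul]
  · have h1 : SameBlock M (fun _ : G => (1:ℂ)) (χ : G → ℂ) := hχB
    have h2 := sameBlock_twist hM κ a hκ χ
    exact sameBlock_trans hM h1 h2

end Cfsg.Agent.S4580
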