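import Cfsg.Statements.S4582
import Mathlib

set_option autoImplicit false
open Cfsg

namespace Cfsg.Agent.S4582


open MulAction Subgroup in
/-- Transfer into `P` when `G = N P`, `N` normal: on `P` it is `u ↦ ϕ u ^ |G:P|` up to the image
of `P ⊓ N`. -/
theorem transfer_core {H : Type*} [Group H] [Finite H] (N P : Subgroup H) [N.Normal]
    (hNP : N ⊔ P = ⊤) {A : Type*} [CommGroup A] (ϕ : ↥P →* A) (u : H) (hu : u ∈ P) :
    MonoidHom.transfer ϕ u * (ϕ ⟨u, hu⟩ ^ P.index)⁻¹ ∈ (N.subgroupOf P).map ϕ := by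
  classical
  have key : ∀ (t : H) (r : ℕ) (h : t⁻¹ * u ^ r * t ∈ P),
      ϕ ⟨t⁻¹ * u ^ r * t, h⟩ * (ϕ ⟨u, hu⟩ ^ r)⁻¹ ∈ (N.subgroupOf P).map ϕ := by
    intro t r h
    have ht : t ∈ ((N ⊔ P : Subgroup H) : Set H) := by rw [hNP]; exact Subgroup.mem_top t
    rw [Subgroup.normal_mul] at ht
    obtain ⟨n, hn, v, hv, rfl⟩ := Set.mem_mul.mp ht
    have hur : u ^ r ∈ P := P.pow_mem hu r
    have hy : n⁻¹ * u ^ r * n ∈ P := by
      have h2 : n⁻¹ * u ^ r * n = v * ((n * v)⁻¹ * u ^ r * (n * v)) * v⁻¹ := by group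
      rw [h2]
      exact P.mul_mem (P.mul_mem hv h) (P.inv_mem hv)
    have hwP : (u ^ r)⁻¹ * (n⁻¹ * u ^ r * n) ∈ P := P.mul_mem (P.inv_mem hur) hy
    have hwN : (u ^ r)⁻¹ * (n⁻¹ * u ^ r * n) ∈ N := by
      have h1 : (u ^ r)⁻¹ * n⁻¹ * (u ^ r)⁻¹⁻¹ ∈ N :=
        Subgroup.Normal.conj_mem inferInstance _ (N.inv_mem hn) _
      have h2 : (u ^ r)⁻¹ * (n⁻¹ * u ^ r * n) = ((u ^ r)⁻¹ * n⁻¹ * (u ^ r)⁻¹⁻¹) * n := by group
      rw [h2]
      exact N.mul_mem h1 hn
    refine ⟨⟨(u ^ r)⁻¹ * (n⁻¹ * u ^ r * n), hwP⟩, ?_, ?_⟩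
    · exact Subgroup.mem_subgroupOf.mpr hwN
    · have h3 : (⟨(n * v)⁻¹ * u ^ r * (n * v), h⟩ : ↥P) =
          (⟨v, hv⟩ : ↥P)⁻¹ * ((⟨u, hu⟩ : ↥P) ^ r * ⟨(u ^ r)⁻¹ * (n⁻¹ * u ^ r * n), hwP⟩) *
            ⟨v, hv⟩ := by
        apply Subtype.ext
        simp only [Subgroup.coe_mul, Subgroup.coe_inv, Subgroup.coe_pow]
        group
      rw [h3, map_mul, map_mul, map_mul, map_inv, map_pow]
      have hc : ∀ a b c : A, a⁻¹ * (b * c) * a * b⁻¹ = c := by
        intro a b c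
        calc a⁻¹ * (b * c) * a * b⁻¹ = c * (a⁻¹ * a) * (b * b⁻¹) := by ac_rfl
          _ = c := by simp
      rw [hc]
  letI := P.fintypeQuotientOfFiniteIndex
  rw [MonoidHom.transfer_eq_prod_quotient_orbitRel_zpowers_quot,
    Subgroup.index_eq_sum_minimalPeriod P u, ← Finset.prod_pow_eq_pow_sum, ← Finset.prod_inv_distrib,
    ← Finset.prod_mul_distrib]
  apply Subgroup.prod_mem
  intro q _
  exact key _ _ _

theorem eq_one_of_two_odd {A : Type*} [Group A] (hA : IsPGroup 2 A) (a : A) (m : ℕ)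
    (hm : Odd m) (h : a ^ m = 1) : a = 1 := by
  obtain ⟨k, hk⟩ := hA a
  have h1 : orderOf a ∣ 2 ^ k := orderOf_dvd_of_pow_eq_one hk
  have h2 : orderOf a ∣ m := orderOf_dvd_of_pow_eq_one h
  have hcop : Nat.Coprime (2 ^ k) m := Nat.Coprime.pow_left k (Nat.coprime_two_left.mpr hm)
  have h3 : orderOf a ∣ 1 := by
    have := Nat.dvd_gcd h1 h2
    rwa [hcop] at this
  exact orderOf_eq_one_iff.mp (Nat.dvd_one.mp h3)

/-- Let N be a normal subgroup of the finite group G, P a Sylow 2-subgroup of G and Q = P ∩ N. Suppose that P/QP' and Q/Q' are elementary abelian (every square of an element of P lies in the subgroup generated by Q and the derived subgroup of P, and every square of an element of Q lies in the derived subgroup of Q), and that the commutator factor group N/N' has odd order. Then P/P' is elementary abelian. -/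
theorem result {G : Type*} [Group G] [Finite G] (N : Subgroup G) [N.Normal] (P : Sylow 2 G)
    (hP : ∀ x ∈ (P : Subgroup G), x ^ 2 ∈ ((P : Subgroup G) ⊓ N) ⊔ ⁅(P : Subgroup G), (P : Subgroup G)⁆)
    (hQ : ∀ x ∈ (P : Subgroup G) ⊓ N, x ^ 2 ∈ ⁅(P : Subgroup G) ⊓ N, (P : Subgroup G) ⊓ N⁆)
    (hodd : Odd (Nat.card (Abelianization N))) :
    ∀ x ∈ (P : Subgroup G), x ^ 2 ∈ ⁅(P : Subgroup G), (P : Subgroup G)⁆ := by
  classical
  intro x hx
  obtain ⟨K, hK⟩ : ∃ K : Subgroup G, K = N ⊔ (P : Subgroup G) := ⟨_, rfl⟩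
  have hNK : N ≤ K := hK ▸ le_sup_left
  have hPK : (P : Subgroup G) ≤ K := hK ▸ le_sup_right
  have htop : N.subgroupOf K ⊔ (P : Subgroup G).subgroupOf K = ⊤ := by
    rw [← Subgroup.subgroupOf_sup hNK hPK, ← hK]
    exact Subgroup.subgroupOf_self K
  have hA2 : IsPGroup 2 (Abelianization ↥(P : Subgroup G)) :=
    (P.isPGroup').to_quotient (commutator ↥(P : Subgroup G))
  have hof : ∀ y : ↥(P : Subgroup G), (y : G) ∈ ⁅(P : Subgroup G), (P : Subgroup G)⁆ →
      (Abelianization.of y : Abelianization ↥(P : Subgroup G)) = 1 := by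
    intro y hy
    rw [← Subgroup.map_subtype_commutator] at hy
    obtain ⟨z, hz, hzy⟩ := hy
    have : z = y := Subtype.ext hzy
    rw [← this]
    exact (QuotientGroup.eq_one_iff z).mpr hz
  have hof' : ∀ y : ↥(P : Subgroup G),
      (Abelianization.of y : Abelianization ↥(P : Subgroup G)) = 1 →
      (y : G) ∈ ⁅(P : Subgroup G), (P : Subgroup G)⁆ := by
    intro y hy
    rw [← Subgroup.map_subtype_commutator]
    exact ⟨y, (QuotientGroup.eq_one_iff y).mp hy, rfl⟩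
  let e : ↥((P : Subgroup G).subgroupOf K) ≃* ↥(P : Subgroup G) :=
    Subgroup.subgroupOfEquivOfLe hPK
  have he : ∀ w : ↥((P : Subgroup G).subgroupOf K), ((e w : ↥(P : Subgroup G)) : G) = ((w : ↥K) : G) :=
    fun w => rfl
  let ϕ : ↥((P : Subgroup G).subgroupOf K) →* Abelianization ↥(P : Subgroup G) :=
    (Abelianization.of).comp e.toMonoidHom
  have hϕ : ∀ w : ↥((P : Subgroup G).subgroupOf K), ϕ w = Abelianization.of (e w) := fun w => rfl
  let T : ↥K →* Abelianization ↥(P : Subgroup G) := MonoidHom.transfer ϕ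
  -- `T` kills `N`
  have hTN : ∀ n : ↥K, (n : G) ∈ N → T n = 1 := by
    intro n hn
    let f : ↥N →* Abelianization ↥(P : Subgroup G) := T.comp (Subgroup.inclusion hNK)
    have hfn : f ⟨(n : G), hn⟩ = T n := rfl
    rw [← hfn]
    apply eq_one_of_two_odd hA2 _ _ hodd
    have h1 : Abelianization.lift f (Abelianization.of ⟨(n : G), hn⟩) = f ⟨(n : G), hn⟩ :=
      Abelianization.lift_apply_of f _
    rw [← h1, ← map_pow, pow_card_eq_one', map_one]
  have hTc : commutator ↥K ≤ T.ker := Abelianization.commutator_subset_ker T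
  have hker : ((P : Subgroup G) ⊓ N) ⊔ ⁅(P : Subgroup G), (P : Subgroup G)⁆ ≤ T.ker.map K.subtype := by
    apply sup_le
    · rintro q ⟨hqP, hqN⟩
      exact ⟨⟨q, hNK hqN⟩, hTN _ hqN, rfl⟩
    · calc ⁅(P : Subgroup G), (P : Subgroup G)⁆ ≤ ⁅K, K⁆ := Subgroup.commutator_mono hPK hPK
        _ = (commutator ↥K).map K.subtype := (Subgroup.map_subtype_commutator K).symm
        _ ≤ T.ker.map K.subtype := Subgroup.map_mono hTc
  have hu : (⟨x, hPK hx⟩ : ↥K) ∈ (P : Subgroup G).subgroupOf K := Subgroup.mem_subgroupOf.mpr hx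
  haveI : (N.subgroupOf K).Normal := Subgroup.Normal.subgroupOf inferInstance K
  obtain ⟨w, hw, hwz⟩ := transfer_core (N.subgroupOf K) ((P : Subgroup G).subgroupOf K) htop ϕ
    ⟨x, hPK hx⟩ hu
  have hwN : ((w : ↥K) : G) ∈ N := Subgroup.mem_subgroupOf.mp (Subgroup.mem_subgroupOf.mp hw)
  have hwP : ((w : ↥K) : G) ∈ (P : Subgroup G) := Subgroup.mem_subgroupOf.mp w.2
  -- `ϕ w` squares to one
  have hw2 : ϕ w ^ 2 = 1 := by
    rw [← map_pow, hϕ]
    apply hof
    rw [map_pow, Subgroup.coe_pow, he]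
    exact Subgroup.commutator_mono inf_le_left inf_le_left (hQ _ ⟨hwP, hwN⟩)
  -- `T u` squares to one
  have hT2 : T ⟨x, hPK hx⟩ ^ 2 = 1 := by
    obtain ⟨k, hk1, hk2⟩ := hker (hP x hx)
    have : (⟨x, hPK hx⟩ : ↥K) ^ 2 = k := Subtype.ext (by rw [Subgroup.coe_pow]; exact hk2.symm)
    rw [← map_pow, this]
    exact hk1
  have hTu : T ⟨x, hPK hx⟩ = ϕ w * ϕ ⟨⟨x, hPK hx⟩, hu⟩ ^ ((P : Subgroup G).subgroupOf K).index := by
    rw [hwz]
    change MonoidHom.transfer ϕ _ = _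
    rw [inv_mul_cancel_right]
  have hm : Odd ((P : Subgroup G).subgroupOf K).index := by
    have h1 : ((P : Subgroup G).subgroupOf K).index ∣ (P : Subgroup G).index :=
      Subgroup.relIndex_dvd_index_of_le hPK
    have h2 : ¬ 2 ∣ (P : Subgroup G).index := Sylow.not_dvd_index P
    rw [← Nat.not_even_iff_odd, even_iff_two_dvd]
    exact fun h => h2 (h.trans h1)
  have hfin : (ϕ ⟨⟨x, hPK hx⟩, hu⟩ ^ 2) ^ ((P : Subgroup G).subgroupOf K).index = 1 := by
    rw [hTu, mul_pow, hw2, one_mul, ← pow_mul, mul_comm, pow_mul] at hT2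
    exact hT2
  have h1 := eq_one_of_two_odd hA2 _ _ hm hfin
  rw [← map_pow, hϕ] at h1
  have h2 := hof' _ h1
  rw [map_pow, Subgroup.coe_pow, he] at h2
  exact h2

end Cfsg.Agent.S4582
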