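import Cfsg.Statements.S4583
import Cfsg.Agent.Helper24.RegBlock
import Cfsg.Agent.Helper7.ThirdMain
import Cfsg.Agent.Helper2.CharExtra
import Cfsg.Agent.Helper25.BlockBrauerMap

set_option autoImplicit false
open Cfsg

namespace Cfsg.Agent.S4583

open Cfsg.Agent.Helper25 Cfsg.Agent.Helper24 Cfsg.Agent.Helper7 Cfsg.Agent.Helper2
open scoped ComplexConjugate

/-- Let N be a normal subgroup of the finite group G, p a prime, M a maximal ideal of the algebraic integers containing p, and P a Sylow p-subgroup of G. Let θ be an irreducible character of N of degree prime to p lying in the principal p-block of N, and suppose θ extends to the subgroup NP (some irreducible character of NP restricts to θ). Then some irreducible character χ of G of degree prime to p in the principal p-block of G lies over θ (θ is a constituent of the restriction of χ to N). -/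
theorem result {G : Type*} [Group G] [Finite G] (N : Subgroup G) [N.Normal] (p : ℕ) [Fact p.Prime] (M : Ideal Cfsg.AlgInt) (hM : Cfsg.IsPModular p M) (P : Sylow p G)
    (θ : Cfsg.IrrCharacter N) (hθ : θ ∈ Cfsg.principalBlock M N) (hdeg : ¬ p ∣ Cfsg.charDegree (θ : N → ℂ))
    (hext : ∃ η : Cfsg.IrrCharacter ↥(N ⊔ (P : Subgroup G)), ∀ n : N, (η : ↥(N ⊔ (P : Subgroup G)) → ℂ) (Subgroup.inclusion le_sup_left n) = (θ : N → ℂ) n) :
    ∃ χ : Cfsg.IrrCharacter G, χ ∈ Cfsg.principalBlock M G ∧ ¬ p ∣ Cfsg.charDegree (χ : G → ℂ) ∧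
      haveI := Fintype.ofFinite N; Cfsg.classInner (fun n : N => (χ : G → ℂ) n) (θ : N → ℂ) ≠ 0 := by
  classical
  haveI : Fintype G := Fintype.ofFinite G
  obtain ⟨η, hη⟩ := hext
  haveI : Fintype ↥(N ⊔ (P : Subgroup G)) := Fintype.ofFinite _
  letI : Fintype N := Fintype.ofFinite N
  have hp := hM.1
  -- p-regular elements of H lie in N
  have hreg : ∀ h : ↥(N ⊔ (P : Subgroup G)), ¬ p ∣ orderOf h → (h : G) ∈ N := by
    intro h hh
    have hmem : (h : G) ∈ N ⊔ (P : Subgroup G) := h.2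
    rw [← SetLike.mem_coe, Subgroup.normal_mul] at hmem
    obtain ⟨n, hn, x, hx, hnx⟩ := Set.mem_mul.mp hmem
    obtain ⟨a, ha⟩ := P.2 ⟨x, hx⟩
    have hxa : x ^ p ^ a = 1 := by
      have := congrArg Subtype.val ha
      simpa using this
    have e : ((h : G) : G ⧸ N) = (x : G ⧸ N) := by
      rw [← hnx, QuotientGroup.mk_mul, (QuotientGroup.eq_one_iff n).mpr hn, one_mul]
    have e2 : ((((h : G) ^ p ^ a : G)) : G ⧸ N) = 1 := by
      rw [QuotientGroup.mk_pow, e, ← QuotientGroup.mk_pow, hxa, QuotientGroup.mk_one]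
    have e3 : (h : G) ^ p ^ a ∈ N := (QuotientGroup.eq_one_iff _).mp e2
    have hco : Nat.Coprime (p ^ a) (orderOf (h : G)) := by
      apply Nat.Coprime.pow_left
      rw [Nat.Prime.coprime_iff_not_dvd hp, Subgroup.orderOf_coe]
      exact hh
    obtain ⟨m, hm⟩ := exists_pow_eq_self_of_coprime hco
    rw [← hm]
    exact N.pow_mem e3 m
  -- the sum over H reduces to N
  have hsum : ∑ h : ↥(N ⊔ (P : Subgroup G)), regInd p ↥(N ⊔ (P : Subgroup G)) h *
      (η : ↥(N ⊔ (P : Subgroup G)) → ℂ) h = ∑ n : N, regInd p N n * (θ : N → ℂ) n := by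
    have hinj : Function.Injective (Subgroup.inclusion (le_sup_left : N ≤ N ⊔ (P : Subgroup G))) :=
      Subgroup.inclusion_injective _
    have h1 : ∑ n : N, regInd p N n * (θ : N → ℂ) n
        = ∑ n : N, regInd p ↥(N ⊔ (P : Subgroup G)) (Subgroup.inclusion le_sup_left n) *
            (η : ↥(N ⊔ (P : Subgroup G)) → ℂ) (Subgroup.inclusion le_sup_left n) := by
      apply Finset.sum_congr rfl
      intro n _
      rw [hη n, ← regInd_coe N n, ← regInd_coe (N ⊔ (P : Subgroup G)) (Subgroup.inclusion le_sup_left n)]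
      rfl
    rw [h1, ← Finset.sum_image (f := fun h => regInd p ↥(N ⊔ (P : Subgroup G)) h *
      (η : ↥(N ⊔ (P : Subgroup G)) → ℂ) h) (s := Finset.univ)
      (g := Subgroup.inclusion (le_sup_left : N ≤ N ⊔ (P : Subgroup G)))
      (fun a _ b _ hab => hinj hab)]
    symm
    apply Finset.sum_subset (Finset.subset_univ _)
    intro h _ hh
    have h2 : p ∣ orderOf h := by
      by_contra hreg'
      apply hh
      rw [Finset.mem_image]
      exact ⟨⟨(h : G), hreg h hreg'⟩, Finset.mem_univ _, Subtype.ext rfl⟩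
    rw [regInd_sing h2, zero_mul]
  -- the induced character
  set ψ : G → ℂ := Cfsg.indFun (N ⊔ (P : Subgroup G)) (η : ↥(N ⊔ (P : Subgroup G)) → ℂ) with hψ
  have hψcl : Cfsg.IsClassFunction G ψ := indFun_isClassFunction _ _
  have hψchar : Cfsg.IsCharacter G ψ := isCharacter_indFun _ (irr_isCharacter η)
  have hm : ∀ χ : Cfsg.IrrCharacter G, ∃ m : ℕ, Cfsg.classInner ψ (χ : G → ℂ) = (m : ℂ) :=
    fun χ => classInner_char_nat hψchar (irr_isCharacter χ)
  choose m hm using hm
  have hdecomp : ∀ g : G, ψ g = ∑ χ : Cfsg.IrrCharacter G, (m χ : ℂ) * (χ : G → ℂ) g := by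
    intro g
    have h1 := congrFun (classFun_eq_sum_classInner hψcl) g
    rw [Finset.sum_apply] at h1
    rw [h1]
    apply Finset.sum_congr rfl
    intro χ _
    rw [Pi.smul_apply, smul_eq_mul, hm]
  -- Frobenius reciprocity against the indicator of the p-regular elements
  have hfrob : ∑ g : G, regInd p G g * ψ g = ((N ⊔ (P : Subgroup G)).index : ℂ) *
      ∑ h : ↥(N ⊔ (P : Subgroup G)), regInd p ↥(N ⊔ (P : Subgroup G)) h *
        (η : ↥(N ⊔ (P : Subgroup G)) → ℂ) h := by
    have hregcl : Cfsg.IsClassFunction G (regInd p G) := fun g x => regInd_conj g x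
    have h1 := frobenius_reciprocity (N ⊔ (P : Subgroup G)) (η : ↥(N ⊔ (P : Subgroup G)) → ℂ)
      (regInd p G) hregcl
    unfold Cfsg.classInner at h1
    have hconj : ∀ g : G, conj (regInd p G g) = regInd p G g := by
      intro g
      by_cases h : p ∣ orderOf g
      · rw [regInd_sing h, map_zero]
      · rw [regInd_reg h, map_one]
    simp only [hconj] at h1
    have hG : (Nat.card G : ℂ) ≠ 0 := card_ne_zero
    have hH : (Nat.card ↥(N ⊔ (P : Subgroup G)) : ℂ) ≠ 0 := card_ne_zero
    have hidx : ((N ⊔ (P : Subgroup G)).index : ℂ) * (Nat.card ↥(N ⊔ (P : Subgroup G)) : ℂ)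
        = (Nat.card G : ℂ) := by
      exact_mod_cast (N ⊔ (P : Subgroup G)).index_mul_card
    have e1 : ∑ g : G, regInd p G g * ψ g = ∑ g : G, ψ g * regInd p G g :=
      Finset.sum_congr rfl (fun g _ => mul_comm _ _)
    have e2 : ∑ h : ↥(N ⊔ (P : Subgroup G)), regInd p ↥(N ⊔ (P : Subgroup G)) h *
        (η : ↥(N ⊔ (P : Subgroup G)) → ℂ) h
        = ∑ h : ↥(N ⊔ (P : Subgroup G)), (η : ↥(N ⊔ (P : Subgroup G)) → ℂ) h * regInd p G (h : G) :=
      Finset.sum_congr rfl (fun h _ => by rw [mul_comm, regInd_coe])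
    rw [e1, e2]
    have h2 : ∑ g : G, ψ g * regInd p G g = (Nat.card G : ℂ) *
        ((Nat.card ↥(N ⊔ (P : Subgroup G)) : ℂ)⁻¹ *
          ∑ h : ↥(N ⊔ (P : Subgroup G)), (η : ↥(N ⊔ (P : Subgroup G)) → ℂ) h * regInd p G (h : G)) := by
      rw [← h1, ← mul_assoc, mul_inv_cancel₀ hG, one_mul]
    rw [h2, ← hidx]
    field_simp
  have hexp : ∑ g : G, regInd p G g * ψ g = ∑ χ : Cfsg.IrrCharacter G,
      (m χ : ℂ) * ((χ : G → ℂ) 1 * omega (regInd p G) χ) := by
    calc ∑ g : G, regInd p G g * ψ g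
        = ∑ g : G, ∑ χ : Cfsg.IrrCharacter G, (m χ : ℂ) * (regInd p G g * (χ : G → ℂ) g) := by
          apply Finset.sum_congr rfl
          intro g _
          rw [hdecomp g, Finset.mul_sum]
          apply Finset.sum_congr rfl
          intro χ _
          ring
      _ = ∑ χ : Cfsg.IrrCharacter G, ∑ g : G, (m χ : ℂ) * (regInd p G g * (χ : G → ℂ) g) :=
          Finset.sum_comm
      _ = _ := by
          apply Finset.sum_congr rfl
          intro χ _
          rw [← Finset.mul_sum]
          unfold omega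
          have := irr_one_ne_zero χ
          field_simp
  have hnotli : ¬ Cfsg.MemLocalIdeal M (∑ g : G, regInd p G g * ψ g) := by
    rw [hfrob, hsum]
    have e : ∑ n : N, regInd p N n * (θ : N → ℂ) n = (θ : N → ℂ) 1 * omega (regInd p N) θ := by
      unfold omega
      have := irr_one_ne_zero θ
      field_simp
    rw [e]
    intro hli
    have hidx : ¬ p ∣ (N ⊔ (P : Subgroup G)).index := by
      intro hdvd
      exact P.not_dvd_index (dvd_trans hdvd (Subgroup.index_dvd_of_le le_sup_right))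
    have h1 := li_of_mul_left hM (lr_natCast hM _) (fun h => hidx ((li_natCast_iff hM _).mp h)) hli
    rw [irr_one_eq_degree] at h1
    have h2 := li_of_mul_left hM (lr_natCast hM _) (fun h => hdeg ((li_natCast_iff hM _).mp h)) h1
    exact not_li_omega_regInd hM hθ h2
  rw [hexp] at hnotli
  have hex : ∃ χ : Cfsg.IrrCharacter G,
      ¬ Cfsg.MemLocalIdeal M ((m χ : ℂ) * ((χ : G → ℂ) 1 * omega (regInd p G) χ)) := by
    by_contra hno
    push Not at hno
    exact hnotli (li_sum hM _ _ (fun χ _ => hno χ))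
  obtain ⟨χ, hχ⟩ := hex
  refine ⟨χ, ?_, ?_, ?_⟩
  · by_contra hnot
    rw [omega_regInd_of_not_mem hM hnot, mul_zero, mul_zero] at hχ
    exact hχ (li_zero hM)
  · intro hdvd
    apply hχ
    rw [irr_one_eq_degree]
    have hω : Cfsg.MemLocalRing M (omega (regInd p G) χ) :=
      lr_omega_of_lr hM (regInd p G) regInd_conj (regInd_lr hM) χ
    exact lr_mul_li hM (lr_natCast hM _) (li_mul_lr hM ((li_natCast_iff hM _).mpr hdvd) hω)
  · have hm0 : m χ ≠ 0 := by
      intro h
      rw [h] at hχ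
      simp only [Nat.cast_zero, zero_mul] at hχ
      exact hχ (li_zero hM)
    -- restriction of χ to H
    set φH : ↥(N ⊔ (P : Subgroup G)) → ℂ := fun h => (χ : G → ℂ) h with hφH
    have hφHchar : Cfsg.IsCharacter ↥(N ⊔ (P : Subgroup G)) φH :=
      isCharacter_restrict _ (irr_isCharacter χ)
    have hφHcl : Cfsg.IsClassFunction ↥(N ⊔ (P : Subgroup G)) φH :=
      isClassFunction_of_isCharacter hφHchar
    have hc : ∀ ξ : Cfsg.IrrCharacter ↥(N ⊔ (P : Subgroup G)),
        ∃ c : ℕ, Cfsg.classInner φH (ξ : ↥(N ⊔ (P : Subgroup G)) → ℂ) = (c : ℂ) :=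
      fun ξ => classInner_char_nat hφHchar (irr_isCharacter ξ)
    choose c hc using hc
    have hcη : c η = m χ := by
      have h1 : Cfsg.classInner (η : ↥(N ⊔ (P : Subgroup G)) → ℂ) φH = (m χ : ℂ) := by
        rw [← frobenius_reciprocity (N ⊔ (P : Subgroup G)) (η : ↥(N ⊔ (P : Subgroup G)) → ℂ)
          (χ : G → ℂ) (Cfsg.Agent.Helper1.isClassFunction_irr χ)]
        exact hm χ
      have h2 := classInner_conj_symm (η : ↥(N ⊔ (P : Subgroup G)) → ℂ) φH
      rw [h1, hc η, Complex.conj_natCast] at h2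
      exact_mod_cast h2
    have ha : ∀ ξ : Cfsg.IrrCharacter ↥(N ⊔ (P : Subgroup G)),
        ∃ a : ℕ, Cfsg.classInner (fun n : N => (ξ : ↥(N ⊔ (P : Subgroup G)) → ℂ)
          (Subgroup.inclusion le_sup_left n)) (θ : N → ℂ) = (a : ℂ) :=
      fun ξ => classInner_char_nat
        (isCharacter_comp (Subgroup.inclusion (le_sup_left : N ≤ N ⊔ (P : Subgroup G)))
          (irr_isCharacter ξ)) (irr_isCharacter θ)
    choose a ha using ha
    have haη : a η = 1 := by
      have h1 := ha η
      have h2 : (fun n : N => (η : ↥(N ⊔ (P : Subgroup G)) → ℂ)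
          (Subgroup.inclusion le_sup_left n)) = (θ : N → ℂ) := funext hη
      rw [h2, classInner_irr_irr, if_pos rfl] at h1
      exact_mod_cast h1.symm
    have hres : (fun n : N => (χ : G → ℂ) n) = ∑ ξ : Cfsg.IrrCharacter ↥(N ⊔ (P : Subgroup G)),
        (c ξ : ℂ) • (fun n : N => (ξ : ↥(N ⊔ (P : Subgroup G)) → ℂ)
          (Subgroup.inclusion le_sup_left n)) := by
      funext n
      have h1 := congrFun (classFun_eq_sum_classInner hφHcl) (Subgroup.inclusion le_sup_left n)
      rw [Finset.sum_apply] at h1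
      rw [Finset.sum_apply]
      have h2 : φH (Subgroup.inclusion le_sup_left n) = (χ : G → ℂ) n := rfl
      rw [← h2, h1]
      apply Finset.sum_congr rfl
      intro ξ _
      rw [Pi.smul_apply, Pi.smul_apply, hc]
    have hfin : Cfsg.classInner (fun n : N => (χ : G → ℂ) n) (θ : N → ℂ)
        = ((∑ ξ : Cfsg.IrrCharacter ↥(N ⊔ (P : Subgroup G)), c ξ * a ξ : ℕ) : ℂ) := by
      rw [hres, classInner_sum_left]
      push_cast
      apply Finset.sum_congr rfl
      intro ξ _
      rw [classInner_smul_left, ha]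
    have hpos : 1 ≤ ∑ ξ : Cfsg.IrrCharacter ↥(N ⊔ (P : Subgroup G)), c ξ * a ξ := by
      have h1 : c η * a η ≤ ∑ ξ : Cfsg.IrrCharacter ↥(N ⊔ (P : Subgroup G)), c ξ * a ξ :=
        Finset.single_le_sum (f := fun ξ => c ξ * a ξ) (fun _ _ => Nat.zero_le _)
          (Finset.mem_univ η)
      rw [hcη, haη, mul_one] at h1
      have : 1 ≤ m χ := Nat.one_le_iff_ne_zero.mpr hm0
      omega
    show Cfsg.classInner (fun n : N => (χ : G → ℂ) n) (θ : N → ℂ) ≠ 0
    rw [hfin]
    exact_mod_cast (by omega : (∑ ξ : Cfsg.IrrCharacter ↥(N ⊔ (P : Subgroup G)), c ξ * a ξ) ≠ 0)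

end Cfsg.Agent.S4583
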