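import Cfsg.Statements.S4602
import Mathlib
import Cfsg.Agent.Helper13.PSolv
-- import your own Cfsg.Agent.* helpers here

set_option autoImplicit false
open Cfsg

namespace Cfsg.Agent.S4602


theorem fwd {G : Type*} [Group G] [Finite G] (p q : ℕ) [Fact p.Prime] [Fact q.Prime]
    (hpq : p ≠ q) (hsolv : Cfsg.IsPSolvable p G) (P : Sylow p G) (Q : Sylow q G)
    (hPQ : (P : Subgroup G) ≤ Subgroup.normalizer ((Q : Subgroup G) : Set G)) :
    ¬ q ∣ (Cfsg.pPrimeCore p G).index := by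
  intro hq
  have hsolvq : Cfsg.IsPSolvable p (G ⧸ Cfsg.pPrimeCore p G) :=
    Cfsg.Agent.Helper13.isPSolvable_quotient hsolv (Cfsg.pPrimeCore p G)
  have hbot : Cfsg.pPrimeCore p (G ⧸ Cfsg.pPrimeCore p G) = ⊥ :=
    Cfsg.Agent.Helper10.pPrimeCore_quotient p G
  have hcent := Cfsg.Agent.Helper13.centralizer_pCore_le_of_isPSolvable hsolvq hbot
  have hRp : IsPGroup p (Cfsg.pCore p (G ⧸ Cfsg.pPrimeCore p G)) :=
    Cfsg.Agent.S0010.pCore_isPGroup p
  have hsurj : Function.Surjective (QuotientGroup.mk' (Cfsg.pPrimeCore p G)) :=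
    QuotientGroup.mk'_surjective _
  have hRP : Cfsg.pCore p (G ⧸ Cfsg.pPrimeCore p G) ≤
      (P : Subgroup G).map (QuotientGroup.mk' (Cfsg.pPrimeCore p G)) :=
    hRp.le_sylow_of_normal (P.mapSurjective hsurj)
  have hQq : IsPGroup q ↥((Q : Subgroup G).map (QuotientGroup.mk' (Cfsg.pPrimeCore p G))) :=
    Q.isPGroup'.map _
  have hdisj := IsPGroup.disjoint_of_ne p q hpq _ _ hRp hQq
  have hQK : (Q : Subgroup G) ≤ Cfsg.pPrimeCore p G := by
    intro x hx
    rw [← QuotientGroup.eq_one_iff (N := Cfsg.pPrimeCore p G) x]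
    have hxQ : (QuotientGroup.mk x : G ⧸ Cfsg.pPrimeCore p G) ∈
        (Q : Subgroup G).map (QuotientGroup.mk' (Cfsg.pPrimeCore p G)) := ⟨x, hx, rfl⟩
    have hxc : (QuotientGroup.mk x : G ⧸ Cfsg.pPrimeCore p G) ∈
        Subgroup.centralizer (Cfsg.pCore p (G ⧸ Cfsg.pPrimeCore p G) : Set _) := by
      rw [Subgroup.mem_centralizer_iff]
      intro r hr
      obtain ⟨y, hyP, rfl⟩ := hRP hr
      have hyN := hPQ hyP
      have h1 : y * x * y⁻¹ ∈ (Q : Subgroup G) := (Subgroup.mem_normalizer_iff.mp hyN x).mp hx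
      have h2 : (QuotientGroup.mk' (Cfsg.pPrimeCore p G) y) * (QuotientGroup.mk x) *
          (QuotientGroup.mk' (Cfsg.pPrimeCore p G) y)⁻¹ * (QuotientGroup.mk x)⁻¹ ∈
          (Q : Subgroup G).map (QuotientGroup.mk' (Cfsg.pPrimeCore p G)) :=
        ⟨y * x * y⁻¹ * x⁻¹, mul_mem h1 (inv_mem hx), by simp⟩
      have h3 : (QuotientGroup.mk' (Cfsg.pPrimeCore p G) y) * (QuotientGroup.mk x) *
          (QuotientGroup.mk' (Cfsg.pPrimeCore p G) y)⁻¹ * (QuotientGroup.mk x)⁻¹ ∈
          Cfsg.pCore p (G ⧸ Cfsg.pPrimeCore p G) := by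
        have hn : (Cfsg.pCore p (G ⧸ Cfsg.pPrimeCore p G)).Normal := inferInstance
        have h4 := hn.conj_mem _ (inv_mem hr) (QuotientGroup.mk x)
        have h5 := mul_mem hr h4
        have e1 : (QuotientGroup.mk' (Cfsg.pPrimeCore p G) y) * (QuotientGroup.mk x) *
          (QuotientGroup.mk' (Cfsg.pPrimeCore p G) y)⁻¹ * (QuotientGroup.mk x)⁻¹ =
          (QuotientGroup.mk' (Cfsg.pPrimeCore p G) y) * ((QuotientGroup.mk x) *
          (QuotientGroup.mk' (Cfsg.pPrimeCore p G) y)⁻¹ * (QuotientGroup.mk x)⁻¹) := by group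
        rw [e1]; exact h5
      have h6 := Subgroup.disjoint_def.mp hdisj h3 h2
      have e2 : (QuotientGroup.mk' (Cfsg.pPrimeCore p G) y) * (QuotientGroup.mk x) =
          (QuotientGroup.mk x) * (QuotientGroup.mk' (Cfsg.pPrimeCore p G) y) := by
        have e3 := mul_inv_eq_one.mp h6
        exact mul_inv_eq_iff_eq_mul.mp e3
      exact e2
    exact Subgroup.disjoint_def.mp hdisj (hcent hxc) hxQ
  exact Q.not_dvd_index (hq.trans (Subgroup.index_dvd_of_le hQK))

theorem bwd {G : Type*} [Group G] [Finite G] (p q : ℕ) [Fact p.Prime] [Fact q.Prime]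
    (hq : ¬ q ∣ (Cfsg.pPrimeCore p G).index) :
    ∃ (P : Sylow p G) (Q : Sylow q G),
      (P : Subgroup G) ≤ Subgroup.normalizer ((Q : Subgroup G) : Set G) := by
  classical
  have hp : p.Prime := Fact.out
  have hqp : q.Prime := Fact.out
  obtain ⟨P, -⟩ : ∃ P : Sylow p G, True := ⟨default, trivial⟩
  obtain ⟨Q₀, -⟩ : ∃ Q : Sylow q G, True := ⟨default, trivial⟩
  have hKc : (Nat.card (Cfsg.pPrimeCore p G)).Coprime p := Cfsg.Agent.Helper10.pPrimeCore_coprime p G
  have hQK : (Q₀ : Subgroup G) ≤ Cfsg.pPrimeCore p G := by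
    intro x hx
    rw [← QuotientGroup.eq_one_iff (N := Cfsg.pPrimeCore p G) x, ← orderOf_eq_one_iff]
    obtain ⟨k, hk⟩ := (IsPGroup.iff_orderOf.mp Q₀.isPGroup') ⟨x, hx⟩
    have hk' : orderOf x = q ^ k := by rw [← hk, Subgroup.orderOf_mk]
    have d1 : orderOf (QuotientGroup.mk x : G ⧸ Cfsg.pPrimeCore p G) ∣ q ^ k := by
      rw [← hk']
      exact orderOf_map_dvd (QuotientGroup.mk' (Cfsg.pPrimeCore p G)) x
    have d2 : orderOf (QuotientGroup.mk x : G ⧸ Cfsg.pPrimeCore p G) ∣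
        (Cfsg.pPrimeCore p G).index := orderOf_dvd_natCard _
    have hc : Nat.Coprime (q ^ k) (Cfsg.pPrimeCore p G).index :=
      Nat.Coprime.pow_left k ((Nat.Prime.coprime_iff_not_dvd hqp).mpr hq)
    exact Nat.eq_one_of_dvd_coprimes hc d1 d2
  have hsup : Subgroup.normalizer ((Q₀ : Subgroup G) : Set G) ⊔ Cfsg.pPrimeCore p G = ⊤ :=
    Sylow.normalizer_sup_eq_top' Q₀ hQK
  have hidx : (Subgroup.normalizer ((Q₀ : Subgroup G) : Set G)).index ∣
      Nat.card (Cfsg.pPrimeCore p G) := by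
    have h1 : (Cfsg.pPrimeCore p G).index =
        (Cfsg.pPrimeCore p G).relIndex (Subgroup.normalizer ((Q₀ : Subgroup G) : Set G)) := by
      rw [← Subgroup.relIndex_sup_right, hsup, Subgroup.relIndex_top_right]
    have h2 := (Cfsg.pPrimeCore p G).card_mul_index
    have h3 := (Subgroup.normalizer ((Q₀ : Subgroup G) : Set G)).card_mul_index
    have h4 := ((Cfsg.pPrimeCore p G).subgroupOf
      (Subgroup.normalizer ((Q₀ : Subgroup G) : Set G))).card_mul_index
    have h5 : ((Cfsg.pPrimeCore p G).subgroupOf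
      (Subgroup.normalizer ((Q₀ : Subgroup G) : Set G))).index =
      (Cfsg.pPrimeCore p G).relIndex (Subgroup.normalizer ((Q₀ : Subgroup G) : Set G)) := rfl
    rw [h5, ← h1] at h4
    have hpos : 0 < (Cfsg.pPrimeCore p G).index := Nat.pos_of_ne_zero Subgroup.index_ne_zero_of_finite
    refine ⟨Nat.card ↥((Cfsg.pPrimeCore p G).subgroupOf
      (Subgroup.normalizer ((Q₀ : Subgroup G) : Set G))), ?_⟩
    apply Nat.eq_of_mul_eq_mul_right hpos
    rw [h2, ← h3, ← h4]
    ring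
  have hnd : ¬ p ∣ Nat.card (Sylow q G) := by
    rw [Sylow.card_eq_index_normalizer Q₀]
    intro hd
    have h1 : p ∣ Nat.card (Cfsg.pPrimeCore p G) := hd.trans hidx
    exact (Nat.Prime.coprime_iff_not_dvd hp).mp hKc.symm h1
  obtain ⟨Q, hQ⟩ := P.isPGroup'.nonempty_fixed_point_of_prime_not_dvd_card (Sylow q G) hnd
  exact ⟨P, Q, (Subgroup.sylow_mem_fixedPoints_iff (P : Subgroup G)).mp hQ⟩



/-- Let G be a finite p-solvable group and q a prime different from p. Some Sylow p-subgroup of G normalizes some Sylow q-subgroup of G if and only if q does not divide the order of G/O_{p'}(G), the quotient by the largest normal subgroup of order prime to p. -/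
theorem result {G : Type*} [Group G] [Finite G] (p q : ℕ) [Fact p.Prime] [Fact q.Prime] (hpq : p ≠ q) (hsolv : Cfsg.IsPSolvable p G) :
    (∃ (P : Sylow p G) (Q : Sylow q G), (P : Subgroup G) ≤ Subgroup.normalizer ((Q : Subgroup G) : Set G)) ↔ ¬ q ∣ (Cfsg.pPrimeCore p G).index := by
  constructor
  · rintro ⟨P, Q, hPQ⟩
    exact fwd p q hpq hsolv P Q hPQ
  · intro hq
    exact bwd p q hq

end Cfsg.Agent.S4602
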