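import Cfsg.Statements.S4604
import Mathlib
import Cfsg.Agent.S0876
import Cfsg.Agent.S0165
import Cfsg.Agent.Helper25.CharMore

set_option autoImplicit false
open Cfsg

namespace Cfsg.Agent.S4604

open Cfsg

/-- Frobenius: the `p^n`-th power of a finite sum is the sum of the `p^n`-th powers modulo `p`. -/
theorem sum_pow_prime_pow {R : Type*} [CommRing R] {p : ℕ} (hp : p.Prime) {ι : Type*}
    (s : Finset ι) (m : ι → R) (n : ℕ) :
    ∃ γ : R, (∑ i ∈ s, m i) ^ p ^ n = ∑ i ∈ s, m i ^ p ^ n + p * γ := by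
  classical
  induction s using Finset.induction_on with
  | empty =>
    refine ⟨0, ?_⟩
    have : p ^ n ≠ 0 := pow_ne_zero _ hp.ne_zero
    rw [Finset.sum_empty, Finset.sum_empty, mul_zero, add_zero, zero_pow this]
  | insert j s hj ih =>
    obtain ⟨γ, hγ⟩ := ih
    obtain ⟨r, hr⟩ := exists_add_pow_prime_pow_eq hp (m j) (∑ i ∈ s, m i) n
    refine ⟨γ + m j * (∑ i ∈ s, m i) * r, ?_⟩
    rw [Finset.sum_insert hj, Finset.sum_insert hj, hr, hγ]
    ring

/-- `χ(u v)^(p^n) ≡ χ(v)^(p^n)` modulo `p` for a `p`-element `u` of order dividing `p^n` commuting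
with the `p`-regular element `v`. -/
theorem char_pow_congr {G : Type*} [Group G] [Finite G] {p : ℕ} (hp : p.Prime)
    (χ : IrrCharacter G) (u v : G) (hc : Commute u v) (k : ℕ) (hu : orderOf u = p ^ k)
    (hr : ¬ p ∣ orderOf v) (n : ℕ) (hkn : k ≤ n) :
    ∃ γ : AlgInt, (χ : G → ℂ) (u * v) ^ p ^ n - (χ : G → ℂ) v ^ p ^ n = (p : ℂ) * (γ : ℂ) := by
  classical
  obtain ⟨ι, _, μ, δ, -, hμ, hpow, -⟩ := Helper25.irr_eigenvalues χ (u * v)
  obtain ⟨r, hrdef⟩ : ∃ r : ℕ, r = orderOf v := ⟨_, rfl⟩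
  have hrpos : 0 < r := by rw [hrdef]; exact orderOf_pos v
  have hcopr : Nat.Coprime (p ^ k) r := by
    apply Nat.Coprime.pow_left
    rw [Nat.Prime.coprime_iff_not_dvd hp, hrdef]
    exact hr
  obtain ⟨j, hj⟩ : ∃ j : ℕ, p ^ k ∣ 1 + r * j := by
    obtain ⟨t, ht1, ht2⟩ := Nat.chineseRemainder hcopr 0 1
    have h1 : 1 ≤ t + p ^ k * r := by
      have : 0 < p ^ k * r := Nat.mul_pos (pow_pos hp.pos k) hrpos
      omega
    have h2 : 1 ≡ t + p ^ k * r [MOD r] := by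
      have h3 : t + p ^ k * r ≡ 1 + 0 [MOD r] :=
        ht2.add ((Nat.modEq_zero_iff_dvd).mpr (Dvd.intro_left _ rfl))
      exact h3.symm
    obtain ⟨j, hj⟩ := (Nat.modEq_iff_dvd' h1).mp h2
    refine ⟨j, ?_⟩
    have h4 : 1 + r * j = t + p ^ k * r := by omega
    rw [h4]
    exact Dvd.dvd.add ((Nat.modEq_zero_iff_dvd).mp ht1) (Dvd.intro _ rfl)
  have hx1 : (u * v) ^ (1 + r * j) = v := by
    rw [hc.mul_pow]
    have h1 : u ^ (1 + r * j) = 1 := orderOf_dvd_iff_pow_eq_one.mp (hu ▸ hj)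
    have h2 : v ^ (1 + r * j) = v := by
      rw [pow_add, pow_one, pow_mul, hrdef, pow_orderOf_eq_one, one_pow, mul_one]
    rw [h1, h2, one_mul]
  have hx2 : (u * v) ^ (r * j * p ^ k) = 1 := by
    rw [hc.mul_pow]
    have h1 : u ^ (r * j * p ^ k) = 1 := by
      rw [mul_comm, pow_mul, ← hu, pow_orderOf_eq_one, one_pow]
    have h2 : v ^ (r * j * p ^ k) = 1 := by
      rw [mul_assoc, pow_mul, hrdef, pow_orderOf_eq_one, one_pow]
    rw [h1, h2, one_mul]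
  have hμ2 : ∀ i, (μ i ^ (r * j)) ^ (p ^ k) = 1 := by
    intro i
    rw [← pow_mul]
    obtain ⟨s, hs⟩ := orderOf_dvd_of_pow_eq_one hx2
    rw [hs, pow_mul, hμ i, one_pow]
  have hint : ∀ i, μ i ∈ AlgInt := by
    intro i
    exact IsIntegral.of_pow (orderOf_pos (u * v)) (by rw [hμ i]; exact isIntegral_one)
  have h1 : (χ : G → ℂ) (u * v) = ∑ i, μ i := by
    have := hpow 1
    simpa using this
  have h2 : (χ : G → ℂ) v = ∑ i, μ i ^ (1 + r * j) := by
    rw [← hpow, hx1]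
  obtain ⟨γ₁, hγ₁⟩ := sum_pow_prime_pow hp Finset.univ (fun i => (⟨μ i, hint i⟩ : AlgInt)) n
  obtain ⟨γ₂, hγ₂⟩ := sum_pow_prime_pow hp Finset.univ
    (fun i => (⟨μ i, hint i⟩ : AlgInt) ^ (1 + r * j)) n
  have e1 := congrArg (Subtype.val : AlgInt → ℂ) hγ₁
  have e2 := congrArg (Subtype.val : AlgInt → ℂ) hγ₂
  push_cast at e1 e2
  refine ⟨γ₁ - γ₂, ?_⟩
  rw [h1, h2]
  push_cast
  have e3 : ∀ i, (μ i ^ (1 + r * j)) ^ p ^ n = μ i ^ p ^ n := by
    intro i
    have h5 : (μ i ^ (r * j)) ^ p ^ n = 1 := by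
      obtain ⟨d, hd⟩ := Nat.exists_eq_add_of_le hkn
      rw [hd, pow_add, pow_mul, hμ2 i, one_pow]
    rw [pow_add, pow_one, mul_pow, h5, mul_one]
  have e4 : ∑ i, (μ i ^ (1 + r * j)) ^ p ^ n = ∑ i, μ i ^ p ^ n :=
    Finset.sum_congr rfl (fun i _ => e3 i)
  rw [e1, e2, e4]
  ring

/-- Let G be a finite group, p a prime and p^a the p-part of the order of G. Let x, y ∈ G and let x′, y′ be their p-regular parts: x′ has order prime to p, commutes with x·x′⁻¹, and x·x′⁻¹ has p-power order (likewise for y). Then x′ and y′ are conjugate in G if and only if for every irreducible character χ of G the algebraic integer χ(x)^(p^a) − χ(y)^(p^a) is p times an algebraic integer. -/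
theorem result {G : Type*} [Group G] [Finite G] (p : ℕ) [Fact p.Prime] (x y x' y' : G)
    (hx : (∃ k : ℕ, orderOf (x * x'⁻¹) = p ^ k) ∧ Commute (x * x'⁻¹) x' ∧ ¬ p ∣ orderOf x')
    (hy : (∃ k : ℕ, orderOf (y * y'⁻¹) = p ^ k) ∧ Commute (y * y'⁻¹) y' ∧ ¬ p ∣ orderOf y') :
    IsConj x' y' ↔ ∀ χ : Cfsg.IrrCharacter G, ∃ γ : Cfsg.AlgInt,
      (χ : G → ℂ) x ^ (p ^ (Nat.card G).factorization p) - (χ : G → ℂ) y ^ (p ^ (Nat.card G).factorization p) = (p : ℂ) * (γ : ℂ) := by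
  classical
  have hp : p.Prime := Fact.out
  have hG0 : Nat.card G ≠ 0 := Nat.card_pos.ne'
  obtain ⟨⟨kx, hkx⟩, hxc, hxr⟩ := hx
  obtain ⟨⟨ky, hky⟩, hyc, hyr⟩ := hy
  have hkle : ∀ (u : G) (k : ℕ), orderOf u = p ^ k → k ≤ (Nat.card G).factorization p := by
    intro u k hu
    have h1 : p ^ k ∣ Nat.card G := hu ▸ orderOf_dvd_natCard u
    exact (Nat.Prime.pow_dvd_iff_le_factorization hp hG0).mp h1
  have ex : x * x'⁻¹ * x' = x := by group
  have ey : y * y'⁻¹ * y' = y := by group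
  constructor
  · intro hconj χ
    obtain ⟨γ₁, h1⟩ := char_pow_congr hp χ (x * x'⁻¹) x' hxc kx hkx hxr _ (hkle _ _ hkx)
    obtain ⟨γ₂, h2⟩ := char_pow_congr hp χ (y * y'⁻¹) y' hyc ky hky hyr _ (hkle _ _ hky)
    rw [ex] at h1
    rw [ey] at h2
    have h3 : (χ : G → ℂ) x' = (χ : G → ℂ) y' :=
      Helper25.char_of_isConj (Helper25.irr_isCharacter χ) hconj
    refine ⟨γ₁ - γ₂, ?_⟩
    push_cast
    rw [mul_sub, ← h1, ← h2, h3]
    ring
  · intro hall
    obtain ⟨M, hM⟩ := Cfsg.Agent.S0165.exists_modular p hp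
    have hPx : IsPPart p x (x * x'⁻¹) := ⟨x', ex, hxc, ⟨kx, hkx⟩, hxr⟩
    have hPy : IsPPart p y (y * y'⁻¹) := ⟨y', ey, hyc, ⟨ky, hky⟩, hyr⟩
    have key := (Cfsg.Agent.S0876.result p M hM x y (x * x'⁻¹) (y * y'⁻¹) hPx hPy).mpr
    have e1 : (x * x'⁻¹)⁻¹ * x = x' := by group
    have e2 : (y * y'⁻¹)⁻¹ * y = y' := by group
    rw [e1, e2] at key
    apply key
    intro χ
    obtain ⟨γ, hγ⟩ := hall χ
    haveI : M.IsPrime := hM.2.1.isPrime
    obtain ⟨A, hA⟩ : ∃ A : AlgInt, (A : ℂ) = (χ : G → ℂ) x := ⟨⟨_, Helper25.irr_isIntegral χ x⟩, rfl⟩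
    obtain ⟨B, hB⟩ : ∃ B : AlgInt, (B : ℂ) = (χ : G → ℂ) y := ⟨⟨_, Helper25.irr_isIntegral χ y⟩, rfl⟩
    obtain ⟨q, hq⟩ : ∃ q : ℕ, q = (Nat.card G).factorization p := ⟨_, rfl⟩
    rw [← hq] at hγ
    have hγ' : A ^ p ^ q - B ^ p ^ q = (p : AlgInt) * γ := by
      apply Subtype.ext
      push_cast
      rw [hA, hB]
      exact hγ
    obtain ⟨r, hr⟩ := exists_add_pow_prime_pow_eq hp A (-B) q
    have hneg : ∃ c : AlgInt, (-B) ^ p ^ q = -(B ^ p ^ q) + (p : AlgInt) * c := by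
      rcases Nat.even_or_odd (p ^ q) with he | ho
      · have hp2 : p = 2 := by
          have h1 : Even p := by
            by_contra hne
            exact (Nat.not_even_iff_odd.mpr (Odd.pow (Nat.not_even_iff_odd.mp hne))) he
          exact (Nat.Prime.even_iff hp).mp h1
        refine ⟨B ^ p ^ q, ?_⟩
        rw [he.neg_pow, hp2]
        push_cast
        ring
      · refine ⟨0, ?_⟩
        rw [ho.neg_pow]
        ring
    obtain ⟨c, hc⟩ := hneg
    have hmem : (A - B) ^ p ^ q ∈ M := by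
      have e : (A - B) ^ p ^ q = (p : AlgInt) * (γ + c + A * (-B) * r) := by
        rw [sub_eq_add_neg, hr, hc]
        have : A ^ p ^ q = B ^ p ^ q + (p : AlgInt) * γ := by rw [← hγ']; ring
        rw [this]
        ring
      rw [e]
      exact M.mul_mem_right _ hM.2.2
    have hAB : A - B ∈ M := Ideal.IsPrime.mem_of_pow_mem inferInstance _ hmem
    have := Helper25.li_of_mem hM hAB
    rw [← hA, ← hB]
    simpa using this

end Cfsg.Agent.S4604
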