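import Cfsg.Statements.S4611
import Mathlib
import Cfsg.Agent.Helper25.BlockFong
import Cfsg.Agent.Helper24.SelfCent
import Cfsg.Agent.Helper10.PCons
import Cfsg.Agent.Helper10.FStar
import Cfsg.Agent.S0010

set_option autoImplicit false
open Cfsg

namespace Cfsg.Agent.S4611

open Cfsg.Agent.Helper25 Cfsg.Agent.Helper24 in
theorem mem_principalBlock_of_solvable {G : Type*} [Group G] [Finite G] [Group.IsSolvable G]
    {p : ℕ} {M : Ideal Cfsg.AlgInt} (hM : Cfsg.IsPModular p M) (χ : Cfsg.IrrCharacter G)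
    (hχ : Cfsg.pPrimeCore p G ≤ irrKer χ) : χ ∈ Cfsg.principalBlock M G := by
  have hpf : Fact p.Prime := ⟨hM.1⟩
  have hn : (Cfsg.pPrimeCore p G).Normal := h24_pPrimeCore_normal p G
  obtain ⟨ψ, hψ⟩ := exists_deflate χ (Cfsg.pPrimeCore p G) hχ
  have h1 : Cfsg.pPrimeCore p (G ⧸ Cfsg.pPrimeCore p G) = ⊥ :=
    Cfsg.Agent.Helper10.pPrimeCore_quotient p G
  have h2 : Cfsg.layer (G ⧸ Cfsg.pPrimeCore p G) = ⊥ := by
    have : {K : Subgroup (G ⧸ Cfsg.pPrimeCore p G) | Cfsg.IsComponent K} = ∅ := by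
      ext K
      simp only [Set.mem_setOf_eq, Set.mem_empty_iff_false, iff_false]
      intro hK
      apply Cfsg.Agent.Helper10.comp_not_solvable hK
      infer_instance
    unfold Cfsg.layer
    rw [this, sSup_empty]
  have h3 := Cfsg.Agent.Helper10.centralizer_gfitting_le (G ⧸ Cfsg.pPrimeCore p G)
  have h4 : Cfsg.generalizedFittingSubgroup (G ⧸ Cfsg.pPrimeCore p G) =
      Cfsg.pCore p (G ⧸ Cfsg.pPrimeCore p G) := by
    unfold Cfsg.generalizedFittingSubgroup
    rw [h2, bot_sup_eq, Cfsg.Agent.Helper10.fitting_eq_pCore_of_pPrimeCore_bot p h1]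
  rw [h4] at h3
  have hPn : (Cfsg.pCore p (G ⧸ Cfsg.pPrimeCore p G)).Normal := Cfsg.Agent.S0010.pCore_normal p
  have hPp : IsPGroup p (Cfsg.pCore p (G ⧸ Cfsg.pPrimeCore p G)) :=
    Cfsg.Agent.S0010.pCore_isPGroup p
  have h5 := mem_principalBlock_of_centralizer_le hM _ hPp h3 ψ
  have h6 := irrComp_mem_principalBlock hM (Cfsg.pPrimeCore p G) ψ h5
  have h7 : irrComp ψ (QuotientGroup.mk' (Cfsg.pPrimeCore p G))
      (QuotientGroup.mk'_surjective (Cfsg.pPrimeCore p G)) = χ := by
    apply Subtype.ext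
    funext g
    exact hψ g
  rw [h7] at h6
  exact h6

/-- Let G be a finite solvable group and π a nonempty set of primes, each dividing the order of G; fix for each p in π a maximal ideal M p of the algebraic integers containing p. Then the only irreducible character lying in the principal p-block for every p in π is the principal character if and only if G is generated by the subgroups O_{p'}(G), p in π (the largest normal subgroups of order prime to p). -/
theorem result {G : Type*} [Group G] [Finite G] [Group.IsSolvable G] (π : Set ℕ) (hπ : ∀ p ∈ π, p.Prime ∧ p ∣ Nat.card G) (hne : π.Nonempty) (M : ℕ → Ideal Cfsg.AlgInt) (hM : ∀ p ∈ π, Cfsg.IsPModular p (M p)) :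
    (∀ χ : Cfsg.IrrCharacter G, (∀ p ∈ π, χ ∈ Cfsg.principalBlock (M p) G) → (χ : G → ℂ) = fun _ => 1) ↔
      ⨆ p ∈ π, Cfsg.pPrimeCore p G = ⊤ := by
  classical
  open Cfsg.Agent.Helper25 Cfsg.Agent.Helper24 in
  constructor
  · intro h
    by_contra hne
    have hKn : (⨆ p ∈ π, Cfsg.pPrimeCore p G).Normal :=
      Subgroup.biSup_normal π (fun p => Cfsg.pPrimeCore p G)
        (fun p _ => h24_pPrimeCore_normal p G)
    have hnt : Nontrivial (G ⧸ ⨆ p ∈ π, Cfsg.pPrimeCore p G) :=
      QuotientGroup.nontrivial_iff.mpr hne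
    have hcard : Nat.card (G ⧸ ⨆ p ∈ π, Cfsg.pPrimeCore p G) ≠ 1 := by
      have := Finite.one_lt_card (α := G ⧸ ⨆ p ∈ π, Cfsg.pPrimeCore p G)
      omega
    obtain ⟨q, hq, hqd⟩ := Nat.exists_prime_and_dvd hcard
    obtain ⟨ψ, hψ, -⟩ := exists_irr_ne_triv_not_dvd
      (G := G ⧸ ⨆ p ∈ π, Cfsg.pPrimeCore p G) q hq hqd
    have hker : (⨆ p ∈ π, Cfsg.pPrimeCore p G) ≤
        irrKer (irrComp ψ (QuotientGroup.mk' (⨆ p ∈ π, Cfsg.pPrimeCore p G))
          (QuotientGroup.mk'_surjective _)) := by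
      rw [irrKer_irrComp]
      intro x hx
      rw [Subgroup.mem_comap]
      have : (QuotientGroup.mk' (⨆ p ∈ π, Cfsg.pPrimeCore p G)) x = 1 :=
        (QuotientGroup.eq_one_iff x).mpr hx
      rw [this]
      exact Subgroup.one_mem _
    have hall : ∀ r ∈ π, irrComp ψ (QuotientGroup.mk' (⨆ p ∈ π, Cfsg.pPrimeCore p G))
        (QuotientGroup.mk'_surjective _) ∈ Cfsg.principalBlock (M r) G := by
      intro r hr
      apply mem_principalBlock_of_solvable (hM r hr)
      exact le_trans (le_iSup₂ (f := fun p (_ : p ∈ π) => Cfsg.pPrimeCore p G) r hr) hker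
    have h1 := h _ hall
    apply hψ
    apply Subtype.ext
    funext x
    obtain ⟨g, rfl⟩ := QuotientGroup.mk_surjective x
    exact congrFun h1 g
  · intro htop χ hχ
    have hker : irrKer χ = ⊤ := by
      rw [eq_top_iff, ← htop]
      apply iSup₂_le
      intro q hq
      have hn : (Cfsg.pPrimeCore q G).Normal := h24_pPrimeCore_normal q G
      exact le_irrKer_of_mem_principalBlock (hM q hq) _
        (h24_pPrimeCore_not_dvd (hπ q hq).1) χ (hχ q hq)
    have := irr_eq_trivChar_of_ker_eq_top χ hker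
    rw [this]
    rfl

end Cfsg.Agent.S4611
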