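import Mathlib
import Cfsg.Statements.S4624
import Cfsg.Agent.Helper6.SpSylG

set_option autoImplicit false
open Cfsg

namespace Cfsg.Agent.S4624

open scoped commutatorElement

theorem main {F : Type*} [Field F] [Fintype F] (hF : Odd (Fintype.card F)) (n : ℕ)
    (P : Sylow 2 (Matrix.symplecticGroup (Fin n) F)) :
    ∀ x : (P : Subgroup (Matrix.symplecticGroup (Fin n) F)),
      x ^ 2 ∈ commutator (P : Subgroup (Matrix.symplecticGroup (Fin n) F)) := by
  classical
  intro x
  obtain ⟨T, hT⟩ := Cfsg.Agent.H6SpSyl.exists_sylow_sq hF n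
  obtain ⟨g, hg⟩ := MulAction.exists_smul_eq (Matrix.symplecticGroup (Fin n) F) T P
  have hS : ∀ y, y ∈ (P : Subgroup (Matrix.symplecticGroup (Fin n) F)) ↔
      g⁻¹ * y * g ∈ (T : Subgroup (Matrix.symplecticGroup (Fin n) F)) := by
    intro y
    rw [← hg, Sylow.coe_subgroup_smul, Subgroup.mem_pointwise_smul_iff_inv_smul_mem,
      ← map_inv, MulAut.smul_def, MulAut.conj_apply, inv_inv]
  let f : Matrix.symplecticGroup (Fin n) F →* Matrix.symplecticGroup (Fin n) F :=
    (MulAut.conj g).toMonoidHom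
  have hf : ∀ t, f t = g * t * g⁻¹ := fun t => MulAut.conj_apply g t
  have hfT : (T : Subgroup (Matrix.symplecticGroup (Fin n) F)).map f ≤
      (P : Subgroup (Matrix.symplecticGroup (Fin n) F)) := by
    rintro _ ⟨t, ht, rfl⟩
    rw [hS, hf]
    have h1 : g⁻¹ * (g * t * g⁻¹) * g = t := by group
    rw [h1]
    exact ht
  have ht : g⁻¹ * (x : Matrix.symplecticGroup (Fin n) F) * g ∈
      (T : Subgroup (Matrix.symplecticGroup (Fin n) F)) := (hS _).mp x.2
  have h1 := hT _ ht
  have h2 : f (g⁻¹ * (x : Matrix.symplecticGroup (Fin n) F) * g *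
      (g⁻¹ * (x : Matrix.symplecticGroup (Fin n) F) * g)) ∈
      ((⁅(T : Subgroup (Matrix.symplecticGroup (Fin n) F)),
        (T : Subgroup (Matrix.symplecticGroup (Fin n) F))⁆).map f) :=
    Subgroup.mem_map_of_mem f h1
  rw [Subgroup.map_commutator] at h2
  have h3 : f (g⁻¹ * (x : Matrix.symplecticGroup (Fin n) F) * g *
      (g⁻¹ * (x : Matrix.symplecticGroup (Fin n) F) * g)) =
      (x : Matrix.symplecticGroup (Fin n) F) * x := by
    rw [hf]; group
  rw [h3] at h2
  have h4 : (x : Matrix.symplecticGroup (Fin n) F) * x ∈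
      ⁅(P : Subgroup (Matrix.symplecticGroup (Fin n) F)),
        (P : Subgroup (Matrix.symplecticGroup (Fin n) F))⁆ :=
    Subgroup.commutator_mono hfT hfT h2
  rw [← Subgroup.map_subtype_commutator] at h4
  obtain ⟨z, hz, hzx⟩ := h4
  have h5 : z = x ^ 2 := by
    apply Subtype.ext
    rw [Subgroup.coe_pow, pow_two]
    exact hzx
  rw [← h5]
  exact hz
/-- Let F be a finite field of odd order and n ≥ 1. A Sylow 2-subgroup P of the symplectic group Sp_{2n}(F) has P/P' elementary abelian: the square of every element of P lies in the derived subgroup of P. -/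
theorem result {F : Type*} [Field F] [Fintype F] (hF : Odd (Fintype.card F)) (n : ℕ) (hn : 1 ≤ n) (P : Sylow 2 (Matrix.symplecticGroup (Fin n) F)) :
    ∀ x : (P : Subgroup (Matrix.symplecticGroup (Fin n) F)), x ^ 2 ∈ commutator (P : Subgroup (Matrix.symplecticGroup (Fin n) F)) := by
  exact main hF n P

end Cfsg.Agent.S4624
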