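import Mathlib
import Cfsg.Statements.S4628
import Cfsg.Agent.Helper6.SlSylC

set_option autoImplicit false
open Cfsg

namespace Cfsg.Agent.S4628

open scoped commutatorElement

theorem transport {G : Type*} [Group G] [Finite G] (T P : Sylow 2 G)
    (hT : ∀ x ∈ (T : Subgroup G), x * x ∈ ⁅(T : Subgroup G), (T : Subgroup G)⁆) :
    ∀ x : (P : Subgroup G), x ^ 2 ∈ commutator (P : Subgroup G) := by
  classical
  haveI : Fact (Nat.Prime 2) := ⟨Nat.prime_two⟩
  intro x
  obtain ⟨g, hg⟩ := MulAction.exists_smul_eq G T P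
  have hS : ∀ y, y ∈ (P : Subgroup G) ↔ g⁻¹ * y * g ∈ (T : Subgroup G) := by
    intro y
    rw [← hg, Sylow.coe_subgroup_smul, Subgroup.mem_pointwise_smul_iff_inv_smul_mem,
      ← map_inv, MulAut.smul_def, MulAut.conj_apply, inv_inv]
  let f : G →* G := (MulAut.conj g).toMonoidHom
  have hf : ∀ t, f t = g * t * g⁻¹ := fun t => MulAut.conj_apply g t
  have hfT : (T : Subgroup G).map f ≤ (P : Subgroup G) := by
    rintro _ ⟨t, ht, rfl⟩
    rw [hS, hf]
    have h1 : g⁻¹ * (g * t * g⁻¹) * g = t := by group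
    rw [h1]
    exact ht
  have ht : g⁻¹ * (x : G) * g ∈ (T : Subgroup G) := (hS _).mp x.2
  have h1 := hT _ ht
  have h2 : f (g⁻¹ * (x : G) * g * (g⁻¹ * (x : G) * g)) ∈
      ((⁅(T : Subgroup G), (T : Subgroup G)⁆).map f) := Subgroup.mem_map_of_mem f h1
  rw [Subgroup.map_commutator] at h2
  have h3 : f (g⁻¹ * (x : G) * g * (g⁻¹ * (x : G) * g)) = (x : G) * x := by
    rw [hf]; group
  rw [h3] at h2
  have h4 : (x : G) * x ∈ ⁅(P : Subgroup G), (P : Subgroup G)⁆ :=
    Subgroup.commutator_mono hfT hfT h2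
  rw [← Subgroup.map_subtype_commutator] at h4
  obtain ⟨z, hz, hzx⟩ := h4
  have h5 : z = x ^ 2 := by
    apply Subtype.ext
    rw [Subgroup.coe_pow, pow_two]
    exact hzx
  rw [← h5]
  exact hz
/-- Let F be a finite field of odd order q with 4 dividing q + 1, and m ≥ 1. Then a Sylow 2-subgroup P of SL_{2m+1}(F) has P/P' elementary abelian: the square of every element of P lies in the derived subgroup of P. -/
theorem result {F : Type*} [Field F] [Fintype F] (hF : Odd (Fintype.card F)) (hq : 4 ∣ Fintype.card F + 1) (m : ℕ) (hm : 1 ≤ m) (P : Sylow 2 (Matrix.SpecialLinearGroup (Fin (2 * m + 1)) F)) :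
    ∀ x : (P : Subgroup (Matrix.SpecialLinearGroup (Fin (2 * m + 1)) F)), x ^ 2 ∈ commutator (P : Subgroup (Matrix.SpecialLinearGroup (Fin (2 * m + 1)) F)) := by
  have hq' : Fintype.card F % 4 = 3 := by omega
  obtain ⟨T, hT⟩ := Cfsg.Agent.H6SlSyl.exists_sylow_sq_sl hq' m
  exact transport T P hT

end Cfsg.Agent.S4628
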