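import Cfsg.Statements.S4731
import Mathlib
import Cfsg.Agent.Helper7.SecOrth
import Cfsg.Agent.Helper2.CharExtra

set_option autoImplicit false
open Cfsg

namespace Cfsg.Agent.S4731

open Cfsg Cfsg.Agent.Helper25 Cfsg.Agent.Helper7

universe u

section
variable {G : Type u} [Group G]

theorem ppart_order {p : ℕ} (hp : p.Prime) {g x : G} (hx : IsPPart p g x) :
    ∃ k m : ℕ, orderOf x = p ^ k ∧ ¬ p ∣ m ∧ orderOf g = p ^ k * m := by
  obtain ⟨y, hxy, hc, ⟨k, hk⟩, hy⟩ := hx
  refine ⟨k, orderOf y, hk, hy, ?_⟩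
  rw [← hxy, hc.orderOf_mul_eq_mul_orderOf_of_coprime, hk]
  rw [hk]
  exact Nat.Coprime.pow_left k ((Nat.Prime.coprime_iff_not_dvd hp).mpr hy)

/-- The `p`-part of `g` is trivial exactly when `g` is `p`-regular. -/
theorem ppart_eq_one_iff {p : ℕ} (hp : p.Prime) {g x : G} (hx : IsPPart p g x) :
    x = 1 ↔ ¬ p ∣ orderOf g := by
  obtain ⟨k, m, hk, hm, hg⟩ := ppart_order hp hx
  constructor
  · intro h1 hd
    rw [h1, orderOf_one] at hk
    have hk0 : k = 0 := by
      by_contra h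
      have h2 : p ∣ p ^ k := dvd_pow_self p h
      rw [← hk] at h2
      exact hp.one_lt.ne' (Nat.dvd_one.mp h2)
    rw [hg, hk0, pow_zero, one_mul] at hd
    exact hm hd
  · intro hd
    have hk0 : k = 0 := by
      by_contra h
      apply hd
      rw [hg]
      exact Dvd.dvd.mul_right (dvd_pow_self p h) m
    rw [hk0, pow_zero] at hk
    exact orderOf_eq_one_iff.mp hk

/-- The `S`-part of a combination `∑ a χ' χ'` of irreducible characters, expressed through the
values of the combination and the kernel `∑_{χ ∈ S} χ(x) χ(g⁻¹)`. -/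
theorem block_part_sum [Fintype G] (S : Finset (IrrCharacter G)) (a : IrrCharacter G → ℂ)
    (x : G) :
    ∑ χ ∈ S, a χ * (χ : G → ℂ) x =
      (Nat.card G : ℂ)⁻¹ * ∑ g : G, (∑ χ' : IrrCharacter G, a χ' * (χ' : G → ℂ) g) *
        ∑ χ ∈ S, (χ : G → ℂ) x * (χ : G → ℂ) g⁻¹ := by
  classical
  have h1 : ∀ χ : IrrCharacter G, a χ = (Nat.card G : ℂ)⁻¹ * ∑ g : G,
      (∑ χ' : IrrCharacter G, a χ' * (χ' : G → ℂ) g) * (χ : G → ℂ) g⁻¹ := by
    intro χ
    simp only [Finset.sum_mul]
    rw [Finset.sum_comm, Finset.mul_sum]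
    have h2 : ∀ χ' : IrrCharacter G, (Nat.card G : ℂ)⁻¹ *
        ∑ g : G, a χ' * (χ' : G → ℂ) g * (χ : G → ℂ) g⁻¹ = a χ' * (if χ' = χ then 1 else 0) := by
      intro χ'
      rw [← irr_bil χ' χ]
      unfold bil
      rw [Finset.mul_sum, Finset.mul_sum, Finset.mul_sum]
      apply Finset.sum_congr rfl
      intro g _
      ring
    simp only [h2]
    simp
  calc ∑ χ ∈ S, a χ * (χ : G → ℂ) x
      = ∑ χ ∈ S, ((Nat.card G : ℂ)⁻¹ * ∑ g : G,
          (∑ χ' : IrrCharacter G, a χ' * (χ' : G → ℂ) g) * (χ : G → ℂ) g⁻¹) * (χ : G → ℂ) x := by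
        apply Finset.sum_congr rfl
        intro χ _
        rw [← h1 χ]
    _ = _ := by
        simp only [Finset.mul_sum, Finset.sum_mul]
        rw [Finset.sum_comm]
        apply Finset.sum_congr rfl
        intro g _
        apply Finset.sum_congr rfl
        intro χ _
        apply Finset.sum_congr rfl
        intro χ' _
        ring

theorem block_part_sum_eq_zero [Fintype G] (S : Finset (IrrCharacter G))
    (a : IrrCharacter G → ℂ) (x : G)
    (h : ∀ g : G, (∑ χ' : IrrCharacter G, a χ' * (χ' : G → ℂ) g) = 0 ∨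
      ∑ χ ∈ S, (χ : G → ℂ) x * (χ : G → ℂ) g⁻¹ = 0) :
    ∑ χ ∈ S, a χ * (χ : G → ℂ) x = 0 := by
  rw [block_part_sum, Finset.sum_eq_zero, mul_zero]
  intro g _
  rcases h g with h | h
  · rw [h, zero_mul]
  · rw [h, mul_zero]

end

/-- Let p ≠ q be primes, M_p and M_q maximal ideals of the algebraic integers containing p and q respectively, and G a finite group with no element of order pq; let q^b be the q-part of the order of G. For a p-block B_p (relative to M_p), a q-block B_q (relative to M_q) and a p-singular element y, the sum of χ(1)χ(y) over the irreducible characters χ lying in both B_p and B_q is q^b times an algebraic integer. -/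
theorem result {G : Type*} [Group G] [Finite G] (p q : ℕ) [Fact p.Prime] [Fact q.Prime] (hpq : p ≠ q) (Mp Mq : Ideal Cfsg.AlgInt) (hMp : Cfsg.IsPModular p Mp) (hMq : Cfsg.IsPModular q Mq) (hno : ∀ g : G, orderOf g ≠ p * q) (b : ℕ) (hb : (Nat.card G).factorization q = b) (Bp : Set (Cfsg.IrrCharacter G)) (hBp : Cfsg.IsPBlock Mp Bp) (Bq : Set (Cfsg.IrrCharacter G)) (hBq : Cfsg.IsPBlock Mq Bq) (y : G) (hy : p ∣ orderOf y) : ∃ ω : Cfsg.AlgInt, ∑ᶠ χ ∈ Bp ∩ Bq, (Cfsg.charDegree (χ : G → ℂ) : ℂ) * (χ : G → ℂ) y = (q : ℂ) ^ b * (ω : ℂ) := by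
  classical
  haveI := Fintype.ofFinite G
  have hp : p.Prime := Fact.out
  have hq : q.Prime := Fact.out
  rw [finsum_mem_eq_finite_toFinset_sum _ (Set.toFinite (Bp ∩ Bq))]
  have hsub : (Set.toFinite (Bp ∩ Bq)).toFinset ⊆ (Set.toFinite Bq).toFinset := by
    intro χ hχ
    rw [Set.Finite.mem_toFinset] at hχ ⊢
    exact hχ.2
  -- vanishing on `q`-singular elements
  have hT : ∀ u : G, q ∣ orderOf u →
      ∑ χ ∈ (Set.toFinite (Bp ∩ Bq)).toFinset, (χ : G → ℂ) u * (χ : G → ℂ) y = 0 := by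
    intro u hu
    have h0 : ∑ χ ∈ (Set.toFinite Bq).toFinset,
        (if χ ∈ Bp then (χ : G → ℂ) y else 0) * (χ : G → ℂ) u = 0 := by
      apply block_part_sum_eq_zero
      intro g
      obtain ⟨xg, hxg⟩ := exists_isPPart hp g
      obtain ⟨xy, hxy⟩ := exists_isPPart hp y⁻¹
      obtain ⟨zg, hzg⟩ := exists_isPPart hq g
      obtain ⟨zu, hzu⟩ := exists_isPPart hq u
      by_cases hpg : p ∣ orderOf g
      · right
        have hqg : ¬ q ∣ orderOf g := by
          intro hqg
          obtain ⟨m, hm⟩ := Nat.Coprime.mul_dvd_of_dvd_of_dvd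
            ((Nat.coprime_primes hp hq).mpr hpq) hpg hqg
          have hm0 : m ≠ 0 := by
            rintro rfl
            rw [mul_zero] at hm
            exact (orderOf_pos g).ne' hm
          apply hno (g ^ m)
          rw [orderOf_pow_of_dvd hm0 (Dvd.intro_left _ hm.symm), hm,
            Nat.mul_div_cancel _ (Nat.pos_of_ne_zero hm0)]
        have h1 : zg = 1 := (ppart_eq_one_iff hq hzg).mpr hqg
        have h2 : zu ≠ 1 := fun h => (ppart_eq_one_iff hq hzu).mp h hu
        exact block_orth hMq hBq u g zu zg hzu hzg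
          (by rw [h1]; intro hc; exact h2 (isConj_one_left.mp hc))
      · left
        have h1 : xg = 1 := (ppart_eq_one_iff hp hxg).mpr hpg
        have h2 : xy ≠ 1 := fun h => (ppart_eq_one_iff hp hxy).mp h (by rw [orderOf_inv]; exact hy)
        have h3 := block_orth hMp hBp g y⁻¹ xg xy hxg hxy
          (by rw [h1]; intro hc; exact h2 (isConj_one_right.mp hc))
        rw [inv_inv] at h3
        refine Eq.trans ?_ h3
        rw [← Finset.sum_subset (Finset.subset_univ (Set.toFinite Bp).toFinset)]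
        · apply Finset.sum_congr rfl
          intro χ' hχ'
          rw [if_pos ((Set.Finite.mem_toFinset _).mp hχ'), mul_comm]
        · intro χ' _ hχ'
          rw [if_neg (fun h => hχ' ((Set.Finite.mem_toFinset _).mpr h)), zero_mul]
    refine Eq.trans ?_ h0
    apply Finset.sum_subset_zero_on_sdiff hsub
    · intro χ hχ
      rw [Finset.mem_sdiff, Set.Finite.mem_toFinset, Set.Finite.mem_toFinset] at hχ
      rw [if_neg (fun h => hχ.2 ⟨h, hχ.1⟩), zero_mul]
    · intro χ hχ
      rw [Set.Finite.mem_toFinset] at hχ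
      rw [if_pos hχ.1, mul_comm]
  -- a Sylow `q`-subgroup
  obtain ⟨Q⟩ : Nonempty (Sylow q G) := inferInstance
  have hQcard : Nat.card (Q : Subgroup G) = q ^ b := by
    rw [← hb]
    exact Q.card_eq_multiplicity
  have hsum1 : ∑ u : (Q : Subgroup G), ∑ χ ∈ (Set.toFinite (Bp ∩ Bq)).toFinset,
      (χ : G → ℂ) (u : G) * (χ : G → ℂ) y
      = ∑ χ ∈ (Set.toFinite (Bp ∩ Bq)).toFinset, (χ : G → ℂ) 1 * (χ : G → ℂ) y := by
    rw [Finset.sum_eq_single (1 : (Q : Subgroup G))]
    · rfl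
    · intro u _ hu
      apply hT
      obtain ⟨k, hk⟩ := (IsPGroup.iff_orderOf.mp Q.2) u
      rw [Subgroup.orderOf_coe, hk]
      have hk0 : k ≠ 0 := by
        rintro rfl
        rw [pow_zero] at hk
        exact hu (orderOf_eq_one_iff.mp hk)
      exact dvd_pow_self q hk0
    · intro h
      exact absurd (Finset.mem_univ _) h
  choose m hm using fun χ : IrrCharacter G => Cfsg.Agent.Helper2.classInner_char_nat
    (Cfsg.Agent.Helper2.isCharacter_restrict (Q : Subgroup G) (irr_isCharacter χ))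
    (Cfsg.Agent.Helper2.isCharacter_one (G := (Q : Subgroup G)))
  have hm' : ∀ χ : IrrCharacter G, ∑ u : (Q : Subgroup G), (χ : G → ℂ) (u : G)
      = (q : ℂ) ^ b * (m χ : ℂ) := by
    intro χ
    have h1 := hm χ
    unfold classInner at h1
    simp only [map_one, mul_one] at h1
    rw [← h1, hQcard, ← mul_assoc]
    push_cast
    rw [mul_inv_cancel₀, one_mul]
    exact pow_ne_zero _ (by exact_mod_cast hq.ne_zero)
  have hint : IsIntegral ℤ (∑ χ ∈ (Set.toFinite (Bp ∩ Bq)).toFinset,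
      (χ : G → ℂ) y * (m χ : ℂ)) := by
    apply IsIntegral.sum
    intro χ _
    exact IsIntegral.mul (irr_isIntegral χ y) (by exact_mod_cast isIntegral_algebraMap (x := (m χ : ℤ)))
  refine ⟨⟨_, hint⟩, ?_⟩
  show _ = (q : ℂ) ^ b * ∑ χ ∈ (Set.toFinite (Bp ∩ Bq)).toFinset, (χ : G → ℂ) y * (m χ : ℂ)
  have h5 : ∑ χ ∈ (Set.toFinite (Bp ∩ Bq)).toFinset,
      (charDegree (χ : G → ℂ) : ℂ) * (χ : G → ℂ) y
      = ∑ χ ∈ (Set.toFinite (Bp ∩ Bq)).toFinset, (χ : G → ℂ) 1 * (χ : G → ℂ) y := by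
    apply Finset.sum_congr rfl
    intro χ _
    rw [irr_one_eq_degree]
  rw [h5, ← hsum1, Finset.sum_comm, Finset.mul_sum]
  apply Finset.sum_congr rfl
  intro χ _
  rw [← Finset.sum_mul, hm' χ]
  ring

end Cfsg.Agent.S4731
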