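import Cfsg.Statements.S4743
import Mathlib
import Cfsg.Agent.Helper7.DefZero

set_option autoImplicit false
open Cfsg

namespace Cfsg.Agent.S4743

/-- Let p ≠ q be primes dividing the order of the finite group G, suppose the centralizer of every non-identity p-element has order prime to q, and suppose G is p-solvable or q-solvable. Then G has an irreducible character of p-defect zero or an irreducible character of q-defect zero. -/
theorem result {G : Type*} [Group G] [Finite G] (p q : ℕ) [Fact p.Prime] [Fact q.Prime] (hppq : p ≠ q) (hpG : p ∣ Nat.card G) (hqG : q ∣ Nat.card G) (hC : ∀ g : G, g ≠ 1 → (∃ k : ℕ, orderOf g = p ^ k) → ¬ q ∣ Nat.card ↥(Subgroup.centralizer ({g} : Set G))) (hsolv : Cfsg.IsPSolvable p G ∨ Cfsg.IsPSolvable q G) : (∃ χ : Cfsg.IrrCharacter G, (Cfsg.charDegree (χ : G → ℂ)).factorization p = (Nat.card G).factorization p) ∨ (∃ χ : Cfsg.IrrCharacter G, (Cfsg.charDegree (χ : G → ℂ)).factorization q = (Nat.card G).factorization q) := by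
  have hp' := (Fact.out : p.Prime)
  have hq' := (Fact.out : q.Prime)
  have hno : ∀ g : G, ¬ (p * q ∣ orderOf g) := by
    intro g hdvd
    have hg0 : orderOf g ≠ 0 := (orderOf_pos g).ne'
    have hpd : p ∣ orderOf g := (dvd_mul_right p q).trans hdvd
    have hqd : q ∣ orderOf g := (dvd_mul_left q p).trans hdvd
    have ha : orderOf (g ^ (orderOf g / p)) = p := orderOf_pow_orderOf_div hg0 hpd
    have hb : orderOf (g ^ (orderOf g / q)) = q := orderOf_pow_orderOf_div hg0 hqd
    have ha1 : g ^ (orderOf g / p) ≠ 1 := by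
      intro h
      rw [h, orderOf_one] at ha
      exact hp'.one_lt.ne ha
    apply hC (g ^ (orderOf g / p)) ha1 ⟨1, by rw [ha, pow_one]⟩
    have hmem : g ^ (orderOf g / q) ∈
        Subgroup.centralizer ({g ^ (orderOf g / p)} : Set G) := by
      rw [Subgroup.mem_centralizer_iff]
      intro h hh
      rw [Set.mem_singleton_iff] at hh
      rw [hh]
      exact (Commute.pow_pow (Commute.refl g) _ _).eq
    have h2 := Subgroup.orderOf_dvd_natCard _ hmem
    rwa [hb] at h2
  rcases hsolv with hs | hs
  · exact Cfsg.Agent.Helper7.dz_main p q hppq (Nat.card G) G rfl hpG hqG hno hs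
  · have hno' : ∀ g : G, ¬ (q * p ∣ orderOf g) := fun g => by
      rw [mul_comm]
      exact hno g
    exact (Cfsg.Agent.Helper7.dz_main q p hppq.symm (Nat.card G) G rfl hqG hpG hno' hs).symm

end Cfsg.Agent.S4743
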