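import Cfsg.Statements.S4746
import Mathlib
import Cfsg.Agent.S4744
import Cfsg.Agent.Helper25.FpfInvol
import Cfsg.Agent.Helper7.EvenDeg

set_option autoImplicit false
open Cfsg

namespace Cfsg.Agent.S4746

/-- Let p be an odd prime and G a finite group of even order divisible by p in which the centralizer of every non-identity p-element has odd order. Then G has an irreducible character of p-defect zero or an irreducible character of even degree. -/
theorem result {G : Type*} [Group G] [Finite G] (p : ℕ) [Fact p.Prime] (hp2 : p ≠ 2) (hpG : p ∣ Nat.card G) (h2G : 2 ∣ Nat.card G) (hC : ∀ g : G, g ≠ 1 → (∃ k : ℕ, orderOf g = p ^ k) → Odd (Nat.card ↥(Subgroup.centralizer ({g} : Set G)))) : (∃ χ : Cfsg.IrrCharacter G, (Cfsg.charDegree (χ : G → ℂ)).factorization p = (Nat.card G).factorization p) ∨ ∃ χ : Cfsg.IrrCharacter G, Even (Cfsg.charDegree (χ : G → ℂ)) := by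
  classical
  have hp := (Fact.out : p.Prime)
  rcases Cfsg.Agent.S4744.result p hp2 hpG h2G hC with h | hS
  · exact Or.inl h
  right
  obtain ⟨P⟩ : Nonempty (Sylow p G) := inferInstance
  obtain ⟨w', hw'⟩ := exists_prime_orderOf_dvd_card' 2 (even_iff_two_dvd.mp (hS P).1)
  obtain ⟨w, hw⟩ : ∃ w : G, w = (w' : G) := ⟨_, rfl⟩
  have hwo : orderOf w = 2 := by
    rw [hw, Subgroup.orderOf_coe]
    exact hw'
  have hww : w * w = 1 := by
    rw [← pow_two, ← hwo]
    exact pow_orderOf_eq_one w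
  have hwN : ∀ x ∈ (P : Subgroup G), w * x * w⁻¹ ∈ (P : Subgroup G) := by
    intro x hx
    have h1 := w'.2
    rw [Subgroup.mem_normalizer_iff] at h1
    rw [hw]
    exact (h1 x).mp hx
  have hPp : ∀ x ∈ (P : Subgroup G), ∃ k : ℕ, orderOf x = p ^ k := fun x hx =>
    Cfsg.Agent.Helper25.orderOf_eq_pow_of_mem_pGroup p (P : Subgroup G) P.isPGroup' hx
  have hnc : ∀ g : G, g ≠ 1 → (∃ k : ℕ, orderOf g = p ^ k) → ∀ u : G, orderOf u = 2 →
      u * g ≠ g * u := by
    intro g hg1 hgp u hu hcomm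
    have hmem : u ∈ Subgroup.centralizer ({g} : Set G) := by
      rw [Subgroup.mem_centralizer_iff]
      intro h hh
      rw [Set.mem_singleton_iff] at hh
      rw [hh]
      exact hcomm.symm
    have h2 := Subgroup.orderOf_dvd_natCard _ hmem
    rw [hu] at h2
    exact (Nat.not_even_iff_odd.mpr (hC g hg1 hgp)) (even_iff_two_dvd.mpr h2)
  have hwinv : ∀ z ∈ (P : Subgroup G), w * z * w⁻¹ = z⁻¹ := by
    apply Cfsg.Agent.Helper25.fpf_invol_inverts (P : Subgroup G) w hww hwN
    intro x hx hfix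
    by_contra hx1
    apply hnc x hx1 (hPp x hx) w hwo
    calc w * x = w * x * w⁻¹ * w := by group
      _ = x * w := by rw [hfix]
  obtain ⟨x', hx'⟩ := exists_prime_orderOf_dvd_card' p (P.dvd_card_of_dvd_card hpG)
  obtain ⟨x, hx⟩ : ∃ x : G, x = (x' : G) := ⟨_, rfl⟩
  have hxo : orderOf x = p := by
    rw [hx, Subgroup.orderOf_coe]
    exact hx'
  have hxP : x ∈ (P : Subgroup G) := by
    rw [hx]
    exact x'.2
  have hx1 : x ≠ 1 := by
    rintro rfl
    rw [orderOf_one] at hxo
    exact hp.one_lt.ne hxo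
  exact Cfsg.Agent.Helper7.ed_exists_even x w hx1 (hwinv x hxP)
    (hC x hx1 ⟨1, by rw [hxo, pow_one]⟩)

end Cfsg.Agent.S4746
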