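import Cfsg.Statements.S4748
import Cfsg.Agent.Helper24.TIRep

set_option autoImplicit false
open scoped Pointwise
open Cfsg

namespace Cfsg.Agent.S4748

open Cfsg.Agent.Helper24

theorem card_mul_relIndex' {G : Type*} [Group G] (A L : Subgroup G) (h : A ≤ L) :
    Nat.card A * A.relIndex L = Nat.card L := by
  rw [Subgroup.relIndex, ← Subgroup.card_mul_index (A.subgroupOf L)]
  congr 1
  exact (Nat.card_congr (Subgroup.subgroupOfEquivOfLe h).toEquiv).symm

theorem ti_normal_of_step {G : Type*} [Group G] [Finite G] (p : ℕ) [hp : Fact p.Prime]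
    (P : Sylow p G)
    (hTI : ∀ g : G, g ∉ Subgroup.normalizer ((P : Subgroup G) : Set G) →
      (P : Subgroup G) ⊓ (MulAut.conj g • (P : Subgroup G)) = ⊥)
    (A L : Subgroup G) (hL : L.Normal) (hAL : A ≤ L) (hA : (Nat.card A).Coprime p)
    (m : ℕ) (hm : 1 ≤ m) (hidx : A.relIndex L = p ^ m)
    (hcent : ∀ a ∈ A, ∀ u ∈ (P : Subgroup G), a * u = u * a) : (P : Subgroup G).Normal := by
  classical
  have hcardL : Nat.card L = Nat.card A * p ^ m := by
    rw [← card_mul_relIndex' A L hAL, hidx]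
  -- a subgroup of order p^m inside P ⊓ L
  obtain ⟨S₀, hS₀⟩ := Sylow.exists_subgroup_card_pow_prime p (G := ↥L) (n := m)
    (by rw [hcardL]; exact Dvd.intro_left _ rfl)
  have hS₁card : Nat.card (S₀.map L.subtype) = p ^ m := by
    rw [Subgroup.card_map_of_injective L.subtype_injective, hS₀]
  have hS₁p : IsPGroup p (S₀.map L.subtype) := IsPGroup.of_card hS₁card
  obtain ⟨Q, hQ⟩ := hS₁p.exists_le_sylow
  obtain ⟨g, hg⟩ := MulAction.exists_smul_eq G Q P
  obtain ⟨S, hSdef⟩ : ∃ S : Subgroup G,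
      S = (S₀.map L.subtype).map (MulAut.conj g).toMonoidHom := ⟨_, rfl⟩
  have hScard : Nat.card S = p ^ m := by
    rw [hSdef, Subgroup.card_map_of_injective (MulEquiv.injective _), hS₁card]
  have hSP : S ≤ (P : Subgroup G) := by
    intro x hx
    rw [hSdef] at hx
    obtain ⟨s, hs, rfl⟩ := Subgroup.mem_map.mp hx
    have h1 : MulAut.conj g • s ∈ MulAut.conj g • (Q : Subgroup G) :=
      Subgroup.smul_mem_pointwise_smul _ _ _ (hQ hs)
    rw [← Sylow.pointwise_smul_def, ← Sylow.smul_def, hg] at h1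
    exact h1
  have hSL : S ≤ L := by
    intro x hx
    rw [hSdef] at hx
    obtain ⟨s, hs, rfl⟩ := Subgroup.mem_map.mp hx
    obtain ⟨s', _, rfl⟩ := Subgroup.mem_map.mp hs
    exact hL.conj_mem _ s'.2 g
  obtain ⟨P₀, hP₀⟩ : ∃ P₀ : Subgroup G, P₀ = (P : Subgroup G) ⊓ L := ⟨_, rfl⟩
  have hP₀P : P₀ ≤ (P : Subgroup G) := by rw [hP₀]; exact inf_le_left
  have hP₀L : P₀ ≤ L := by rw [hP₀]; exact inf_le_right
  have hP₀card : Nat.card P₀ = p ^ m := by
    have hpg : IsPGroup p P₀ := P.2.to_le hP₀P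
    obtain ⟨j, hj⟩ := IsPGroup.iff_card.mp hpg
    have h1 : p ^ j ∣ Nat.card A * p ^ m := by
      rw [← hj, ← hcardL]; exact Subgroup.card_dvd_of_le hP₀L
    have h2 : p ^ j ∣ p ^ m :=
      Nat.Coprime.dvd_of_dvd_mul_left (Nat.Coprime.pow_left j hA.symm) h1
    have h3 : Nat.card P₀ ≤ p ^ m := by
      rw [hj]; exact Nat.le_of_dvd (pow_pos hp.out.pos m) h2
    have h4 : Nat.card S ≤ Nat.card P₀ :=
      Subgroup.card_le_of_le (by rw [hP₀]; exact le_inf hSP hSL)
    rw [hScard] at h4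
    omega
  have hAP₀ : A ⊓ P₀ = ⊥ := by
    apply Subgroup.inf_eq_bot_of_coprime
    rw [hP₀card]
    exact Nat.Coprime.pow_right m hA
  -- L = A * P₀
  have hLprod : ∀ y ∈ L, ∃ a ∈ A, ∃ u ∈ P₀, y = a * u := by
    let φ : A × P₀ → L := fun x => ⟨(x.1 : G) * (x.2 : G), L.mul_mem (hAL x.1.2) (hP₀L x.2.2)⟩
    have hφinj : Function.Injective φ := by
      rintro ⟨a, u⟩ ⟨a', u'⟩ heq
      have heq' : (a : G) * (u : G) = (a' : G) * (u' : G) := congrArg Subtype.val heq
      have h1 : (a' : G)⁻¹ * (a : G) = (u' : G) * (u : G)⁻¹ := by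
        calc (a' : G)⁻¹ * (a : G) = (a' : G)⁻¹ * ((a : G) * (u : G)) * (u : G)⁻¹ := by group
          _ = (u' : G) * (u : G)⁻¹ := by rw [heq']; group
      have h2 : (a' : G)⁻¹ * (a : G) ∈ A ⊓ P₀ :=
        ⟨A.mul_mem (A.inv_mem a'.2) a.2, by rw [h1]; exact P₀.mul_mem u'.2 (P₀.inv_mem u.2)⟩
      rw [hAP₀, Subgroup.mem_bot] at h2
      have h3 : (a : G) = a' := by
        have := congrArg (fun t => (a' : G) * t) h2
        simpa using this
      have h4 : (u : G) = u' := by
        rw [h3] at heq'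
        exact mul_left_cancel heq'
      exact Prod.ext (Subtype.ext h3) (Subtype.ext h4)
    have hbij := hφinj.bijective_of_nat_card_le (by
      rw [Nat.card_prod, hcardL, hP₀card])
    intro y hy
    obtain ⟨⟨a, u⟩, hx⟩ := hbij.2 ⟨y, hy⟩
    exact ⟨a, a.2, u, u.2, (congrArg Subtype.val hx).symm⟩
  -- P₀ is normal in G
  have hP₀norm : ∀ (g : G), ∀ u ∈ P₀, g * u * g⁻¹ ∈ P₀ := by
    intro g u hu
    have hyL : g * u * g⁻¹ ∈ L := hL.conj_mem u (hP₀L hu) g
    obtain ⟨a, ha, u', hu', hy⟩ := hLprod _ hyL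
    have hcomm : Commute a u' := hcent a ha u' (hP₀P hu')
    have hpow : (g * u * g⁻¹) ^ Nat.card (P : Subgroup G) = 1 := by
      rw [conj_pow]
      have h1 : u ^ Nat.card (P : Subgroup G) = 1 :=
        orderOf_dvd_iff_pow_eq_one.mp (Subgroup.orderOf_dvd_natCard _ (hP₀P hu))
      rw [h1]; group
    have hu'pow : u' ^ Nat.card (P : Subgroup G) = 1 :=
      orderOf_dvd_iff_pow_eq_one.mp (Subgroup.orderOf_dvd_natCard _ (hP₀P hu'))
    rw [hy, hcomm.mul_pow, hu'pow, mul_one] at hpow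
    have ha1 : a ^ Nat.card A = 1 :=
      orderOf_dvd_iff_pow_eq_one.mp (Subgroup.orderOf_dvd_natCard _ ha)
    have hcop : (Nat.card (P : Subgroup G)).Coprime (Nat.card A) := by
      obtain ⟨j, hj⟩ := IsPGroup.iff_card.mp P.2
      rw [hj]
      exact Nat.Coprime.pow_left j hA.symm
    have ha_one : a = 1 := by
      have h1 : orderOf a ∣ Nat.card (P : Subgroup G) := orderOf_dvd_of_pow_eq_one hpow
      have h2 : orderOf a ∣ Nat.card A := orderOf_dvd_of_pow_eq_one ha1
      have h3 : orderOf a = 1 := Nat.eq_one_of_dvd_coprimes hcop h1 h2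
      exact orderOf_eq_one_iff.mp h3
    rw [hy, ha_one, one_mul]
    exact hu'
  -- P₀ nontrivial
  have hP₀ne : P₀ ≠ ⊥ := by
    rw [← Subgroup.one_lt_card_iff_ne_bot, hP₀card]
    exact Nat.one_lt_pow (by omega) hp.out.one_lt
  obtain ⟨u, hu1⟩ := (Subgroup.ne_bot_iff_exists_ne_one.mp hP₀ne)
  have hNtop : Subgroup.normalizer ((P : Subgroup G) : Set G) = ⊤ := by
    rw [eq_top_iff]
    intro g _
    by_contra hgN
    have hbot := hTI g hgN
    have h5 : (u : G) ∈ MulAut.conj g • (P : Subgroup G) := by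
      rw [Subgroup.mem_pointwise_smul_iff_inv_smul_mem]
      have h2 : (MulAut.conj g)⁻¹ • (u : G) = g⁻¹ * (u : G) * g⁻¹⁻¹ := by
        simp [MulAut.smul_def]
      rw [h2]
      exact hP₀P (hP₀norm g⁻¹ u u.2)
    have h1 : (u : G) ∈ (P : Subgroup G) ⊓ MulAut.conj g • (P : Subgroup G) :=
      Subgroup.mem_inf.mpr ⟨hP₀P u.2, h5⟩
    rw [hbot] at h1
    apply hu1
    exact Subtype.ext (Subgroup.mem_bot.mp h1)
  exact Subgroup.normalizer_eq_top_iff.mp hNtop

/-- Let G be a finite p-solvable group whose Sylow p-subgroup P meets each conjugate g P g⁻¹ with g outside N_G(P) trivially, and let χ be a faithful character of G (χ g = χ 1 only for g = 1) whose degree d satisfies d² ≤ |P|. Then P is normal in G. -/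
theorem result {G : Type*} [Group G] [Finite G] (p : ℕ) [Fact p.Prime] (hsolv : Cfsg.IsPSolvable p G) (P : Sylow p G) (hTI : ∀ g : G, g ∉ Subgroup.normalizer ((P : Subgroup G) : Set G) → (P : Subgroup G) ⊓ (MulAut.conj g • (P : Subgroup G)) = ⊥) (χ : G → ℂ) (hχ : Cfsg.IsCharacter G χ) (hfaith : ∀ g : G, χ g = χ 1 → g = 1) (hdeg : Cfsg.charDegree χ ^ 2 ≤ Nat.card ↥(P : Subgroup G)) : (P : Subgroup G).Normal := by
  classical
  have hp := (Fact.out : p.Prime)
  by_cases hP1 : (P : Subgroup G) = ⊥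
  · rw [hP1]; infer_instance
  obtain ⟨n', Hs, h0, hl, hmono, hnorm, hstep⟩ := hsolv
  have hpG : p ∣ Nat.card (Hs (Fin.last n')) := by
    rw [hl, Subgroup.card_top]
    have h1 : 1 < Nat.card (P : Subgroup G) := (Subgroup.one_lt_card_iff_ne_bot _).mpr hP1
    obtain ⟨a, ha⟩ := IsPGroup.iff_card.mp P.2
    have ha1 : a ≠ 0 := by
      rintro rfl
      rw [ha] at h1; simp at h1
    have h2 : p ∣ Nat.card (P : Subgroup G) := by
      rw [ha]; exact dvd_pow_self p ha1
    exact dvd_trans h2 (Subgroup.card_subgroup_dvd_card _)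
  have key : ∀ i : Fin (n' + 1), p ∣ Nat.card (Hs i) → (P : Subgroup G).Normal := by
    intro i
    induction i using Fin.induction with
    | zero =>
      intro h
      rw [h0, Subgroup.card_bot] at h
      exact absurd (Nat.le_of_dvd one_pos h) (by have := hp.one_lt; omega)
    | succ i ih =>
      intro h
      by_cases hc : p ∣ Nat.card (Hs i.castSucc)
      · exact ih hc
      · have hA : (Nat.card (Hs i.castSucc)).Coprime p :=
          ((Nat.Prime.coprime_iff_not_dvd hp).mpr hc).symm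
        have hAL : Hs i.castSucc ≤ Hs i.succ := hmono (Fin.castSucc_le_succ i)
        have hcard := card_mul_relIndex' _ _ hAL
        have hdr : p ∣ (Hs i.castSucc).relIndex (Hs i.succ) := by
          rw [← hcard] at h
          exact (Nat.Coprime.symm hA).dvd_of_dvd_mul_left h
        rcases hstep i with ⟨m, hm⟩ | hcop
        · have hm1 : 1 ≤ m := by
            by_contra h0'
            have hm0 : m = 0 := by omega
            rw [hm, hm0, pow_zero] at hdr
            exact absurd (Nat.le_of_dvd one_pos hdr) (by have := hp.one_lt; omega)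
          haveI := hnorm i.castSucc
          exact ti_normal_of_step p P hTI _ _ (hnorm i.succ) hAL hA m hm1 hm
            (ti_centralizes p P hTI χ hχ hfaith hdeg _ hA)
        · exfalso
          have := Nat.Coprime.eq_one_of_dvd hcop.symm hdr
          have := hp.one_lt
          omega
  exact key _ hpG

end Cfsg.Agent.S4748
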