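import Cfsg.Statements.S4750
import Cfsg.Agent.Helper24.TIRep

set_option autoImplicit false
open scoped Pointwise
open Cfsg

namespace Cfsg.Agent.S4750

open Cfsg.Agent.Helper24

/-- Let P be a Sylow p-subgroup of the finite group G that meets each conjugate g P g⁻¹ with g outside N_G(P) trivially, χ a character of G with χ(1)² ≤ |P|, and H a subgroup of G containing N_G(P). Then the inner product of χ with itself over G equals the inner product over H of the restriction of χ to H. -/
theorem result {G : Type*} [Group G] [Fintype G] [DecidableEq G] (p : ℕ) [Fact p.Prime] (P : Sylow p G) (hTI : ∀ g : G, g ∉ Subgroup.normalizer ((P : Subgroup G) : Set G) → (P : Subgroup G) ⊓ (MulAut.conj g • (P : Subgroup G)) = ⊥) (χ : G → ℂ) (hχ : Cfsg.IsCharacter G χ) (hdeg : Cfsg.charDegree χ ^ 2 ≤ Nat.card ↥(P : Subgroup G)) (H : Subgroup G) [Fintype ↥H] (hH : Subgroup.normalizer ((P : Subgroup G) : Set G) ≤ H) : Cfsg.classInner χ χ = Cfsg.classInner (fun h : ↥H => χ h) (fun h : ↥H => χ h) := by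
  classical
  obtain ⟨n, ρ, hρ⟩ := hχ
  have hch : ∀ g, χ g = (repHom ρ g).trace := fun g => by rw [repHom_trace, hρ]
  have hn : Cfsg.charDegree χ = n := by
    unfold Cfsg.charDegree
    rw [hch 1, map_one, Matrix.trace_one]
    simp
  rw [hn] at hdeg
  have hfree := ti_free p P hTI H hH
  have hPH : (P : Subgroup G) ≤ H := le_trans Subgroup.le_normalizer hH
  have key := ti_inner p (repHom ρ) ⊤ H (P : Subgroup G) le_top hPH P.2
    (fun g _ hg => hfree g hg) hdeg
  have hinv : ∀ g, (repHom ρ g⁻¹).trace = starRingEnd ℂ (χ g) := by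
    intro g
    rw [← hch, Cfsg.Agent.Helper25.char_inv ⟨n, ρ, hρ⟩]
  unfold Cfsg.classInner
  have h1 : ∑ g : G, χ g * starRingEnd ℂ (χ g)
      = ∑ g : (⊤ : Subgroup G), (repHom ρ (g : G)).trace * (repHom ρ (g : G)⁻¹).trace := by
    refine (Fintype.sum_equiv Subgroup.topEquiv.toEquiv _ _ (fun g => ?_)).symm
    rw [hinv, ← hch]; rfl
  have h2 : ∑ h : H, χ h * starRingEnd ℂ (χ h)
      = ∑ h : H, (repHom ρ (h : G)).trace * (repHom ρ (h : G)⁻¹).trace := by
    apply Finset.sum_congr rfl; intro h _; rw [hinv, ← hch]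
  rw [h1, h2, ← key]
  congr 2
  simp [Subgroup.card_top]

end Cfsg.Agent.S4750
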