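import Cfsg.Statements.S4754
import Cfsg.Agent.Helper25.CharClass

set_option autoImplicit false
open Cfsg

namespace Cfsg.Agent.S4754

/-- For elements x, y of a finite group G, the conjugacy class of x y equals the set of all products of a conjugate of x with a conjugate of y if and only if χ(1) χ(a x a⁻¹ b y b⁻¹) = χ(x) χ(y) for all a, b ∈ G and every irreducible character χ. -/
theorem result {G : Type*} [Group G] [Finite G] (x y : G) : (∀ z : G, IsConj (x * y) z ↔ ∃ a b : G, z = a * x * a⁻¹ * (b * y * b⁻¹)) ↔ ∀ (a b : G) (χ : Cfsg.IrrCharacter G), (χ : G → ℂ) 1 * (χ : G → ℂ) (a * x * a⁻¹ * (b * y * b⁻¹)) = (χ : G → ℂ) x * (χ : G → ℂ) y := by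
  classical
  have := Fintype.ofFinite G
  constructor
  · intro h a b χ
    have h1 : ∀ a b : G, (χ : G → ℂ) (a * x * a⁻¹ * (b * y * b⁻¹)) = (χ : G → ℂ) (x * y) := by
      intro a b
      have hc : IsConj (x * y) (a * x * a⁻¹ * (b * y * b⁻¹)) := (h _).mpr ⟨a, b, rfl⟩
      exact (Cfsg.Agent.Helper25.char_of_isConj (Cfsg.Agent.Helper25.irr_isCharacter χ) hc).symm
    have h2 := Cfsg.Agent.Helper25.irr_sum_conj_mul χ x y
    have h3 : ∑ b : G, (χ : G → ℂ) (x * (b * y * b⁻¹)) =
        (Nat.card G : ℂ) * (χ : G → ℂ) (x * y) := by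
      have h3' : ∀ b : G, (χ : G → ℂ) (x * (b * y * b⁻¹)) = (χ : G → ℂ) (x * y) := by
        intro b
        have h3'' := h1 1 b
        simpa using h3''
      simp only [h3', Finset.sum_const, Finset.card_univ, nsmul_eq_mul, Nat.card_eq_fintype_card]
    rw [h3] at h2
    have hG : (Nat.card G : ℂ) ≠ 0 := Cfsg.Agent.Helper25.card_ne_zero
    have h1' := Cfsg.Agent.Helper25.irr_one_ne_zero χ
    rw [h1 a b]
    have h4 : (Nat.card G : ℂ) * ((χ : G → ℂ) 1 * (χ : G → ℂ) (x * y)) =
        (Nat.card G : ℂ) * ((χ : G → ℂ) x * (χ : G → ℂ) y) := by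
      rw [mul_left_comm, h2]
      field_simp
    exact mul_left_cancel₀ hG h4
  · intro H z
    constructor
    · intro hz
      obtain ⟨c, hc⟩ := isConj_iff.mp hz
      refine ⟨c, c, ?_⟩
      rw [← hc]
      group
    · rintro ⟨a, b, rfl⟩
      apply Cfsg.Agent.Helper25.isConj_of_forall_irr_eq
      intro χ
      have h1' := Cfsg.Agent.Helper25.irr_one_ne_zero χ
      have h5 := H a b χ
      have h6 := H 1 1 χ
      simp only [one_mul, inv_one, mul_one] at h6
      exact mul_left_cancel₀ h1' (h6.trans h5.symm)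

end Cfsg.Agent.S4754
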