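import Cfsg.Statements.S4755
import Cfsg.Agent.Helper25.CharClass

set_option autoImplicit false
open Cfsg

namespace Cfsg.Agent.S4755

/-- Let x, y be non-identity elements of the finite group G such that χ(x' y') = χ(x') χ(y') for all conjugates x' of x, y' of y and every irreducible character χ. Then the conjugacy class of x y is the set of all products of a conjugate of x with a conjugate of y; every irreducible character of degree greater than 1 vanishes at x y; and the conjugacy class of x y is the coset of the commutator subgroup containing x y. -/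
theorem result {G : Type*} [Group G] [Finite G] (x y : G) (hx : x ≠ 1) (hy : y ≠ 1) (h : ∀ (a b : G) (χ : Cfsg.IrrCharacter G), (χ : G → ℂ) (a * x * a⁻¹ * (b * y * b⁻¹)) = (χ : G → ℂ) (a * x * a⁻¹) * (χ : G → ℂ) (b * y * b⁻¹)) : (∀ z : G, IsConj (x * y) z ↔ ∃ a b : G, z = a * x * a⁻¹ * (b * y * b⁻¹)) ∧ (∀ χ : Cfsg.IrrCharacter G, (χ : G → ℂ) 1 ≠ 1 → (χ : G → ℂ) (x * y) = 0) ∧ (∀ z : G, IsConj (x * y) z ↔ (x * y)⁻¹ * z ∈ commutator G) := by
  classical
  have := Fintype.ofFinite G
  have hval : ∀ (a b : G) (χ : Cfsg.IrrCharacter G),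
      (χ : G → ℂ) (a * x * a⁻¹ * (b * y * b⁻¹)) = (χ : G → ℂ) (x * y) := by
    intro a b χ
    have h5 := h a b χ
    have h6 := h 1 1 χ
    simp only [one_mul, inv_one, mul_one] at h6
    rw [h5, h6, Cfsg.Agent.Helper25.irr_conj, Cfsg.Agent.Helper25.irr_conj]
  have hvanish : ∀ χ : Cfsg.IrrCharacter G, (χ : G → ℂ) 1 ≠ 1 → (χ : G → ℂ) (x * y) = 0 := by
    intro χ hχ
    have h2 := Cfsg.Agent.Helper25.irr_sum_conj_mul χ x y
    have h3 : ∑ b : G, (χ : G → ℂ) (x * (b * y * b⁻¹)) =
        (Nat.card G : ℂ) * (χ : G → ℂ) (x * y) := by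
      have h3' : ∀ b : G, (χ : G → ℂ) (x * (b * y * b⁻¹)) = (χ : G → ℂ) (x * y) := by
        intro b
        have h3'' := hval 1 b χ
        simpa using h3''
      simp only [h3', Finset.sum_const, Finset.card_univ, nsmul_eq_mul, Nat.card_eq_fintype_card]
    rw [h3] at h2
    have hG : (Nat.card G : ℂ) ≠ 0 := Cfsg.Agent.Helper25.card_ne_zero
    have h1' := Cfsg.Agent.Helper25.irr_one_ne_zero χ
    have h6 := h 1 1 χ
    simp only [one_mul, inv_one, mul_one] at h6
    have h4 : (Nat.card G : ℂ) * ((χ : G → ℂ) 1 * (χ : G → ℂ) (x * y)) =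
        (Nat.card G : ℂ) * ((χ : G → ℂ) x * (χ : G → ℂ) y) := by
      rw [mul_left_comm, h2]
      field_simp
    have h7 := mul_left_cancel₀ hG h4
    rw [← h6] at h7
    have h8 : ((χ : G → ℂ) 1 - 1) * (χ : G → ℂ) (x * y) = 0 := by
      linear_combination h7
    rcases mul_eq_zero.mp h8 with h9 | h9
    · exact absurd (sub_eq_zero.mp h9) hχ
    · exact h9
  refine ⟨?_, hvanish, ?_⟩
  · intro z
    constructor
    · intro hz
      obtain ⟨c, hc⟩ := isConj_iff.mp hz
      refine ⟨c, c, ?_⟩
      rw [← hc]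
      group
    · rintro ⟨a, b, rfl⟩
      apply Cfsg.Agent.Helper25.isConj_of_forall_irr_eq
      intro χ
      exact (hval a b χ).symm
  · intro z
    constructor
    · intro hz
      exact Cfsg.Agent.Helper25.mem_commutator_of_isConj hz
    · intro hz
      exact Cfsg.Agent.Helper25.isConj_of_nonlinear_vanish (x * y) hvanish z hz

end Cfsg.Agent.S4755
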