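import Cfsg.Statements.S4757
import Mathlib
import Cfsg.Agent.Helper25.CharKer
import Cfsg.Agent.Helper25.FpfInvol
import Cfsg.Agent.Helper24.SelfCent

set_option autoImplicit false
open Cfsg

namespace Cfsg.Agent.S4757

theorem sum_real_nonneg {ι : Type*} (s : Finset ι) (t : ι → ℂ)
    (h : ∀ i ∈ s, ∃ r : ℝ, 0 ≤ r ∧ t i = (r : ℂ)) :
    ∃ R : ℝ, 0 ≤ R ∧ ∑ i ∈ s, t i = (R : ℂ) ∧ (R = 0 → ∀ i ∈ s, t i = 0) := by
  have ht : ∀ i ∈ s, t i = (((t i).re : ℝ) : ℂ) ∧ 0 ≤ (t i).re := by
    intro i hi
    obtain ⟨r, hr, hri⟩ := h i hi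
    rw [hri, Complex.ofReal_re]
    exact ⟨rfl, hr⟩
  refine ⟨∑ i ∈ s, (t i).re, Finset.sum_nonneg (fun i hi => (ht i hi).2), ?_, ?_⟩
  · rw [Complex.ofReal_sum]
    exact Finset.sum_congr rfl (fun i hi => (ht i hi).1)
  · intro h0 i hi
    have := (Finset.sum_eq_zero_iff_of_nonneg (fun i hi => (ht i hi).2)).mp h0 i hi
    rw [(ht i hi).1, this, Complex.ofReal_zero]

/-- Let u ≠ 1 be an element of the finite group G and c a complex number such that every non-principal irreducible character χ satisfies χ(1) − χ(u) = c or χ(u) = 0. Then the following are equivalent: (a) u has order 2, G is generated by u together with O(G), the largest normal subgroup of G of odd order, and the centralizer of u is {1, u}; (b) G is not perfect; (c) c = 2. -/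
theorem result {G : Type*} [Group G] [Finite G] (u : G) (hu : u ≠ 1) (c : ℂ) (hyp : ∀ χ : Cfsg.IrrCharacter G, (χ : G → ℂ) ≠ (fun _ => (1 : ℂ)) → ((χ : G → ℂ) 1 - (χ : G → ℂ) u = c ∨ (χ : G → ℂ) u = 0)) : ((orderOf u = 2 ∧ Subgroup.zpowers u ⊔ Cfsg.oddCore G = ⊤ ∧ Subgroup.centralizer ({u} : Set G) = Subgroup.zpowers u) ↔ commutator G ≠ ⊤) ∧ (commutator G ≠ ⊤ ↔ c = 2) := by
  classical
  open Cfsg.Agent.Helper25 Cfsg.Agent.Helper24 in
  have := Fintype.ofFinite G
  have hlin : ∀ f : G →* ℂˣ, f ≠ 1 → 1 - ((f u : ℂˣ) : ℂ) = c := by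
    intro f hf
    have h1 := hyp ⟨fun g => ((f g : ℂˣ) : ℂ), isIrrCharacter_of_monoidHom f⟩ (by
      intro h
      apply hf
      ext g
      have := congrFun h g
      simpa using this)
    rcases h1 with h1 | h1
    · simpa using h1
    · exact absurd h1 (Units.ne_zero _)
  have horth : ∑ χ : IrrCharacter G, (χ : G → ℂ) 1 * (χ : G → ℂ) u = 0 := by
    rw [sum_irr_one_mul, if_neg hu]
  rw [← Finset.add_sum_erase _ _ (Finset.mem_univ (trivChar G))] at horth
  simp only [trivChar_apply, mul_one] at horth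
  have hdeg : ∀ χ : IrrCharacter G, (χ : G → ℂ) 1 = (charDegree (χ : G → ℂ) : ℂ) :=
    irr_one_eq_degree
  have hnetriv : ∀ χ : IrrCharacter G, χ ≠ trivChar G → (χ : G → ℂ) ≠ fun _ => (1 : ℂ) :=
    fun χ hχ h => hχ (Subtype.ext h)
  -- (A) c ≠ 0
  have hc0 : c ≠ 0 := by
    intro hc
    have h1 : ∀ χ ∈ Finset.univ.erase (trivChar G), ∃ r : ℝ, 0 ≤ r ∧
        (χ : G → ℂ) 1 * (χ : G → ℂ) u = (r : ℂ) := by
      intro χ hχ
      rcases hyp χ (hnetriv χ (Finset.mem_erase.mp hχ).1) with h | h
      · rw [hc, sub_eq_zero] at h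
        refine ⟨(charDegree (χ : G → ℂ) : ℝ) ^ 2, by positivity, ?_⟩
        rw [← h, hdeg]
        push_cast
        ring
      · exact ⟨0, le_rfl, by rw [h, mul_zero]; simp⟩
    obtain ⟨R, hR, hsum, -⟩ := sum_real_nonneg _ _ h1
    rw [hsum] at horth
    have : (1 : ℝ) + R = 0 := by exact_mod_cast horth
    linarith
  -- (D) c = 2 → G' ≠ ⊤
  have hD : c = 2 → commutator G ≠ ⊤ := by
    intro hc htop
    have h1 : ∀ χ ∈ Finset.univ.erase (trivChar G), ∃ r : ℝ, 0 ≤ r ∧
        (χ : G → ℂ) 1 * (χ : G → ℂ) u = (r : ℂ) := by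
      intro χ hχ
      have hne := (Finset.mem_erase.mp hχ).1
      have hd2 : 2 ≤ charDegree (χ : G → ℂ) := by
        have hpos := irr_degree_pos χ
        by_contra hlt
        have h1 : charDegree (χ : G → ℂ) = 1 := by omega
        have h1' : (χ : G → ℂ) 1 = 1 := by rw [hdeg, h1]; simp
        apply hne
        apply Subtype.ext
        funext g
        exact irr_linear_commutator χ h1' (by rw [htop]; exact Subgroup.mem_top g)
      rcases hyp χ (hnetriv χ hne) with h | h
      · refine ⟨(charDegree (χ : G → ℂ) : ℝ) * ((charDegree (χ : G → ℂ) : ℝ) - 2), ?_, ?_⟩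
        · have : (2 : ℝ) ≤ (charDegree (χ : G → ℂ) : ℝ) := by exact_mod_cast hd2
          apply mul_nonneg (by positivity) (by linarith)
        · have hu' : (χ : G → ℂ) u = (χ : G → ℂ) 1 - 2 := by
            rw [← hc, ← h]; ring
          rw [hu', hdeg]
          push_cast
          ring
      · exact ⟨0, le_rfl, by rw [h, mul_zero]; simp⟩
    obtain ⟨R, hR, hsum, -⟩ := sum_real_nonneg _ _ h1
    rw [hsum] at horth
    have : (1 : ℝ) + R = 0 := by exact_mod_cast horth
    linarith
  -- existence of a nontrivial linear character when G' ≠ ⊤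
  have hex : commutator G ≠ ⊤ → ∃ f : G →* ℂˣ, f ≠ 1 := by
    intro hne
    obtain ⟨g, hg⟩ : ∃ g : G, g ∉ commutator G := by
      by_contra hcon
      push Not at hcon
      exact hne (eq_top_iff.mpr (fun g _ => hcon g))
    have ha : (Abelianization.of g : Abelianization G) ≠ 1 := by
      intro h
      apply hg
      exact (QuotientGroup.eq_one_iff g).mp h
    have : NeZero (Monoid.exponent (Abelianization G)) := ⟨Monoid.exponent_ne_zero_of_finite⟩
    obtain ⟨φ, hφ⟩ := CommGroup.exists_apply_ne_one_of_hasEnoughRootsOfUnity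
      (Abelianization G) ℂ ha
    refine ⟨φ.comp Abelianization.of, ?_⟩
    intro h
    apply hφ
    have := congrArg (fun k : G →* ℂˣ => k g) h
    simpa using this
  -- (C) G' ≠ ⊤ → c = 2
  have hC : commutator G ≠ ⊤ → c = 2 := by
    intro hne
    obtain ⟨f, hf⟩ := hex hne
    have h1 := hlin f hf
    have hf' : f⁻¹ ≠ 1 := by
      intro h
      apply hf
      ext g
      have := congrArg (fun k : G →* ℂˣ => k g) h
      simp only [MonoidHom.inv_apply, MonoidHom.one_apply, inv_eq_one] at this
      rw [this]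
      rfl
    have h2 := hlin f⁻¹ hf'
    have h3 : ((f⁻¹ u : ℂˣ) : ℂ) = ((f u : ℂˣ) : ℂ)⁻¹ := by
      rw [MonoidHom.inv_apply, Units.val_inv_eq_inv_val]
    rw [h3] at h2
    have hz : ((f u : ℂˣ) : ℂ) ≠ 0 := Units.ne_zero _
    have h4 : ((f u : ℂˣ) : ℂ) = ((f u : ℂˣ) : ℂ)⁻¹ := by
      have : 1 - ((f u : ℂˣ) : ℂ) = 1 - ((f u : ℂˣ) : ℂ)⁻¹ := by rw [h1, h2]
      linear_combination -this
    have h5 : (((f u : ℂˣ) : ℂ) - 1) * (((f u : ℂˣ) : ℂ) + 1) = 0 := by
      have : ((f u : ℂˣ) : ℂ) * ((f u : ℂˣ) : ℂ) = 1 := by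
        nth_rewrite 2 [h4]
        exact mul_inv_cancel₀ hz
      linear_combination this
    rcases mul_eq_zero.mp h5 with h6 | h6
    · exfalso
      apply hc0
      rw [← h1, sub_eq_zero.mp h6, sub_self]
    · rw [← h1, eq_neg_of_add_eq_zero_left h6]
      norm_num
  refine ⟨⟨?_, ?_⟩, ⟨hC, hD⟩⟩
  · -- (a) → (b)
    rintro ⟨ho, hsup, -⟩ htop
    have hn : (Cfsg.oddCore G).Normal := h24_pPrimeCore_normal 2 G
    have hle := Subgroup.Normal.commutator_le_of_self_sup_commutative_eq_top
      (N := Cfsg.oddCore G) (H := Subgroup.zpowers u) (by rw [sup_comm]; exact hsup)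
      inferInstance
    rw [htop, top_le_iff] at hle
    have h1 : ¬ 2 ∣ Nat.card (Cfsg.oddCore G) := h24_pPrimeCore_not_dvd Nat.prime_two
    rw [hle, Subgroup.card_top] at h1
    apply h1
    rw [← ho]
    exact orderOf_dvd_natCard u
  · -- (b) → (a)
    intro hne
    have hc := hC hne
    obtain ⟨f, hf⟩ := hex hne
    have hfu : ((f u : ℂˣ) : ℂ) = -1 := by
      have := hlin f hf
      rw [hc] at this
      linear_combination -this
    -- homs with value 1 at u are trivial
    have htriv : ∀ k : G →* ℂˣ, ((k u : ℂˣ) : ℂ) = 1 → k = 1 := by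
      intro k hk
      by_contra hk1
      have := hlin k hk1
      rw [hk, hc] at this
      norm_num at this
    have hff : ∀ g : G, ((f g : ℂˣ) : ℂ) * ((f g : ℂˣ) : ℂ) = 1 := by
      have h1 : f * f = 1 := by
        apply htriv
        rw [MonoidHom.mul_apply, Units.val_mul, hfu]
        norm_num
      intro g
      have := congrArg (fun k : G →* ℂˣ => ((k g : ℂˣ) : ℂ)) h1
      simpa using this
    -- uniqueness of the nontrivial linear character
    have huniq : ∀ χ : IrrCharacter G, χ ≠ trivChar G → (χ : G → ℂ) 1 = 1 →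
        ∀ g : G, (χ : G → ℂ) g = ((f g : ℂˣ) : ℂ) := by
      intro χ hχ h1 g
      have hh : ∀ x : G, (((linHom χ h1).toHomUnits x : ℂˣ) : ℂ) = (χ : G → ℂ) x := by
        intro x
        rw [MonoidHom.coe_toHomUnits]
        rfl
      have hh1 : (linHom χ h1).toHomUnits ≠ 1 := by
        intro h
        apply hχ
        apply Subtype.ext
        funext x
        rw [← hh x, h]
        rfl
      have hhu : (((linHom χ h1).toHomUnits u : ℂˣ) : ℂ) = -1 := by
        have := hlin _ hh1
        rw [hc] at this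
        linear_combination -this
      have h2 : (linHom χ h1).toHomUnits * f = 1 := by
        apply htriv
        rw [MonoidHom.mul_apply, Units.val_mul, hfu, hhu]
        norm_num
      have h3 := congrArg (fun k : G →* ℂˣ => ((k g : ℂˣ) : ℂ)) h2
      simp only [MonoidHom.mul_apply, Units.val_mul, MonoidHom.one_apply, Units.val_one] at h3
      rw [hh g] at h3
      have hz : ((f g : ℂˣ) : ℂ) ≠ 0 := Units.ne_zero _
      have h4 := hff g
      apply mul_right_cancel₀ hz
      rw [h3, h4]
    -- nonlinear characters vanish at u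
    set χf : IrrCharacter G := ⟨fun g => ((f g : ℂˣ) : ℂ), isIrrCharacter_of_monoidHom f⟩
      with hχf
    have hχf_ne : χf ≠ trivChar G := by
      intro h
      have := congrArg (fun χ : IrrCharacter G => (χ : G → ℂ) u) h
      simp only [hχf, trivChar_apply] at this
      rw [hfu] at this
      norm_num at this
    have hmem : χf ∈ Finset.univ.erase (trivChar G) :=
      Finset.mem_erase.mpr ⟨hχf_ne, Finset.mem_univ _⟩
    rw [← Finset.add_sum_erase _ _ hmem] at horth
    have hχf1 : (χf : G → ℂ) 1 = 1 := by simp [hχf]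
    have hχfu : (χf : G → ℂ) u = -1 := hfu
    rw [hχf1, hχfu] at horth
    have h1 : ∀ χ ∈ (Finset.univ.erase (trivChar G)).erase χf, ∃ r : ℝ, 0 ≤ r ∧
        (χ : G → ℂ) 1 * (χ : G → ℂ) u = (r : ℂ) := by
      intro χ hχ
      have hne1 := (Finset.mem_erase.mp hχ).1
      have hne := (Finset.mem_erase.mp (Finset.mem_erase.mp hχ).2).1
      have hd2 : 2 ≤ charDegree (χ : G → ℂ) := by
        have hpos := irr_degree_pos χ
        by_contra hlt
        have h1 : charDegree (χ : G → ℂ) = 1 := by omega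
        have h1' : (χ : G → ℂ) 1 = 1 := by rw [hdeg, h1]; simp
        apply hne1
        apply Subtype.ext
        funext g
        exact huniq χ hne h1' g
      rcases hyp χ (hnetriv χ hne) with h | h
      · refine ⟨(charDegree (χ : G → ℂ) : ℝ) * ((charDegree (χ : G → ℂ) : ℝ) - 2), ?_, ?_⟩
        · have : (2 : ℝ) ≤ (charDegree (χ : G → ℂ) : ℝ) := by exact_mod_cast hd2
          apply mul_nonneg (by positivity) (by linarith)
        · have hu' : (χ : G → ℂ) u = (χ : G → ℂ) 1 - 2 := by
            rw [← hc, ← h]; ring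
          rw [hu', hdeg]
          push_cast
          ring
      · exact ⟨0, le_rfl, by rw [h, mul_zero]; simp⟩
    obtain ⟨R, hR, hsum, hzero⟩ := sum_real_nonneg _ _ h1
    rw [hsum] at horth
    have hR0 : R = 0 := by
      have : (1 : ℝ) + (1 * (-1) + R) = 0 := by exact_mod_cast horth
      linarith
    have hvanish : ∀ χ : IrrCharacter G, χ ≠ trivChar G → χ ≠ χf → (χ : G → ℂ) u = 0 := by
      intro χ hχ1 hχ2
      have := hzero hR0 χ (Finset.mem_erase.mpr ⟨hχ2, Finset.mem_erase.mpr ⟨hχ1, Finset.mem_univ _⟩⟩)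
      rcases mul_eq_zero.mp this with h | h
      · exact absurd h (irr_one_ne_zero χ)
      · exact h
    -- |C(u)| = 2
    have hcent : Nat.card (Subgroup.centralizer ({u} : Set G)) = 2 := by
      have h2 := card_centralizer_eq_sum u
      rw [← Finset.add_sum_erase _ _ (Finset.mem_univ (trivChar G)),
        ← Finset.add_sum_erase _ _ hmem] at h2
      have h3 : ∑ χ ∈ (Finset.univ.erase (trivChar G)).erase χf,
          (χ : G → ℂ) u * (χ : G → ℂ) u⁻¹ = 0 := by
        apply Finset.sum_eq_zero
        intro χ hχ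
        rw [hvanish χ (Finset.mem_erase.mp (Finset.mem_erase.mp hχ).2).1
          (Finset.mem_erase.mp hχ).1, zero_mul]
      have h4 : (χf : G → ℂ) u * (χf : G → ℂ) u⁻¹ = 1 := by
        show ((f u : ℂˣ) : ℂ) * ((f u⁻¹ : ℂˣ) : ℂ) = 1
        rw [← Units.val_mul, ← map_mul, mul_inv_cancel, map_one, Units.val_one]
      rw [h3, h4] at h2
      simp only [trivChar_apply] at h2
      have : (Nat.card (Subgroup.centralizer ({u} : Set G)) : ℂ) = ((2 : ℕ) : ℂ) := by
        rw [h2]; norm_num
      exact_mod_cast this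
    have hzle : Subgroup.zpowers u ≤ Subgroup.centralizer ({u} : Set G) := by
      rw [Subgroup.zpowers_le, Subgroup.mem_centralizer_iff]
      intro h hh
      rw [Set.mem_singleton_iff] at hh
      rw [hh]
    have hord : orderOf u = 2 := by
      have h1 : orderOf u ≤ 2 := by
        rw [← Nat.card_zpowers, ← hcent]
        exact Subgroup.card_le_of_le hzle
      have h2 : orderOf u ≠ 1 := fun h => hu (orderOf_eq_one_iff.mp h)
      have h3 : 0 < orderOf u := orderOf_pos u
      omega
    have hzeq : Subgroup.centralizer ({u} : Set G) = Subgroup.zpowers u := by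
      symm
      apply Subgroup.eq_of_le_of_card_ge hzle
      rw [Nat.card_zpowers, hord, hcent]
    refine ⟨hord, ?_, hzeq⟩
    -- the kernel of f has odd order
    have huu : u * u = 1 := by
      rw [← sq, ← hord, pow_orderOf_eq_one]
    have hKn : (MonoidHom.ker f).Normal := MonoidHom.normal_ker f
    have hQ : ∀ x ∈ MonoidHom.ker f, u * x * u⁻¹ ∈ MonoidHom.ker f :=
      fun x hx => hKn.conj_mem x hx u
    have huK : u ∉ MonoidHom.ker f := by
      intro h
      rw [MonoidHom.mem_ker] at h
      rw [h] at hfu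
      norm_num at hfu
    have hfpf : ∀ x ∈ MonoidHom.ker f, u * x * u⁻¹ = x → x = 1 := by
      intro x hx hxu
      have hxc : x ∈ Subgroup.centralizer ({u} : Set G) := by
        rw [Subgroup.mem_centralizer_iff]
        intro h hh
        rw [Set.mem_singleton_iff] at hh
        rw [hh]
        calc u * x = u * x * u⁻¹ * u := by group
          _ = x * u := by rw [hxu]
      rw [hzeq, Subgroup.mem_zpowers_iff] at hxc
      obtain ⟨i, rfl⟩ := hxc
      rcases Int.emod_two_eq_zero_or_one i with h | h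
      · have : i = 2 * (i / 2) := by omega
        rw [this, zpow_mul, zpow_two, huu, one_zpow]
      · exfalso
        apply huK
        have : i = 2 * (i / 2) + 1 := by omega
        rw [this, zpow_add, zpow_mul, zpow_two, huu, one_zpow, one_mul, zpow_one] at hx
        exact hx
    have hinv := fpf_invol_inverts (MonoidHom.ker f) u huu hQ hfpf
    have hodd : ¬ 2 ∣ Nat.card (MonoidHom.ker f) := by
      intro h2
      have : Fact (Nat.Prime 2) := ⟨Nat.prime_two⟩
      obtain ⟨t, ht⟩ := exists_prime_orderOf_dvd_card' (G := MonoidHom.ker f) 2 h2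
      have ht' : orderOf (t : G) = 2 := by rw [Subgroup.orderOf_coe]; exact ht
      have htt : (t : G) * (t : G) = 1 := by
        rw [← sq, ← ht', pow_orderOf_eq_one]
      have h3 := hinv (t : G) t.2
      have h4 : (t : G)⁻¹ = (t : G) := inv_eq_of_mul_eq_one_left htt
      rw [h4] at h3
      have h5 := hfpf (t : G) t.2 h3
      rw [h5, orderOf_one] at ht'
      norm_num at ht'
    have hKle : MonoidHom.ker f ≤ Cfsg.oddCore G :=
      h24_le_pPrimeCore Nat.prime_two (MonoidHom.ker f) hodd
    rw [eq_top_iff]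
    intro g _
    by_cases hg : g ∈ MonoidHom.ker f
    · exact Subgroup.mem_sup_right (hKle hg)
    · have h1 : ((f g : ℂˣ) : ℂ) = -1 := by
        have h2 := hff g
        have h3 : (((f g : ℂˣ) : ℂ) - 1) * (((f g : ℂˣ) : ℂ) + 1) = 0 := by
          linear_combination h2
        rcases mul_eq_zero.mp h3 with h4 | h4
        · exfalso
          apply hg
          rw [MonoidHom.mem_ker]
          exact Units.ext (sub_eq_zero.mp h4)
        · exact eq_neg_of_add_eq_zero_left h4
      have h2 : g * u ∈ MonoidHom.ker f := by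
        rw [MonoidHom.mem_ker]
        apply Units.ext
        rw [map_mul, Units.val_mul, h1, hfu]
        norm_num
      have h3 : g = u⁻¹ * (u * (g * u) * u⁻¹) := by group
      rw [h3]
      exact Subgroup.mul_mem _ (Subgroup.mem_sup_left (Subgroup.inv_mem _ (Subgroup.mem_zpowers u)))
        (Subgroup.mem_sup_right (hKle (hQ _ h2)))

end Cfsg.Agent.S4757
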