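import Cfsg.Statements.S4784
import Mathlib
import Cfsg.Agent.Helper25.FSCount
import Cfsg.Agent.Helper2.Ind

set_option autoImplicit false
open Cfsg

namespace Cfsg.Agent.S4784

open Cfsg.Agent.Helper25 Cfsg.Agent.Helper24 Cfsg.Agent.Helper2 in
theorem sum_comp_quotient_mk {G : Type*} [Group G] [Fintype G] (N : Subgroup G) [N.Normal]
    [Fintype (G ⧸ N)] (F : G ⧸ N → ℂ) :
    ∑ g : G, F (QuotientGroup.mk g) = (Nat.card N : ℂ) * ∑ q : G ⧸ N, F q := by
  classical
  rw [← Fintype.sum_fiberwise (fun g : G => (QuotientGroup.mk g : G ⧸ N))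
    (fun g => F (QuotientGroup.mk g)), Finset.mul_sum]
  apply Finset.sum_congr rfl
  intro q _
  have h1 : ∀ i : {i : G // (QuotientGroup.mk i : G ⧸ N) = q},
      F (QuotientGroup.mk i.1) = F q := fun i => by rw [i.2]
  rw [Finset.sum_congr rfl (fun i _ => h1 i), Finset.sum_const, Finset.card_univ, nsmul_eq_mul]
  congr 1
  have h2 := QuotientGroup.card_preimage_mk N ({q} : Set (G ⧸ N))
  have h3 : Nat.card ({q} : Set (G ⧸ N)) = 1 := by
    rw [Nat.card_eq_one_iff_unique]
    exact ⟨inferInstance, ⟨⟨q, rfl⟩⟩⟩
  rw [h3, mul_one] at h2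
  rw [← h2, ← Nat.card_eq_fintype_card]
  rfl

open Cfsg.Agent.Helper25 Cfsg.Agent.Helper24 Cfsg.Agent.Helper2 in
theorem indFun_one_mul_core {G : Type*} [Group G] [Fintype G] (H : Subgroup G) (x n : G)
    (hn : n ∈ H.normalCore) :
    indFun H (fun _ : H => (1 : ℂ)) (x * n) = indFun H (fun _ : H => (1 : ℂ)) x := by
  rw [indFun_apply, indFun_apply]
  congr 1
  apply Finset.sum_congr rfl
  intro y _
  have hy : y⁻¹ * n * y ∈ H := by
    have := hn y⁻¹
    rwa [inv_inv] at this
  have e : y⁻¹ * (x * n) * y = (y⁻¹ * x * y) * (y⁻¹ * n * y) := by group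
  by_cases h : y⁻¹ * x * y ∈ H
  · rw [extendByZero_of_mem H _ h, extendByZero_of_mem H _ (by rw [e]; exact H.mul_mem h hy)]
  · have h' : y⁻¹ * (x * n) * y ∉ H := by
      intro hc
      apply h
      rw [e] at hc
      exact (H.mul_mem_cancel_right hy).mp hc
    rw [extendByZero_of_not_mem H _ h, extendByZero_of_not_mem H _ h']

/-- Let H be a subgroup of the finite group G and consider the permutation character of G on the cosets of H (the function induced from the principal character of H). Then exactly one irreducible constituent of it is real-valued with Frobenius–Schur indicator +1 (namely the principal character) if and only if the normal core of H has odd index in G. -/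
theorem result {G : Type*} [Group G] [Fintype G] (H : Subgroup G) : Nat.card {χ : Cfsg.IrrCharacter G // Cfsg.classInner (Cfsg.indFun H (fun _ : H => (1 : ℂ))) (χ : G → ℂ) ≠ 0 ∧ (∀ g : G, (starRingEnd ℂ) ((χ : G → ℂ) g) = (χ : G → ℂ) g) ∧ (Nat.card G : ℂ)⁻¹ * ∑ g : G, (χ : G → ℂ) (g * g) = 1} = 1 ↔ Odd H.normalCore.index := by
  classical
  open Cfsg.Agent.Helper25 Cfsg.Agent.Helper24 Cfsg.Agent.Helper2 in
  have hA : ∀ χ : IrrCharacter G, classInner (indFun H (fun _ : H => (1 : ℂ))) (χ : G → ℂ) =
      (Nat.card H : ℂ)⁻¹ * ∑ h : H, (χ : G → ℂ) (h : G)⁻¹ := by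
    intro χ
    rw [frobenius_reciprocity H _ _ (char_isClassFunction (irr_isCharacter χ))]
    unfold classInner
    congr 1
    apply Finset.sum_congr rfl
    intro h _
    rw [one_mul, irr_inv]
  have hH : (Nat.card H : ℂ) ≠ 0 := by exact_mod_cast Nat.card_pos.ne'
  have hG : (Nat.card G : ℂ) ≠ 0 := card_ne_zero
  have htriv : classInner (indFun H (fun _ : H => (1 : ℂ))) (trivChar G : G → ℂ) ≠ 0 ∧
      (∀ g : G, (starRingEnd ℂ) ((trivChar G : G → ℂ) g) = (trivChar G : G → ℂ) g) ∧
      (Nat.card G : ℂ)⁻¹ * ∑ g : G, (trivChar G : G → ℂ) (g * g) = 1 := by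
    refine ⟨?_, ?_, ?_⟩
    · rw [hA]
      simp only [trivChar_apply, Finset.sum_const, Finset.card_univ, nsmul_eq_mul, mul_one]
      rw [← Nat.card_eq_fintype_card, inv_mul_cancel₀ hH]
      exact one_ne_zero
    · intro g
      simp only [trivChar_apply, map_one]
    · simp only [trivChar_apply, Finset.sum_const, Finset.card_univ, nsmul_eq_mul, mul_one]
      rw [← Nat.card_eq_fintype_card, inv_mul_cancel₀ hG]
  constructor
  · -- only the trivial character qualifies ⇒ odd index of the core
    intro hcard
    obtain ⟨hsub, -⟩ := Nat.card_eq_one_iff_unique.mp hcard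
    -- counting: elements whose square lies in H lie in H
    have hkey : ∀ u : G, u * u ∈ H → u ∈ H := by
      by_contra hcon
      push Not at hcon
      obtain ⟨u₀, hu₀, hu₀'⟩ := hcon
      -- ∑_χ ν(χ) m_χ = |H|⁻¹ #{u : u² ∈ H}
      have h1 : ∑ χ : IrrCharacter G, fsInd (χ : G → ℂ) *
          classInner (indFun H (fun _ : H => (1 : ℂ))) (χ : G → ℂ) =
          (Nat.card H : ℂ)⁻¹ * ((Finset.univ.filter (fun u : G => u * u ∈ H)).card : ℂ) := by
        simp only [hA]
        calc ∑ χ : IrrCharacter G, fsInd (χ : G → ℂ) *
              ((Nat.card H : ℂ)⁻¹ * ∑ h : H, (χ : G → ℂ) (h : G)⁻¹)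
            = (Nat.card H : ℂ)⁻¹ * ∑ χ : IrrCharacter G, ∑ h : H,
                fsInd (χ : G → ℂ) * (χ : G → ℂ) (h : G)⁻¹ := by
              rw [Finset.mul_sum]
              apply Finset.sum_congr rfl; intro χ _
              rw [Finset.mul_sum, Finset.mul_sum, Finset.mul_sum]
              apply Finset.sum_congr rfl; intro h _
              ring
          _ = (Nat.card H : ℂ)⁻¹ * ∑ h : H, ∑ χ : IrrCharacter G,
                fsInd (χ : G → ℂ) * (χ : G → ℂ) (h : G)⁻¹ := by rw [Finset.sum_comm]
          _ = (Nat.card H : ℂ)⁻¹ * ∑ h : H,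
                ((Finset.univ.filter (fun u : G => u * u = (h : G)⁻¹)).card : ℂ) := by
              congr 1
              apply Finset.sum_congr rfl; intro h _
              exact fs_sum_eq_card_sqrt _
          _ = _ := by
              congr 1
              rw [← Nat.cast_sum]
              congr 1
              rw [← Finset.card_biUnion]
              · congr 1
                ext u
                simp only [Finset.mem_biUnion, Finset.mem_univ, Finset.mem_filter, true_and]
                constructor
                · rintro ⟨h, hh⟩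
                  rw [hh]
                  exact H.inv_mem h.2
                · intro hu
                  exact ⟨⟨(u * u)⁻¹, H.inv_mem hu⟩, by simp⟩
              · intro h₁ _ h₂ _ hne
                rw [Function.onFun, Finset.disjoint_left]
                intro u hu1 hu2
                simp only [Finset.mem_filter, Finset.mem_univ, true_and] at hu1 hu2
                apply hne
                apply Subtype.ext
                have := hu1.symm.trans hu2
                exact inv_injective this
      -- the real part of the left side is at most 1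
      have h2 : (∑ χ : IrrCharacter G, fsInd (χ : G → ℂ) *
          classInner (indFun H (fun _ : H => (1 : ℂ))) (χ : G → ℂ)).re ≤ 1 := by
        rw [← Finset.add_sum_erase _ _ (Finset.mem_univ (trivChar G)), Complex.add_re]
        have h3 : (fsInd (trivChar G : G → ℂ) *
            classInner (indFun H (fun _ : H => (1 : ℂ))) (trivChar G : G → ℂ)).re = 1 := by
          have e1 : fsInd (trivChar G : G → ℂ) = 1 := htriv.2.2
          have e2 : classInner (indFun H (fun _ : H => (1 : ℂ))) (trivChar G : G → ℂ) = 1 := by
            rw [hA]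
            simp only [trivChar_apply, Finset.sum_const, Finset.card_univ, nsmul_eq_mul, mul_one]
            rw [← Nat.card_eq_fintype_card, inv_mul_cancel₀ hH]
          rw [e1, e2, mul_one, Complex.one_re]
        rw [h3, Complex.re_sum]
        have h4 : ∑ χ ∈ Finset.univ.erase (trivChar G), (fsInd (χ : G → ℂ) *
            classInner (indFun H (fun _ : H => (1 : ℂ))) (χ : G → ℂ)).re ≤ 0 := by
          apply Finset.sum_nonpos
          intro χ hχ
          have hne := (Finset.mem_erase.mp hχ).1
          obtain ⟨m, hm⟩ := irr_sum_subgroup χ H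
          have hmχ : classInner (indFun H (fun _ : H => (1 : ℂ))) (χ : G → ℂ) = (m : ℂ) := by
            rw [hA]
            have : ∑ h : H, (χ : G → ℂ) (h : G)⁻¹ = ∑ h : H, (χ : G → ℂ) (h : G) := by
              rw [← Equiv.sum_comp (Equiv.inv H)]
              apply Finset.sum_congr rfl; intro h _
              simp
            rw [this, hm, ← mul_assoc, inv_mul_cancel₀ hH, one_mul]
          rw [hmχ]
          rcases fsInd_cases χ with h5 | h5
          · rw [h5.1, zero_mul, Complex.zero_re]
          · rcases h5.1 with h6 | h6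
            · -- ν = 1: then m = 0 by uniqueness
              by_cases hm0 : m = 0
              · rw [hm0]; simp
              · exfalso
                apply hne
                have hχS : classInner (indFun H (fun _ : H => (1 : ℂ))) (χ : G → ℂ) ≠ 0 ∧
                    (∀ g : G, (starRingEnd ℂ) ((χ : G → ℂ) g) = (χ : G → ℂ) g) ∧
                    (Nat.card G : ℂ)⁻¹ * ∑ g : G, (χ : G → ℂ) (g * g) = 1 := by
                  refine ⟨?_, ?_, h6⟩
                  · rw [hmχ]; exact_mod_cast hm0
                  · intro g
                    exact Complex.conj_eq_iff_im.mpr (h5.2 g)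
                have := @Subsingleton.elim _ hsub ⟨χ, hχS⟩ ⟨trivChar G, htriv⟩
                exact congrArg Subtype.val this
            · rw [h6]
              simp
        linarith
      rw [h1] at h2
      -- but #{u : u² ∈ H} > |H|
      have h5 : Nat.card H < (Finset.univ.filter (fun u : G => u * u ∈ H)).card := by
        have h6 : (Finset.univ.filter (fun u : G => u ∈ H)) ⊂
            (Finset.univ.filter (fun u : G => u * u ∈ H)) := by
          rw [Finset.ssubset_iff_of_subset]
          · exact ⟨u₀, by simp [hu₀], by simp [hu₀']⟩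
          · intro u hu
            simp only [Finset.mem_filter, Finset.mem_univ, true_and] at hu ⊢
            exact H.mul_mem hu hu
        have h7 := Finset.card_lt_card h6
        rwa [← Fintype.card_subtype, ← Nat.card_eq_fintype_card] at h7
      have h8 : (1 : ℝ) < ((Nat.card H : ℂ)⁻¹ *
          ((Finset.univ.filter (fun u : G => u * u ∈ H)).card : ℂ)).re := by
        have e : ((Nat.card H : ℂ)⁻¹ *
            ((Finset.univ.filter (fun u : G => u * u ∈ H)).card : ℂ)) =
            (((Nat.card H : ℝ)⁻¹ *
              ((Finset.univ.filter (fun u : G => u * u ∈ H)).card : ℝ) : ℝ) : ℂ) := by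
          push_cast
          rfl
        rw [e, Complex.ofReal_re]
        have hHpos : (0 : ℝ) < (Nat.card H : ℝ) := by exact_mod_cast Nat.card_pos
        rw [inv_mul_eq_div, lt_div_iff₀ hHpos, one_mul]
        exact_mod_cast h5
      linarith
    -- hence the quotient by the core has no involution
    have hcore : ∀ u : G, u * u ∈ H.normalCore → u ∈ H.normalCore := by
      intro u hu b
      apply hkey
      have := hu b
      have e : b * u * b⁻¹ * (b * u * b⁻¹) = b * (u * u) * b⁻¹ := by group
      rw [e]
      exact this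
    rw [Nat.odd_iff]
    by_contra hcon
    have h2 : 2 ∣ Nat.card (G ⧸ H.normalCore) := by
      rw [← Subgroup.index_eq_card]
      omega
    have : Fact (Nat.Prime 2) := ⟨Nat.prime_two⟩
    obtain ⟨q, hq⟩ := exists_prime_orderOf_dvd_card' (G := G ⧸ H.normalCore) 2 h2
    obtain ⟨u, rfl⟩ := QuotientGroup.mk_surjective q
    have h3 : ((u * u : G) : G ⧸ H.normalCore) = 1 := by
      rw [QuotientGroup.mk_mul, ← sq, ← hq, pow_orderOf_eq_one]
    rw [QuotientGroup.eq_one_iff] at h3
    have h4 := hcore u h3
    rw [← QuotientGroup.eq_one_iff] at h4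
    rw [h4, orderOf_one] at hq
    norm_num at hq
  · intro hodd
    rw [Nat.card_eq_one_iff_unique]
    refine ⟨⟨?_⟩, ⟨⟨trivChar G, htriv⟩⟩⟩
    have hall : ∀ χ : IrrCharacter G,
        (classInner (indFun H (fun _ : H => (1 : ℂ))) (χ : G → ℂ) ≠ 0 ∧
        (∀ g : G, (starRingEnd ℂ) ((χ : G → ℂ) g) = (χ : G → ℂ) g) ∧
        (Nat.card G : ℂ)⁻¹ * ∑ g : G, (χ : G → ℂ) (g * g) = 1) → χ = trivChar G := by
      intro χ ⟨hm, hreal, hν⟩
      -- the core lies in the kernel of χ
      have hker : H.normalCore ≤ irrKer χ := by
        intro n hn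
        rw [mem_irrKer]
        have hπ := indFun_isClassFunction H (fun _ : H => (1 : ℂ))
        have h1 := irr_sum_classFun_mul χ (indFun H (fun _ : H => (1 : ℂ))) hπ n
        have h2 : ∑ x : G, indFun H (fun _ : H => (1 : ℂ)) x * (χ : G → ℂ) (x * n) =
            ∑ x : G, indFun H (fun _ : H => (1 : ℂ)) x * (χ : G → ℂ) x := by
          rw [← Equiv.sum_comp (Equiv.mulRight n⁻¹)]
          apply Finset.sum_congr rfl; intro x _
          simp only [Equiv.coe_mulRight]
          rw [indFun_one_mul_core H x n⁻¹ (H.normalCore.inv_mem hn), inv_mul_cancel_right]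
        have h3 : ∑ x : G, indFun H (fun _ : H => (1 : ℂ)) x * (χ : G → ℂ) x ≠ 0 := by
          intro h0
          apply hm
          unfold classInner
          simp only [hreal]
          rw [h0, mul_zero]
        rw [h2] at h1
        have hne := irr_one_ne_zero χ
        rw [eq_div_iff hne] at h1
        exact (mul_left_cancel₀ h3 h1).symm
      obtain ⟨ψ, hψ⟩ := exists_deflate χ H.normalCore hker
      have hcop : (Nat.card (G ⧸ H.normalCore)).Coprime 2 := by
        rw [← Subgroup.index_eq_card, Nat.coprime_comm,
          Nat.Prime.coprime_iff_not_dvd Nat.prime_two]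
        intro h2
        have := Nat.odd_iff.mp hodd
        omega
      by_contra hne
      have hψne : ψ ≠ trivChar (G ⧸ H.normalCore) := by
        intro h
        apply hne
        apply Subtype.ext
        funext g
        rw [← hψ g, h]
        rfl
      have h1 := irr_bil ψ (trivChar (G ⧸ H.normalCore))
      rw [if_neg hψne] at h1
      unfold bil at h1
      have h2 : ∑ q : G ⧸ H.normalCore, (ψ : G ⧸ H.normalCore → ℂ) q = 0 := by
        rcases mul_eq_zero.mp h1 with h | h
        · exact absurd (inv_eq_zero.mp h) card_ne_zero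
        · simpa [trivChar_apply] using h
      have h3 : ∑ g : G, (χ : G → ℂ) (g * g) = 0 := by
        have e1 : ∀ g : G, (χ : G → ℂ) (g * g) =
            (fun q : G ⧸ H.normalCore => (ψ : G ⧸ H.normalCore → ℂ) (q ^ 2))
              (QuotientGroup.mk g) := by
          intro g
          rw [← hψ]
          simp [sq]
        rw [Finset.sum_congr rfl (fun g _ => e1 g),
          sum_comp_quotient_mk H.normalCore
            (fun q : G ⧸ H.normalCore => (ψ : G ⧸ H.normalCore → ℂ) (q ^ 2))]
        have e2 : ∑ q : G ⧸ H.normalCore, (ψ : G ⧸ H.normalCore → ℂ) (q ^ 2) =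
            ∑ q : G ⧸ H.normalCore, (ψ : G ⧸ H.normalCore → ℂ) q :=
          Equiv.sum_comp (powCoprime hcop) (fun q => (ψ : G ⧸ H.normalCore → ℂ) q)
        rw [e2, h2, mul_zero]
      rw [h3, mul_zero] at hν
      exact zero_ne_one hν
    intro a b
    apply Subtype.ext
    rw [hall a.1 a.2, hall b.1 b.2]

end Cfsg.Agent.S4784
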