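import Cfsg.Statements.S4796
import Mathlib
import Cfsg.Agent.S4798
import Cfsg.Agent.Helper2.IndNormal
import Cfsg.Agent.Helper2.FrobGroup
import Cfsg.Agent.Helper2.Frobenius
import Cfsg.Agent.Helper25.CharKer
import Cfsg.Agent.S0034

set_option autoImplicit false
open Cfsg

namespace Cfsg.Agent.S4796

open Cfsg.Agent.Helper25 Cfsg.Agent.Helper2
open scoped ComplexConjugate

/-- Let G be a finite group with a faithful irreducible complex character χ whose codegree #G / χ(1) is a prime p (for a faithful character the kernel is trivial, so the codegree is #G / χ(1)). Then either G is cyclic of order p, or G is a Frobenius group whose Frobenius kernel has order p: some proper non-trivial subgroup H satisfies H ∩ gHg⁻¹ = 1 for every element g outside H, and the set of elements lying in no conjugate of H, together with the identity, has exactly p elements. -/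
theorem result {G : Type*} [Group G] [Finite G] (χ : Cfsg.IrrCharacter G) (hfaith : ∀ g : G, (χ : G → ℂ) g = (χ : G → ℂ) 1 → g = 1) (p : ℕ) (hp : p.Prime) (hcod : Nat.card G = p * Cfsg.charDegree (χ : G → ℂ)) : (IsCyclic G ∧ Nat.card G = p) ∨ ∃ H : Subgroup G, Cfsg.IsFrobeniusComplement H ∧ Nat.card ↥(Cfsg.frobeniusKernel H) = p := by
  classical
  haveI : Fintype G := Fintype.ofFinite G
  haveI : Fact p.Prime := ⟨hp⟩
  set d := charDegree (χ : G → ℂ) with hd
  have hdpos : 0 < d := irr_degree_pos χ
  have hdp : d < p := by
    have h1 := sum_irr_degree_sq_nat (G := G)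
    have h2 : d ^ 2 ≤ Nat.card G := by
      rw [← h1]
      exact Finset.single_le_sum (f := fun ψ : IrrCharacter G => charDegree (ψ : G → ℂ) ^ 2)
        (fun _ _ => Nat.zero_le _) (Finset.mem_univ χ)
    rw [hcod] at h2
    have h3 : d ≤ p := by nlinarith
    rcases Nat.lt_or_eq_of_le h3 with h | h
    · exact h
    · exfalso
      have h4 := Finset.add_sum_erase Finset.univ
        (fun ψ : IrrCharacter G => charDegree (ψ : G → ℂ) ^ 2) (Finset.mem_univ χ)
      rw [h1, hcod] at h4
      have h5 : ∑ ψ ∈ Finset.univ.erase χ, charDegree (ψ : G → ℂ) ^ 2 = 0 := by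
        have h6 : charDegree (χ : G → ℂ) ^ 2 = p * d := by
          rw [← hd, h]
          ring
        omega
      have h6 : trivChar G ≠ χ := by
        intro h7
        have h8 : charDegree (trivChar G : G → ℂ) = d := by rw [h7]
        rw [charDegree_trivChar] at h8
        rw [← h8] at h
        exact hp.one_lt.ne h
      have h7 := Finset.sum_eq_zero_iff.mp h5 (trivChar G)
        (Finset.mem_erase.mpr ⟨h6, Finset.mem_univ _⟩)
      rw [charDegree_trivChar] at h7
      norm_num at h7
  by_cases hd1 : d = 1
  · left
    have hc : Nat.card G = p := by rw [hcod, hd1, mul_one]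
    exact ⟨isCyclic_of_prime_card hc, hc⟩
  · right
    have hd2 : 1 < d := by omega
    obtain ⟨P⟩ : Nonempty (Sylow p G) := inferInstance
    haveI : Fintype ↥(P : Subgroup G) := Fintype.ofFinite _
    have hpd : ¬ p ∣ d := Nat.not_dvd_of_pos_of_lt hdpos hdp
    have hcardP : Nat.card ↥(P : Subgroup G) = p := by
      rw [P.card_eq_multiplicity, hcod, Nat.factorization_mul hp.ne_zero hdpos.ne',
        Finsupp.add_apply, hp.factorization_self, Nat.factorization_eq_zero_of_not_dvd hpd]
      simp
    have hidx : (P : Subgroup G).index = d := by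
      have h1 := (P : Subgroup G).index_mul_card
      rw [hcardP, hcod, mul_comm p d] at h1
      exact Nat.eq_of_mul_eq_mul_right hp.pos h1
    haveI hnorm : (P : Subgroup G).Normal := by
      have h1 := card_sylow_modEq_one p G
      have h2 : Nat.card (Sylow p G) ∣ (P : Subgroup G).index := P.card_dvd_index
      rw [hidx] at h2
      have h3 : Nat.card (Sylow p G) ≤ d := Nat.le_of_dvd hdpos h2
      have h4 : Nat.card (Sylow p G) = 1 := by
        unfold Nat.ModEq at h1
        rw [Nat.mod_eq_of_lt (by omega), Nat.mod_eq_of_lt hp.one_lt] at h1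
        exact h1
      haveI : Subsingleton (Sylow p G) := (Nat.card_eq_one_iff_unique.mp h4).1
      exact Sylow.normal_of_subsingleton P
    obtain ⟨θ, hθ⟩ := Cfsg.Agent.S4798.exists_irr_ind p χ 1 (by rw [pow_one]; exact hcod) P
    -- the stabilizer of θ has exactly p elements
    have hstab : (Finset.univ.filter (fun x : G =>
        (θ : ↥(P : Subgroup G) → ℂ) = conjChar (P : Subgroup G) (θ : ↥(P : Subgroup G) → ℂ) x⁻¹)).card
        = p := by
      have h1 : classInner (χ : G → ℂ) (χ : G → ℂ) = 1 := by
        rw [classInner_irr_irr χ χ, if_pos rfl]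
      have h2 : classInner (χ : G → ℂ) (χ : G → ℂ)
          = classInner (θ : ↥(P : Subgroup G) → ℂ) (fun h : ↥(P : Subgroup G) => (χ : G → ℂ) h) := by
        conv_lhs => rw [hθ]
        rw [frobenius_reciprocity (P : Subgroup G) (θ : ↥(P : Subgroup G) → ℂ)
          (indFun (P : Subgroup G) (θ : ↥(P : Subgroup G) → ℂ))
          (indFun_isClassFunction (P : Subgroup G) _)]
        rw [← hθ]
      have h3 : (fun h : ↥(P : Subgroup G) => (χ : G → ℂ) h)
          = (Nat.card ↥(P : Subgroup G) : ℂ)⁻¹ •
            ∑ x : G, conjChar (P : Subgroup G) (θ : ↥(P : Subgroup G) → ℂ) x⁻¹ := by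
        rw [hθ]
        exact indFun_restrict_normal (P : Subgroup G) (θ : ↥(P : Subgroup G) → ℂ)
      rw [h2, h3, classInner_smul_right, classInner_sum_right,
        Finset.sum_congr rfl (fun x _ => classInner_irr_conjChar (P : Subgroup G) θ.2 θ.2 x⁻¹),
        Finset.sum_boole, hcardP, map_inv₀, map_natCast] at h1
      have hp0 : (p : ℂ) ≠ 0 := by exact_mod_cast hp.ne_zero
      have h4 : ((Finset.univ.filter (fun x : G =>
        (θ : ↥(P : Subgroup G) → ℂ) = conjChar (P : Subgroup G) (θ : ↥(P : Subgroup G) → ℂ) x⁻¹)).card : ℂ)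
          = (p : ℂ) := by
        field_simp at h1
        exact h1
      exact_mod_cast h4
    -- complement
    have hcop : Nat.Coprime (Nat.card ↥(P : Subgroup G)) (P : Subgroup G).index := by
      rw [hcardP, hidx]
      exact (Nat.Prime.coprime_iff_not_dvd hp).mpr hpd
    obtain ⟨H, hH⟩ := Subgroup.exists_right_complement'_of_coprime hcop
    have hcardH : Nat.card ↥H = d := by
      have h1 := hH.card_mul_card
      rw [hcardP, hcod] at h1
      exact Nat.eq_of_mul_eq_mul_left hp.pos h1
    have hPH : (P : Subgroup G) ⊓ H = ⊥ := disjoint_iff.mp hH.disjoint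
    have hsup : (P : Subgroup G) ⊔ H = ⊤ := hH.sup_eq_top
    -- fixed-point-freeness
    have hfpf : ∀ h ∈ H, h ≠ 1 → ∀ u ∈ (P : Subgroup G), u ≠ 1 → h * u ≠ u * h := by
      intro h hhH hh1 u hu hu1 hcomm
      have hcent : ∀ y ∈ (P : Subgroup G), h * y = y * h := by
        intro y hy
        have h1 : (⟨y, hy⟩ : ↥(P : Subgroup G)) ∈ Subgroup.zpowers (⟨u, hu⟩ : ↥(P : Subgroup G)) :=
          mem_zpowers_of_prime_card hcardP (fun h0 => hu1 (congrArg Subtype.val h0))
        obtain ⟨k, hk⟩ := Subgroup.mem_zpowers_iff.mp h1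
        have h2 : y = u ^ k := by
          have := congrArg Subtype.val hk
          simpa using this.symm
        rw [h2]
        exact (Commute.zpow_right hcomm k).eq
      have hhP : h ∉ (P : Subgroup G) := by
        intro hhP
        have : h ∈ (P : Subgroup G) ⊓ H := ⟨hhP, hhH⟩
        rw [hPH, Subgroup.mem_bot] at this
        exact hh1 this
      have hsub : insert h (Finset.univ.filter (fun x : G => x ∈ (P : Subgroup G))) ⊆
          Finset.univ.filter (fun x : G =>
            (θ : ↥(P : Subgroup G) → ℂ) = conjChar (P : Subgroup G) (θ : ↥(P : Subgroup G) → ℂ) x⁻¹) := by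
        intro x hx
        rw [Finset.mem_filter]
        refine ⟨Finset.mem_univ _, ?_⟩
        rcases Finset.mem_insert.mp hx with hx | hx
        · rw [hx]
          funext y
          rw [conjChar_apply]
          refine congrArg _ (Subtype.ext ?_)
          show (y : G) = h⁻¹ * y * h⁻¹⁻¹
          rw [inv_inv, mul_assoc, ← hcent y y.2, ← mul_assoc, inv_mul_cancel, one_mul]
        · rw [Finset.mem_filter] at hx
          exact (conjChar_of_mem (P : Subgroup G) (θ : ↥(P : Subgroup G) → ℂ)
            (Cfsg.Agent.Helper1.isClassFunction_irr θ) ((P : Subgroup G).inv_mem hx.2)).symm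
      have hcard := Finset.card_le_card hsub
      rw [hstab, Finset.card_insert_of_notMem (by
        rw [Finset.mem_filter]
        exact fun h0 => hhP h0.2)] at hcard
      have hPcard : (Finset.univ.filter (fun x : G => x ∈ (P : Subgroup G))).card = p :=
        (Nat.subtype_card _ (fun x => by simp)).symm.trans hcardP
      omega
    have hFrob : IsFrobeniusComplement H := by
      refine ⟨?_, ?_, ?_⟩
      · intro hbot
        rw [hbot, Subgroup.card_bot] at hcardH
        omega
      · intro htop
        rw [htop, Subgroup.card_top, hcod] at hcardH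
        have : p * d = 1 * d := by omega
        have := Nat.eq_of_mul_eq_mul_right hdpos this
        exact hp.one_lt.ne' this
      · intro g hg
        rw [eq_bot_iff]
        intro x hx
        rw [Subgroup.mem_inf, frobC_mem_conj_smul] at hx
        rw [Subgroup.mem_bot]
        by_contra hx1
        obtain ⟨u, hu, h₀, hh₀, rfl⟩ := frob_exists_mul (P : Subgroup G) H hsup g
        have hu1 : u ≠ 1 := by
          intro h0
          apply hg
          rw [h0, one_mul]
          exact hh₀
        have hy' : u⁻¹ * x * u ∈ H := by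
          have h1 := H.mul_mem (H.mul_mem hh₀ hx.2) (H.inv_mem hh₀)
          have h2 : h₀ * ((u * h₀)⁻¹ * x * (u * h₀)) * h₀⁻¹ = u⁻¹ * x * u := by group
          rw [h2] at h1
          exact h1
        have h3 : x⁻¹ * (u⁻¹ * x * u) ∈ (P : Subgroup G) ⊓ H := by
          refine ⟨?_, H.mul_mem (H.inv_mem hx.1) hy'⟩
          have h4 : x⁻¹ * (u⁻¹ * x * u) = (x⁻¹ * u⁻¹ * x⁻¹⁻¹) * u := by group
          rw [h4]
          exact (P : Subgroup G).mul_mem
            (hnorm.conj_mem _ ((P : Subgroup G).inv_mem hu) _) hu
        rw [hPH, Subgroup.mem_bot] at h3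
        apply hfpf x hx.1 hx1 u hu hu1
        have h5 : u⁻¹ * x * u = x := by
          have := congrArg (fun t => x * t) h3
          simpa using this
        have h6 := congrArg (fun t => u * t) h5
        simp only [← mul_assoc, mul_inv_cancel, one_mul] at h6
        exact h6
    refine ⟨H, hFrob, ?_⟩
    rw [(Cfsg.Agent.S0034.result H hFrob).1]
    have h1 := H.index_mul_card
    rw [hcardH, hcod] at h1
    exact Nat.eq_of_mul_eq_mul_right hdpos h1

end Cfsg.Agent.S4796
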