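import Cfsg.Statements.S4797
import Cfsg.Agent.Helper25.CharKer

set_option autoImplicit false
open Cfsg

namespace Cfsg.Agent.S4797

open Cfsg.Agent.Helper25 in
open scoped commutatorElement in
theorem no_perfect.{u} (H : Type u) [Group H] [Finite H] (hperf : commutator H = ⊤)
    (ψ : IrrCharacter H) (hfaith : ∀ x : H, (ψ : H → ℂ) x = (ψ : H → ℂ) 1 → x = 1)
    (q : ℕ) (hq : q.Prime) (hcard : Nat.card H = q * charDegree (ψ : H → ℂ)) : False := by
  classical
  have := Fintype.ofFinite H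
  have hfq : Fact q.Prime := ⟨hq⟩
  obtain ⟨d, hd⟩ : ∃ d : ℕ, d = charDegree (ψ : H → ℂ) := ⟨_, rfl⟩
  rw [← hd] at hcard
  have hdpos : 0 < d := by
    rw [hd]
    exact irr_degree_pos ψ
  have hdq : d < q := by
    by_cases htriv : ψ = trivChar H
    · rw [hd, htriv, charDegree_trivChar]
      exact hq.one_lt
    · have hsum := sum_irr_degree_sq_nat (G := H)
      have hle : ∑ χ ∈ ({ψ, trivChar H} : Finset (IrrCharacter H)),
          charDegree (χ : H → ℂ) ^ 2 ≤ ∑ χ : IrrCharacter H, charDegree (χ : H → ℂ) ^ 2 :=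
        Finset.sum_le_sum_of_subset (Finset.subset_univ _)
      rw [Finset.sum_pair htriv, charDegree_trivChar, hsum, hcard, ← hd] at hle
      by_contra hcon
      push Not at hcon
      nlinarith
  obtain ⟨Q⟩ := (inferInstance : Nonempty (Sylow q H))
  have hqd : ¬ q ∣ d := Nat.not_dvd_of_pos_of_lt hdpos hdq
  have hQcard : Nat.card (Q : Subgroup H) = q := by
    rw [Sylow.card_eq_multiplicity, hcard, Nat.factorization_mul hq.ne_zero hdpos.ne',
      Finsupp.add_apply, hq.factorization_self, Nat.factorization_eq_zero_of_not_dvd hqd, pow_one]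
  have hQidx : (Q : Subgroup H).index = d := by
    have h1 := Subgroup.card_mul_index (Q : Subgroup H)
    rw [hQcard, hcard] at h1
    exact Nat.eq_of_mul_eq_mul_left hq.pos h1
  have hn1 : Nat.card (Sylow q H) = 1 := by
    have h1 : Nat.card (Sylow q H) ∣ d := hQidx ▸ Sylow.card_dvd_index Q
    have h2 := card_sylow_modEq_one q H
    have h3 : Nat.card (Sylow q H) ≤ d := Nat.le_of_dvd hdpos h1
    have h4 : Nat.card (Sylow q H) % q = 1 % q := h2
    rw [Nat.mod_eq_of_lt (lt_of_le_of_lt h3 hdq), Nat.mod_eq_of_lt hq.one_lt] at h4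
    exact h4
  have hsub : Subsingleton (Sylow q H) := (Nat.card_eq_one_iff_unique.mp hn1).1
  have hQn : (Q : Subgroup H).Normal := Sylow.normal_of_subsingleton Q
  obtain ⟨z, hzQ, hz1⟩ : ∃ z ∈ (Q : Subgroup H), z ≠ 1 := by
    by_contra hno
    push Not at hno
    have hbot : (Q : Subgroup H) = ⊥ := (Subgroup.eq_bot_iff_forall _).mpr hno
    rw [hbot, Subgroup.card_bot] at hQcard
    exact hq.one_lt.ne hQcard
  have hzord : orderOf z = q := by
    have h1 : orderOf z ∣ q := hQcard ▸ Subgroup.orderOf_dvd_natCard _ hzQ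
    rcases (Nat.dvd_prime hq).mp h1 with h | h
    · exact absurd (orderOf_eq_one_iff.mp h) hz1
    · exact h
  have hzpow : Subgroup.zpowers z = (Q : Subgroup H) := by
    apply Subgroup.eq_of_le_of_card_ge (by rw [Subgroup.zpowers_le]; exact hzQ)
    rw [Nat.card_zpowers, hzord, hQcard]
  have hconj : ∀ x : H, ∃ i : ℤ, x * z * x⁻¹ = z ^ i := by
    intro x
    have h1 : x * z * x⁻¹ ∈ (Q : Subgroup H) := hQn.conj_mem z hzQ x
    rw [← hzpow] at h1
    obtain ⟨i, hi⟩ := Subgroup.mem_zpowers_iff.mp h1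
    exact ⟨i, hi.symm⟩
  have hcomm2 : ∀ x y : H, (x * y) * z * (x * y)⁻¹ = (y * x) * z * (y * x)⁻¹ := by
    intro x y
    obtain ⟨i, hi⟩ := hconj x
    obtain ⟨j, hj⟩ := hconj y
    have h1 : (x * y) * z * (x * y)⁻¹ = x * (y * z * y⁻¹) * x⁻¹ := by group
    have h2 : (y * x) * z * (y * x)⁻¹ = y * (x * z * x⁻¹) * y⁻¹ := by group
    rw [h1, h2, hj, hi, ← conj_zpow, ← conj_zpow, hi, hj, ← zpow_mul, ← zpow_mul, mul_comm]
  have hzc : ∀ x : H, x * z = z * x := by
    have hle : commutator H ≤ Subgroup.centralizer ({z} : Set H) := by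
      rw [commutator_def, Subgroup.commutator_le]
      intro x _ y _
      rw [Subgroup.mem_centralizer_iff]
      intro w hw
      rw [Set.mem_singleton_iff] at hw
      rw [hw, commutatorElement_def]
      have h3 := hcomm2 y⁻¹ x⁻¹
      have e : x * y * x⁻¹ * y⁻¹ = (y⁻¹ * x⁻¹)⁻¹ * (x⁻¹ * y⁻¹) := by group
      rw [e]
      calc z * ((y⁻¹ * x⁻¹)⁻¹ * (x⁻¹ * y⁻¹))
          = (y⁻¹ * x⁻¹)⁻¹ * ((y⁻¹ * x⁻¹) * z * (y⁻¹ * x⁻¹)⁻¹) * (x⁻¹ * y⁻¹) := by group
        _ = (y⁻¹ * x⁻¹)⁻¹ * ((x⁻¹ * y⁻¹) * z * (x⁻¹ * y⁻¹)⁻¹) * (x⁻¹ * y⁻¹) := by rw [h3]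
        _ = (y⁻¹ * x⁻¹)⁻¹ * (x⁻¹ * y⁻¹) * z := by group
    intro x
    have hx : x ∈ commutator H := by
      rw [hperf]
      exact Subgroup.mem_top x
    have hx' := hle hx
    rw [Subgroup.mem_centralizer_iff] at hx'
    exact (hx' z (Set.mem_singleton z)).symm
  have hQcentral : ∀ w ∈ (Q : Subgroup H), ∀ x : H, x * w = w * x := by
    intro w hw x
    rw [← hzpow] at hw
    obtain ⟨k, rfl⟩ := Subgroup.mem_zpowers_iff.mp hw
    exact ((Commute.zpow_right (show Commute x z from hzc x) k)).eq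
  have hnormQ : ∀ w ∈ (Q : Subgroup H), ‖(ψ : H → ℂ) w‖ ^ 2 = (d : ℝ) ^ 2 := by
    intro w hw
    let δ : H → ℂ := fun x => if x = w then 1 else 0
    have hδ : ∀ g x : H, δ (x * g * x⁻¹) = δ g := by
      intro g x
      have hiff : x * g * x⁻¹ = w ↔ g = w := by
        constructor
        · intro h
          have h1 : g = x⁻¹ * (x * g * x⁻¹) * x := by group
          rw [h1, h, mul_assoc, ← hQcentral w hw x]
          group
        · intro h
          rw [h, hQcentral w hw x]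
          group
      simp only [δ, hiff]
    have h1 := irr_sum_classFun_mul ψ δ hδ w⁻¹
    have h2 : ∑ x : H, δ x * (ψ : H → ℂ) (x * w⁻¹) = (ψ : H → ℂ) 1 := by
      rw [Finset.sum_eq_single w]
      · simp [δ]
      · intro b _ hb
        simp [δ, hb]
      · intro h
        exact absurd (Finset.mem_univ w) h
    have h3 : ∑ x : H, δ x * (ψ : H → ℂ) x = (ψ : H → ℂ) w := by
      rw [Finset.sum_eq_single w]
      · simp [δ]
      · intro b _ hb
        simp [δ, hb]
      · intro h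
        exact absurd (Finset.mem_univ w) h
    rw [h2, h3] at h1
    have h1' := irr_one_ne_zero ψ
    have h4 : (ψ : H → ℂ) w * (ψ : H → ℂ) w⁻¹ = (ψ : H → ℂ) 1 * (ψ : H → ℂ) 1 := by
      calc (ψ : H → ℂ) w * (ψ : H → ℂ) w⁻¹
          = ((ψ : H → ℂ) w * (ψ : H → ℂ) w⁻¹ / (ψ : H → ℂ) 1) * (ψ : H → ℂ) 1 := by
            field_simp
        _ = (ψ : H → ℂ) 1 * (ψ : H → ℂ) 1 := by rw [← h1]
    rw [irr_mul_inv_eq_norm_sq, irr_one_eq_degree, ← hd] at h4
    have h5 : ((‖(ψ : H → ℂ) w‖ ^ 2 : ℝ) : ℂ) = (((d : ℝ) ^ 2 : ℝ) : ℂ) := by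
      rw [h4]
      push_cast
      ring
    exact_mod_cast h5
  have htot : ∑ x : H, ‖(ψ : H → ℂ) x‖ ^ 2 = (Nat.card H : ℝ) := by
    have h1 := irr_bil ψ ψ
    rw [if_pos rfl] at h1
    have hH : (Nat.card H : ℂ) ≠ 0 := card_ne_zero
    have h3 : (Nat.card H : ℂ)⁻¹ * ∑ x : H, (ψ : H → ℂ) x * (ψ : H → ℂ) x⁻¹ = 1 := h1
    have h2 : ∑ x : H, (ψ : H → ℂ) x * (ψ : H → ℂ) x⁻¹ = (Nat.card H : ℂ) := by
      calc ∑ x : H, (ψ : H → ℂ) x * (ψ : H → ℂ) x⁻¹
          = (Nat.card H : ℂ) * ((Nat.card H : ℂ)⁻¹ *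
            ∑ x : H, (ψ : H → ℂ) x * (ψ : H → ℂ) x⁻¹) := by
            rw [← mul_assoc, mul_inv_cancel₀ hH, one_mul]
        _ = (Nat.card H : ℂ) := by rw [h3, mul_one]
    simp only [irr_mul_inv_eq_norm_sq] at h2
    rw [← Complex.ofReal_sum] at h2
    exact_mod_cast h2
  have hQsum : ∑ x ∈ Finset.univ.filter (· ∈ (Q : Subgroup H)), ‖(ψ : H → ℂ) x‖ ^ 2 =
      (q : ℝ) * (d : ℝ) ^ 2 := by
    rw [Finset.sum_congr rfl (fun x hx => hnormQ x (Finset.mem_filter.mp hx).2),
      Finset.sum_const, nsmul_eq_mul]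
    congr 1
    have hc : (Finset.univ.filter (· ∈ (Q : Subgroup H))).card = Nat.card (Q : Subgroup H) := by
      rw [Nat.card_eq_fintype_card, Fintype.card_subtype]
    rw [hQcard] at hc
    exact_mod_cast hc
  have hle2 : (q : ℝ) * (d : ℝ) ^ 2 ≤ (q : ℝ) * d := by
    rw [← hQsum]
    calc ∑ x ∈ Finset.univ.filter (· ∈ (Q : Subgroup H)), ‖(ψ : H → ℂ) x‖ ^ 2
        ≤ ∑ x : H, ‖(ψ : H → ℂ) x‖ ^ 2 :=
          Finset.sum_le_sum_of_subset_of_nonneg (Finset.filter_subset _ _)
            (fun x _ _ => by positivity)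
      _ = (q : ℝ) * d := by
          rw [htot, hcard]
          push_cast
          ring
  have hd1 : d = 1 := by
    have hqpos : (0 : ℝ) < q := by exact_mod_cast hq.pos
    have h1 : (d : ℝ) ^ 2 ≤ d := le_of_mul_le_mul_left hle2 hqpos
    have hdR : (0 : ℝ) < d := by exact_mod_cast hdpos
    have h2 : (d : ℝ) ≤ 1 := by nlinarith
    have h3 : d ≤ 1 := by exact_mod_cast h2
    omega
  have hlin : (ψ : H → ℂ) 1 = 1 := by
    rw [irr_one_eq_degree, ← hd, hd1]
    simp
  have hall : ∀ x : H, x = 1 := by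
    intro x
    apply hfaith
    rw [hlin]
    exact irr_linear_commutator ψ hlin (by rw [hperf]; exact Subgroup.mem_top x)
  have hc1 : Nat.card H = 1 := by
    rw [Nat.card_eq_one_iff_unique]
    exact ⟨⟨fun a b => by rw [hall a, hall b]⟩, ⟨1⟩⟩
  rw [hc1, hd1, mul_one] at hcard
  exact hq.one_lt.ne hcard

/-- The codegree of an irreducible complex character χ of a finite group G is [G : ker χ] / χ(1), where ker χ is the set of elements at which χ takes the value χ(1). A non-trivial finite group is perfect if and only if no irreducible complex character of it has prime codegree. -/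
theorem result {G : Type*} [Group G] [Finite G] [Nontrivial G] : commutator G = ⊤ ↔ ∀ χ : Cfsg.IrrCharacter G, ¬ ((Nat.card G / (Nat.card {g : G // (χ : G → ℂ) g = (χ : G → ℂ) 1} * Cfsg.charDegree (χ : G → ℂ)))).Prime := by
  classical
  constructor
  · intro hperf χ hprime
    obtain ⟨ψ, hψ⟩ := Cfsg.Agent.Helper25.exists_deflate χ (Cfsg.Agent.Helper25.irrKer χ) le_rfl
    have hq := hprime
    rw [Cfsg.Agent.Helper25.cod_eq_index_div] at hq
    have hdvd := Cfsg.Agent.Helper25.irr_degree_dvd_index_ker χ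
    have hdeg : Cfsg.charDegree (ψ : G ⧸ Cfsg.Agent.Helper25.irrKer χ → ℂ) =
        Cfsg.charDegree (χ : G → ℂ) := by
      show ⌊((ψ : G ⧸ Cfsg.Agent.Helper25.irrKer χ → ℂ) 1).re⌋₊ = ⌊((χ : G → ℂ) 1).re⌋₊
      rw [← hψ 1]
      rfl
    apply no_perfect (G ⧸ Cfsg.Agent.Helper25.irrKer χ) ?_ ψ ?_ _ hq ?_
    · rw [eq_top_iff]
      intro x _
      obtain ⟨g, rfl⟩ := QuotientGroup.mk_surjective x
      have hg : g ∈ commutator G := by
        rw [hperf]
        exact Subgroup.mem_top g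
      have hmap : (commutator G).map (QuotientGroup.mk' (Cfsg.Agent.Helper25.irrKer χ)) ≤
          commutator (G ⧸ Cfsg.Agent.Helper25.irrKer χ) := by
        rw [commutator_def, commutator_def, Subgroup.map_commutator]
        exact Subgroup.commutator_mono le_top le_top
      exact hmap (Subgroup.mem_map_of_mem _ hg)
    · intro x hx
      obtain ⟨g, rfl⟩ := QuotientGroup.mk_surjective x
      have h1 : (ψ : G ⧸ Cfsg.Agent.Helper25.irrKer χ → ℂ) 1 = (χ : G → ℂ) 1 := hψ 1
      rw [hψ g, h1] at hx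
      exact (QuotientGroup.eq_one_iff g).mpr hx
    · rw [hdeg]
      show (Cfsg.Agent.Helper25.irrKer χ).index = _
      exact (Nat.div_mul_cancel hdvd).symm
  · intro h
    by_contra hne
    obtain ⟨g0, hg0⟩ : ∃ g : G, g ∉ commutator G := by
      by_contra hall
      push Not at hall
      exact hne (eq_top_iff.mpr (fun x _ => hall x))
    have hne1 : (Abelianization.of g0 : Abelianization G) ≠ 1 := by
      intro h1
      apply hg0
      exact (QuotientGroup.eq_one_iff g0).mp h1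
    have hexp : NeZero ((Monoid.exponent (Abelianization G) : ℕ) : ℂ) :=
      ⟨by exact_mod_cast Monoid.exponent_ne_zero_of_finite⟩
    obtain ⟨φ, hφ⟩ :=
      CommGroup.exists_apply_ne_one_of_hasEnoughRootsOfUnity (Abelianization G) ℂ hne1
    obtain ⟨l0, hl0def⟩ : ∃ l0 : G →* ℂˣ, l0 = φ.comp Abelianization.of := ⟨_, rfl⟩
    have hl0 : l0 ≠ 1 := by
      intro h1
      apply hφ
      have h2 := congrArg (fun f : G →* ℂˣ => f g0) h1
      rw [hl0def] at h2
      exact h2
    have hfin : IsOfFinOrder l0 := isOfFinOrder_iff_pow_eq_one.mpr ⟨Nat.card G, Nat.card_pos, by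
      ext g
      simp [← map_pow]⟩
    have hord1 : orderOf l0 ≠ 1 := fun h1 => hl0 (orderOf_eq_one_iff.mp h1)
    obtain ⟨q, hq, hqd⟩ := Nat.exists_prime_and_dvd hord1
    obtain ⟨l, hldef⟩ : ∃ l : G →* ℂˣ, l = l0 ^ (orderOf l0 / q) := ⟨_, rfl⟩
    have hlord : orderOf l = q := by
      rw [hldef]
      exact orderOf_pow_orderOf_div hfin.orderOf_pos.ne' hqd
    have hl1 : l ≠ 1 := by
      intro h1
      rw [h1, orderOf_one] at hlord
      exact hq.one_lt.ne hlord
    have hlq : ∀ g : G, l g ^ q = 1 := by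
      intro g
      have h1 : l ^ q = 1 := by
        rw [← hlord]
        exact pow_orderOf_eq_one l
      have h2 := congrArg (fun f : G →* ℂˣ => f g) h1
      exact h2
    have hfq : NeZero q := ⟨hq.ne_zero⟩
    have hrange : l.range ≤ rootsOfUnity q ℂ := by
      rintro x ⟨g, rfl⟩
      rw [mem_rootsOfUnity]
      exact hlq g
    have hrcard : Nat.card l.range = q := by
      have h1 : Nat.card l.range ∣ q := by
        have h0 := Subgroup.card_dvd_of_le hrange
        rwa [Complex.card_rootsOfUnity] at h0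
      rcases (Nat.dvd_prime hq).mp h1 with h2 | h2
      · exfalso
        apply hl1
        have hbot : l.range = ⊥ := Subgroup.eq_bot_of_card_eq _ h2
        ext g
        have hmem : l g ∈ l.range := ⟨g, rfl⟩
        rw [hbot, Subgroup.mem_bot] at hmem
        simp [hmem]
      · exact h2
    have hidx : l.ker.index = q := by rw [Subgroup.index_ker, hrcard]
    apply h ⟨fun g => ((l g : ℂˣ) : ℂ), Cfsg.Agent.Helper25.isIrrCharacter_of_monoidHom l⟩
    have hk : Nat.card {g : G // ((l g : ℂˣ) : ℂ) = ((l 1 : ℂˣ) : ℂ)} = Nat.card l.ker := by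
      apply Nat.card_congr
      apply Equiv.subtypeEquivRight
      intro g
      rw [map_one, Units.val_one, MonoidHom.mem_ker, Units.val_eq_one]
    have hdeg : Cfsg.charDegree (fun g => ((l g : ℂˣ) : ℂ)) = 1 := by
      show ⌊(((l 1 : ℂˣ) : ℂ)).re⌋₊ = 1
      rw [map_one]
      simp
    have hquot : Nat.card G / Nat.card l.ker = q := by
      rw [← hidx, ← Subgroup.card_mul_index l.ker, Nat.mul_div_cancel_left _ Nat.card_pos]
    show (Nat.card G / (Nat.card {g : G // ((l g : ℂˣ) : ℂ) = ((l 1 : ℂˣ) : ℂ)} *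
      Cfsg.charDegree (fun g => ((l g : ℂˣ) : ℂ)))).Prime
    rw [hk, hdeg, mul_one, hquot]
    exact hq

end Cfsg.Agent.S4797
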