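import Cfsg.Statements.S4801
import Cfsg.Agent.Helper25.CharKer

set_option autoImplicit false
open Cfsg

namespace Cfsg.Agent.S4801

/-- The codegree of an irreducible complex character χ of a finite group G is [G : ker χ] / χ(1), where ker χ is the set of elements at which χ takes the value χ(1). Let S be a finite simple group and G a finite group such that every codegree of an irreducible character of S is a codegree of an irreducible character of G. Then the order of S divides the order of G. -/
theorem result {S : Type*} [Group S] [Finite S] (hS : IsSimpleGroup S) {G : Type*} [Group G] [Finite G] (hsub : ∀ χ : Cfsg.IrrCharacter S, ∃ ψ : Cfsg.IrrCharacter G, (Nat.card S / (Nat.card {g : S // (χ : S → ℂ) g = (χ : S → ℂ) 1} * Cfsg.charDegree (χ : S → ℂ))) = (Nat.card G / (Nat.card {g : G // (ψ : G → ℂ) g = (ψ : G → ℂ) 1} * Cfsg.charDegree (ψ : G → ℂ)))) : Nat.card S ∣ Nat.card G := by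
  classical
  have := hS
  rw [← Nat.factorization_le_iff_dvd Nat.card_pos.ne' Nat.card_pos.ne']
  intro p
  by_cases hp : p.Prime
  swap
  · rw [Nat.factorization_eq_zero_of_not_prime _ hp]
    exact Nat.zero_le _
  by_cases hpS : p ∣ Nat.card S
  swap
  · rw [Nat.factorization_eq_zero_of_not_dvd hpS]
    exact Nat.zero_le _
  obtain ⟨χ, hχtriv, hχp⟩ := Cfsg.Agent.Helper25.exists_irr_ne_triv_not_dvd p hp hpS
  have hker : Cfsg.Agent.Helper25.irrKer χ = ⊥ := by
    rcases (Cfsg.Agent.Helper25.irrKer_normal χ).eq_bot_or_eq_top with h | h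
    · exact h
    · exact absurd (Cfsg.Agent.Helper25.irr_eq_trivChar_of_ker_eq_top χ h) hχtriv
  have hcard1 : Nat.card {g : S // (χ : S → ℂ) g = (χ : S → ℂ) 1} = 1 := by
    rw [Cfsg.Agent.Helper25.card_irrKer, hker, Subgroup.card_bot]
  obtain ⟨ψ, hψ⟩ := hsub χ
  rw [hcard1, one_mul] at hψ
  have hdvd := Cfsg.Agent.Helper25.irr_degree_dvd_card χ
  have hpow : p ^ (Nat.card S).factorization p ∣
      Nat.card S / Cfsg.charDegree (χ : S → ℂ) := by
    have h1 : p ^ (Nat.card S).factorization p ∣
        Nat.card S / Cfsg.charDegree (χ : S → ℂ) * Cfsg.charDegree (χ : S → ℂ) := by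
      rw [Nat.div_mul_cancel hdvd]
      exact Nat.ordProj_dvd _ _
    exact (Nat.Coprime.pow_left _ ((Nat.Prime.coprime_iff_not_dvd hp).mpr hχp)).dvd_of_dvd_mul_right
      h1
  rw [hψ] at hpow
  have h2 := hpow.trans (Cfsg.Agent.Helper25.cod_dvd_card ψ)
  exact (hp.pow_dvd_iff_le_factorization Nat.card_pos.ne').mp h2

end Cfsg.Agent.S4801
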