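import Cfsg.Statements.S4802
import Cfsg.Agent.Helper25.CharClass

set_option autoImplicit false
open Cfsg

namespace Cfsg.Agent.S4802

/-- Let N < M be normal subgroups of the finite group G and g ∈ M ∖ N. Then the conjugacy class of g is exactly M ∖ N if and only if every irreducible complex character of G whose kernel contains N takes the same value at all elements of M ∖ N, and every irreducible complex character of G whose kernel does not contain N vanishes at g. -/
theorem result {G : Type*} [Group G] [Finite G] (N M : Subgroup G) [N.Normal] [M.Normal] (hNM : N < M) (g : G) (hgM : g ∈ M) (hgN : g ∉ N) : {h : G | IsConj g h} = (M : Set G) \ (N : Set G) ↔ ((∀ χ : Cfsg.IrrCharacter G, (∀ x ∈ N, (χ : G → ℂ) x = (χ : G → ℂ) 1) → ∀ x ∈ M, x ∉ N → ∀ y ∈ M, y ∉ N → (χ : G → ℂ) x = (χ : G → ℂ) y) ∧ (∀ χ : Cfsg.IrrCharacter G, (∃ x ∈ N, (χ : G → ℂ) x ≠ (χ : G → ℂ) 1) → (χ : G → ℂ) g = 0)) := by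
  classical
  have := Fintype.ofFinite G
  have hNn : N.Normal := inferInstance
  have hMn : M.Normal := inferInstance
  constructor
  · intro hcl
    have hconj : ∀ x ∈ M, x ∉ N → IsConj g x := by
      intro x hxM hxN
      have hx : x ∈ (M : Set G) \ (N : Set G) := ⟨hxM, hxN⟩
      rw [← hcl] at hx
      exact hx
    refine ⟨?_, ?_⟩
    · intro χ _ x hxM hxN y hyM hyN
      rw [← Cfsg.Agent.Helper25.char_of_isConj (Cfsg.Agent.Helper25.irr_isCharacter χ)
        (hconj x hxM hxN), ← Cfsg.Agent.Helper25.char_of_isConj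
        (Cfsg.Agent.Helper25.irr_isCharacter χ) (hconj y hyM hyN)]
    · rintro χ ⟨x0, hx0N, hx0⟩
      by_contra hg0
      let ψ : G → ℂ := fun x => if x ∈ N then 1 else 0
      have hψ : ∀ g x : G, ψ (x * g * x⁻¹) = ψ g := by
        intro g x
        have hiff : x * g * x⁻¹ ∈ N ↔ g ∈ N := by
          constructor
          · intro h1
            have h2 := hNn.conj_mem _ h1 x⁻¹
            simpa [mul_assoc] using h2
          · intro h1
            exact hNn.conj_mem _ h1 x
        simp only [ψ, hiff]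
      have h1 := Cfsg.Agent.Helper25.irr_sum_classFun_mul χ ψ hψ g
      have hcardN : (Nat.card N : ℂ) = ((Finset.univ.filter (· ∈ N)).card : ℂ) := by
        rw [Nat.card_eq_fintype_card, Fintype.card_subtype]
      have h2 : ∑ x : G, ψ x * (χ : G → ℂ) (x * g) = (Nat.card N : ℂ) * (χ : G → ℂ) g := by
        have h2' : ∀ x : G, ψ x * (χ : G → ℂ) (x * g) = if x ∈ N then (χ : G → ℂ) g else 0 := by
          intro x
          by_cases hx : x ∈ N
          · simp only [ψ, if_pos hx, one_mul]
            have hxgM : x * g ∈ M := M.mul_mem (hNM.le hx) hgM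
            have hxgN : x * g ∉ N := fun h' => hgN ((Subgroup.mul_mem_cancel_left N hx).mp h')
            exact (Cfsg.Agent.Helper25.char_of_isConj (Cfsg.Agent.Helper25.irr_isCharacter χ)
              (hconj _ hxgM hxgN)).symm
          · simp only [ψ, if_neg hx, zero_mul]
        simp only [h2']
        rw [Finset.sum_ite, Finset.sum_const_zero, add_zero, Finset.sum_const, nsmul_eq_mul,
          hcardN]
      have h3 : ∑ x : G, ψ x * (χ : G → ℂ) x =
          ∑ x ∈ Finset.univ.filter (· ∈ N), (χ : G → ℂ) x := by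
        rw [Finset.sum_filter]
        apply Finset.sum_congr rfl
        intro x _
        by_cases hx : x ∈ N <;> simp [ψ, hx]
      rw [h2, h3] at h1
      have h1' := Cfsg.Agent.Helper25.irr_one_ne_zero χ
      have hsum : ∑ x ∈ Finset.univ.filter (· ∈ N), (χ : G → ℂ) x =
          ((Finset.univ.filter (· ∈ N)).card : ℂ) * (χ : G → ℂ) 1 := by
        rw [← hcardN]
        have h5 : ((Nat.card N : ℂ) * (χ : G → ℂ) 1) * (χ : G → ℂ) g =
            (∑ x ∈ Finset.univ.filter (· ∈ N), (χ : G → ℂ) x) * (χ : G → ℂ) g := by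
          calc ((Nat.card N : ℂ) * (χ : G → ℂ) 1) * (χ : G → ℂ) g
              = ((Nat.card N : ℂ) * (χ : G → ℂ) g) * (χ : G → ℂ) 1 := by ring
            _ = ((∑ x ∈ Finset.univ.filter (· ∈ N), (χ : G → ℂ) x) * (χ : G → ℂ) g /
                (χ : G → ℂ) 1) * (χ : G → ℂ) 1 := by rw [h1]
            _ = (∑ x ∈ Finset.univ.filter (· ∈ N), (χ : G → ℂ) x) * (χ : G → ℂ) g := by
                field_simp
        exact (mul_right_cancel₀ hg0 h5).symm
      have h6 := Cfsg.Agent.Helper25.irr_eq_one_of_sum_eq χ _ hsum x0 (by simp [hx0N])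
      exact hx0 h6
  · rintro ⟨ha, hb⟩
    ext h
    simp only [Set.mem_setOf_eq, Set.mem_diff, SetLike.mem_coe]
    constructor
    · intro hc
      obtain ⟨c, hc⟩ := isConj_iff.mp hc
      rw [← hc]
      refine ⟨hMn.conj_mem _ hgM c, ?_⟩
      intro h'
      apply hgN
      have h2 := hNn.conj_mem _ h' c⁻¹
      simpa [mul_assoc] using h2
    · rintro ⟨hM, hN⟩
      apply IsConj.symm
      apply Cfsg.Agent.Helper25.isConj_of_sum_ne_zero
      have heq : ∑ χ : IrrCharacter G, (χ : G → ℂ) h * (χ : G → ℂ) g⁻¹ =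
          ∑ χ : IrrCharacter G, (χ : G → ℂ) g * (χ : G → ℂ) g⁻¹ := by
        apply Finset.sum_congr rfl
        intro χ _
        by_cases hker : ∀ x ∈ N, (χ : G → ℂ) x = (χ : G → ℂ) 1
        · rw [ha χ hker h hM hN g hgM hgN]
        · push Not at hker
          have hg0 := hb χ hker
          have hg1 : (χ : G → ℂ) g⁻¹ = 0 := by
            rw [Cfsg.Agent.Helper25.irr_inv, hg0, map_zero]
          rw [hg1, mul_zero, mul_zero]
      rw [heq, ← Cfsg.Agent.Helper25.card_centralizer_eq_sum]
      exact_mod_cast Nat.card_pos.ne'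

end Cfsg.Agent.S4802
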