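import Cfsg.Statements.S4808
import Cfsg.Agent.Helper25.CharKer

set_option autoImplicit false
open Cfsg

namespace Cfsg.Agent.S4808

open Cfsg.Agent.Helper25 in
theorem key.{u} (p : ℕ) (hp : p.Prime) : ∀ (n : ℕ) (G : Type u) [Group G] [Finite G],
    Nat.card G = n → p ∣ n →
    ∃ χ : IrrCharacter G, p ∣ (Nat.card G / (Nat.card {g : G // (χ : G → ℂ) g = (χ : G → ℂ) 1} *
      charDegree (χ : G → ℂ))) := by
  intro n
  induction n using Nat.strong_induction_on with
  | _ n ih =>
  intro G _ _ hn hpn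
  classical
  have := Fintype.ofFinite G
  by_cases hA : ∃ K : Subgroup G, K.Normal ∧ K ≠ ⊥ ∧ p ∣ K.index
  · obtain ⟨K, hKn, hK1, hKp⟩ := hA
    have hlt : Nat.card (G ⧸ K) < n := by
      rw [← hn]
      have h1 := Subgroup.card_mul_index K
      have h2 : 1 < Nat.card K := by
        rw [Finite.one_lt_card_iff_nontrivial]
        exact (Subgroup.nontrivial_iff_ne_bot K).mpr hK1
      have h3 : 0 < K.index := Nat.pos_of_ne_zero Subgroup.index_ne_zero_of_finite
      have h4 : Nat.card (G ⧸ K) = K.index := rfl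
      rw [h4]
      nlinarith
    obtain ⟨ψ, hψ⟩ := ih (Nat.card (G ⧸ K)) hlt (G ⧸ K) rfl hKp
    refine ⟨irrComp ψ (QuotientGroup.mk' K) (QuotientGroup.mk'_surjective K), ?_⟩
    rw [cod_irrComp]
    exact hψ
  · push Not at hA
    by_contra hno
    push Not at hno
    have hpG : p ∣ Nat.card G := hn ▸ hpn
    have hfact : Fact p.Prime := ⟨hp⟩
    obtain ⟨g, hg⟩ := exists_prime_orderOf_dvd_card' p hpG
    have hg1 : g ≠ 1 := by
      intro h
      rw [h, orderOf_one] at hg
      exact hp.one_lt.ne hg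
    obtain ⟨a, ha⟩ : ∃ a : ℕ, a = (Nat.card G).factorization p := ⟨_, rfl⟩
    have hapos : 0 < a := by
      rw [ha]
      exact hp.factorization_pos_of_dvd Nat.card_pos.ne' hpG
    obtain ⟨m, hm, hpm⟩ : ∃ m : ℕ, Nat.card G = p ^ a * m ∧ ¬ p ∣ m := by
      refine ⟨ordCompl[p] (Nat.card G), ?_, Nat.not_dvd_ordCompl hp Nat.card_pos.ne'⟩
      rw [ha]
      exact (Nat.ordProj_mul_ordCompl_eq_self _ p).symm
    have hnf : ∀ χ : IrrCharacter G, irrKer χ ≠ ⊥ → (χ : G → ℂ) g = (χ : G → ℂ) 1 := by
      intro χ hχ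
      have h1 := hA (irrKer χ) (irrKer_normal χ) hχ
      by_contra hgk
      have hgk' : g ∉ irrKer χ := hgk
      have h2 : orderOf (QuotientGroup.mk g : G ⧸ irrKer χ) ∣ p := by
        rw [← hg]
        apply orderOf_dvd_of_pow_eq_one
        rw [← QuotientGroup.mk_pow, pow_orderOf_eq_one]
        rfl
      have h3 : orderOf (QuotientGroup.mk g : G ⧸ irrKer χ) ∣ (irrKer χ).index :=
        orderOf_dvd_natCard _
      rcases (Nat.dvd_prime hp).mp h2 with h4 | h4
      · rw [orderOf_eq_one_iff, QuotientGroup.eq_one_iff] at h4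
        exact hgk' h4
      · rw [h4] at h3
        exact h1 h3
    have hf : ∀ χ : IrrCharacter G, irrKer χ = ⊥ → p ^ a ∣ charDegree (χ : G → ℂ) := by
      intro χ hχ
      have h1 := hno χ
      have hc1 : Nat.card {g : G // (χ : G → ℂ) g = (χ : G → ℂ) 1} = 1 := by
        rw [card_irrKer, hχ, Subgroup.card_bot]
      rw [hc1, one_mul] at h1
      have hdvd := irr_degree_dvd_card χ
      have h2 : p ^ a ∣ charDegree (χ : G → ℂ) * (Nat.card G / charDegree (χ : G → ℂ)) := by
        rw [Nat.mul_div_cancel' hdvd, hm]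
        exact dvd_mul_right _ _
      exact (Nat.Coprime.pow_left _
        ((Nat.Prime.coprime_iff_not_dvd hp).mpr h1)).dvd_of_dvd_mul_right h2
    choose! d hd using hf
    obtain ⟨T, hT⟩ : ∃ T : ℕ, T = ∑ χ ∈ Finset.univ.filter (fun χ : IrrCharacter G => ¬ irrKer χ = ⊥),
        charDegree (χ : G → ℂ) ^ 2 := ⟨_, rfl⟩
    have hsq : ∑ χ ∈ Finset.univ.filter (fun χ : IrrCharacter G => irrKer χ = ⊥),
        charDegree (χ : G → ℂ) ^ 2 + T = Nat.card G := by
      rw [hT, ← sum_irr_degree_sq_nat]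
      exact Finset.sum_filter_add_sum_filter_not _ _ _
    have hFdvd : p ^ (a + 1) ∣ ∑ χ ∈ Finset.univ.filter (fun χ : IrrCharacter G => irrKer χ = ⊥),
        charDegree (χ : G → ℂ) ^ 2 := by
      apply Finset.dvd_sum
      intro χ hχ
      have hχ' : irrKer χ = ⊥ := (Finset.mem_filter.mp hχ).2
      have h1 : (p ^ a) ^ 2 ∣ charDegree (χ : G → ℂ) ^ 2 :=
        pow_dvd_pow_of_dvd (Dvd.intro _ (hd χ hχ').symm) 2
      have h2 : p ^ (a + 1) ∣ (p ^ a) ^ 2 := by
        rw [← pow_mul]
        exact pow_dvd_pow p (by omega)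
      exact h2.trans h1
    have hTnot : ¬ p ^ (a + 1) ∣ T := by
      intro hTd
      have h1 : p ^ (a + 1) ∣ Nat.card G := by
        rw [← hsq]
        exact dvd_add hFdvd hTd
      rw [ha] at h1
      exact Nat.pow_succ_factorization_not_dvd Nat.card_pos.ne' hp h1
    have hreg := sum_irr_one_mul g
    rw [if_neg hg1] at hreg
    have hsplit : ∑ χ ∈ Finset.univ.filter (fun χ : IrrCharacter G => irrKer χ = ⊥),
        (χ : G → ℂ) 1 * (χ : G → ℂ) g + (T : ℂ) = 0 := by
      rw [← hreg, ← Finset.sum_filter_add_sum_filter_not Finset.univ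
        (fun χ : IrrCharacter G => irrKer χ = ⊥)]
      congr 1
      rw [hT, Nat.cast_sum]
      apply Finset.sum_congr rfl
      intro χ hχ
      have hχ' : ¬ irrKer χ = ⊥ := (Finset.mem_filter.mp hχ).2
      rw [hnf χ hχ', irr_one_eq_degree]
      push_cast
      ring
    obtain ⟨c, hc⟩ : ∃ c : ℕ, c = (Subgroup.centralizer ({g} : Set G)).index := ⟨_, rfl⟩
    have hint : IsIntegral ℤ (((c * T : ℕ) : ℂ) / ((p ^ (2 * a) : ℕ) : ℂ)) := by
      have h1 : ((c * T : ℕ) : ℂ) / ((p ^ (2 * a) : ℕ) : ℂ) =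
          - ∑ χ ∈ Finset.univ.filter (fun χ : IrrCharacter G => irrKer χ = ⊥),
            ((c : ℂ) * (χ : G → ℂ) g / (χ : G → ℂ) 1) * ((d χ : ℂ)) ^ 2 := by
        have hT' : (T : ℂ) = - ∑ χ ∈ Finset.univ.filter (fun χ : IrrCharacter G => irrKer χ = ⊥),
            (χ : G → ℂ) 1 * (χ : G → ℂ) g := by linear_combination hsplit
        push_cast
        rw [hT', mul_neg, neg_div, Finset.mul_sum, Finset.sum_div]
        congr 1
        apply Finset.sum_congr rfl
        intro χ hχ
        have hχ' : irrKer χ = ⊥ := (Finset.mem_filter.mp hχ).2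
        have h1' := irr_one_ne_zero χ
        have hdeg : (χ : G → ℂ) 1 = (p : ℂ) ^ a * (d χ : ℂ) := by
          rw [irr_one_eq_degree, hd χ hχ']
          push_cast
          ring
        have hp0 : (p : ℂ) ≠ 0 := by exact_mod_cast hp.ne_zero
        have hd0 : (d χ : ℂ) ≠ 0 := by
          intro h0
          apply h1'
          rw [hdeg, h0, mul_zero]
        rw [hdeg]
        field_simp
        ring
      rw [h1]
      apply IsIntegral.neg
      apply IsIntegral.sum
      intro χ _
      rw [hc]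
      exact (irr_central_isIntegral χ g).mul ((isIntegral_natCast (R := ℤ) (d χ)).pow 2)
    have hdvd1 := Cfsg.Agent.Helper1.dvd_of_isIntegral_div (c * T) (p ^ (2 * a))
      (pow_ne_zero _ hp.ne_zero) hint
    have hpC : p ∣ Nat.card (Subgroup.centralizer ({g} : Set G)) := by
      rw [← hg]
      apply Subgroup.orderOf_dvd_natCard
      rw [Subgroup.mem_centralizer_iff]
      intro w hw
      rw [Set.mem_singleton_iff] at hw
      rw [hw]
    have hcC : Nat.card (Subgroup.centralizer ({g} : Set G)) * c = Nat.card G := by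
      rw [hc]
      exact Subgroup.card_mul_index _
    apply hTnot
    have h5 : p ^ (2 * a) * p ∣ c * T * Nat.card (Subgroup.centralizer ({g} : Set G)) :=
      mul_dvd_mul hdvd1 hpC
    have h6 : c * T * Nat.card (Subgroup.centralizer ({g} : Set G)) = p ^ a * (m * T) := by
      calc c * T * Nat.card (Subgroup.centralizer ({g} : Set G))
          = (Nat.card (Subgroup.centralizer ({g} : Set G)) * c) * T := by ring
        _ = p ^ a * m * T := by rw [hcC, hm]
        _ = p ^ a * (m * T) := by ring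
    have h7 : p ^ (2 * a) * p = p ^ a * p ^ (a + 1) := by ring
    rw [h6, h7] at h5
    have h8 : p ^ (a + 1) ∣ m * T := Nat.dvd_of_mul_dvd_mul_left (pow_pos hp.pos a) h5
    exact (Nat.Coprime.pow_left _
      ((Nat.Prime.coprime_iff_not_dvd hp).mpr hpm)).dvd_of_dvd_mul_left h8

/-- The codegree of an irreducible complex character χ of a finite group G is [G : ker χ] / χ(1), where ker χ is the set of elements at which χ takes the value χ(1). A prime divides the order of G if and only if it divides the codegree of some irreducible complex character of G. -/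
theorem result {G : Type*} [Group G] [Finite G] (p : ℕ) (hp : p.Prime) : p ∣ Nat.card G ↔ ∃ χ : Cfsg.IrrCharacter G, p ∣ (Nat.card G / (Nat.card {g : G // (χ : G → ℂ) g = (χ : G → ℂ) 1} * Cfsg.charDegree (χ : G → ℂ))) := by
  constructor
  · intro h
    exact key p hp (Nat.card G) G rfl h
  · rintro ⟨χ, hχ⟩
    exact hχ.trans (Cfsg.Agent.Helper25.cod_dvd_card χ)

end Cfsg.Agent.S4808
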