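import Cfsg.Statements.S4814
import Cfsg.Agent.Helper25.CharMore

set_option autoImplicit false
open Cfsg

namespace Cfsg.Agent.S4814

/-- Let G be a finite group such that the sum, over the irreducible complex characters χ of G, of 1/χ(1)² is less than 2. Then every element of G is a product of two commutators. -/
theorem result {G : Type*} [Group G] [Finite G]
    (h : ∑ᶠ χ : Cfsg.IrrCharacter G, 1 / ‖(χ : G → ℂ) 1‖ ^ 2 < (2 : ℝ)) (g : G) :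
    ∃ a b c d : G, (a * b * a⁻¹ * b⁻¹) * (c * d * c⁻¹ * d⁻¹) = g := by
  classical
  have := Fintype.ofFinite G
  by_contra hne
  have hN0 : ∀ x : G, (Nat.card {xy : G × G // xy.1 * xy.2 * xy.1⁻¹ * xy.2⁻¹ = x} : ℂ) *
        (Nat.card {xy : G × G // xy.1 * xy.2 * xy.1⁻¹ * xy.2⁻¹ = x⁻¹ * g} : ℂ) = 0 := by
    intro x
    by_contra h0
    have h1 := left_ne_zero_of_mul h0
    have h2 := right_ne_zero_of_mul h0
    have h1' : Nat.card {xy : G × G // xy.1 * xy.2 * xy.1⁻¹ * xy.2⁻¹ = x} ≠ 0 := by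
      intro h'
      exact h1 (by rw [h', Nat.cast_zero])
    have h2' : Nat.card {xy : G × G // xy.1 * xy.2 * xy.1⁻¹ * xy.2⁻¹ = x⁻¹ * g} ≠ 0 := by
      intro h'
      exact h2 (by rw [h', Nat.cast_zero])
    obtain ⟨⟨⟨a, b⟩, hab⟩⟩ := (Nat.card_ne_zero.mp h1').1
    obtain ⟨⟨⟨c, d⟩, hcd⟩⟩ := (Nat.card_ne_zero.mp h2').1
    apply hne
    refine ⟨a, b, c, d, ?_⟩
    simp only at hab hcd
    rw [hab, hcd, mul_inv_cancel_left]
  have hsum := Cfsg.Agent.Helper25.sum_card_commutator_mul g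
  simp only [hN0, Finset.sum_const_zero] at hsum
  have hG : (Nat.card G : ℂ) ≠ 0 := Cfsg.Agent.Helper25.card_ne_zero
  have hS : ∑ χ : IrrCharacter G, (χ : G → ℂ) g / (χ : G → ℂ) 1 ^ 3 = 0 := by
    rcases mul_eq_zero.mp hsum.symm with h' | h'
    · exact absurd (pow_eq_zero_iff (by norm_num) |>.mp h') hG
    · exact h'
  rw [finsum_eq_sum_of_fintype] at h
  let τ := Cfsg.Agent.Helper25.trivChar G
  rw [← Finset.add_sum_erase _ _ (Finset.mem_univ τ)] at hS h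
  have hτ : (τ : G → ℂ) g / (τ : G → ℂ) 1 ^ 3 = 1 := by simp [τ]
  have hτ' : 1 / ‖(τ : G → ℂ) 1‖ ^ 2 = (1 : ℝ) := by simp [τ]
  rw [hτ] at hS
  rw [hτ'] at h
  have hR : ∑ χ ∈ Finset.univ.erase τ, (χ : G → ℂ) g / (χ : G → ℂ) 1 ^ 3 = -1 := by
    linear_combination hS
  have hle : ‖∑ χ ∈ Finset.univ.erase τ, (χ : G → ℂ) g / (χ : G → ℂ) 1 ^ 3‖ ≤
      ∑ χ ∈ Finset.univ.erase τ, 1 / ‖(χ : G → ℂ) 1‖ ^ 2 := by
    refine (norm_sum_le _ _).trans (Finset.sum_le_sum ?_)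
    intro χ _
    have h1 := Cfsg.Agent.Helper25.irr_norm_le χ g
    have h2 : 0 < ‖(χ : G → ℂ) 1‖ := norm_pos_iff.mpr (Cfsg.Agent.Helper25.irr_one_ne_zero χ)
    rw [norm_div, norm_pow, div_le_div_iff₀ (by positivity) (by positivity)]
    calc ‖(χ : G → ℂ) g‖ * ‖(χ : G → ℂ) 1‖ ^ 2 ≤ ‖(χ : G → ℂ) 1‖ * ‖(χ : G → ℂ) 1‖ ^ 2 := by
          gcongr
      _ = 1 * ‖(χ : G → ℂ) 1‖ ^ 3 := by ring
  rw [hR, norm_neg, norm_one] at hle
  linarith

end Cfsg.Agent.S4814
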