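import Cfsg.Statements.S4825
import Mathlib
import Cfsg.Agent.S4731
import Cfsg.Agent.S0876
import Cfsg.Agent.Helper7.Clifford
import Cfsg.Agent.Helper7.FirstMain
import Cfsg.Agent.Helper2.CliffDeg

set_option autoImplicit false
open Cfsg

namespace Cfsg.Agent.S4825

open Cfsg Cfsg.Agent.Helper25 Cfsg.Agent.Helper7
open scoped ComplexConjugate

universe u

/-- Weights `a χ` equal to `χ(1)` for the characters over `θ` and zero otherwise, such that
`∑ a χ χ` vanishes off the normal subgroup `N`. -/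
theorem over_weight {G : Type u} [Group G] [Fintype G] (N : Subgroup G) [hN : N.Normal]
    [Fintype N] (θ : IrrCharacter N) :
    ∃ a : IrrCharacter G → ℂ,
      (∀ χ : IrrCharacter G, classInner (fun n : N => (χ : G → ℂ) n) (θ : N → ℂ) ≠ 0 →
        a χ = (χ : G → ℂ) 1) ∧
      (∀ χ : IrrCharacter G, classInner (fun n : N => (χ : G → ℂ) n) (θ : N → ℂ) = 0 →
        a χ = 0) ∧
      ∀ g : G, g ∉ N → ∑ χ : IrrCharacter G, a χ * (χ : G → ℂ) g = 0 := by
  classical
  obtain ⟨O, hO⟩ : ∃ O : Finset (IrrCharacter N), O = Finset.univ.filter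
      (fun ξ : IrrCharacter N => ∃ k : G, (ξ : N → ℂ) = Cfsg.Agent.Helper2.conjChar N (θ : N → ℂ) k) :=
    ⟨_, rfl⟩
  obtain ⟨Θ, hΘ⟩ : ∃ Θ : N → ℂ, Θ = ∑ ξ ∈ O, ((ξ : N → ℂ) 1) • (ξ : N → ℂ) := ⟨_, rfl⟩
  have hfrob : ∀ χ : IrrCharacter G, classInner (indFun N Θ) (χ : G → ℂ)
      = ∑ ξ ∈ O, (ξ : N → ℂ) 1 *
          conj (classInner (fun n : N => (χ : G → ℂ) n) (ξ : N → ℂ)) := by
    intro χ
    rw [Cfsg.Agent.Helper2.frobenius_reciprocity N Θ (χ : G → ℂ)
      (Cfsg.Agent.Helper2.isClassFunction_of_isCharacter (irr_isCharacter χ)), hΘ,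
      Cfsg.Agent.Helper2.classInner_sum_left]
    apply Finset.sum_congr rfl
    intro ξ _
    rw [Cfsg.Agent.Helper2.classInner_smul_left,
      Cfsg.Agent.Helper2.classInner_conj_symm (fun n : N => (χ : G → ℂ) n) (ξ : N → ℂ)]
  refine ⟨fun χ => classInner (indFun N Θ) (χ : G → ℂ), ?_, ?_, ?_⟩
  · intro χ hχ
    show classInner (indFun N Θ) (χ : G → ℂ) = _
    rw [hfrob]
    obtain ⟨a', ha'0, ha'⟩ := Cfsg.Agent.Helper2.clifford_orbit N χ θ hχ
    rw [← hO] at ha'
    have h1 : ∀ ξ ∈ O, classInner (fun n : N => (χ : G → ℂ) n) (ξ : N → ℂ) = a' := by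
      intro ξ hξ
      rw [ha', Cfsg.Agent.Helper2.classInner_smul_left, Cfsg.Agent.Helper2.classInner_sum_left,
        Finset.sum_congr rfl (fun ξ' _ => irr_classInner ξ' ξ),
        Finset.sum_ite_eq' O ξ (fun _ => (1 : ℂ)), if_pos hξ, mul_one]
    rw [Finset.sum_congr rfl (fun ξ hξ => by rw [h1 ξ hξ, Complex.conj_natCast])]
    have h2 := congrFun ha' 1
    simp only [Pi.smul_apply, Finset.sum_apply, smul_eq_mul, OneMemClass.coe_one] at h2
    rw [← Finset.sum_mul, mul_comm]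
    exact h2.symm
  · intro χ hχ
    show classInner (indFun N Θ) (χ : G → ℂ) = 0
    rw [hfrob]
    apply Finset.sum_eq_zero
    intro ξ hξ
    rw [hO, Finset.mem_filter] at hξ
    obtain ⟨k, hk⟩ := hξ.2
    have h1 := Cfsg.Agent.Helper2.classInner_conjChar N (fun n : N => (χ : G → ℂ) n)
      (θ : N → ℂ) k
    have h2 : Cfsg.Agent.Helper2.conjChar N (fun n : N => (χ : G → ℂ) n) k
        = fun n : N => (χ : G → ℂ) n := by
      funext m
      rw [Cfsg.Agent.Helper2.conjChar_apply]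
      exact irr_conj χ (m : G) k
    rw [h2, ← hk, hχ] at h1
    rw [h1, map_zero, mul_zero]
  · intro g hg
    have h1 := Cfsg.Agent.Helper2.classFun_eq_sum_classInner
      (Cfsg.Agent.Helper2.indFun_isClassFunction N Θ)
    have h2 := congrFun h1 g
    rw [indFun_apply_of_not_mem_normal N Θ g hg] at h2
    simp only [Finset.sum_apply, Pi.smul_apply, smul_eq_mul] at h2
    exact h2.symm

/-- Let p be a prime, G a finite group with Sylow p-subgroup P, M a maximal ideal of the algebraic integers containing p, and B a p-block of G with defect group P. Let N be a normal subgroup of G not containing P and θ an irreducible character of N. Then the number of irreducible characters in B of degree prime to p lying over θ (having θ as a constituent on restriction to N) is either 0 or at least 2, and when p ≤ 3 it is divisible by p. -/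
theorem result {G : Type*} [Group G] [Fintype G] (p : ℕ) [Fact p.Prime] (P : Sylow p G) (M : Ideal Cfsg.AlgInt) (hM : Cfsg.IsPModular p M) (B : Set (Cfsg.IrrCharacter G)) (hB : Cfsg.IsPBlock M B) (hBP : Cfsg.IsDefectGroup p M B P) (N : Subgroup G) [N.Normal] [Fintype N] (hPN : ¬ (P : Subgroup G) ≤ N) (θ : Cfsg.IrrCharacter N) :
    (Nat.card {χ : Cfsg.IrrCharacter G // χ ∈ B ∧ ¬ p ∣ Cfsg.charDegree (χ : G → ℂ) ∧ Cfsg.classInner (fun n : N => (χ : G → ℂ) n) (θ : N → ℂ) ≠ 0} = 0 ∨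
      2 ≤ Nat.card {χ : Cfsg.IrrCharacter G // χ ∈ B ∧ ¬ p ∣ Cfsg.charDegree (χ : G → ℂ) ∧ Cfsg.classInner (fun n : N => (χ : G → ℂ) n) (θ : N → ℂ) ≠ 0}) ∧
    (p ≤ 3 → p ∣ Nat.card {χ : Cfsg.IrrCharacter G // χ ∈ B ∧ ¬ p ∣ Cfsg.charDegree (χ : G → ℂ) ∧ Cfsg.classInner (fun n : N => (χ : G → ℂ) n) (θ : N → ℂ) ≠ 0}) := by
  classical
  have hp : p.Prime := Fact.out
  obtain ⟨x, hxP, hxN⟩ : ∃ x, x ∈ (P : Subgroup G) ∧ x ∉ N := by
    by_contra h
    push Not at h
    exact hPN (fun x hx => h x hx)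
  obtain ⟨k, hk⟩ : ∃ k : ℕ, orderOf x = p ^ k := by
    obtain ⟨k, hk⟩ := (IsPGroup.iff_orderOf.mp P.2) ⟨x, hxP⟩
    exact ⟨k, by rw [← hk, ← Subgroup.orderOf_coe]⟩
  have h1one : ¬ p ∣ orderOf (1 : G) := by
    rw [orderOf_one]
    exact fun h => hp.one_lt.ne' (Nat.dvd_one.mp h)
  obtain ⟨a, ha1, ha0, hav⟩ := over_weight N θ
  have hkey : ∑ χ ∈ (Set.toFinite B).toFinset, a χ * (χ : G → ℂ) x = 0 := by
    apply Cfsg.Agent.S4731.block_part_sum_eq_zero
    intro g
    by_cases hg : g ∈ N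
    · right
      obtain ⟨x₀, hx₀⟩ := exists_isPPart hp (⟨g, hg⟩ : N)
      have hx₀' : IsPPart p g (x₀ : G) := isPPart_coe hx₀
      have hx' : IsPPart p x x := ⟨1, mul_one x, Commute.one_right x, ⟨k, hk⟩, h1one⟩
      apply block_orth hM hB x g x (x₀ : G) hx' hx₀'
      intro hc
      obtain ⟨c, hc⟩ := isConj_iff.mp hc
      apply hxN
      have h2 : x = c⁻¹ * (x₀ : G) * c⁻¹⁻¹ := by
        rw [← hc]
        group
      rw [h2]
      exact ‹N.Normal›.conj_mem _ x₀.2 c⁻¹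
    · left
      exact hav g hg
  have h2 : ∀ χ : IrrCharacter G, MemLocalIdeal M ((χ : G → ℂ) x - (χ : G → ℂ) 1) := by
    intro χ
    have := Cfsg.Agent.S0876.char_ppart_congr hM χ x 1 (Commute.one_right _) k hk h1one
    rwa [mul_one] at this
  have halr : ∀ χ : IrrCharacter G, MemLocalRing M (a χ) := by
    intro χ
    by_cases hχ : classInner (fun n : N => (χ : G → ℂ) n) (θ : N → ℂ) = 0
    · rw [ha0 χ hχ]
      simpa using lr_natCast hM 0
    · rw [ha1 χ hχ, irr_one_eq_degree]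
      exact lr_natCast hM _
  have h3 : MemLocalIdeal M (∑ χ ∈ (Set.toFinite B).toFinset, a χ * (χ : G → ℂ) 1) := by
    have e : ∑ χ ∈ (Set.toFinite B).toFinset, a χ * (χ : G → ℂ) 1
        = ∑ χ ∈ (Set.toFinite B).toFinset, a χ * (χ : G → ℂ) x
          - ∑ χ ∈ (Set.toFinite B).toFinset, a χ * ((χ : G → ℂ) x - (χ : G → ℂ) 1) := by
      rw [← Finset.sum_sub_distrib]
      apply Finset.sum_congr rfl
      intro χ _
      ring
    rw [e, hkey, zero_sub]
    apply li_neg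
    apply li_sum hM
    intro χ _
    exact lr_mul_li hM (halr χ) (h2 χ)
  obtain ⟨S', hS'⟩ : ∃ S' : Finset (IrrCharacter G), S' = (Set.toFinite B).toFinset.filter
      (fun χ : IrrCharacter G => classInner (fun n : N => (χ : G → ℂ) n) (θ : N → ℂ) ≠ 0) :=
    ⟨_, rfl⟩
  have h4 : ∑ χ ∈ (Set.toFinite B).toFinset, a χ * (χ : G → ℂ) 1
      = ((∑ χ ∈ S', charDegree (χ : G → ℂ) ^ 2 : ℕ) : ℂ) := by
    push_cast
    rw [hS', Finset.sum_filter]
    apply Finset.sum_congr rfl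
    intro χ _
    by_cases hχ : classInner (fun n : N => (χ : G → ℂ) n) (θ : N → ℂ) = 0
    · rw [ha0 χ hχ, zero_mul, if_neg (not_not.mpr hχ)]
    · rw [ha1 χ hχ, if_pos hχ, irr_one_eq_degree, pow_two]
  rw [h4, li_natCast_iff hM] at h3
  obtain ⟨S'', hS''⟩ : ∃ S'' : Finset (IrrCharacter G), S'' = S'.filter
      (fun χ : IrrCharacter G => ¬ p ∣ charDegree (χ : G → ℂ)) := ⟨_, rfl⟩
  have h5 : p ∣ ∑ χ ∈ S'', charDegree (χ : G → ℂ) ^ 2 := by
    have h6 := Finset.sum_filter_add_sum_filter_not S'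
      (fun χ : IrrCharacter G => ¬ p ∣ charDegree (χ : G → ℂ))
      (fun χ : IrrCharacter G => charDegree (χ : G → ℂ) ^ 2)
    have h7 : p ∣ ∑ χ ∈ S'.filter (fun χ : IrrCharacter G => ¬ ¬ p ∣ charDegree (χ : G → ℂ)),
        charDegree (χ : G → ℂ) ^ 2 := by
      apply Finset.dvd_sum
      intro χ hχ
      exact dvd_pow (not_not.mp (Finset.mem_filter.mp hχ).2) two_ne_zero
    rw [← h6, ← hS''] at h3
    exact (Nat.dvd_add_left h7).mp h3
  have hcard : Nat.card {χ : IrrCharacter G // χ ∈ B ∧ ¬ p ∣ charDegree (χ : G → ℂ) ∧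
      classInner (fun n : N => (χ : G → ℂ) n) (θ : N → ℂ) ≠ 0} = S''.card := by
    rw [Nat.card_eq_fintype_card, Fintype.card_subtype]
    congr 1
    ext χ
    simp only [hS'', hS', Finset.mem_filter, Finset.mem_univ, true_and, Set.Finite.mem_toFinset]
    tauto
  rw [hcard]
  constructor
  · by_contra hcon
    push Not at hcon
    have hc1 : S''.card = 1 := by omega
    obtain ⟨χ₀, hχ₀⟩ := Finset.card_eq_one.mp hc1
    rw [hχ₀, Finset.sum_singleton] at h5
    have h8 : χ₀ ∈ S'' := by rw [hχ₀]; exact Finset.mem_singleton_self _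
    rw [hS'', Finset.mem_filter] at h8
    exact h8.2 (hp.dvd_of_dvd_pow h5)
  · intro hp3
    have h9 : ∀ χ ∈ S'', charDegree (χ : G → ℂ) ^ 2 % p = 1 % p := by
      intro χ hχ
      rw [hS'', Finset.mem_filter] at hχ
      have hnd := hχ.2
      have hp2 := hp.two_le
      rw [Nat.pow_mod]
      have hlt : charDegree (χ : G → ℂ) % p < p := Nat.mod_lt _ hp.pos
      have hne : charDegree (χ : G → ℂ) % p ≠ 0 := fun h => hnd (Nat.dvd_of_mod_eq_zero h)
      interval_cases p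
      · have : charDegree (χ : G → ℂ) % 2 = 1 := by omega
        rw [this]
      · have : charDegree (χ : G → ℂ) % 3 = 1 ∨ charDegree (χ : G → ℂ) % 3 = 2 := by omega
        rcases this with h | h <;> rw [h]
    have h10 : (∑ χ ∈ S'', charDegree (χ : G → ℂ) ^ 2) % p = S''.card % p := by
      rw [Finset.sum_nat_mod, Finset.sum_congr rfl h9, ← Finset.sum_nat_mod, Finset.sum_const,
        smul_eq_mul, mul_one]
    exact Nat.dvd_of_mod_eq_zero (h10 ▸ Nat.mod_eq_zero_of_dvd h5)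

end Cfsg.Agent.S4825
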