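import Cfsg.Statements.S4828
import Cfsg.Agent.Helper25.BlockPairs15

set_option autoImplicit false
open Cfsg

namespace Cfsg.Agent.S4828

open Cfsg.Agent.Helper25
open scoped Pointwise

/-- Let p be a prime, M a maximal ideal of the algebraic integers containing p, and (Q, e) a Brauer pair of the finite group G (Q a p-subgroup, e a block of C_G(Q)). Then (Q, e) is a maximal Brauer pair of some block of G if and only if e contains an irreducible character θ such that θ takes the value θ(1) at every element of Z(Q) = Q ∩ C_G(Q), the p-part of θ(1) times the p-part of the order of Z(Q) equals the p-part of the order of C_G(Q) (θ has defect zero as a character of C_G(Q)/Z(Q)), and every element of N_G(Q) of p-power order that stabilizes e lies in Q·C_G(Q) (the stabilizer of e in N_G(Q) has index prime to p over Q·C_G(Q)). -/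
theorem result {G : Type*} [Group G] [Finite G] (p : ℕ) [Fact p.Prime] (M : Ideal Cfsg.AlgInt) (hM : Cfsg.IsPModular p M) (Q : Subgroup G) (e : Set (Cfsg.IrrCharacter (Subgroup.centralizer (Q : Set G)))) (he : Cfsg.IsBrauerPair p M Q e) :
    (∃ B : Set (Cfsg.IrrCharacter G), Cfsg.IsMaximalBrauerPair p M B Q e) ↔
      ∃ θ ∈ e, (∀ z : Subgroup.centralizer (Q : Set G), (z : G) ∈ Q → (θ : Subgroup.centralizer (Q : Set G) → ℂ) z = (θ : Subgroup.centralizer (Q : Set G) → ℂ) 1) ∧
        (Cfsg.charDegree (θ : Subgroup.centralizer (Q : Set G) → ℂ)).factorization p + (Nat.card ↥(Q ⊓ Subgroup.centralizer (Q : Set G))).factorization p = (Nat.card (Subgroup.centralizer (Q : Set G))).factorization p ∧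
        (∀ g : G, g ∈ Subgroup.normalizer (Q : Set G) → Cfsg.StabilizesBlock (Subgroup.centralizer (Q : Set G)) e g → (∃ k : ℕ, orderOf g = p ^ k) → g ∈ Q ⊔ Subgroup.centralizer (Q : Set G)) := by
  classical
  let _ : Fintype G := Fintype.ofFinite G
  let _ : Fintype (Subgroup.centralizer (Q : Set G)) := Fintype.ofFinite _
  have hp : p.Prime := Fact.out
  haveI := subgroupOf_centralizer_normal Q
  have hZp : IsPGroup p (Q.subgroupOf (Subgroup.centralizer (Q : Set G))) := he.1.comap_subtype
  constructor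
  · rintro ⟨B, hmax⟩
    have hH : NoUpperPair p M Q e := fun R hR hPR hne hRN hst x hx =>
      li_blockCoeff_of_maximal hM hmax R hR hPR hne hRN hst x hx
    have hA := isDefectGroup_center_of_noUpperPair hM he hH
    obtain ⟨θ, hθ, hker⟩ := Cfsg.Agent.Helper26.exists_mem_block_le_irrKer hM
      (Q.subgroupOf (Subgroup.centralizer (Q : Set G))) hZp he.2
    refine ⟨θ, hθ, ?_, ?_, ?_⟩
    · intro z hz
      exact (mem_irrKer θ z).mp (hker (Subgroup.mem_subgroupOf.mpr hz))
    · have hcZ := Cfsg.Agent.Helper7.card_defectGroup hM he.2 hA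
      rw [← card_subgroupOf_centralizer]
      apply le_antisymm
      · have h1 : charDegree (θ : Subgroup.centralizer (Q : Set G) → ℂ) ∣
            (Q.subgroupOf (Subgroup.centralizer (Q : Set G))).index :=
          (irr_degree_dvd_index_ker θ).trans (Subgroup.index_dvd_of_le hker)
        have h2 : charDegree (θ : Subgroup.centralizer (Q : Set G) → ℂ)
            * Nat.card (Q.subgroupOf (Subgroup.centralizer (Q : Set G)))
            ∣ Nat.card (Subgroup.centralizer (Q : Set G)) := by
          rw [← Subgroup.index_mul_card (Q.subgroupOf (Subgroup.centralizer (Q : Set G)))]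
          exact Nat.mul_dvd_mul_right h1 _
        have h3 := (Nat.factorization_le_iff_dvd
          (mul_ne_zero (irr_degree_pos θ).ne' Nat.card_pos.ne') Nat.card_pos.ne').mpr h2 p
        rw [Nat.factorization_mul (irr_degree_pos θ).ne' Nat.card_pos.ne'] at h3
        simpa using h3
      · have h4 : (Nat.card (Q.subgroupOf (Subgroup.centralizer (Q : Set G)))).factorization p
            = blockDefect p e := by
          rw [hcZ, Nat.Prime.factorization_pow hp]
          simp
        rw [h4]
        unfold blockDefect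
        have h5 : sInf ((fun χ : IrrCharacter (Subgroup.centralizer (Q : Set G)) =>
            (charDegree (χ : Subgroup.centralizer (Q : Set G) → ℂ)).factorization p) '' e)
            ≤ (charDegree (θ : Subgroup.centralizer (Q : Set G) → ℂ)).factorization p :=
          Nat.sInf_le ⟨θ, hθ, rfl⟩
        omega
    · rintro g hgN hgst ⟨k, hk⟩
      exact mem_sup_of_noUpperPair hM he hH g hgN hgst k (by
        rw [← hk]
        exact pow_orderOf_eq_one g)
  · rintro ⟨θ, hθ, hker, hdeg, hstab⟩
    obtain ⟨B, hB⟩ := exists_isBrauerPairOf hM he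
    refine ⟨B, hB, ?_⟩
    intro R g hRg hle
    by_contra hne
    have hQR : Q ≤ R := subpairLE_le (⟨Q, e⟩ : BrauerPairIdx G) ⟨R, g⟩ hle
    obtain ⟨x, hxR, hxN, hxQ⟩ := exists_normalizer_of_lt hp hRg.1.1 hQR (fun h => hne h.symm)
    obtain ⟨R₁, hR₁⟩ : ∃ R₁ : Subgroup G, R₁ = Q ⊔ Subgroup.zpowers x := ⟨_, rfl⟩
    have hQR₁ : Q ≤ R₁ := by
      rw [hR₁]
      exact le_sup_left
    have hxR₁ : x ∈ R₁ := by
      rw [hR₁]
      exact (le_sup_right : Subgroup.zpowers x ≤ Q ⊔ Subgroup.zpowers x) (Subgroup.mem_zpowers x)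
    have hR₁R : R₁ ≤ R := by
      rw [hR₁]
      exact sup_le hQR (Subgroup.zpowers_le.mpr hxR)
    have hR₁N : R₁ ≤ Subgroup.normalizer (Q : Set G) := by
      rw [hR₁]
      exact sup_le Subgroup.le_normalizer (Subgroup.zpowers_le.mpr hxN)
    have hR₁p : IsPGroup p R₁ := hRg.1.1.to_le hR₁R
    obtain ⟨g₁, ⟨hg₁, hle₁⟩, -⟩ := exists_unique_subpair hM R R₁ g hRg.1 hR₁R
    have hR₁g₁ : IsBrauerPair p M R₁ g₁ := ⟨hR₁p, hg₁⟩
    obtain ⟨e', ⟨he', hle'⟩, -⟩ := exists_unique_subpair hM R₁ Q g₁ hR₁g₁ hQR₁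
    obtain ⟨e₀, -, huniq⟩ := exists_unique_subpair hM R Q g hRg.1 hQR
    have h1 : e' = e₀ := huniq e' ⟨he', Relation.ReflTransGen.trans hle' hle₁⟩
    have h2 : e = e₀ := huniq e ⟨he.2, hle⟩
    have hle'' : SubpairLE p M Q e R₁ g₁ := by
      rw [h2, ← h1]
      exact hle'
    have hns := normalSubpair_of_subpairLE hM (a := ⟨Q, e⟩) (c := ⟨R₁, g₁⟩) hR₁g₁ hle'' hR₁N
    obtain ⟨-, -, -, -, hst, hω⟩ := hns
    obtain ⟨ξ₁, hξ₁⟩ : ∃ ξ₁, ξ₁ ∈ g₁ := by
      obtain ⟨ξ₀, rfl⟩ := hg₁
      exact ⟨ξ₀, self_mem_blockOf hM ξ₀⟩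
    have hLK : Subgroup.centralizer (R₁ : Set G) ≤ Subgroup.centralizer (Q : Set G) :=
      Subgroup.centralizer_le hQR₁
    let _ : Fintype (Subgroup.centralizer (R₁ : Set G)) := Fintype.ofFinite _
    obtain ⟨x₀, hx₀R, hx₀⟩ : ∃ x₀ : Subgroup.centralizer (Q : Set G),
        (x₀ : G) ∈ Subgroup.centralizer (R₁ : Set G) ∧ ¬ MemLocalIdeal M (blockCoeff e x₀) := by
      by_contra hcon
      push Not at hcon
      have h3 := hω ξ₁ hξ₁
      rw [brauerOmega_subgroupBlockCoeff (Subgroup.centralizer (Q : Set G)) R₁ hLK] at h3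
      have h4 : MemLocalIdeal M (brA (Subgroup.centralizer (Q : Set G)) R₁ hLK e ξ₁) :=
        li_omega_of_li hM _ (resFun_blockCoeff_classFun (Subgroup.centralizer (Q : Set G)) R₁ hLK e)
          (fun c => hcon ⟨c, hLK c.2⟩ c.2) ξ₁
      have h5 := li_sub hM h4 h3
      rw [sub_sub_cancel] at h5
      exact not_li_one hM h5
    -- the class from θ
    have hZc : Q.subgroupOf (Subgroup.centralizer (Q : Set G))
        ≤ Subgroup.center (Subgroup.centralizer (Q : Set G)) := by
      intro z hz
      rw [Subgroup.mem_center_iff]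
      intro c
      apply Subtype.ext
      exact (Subgroup.mem_centralizer_iff.mp c.2 (z : G) (Subgroup.mem_subgroupOf.mp hz)).symm
    have hker' : Q.subgroupOf (Subgroup.centralizer (Q : Set G)) ≤ irrKer θ := by
      intro z hz
      exact (mem_irrKer θ z).mpr (hker z (Subgroup.mem_subgroupOf.mp hz))
    obtain ⟨g₀, hg₀, hg₀c⟩ := exists_class_of_defect_zero_mod hM
      (Q.subgroupOf (Subgroup.centralizer (Q : Set G))) hZc hZp θ hker' (by
        rw [card_subgroupOf_centralizer, hdeg])
    have hg₀' : ∀ χ ∈ e, ¬ MemLocalIdeal M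
        (centralChar (χ : Subgroup.centralizer (Q : Set G) → ℂ) g₀) := by
      intro χ hχ hli
      apply hg₀
      have h3 := sameBlock_of_mem hM he.2 hθ hχ g₀
      have h4 := li_add hM h3 hli
      rw [sub_add_cancel] at h4
      exact h4
    -- the subgroup D₁ = R₁ ∩ C
    have hD₁p : IsPGroup p (R₁.subgroupOf (Subgroup.centralizer (Q : Set G))) :=
      hR₁p.comap_subtype
    have hD₁x : R₁.subgroupOf (Subgroup.centralizer (Q : Set G))
        ≤ Subgroup.centralizer ({x₀} : Set (Subgroup.centralizer (Q : Set G))) := by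
      intro d hd
      rw [Subgroup.mem_centralizer_singleton_iff]
      apply Subtype.ext
      exact (Subgroup.mem_centralizer_iff.mp hx₀R (d : G) (Subgroup.mem_subgroupOf.mp hd))
    obtain ⟨y, hy, hD₁y⟩ := Cfsg.Agent.Helper7.minmax_core hM he.2 g₀ x₀ hg₀' hx₀ _ hD₁p hD₁x
    have hcardy : Nat.card (Subgroup.centralizer ({y} : Set (Subgroup.centralizer (Q : Set G))))
        = Nat.card (Subgroup.centralizer ({g₀} : Set (Subgroup.centralizer (Q : Set G)))) := by
      obtain ⟨t, rfl⟩ := isConj_iff.mp hy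
      have h3 := index_centralizer_conj g₀ t
      have h4 := Subgroup.card_mul_index
        (Subgroup.centralizer ({t * g₀ * t⁻¹} : Set (Subgroup.centralizer (Q : Set G))))
      have h5 := Subgroup.card_mul_index
        (Subgroup.centralizer ({g₀} : Set (Subgroup.centralizer (Q : Set G))))
      rw [h3] at h4
      have hpos : 0 < (Subgroup.centralizer
          ({g₀} : Set (Subgroup.centralizer (Q : Set G)))).index :=
        Nat.pos_of_ne_zero Subgroup.index_ne_zero_of_finite
      exact Nat.eq_of_mul_eq_mul_right hpos (h4.trans h5.symm)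
    have hdvd : Nat.card (R₁.subgroupOf (Subgroup.centralizer (Q : Set G)))
        ∣ Nat.card (Subgroup.centralizer ({g₀} : Set (Subgroup.centralizer (Q : Set G)))) := by
      rw [← hcardy]
      exact Subgroup.card_dvd_of_le hD₁y
    obtain ⟨a, ha⟩ := (IsPGroup.iff_card.mp hD₁p)
    obtain ⟨b, hb⟩ := (IsPGroup.iff_card.mp hZp)
    have hab : a ≤ b := by
      have h3 := (Nat.factorization_le_iff_dvd Nat.card_pos.ne' Nat.card_pos.ne').mpr hdvd p
      rw [ha, Nat.Prime.factorization_pow hp] at h3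
      rw [hb, Nat.Prime.factorization_pow hp] at hg₀c
      simp at h3 hg₀c
      omega
    have hZD : Q.subgroupOf (Subgroup.centralizer (Q : Set G))
        ≤ R₁.subgroupOf (Subgroup.centralizer (Q : Set G)) := fun z hz =>
      Subgroup.mem_subgroupOf.mpr (hQR₁ (Subgroup.mem_subgroupOf.mp hz))
    have hEq := Subgroup.eq_of_le_of_card_ge hZD (by
      rw [ha, hb]
      exact Nat.pow_le_pow_right hp.pos hab)
    -- conclude x ∈ Q
    apply hxQ
    have hxp : ∃ k : ℕ, orderOf x = p ^ k := by
      obtain ⟨k, hk⟩ := (IsPGroup.iff_orderOf.mp hR₁p) ⟨x, hxR₁⟩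
      exact ⟨k, by rw [← hk, Subgroup.orderOf_mk]⟩
    have hxs := hstab x hxN (hst x hxR₁) hxp
    have hset := Subgroup.coe_mul_of_right_le_normalizer_left Q
      (Subgroup.centralizer (Q : Set G)) (Subgroup.centralizer_le_normalizer _)
    have hxs' : x ∈ ((Q ⊔ Subgroup.centralizer (Q : Set G) : Subgroup G) : Set G) := hxs
    rw [hset] at hxs'
    obtain ⟨q, hq, c, hc, hqc⟩ := Set.mem_mul.mp hxs'
    have hcR₁ : c ∈ R₁ := by
      have h3 : c = q⁻¹ * x := by
        rw [← hqc]
        group
      rw [h3]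
      exact Subgroup.mul_mem _ (Subgroup.inv_mem _ (hQR₁ hq)) hxR₁
    have hcQ : c ∈ Q := by
      have h3 : (⟨c, hc⟩ : Subgroup.centralizer (Q : Set G)) ∈
          R₁.subgroupOf (Subgroup.centralizer (Q : Set G)) := Subgroup.mem_subgroupOf.mpr hcR₁
      rw [← hEq] at h3
      exact Subgroup.mem_subgroupOf.mp h3
    rw [← hqc]
    exact Subgroup.mul_mem _ hq hcQ

end Cfsg.Agent.S4828
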