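import Cfsg.Statements.S4873
import Cfsg.Agent.Helper26.RealOver

set_option autoImplicit false
open Cfsg

namespace Cfsg.Agent.S4873

open Cfsg.Agent.Helper26

/-- Let N be a normal subgroup of odd index in the finite group G. Then every irreducible complex character of N with Frobenius–Schur indicator +1 lies under exactly one irreducible character of G with Frobenius–Schur indicator +1. -/
theorem result {G : Type*} [Group G] [Finite G] (N : Subgroup G) [N.Normal] (hodd : Odd N.index) (φ : Cfsg.IrrCharacter ↥N) (hφ : (Nat.card ↥N : ℂ)⁻¹ * ∑ᶠ g : ↥N, (φ : ↥N → ℂ) (g * g) = 1) : ∃! χ : Cfsg.IrrCharacter G, (Nat.card G : ℂ)⁻¹ * ∑ᶠ g : G, (χ : G → ℂ) (g * g) = 1 ∧ (∑ᶠ n : ↥N, (χ : G → ℂ) n * (starRingEnd ℂ) ((φ : ↥N → ℂ) n)) ≠ 0 := by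
  classical
  haveI : Fintype G := Fintype.ofFinite G
  haveI : Fintype N := Fintype.ofFinite N
  have hφ' : Cfsg.Agent.Helper24.fsInd (φ : N → ℂ) = 1 := by
    unfold Cfsg.Agent.Helper24.fsInd
    rw [← finsum_eq_sum_of_fintype]
    exact hφ
  obtain ⟨χ, ⟨h1, h2⟩, huniq⟩ := Cfsg.Agent.Helper26.rov_main N hodd φ hφ'
  have hconv : ∀ χ : IrrCharacter G,
      (∑ᶠ n : N, (χ : G → ℂ) n * (starRingEnd ℂ) ((φ : N → ℂ) n)) ≠ 0 ↔
        classInner (fun n : N => (χ : G → ℂ) n) (φ : N → ℂ) ≠ 0 := by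
    intro χ
    unfold classInner
    rw [finsum_eq_sum_of_fintype]
    constructor
    · intro h
      exact mul_ne_zero (inv_ne_zero (by exact_mod_cast Nat.card_pos.ne')) h
    · intro h
      exact right_ne_zero_of_mul h
  have hfs : ∀ χ : IrrCharacter G,
      (Nat.card G : ℂ)⁻¹ * ∑ᶠ g : G, (χ : G → ℂ) (g * g) = 1 ↔
        Cfsg.Agent.Helper24.fsInd (χ : G → ℂ) = 1 := by
    intro χ
    unfold Cfsg.Agent.Helper24.fsInd
    rw [finsum_eq_sum_of_fintype]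
  refine ⟨χ, ⟨(hfs χ).mpr h1, (hconv χ).mpr h2⟩, ?_⟩
  rintro χ' ⟨h1', h2'⟩
  exact huniq χ' ⟨(hfs χ').mp h1', (hconv χ').mp h2'⟩

end Cfsg.Agent.S4873
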