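import Cfsg.Statements.S4916
import Mathlib
import Cfsg.Agent.Helper25.BlockIdem

set_option autoImplicit false
open Cfsg

namespace Cfsg.Agent.S4916

/-- Let G be a finite group, p a prime and M a maximal ideal of the algebraic integers containing p. Then the principal character is the only irreducible character of degree prime to p in the principal p-block of G if and only if p does not divide the order of G. -/
theorem result {G : Type*} [Group G] [Finite G] (p : ℕ) [Fact p.Prime] (M : Ideal Cfsg.AlgInt) (hM : Cfsg.IsPModular p M) : (∀ χ : Cfsg.IrrCharacter G, χ ∈ Cfsg.principalBlock M G → ¬ p ∣ Cfsg.charDegree (χ : G → ℂ) → (χ : G → ℂ) = fun _ => (1 : ℂ)) ↔ ¬ p ∣ Nat.card G := by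
  classical
  open Cfsg.Agent.Helper25 in
  have := Fintype.ofFinite G
  have hp : p.Prime := Fact.out
  constructor
  · intro h hpG
    have hlr := blockCoeff_lr hM (isPBlock_principalBlock (M := M) (G := G)) (1 : G)
    rw [blockCoeff_eq_sum] at hlr
    have h1 : MemLocalIdeal M ((Nat.card G : ℂ) * ((Nat.card G : ℂ)⁻¹ *
        ∑ χ ∈ (Set.toFinite (principalBlock M G)).toFinset,
          (χ : G → ℂ) 1 * (χ : G → ℂ) (1 : G)⁻¹)) :=
      li_mul_lr hM ((li_natCast_iff hM _).mpr hpG) hlr
    rw [← mul_assoc, mul_inv_cancel₀ card_ne_zero, one_mul] at h1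
    have h2 : ∑ χ ∈ (Set.toFinite (principalBlock M G)).toFinset,
          (χ : G → ℂ) 1 * (χ : G → ℂ) (1 : G)⁻¹ =
        ((∑ χ ∈ (Set.toFinite (principalBlock M G)).toFinset,
          charDegree (χ : G → ℂ) ^ 2 : ℕ) : ℂ) := by
      push_cast
      apply Finset.sum_congr rfl
      intro χ _
      rw [inv_one, irr_one_eq_degree, sq]
    rw [h2, li_natCast_iff hM] at h1
    have hmem : trivChar G ∈ (Set.toFinite (principalBlock M G)).toFinset := by
      rw [Set.Finite.mem_toFinset]
      exact trivChar_mem_principalBlock hM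
    rw [← Finset.add_sum_erase _ _ hmem, charDegree_trivChar] at h1
    have h3 : p ∣ ∑ χ ∈ ((Set.toFinite (principalBlock M G)).toFinset).erase (trivChar G),
        charDegree (χ : G → ℂ) ^ 2 := by
      apply Finset.dvd_sum
      intro χ hχ
      obtain ⟨hne, hmem'⟩ := Finset.mem_erase.mp hχ
      rw [Set.Finite.mem_toFinset] at hmem'
      apply Dvd.dvd.pow _ (by norm_num)
      by_contra hnd
      apply hne
      apply Subtype.ext
      exact h χ hmem' hnd
    have h4 : p ∣ 1 ^ 2 := (Nat.dvd_add_left h3).mp h1
    rw [one_pow] at h4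
    exact hp.one_lt.ne' (Nat.dvd_one.mp h4)
  · intro hpG χ hχ _
    by_contra hne
    have hne' : χ ≠ trivChar G := fun h => hne (by rw [h]; rfl)
    have h1 := irr_bil χ (trivChar G)
    rw [if_neg hne'] at h1
    unfold bil at h1
    have h2 : ∑ g : G, (χ : G → ℂ) g = 0 := by
      rcases mul_eq_zero.mp h1 with h | h
      · exact absurd (inv_eq_zero.mp h) card_ne_zero
      · simpa [trivChar_apply] using h
    have hne1 := irr_one_ne_zero χ
    have h3 : MemLocalIdeal M (∑ g : G, (1 - (χ : G → ℂ) g / (χ : G → ℂ) 1)) := by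
      apply li_sum_classFun hM
      · intro g x
        rw [irr_conj]
      · intro g
        have e : ((Subgroup.centralizer ({g} : Set G)).index : ℂ) *
            (1 - (χ : G → ℂ) g / (χ : G → ℂ) 1) =
            ((Subgroup.centralizer ({g} : Set G)).index : ℂ) - centralChar (χ : G → ℂ) g := by
          unfold centralChar
          ring
        rw [e]
        exact (mem_principalBlock_iff χ).mp hχ g
    rw [Finset.sum_sub_distrib, ← Finset.sum_div, h2, zero_div, sub_zero, Finset.sum_const,
      Finset.card_univ, nsmul_eq_mul, mul_one, ← Nat.card_eq_fintype_card,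
      li_natCast_iff hM] at h3
    exact hpG h3

end Cfsg.Agent.S4916
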