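import Cfsg.Statements.S5011

set_option autoImplicit false
open Cfsg

namespace Cfsg.Agent.S5011

/-- the elements acting as scalars -/
def scalarSubgroup {G : Type*} [Group G] {V : Type*} [AddCommGroup V] [Module ℂ V]
    (ρ : Representation ℂ G V) (hV : ∃ v : V, v ≠ 0) : Subgroup G where
  carrier := {x | ∃ μ : ℂ, ∀ v : V, ρ x v = μ • v}
  one_mem' := ⟨1, fun v => by simp⟩
  mul_mem' := by
    rintro x y ⟨μ, hμ⟩ ⟨ν, hν⟩
    refine ⟨μ * ν, fun v => ?_⟩
    rw [map_mul, Module.End.mul_apply, hν, map_smul, hμ, smul_smul, mul_comm]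
  inv_mem' := by
    rintro x ⟨μ, hμ⟩
    obtain ⟨w, hw⟩ := hV
    have hμ0 : μ ≠ 0 := by
      rintro rfl
      have h1 : ρ x⁻¹ (ρ x w) = w := by
        rw [← Module.End.mul_apply, ← map_mul]; simp
      rw [hμ, zero_smul, map_zero] at h1
      exact hw h1.symm
    refine ⟨μ⁻¹, fun v => ?_⟩
    have h1 : ρ x⁻¹ (ρ x v) = v := by
      rw [← Module.End.mul_apply, ← map_mul]; simp
    rw [hμ, map_smul] at h1
    conv_rhs => rw [← h1]
    rw [smul_smul, inv_mul_cancel₀ hμ0, one_smul]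

theorem result {G : Type*} [Group G] [Finite G] [IsSimpleGroup G]
    (hG : ¬ IsMulCommutative G) {V : Type*} [AddCommGroup V] [Module ℂ V] [FiniteDimensional ℂ V]
    (ρ : Representation ℂ G V)
    (hirr : ∀ W : Submodule ℂ V, (∀ x : G, ∀ v ∈ W, ρ x v ∈ W) → W = ⊥ ∨ W = ⊤)
    (hdim : 1 < Module.finrank ℂ V) (g : G) (hg : g ≠ 1) :
    ∃ W : Submodule ℂ V, W ≠ ⊥ ∧ W ≠ ⊤ ∧ ∀ c ∈ Subgroup.centralizer ({g} : Set G), ∀ v ∈ W, ρ c v ∈ W := by
  classical
  have hnt : Nontrivial V := Module.nontrivial_of_finrank_pos (R := ℂ) (by omega)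
  obtain ⟨w, hw⟩ := exists_ne (0 : V)
  obtain ⟨μ, hμ⟩ := Module.End.exists_eigenvalue (ρ g)
  by_cases hW : Module.End.eigenspace (ρ g) μ = ⊤
  · exfalso
    have hscal : ∀ v : V, ρ g v = μ • v := by
      intro v
      have : v ∈ Module.End.eigenspace (ρ g) μ := by rw [hW]; trivial
      exact Module.End.mem_eigenspace_iff.mp this
    have hN : (scalarSubgroup ρ ⟨w, hw⟩).Normal := by
      constructor
      rintro x ⟨ν, hν⟩ z
      refine ⟨ν, fun v => ?_⟩
      rw [map_mul, map_mul, Module.End.mul_apply, Module.End.mul_apply, hν, map_smul,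
        ← Module.End.mul_apply, ← map_mul]
      simp
    have hgN : g ∈ scalarSubgroup ρ ⟨w, hw⟩ := ⟨μ, hscal⟩
    have htop : scalarSubgroup ρ ⟨w, hw⟩ = ⊤ := by
      rcases hN.eq_bot_or_eq_top with h | h
      · rw [h, Subgroup.mem_bot] at hgN
        exact absurd hgN hg
      · exact h
    have hinv : ∀ x : G, ∀ v ∈ (Submodule.span ℂ {w} : Submodule ℂ V), ρ x v ∈ (Submodule.span ℂ {w} : Submodule ℂ V) := by
      intro x v hv
      have hx : x ∈ scalarSubgroup ρ ⟨w, hw⟩ := by rw [htop]; trivial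
      obtain ⟨ν, hν⟩ := hx
      rw [hν]
      exact Submodule.smul_mem _ _ hv
    rcases hirr _ hinv with h | h
    · rw [Submodule.span_singleton_eq_bot] at h
      exact hw h
    · have h1 : Module.finrank ℂ (Submodule.span ℂ {w} : Submodule ℂ V) = 1 := finrank_span_singleton hw
      rw [h, finrank_top] at h1
      omega
  · refine ⟨Module.End.eigenspace (ρ g) μ, hμ, hW, ?_⟩
    intro c hc v hv
    rw [Module.End.mem_eigenspace_iff] at hv ⊢
    have hcg : g * c = c * g := by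
      have := Subgroup.mem_centralizer_iff.mp hc g (Set.mem_singleton g)
      exact this
    rw [← Module.End.mul_apply, ← map_mul, hcg, map_mul, Module.End.mul_apply, hv, map_smul]

end Cfsg.Agent.S5011
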