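import Cfsg.Statements.S5120
import Cfsg.Agent.Helper27.PPN4


set_option autoImplicit false
open Cfsg

namespace Cfsg.Agent.S5120

open Cfsg.Agent.Helper27 Cfsg.FusionSystem

/-- Let F be a saturated fusion system over a finite p-group S and T a subgroup of S containing the hyperfocal subgroup of F and normal in S. Then every saturated subsystem of F over T of p-power index is a normal subsystem of F. -/
theorem result {Ω : Type*} [Group Ω] {S : Subgroup Ω} [Finite S] (p : ℕ) [Fact p.Prime] (hS : IsPGroup p S) (F : Cfsg.FusionSystem S) (hF : F.IsSaturated p) (T : Subgroup Ω) (hTS : T ≤ S) (hTn : (T.subgroupOf S).Normal) (hT : F.hyperfocalSubgroup p ≤ T) (E : Cfsg.FusionSystem T) (hEs : E.IsSaturated p) (hEi : E.HasPPowerIndexIn F p) : E.IsNormalIn F p := by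
  have hTn' : ∀ g ∈ S, ∀ t : Ω, t ∈ T ↔ g * t * g⁻¹ ∈ T := by
    intro g hg t
    constructor
    · intro ht
      have h1 := hTn.conj_mem ⟨t, hTS ht⟩ (Subgroup.mem_subgroupOf.mpr ht) ⟨g, hg⟩
      exact Subgroup.mem_subgroupOf.mp h1
    · intro ht
      have h1 := hTn.conj_mem ⟨g * t * g⁻¹, hTS ht⟩ (Subgroup.mem_subgroupOf.mpr ht)
        ⟨g⁻¹, S.inv_mem hg⟩
      have h2 := Subgroup.mem_subgroupOf.mp h1
      have e : g⁻¹ * (g * t * g⁻¹) * g⁻¹⁻¹ = t := by group
      have h3 : g⁻¹ * (g * t * g⁻¹) * g⁻¹⁻¹ ∈ T := h2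
      rwa [e] at h3
  have hsc := stronglyClosed_of_hyp_le hS hF hTS hTn' hT
  have hN : NormFn E F := by
    refine ⟨hEi.1, hsc, ?_, ?_, ?_⟩
    · intro P f hf α hα
      exact ppow_inv hS hTS hEs hEi hα hf
    · intro P hPT f hf
      exact ppow_frat hS hF hTS hTn' hsc hEs hEi hPT hf
    · intro α hα
      exact ppow_ext hS hF hTS hTn' hT hEs hEi hα
  exact hN.normal hEs hF

end Cfsg.Agent.S5120
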