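import Cfsg.Statements.S5126
import Cfsg.Agent.Helper27.FusReal
import Cfsg.Agent.Helper27.FusNormal
import Cfsg.Agent.Helper26.KNormApps

set_option autoImplicit false
open Cfsg

namespace Cfsg.Agent.S5126

open Cfsg.FusionSystem Cfsg.Agent.Helper27

/-- In a saturated fusion system over a finite p-group S, the normalizer system of a fully normalized, centric, radical subgroup R is constrained, and in every model of that normalizer system the largest normal p-subgroup is the image of R. -/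
theorem result {Ω : Type*} [Group Ω] {S : Subgroup Ω} [Finite S] (p : ℕ) [Fact p.Prime] (hS : IsPGroup p S) (F : Cfsg.FusionSystem S) (hF : F.IsSaturated p) (R : Subgroup Ω) (hRn : F.IsFullyNormalized R) (hRc : F.IsCentric R) (hRr : F.IsRadical p R) (E : Cfsg.FusionSystem (Cfsg.FusionSystem.normalizerIn S R)) (hE : F.IsNormalizerSystem R E) {G : Type*} [Group G] (ι : ↥(Cfsg.FusionSystem.normalizerIn S R) →* G) : E.IsConstrained p ∧ (E.IsModel p G ι → (Cfsg.pCore p G : Subgroup G) = (R.subgroupOf (Cfsg.FusionSystem.normalizerIn S R)).map ι) := by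
  have hRS : R ≤ S := hRn.1
  have hRN : R ≤ normalizerIn S R := le_normalizerIn hRS
  have hNS : normalizerIn S R ≤ S := normalizerIn_le S R
  have hEsat : E.IsSaturated p :=
    Cfsg.Agent.Helper26.normalizerSystem_saturated p hS F hF R hRn E hE
  have hEF : ∀ {P : Subgroup Ω} {f : Ω → Ω}, Mor E P f → Mor F P f :=
    fun h => ((mor_normalizerSys_iff hE).mp h).1
  have hRnorm : E.IsNormal R := by
    apply normal_of_extend hRN
    intro P f hf
    obtain ⟨hfF, hPN, hfN, f', hf', hf'f, hf'R, hf'R'⟩ := (mor_normalizerSys_iff hE).mp hf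
    refine ⟨f', ?_, hf'f, hf'R, hf'R'⟩
    rw [mor_normalizerSys_iff hE]
    refine ⟨hf', sup_le hPN hRN, ?_, f', hf'.restrict ?_, fun _ _ => rfl, hf'R, hf'R'⟩
    · exact Mor.map_sup_mem hf' (fun x hx => by rw [hf'f x hx]; exact hfN x hx)
        (fun x hx => hRN (hf'R x hx))
    · exact sup_le le_rfl le_sup_right
  have hRcen : E.IsCentric R := by
    refine ⟨hRN, fun Q hQ => ?_⟩
    have hQF : F.IsConj R Q := by
      obtain ⟨f, hf, hi⟩ := isConj_iff.mp hQ
      exact isConj_iff.mpr ⟨f, hEF hf, hi⟩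
    intro c hc
    obtain ⟨hcN, hcQ⟩ := mem_centralizerIn.mp hc
    exact hRc.2 Q hQF (mem_centralizerIn.mpr ⟨hNS hcN, hcQ⟩)
  refine ⟨⟨hEsat, R, hRnorm, hRcen⟩, ?_⟩
  rintro ⟨hfin, hreal, ⟨T, hT⟩, hC⟩
  haveI := hfin
  have hinj := hreal.1
  have hOn : (pCore p G).Normal := pCore_normal' p G
  have hOT : pCore p G ≤ ι.range := by
    rw [← hT]
    exact pCore_le_sylow T
  obtain ⟨Q, hQdef⟩ : ∃ Q : Subgroup Ω,
      Q = ((pCore p G).comap ι).map (normalizerIn S R).subtype := ⟨_, rfl⟩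
  have hQN : Q ≤ normalizerIn S R := by
    rw [hQdef]
    rintro _ ⟨x, -, rfl⟩
    exact x.2
  have hmemQ : ∀ x (hx : x ∈ normalizerIn S R), x ∈ Q ↔ ι ⟨x, hx⟩ ∈ pCore p G := by
    intro x hx
    rw [hQdef]
    constructor
    · rintro ⟨x', hx', hxx'⟩
      have : x' = ⟨x, hx⟩ := Subtype.ext hxx'
      rw [← this]
      exact hx'
    · intro h
      exact ⟨⟨x, hx⟩, h, rfl⟩
  have step1 : ∀ g : G, ∀ r (hr : r ∈ R), ∃ (r' : Ω) (hr' : r' ∈ R),
      g * ι ⟨r, hRN hr⟩ * g⁻¹ = ι ⟨r', hRN hr'⟩ := by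
    intro g r hr
    have hgQ : ∀ x (hx : x ∈ Q), g * ι ⟨x, hQN hx⟩ * g⁻¹ ∈ ι.range := fun x hx =>
      hOT (hOn.conj_mem _ ((hmemQ x (hQN hx)).mp hx) g)
    obtain ⟨f, hf, hfg⟩ := realized_conj hreal hQN g hgQ
    obtain ⟨f', hf', hf'f, hf'R, -⟩ := normal_extend hRnorm hf
    obtain ⟨h, hh⟩ := realized_mor hreal hf'
    have hcen : h⁻¹ * g ∈ Subgroup.centralizer ((pCore p G : Subgroup G) : Set G) := by
      rw [Subgroup.mem_centralizer_iff]
      intro y hy
      obtain ⟨x, rfl⟩ := hOT hy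
      have hxQ : (x : Ω) ∈ Q := (hmemQ x x.2).mpr hy
      obtain ⟨hm, e1⟩ := hfg x hxQ
      have e2 := hh x ((le_sup_left : Q ≤ Q ⊔ R) hxQ)
      have e3 : h * ι x * h⁻¹ = g * ι x * g⁻¹ := by
        have e4 : ι ⟨f' x, hf'.mem ((le_sup_left : Q ≤ Q ⊔ R) hxQ)⟩ = ι ⟨f x, hm⟩ :=
          congrArg ι (Subtype.ext (hf'f x hxQ))
        rw [e2, e1] at e4
        exact e4
      calc ι x * (h⁻¹ * g) = h⁻¹ * (h * ι x * h⁻¹) * g := by group
        _ = h⁻¹ * (g * ι x * g⁻¹) * g := by rw [e3]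
        _ = h⁻¹ * g * ι x := by group
    obtain ⟨z, hz'⟩ := hOT (hC hcen)
    have hzr : (z : Ω) * r * (z : Ω)⁻¹ ∈ R := conj_mem_of_mem_normalizerIn z.2 hr
    have hr' : f' ((z : Ω) * r * (z : Ω)⁻¹) ∈ R := hf'R _ hzr
    refine ⟨f' ((z : Ω) * r * (z : Ω)⁻¹), hr', ?_⟩
    have e4 := hh ((z : Ω) * r * (z : Ω)⁻¹) ((le_sup_right : R ≤ Q ⊔ R) hzr)
    have e5 : ι ⟨(z : Ω) * r * (z : Ω)⁻¹, hRN hzr⟩ = ι z * ι ⟨r, hRN hr⟩ * (ι z)⁻¹ := by
      rw [← map_inv, ← map_mul, ← map_mul]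
      rfl
    have hg : g = h * ι z := by
      rw [hz']
      group
    have e6 : ι ⟨f' ((z : Ω) * r * (z : Ω)⁻¹), hRN hr'⟩ =
        h * (ι z * ι ⟨r, hRN hr⟩ * (ι z)⁻¹) * h⁻¹ := by
      rw [← e5]
      exact e4
    rw [e6, hg]
    group
  have hRnormal : ((R.subgroupOf (normalizerIn S R)).map ι).Normal := by
    constructor
    rintro _ ⟨x, hx, rfl⟩ g
    obtain ⟨r', hr', e⟩ := step1 g x (Subgroup.mem_subgroupOf.mp hx)
    have e' : g * ι x * g⁻¹ = ι ⟨r', hRN hr'⟩ := e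
    rw [e']
    exact ⟨⟨r', hRN hr'⟩, Subgroup.mem_subgroupOf.mpr hr', rfl⟩
  have hRp : IsPGroup p ((R.subgroupOf (normalizerIn S R)).map ι : Subgroup G) := by
    have hNp : IsPGroup p (normalizerIn S R) := hS.to_le hNS
    exact (hNp.to_subgroup _).map ι
  have hle1 := le_pCore' hRnormal hRp
  have : Finite R := finite_of_le hRS
  have step3 : ∀ q ∈ Q, q ∈ R := by
    let K : Subgroup (F.autGroup R) :=
      { carrier := {α | ∃ q ∈ Q, ∀ r : R, (((α : MulAut R) r : R) : Ω) = q * r * q⁻¹}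
        mul_mem' := by
          rintro α β ⟨a, ha, hα⟩ ⟨b, hb, hβ⟩
          refine ⟨a * b, Q.mul_mem ha hb, fun r => ?_⟩
          show ((((α : MulAut R) ((β : MulAut R) r)) : R) : Ω) = _
          rw [hα, hβ]
          group
        one_mem' := ⟨1, Q.one_mem, fun r => by simp⟩
        inv_mem' := by
          rintro α ⟨a, ha, hα⟩
          refine ⟨a⁻¹, Q.inv_mem ha, fun r => ?_⟩
          have h1 := hα ((α : MulAut R)⁻¹ r)
          rw [MulAut.apply_inv_self] at h1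
          show ((((α : MulAut R)⁻¹ r) : R) : Ω) = _
          rw [h1]
          group }
    have hKmem : ∀ α : F.autGroup R, α ∈ K ↔
        ∃ q ∈ Q, ∀ r : R, (((α : MulAut R) r : R) : Ω) = q * r * q⁻¹ := fun α => Iff.rfl
    have hKp : IsPGroup p K := by
      rintro ⟨α, hα⟩
      obtain ⟨q, hq, hαq⟩ := (hKmem α).mp hα
      have hmem : (α : MulAut R) ∈ autInducedBy S R :=
        (mem_autInducedBy_iff S R _).mpr ⟨q, hNS (hQN hq), hαq⟩
      obtain ⟨k, hk⟩ := isPGroup_autInducedBy hS R ⟨(α : MulAut R), hmem⟩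
      refine ⟨k, ?_⟩
      have hk' : (α : MulAut R) ^ p ^ k = 1 := congrArg Subtype.val hk
      apply Subtype.ext
      apply Subtype.ext
      exact hk'
    have hKn : K.Normal := by
      constructor
      rintro α hα β
      obtain ⟨q, hq, hα⟩ := (hKmem α).mp hα
      have hβF : Mor F R (autFn (β : MulAut R)) := (mem_autGroup_iff hRS _).mp β.2
      have hβE : Mor E R (autFn (β : MulAut R)) := by
        rw [mor_normalizerSys_iff hE]
        refine ⟨hβF, hRN, fun x hx => hRN (autFn_mem _ hx), autFn (β : MulAut R),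
          hβF.restrict (sup_le le_rfl le_rfl), fun _ _ => rfl, fun x hx => autFn_mem _ hx,
          fun x hx => ?_⟩
        refine ⟨(((β : MulAut R)⁻¹ ⟨x, hx⟩ : R) : Ω), Subtype.property _, ?_⟩
        rw [autFn_apply, MulAut.apply_inv_self]
      obtain ⟨g, hg⟩ := realized_mor hreal hβE
      have hq' : g * ι ⟨q, hQN hq⟩ * g⁻¹ ∈ pCore p G :=
        hOn.conj_mem _ ((hmemQ q (hQN hq)).mp hq) g
      obtain ⟨q', hq'e⟩ := hOT hq'
      have hq'Q : (q' : Ω) ∈ Q := (hmemQ q' q'.2).mpr (by rw [hq'e]; exact hq')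
      rw [hKmem]
      refine ⟨q', hq'Q, fun r => ?_⟩
      obtain ⟨s, hs⟩ : ∃ s : R, s = (β : MulAut R)⁻¹ r := ⟨_, rfl⟩
      have hr : r = (β : MulAut R) s := by rw [hs, MulAut.apply_inv_self]
      have e1 : (((β * α * β⁻¹ : F.autGroup R) : MulAut R) r) =
          (β : MulAut R) ((α : MulAut R) s) := by
        rw [hs]
        rfl
      rw [e1]
      have hN1 : (((β : MulAut R) ((α : MulAut R) s) : R) : Ω) ∈ normalizerIn S R :=
        hRN (Subtype.property _)
      have hrN : (r : Ω) ∈ normalizerIn S R := hRN r.2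
      have hsN : (s : Ω) ∈ normalizerIn S R := hRN s.2
      have hN2 : (q' : Ω) * r * (q' : Ω)⁻¹ ∈ normalizerIn S R :=
        Subgroup.mul_mem _ (Subgroup.mul_mem _ q'.2 hrN) (Subgroup.inv_mem _ q'.2)
      have key : ι ⟨_, hN1⟩ = ι ⟨_, hN2⟩ := by
        have a1 := hg (((α : MulAut R) s : R) : Ω) (Subtype.property _)
        have a2 : ι ⟨_, hN1⟩ = ι ⟨autFn (β : MulAut R) (((α : MulAut R) s : R) : Ω),
            hβE.mem (Subtype.property _)⟩ :=
          congrArg ι (Subtype.ext (autFn_apply _ _).symm)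
        have a3 : ι ⟨(((α : MulAut R) s : R) : Ω), hβE.le (Subtype.property _)⟩ =
            ι ⟨q, hQN hq⟩ * ι ⟨s, hsN⟩ * (ι ⟨q, hQN hq⟩)⁻¹ := by
          rw [← map_inv, ← map_mul, ← map_mul]
          exact congrArg ι (Subtype.ext (hα s))
        have a4 : ι ⟨_, hN2⟩ = ι q' * ι ⟨r, hrN⟩ * (ι q')⁻¹ := by
          rw [← map_inv, ← map_mul, ← map_mul]
          rfl
        have a5 := hg (s : Ω) s.2
        have a6 : ι ⟨r, hrN⟩ = ι ⟨autFn (β : MulAut R) (s : Ω), hβE.mem s.2⟩ :=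
          congrArg ι (Subtype.ext (by
            show (r : Ω) = autFn (β : MulAut R) (s : Ω)
            rw [autFn_apply, ← hr]))
        rw [a2, a1, a3, a4, a6, a5, hq'e]
        group
      exact congrArg (fun z : normalizerIn S R => (z : Ω)) (hinj key)
    have hKle := le_pCore' hKn hKp
    intro q hq
    have hqnorm : q ∈ Subgroup.normalizer (R : Set Ω) := (hQN hq).2
    have hqS : q ∈ S := hNS (hQN hq)
    have hcF : conjAut R q hqnorm ∈ F.autGroup R :=
      autInducedBy_le_autGroup F hRS (conjAut_mem_autInducedBy hqS hqnorm)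
    have hcK : (⟨conjAut R q hqnorm, hcF⟩ : F.autGroup R) ∈ K :=
      (hKmem _).mpr ⟨q, hq, fun r => rfl⟩
    have hcore : conjAut R q hqnorm ∈
        (pCore p (F.autGroup R)).map (F.autGroup R).subtype := ⟨_, hKle hcK, rfl⟩
    rw [hRr.2, mem_Inn_iff] at hcore
    obtain ⟨g, hgR, hgq⟩ := hcore
    have hcen : g⁻¹ * q ∈ centralizerIn S R := by
      rw [mem_centralizerIn]
      refine ⟨S.mul_mem (S.inv_mem (hRS hgR)) hqS, fun y hy => ?_⟩
      have h1 : q * y * q⁻¹ = g * y * g⁻¹ := hgq ⟨y, hy⟩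
      calc y * (g⁻¹ * q) = g⁻¹ * (g * y * g⁻¹) * q := by group
        _ = g⁻¹ * (q * y * q⁻¹) * q := by rw [h1]
        _ = g⁻¹ * q * y := by group
    have h2 := hRc.2 R (isConj_refl F hRS) hcen
    have e2 : q = g * (g⁻¹ * q) := by group
    rw [e2]
    exact R.mul_mem hgR h2
  apply le_antisymm
  · intro y hy
    obtain ⟨x, rfl⟩ := hOT hy
    have hxQ : (x : Ω) ∈ Q := (hmemQ x x.2).mpr hy
    exact ⟨x, Subgroup.mem_subgroupOf.mpr (step3 _ hxQ), rfl⟩
  · exact hle1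

end Cfsg.Agent.S5126
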