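import Cfsg.Statements.S5135
-- import your own Cfsg.Agent.* helpers here

set_option autoImplicit false
open Cfsg

namespace Cfsg.Agent.S5135

open scoped Pointwise in
theorem sylow_conj_in_subgroup {G : Type*} [Group G] [Finite G] {p : ℕ} [Fact p.Prime] (S : Sylow p G)
    (H : Subgroup G) (hSH : (S : Subgroup G) ≤ H) (Q : Subgroup G) (hQH : Q ≤ H) (hQ : IsPGroup p Q) :
    ∃ h ∈ H, ∀ y ∈ Q, h * y * h⁻¹ ∈ (S : Subgroup G) := by
  have hQ' : IsPGroup p (Q.subgroupOf H) := hQ.comap_subtype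
  obtain ⟨R, hR⟩ := hQ'.exists_le_sylow
  obtain ⟨h, hh⟩ := MulAction.exists_smul_eq H R (S.subtype hSH)
  refine ⟨h, h.2, fun y hy => ?_⟩
  have h0 : (⟨y, hQH hy⟩ : H) ∈ (R : Subgroup H) := hR (Subgroup.mem_subgroupOf.mpr hy)
  have h1 : (MulAut.conj h) • (⟨y, hQH hy⟩ : H) ∈ (MulAut.conj h) • (R : Subgroup H) :=
    Subgroup.smul_mem_pointwise_smul _ _ _ h0
  have h2 : ((h • R : Sylow p H) : Subgroup H) = MulAut.conj h • (R : Subgroup H) := Sylow.coe_subgroup_smul
  rw [← h2, hh] at h1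
  exact Subgroup.mem_subgroupOf.mp h1


/-- Let G be a finite group, S a Sylow p-subgroup and H a normal subgroup of G. Then the fusion system of G/H on the image SH/H of S is the factor system of the fusion system of G on S modulo S ∩ H, read through the quotient map restricted to S: for each subgroup P' of SH/H, the conjugation maps by elements of G/H defined on P' with values in SH/H are exactly the homomorphisms induced by the conjugation maps by elements of G defined on the full preimage of P' in S with values in S. -/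
theorem result {G : Type*} [Group G] [Finite G] (p : ℕ) [Fact p.Prime] (S : Sylow p G) (H : Subgroup G) [H.Normal] : (Cfsg.groupFusionSystem (S : Subgroup G)).IsFactorSystem ((S : Subgroup G) ⊓ H) ((QuotientGroup.mk' H).comp (S : Subgroup G).subtype) (Cfsg.groupFusionSystem ((S : Subgroup G).map (QuotientGroup.mk' H))) := by
  refine ⟨inf_le_left, ?_, ?_, ?_⟩
  · intro s
    show (QuotientGroup.mk (s : G) : G ⧸ H) = 1 ↔ (s : G) ∈ (S : Subgroup G) ⊓ H
    rw [QuotientGroup.eq_one_iff, Subgroup.mem_inf]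
    exact ⟨fun h => ⟨s.2, h⟩, fun h => h.2⟩
  · rw [MonoidHom.range_comp, Subgroup.range_subtype]
  · intro P' φ'
    constructor
    · rintro ⟨hP'S, hφ'S, γ, hγ⟩
      refine ⟨hP'S, ?_⟩
      obtain ⟨g₀, rfl⟩ := QuotientGroup.mk_surjective γ
      have hPS : Cfsg.FusionSystem.preimageAlong ((QuotientGroup.mk' H).comp (S : Subgroup G).subtype) P' ≤
          (S : Subgroup G) := Subgroup.map_subtype_le _
      have hPmem : ∀ x ∈ Cfsg.FusionSystem.preimageAlong ((QuotientGroup.mk' H).comp (S : Subgroup G).subtype) P',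
          (QuotientGroup.mk x : G ⧸ H) ∈ P' := by
        rintro _ ⟨s, hs, rfl⟩
        exact hs
      have hQp : IsPGroup p ((Cfsg.FusionSystem.preimageAlong
          ((QuotientGroup.mk' H).comp (S : Subgroup G).subtype) P').map (MulAut.conj g₀).toMonoidHom) :=
        (S.2.to_le hPS).map _
      have hQH : (Cfsg.FusionSystem.preimageAlong
          ((QuotientGroup.mk' H).comp (S : Subgroup G).subtype) P').map (MulAut.conj g₀).toMonoidHom ≤
          (S : Subgroup G) ⊔ H := by
        rintro _ ⟨x, hx, rfl⟩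
        have h1 := hφ'S ⟨QuotientGroup.mk x, hPmem x hx⟩
        rw [hγ] at h1
        obtain ⟨s, hs, hsx⟩ := h1
        have h2 : s⁻¹ * (g₀ * x * g₀⁻¹) ∈ H := by
          rw [← QuotientGroup.eq]
          exact hsx
        have h3 : g₀ * x * g₀⁻¹ = s * (s⁻¹ * (g₀ * x * g₀⁻¹)) := by group
        show g₀ * x * g₀⁻¹ ∈ _
        rw [h3]
        exact Subgroup.mul_mem_sup hs h2
      obtain ⟨h, hh, hconj⟩ := sylow_conj_in_subgroup S _ le_sup_left _ hQH hQp
      obtain ⟨s, hs, n, hn, rfl⟩ := Subgroup.mem_sup_of_normal_right.mp hh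
      have hgS : ∀ x ∈ Cfsg.FusionSystem.preimageAlong ((QuotientGroup.mk' H).comp (S : Subgroup G).subtype) P',
          n * g₀ * x * (n * g₀)⁻¹ ∈ (S : Subgroup G) := by
        intro x hx
        have h1 := hconj (g₀ * x * g₀⁻¹) ⟨x, hx, rfl⟩
        have h2 : n * g₀ * x * (n * g₀)⁻¹ = s⁻¹ * (s * n * (g₀ * x * g₀⁻¹) * (s * n)⁻¹) * s := by group
        rw [h2]
        exact mul_mem (mul_mem (inv_mem hs) h1) hs
      refine ⟨Cfsg.conjHom _ (n * g₀), ⟨hPS, fun x => hgS x x.2, n * g₀, fun x => rfl⟩, hPS,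
        fun x => hgS x x.2, fun x => hPmem x x.2, ?_⟩
      intro x
      rw [hγ]
      show (QuotientGroup.mk g₀ : G ⧸ H) * QuotientGroup.mk (x : G) * (QuotientGroup.mk g₀)⁻¹ =
        QuotientGroup.mk (n * g₀ * x * (n * g₀)⁻¹)
      have hn1 : (QuotientGroup.mk n : G ⧸ H) = 1 := (QuotientGroup.eq_one_iff n).mpr hn
      simp only [QuotientGroup.mk_mul, QuotientGroup.mk_inv, hn1, mul_inv_rev, inv_one, one_mul, mul_one]
    · rintro ⟨hP'S, φ, ⟨hPS, hφS, g, hg⟩, hP, hφ, hP', hind⟩
      have hlift : ∀ y : P', ∃ x : Cfsg.FusionSystem.preimageAlong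
          ((QuotientGroup.mk' H).comp (S : Subgroup G).subtype) P', (QuotientGroup.mk (x : G) : G ⧸ H) = y := by
        intro y
        obtain ⟨s, hs, hsy⟩ := hP'S y.2
        refine ⟨⟨s, ⟨⟨s, hs⟩, ?_, rfl⟩⟩, hsy⟩
        show (QuotientGroup.mk' H) s ∈ P'
        rw [hsy]
        exact y.2
      refine ⟨hP'S, fun y => ?_, QuotientGroup.mk g, fun y => ?_⟩
      · obtain ⟨x, hx⟩ := hlift y
        have hy : y = ⟨((QuotientGroup.mk' H).comp (S : Subgroup G).subtype) ⟨x, hP x.2⟩, hP' x⟩ :=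
          Subtype.ext hx.symm
        rw [hy, hind x]
        exact ⟨φ x, hφ x, rfl⟩
      · obtain ⟨x, hx⟩ := hlift y
        have hy : y = ⟨((QuotientGroup.mk' H).comp (S : Subgroup G).subtype) ⟨x, hP x.2⟩, hP' x⟩ :=
          Subtype.ext hx.symm
        rw [hy, hind x]
        show QuotientGroup.mk (φ x) = QuotientGroup.mk g * QuotientGroup.mk (x : G) * (QuotientGroup.mk g)⁻¹
        rw [hg x]
        simp only [QuotientGroup.mk_mul, QuotientGroup.mk_inv]

end Cfsg.Agent.S5135
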