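import Cfsg.Statements.S5136
-- import your own Cfsg.Agent.* helpers here

set_option autoImplicit false
open Cfsg

namespace Cfsg.Agent.S5136

variable {Ω₁ Ω₂ : Type*} [Group Ω₁] [Group Ω₂] {S₁ : Subgroup Ω₁} {S₂ : Subgroup Ω₂}

def prodHom (F₁ : Cfsg.FusionSystem S₁) (F₂ : Cfsg.FusionSystem S₂) (P : Subgroup (Ω₁ × Ω₂)) :
    Set (P →* Ω₁ × Ω₂) :=
  {φ | P ≤ S₁.prod S₂ ∧ ∃ φ₁ ∈ F₁.Hom (P.map (MonoidHom.fst Ω₁ Ω₂)), ∃ φ₂ ∈ F₂.Hom (P.map (MonoidHom.snd Ω₁ Ω₂)),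
    ∀ (x : P) (h₁ : (x : Ω₁ × Ω₂).1 ∈ P.map (MonoidHom.fst Ω₁ Ω₂))
      (h₂ : (x : Ω₁ × Ω₂).2 ∈ P.map (MonoidHom.snd Ω₁ Ω₂)),
      φ x = (φ₁ ⟨(x : Ω₁ × Ω₂).1, h₁⟩, φ₂ ⟨(x : Ω₁ × Ω₂).2, h₂⟩)}

theorem prodHom_le {F₁ : Cfsg.FusionSystem S₁} {F₂ : Cfsg.FusionSystem S₂} {P : Subgroup (Ω₁ × Ω₂)}
    {φ : P →* Ω₁ × Ω₂} (h : φ ∈ prodHom F₁ F₂ P) : P ≤ S₁.prod S₂ ∧ ∀ x : P, φ x ∈ S₁.prod S₂ := by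
  obtain ⟨hP, φ₁, hφ₁, φ₂, hφ₂, hφ⟩ := h
  refine ⟨hP, fun x => ?_⟩
  rw [hφ x ⟨x, x.2, rfl⟩ ⟨x, x.2, rfl⟩]
  exact Subgroup.mem_prod.mpr ⟨(F₁.le_of_mem hφ₁).2 _, (F₂.le_of_mem hφ₂).2 _⟩

theorem prodHom_inj {F₁ : Cfsg.FusionSystem S₁} {F₂ : Cfsg.FusionSystem S₂} {P : Subgroup (Ω₁ × Ω₂)}
    {φ : P →* Ω₁ × Ω₂} (h : φ ∈ prodHom F₁ F₂ P) : Function.Injective φ := by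
  obtain ⟨hP, φ₁, hφ₁, φ₂, hφ₂, hφ⟩ := h
  intro x y hxy
  rw [hφ x ⟨x, x.2, rfl⟩ ⟨x, x.2, rfl⟩, hφ y ⟨y, y.2, rfl⟩ ⟨y, y.2, rfl⟩] at hxy
  have e1 := F₁.injective_of_mem hφ₁ (Prod.mk.inj hxy).1
  have e2 := F₂.injective_of_mem hφ₂ (Prod.mk.inj hxy).2
  exact Subtype.ext (Prod.ext (congrArg Subtype.val e1) (congrArg Subtype.val e2))

theorem prodHom_conj {F₁ : Cfsg.FusionSystem S₁} {F₂ : Cfsg.FusionSystem S₂} {P : Subgroup (Ω₁ × Ω₂)}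
    {g : Ω₁ × Ω₂} (hP : P ≤ S₁.prod S₂) (hg : g ∈ S₁.prod S₂) : Cfsg.conjHom P g ∈ prodHom F₁ F₂ P := by
  have hP1 : P.map (MonoidHom.fst Ω₁ Ω₂) ≤ S₁ := by
    rintro _ ⟨x, hx, rfl⟩
    exact (Subgroup.mem_prod.mp (hP hx)).1
  have hP2 : P.map (MonoidHom.snd Ω₁ Ω₂) ≤ S₂ := by
    rintro _ ⟨x, hx, rfl⟩
    exact (Subgroup.mem_prod.mp (hP hx)).2
  exact ⟨hP, Cfsg.conjHom _ g.1, F₁.conj_mem hP1 (Subgroup.mem_prod.mp hg).1, Cfsg.conjHom _ g.2,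
    F₂.conj_mem hP2 (Subgroup.mem_prod.mp hg).2, fun x h₁ h₂ => rfl⟩

theorem prodHom_comp {F₁ : Cfsg.FusionSystem S₁} {F₂ : Cfsg.FusionSystem S₂} {P Q : Subgroup (Ω₁ × Ω₂)}
    {φ : P →* Ω₁ × Ω₂} {ψ : Q →* Ω₁ × Ω₂} (hφ : φ ∈ prodHom F₁ F₂ P) (hψ : ψ ∈ prodHom F₁ F₂ Q)
    (h : ∀ x : P, φ x ∈ Q) : ψ.comp (φ.codRestrict Q h) ∈ prodHom F₁ F₂ P := by
  obtain ⟨hP, φ₁, hφ₁, φ₂, hφ₂, hφe⟩ := hφ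
  obtain ⟨hQ, ψ₁, hψ₁, ψ₂, hψ₂, hψe⟩ := hψ
  have h1 : ∀ x₁ : P.map (MonoidHom.fst Ω₁ Ω₂), φ₁ x₁ ∈ Q.map (MonoidHom.fst Ω₁ Ω₂) := by
    rintro ⟨_, x, hx, rfl⟩
    refine ⟨φ ⟨x, hx⟩, h ⟨x, hx⟩, ?_⟩
    rw [hφe ⟨x, hx⟩ ⟨x, hx, rfl⟩ ⟨x, hx, rfl⟩]
    rfl
  have h2 : ∀ x₂ : P.map (MonoidHom.snd Ω₁ Ω₂), φ₂ x₂ ∈ Q.map (MonoidHom.snd Ω₁ Ω₂) := by
    rintro ⟨_, x, hx, rfl⟩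
    refine ⟨φ ⟨x, hx⟩, h ⟨x, hx⟩, ?_⟩
    rw [hφe ⟨x, hx⟩ ⟨x, hx, rfl⟩ ⟨x, hx, rfl⟩]
    rfl
  refine ⟨hP, _, F₁.comp_mem hφ₁ hψ₁ h1, _, F₂.comp_mem hφ₂ hψ₂ h2, fun x hx₁ hx₂ => ?_⟩
  show ψ ⟨φ x, h x⟩ = (ψ₁ ⟨φ₁ ⟨(x : Ω₁ × Ω₂).1, hx₁⟩, h1 _⟩, ψ₂ ⟨φ₂ ⟨(x : Ω₁ × Ω₂).2, hx₂⟩, h2 _⟩)
  rw [hψe ⟨φ x, h x⟩ ⟨_, h x, rfl⟩ ⟨_, h x, rfl⟩]
  have e := hφe x hx₁ hx₂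
  have e1 : (⟨(φ x).1, ⟨_, h x, rfl⟩⟩ : Q.map (MonoidHom.fst Ω₁ Ω₂)) = ⟨φ₁ ⟨(x : Ω₁ × Ω₂).1, hx₁⟩, h1 _⟩ :=
    Subtype.ext (by
      show (φ x).1 = φ₁ ⟨(x : Ω₁ × Ω₂).1, hx₁⟩
      rw [e])
  have e2 : (⟨(φ x).2, ⟨_, h x, rfl⟩⟩ : Q.map (MonoidHom.snd Ω₁ Ω₂)) = ⟨φ₂ ⟨(x : Ω₁ × Ω₂).2, hx₂⟩, h2 _⟩ :=
    Subtype.ext (by
      show (φ x).2 = φ₂ ⟨(x : Ω₁ × Ω₂).2, hx₂⟩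
      rw [e])
  show (ψ₁ ⟨(φ x).1, _⟩, ψ₂ ⟨(φ x).2, _⟩) = _
  rw [e1, e2]

theorem transport1 (F : Cfsg.FusionSystem S₁) {R₂ : Subgroup Ω₁} (C : ∀ R : Subgroup Ω₁, (R →* Ω₁) → Prop)
    (h : ∃ ψ ∈ F.Hom R₂, C R₂ ψ) (R : Subgroup Ω₁) (hR : R = R₂) : ∃ ψ ∈ F.Hom R, C R ψ := by
  subst hR
  exact h

theorem transport2 (F : Cfsg.FusionSystem S₂) {R₂ : Subgroup Ω₂} (C : ∀ R : Subgroup Ω₂, (R →* Ω₂) → Prop)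
    (h : ∃ ψ ∈ F.Hom R₂, C R₂ ψ) (R : Subgroup Ω₂) (hR : R = R₂) : ∃ ψ ∈ F.Hom R, C R ψ := by
  subst hR
  exact h

theorem prodHom_inv {F₁ : Cfsg.FusionSystem S₁} {F₂ : Cfsg.FusionSystem S₂} {P : Subgroup (Ω₁ × Ω₂)}
    {φ : P →* Ω₁ × Ω₂} (hφ : φ ∈ prodHom F₁ F₂ P) :
    ∃ ψ ∈ prodHom F₁ F₂ φ.range, ∀ x : P, ψ ⟨φ x, ⟨x, rfl⟩⟩ = (x : Ω₁ × Ω₂) := by
  have hle := prodHom_le hφ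
  obtain ⟨hP, φ₁, hφ₁, φ₂, hφ₂, hφe⟩ := hφ
  have hr1 : φ.range.map (MonoidHom.fst Ω₁ Ω₂) = φ₁.range := by
    ext z
    constructor
    · rintro ⟨_, ⟨x, rfl⟩, rfl⟩
      refine ⟨⟨(x : Ω₁ × Ω₂).1, ⟨x, x.2, rfl⟩⟩, ?_⟩
      rw [hφe x ⟨x, x.2, rfl⟩ ⟨x, x.2, rfl⟩]
      rfl
    · rintro ⟨⟨_, x, hx, rfl⟩, rfl⟩
      refine ⟨φ ⟨x, hx⟩, ⟨⟨x, hx⟩, rfl⟩, ?_⟩
      rw [hφe ⟨x, hx⟩ ⟨x, hx, rfl⟩ ⟨x, hx, rfl⟩]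
      rfl
  have hr2 : φ.range.map (MonoidHom.snd Ω₁ Ω₂) = φ₂.range := by
    ext z
    constructor
    · rintro ⟨_, ⟨x, rfl⟩, rfl⟩
      refine ⟨⟨(x : Ω₁ × Ω₂).2, ⟨x, x.2, rfl⟩⟩, ?_⟩
      rw [hφe x ⟨x, x.2, rfl⟩ ⟨x, x.2, rfl⟩]
      rfl
    · rintro ⟨⟨_, x, hx, rfl⟩, rfl⟩
      refine ⟨φ ⟨x, hx⟩, ⟨⟨x, hx⟩, rfl⟩, ?_⟩
      rw [hφe ⟨x, hx⟩ ⟨x, hx, rfl⟩ ⟨x, hx, rfl⟩]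
      rfl
  obtain ⟨ψ₁, hψ₁, hψ₁e⟩ := transport1 F₁
    (fun R ψ => ∀ (x₁ : P.map (MonoidHom.fst Ω₁ Ω₂)) (hx : φ₁ x₁ ∈ R), ψ ⟨φ₁ x₁, hx⟩ = (x₁ : Ω₁))
    (by
      obtain ⟨ψ, hψ, hψe⟩ := F₁.inv_mem hφ₁
      exact ⟨ψ, hψ, fun x₁ hx => hψe x₁⟩) _ hr1
  obtain ⟨ψ₂, hψ₂, hψ₂e⟩ := transport2 F₂
    (fun R ψ => ∀ (x₂ : P.map (MonoidHom.snd Ω₁ Ω₂)) (hx : φ₂ x₂ ∈ R), ψ ⟨φ₂ x₂, hx⟩ = (x₂ : Ω₂))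
    (by
      obtain ⟨ψ, hψ, hψe⟩ := F₂.inv_mem hφ₂
      exact ⟨ψ, hψ, fun x₂ hx => hψe x₂⟩) _ hr2
  let π₁ : φ.range →* φ.range.map (MonoidHom.fst Ω₁ Ω₂) :=
    ((MonoidHom.fst Ω₁ Ω₂).comp φ.range.subtype).codRestrict _ (fun y => ⟨y, y.2, rfl⟩)
  let π₂ : φ.range →* φ.range.map (MonoidHom.snd Ω₁ Ω₂) :=
    ((MonoidHom.snd Ω₁ Ω₂).comp φ.range.subtype).codRestrict _ (fun y => ⟨y, y.2, rfl⟩)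
  refine ⟨(ψ₁.comp π₁).prod (ψ₂.comp π₂), ⟨?_, ψ₁, hψ₁, ψ₂, hψ₂, fun y h₁ h₂ => rfl⟩, fun x => ?_⟩
  · rintro _ ⟨x, rfl⟩
    exact hle.2 x
  · have e := hφe x ⟨x, x.2, rfl⟩ ⟨x, x.2, rfl⟩
    have hm1 : φ₁ ⟨(x : Ω₁ × Ω₂).1, ⟨x, x.2, rfl⟩⟩ ∈ φ.range.map (MonoidHom.fst Ω₁ Ω₂) := by
      rw [hr1]
      exact ⟨_, rfl⟩
    have hm2 : φ₂ ⟨(x : Ω₁ × Ω₂).2, ⟨x, x.2, rfl⟩⟩ ∈ φ.range.map (MonoidHom.snd Ω₁ Ω₂) := by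
      rw [hr2]
      exact ⟨_, rfl⟩
    have e1 : π₁ ⟨φ x, ⟨x, rfl⟩⟩ = ⟨φ₁ ⟨(x : Ω₁ × Ω₂).1, ⟨x, x.2, rfl⟩⟩, hm1⟩ := Subtype.ext (by
      show (φ x).1 = _
      rw [e])
    have e2 : π₂ ⟨φ x, ⟨x, rfl⟩⟩ = ⟨φ₂ ⟨(x : Ω₁ × Ω₂).2, ⟨x, x.2, rfl⟩⟩, hm2⟩ := Subtype.ext (by
      show (φ x).2 = _
      rw [e])
    show (ψ₁ (π₁ ⟨φ x, ⟨x, rfl⟩⟩), ψ₂ (π₂ ⟨φ x, ⟨x, rfl⟩⟩)) = (x : Ω₁ × Ω₂)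
    rw [e1, e2, hψ₁e _ hm1, hψ₂e _ hm2]

def prodSystem (F₁ : Cfsg.FusionSystem S₁) (F₂ : Cfsg.FusionSystem S₂) : Cfsg.FusionSystem (S₁.prod S₂) where
  Hom := prodHom F₁ F₂
  le_of_mem := prodHom_le
  injective_of_mem := prodHom_inj
  conj_mem := prodHom_conj
  comp_mem := prodHom_comp
  inv_mem := prodHom_inv


/-- Let F₁ and F₂ be fusion systems over finite p-groups S₁ and S₂ (inside ambient groups Ω₁ and Ω₂). Then their direct product exists: there is a fusion system over S₁ × S₂ inside Ω₁ × Ω₂ whose maps with source P ≤ S₁ × S₂ are exactly the restrictions to P of the homomorphisms (x₁, x₂) ↦ (φ₁ x₁, φ₂ x₂) with φ₁ a map of F₁ on the first projection of P and φ₂ a map of F₂ on the second projection.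 -/
theorem result {Ω₁ Ω₂ : Type*} [Group Ω₁] [Group Ω₂] {S₁ : Subgroup Ω₁} {S₂ : Subgroup Ω₂} [Finite S₁] [Finite S₂] (p : ℕ) [Fact p.Prime] (h₁ : IsPGroup p S₁) (h₂ : IsPGroup p S₂) (F₁ : Cfsg.FusionSystem S₁) (F₂ : Cfsg.FusionSystem S₂) : ∃ E : Cfsg.FusionSystem (S₁.prod S₂), Cfsg.FusionSystem.IsProductSystem F₁ F₂ E := by
  exact ⟨prodSystem F₁ F₂, fun P φ => Iff.rfl⟩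

end Cfsg.Agent.S5136
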