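import Cfsg.Statements.S5199
import Cfsg.Agent.Helper27.FusRes
import Cfsg.Agent.Helper27.FusMorphHyp
import Cfsg.Agent.Helper27.FusAlperin
import Cfsg.Agent.Helper26.HypFocal

set_option autoImplicit false
open Cfsg

namespace Cfsg.Agent.S5199

open Cfsg.FusionSystem Cfsg.Agent.Helper27

/-- Let F be a saturated fusion system over a finite p-group S, E a normal subsystem of F over T, and F₀ a normal subsystem of F over a subgroup U containing both T and the hyperfocal subgroup of F, such that F₀ has p-power index in F. Then E is a subsystem of F₀. -/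
theorem result {Ω : Type*} [Group Ω] {S : Subgroup Ω} [Finite S] (p : ℕ) [Fact p.Prime] (hS : IsPGroup p S) (F : Cfsg.FusionSystem S) (hF : F.IsSaturated p) {T U : Subgroup Ω} (E : Cfsg.FusionSystem T) (hE : E.IsNormalIn F p) (F₀ : Cfsg.FusionSystem U) (hF₀ : F₀.IsNormalIn F p) (hU : T ⊔ F.hyperfocalSubgroup p ≤ U) (hidx : F₀.HasPPowerIndexIn F p) : E.IsSubsystemOf F₀ := by
  obtain ⟨⟨hEsat, hFsat, hEF, hTsc, -, -⟩, -⟩ := hE
  obtain ⟨hF₀F, hhyp, hres⟩ := hidx
  have hTU : T ≤ U := le_trans le_sup_left hU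
  have hTS : T ≤ S := hTsc.1
  have : Finite T := finite_of_le hTS
  have hTp : IsPGroup p T := hS.to_le hTS
  have key := alperin hTp hEsat (resSys F₀ hTU) (by
    intro R hRn hRc hRr hIH f hf hi
    have hRT : R ≤ T := hRn.1
    have : Finite R := finite_of_le hRT
    obtain ⟨a, ha, hae⟩ := exists_aut_of_mor hf (fun x hx => by rw [← hi]; exact apply_mem_img hx)
    obtain ⟨g, hg, u, hu, hgu⟩ := Cfsg.Agent.Helper26.aut_decomp p hTp E hEsat hRn ⟨a, ha⟩
    have hRU : R ≤ U := le_trans hRT hTU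
    have hRS : R ≤ S := le_trans hRT hTS
    have hEFaut : E.autGroup R ≤ F.autGroup R := by
      intro b hb
      rw [mem_autGroup_iff hRT] at hb
      rw [mem_autGroup_iff hRS]
      obtain ⟨φ, hφ, hφe⟩ := hb
      exact ⟨φ, hEF R hφ, hφe⟩
    have hu' : (u : MulAut R) ∈ F₀.autGroup R := by
      apply hres R hRU
      exact ⟨Subgroup.inclusion hEFaut u, pResidual_map_mem p (Subgroup.inclusion hEFaut) hu, rfl⟩
    rw [mor_resSys_iff]
    refine ⟨?_, hRT, fun x hx => ?_⟩
    · have hum : Mor F₀ R (autFn (u : MulAut R)) := (mem_autGroup_iff hRU _).mp hu'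
      have hc : Mor F₀ U (fun x => g * x * g⁻¹) := Mor.conj F₀ le_rfl (hTU hg)
      have h1 := hum.comp hc (fun x hx => hRU (autFn_mem _ hx))
      refine h1.congr (fun x hx => ?_)
      show g * autFn (u : MulAut R) x * g⁻¹ = f x
      rw [autFn_of_mem _ hx, ← hgu ⟨x, hx⟩]
      exact hae ⟨x, hx⟩
    · have h2 : f x ∈ img R f := apply_mem_img hx
      rw [hi] at h2
      exact hRT h2)
  intro P φ hφ
  have h1 := key P (fn φ) (mor_of_hom hφ)
  exact hom_of_mor_fn (mor_resSys_iff.mp h1).1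

end Cfsg.Agent.S5199
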