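import Cfsg.Statements.S5223
import Cfsg.Agent.Helper27.FusChain

set_option autoImplicit false
open Cfsg

namespace Cfsg.Agent.S5223

open Cfsg.FusionSystem Cfsg.Agent.Helper27

/-- Let F be a saturated fusion system over a finite p-group S. Suppose there are subgroups Q₀ = S, Q₁, …, Qₙ = 1 (not required to be nested) such that for each i < n the focal subgroup of Qᵢ (generated by the elements x⁻¹φ(x), x ∈ Qᵢ, φ a map of F defined on the cyclic group generated by x) lies in Qᵢ₊₁. Then F is the inner fusion system of S. -/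
theorem result {Ω : Type*} [Group Ω] {S : Subgroup Ω} [Finite S] (p : ℕ) [Fact p.Prime] (hS : IsPGroup p S) (F : Cfsg.FusionSystem S) (hF : F.IsSaturated p) (n : ℕ) (Q : Fin (n + 1) → Subgroup Ω) (hQ0 : Q 0 = S) (hQn : Q (Fin.last n) = ⊥) (hstep : ∀ i : Fin n, Subgroup.closure {y : Ω | ∃ x ∈ Q i.castSucc, ∃ φ ∈ F.Hom (Subgroup.zpowers x), y = x⁻¹ * φ ⟨x, Subgroup.mem_zpowers x⟩} ≤ Q i.succ) : ∀ P : Subgroup Ω, F.Hom P = (Cfsg.innerFusionSystem S).Hom P := by
  apply eq_inner_of_pgroup hS hF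
  intro R hRn _ _ α hα
  have hRS := hRn.1
  have hfinR : Finite R := finite_of_le hRS
  let Q' : ℕ → Subgroup Ω := fun i => if h : i < n + 1 then Q ⟨i, h⟩ else ⊥
  have hQ'0 : Q' 0 = S := by
    have h : Q' 0 = Q 0 := by simp [Q']
    rw [h, hQ0]
  have hQ'n : Q' n = ⊥ := by
    have h : Q' n = Q (Fin.last n) := by simp [Q', Fin.last]
    rw [h, hQn]
  have hstep' : ∀ i, i < n → ∀ x ∈ Q' i, ∀ φ ∈ F.Hom (Subgroup.zpowers x),
      x⁻¹ * φ ⟨x, Subgroup.mem_zpowers x⟩ ∈ Q' (i + 1) := by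
    intro i hi x hx φ hφ
    have h1 := hstep ⟨i, hi⟩
    have h2 : Q' i = Q (Fin.castSucc ⟨i, hi⟩) := by
      show (if h : i < n + 1 then Q ⟨i, h⟩ else ⊥) = _
      rw [dif_pos (Nat.lt_succ_of_lt hi)]
      rfl
    have h3 : Q' (i + 1) = Q (Fin.succ ⟨i, hi⟩) := by
      show (if h : i + 1 < n + 1 then Q ⟨i + 1, h⟩ else ⊥) = _
      rw [dif_pos (Nat.succ_lt_succ hi)]
      rfl
    rw [h3]
    apply h1
    apply Subgroup.subset_closure
    exact ⟨x, h2 ▸ hx, φ, hφ, rfl⟩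
  have hαM : Mor F R (autFn α) := (mem_autGroup_iff hRS α).mp hα
  obtain ⟨a, ha⟩ := (IsPGroup.iff_card.mp (hS.to_le hRS))
  refine ⟨a * n, ?_⟩
  rw [pow_mul, ← ha]
  apply pow_eq_one_of_chain α n (fun i => {x : R | ∀ m : ℕ, (((α ^ m) x : R) : Ω) ∈ Q' i})
  · intro x m
    rw [hQ'0]
    exact hRS ((α ^ m) x).2
  · intro x hx
    have h := hx 0
    rw [hQ'n] at h
    simpa using h
  · intro i m
    simp
  · intro i x hx m
    have h := hx (m + 1)
    rwa [pow_succ, MulAut.mul_apply] at h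
  · intro i x hx y hy m
    rw [map_mul]
    exact Subgroup.mul_mem _ (hx m) (hy m)
  · intro i hi x hx m
    have hy := hx m
    have h1 : (α ^ m) (x⁻¹ * α x) = ((α ^ m) x)⁻¹ * α ((α ^ m) x) := by
      rw [map_mul, map_inv]
      congr 1
      rw [← MulAut.mul_apply, ← MulAut.mul_apply, ← pow_succ, ← pow_succ']
    rw [h1]
    obtain ⟨φ, hφ, hφα⟩ := hαM.restrict (R := Subgroup.zpowers (((α ^ m) x : R) : Ω))
      (by rw [Subgroup.zpowers_le]; exact ((α ^ m) x).2)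
    have h2 := hstep' i hi _ hy φ hφ
    rw [hφα ⟨_, Subgroup.mem_zpowers _⟩, autFn_apply] at h2
    exact h2

end Cfsg.Agent.S5223
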