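import Cfsg.Statements.S5226
import Cfsg.Agent.Helper26.NormalApps

set_option autoImplicit false
open Cfsg

namespace Cfsg.Agent.S5226

open Cfsg.FusionSystem Cfsg.Agent.Helper26
open scoped commutatorElement

/-- the chain `P ≥ Q ∩ P ≥ c i ∩ P ≥ ⋯ ≥ c 0 ∩ P` inside `P` -/
def chainW {Ω : Type*} [Group Ω] (c : ℕ → Subgroup Ω) (Q P : Subgroup Ω) (i : ℕ) : ℕ → Subgroup P
  | 0 => ⊤
  | 1 => Q.subgroupOf P
  | (j + 2) => (c (i - j)).subgroupOf P

theorem weaklyClosed_normalizer {Ω : Type*} [Group Ω] {S : Subgroup Ω} (F : FusionSystem S)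
    {M : Subgroup Ω} (h : F.WeaklyClosed M) : S ≤ Subgroup.normalizer (M : Set Ω) := by
  intro g hg
  have hr := h.2 (conjHom M g) (F.conj_mem h.1 hg)
  rw [Subgroup.mem_normalizer_iff]
  intro x
  constructor
  · intro hx
    rw [← hr]
    exact ⟨⟨x, hx⟩, rfl⟩
  · intro hx
    rw [← hr] at hx
    obtain ⟨y, hy⟩ := hx
    have h1 : g * (y : Ω) * g⁻¹ = g * x * g⁻¹ := hy
    have h2 : (y : Ω) = x := mul_left_cancel (mul_right_cancel h1)
    rw [← h2]
    exact y.2

theorem weaklyClosed_aut_invariant {Ω : Type*} [Group Ω] {S : Subgroup Ω} (F : FusionSystem S)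
    {M P : Subgroup Ω} (h : F.WeaklyClosed M) (hMP : M ≤ P) (hP : P ≤ S) {β : MulAut P}
    (hβ : β ∈ F.autGroup P) (x : P) (hx : (x : Ω) ∈ M) : ((β x : P) : Ω) ∈ M := by
  have hφ := restrict_mem F ((mem_autGroup_iff F hP).mp hβ) hMP
  have hr := h.2 _ hφ
  rw [← hr]
  exact ⟨⟨x, hx⟩, rfl⟩

theorem weaklyClosed_of_stronglyClosed {Ω : Type*} [Group Ω] {S : Subgroup Ω} [Finite S]
    (F : FusionSystem S) {M : Subgroup Ω} (h : F.StronglyClosed M) : F.WeaklyClosed M := by
  refine ⟨h.1, fun φ hφ => ?_⟩
  have : Finite M := finite_of_le h.1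
  apply Subgroup.eq_of_le_of_card_ge
  · rintro _ ⟨x, rfl⟩
    exact h.2 M le_rfl φ hφ x
  · exact le_of_eq (Nat.card_congr (MonoidHom.ofInjective (F.injective_of_mem hφ)).toEquiv)


/-- Let F be a saturated fusion system over a finite p-group S and Q a subgroup of S. Then Q is normal in F (F equals the normalizer system of Q) if and only if Q is strongly closed in F and admits a central series 1 = Q₀ ≤ Q₁ ≤ ⋯ ≤ Qₙ = Q ([Qᵢ₊₁, Q] ≤ Qᵢ) all of whose proper terms are weakly closed in F. -/
theorem result {Ω : Type*} [Group Ω] {S : Subgroup Ω} [Finite S] (p : ℕ) [Fact p.Prime] (hS : IsPGroup p S) (F : Cfsg.FusionSystem S) (hF : F.IsSaturated p) (Q : Subgroup Ω) : F.IsNormal Q ↔ F.StronglyClosed Q ∧ ∃ (n : ℕ) (C : Fin (n + 1) → Subgroup Ω), C 0 = ⊥ ∧ C (Fin.last n) = Q ∧ Monotone C ∧ (∀ i : Fin n, ⁅C i.succ, Q⁆ ≤ C i.castSucc) ∧ ∀ i : Fin n, F.WeaklyClosed (C i.castSucc) := by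
  constructor
  · intro h
    obtain ⟨n, Qs, h0, hn, hmono, hstep⟩ := (normal_iff_series p hS F hF Q).mp h
    refine ⟨normal_stronglyClosed F h, n, Qs, h0, hn, hmono, fun i => ?_, fun i => ?_⟩
    · rw [Subgroup.commutator_comm]
      exact (hstep i).2
    · rcases Nat.eq_zero_or_pos (i : ℕ) with h0i | hpos
      · have h1 : Fin.castSucc i = 0 := Fin.ext h0i
        rw [h1, h0]
        refine ⟨bot_le, fun φ hφ => ?_⟩
        rw [eq_bot_iff]
        rintro _ ⟨x, rfl⟩
        have h2 : x = 1 := Subsingleton.elim _ _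
        rw [h2, map_one]
        exact Subgroup.one_mem _
      · have hj : (i : ℕ) - 1 < n := by omega
        have h1 : Fin.castSucc i = Fin.succ ⟨(i : ℕ) - 1, hj⟩ := by
          apply Fin.ext
          simp only [Fin.val_castSucc, Fin.val_succ]
          omega
        rw [h1]
        exact weaklyClosed_of_stronglyClosed F (hstep ⟨(i : ℕ) - 1, hj⟩).1
  · rintro ⟨hsc, n, C, hC0, hCn, hmono, hcomm, hwc⟩
    have hc := finChain_apply n C
    have h0 : finChain n C 0 = ⊥ := by
      rw [hc 0 (Nat.zero_le n)]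
      exact hC0
    have hn : finChain n C n = Q := by
      rw [hc n le_rfl]
      exact hCn
    have hmono' : ∀ a b, a ≤ b → b ≤ n → finChain n C a ≤ finChain n C b := by
      intro a b hab hb
      rw [hc a (hab.trans hb), hc b hb]
      exact hmono (Fin.mk_le_mk.mpr hab)
    have hcomm' : ∀ i < n, ⁅finChain n C (i + 1), Q⁆ ≤ finChain n C i := by
      intro i hi
      rw [hc i hi.le, hc (i + 1) hi]
      exact hcomm ⟨i, hi⟩
    have hwc' : ∀ i < n, F.WeaklyClosed (finChain n C i) := by
      intro i hi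
      rw [hc i hi.le]
      exact hwc ⟨i, hi⟩
    generalize finChain n C = c at h0 hn hmono' hcomm' hwc'
    rw [normal_iff_stronglyClosed_le_centric_radical p hS F hF]
    refine ⟨hsc, fun P hcen hrad => ?_⟩
    have hP := hcen.1
    have hC : centralizerIn S P ≤ P := hcen.2 P (isConj_refl F hP)
    have : Finite P := finite_of_le hP
    have hPp : IsPGroup p P := hS.to_le hP
    have hQn := stronglyClosed_normalizer F hsc
    have hcQ : ∀ k ≤ n, c k ≤ Q := fun k hk => hn ▸ hmono' k n hk le_rfl
    have hcS : ∀ k ≤ n, c k ≤ S := fun k hk => (hcQ k hk).trans hsc.1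
    have hcn : ∀ k ≤ n, S ≤ Subgroup.normalizer (c k : Set Ω) := by
      intro k hk
      rcases Nat.lt_or_ge k n with h | h
      · exact weaklyClosed_normalizer F (hwc' k h)
      · have h1 : k = n := le_antisymm hk h
        rw [h1, hn]
        exact hQn
    have key : ∀ i ≤ n, c i ≤ P := by
      intro i
      induction i with
      | zero =>
        intro _
        rw [h0]
        exact bot_le
      | succ i ih =>
        intro hi
        have hiP := ih (by omega)
        have hMQ : c (i + 1) ≤ Q := hcQ (i + 1) hi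
        apply le_of_inf_normalizer_le hS hP (hcS (i + 1) hi) (hcn (i + 1) hi)
        have h0' : chainW c Q P i 0 = ⊤ := rfl
        have hbot : chainW c Q P i (i + 2) = ⊥ := by
          show (c (i - i)).subgroupOf P = ⊥
          rw [Nat.sub_self, h0, Subgroup.bot_subgroupOf]
        have hdec : ∀ j < i + 2, chainW c Q P i (j + 1) ≤ chainW c Q P i j := by
          intro j hj
          match j, hj with
          | 0, _ => exact le_top
          | 1, _ =>
            show (c (i - 0)).subgroupOf P ≤ Q.subgroupOf P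
            intro x hx
            rw [Subgroup.mem_subgroupOf] at hx ⊢
            exact hcQ _ (by omega) hx
          | (j' + 2), hj =>
            show (c (i - (j' + 1))).subgroupOf P ≤ (c (i - j')).subgroupOf P
            intro x hx
            rw [Subgroup.mem_subgroupOf] at hx ⊢
            exact hmono' _ _ (by omega) (by omega) hx
        have hstab : ∀ m ∈ c (i + 1), ∀ hm : m ∈ Subgroup.normalizer (P : Set Ω),
            P.normalizerMonoidHom ⟨m, hm⟩ ∈
              stabChain hPp (chainW c Q P i) (i + 2) h0' hbot hdec := by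
          intro m hmM hmN
          refine (mem_stabChain hPp _ _ h0' hbot hdec).mpr ?_
          intro j hj x hx
          match j, hj, hx with
          | 0, _, _ =>
            show x⁻¹ * P.normalizerMonoidHom ⟨m, hmN⟩ x ∈ Q.subgroupOf P
            rw [Subgroup.mem_subgroupOf]
            show (x : Ω)⁻¹ * (m * x * m⁻¹) ∈ Q
            have h1 : (x : Ω)⁻¹ * m * (x : Ω)⁻¹⁻¹ ∈ Q :=
              (Subgroup.mem_normalizer_iff.mp (hQn (S.inv_mem (hP x.2))) m).mp (hMQ hmM)
            have e : (x : Ω)⁻¹ * (m * x * m⁻¹) = ((x : Ω)⁻¹ * m * (x : Ω)⁻¹⁻¹) * m⁻¹ := by group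
            rw [e]
            exact Subgroup.mul_mem _ h1 (Subgroup.inv_mem _ (hMQ hmM))
          | 1, _, hx =>
            have hx' : (x : Ω) ∈ Q := Subgroup.mem_subgroupOf.mp hx
            show x⁻¹ * P.normalizerMonoidHom ⟨m, hmN⟩ x ∈ (c (i - 0)).subgroupOf P
            rw [Subgroup.mem_subgroupOf, Nat.sub_zero]
            show (x : Ω)⁻¹ * (m * x * m⁻¹) ∈ c i
            have h1 := hcomm' i (by omega)
            rw [Subgroup.commutator_comm] at h1
            have h2 : ⁅(x : Ω)⁻¹, m⁆ ∈ ⁅Q, c (i + 1)⁆ :=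
              Subgroup.commutator_mem_commutator (Subgroup.inv_mem _ hx') hmM
            have e : (x : Ω)⁻¹ * (m * x * m⁻¹) = ⁅(x : Ω)⁻¹, m⁆ := by
              rw [commutatorElement_def]
              group
            rw [e]
            exact h1 h2
          | (j' + 2), hj, hx =>
            have hx' : (x : Ω) ∈ c (i - j') := Subgroup.mem_subgroupOf.mp hx
            show x⁻¹ * P.normalizerMonoidHom ⟨m, hmN⟩ x ∈ (c (i - (j' + 1))).subgroupOf P
            rw [Subgroup.mem_subgroupOf]
            show (x : Ω)⁻¹ * (m * x * m⁻¹) ∈ c (i - (j' + 1))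
            have hk : i - j' = (i - (j' + 1)) + 1 := by omega
            rw [hk] at hx'
            have h1 := hcomm' (i - (j' + 1)) (by omega)
            have h2 : ⁅(x : Ω)⁻¹, m⁆ ∈ ⁅c (i - (j' + 1) + 1), Q⁆ :=
              Subgroup.commutator_mem_commutator (Subgroup.inv_mem _ hx') (hMQ hmM)
            have e : (x : Ω)⁻¹ * (m * x * m⁻¹) = ⁅(x : Ω)⁻¹, m⁆ := by
              rw [commutatorElement_def]
              group
            rw [e]
            exact h1 h2
        have hpres : ∀ b ∈ F.autGroup P, ∀ j ≤ i + 2, ∀ x ∈ chainW c Q P i j,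
            b x ∈ chainW c Q P i j := by
          intro b hb j hj x hx
          match j, hj, hx with
          | 0, _, _ => exact Subgroup.mem_top _
          | 1, _, hx =>
            have hx' : (x : Ω) ∈ Q := Subgroup.mem_subgroupOf.mp hx
            show b x ∈ Q.subgroupOf P
            rw [Subgroup.mem_subgroupOf]
            exact stronglyClosed_aut_invariant F hsc hP hb x hx'
          | (j' + 2), hj, hx =>
            have hx' : (x : Ω) ∈ c (i - j') := Subgroup.mem_subgroupOf.mp hx
            show b x ∈ (c (i - j')).subgroupOf P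
            rw [Subgroup.mem_subgroupOf]
            exact weaklyClosed_aut_invariant F (hwc' _ (by omega))
              ((hmono' _ _ (Nat.sub_le i j') (by omega)).trans hiP) hP hb x hx'
        have hKn : ∀ a ∈ F.autGroup P,
            ∀ k ∈ stabChain hPp (chainW c Q P i) (i + 2) h0' hbot hdec, k ∈ F.autGroup P →
              a * k * a⁻¹ ∈ stabChain hPp (chainW c Q P i) (i + 2) h0' hbot hdec := by
          intro a ha k hk _
          exact conj_mem_stabSet hk (hpres a ha) (hpres a⁻¹ ((F.autGroup P).inv_mem ha))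
        have hInn := le_inn_of_normal_pgroup p F hrad _
          (isPGroup_stabChain hPp (chainW c Q P i) (i + 2) h0' hbot hdec) hKn
        rintro m ⟨hmM, hmN⟩
        have hmS : m ∈ S := hcS (i + 1) hi hmM
        have hA : P.normalizerMonoidHom ⟨m, hmN⟩ ∈ F.autGroup P :=
          autInducedBy_le_autGroup F hP (Subgroup.subset_closure ⟨m, hmS, fun x => rfl⟩)
        exact mem_of_conj_mem_inn hP hC hmS (fun x => rfl) (hInn ⟨hstab m hmM hmN, hA⟩)
    exact hn ▸ key n le_rfl

end Cfsg.Agent.S5226
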