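import Cfsg.Statements.S5251
import Cfsg.Agent.Helper27.FusStab
import Cfsg.Agent.Helper27.FusSat

set_option autoImplicit false
open Cfsg

namespace Cfsg.Agent.S5251

open Cfsg.FusionSystem Cfsg.Agent.Helper27

/-- Let F be a saturated fusion system over a finite p-group S, E a normal subsystem of F over T, and P an F-centric subgroup of S such that P ∩ T is not E-centric. Then some F-conjugate P* of P satisfies Out_S(P*) ∩ O_p(Out_F(P*)) ≠ 1: there is an element of N_S(P*) outside P* whose conjugation action on P* lies in O_p(Aut_F(P*)). In particular P is not both centric and radical in F. -/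
theorem result {Ω : Type*} [Group Ω] {S : Subgroup Ω} [Finite S] (p : ℕ) [Fact p.Prime] (hS : IsPGroup p S) (F : Cfsg.FusionSystem S) (hF : F.IsSaturated p) {T : Subgroup Ω} (E : Cfsg.FusionSystem T) (hE : E.IsNormalIn F p) (P : Subgroup Ω) (hP : F.IsCentric P) (hPT : ¬ E.IsCentric (P ⊓ T)) : (∃ φ ∈ F.Hom P, ∃ x ∈ S ⊓ Subgroup.normalizer (φ.range : Set Ω), x ∉ φ.range ∧ ∃ α ∈ ((Cfsg.pCore p ↥(F.autGroup φ.range)).map (F.autGroup φ.range).subtype : Subgroup (MulAut ↥φ.range)), ∀ y : ↥φ.range, ((α y : ↥φ.range) : Ω) = x * (y : Ω) * x⁻¹) ∧ ¬ F.IsRadical p P := by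
  obtain ⟨⟨hEsat, hFsat, hEF, hTsc, -, -⟩, -⟩ := hE
  have hPS : P ≤ S := hP.1
  have hTS : T ≤ S := hTsc.1
  have hex : ∃ Q, E.IsConj (P ⊓ T) Q ∧ ¬ centralizerIn T Q ≤ Q := by
    by_contra hcon
    apply hPT
    refine ⟨inf_le_right, fun Q hQ => ?_⟩
    by_contra h2
    exact hcon ⟨Q, hQ, h2⟩
  obtain ⟨Q, hQconj, hQc⟩ := hex
  have hPTS : P ⊓ T ≤ S := le_trans inf_le_left hPS
  have : Finite (P ⊓ T : Subgroup Ω) := finite_of_le hPTS
  obtain ⟨R₀, ρ, hR₀fn, -, -, hρ, hρi⟩ := exists_fn_map hS hF hPTS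
  have hPN : P ≤ normalizerIn S (P ⊓ T) := by
    intro y hy
    refine ⟨hPS hy, mem_normalizer_of_forall ?_⟩
    intro z hz
    exact ⟨P.mul_mem (P.mul_mem hy hz.1) (P.inv_mem hy),
      StronglyClosed.conj_mem hTsc (hPS hy) hz.2⟩
  have hρP : Mor F P ρ := hρ.restrict hPN
  have hρPT : Mor F (P ⊓ T) ρ := hρP.restrict inf_le_left
  have hR₀ : img P ρ ⊓ T = R₀ := by
    rw [← hρi]
    ext y
    constructor
    · rintro ⟨hy1, hy2⟩
      obtain ⟨x, hx, rfl⟩ := hρP.mem_img.mp hy1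
      have hxT : x ∈ T := (Mor.mem_closed_iff hTsc hρP hx).mp hy2
      exact apply_mem_img ⟨hx, hxT⟩
    · intro hy
      obtain ⟨x, hx, rfl⟩ := hρPT.mem_img.mp hy
      exact ⟨apply_mem_img hx.1, (Mor.mem_closed_iff hTsc hρP hx.1).mpr hx.2⟩
  have hR₀c : ¬ centralizerIn T R₀ ≤ R₀ := by
    intro hcon
    apply hQc
    have hQF : F.IsConj (P ⊓ T) Q := by
      obtain ⟨ψ, hψ, hr⟩ := hQconj
      exact ⟨ψ, hEF _ hψ, hr⟩
    have hconj : F.IsConj Q R₀ :=
      isConj_trans (isConj_symm hQF) (isConj_iff.mpr ⟨ρ, hρPT, hρi⟩)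
    obtain ⟨f', hf', hi'⟩ := exists_normalizer_map_of_fn hS hF hR₀fn hconj
    have hQS : Q ≤ S := isConj_le_left hconj
    have hQN : Q ≤ normalizerIn S Q := le_normalizerIn hQS
    intro c hc
    obtain ⟨hcT, hcQ⟩ := mem_centralizerIn.mp hc
    have hcN : c ∈ normalizerIn S Q :=
      centralizerIn_le_normalizerIn S Q (mem_centralizerIn.mpr ⟨hTS hcT, hcQ⟩)
    have h1 : f' c ∈ centralizerIn T R₀ := by
      rw [mem_centralizerIn]
      refine ⟨(Mor.mem_closed_iff hTsc hf' hcN).mpr hcT, fun y hy => ?_⟩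
      rw [← hi'] at hy
      obtain ⟨q, hq, rfl⟩ := (hf'.restrict hQN).mem_img.mp hy
      rw [← hf'.map_mul (hQN hq) hcN, ← hf'.map_mul hcN (hQN hq), hcQ q hq]
    have h2 := hcon h1
    rw [← hi'] at h2
    obtain ⟨q, hq, hqc⟩ := (hf'.restrict hQN).mem_img.mp h2
    have h3 := hf'.inj (hQN hq) hcN hqc
    rw [← h3]
    exact hq
  have hP'S : img P ρ ≤ S := hρP.img_le
  rw [← hR₀] at hR₀c
  obtain ⟨c, hcT, hcN, hcP, hcR⟩ := exists_normalizing_central hS hTsc hP'S hR₀c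
  have hcore := conjAut_mem_pCore hS hTsc hP'S hcT hcN hcR
  have hcS : c ∈ S := hTS hcT
  constructor
  · have hG : ∀ X : Subgroup Ω, X = img P ρ → ∃ x ∈ S ⊓ Subgroup.normalizer (X : Set Ω), x ∉ X ∧
        ∃ α ∈ ((Cfsg.pCore p ↥(F.autGroup X)).map (F.autGroup X).subtype : Subgroup (MulAut ↥X)),
          ∀ y : ↥X, ((α y : ↥X) : Ω) = x * (y : Ω) * x⁻¹ := by
      intro X hX
      subst hX
      exact ⟨c, ⟨hcS, hcN⟩, hcP, conjAut (img P ρ) c hcN, hcore, fun y => rfl⟩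
    obtain ⟨φ, hφ, hφρ⟩ := hρP
    exact ⟨φ, hφ, hG φ.range (img_eq_range φ hφρ).symm⟩
  · intro hrad
    obtain ⟨e, he⟩ := hρP.exists_equiv rfl
    have hα : conjAut (img P ρ) c hcN ∈ F.autGroup (img P ρ) :=
      autInducedBy_le_autGroup F hP'S (conjAut_mem_autInducedBy hcS hcN)
    obtain ⟨β, hβdef⟩ : ∃ β, β = (MulAut.congr e).symm (conjAut (img P ρ) c hcN) := ⟨_, rfl⟩
    have hβe : MulAut.congr e β = conjAut (img P ρ) c hcN := by
      rw [hβdef]
      exact (MulAut.congr e).apply_symm_apply _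
    have hβ : β ∈ F.autGroup P := by
      rw [congr_mem_autGroup_iff hρP rfl e he, hβe]
      exact hα
    have hβapp : ∀ y : P, ((e (β y) : img P ρ) : Ω) = c * ρ y * c⁻¹ := by
      intro y
      have h1 : MulAut.congr e β (e y) = conjAut (img P ρ) c hcN (e y) := by rw [hβe]
      have h2 : MulAut.congr e β (e y) = e (β y) := by
        show e (β (e.symm (e y))) = _
        rw [MulEquiv.symm_apply_apply]
      rw [← h2, h1, ← he y]
      rfl
    have hb1 : ∀ y : P, (y : Ω)⁻¹ * ((β y : P) : Ω) ∈ P ⊓ T := by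
      intro y
      have hmem : (y : Ω)⁻¹ * ((β y : P) : Ω) ∈ P :=
        Subgroup.mul_mem _ (Subgroup.inv_mem _ y.2) (Subtype.property _)
      refine ⟨hmem, ?_⟩
      show (y : Ω)⁻¹ * ((β y : P) : Ω) ∈ T
      have hT' : ρ ((y : Ω)⁻¹ * ((β y : P) : Ω)) ∈ T := by
        rw [hρP.map_mul (Subgroup.inv_mem _ y.2) (Subtype.property _), hρP.map_inv y.2, ← he (β y),
          hβapp y]
        have h3 := StronglyClosed.conj_mem hTsc (S.inv_mem (hρP.mem y.2)) hcT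
        rw [inv_inv] at h3
        have e3 : (ρ y)⁻¹ * (c * ρ y * c⁻¹) = ((ρ y)⁻¹ * c * ρ y) * c⁻¹ := by group
        rw [e3]
        exact T.mul_mem h3 (T.inv_mem hcT)
      exact (Mor.mem_closed_iff hTsc hρP hmem).mp hT'
    have hb2 : ∀ y : P, (y : Ω) ∈ P ⊓ T → β y = y := by
      intro y hy
      apply e.injective
      apply Subtype.ext
      rw [hβapp y, he y]
      have hρy : ρ y ∈ img P ρ ⊓ T :=
        ⟨apply_mem_img y.2, (Mor.mem_closed_iff hTsc hρP y.2).mpr hy.2⟩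
      rw [← hcR _ hρy, mul_inv_cancel_right]
    have hβcore := stab_mem_pCore hS F hPS (inf_closed_invariant hTsc hPS) hβ hb1 hb2
    rw [hrad.2, mem_Inn_iff] at hβcore
    obtain ⟨w, hw, hwβ⟩ := hβcore
    have hcen : (ρ w)⁻¹ * c ∈ centralizerIn S (img P ρ) := by
      rw [mem_centralizerIn]
      refine ⟨S.mul_mem (S.inv_mem (hρP.mem hw)) hcS, fun y' hy' => ?_⟩
      obtain ⟨y, hy, rfl⟩ := hρP.mem_img.mp hy'
      have h1 := hβapp ⟨y, hy⟩
      rw [he, hwβ ⟨y, hy⟩, hρP.map_conj hw hy] at h1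
      calc ρ y * ((ρ w)⁻¹ * c) = (ρ w)⁻¹ * (ρ w * ρ y * (ρ w)⁻¹) * c := by group
        _ = (ρ w)⁻¹ * (c * ρ y * c⁻¹) * c := by rw [h1]
        _ = (ρ w)⁻¹ * c * ρ y := by group
    have hconjP : F.IsConj P (img P ρ) := isConj_iff.mpr ⟨ρ, hρP, rfl⟩
    have h3 := hP.2 (img P ρ) hconjP hcen
    apply hcP
    have e2 : c = ρ w * ((ρ w)⁻¹ * c) := by group
    rw [e2]
    exact Subgroup.mul_mem _ (apply_mem_img hw) h3

end Cfsg.Agent.S5251
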