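import Cfsg.Statements.S5254
import Cfsg.Agent.Helper27.UA4


set_option autoImplicit false
open Cfsg

namespace Cfsg.Agent.S5254

open Cfsg.Agent.Helper27 Cfsg.FusionSystem


/-- Let p be an odd prime, S a finite nonabelian p-group with a unique abelian subgroup A of index p, and F a saturated fusion system over S. Then every F-essential subgroup P is A, or Z(S)⟨x⟩ for some x ∈ S outside A, or (when the second centre Z₂(S) lies in A) Z₂(S)⟨x⟩ for some x ∈ S outside A; and P has index p in its normalizer in S. -/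
theorem result {Ω : Type*} [Group Ω] {S : Subgroup Ω} [Finite S] (p : ℕ) [Fact p.Prime] (hS : IsPGroup p S) (F : Cfsg.FusionSystem S) (hF : F.IsSaturated p) (hp : p ≠ 2) (hna : ¬ IsMulCommutative ↥S) (A : Subgroup Ω) (hA : A ≤ S ∧ IsMulCommutative ↥A ∧ (A.subgroupOf S).index = p) (huniq : ∀ B : Subgroup Ω, B ≤ S → IsMulCommutative ↥B → (B.subgroupOf S).index = p → B = A) (P : Subgroup Ω) (hP : F.IsEssential p P) : (P = A ∨ (∃ x ∈ S, x ∉ A ∧ P = (S ⊓ Subgroup.centralizer (S : Set Ω)) ⊔ Subgroup.zpowers x) ∨ (((upperCentralSeries ↥S 2).map S.subtype) ≤ A ∧ ∃ x ∈ S, x ∉ A ∧ P = ((upperCentralSeries ↥S 2).map S.subtype) ⊔ Subgroup.zpowers x)) ∧ (P.subgroupOf (S ⊓ Subgroup.normalizer (P : Set Ω))).index = p := by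
  have hPS : P ≤ S := hP.2.1.1
  have hcomm : ∀ a ∈ A, ∀ b ∈ A, a * b = b * a := fun a ha b hb =>
    congrArg Subtype.val (hA.2.1.is_comm.comm ⟨a, ha⟩ ⟨b, hb⟩)
  have hna' : ¬ ∀ s ∈ S, ∀ t ∈ S, s * t = t * s := by
    intro hall
    exact hna ⟨⟨fun a b => Subtype.ext (hall a a.2 b b.2)⟩⟩
  have hPc : Cfsg.FusionSystem.centralizerIn S P ≤ P := hP.1.2 P (isConj_refl F hPS)
  by_cases hPA : P ≤ A
  · have hAP : A ≤ P := by
      intro a ha
      apply hPc
      rw [mem_centralizerIn]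
      exact ⟨hA.1 ha, fun y hy => hcomm y (hPA hy) a ha⟩
    have hPeq : P = A := le_antisymm hPA hAP
    refine ⟨Or.inl hPeq, ?_⟩
    obtain ⟨x, hxS, hxA⟩ : ∃ x ∈ S, x ∉ A := by
      by_contra hcon
      push Not at hcon
      have h1 : A.subgroupOf S = ⊤ := by
        rw [Subgroup.subgroupOf_eq_top]; exact hcon
      have h2 := hA.2.2
      rw [h1, Subgroup.index_top] at h2
      exact (Fact.out : p.Prime).one_lt.ne h2
    have h : UAHyp p S A x := ⟨hS, hA.1, hcomm, hA.2.2, hxS, hxA⟩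
    haveI : Finite A := finite_of_le hA.1
    have hSN : S ≤ Subgroup.normalizer (A : Set Ω) := by
      intro s hs
      exact mem_normalizer_of_forall (fun y hy => h.normal hs hy)
    rw [hPeq, inf_eq_left.mpr hSN]
    exact hA.2.2
  · obtain ⟨x, hxP, hxA⟩ := SetLike.not_le_iff_exists.mp hPA
    have h : UAHyp p S A x := ⟨hS, hA.1, hcomm, hA.2.2, hPS hxP, hxA⟩
    obtain ⟨M, hMP, hMc, hMidx, hkey⟩ := ua_key hS hF h hP hxP
    have hPne : P ≠ S := (ess_key hS hF hP).1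
    have hcent : ∀ z ∈ S ⊓ Subgroup.centralizer (S : Set Ω), z ∈ P := by
      intro z hz
      apply hPc
      rw [mem_centralizerIn]
      obtain ⟨hzS, hzc⟩ := Subgroup.mem_inf.mp hz
      exact ⟨hzS, fun y hy => Subgroup.mem_centralizer_iff.mp hzc y (hPS hy)⟩
    have c : UACtx p S A P M x := ⟨h, hna', hPS, hPne, hxP, hcent, hMP, hMc, hMidx, hkey⟩
    refine ⟨Or.inr ?_, c.normIdx⟩
    rcases c.shape with h1 | ⟨h1, h2⟩
    · exact Or.inl ⟨x, hPS hxP, hxA, h1⟩
    · exact Or.inr ⟨h1, x, hPS hxP, hxA, h2⟩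

end Cfsg.Agent.S5254
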