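import Cfsg.Statements.S5255
import Cfsg.Agent.Helper27.FusLift

set_option autoImplicit false
open Cfsg

namespace Cfsg.Agent.S5255

open Cfsg.FusionSystem Cfsg.Agent.Helper27

/-- Let F be a saturated fusion system over a finite p-group S and T a subgroup of S strongly closed in F. Then T·C_S(T) is strongly closed in F. -/
theorem result {Ω : Type*} [Group Ω] {S : Subgroup Ω} [Finite S] (p : ℕ) [Fact p.Prime] (hS : IsPGroup p S) (F : Cfsg.FusionSystem S) (hF : F.IsSaturated p) (T : Subgroup Ω) (hT : F.StronglyClosed T) : F.StronglyClosed (T ⊔ Cfsg.FusionSystem.centralizerIn S T) := by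
  refine ⟨sup_le hT.1 (centralizerIn_le S T), ?_⟩
  intro R hR φ hφ x
  have hf : Mor F R (fn φ) := mor_of_hom hφ
  obtain ⟨ψ, hψ, hψx⟩ := lift_mod_stronglyClosed hS hF hT hf
  have hx := hψx x x.2
  rw [fn_apply] at hx
  obtain ⟨t, ht, c, hc, hxt⟩ := exists_mul_of_mem_sup (R := T) (T := Cfsg.FusionSystem.centralizerIn S T)
    (fun r hr c hc => by
      have h := (mem_centralizerIn.mp hc).2 r hr
      have h' : r * c * r⁻¹ = c := by rw [h, mul_inv_cancel_right]
      rw [h']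
      exact hc) (hR x.2)
  have hc' : c ∈ R ⊔ T := by
    have h : c = t⁻¹ * x := by rw [hxt]; group
    rw [h]
    exact Subgroup.mul_mem _ ((le_sup_right : T ≤ R ⊔ T) (T.inv_mem ht))
      ((le_sup_left : R ≤ R ⊔ T) x.2)
  have ht' : t ∈ R ⊔ T := (le_sup_right : T ≤ R ⊔ T) ht
  have h3 : ψ x = ψ t * ψ c := by rw [hxt]; exact hψ.map_mul ht' hc'
  have hfinT : Finite T := finite_of_le hT.1
  have hTT : ∀ y ∈ T, ψ y ∈ T := fun y hy => StronglyClosed.mor hT (hψ.restrict le_sup_right) le_rfl hy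
  have h4 : ψ t ∈ T := hTT t ht
  have himg : img T ψ = T := by
    have hr := hψ.restrict (le_sup_right : T ≤ R ⊔ T)
    exact Subgroup.eq_of_le_of_card_ge (hr.img_le_of hTT) (le_of_eq hr.card_img.symm)
  have h5 : ψ c ∈ Cfsg.FusionSystem.centralizerIn S T := by
    have h := hψ.map_centralizerIn (le_sup_right : T ≤ R ⊔ T) hc' hc
    rwa [himg] at h
  have h6 : φ x = ψ x * ((φ x)⁻¹ * ψ x)⁻¹ := by group
  rw [h6]
  refine Subgroup.mul_mem _ ?_ ((le_sup_left : T ≤ T ⊔ _) (T.inv_mem hx))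
  rw [h3]
  exact Subgroup.mul_mem _ ((le_sup_left : T ≤ T ⊔ _) h4)
    ((le_sup_right : _ ≤ T ⊔ Cfsg.FusionSystem.centralizerIn S T) h5)

end Cfsg.Agent.S5255
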