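import Cfsg.Statements.S5257
import Cfsg.Agent.Helper27.UA5


set_option autoImplicit false
open Cfsg

namespace Cfsg.Agent.S5257

open Cfsg.Agent.Helper27 Cfsg.FusionSystem


/-- Let p be an odd prime, S a finite nonabelian p-group with a unique abelian subgroup A of index p, and F a saturated fusion system over S having an F-essential subgroup other than A. Then the second centre Z₂(S) lies in A; Z(S) ∩ [S, S] has order p; Z(S)[S, S] has index p in A; Z(S) has index p in Z₂(S); and S/Z(S) has maximal nilpotency class (if S/Z(S) has order pᵐ with m ≥ 3 then the term of index m − 2 of the lower central series of S, counting S as index 0, is not contained in Z(S)). -/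
theorem result {Ω : Type*} [Group Ω] {S : Subgroup Ω} [Finite S] (p : ℕ) [Fact p.Prime] (hS : IsPGroup p S) (F : Cfsg.FusionSystem S) (hF : F.IsSaturated p) (hp : p ≠ 2) (hna : ¬ IsMulCommutative ↥S) (A : Subgroup Ω) (hA : A ≤ S ∧ IsMulCommutative ↥A ∧ (A.subgroupOf S).index = p) (huniq : ∀ B : Subgroup Ω, B ≤ S → IsMulCommutative ↥B → (B.subgroupOf S).index = p → B = A) (P : Subgroup Ω) (hP : F.IsEssential p P) (hPA : P ≠ A) : ((upperCentralSeries ↥S 2).map S.subtype) ≤ A ∧ Nat.card ↥((S ⊓ Subgroup.centralizer (S : Set Ω)) ⊓ ((commutator ↥S).map S.subtype)) = p ∧ (((S ⊓ Subgroup.centralizer (S : Set Ω)) ⊔ ((commutator ↥S).map S.subtype)).subgroupOf A).index = p ∧ (((S ⊓ Subgroup.centralizer (S : Set Ω))).subgroupOf ((upperCentralSeries ↥S 2).map S.subtype)).index = p ∧ ∀ m : ℕ, ((S ⊓ Subgroup.centralizer (S : Set Ω)).subgroupOf S).index = p ^ m → 3 ≤ m → ¬ Subgroup.lowerCentralSeries S (m - 2) ≤ (S ⊓ Subgroup.centralizer (S : Set Ω)) := by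
  have hPS : P ≤ S := hP.2.1.1
  have hcomm : ∀ a ∈ A, ∀ b ∈ A, a * b = b * a := fun a ha b hb =>
    congrArg Subtype.val (hA.2.1.is_comm.comm ⟨a, ha⟩ ⟨b, hb⟩)
  have hna' : ¬ ∀ s ∈ S, ∀ t ∈ S, s * t = t * s := by
    intro hall
    exact hna ⟨⟨fun a b => Subtype.ext (hall a a.2 b b.2)⟩⟩
  have hPc : Cfsg.FusionSystem.centralizerIn S P ≤ P := hP.1.2 P (isConj_refl F hPS)
  have hPA' : ¬ P ≤ A := by
    intro hle
    apply hPA
    apply le_antisymm hle
    intro a ha
    apply hPc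
    rw [mem_centralizerIn]
    exact ⟨hA.1 ha, fun y hy => hcomm y (hle hy) a ha⟩
  obtain ⟨x, hxP, hxA⟩ := SetLike.not_le_iff_exists.mp hPA'
  have h : UAHyp p S A x := ⟨hS, hA.1, hcomm, hA.2.2, hPS hxP, hxA⟩
  obtain ⟨M, hMP, hMc, hMidx, hkey⟩ := ua_key hS hF h hP hxP
  have hPne : P ≠ S := (ess_key hS hF hP).1
  have hcent : ∀ z ∈ S ⊓ Subgroup.centralizer (S : Set Ω), z ∈ P := by
    intro z hz
    apply hPc
    rw [mem_centralizerIn]
    obtain ⟨hzS, hzc⟩ := Subgroup.mem_inf.mp hz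
    exact ⟨hzS, fun y hy => Subgroup.mem_centralizer_iff.mp hzc y (hPS hy)⟩
  have c : UACtx p S A P M x := ⟨h, hna', hPS, hPne, hxP, hcent, hMP, hMc, hMidx, hkey⟩
  have hle := c.ucs2_le huniq
  exact ⟨hle, c.card_center_comm, c.idx_sup, c.idx_center_ucs2 hle, fun m hm h3 => c.maxclass hm h3⟩

end Cfsg.Agent.S5257
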