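import Cfsg.Statements.S5290
import Cfsg.Agent.Helper27.FusInner
import Cfsg.Agent.Helper26.NormalApps

set_option autoImplicit false
open Cfsg

namespace Cfsg.Agent.S5290

open Cfsg.FusionSystem Cfsg.Agent.Helper27

/-- Let F be a saturated fusion system over a finite p-group S and Q a subgroup of S. Then Q is normal in F (F = N_F(Q)) if and only if the inner fusion system of Q, consisting of the conjugations by elements of Q on subgroups of Q, is a weakly normal subsystem of F (both saturated, Q strongly closed, invariant under F-conjugation, with the Frattini property). -/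
theorem result {Ω : Type*} [Group Ω] {S : Subgroup Ω} [Finite S] (p : ℕ) [Fact p.Prime] (hS : IsPGroup p S)
    (F : Cfsg.FusionSystem S) (hF : F.IsSaturated p)
    (Q : Subgroup Ω) (hQ : Q ≤ S) :
    F.IsNormal Q ↔ (Cfsg.innerFusionSystem Q).IsWeaklyNormalIn F p := by
  constructor
  · intro h
    have hsc := Cfsg.Agent.Helper26.normal_stronglyClosed F h
    refine (inner_normalIn hS hF hsc ?_).1
    intro P f hPQ hf
    obtain ⟨φ, hφ, hφf⟩ := hf
    obtain ⟨ψ, hψ, hψφ, -⟩ := h.2 P φ hφ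
    refine ⟨fn ψ, (mor_of_hom hψ).restrict le_sup_right, ?_⟩
    intro x hx
    rw [fn_of_mem ψ ((le_sup_left : P ≤ P ⊔ Q) hx), ← hφf ⟨x, hx⟩]
    exact hψφ ⟨x, hx⟩
  · rintro ⟨-, -, -, hsc, -, hfr⟩
    rw [Cfsg.Agent.Helper26.normal_iff_extend_aut p hS F hF Q hQ]
    intro P hPQ φ hφ
    obtain ⟨α, hα, φ₀, ⟨-, g, hg, hφ₀⟩, h⟩ := hfr P hPQ φ hφ
    have hgn : g ∈ Subgroup.normalizer (Q : Set Ω) := Subgroup.le_normalizer hg
    refine ⟨α * conjAut Q g hgn, Subgroup.mul_mem _ hα
      (autInducedBy_le_autGroup F hQ (conjAut_mem_autInducedBy (hQ hg) hgn)), ?_⟩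
    intro x
    have hmem : φ₀ x ∈ Q := by
      rw [hφ₀]
      exact Q.mul_mem (Q.mul_mem hg (hPQ x.2)) (Q.inv_mem hg)
    rw [h x hmem]
    show ((α (conjAut Q g hgn (Subgroup.inclusion hPQ x)) : Q) : Ω) = ((α ⟨φ₀ x, hmem⟩ : Q) : Ω)
    congr 2
    apply Subtype.ext
    rw [conjAut_apply]
    exact (hφ₀ x).symm

end Cfsg.Agent.S5290
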