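import Cfsg.Statements.S5291
import Cfsg.Agent.Helper27.FusLift
import Cfsg.Agent.Helper26.NormalApps
import Cfsg.Agent.S5145

set_option autoImplicit false
open Cfsg

namespace Cfsg.Agent.S5291

open Cfsg.FusionSystem Cfsg.Agent.Helper27

theorem autFn_inv_apply {Ω : Type*} [Group Ω] {P : Subgroup Ω} (α : MulAut P) {x : Ω} (hx : x ∈ P) :
    autFn α⁻¹ (autFn α x) = x := by
  rw [autFn_of_mem α hx, autFn_apply, MulAut.inv_apply_self]

theorem autFn_apply_inv {Ω : Type*} [Group Ω] {P : Subgroup Ω} (α : MulAut P) {x : Ω} (hx : x ∈ P) :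
    autFn α (autFn α⁻¹ x) = x := by
  rw [autFn_of_mem α⁻¹ hx, autFn_apply, MulAut.apply_inv_self]


/-- Let F be a saturated fusion system over a finite p-group S and E a weakly normal subsystem of F over a subgroup T. Suppose a subgroup R of T is normal in E (E = N_E(R)), and let R* be the subgroup of T generated by the images of R under all maps of F with source R. Then R* is normal in F (F = N_F(R*)). -/
theorem result {Ω : Type*} [Group Ω] {S : Subgroup Ω} [Finite S] (p : ℕ) [Fact p.Prime] (hS : IsPGroup p S)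
    (F : Cfsg.FusionSystem S) (hF : F.IsSaturated p)
    {T : Subgroup Ω} (E : Cfsg.FusionSystem T) (hE : E.IsWeaklyNormalIn F p)
    (R : Subgroup Ω) (hR : E.IsNormal R) :
    F.IsNormal (Subgroup.closure {x : Ω | ∃ φ ∈ F.Hom R, ∃ r : R, x = φ r}) := by
  obtain ⟨hEsat, -, hEF, hTsc, hinv, hfr⟩ := hE
  have hTS : T ≤ S := hTsc.1
  have hfinT : Finite T := finite_of_le hTS
  have hTp : IsPGroup p T := hS.to_le hTS
  have hRT : R ≤ T := hR.1
  have hRS : R ≤ S := hRT.trans hTS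
  have hRsc : E.StronglyClosed R := Cfsg.Agent.Helper26.normal_stronglyClosed E hR
  have hEFM : ∀ (P : Subgroup Ω) (f : Ω → Ω), Mor E P f → Mor F P f :=
    fun P f ⟨φ, hφ, h⟩ => ⟨φ, hEF P hφ, h⟩
  -- function-level forms of invariance and of the Frattini condition
  have hinvM : ∀ (P : Subgroup Ω) (f : Ω → Ω) (α : MulAut T), α ∈ F.autGroup T → ∀ g : Ω → Ω, P ≤ T →
      Mor E P f → (∀ x ∈ P, g (autFn α x) = autFn α (f x)) → Mor E (img P (autFn α)) g := by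
    intro P f α hα g hPT hf hg
    obtain ⟨φ, hφ, hφf⟩ := hf
    obtain ⟨χ, hχ, hχ'⟩ := hinv P hPT φ hφ α hα
    have himg : (P.subgroupOf T).map (T.subtype.comp α.toMonoidHom) = img P (autFn α) := by
      rw [img_eq_range ((T.subtype.comp α.toMonoidHom).comp (Subgroup.inclusion hPT))
        (fun x => (autFn_of_mem α (hPT x.2)).symm)]
      ext y
      constructor
      · rintro ⟨u, hu, rfl⟩
        exact ⟨⟨u, Subgroup.mem_subgroupOf.mp hu⟩, rfl⟩
      · rintro ⟨x, rfl⟩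
        exact ⟨Subgroup.inclusion hPT x, Subgroup.mem_subgroupOf.mpr x.2, rfl⟩
    rw [← himg]
    refine ⟨χ, hχ, ?_⟩
    rintro ⟨y, hy⟩
    obtain ⟨u, hu, rfl⟩ := hy
    have hu' : (u : Ω) ∈ P := Subgroup.mem_subgroupOf.mp hu
    have hφT : φ ⟨u, hu'⟩ ∈ T := (E.le_of_mem hφ).2 _
    have h1 := hχ' ⟨u, hu'⟩ hφT ⟨u, hu, rfl⟩
    refine h1.trans ?_
    have h2 : g (autFn α (u : Ω)) = autFn α (f u) := hg _ hu'
    rw [autFn_apply] at h2
    show _ = g ((α u : T) : Ω)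
    rw [h2, ← hφf ⟨u, hu'⟩, autFn_of_mem α hφT]
  have hfrM : ∀ (P : Subgroup Ω) (f : Ω → Ω), P ≤ T → Mor F P f →
      ∃ α ∈ F.autGroup T, ∃ f₀, Mor E P f₀ ∧ ∀ x ∈ P, f x = autFn α (f₀ x) := by
    intro P f hPT hf
    obtain ⟨φ, hφ, hφf⟩ := hf
    obtain ⟨α, hα, φ₀, hφ₀, h⟩ := hfr P hPT φ hφ
    refine ⟨α, hα, fn φ₀, mor_of_hom hφ₀, ?_⟩
    intro x hx
    have hx0 : φ₀ ⟨x, hx⟩ ∈ T := (E.le_of_mem hφ₀).2 _
    rw [← hφf ⟨x, hx⟩, h ⟨x, hx⟩ hx0, fn_of_mem φ₀ hx, autFn_of_mem α hx0]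
  have hautM : ∀ α ∈ F.autGroup T, Mor F T (autFn α) := fun α hα => (mem_autGroup_iff hTS α).mp hα
  have himgT : ∀ α ∈ F.autGroup T, img R (autFn α) ≤ T := by
    intro α hα
    exact ((hautM α hα).restrict hRT).img_le_of (fun x hx => autFn_mem α (hRT hx))
  obtain ⟨N, hNdef⟩ : ∃ N, N = Subgroup.closure {x : Ω | ∃ φ ∈ F.Hom R, ∃ r : R, x = φ r} := ⟨_, rfl⟩
  rw [← hNdef]
  -- step 1: N is the join of the images of R under Aut_F(T)
  have h1a : ∀ α ∈ F.autGroup T, img R (autFn α) ≤ N := by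
    intro α hα y hy
    have hM := (hautM α hα).restrict hRT
    obtain ⟨x, hx, rfl⟩ := hM.mem_img.mp hy
    obtain ⟨φ, hφ, hφa⟩ := hM
    rw [hNdef]
    exact Subgroup.subset_closure ⟨φ, hφ, ⟨x, hx⟩, (hφa ⟨x, hx⟩).symm⟩
  have hNeq : N = sSup {A : Subgroup Ω | ∃ α ∈ F.autGroup T, A = img R (autFn α)} := by
    apply le_antisymm
    · rw [hNdef, Subgroup.closure_le]
      rintro _ ⟨φ, hφ, r, rfl⟩
      obtain ⟨α, hα, f₀, hf₀, h⟩ := hfrM R (fn φ) hRT (mor_of_hom hφ)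
      have h2 := h r r.2
      rw [fn_apply] at h2
      have h3 : f₀ r ∈ R := StronglyClosed.mor hRsc hf₀ le_rfl r.2
      have h4 : img R (autFn α) ≤ sSup {A : Subgroup Ω | ∃ α ∈ F.autGroup T, A = img R (autFn α)} :=
        le_sSup ⟨α, hα, rfl⟩
      show φ r ∈ sSup {A : Subgroup Ω | ∃ α ∈ F.autGroup T, A = img R (autFn α)}
      rw [h2]
      exact h4 (apply_mem_img h3)
    · apply sSup_le
      rintro A ⟨α, hα, rfl⟩
      exact h1a α hα
  -- step 2: the images of R are normal in E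
  have h2 : ∀ α ∈ F.autGroup T, E.IsNormal (img R (autFn α)) := by
    intro α hα
    have hα' : α⁻¹ ∈ F.autGroup T := Subgroup.inv_mem _ hα
    rw [Cfsg.Agent.Helper26.normal_iff_extend_aut p hTp E hEsat _ (himgT α hα)]
    intro P' hP' φ' hφ'
    have hP'T : P' ≤ T := hP'.trans (himgT α hα)
    have hφ'T : ∀ y ∈ P', fn φ' y ∈ T := fun y hy => by
      rw [fn_of_mem φ' hy]
      exact (E.le_of_mem hφ').2 _
    have hg1 : Mor E (img P' (autFn α⁻¹)) (autFn α⁻¹ ∘ fn φ' ∘ autFn α) := by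
      refine hinvM P' (fn φ') α⁻¹ hα' _ hP'T (mor_of_hom hφ') ?_
      intro y hy
      show autFn α⁻¹ (fn φ' (autFn α (autFn α⁻¹ y))) = autFn α⁻¹ (fn φ' y)
      rw [autFn_apply_inv α (hP'T hy)]
    have hPR : img P' (autFn α⁻¹) ≤ R := by
      refine ((hautM α⁻¹ hα').restrict hP'T).img_le_of ?_
      intro y hy
      obtain ⟨x, hx, rfl⟩ := ((hautM α hα).restrict hRT).mem_img.mp (hP' hy)
      rw [autFn_inv_apply α (hRT hx)]
      exact hx
    obtain ⟨φg, hφg, hφgf⟩ := hg1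
    obtain ⟨β, hβ, hβφ⟩ := (Cfsg.Agent.Helper26.normal_iff_extend_aut p hTp E hEsat R hRT).mp hR
      (img P' (autFn α⁻¹)) hPR φg hφg
    have hβM : Mor E R (autFn β) := (mem_autGroup_iff hRT β).mp hβ
    have hg2 : Mor E (img R (autFn α)) (autFn α ∘ autFn β ∘ autFn α⁻¹) := by
      refine hinvM R (autFn β) α hα _ hRT hβM ?_
      intro x hx
      show autFn α (autFn β (autFn α⁻¹ (autFn α x))) = autFn α (autFn β x)
      rw [autFn_inv_apply α (hRT hx)]
    have hg2mem : ∀ y ∈ img R (autFn α), (autFn α ∘ autFn β ∘ autFn α⁻¹) y ∈ img R (autFn α) := by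
      intro y hy
      obtain ⟨x, hx, rfl⟩ := ((hautM α hα).restrict hRT).mem_img.mp hy
      show autFn α (autFn β (autFn α⁻¹ (autFn α x))) ∈ img R (autFn α)
      rw [autFn_inv_apply α (hRT hx)]
      exact apply_mem_img (autFn_mem β hx)
    have hfinI : Finite (img R (autFn α)) := finite_of_le ((himgT α hα).trans hTS)
    obtain ⟨β', hβ', hβ'h⟩ := exists_aut_of_mor hg2 hg2mem
    refine ⟨β', hβ', ?_⟩
    intro y
    rw [hβ'h]
    show autFn α (autFn β (autFn α⁻¹ (y : Ω))) = φ' y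
    have hby : autFn α⁻¹ (y : Ω) ∈ img P' (autFn α⁻¹) := apply_mem_img y.2
    have h3 := hβφ ⟨_, hby⟩
    rw [hφgf] at h3
    rw [autFn_of_mem β (hPR hby)]
    have h4 : ((β ⟨autFn α⁻¹ (y : Ω), hPR hby⟩ : R) : Ω)
        = (autFn α⁻¹ ∘ fn φ' ∘ autFn α) (autFn α⁻¹ (y : Ω)) := h3
    rw [h4]
    show autFn α (autFn α⁻¹ (fn φ' (autFn α (autFn α⁻¹ (y : Ω))))) = φ' y
    rw [autFn_apply_inv α (hP'T y.2), autFn_apply_inv α (hφ'T y y.2), fn_apply]
  -- step 4: N is normal in E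
  have hfin : Set.Finite {A : Subgroup Ω | ∃ α ∈ F.autGroup T, A = img R (autFn α)} := by
    refine (Cfsg.Agent.S5145.finite_le T).subset ?_
    rintro A ⟨α, hα, rfl⟩
    exact himgT α hα
  have hNE : E.IsNormal N := by
    rw [hNeq]
    refine Cfsg.Agent.S5145.isNormal_sSup E hfin ?_
    rintro A ⟨α, hα, rfl⟩
    exact h2 α hα
  have hNT : N ≤ T := hNE.1
  have hNS : N ≤ S := hNT.trans hTS
  have hfinN : Finite N := finite_of_le hNS
  -- step 5: N is invariant under Aut_F(T)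
  have h5 : ∀ α ∈ F.autGroup T, ∀ x ∈ N, autFn α x ∈ N := by
    intro α hα
    have haM := hautM α hα
    let M : Subgroup Ω :=
      { carrier := {x | x ∈ T ∧ autFn α x ∈ N}
        mul_mem' := by
          rintro x y ⟨hx, hx'⟩ ⟨hy, hy'⟩
          exact ⟨T.mul_mem hx hy, by rw [haM.map_mul hx hy]; exact N.mul_mem hx' hy'⟩
        one_mem' := ⟨T.one_mem, by rw [haM.map_one]; exact N.one_mem⟩
        inv_mem' := by
          rintro x ⟨hx, hx'⟩
          exact ⟨T.inv_mem hx, by rw [haM.map_inv hx]; exact N.inv_mem hx'⟩ }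
    have hle : N ≤ M := by
      rw [hNdef, Subgroup.closure_le]
      rintro _ ⟨φ, hφ, r, rfl⟩
      have hφT : ∀ x ∈ R, fn φ x ∈ T := fun x hx => StronglyClosed.mor hTsc (mor_of_hom hφ) hRT hx
      refine ⟨by have h := hφT r r.2; rwa [fn_apply] at h, ?_⟩
      obtain ⟨ψ, hψ, hψa⟩ := (mor_of_hom hφ).comp haM hφT
      have h6 : ψ r = autFn α (φ r) := by
        rw [hψa]
        show autFn α (fn φ r) = _
        rw [fn_apply]
      show autFn α (φ r) ∈ N
      rw [← h6, hNdef]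
      exact Subgroup.subset_closure ⟨ψ, hψ, r, rfl⟩
    intro x hx
    exact (hle hx).2
  -- step 6: N is normal in F
  rw [Cfsg.Agent.Helper26.normal_iff_extend_aut p hS F hF N hNS]
  intro P hPN φ hφ
  obtain ⟨α, hα, f₀, hf₀, h⟩ := hfrM P (fn φ) (hPN.trans hNT) (mor_of_hom hφ)
  obtain ⟨φ₀, hφ₀, hφ₀f⟩ := hf₀
  obtain ⟨β, hβ, hβφ⟩ := (Cfsg.Agent.Helper26.normal_iff_extend_aut p hTp E hEsat N hNT).mp hNE
    P hPN φ₀ hφ₀
  have hβM : Mor F N (autFn β) := hEFM _ _ ((mem_autGroup_iff hNT β).mp hβ)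
  have hγ : Mor F N (autFn α ∘ autFn β) := hβM.comp (hautM α hα) (fun x hx => hNT (autFn_mem β hx))
  have hγmem : ∀ x ∈ N, (autFn α ∘ autFn β) x ∈ N := fun x hx => h5 α hα _ (autFn_mem β hx)
  obtain ⟨γ, hγA, hγf⟩ := exists_aut_of_mor hγ hγmem
  refine ⟨γ, hγA, fun x => ?_⟩
  rw [hγf]
  show autFn α (autFn β (x : Ω)) = φ x
  have h7 := h x x.2
  rw [fn_apply] at h7
  rw [h7, autFn_of_mem β (hPN x.2), ← hφ₀f x]
  exact congrArg (autFn α) (hβφ x)

end Cfsg.Agent.S5291
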