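import Cfsg.Statements.S5301
import Cfsg.Agent.Helper27.FusNormal

set_option autoImplicit false
universe u
open Cfsg

namespace Cfsg.Agent.S5301

open Cfsg.FusionSystem Cfsg.Agent.Helper27

/-- Let F be a saturated fusion system over a finite p-group S. If for every subgroup P of S that is fully normalized, centric and radical in F the automorphism group that F induces on P has a normal Sylow p-subgroup, then S is normal in F. -/
theorem result {Ω : Type u} [Group Ω] {S : Subgroup Ω} [Finite S] (p : ℕ) [Fact p.Prime] (hS : IsPGroup p S)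
    (F : Cfsg.FusionSystem S) (hF : F.IsSaturated p)
    (hcl : ∀ P : Subgroup Ω, F.IsFullyNormalized P → F.IsCentric P → F.IsRadical p P →
      ∃ R : Sylow p ↥(F.autGroup P), (R : Subgroup ↥(F.autGroup P)).Normal) :
    F.IsNormal S := by
  have hn : ∀ s ∈ S, ∀ x ∈ S, s * x * s⁻¹ ∈ S :=
    fun s hs x hx => S.mul_mem (S.mul_mem hs hx) (S.inv_mem hs)
  apply normal_of_le_nSys le_rfl hn
  apply alperin hS hF (nSys F S le_rfl hn)
  intro R hRn hRc hRr _ f hf hfi
  obtain ⟨R₀, hR₀⟩ := hcl R hRn hRc hRr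
  have hRS := eq_top_of_normal_sylow hS hF hRn hRc hRr R₀ hR₀
  rw [hRS] at hf ⊢
  exact mor_nSys_iff.mpr ⟨f, hf.restrict (sup_le le_rfl le_rfl), fun _ _ => rfl, fun x hx => hf.mem hx⟩

end Cfsg.Agent.S5301
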