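import Cfsg.Statements.S5311
import Cfsg.Agent.Helper27.Iso6

set_option autoImplicit false
open Cfsg

namespace Cfsg.Agent.S5311

open Cfsg.Agent.Helper27 Cfsg.FusionSystem

/-- The layer of a saturated fusion system F over a finite p-group S is characteristic in F: for every automorphism α of S that is an automorphism of F (α and its inverse are morphisms from F to F) and every layer E of F over T, α carries T onto T and, for every map φ of E with source P, the map induced by α on α(P) (that is, α ∘ φ ∘ α⁻¹) is a map of E. -/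
theorem result {Ω : Type*} [Group Ω] {S : Subgroup Ω} [Finite S] (p : ℕ) [Fact p.Prime] (hS : IsPGroup p S) (F : Cfsg.FusionSystem S) (hF : F.IsSaturated p)
    (α : ↥S ≃* ↥S) (hα : F.IsMorphism F (S.subtype.comp α.toMonoidHom))
    (hα' : F.IsMorphism F (S.subtype.comp α.symm.toMonoidHom))
    {T : Subgroup Ω} (E : Cfsg.FusionSystem T) (hE : E.IsLayerOf F p) :
    Cfsg.FusionSystem.imageAlong (S.subtype.comp α.toMonoidHom) T = T ∧
      ∀ (P : Subgroup Ω) (φ : ↥P →* Ω), φ ∈ E.Hom P →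
        ∀ φ' : ↥(Cfsg.FusionSystem.imageAlong (S.subtype.comp α.toMonoidHom) P) →* Ω,
          Cfsg.FusionSystem.InducedAlong (S.subtype.comp α.toMonoidHom) φ φ' →
            φ' ∈ E.Hom (Cfsg.FusionSystem.imageAlong (S.subtype.comp α.toMonoidHom) P) := by
  obtain ⟨θ, hθ⟩ : ∃ θ : S →* Ω, θ = S.subtype.comp α.toMonoidHom := ⟨_, rfl⟩
  obtain ⟨θ₂, hθ₂⟩ : ∃ θ₂ : S →* Ω, θ₂ = S.subtype.comp α.symm.toMonoidHom := ⟨_, rfl⟩
  rw [← hθ] at hα ⊢
  rw [← hθ₂] at hα'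
  have hinj : Function.Injective θ := by
    rw [hθ]
    exact Subtype.val_injective.comp α.injective
  have hinj₂ : Function.Injective θ₂ := by
    rw [hθ₂]
    exact Subtype.val_injective.comp α.symm.injective
  have hθa : ∀ x (hx : x ∈ S), afn θ x = ((α ⟨x, hx⟩ : S) : Ω) := by
    intro x hx
    rw [afn_of_mem θ hx, hθ]
    rfl
  have hθa₂ : ∀ x (hx : x ∈ S), afn θ₂ x = ((α.symm ⟨x, hx⟩ : S) : Ω) := by
    intro x hx
    rw [afn_of_mem θ₂ hx, hθ₂]
    rfl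
  have h12 : ∀ x ∈ S, afn θ₂ x ∈ S ∧ afn θ (afn θ₂ x) = x := by
    intro x hx
    rw [hθa₂ x hx]
    refine ⟨(α.symm ⟨x, hx⟩).2, ?_⟩
    rw [hθa _ (α.symm ⟨x, hx⟩).2]
    show ((α (α.symm ⟨x, hx⟩) : S) : Ω) = x
    rw [MulEquiv.apply_symm_apply]
  have h21 : ∀ x ∈ S, afn θ x ∈ S ∧ afn θ₂ (afn θ x) = x := by
    intro x hx
    rw [hθa x hx]
    refine ⟨(α ⟨x, hx⟩).2, ?_⟩
    rw [hθa₂ _ (α ⟨x, hx⟩).2]
    show ((α.symm (α ⟨x, hx⟩) : S) : Ω) = x
    rw [MulEquiv.symm_apply_apply]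
  have hFF : Push θ F F := push_self_of_morphism hinj h12 h21 hα hα'
  have hFF₂ : Push θ₂ F F := push_self_of_morphism hinj₂ h21 h12 hα' hα
  have hTS : T ≤ S := hE.1.1.2.2.2.1.1
  have : Finite T := finite_of_le hTS
  obtain ⟨E₁, hE₁⟩ := exists_push hinj hTS E
  obtain ⟨E₂, hE₂⟩ := exists_push hinj₂ hTS E
  have hle₁ : E.IsSubsystemOf E₁ := layer_le_push hS hinj hinj₂ h12 hFF hFF₂ hE hE₁
  have hle₂ : E.IsSubsystemOf E₂ := layer_le_push hS hinj₂ hinj h21 hFF₂ hFF hE hE₂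
  have hge₁ : ∀ (P' : Subgroup Ω) (f' : Ω → Ω), Mor E₁ P' f' → Mor E P' f' := by
    intro P' f' hf'
    obtain ⟨P, f, hf, rfl, hff⟩ := (hE₁.hom _ _).mp hf'
    have hf2 : Mor E₂ P f := hf.of_subsystem hle₂
    obtain ⟨P₀, f₀, hf₀, rfl, hff₀⟩ := (hE₂.hom _ _).mp hf2
    have hP₀S : P₀ ≤ S := le_trans hf₀.le hTS
    rw [imageAlong_round h12 hP₀S]
    refine hf₀.congr (fun x hx => ?_)
    have hxS : x ∈ S := hP₀S hx
    have h1 := hff (afn θ₂ x) (mem_imageAlong.mpr ⟨x, hx, hxS, rfl⟩)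
    rw [(h12 x hxS).2, hff₀ x hx, (h12 _ (hTS (hf₀.mem hx))).2] at h1
    exact h1.symm
  constructor
  · apply le_antisymm
    · have h1 : Mor E₁ (imageAlong θ T) (fun x => x) := Mor.id E₁ le_rfl
      exact (hge₁ _ _ h1).le
    · have h1 : Mor E T (fun x => x) := Mor.id E le_rfl
      exact (h1.of_subsystem hle₁).le
  · intro P φ hφ φ' hind
    obtain ⟨hP, hφS, hP', hi⟩ := hind
    apply hom_of_mor_fn
    apply hge₁
    refine hE₁.fwd (mor_of_hom hφ) (fun x hx => ?_)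
    rw [afn_of_mem θ (hP hx), fn_of_mem φ' (hP' ⟨x, hx⟩), fn_of_mem φ hx,
      afn_of_mem θ (hφS ⟨x, hx⟩)]
    exact hi ⟨x, hx⟩

end Cfsg.Agent.S5311
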