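import Cfsg.Statements.S5328
import Cfsg.Agent.Helper27.ParkGraph

set_option autoImplicit false
universe u
open Cfsg

namespace Cfsg.Agent.S5328

open Cfsg.FusionSystem Cfsg.Agent.Helper27

/-- Every fusion system over a finite p-group S, saturated or not, is realized inside some finite group: there is a finite group G and an injective homomorphism ι of S into G such that the maps of the system are exactly the homomorphisms between subgroups of S that become conjugations by elements of G (the image of S need not be a Sylow p-subgroup of G). -/
theorem result {Ω : Type u} [Group Ω] {S : Subgroup Ω} [Finite S] (p : ℕ) [Fact p.Prime] (hS : IsPGroup p S) (F : Cfsg.FusionSystem S) : ∃ (G : Type u) (_ : Group G) (_ : Finite G) (ι : ↥S →* G), F.IsRealizedBy ι := by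
  refine ⟨↥(parkGroup (fun D : Subgroup (↥S × ↥S) => Nat.card D * wt (graphFam F) D)),
    inferInstance, inferInstance, parkIota _, ?_, ?_⟩
  · apply parkIota_injective (graphFam F) (diagSub S) (diagSub_mem F)
    intro a ha
    exact ha
  · intro P hP φ hφS
    constructor
    · intro hφ
      have hfinP : Finite P := finite_of_le hP
      have hinj : Function.Injective (φ.codRestrict S hφS) :=
        fun a b hab => F.injective_of_mem hφ (congrArg Subtype.val hab)
      obtain ⟨g, hg⟩ := park_forward (graphFam F) (graphFam_conj F) (graphFam_sub F)
        (Subgroup.inclusion hP) (φ.codRestrict S hφS) (Subgroup.inclusion_injective hP) hinj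
        (graphFam_pull F hP hφ hφS)
      exact ⟨g, fun x => hg x⟩
    · rintro ⟨g, hg⟩
      obtain ⟨D', hD', h⟩ := park_converse (graphFam F) (graphFam_conj F)
        (Subgroup.inclusion hP) (φ.codRestrict S hφS) (diagSub S) (diagSub_mem F)
        (fun x => rfl) g (fun x => hg x)
      exact hom_of_graph F hP hφS D' hD' h

end Cfsg.Agent.S5328
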