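import Cfsg.Statements.S5331
import Cfsg.Agent.Helper27.FusChain
import Cfsg.Agent.Helper27.AbelianTwo

set_option autoImplicit false
open Cfsg

namespace Cfsg.Agent.S5331

open Cfsg.FusionSystem Cfsg.Agent.Helper27

/-- Let S be a finite abelian 2-group that is a direct product of cyclic groups of pairwise distinct orders 2^{a_1} < 2^{a_2} < ⋯ < 2^{a_n} (all a_i ≥ 1). Then every saturated fusion system over S is the inner one: its maps are exactly the conjugations by elements of S. -/
theorem result {Ω : Type*} [Group Ω] {S : Subgroup Ω} [Finite S] (n : ℕ) (a : Fin n → ℕ) (ha : StrictMono a) (ha1 : ∀ i, 1 ≤ a i) (e : ↥S ≃* Multiplicative ((i : Fin n) → ZMod (2 ^ a i))) (F : Cfsg.FusionSystem S) (hF : F.IsSaturated 2) (P : Subgroup Ω) : F.Hom P = (Cfsg.innerFusionSystem S).Hom P := by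
  have hcard : Nat.card S = 2 ^ (∑ i, a i) := by
    rw [Nat.card_congr e.toEquiv, Nat.card_congr Multiplicative.toAdd, Nat.card_pi]
    simp only [Nat.card_zmod]
    exact Finset.prod_pow_eq_pow_sum _ _ _
  have hS : IsPGroup 2 S := IsPGroup.of_card hcard
  have hcomm : ∀ x ∈ S, ∀ y ∈ S, x * y = y * x := by
    intro x hx y hy
    have h : (⟨x, hx⟩ : S) * ⟨y, hy⟩ = ⟨y, hy⟩ * ⟨x, hx⟩ := by
      apply e.injective
      rw [map_mul, map_mul, mul_comm]
    exact congrArg Subtype.val h
  apply eq_inner_of_pgroup hS hF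
  intro R hRn hRc hRr α hα
  have hRS : R = S := by
    apply le_antisymm hRn.1
    have h := hRc.2 R (isConj_refl F hRn.1)
    intro x hx
    apply h
    rw [mem_centralizerIn]
    exact ⟨hx, fun y hy => hcomm y (hRn.1 hy) x hx⟩
  subst hRS
  exact mulAut_pow_two_of_distinct_invariants n a ha ha1 e α

end Cfsg.Agent.S5331
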