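import Cfsg.Statements.S5521
import Cfsg.Agent.Helper3.M24Trans

set_option autoImplicit false
open Cfsg

namespace Cfsg.Agent.S5521

open Cfsg.Agent.Helper3

/-- the pointwise stabilizer of five points has 48 elements -/
theorem card_stab5 (x : Fin 5 ↪ GolayPt) :
    Nat.card (MulAction.stabilizer M24 x) = 48 := by
  have h1 := @MulAction.index_stabilizer_of_transitive M24 _ _ _ x M24_five_trans
  have h2 := Subgroup.card_mul_index (MulAction.stabilizer M24 x)
  have h3 : Nat.card (Fin 5 ↪ GolayPt) = 5100480 := by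
    rw [Nat.card_eq_fintype_card, Fintype.card_embedding_eq]
    simp [GolayPt]
  rw [h1, h3, M24_card] at h2
  omega

/-- five points and a sixth are fixed by a nontrivial element -/
theorem exists_fix6 (x : Fin 5 ↪ GolayPt) (q : GolayPt) :
    ∃ g ∈ M24, g ≠ 1 ∧ (∀ i, g (x i) = x i) ∧ g q = q := by
  have h48 := card_stab5 x
  have h1 := Subgroup.card_mul_index (MulAction.stabilizer (MulAction.stabilizer M24 x) q)
  rw [MulAction.index_stabilizer, h48] at h1
  have h2 : (MulAction.orbit (MulAction.stabilizer M24 x) q).ncard ≤ 24 := by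
    have h := Set.ncard_le_card (MulAction.orbit (MulAction.stabilizer M24 x) q)
    have h' : Nat.card GolayPt = 24 := by
      rw [Nat.card_eq_fintype_card]; simp [GolayPt]
    omega
  have h3 : 1 < Nat.card (MulAction.stabilizer (MulAction.stabilizer M24 x) q) := by
    by_contra hcon
    have h4 : Nat.card (MulAction.stabilizer (MulAction.stabilizer M24 x) q) ≤ 1 := by omega
    have h5 : Nat.card (MulAction.stabilizer (MulAction.stabilizer M24 x) q)
        * (MulAction.orbit (MulAction.stabilizer M24 x) q).ncard ≤ 1 * 24 :=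
      Nat.mul_le_mul h4 h2
    omega
  have : Finite (MulAction.stabilizer (MulAction.stabilizer M24 x) q) :=
    Nat.finite_of_card_ne_zero (by omega)
  have h4 := (Finite.one_lt_card_iff_nontrivial).mp h3
  obtain ⟨k, hk⟩ := exists_ne (1 : MulAction.stabilizer (MulAction.stabilizer M24 x) q)
  refine ⟨((k : MulAction.stabilizer M24 x) : M24), ((k : MulAction.stabilizer M24 x) : M24).2,
    ?_, ?_, ?_⟩
  · intro h
    apply hk
    apply Subtype.ext
    apply Subtype.ext
    apply Subtype.ext
    exact h
  · intro i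
    have hx := (k : MulAction.stabilizer M24 x).2
    rw [MulAction.mem_stabilizer_iff] at hx
    have := congrArg (fun y : Fin 5 ↪ GolayPt => y i) hx
    exact this
  · have hq := k.2
    rw [MulAction.mem_stabilizer_iff] at hq
    exact hq


/-- The Mathieu group M₂₄ in its natural action on the 24 coordinate positions of the binary Golay code has minimal base size exactly 7: every set of at most 6 positions is fixed pointwise by some non-identity element of M₂₄, while some set of 7 positions is fixed pointwise only by the identity. -/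
theorem result :
    (∀ B : Finset Cfsg.GolayPt, B.card ≤ 6 → ∃ g ∈ Cfsg.M24, g ≠ 1 ∧ ∀ b ∈ B, g b = b) ∧
    (∃ B : Finset Cfsg.GolayPt, B.card = 7 ∧ ∀ g ∈ Cfsg.M24, (∀ b ∈ B, g b = b) → g = 1) := by
  constructor
  · intro B hB
    obtain ⟨B', hBB', hB'6⟩ := Finset.exists_superset_card_eq hB
      (by simp [GolayPt])
    have hne : B'.Nonempty := by rw [← Finset.card_pos]; omega
    obtain ⟨q, hq⟩ := hne
    have h5 : (B'.erase q).card = 5 := by rw [Finset.card_erase_of_mem hq, hB'6]
    let e := Finset.equivFinOfCardEq h5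
    let x : Fin 5 ↪ GolayPt := ⟨fun i => (e.symm i : GolayPt),
      fun i j hij => e.symm.injective (Subtype.ext hij)⟩
    obtain ⟨g, hg, hg1, hgx, hgq⟩ := exists_fix6 x q
    refine ⟨g, hg, hg1, fun b hb => ?_⟩
    by_cases hbq : b = q
    · rw [hbq]; exact hgq
    · have hb' : b ∈ B'.erase q := Finset.mem_erase.mpr ⟨hbq, hBB' hb⟩
      have hxb : x (e ⟨b, hb'⟩) = b := by
        show ((e.symm (e ⟨b, hb'⟩) : B'.erase q) : GolayPt) = b
        rw [Equiv.symm_apply_apply]
      rw [← hxb]
      exact hgx _
  · refine ⟨{Cfsg.Agent.Helper3.pt 23, Cfsg.Agent.Helper3.pt 0, Cfsg.Agent.Helper3.pt 1,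
      Cfsg.Agent.Helper3.pt 2, Cfsg.Agent.Helper3.pt 3, Cfsg.Agent.Helper3.pt 5,
      Cfsg.Agent.Helper3.pt 4}, by decide, ?_⟩
    intro g hg hfix
    apply Cfsg.Agent.Helper3.fix7_trivial g
    rw [Cfsg.Agent.Helper3.mem_fixN]
    refine ⟨hg, fun f hf => hfix _ ?_⟩
    simp only [List.mem_cons, List.not_mem_nil, or_false] at hf
    rcases hf with rfl | rfl | rfl | rfl | rfl | rfl | rfl <;> simp

end Cfsg.Agent.S5521
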