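import Cfsg.Statements.S5562

set_option autoImplicit false
open Cfsg

namespace Cfsg.Agent.S5562

variable {G : Type*} [Group G]

lemma inv_of_sq {g : G} (h : g * g = 1) : g⁻¹ = g := inv_eq_of_mul_eq_one_left h

lemma conj_sq (e y : G) (he : e * e = 1) : (y * e * y⁻¹) * (y * e * y⁻¹) = 1 := by
  calc (y * e * y⁻¹) * (y * e * y⁻¹) = y * (e * e) * y⁻¹ := by group
    _ = 1 := by rw [he]; group

lemma key (e f y : G) (he : e * e = 1) (hy1 : y * e * y⁻¹ = f) (hy2 : y * f * y⁻¹ = e) (k : ℕ)
    (hk : (e * f) ^ (2 * k + 1) = 1) :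
    y * (e * (e * f) ^ (k + 1)) * y⁻¹ = e * (e * f) ^ (k + 1) := by
  have hf : f * f = 1 := by rw [← hy1]; exact conj_sq e y he
  have hfe : f * e = (e * f)⁻¹ := by rw [mul_inv_rev, inv_of_sq he, inv_of_sq hf]
  have h0 : y * (e * f) * y⁻¹ = f * e := by
    calc y * (e * f) * y⁻¹ = (y * e * y⁻¹) * (y * f * y⁻¹) := by group
      _ = f * e := by rw [hy1, hy2]
  have h1 : y * (e * (e * f) ^ (k + 1)) * y⁻¹ = f * (f * e) ^ (k + 1) := by
    calc y * (e * (e * f) ^ (k + 1)) * y⁻¹
        = (y * e * y⁻¹) * (y * (e * f) * y⁻¹) ^ (k + 1) := by rw [conj_pow]; group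
      _ = f * (f * e) ^ (k + 1) := by rw [hy1, h0]
  rw [h1, hfe, inv_pow, mul_inv_eq_iff_eq_mul, mul_assoc, ← pow_add]
  have h2 : k + 1 + (k + 1) = (2 * k + 1) + 1 := by ring
  rw [h2, pow_succ, hk, one_mul, ← mul_assoc, he, one_mul]

theorem result {G : Type*} [Group G] [Finite G] (d : G) (hd : orderOf d = 2)
    (hodd : ∀ a ∈ conjugatesOf d, ∀ b ∈ conjugatesOf d, Odd (orderOf (a * b)))
    (x : G) (hx : orderOf x = 2) :
    ∀ e ∈ conjugatesOf d,
      ∃! a : G, a ∈ conjugatesOf d ∧ Commute a x ∧ Commute e (a * x) := by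
  intro e he
  have hdd : d * d = 1 := by
    have := pow_orderOf_eq_one d
    rw [hd, pow_two] at this; exact this
  have hxx : x * x = 1 := by
    have := pow_orderOf_eq_one x
    rw [hx, pow_two] at this; exact this
  have sq_of_mem : ∀ b ∈ conjugatesOf d, b * b = 1 := by
    intro b hb
    have hb' : IsConj d b := hb
    rw [isConj_iff] at hb'
    obtain ⟨c, rfl⟩ := hb'
    exact conj_sq d c hdd
  have conj_mem : ∀ b ∈ conjugatesOf d, ∀ c : G, c * b * c⁻¹ ∈ conjugatesOf d := by
    intro b hb c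
    have hb' : IsConj d b := hb
    exact hb'.trans (isConj_iff.mpr ⟨c, rfl⟩)
  have hee : e * e = 1 := sq_of_mem e he
  set f := x * e * x⁻¹ with hf
  have hfmem : f ∈ conjugatesOf d := conj_mem e he x
  have hxf : x * f * x⁻¹ = e := by
    rw [hf]
    calc x * (x * e * x⁻¹) * x⁻¹ = (x * x) * e * (x * x)⁻¹ := by group
      _ = e := by rw [hxx]; group
  obtain ⟨k, hk⟩ := hodd e he f hfmem
  have hpow : (e * f) ^ (2 * k + 1) = 1 := by rw [← hk]; exact pow_orderOf_eq_one _
  set s := (e * f) ^ (k + 1) with hs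
  have hff : f * f = 1 := sq_of_mem f hfmem
  have hss : s * s = e * f := by
    rw [hs, ← pow_add]
    have h2 : k + 1 + (k + 1) = (2 * k + 1) + 1 := by ring
    rw [h2, pow_succ, hpow, one_mul]
  -- e * ρ^n = (ρ^n)⁻¹ * e
  have hsemi : ∀ n : ℕ, e * (e * f) ^ n = ((e * f) ^ n)⁻¹ * e := by
    intro n
    have h : SemiconjBy e (e * f) (e * f)⁻¹ := by
      unfold SemiconjBy
      rw [mul_inv_rev, inv_of_sq hee, inv_of_sq hff, ← mul_assoc, hee, one_mul, mul_assoc, hee,
        mul_one]
    have := h.pow_right n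
    unfold SemiconjBy at this
    rw [this, inv_pow]
  set a := e * s with ha
  have haa : a * a = 1 := by
    calc a * a = (e * s) * (e * s) := rfl
      _ = (s⁻¹ * e) * (e * s) := by rw [hs, hsemi (k + 1)]
      _ = s⁻¹ * (e * e) * s := by group
      _ = 1 := by rw [hee]; group
  have hae : a * e * a⁻¹ = f := by
    rw [inv_of_sq haa]
    calc a * e * a = e * s * e * (e * s) := rfl
      _ = e * s * (e * e) * s := by group
      _ = e * (s * s) := by rw [hee]; group
      _ = f := by rw [hss, ← mul_assoc, hee, one_mul]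
  have haf : a * f * a⁻¹ = e := by
    rw [← hae]
    calc a * (a * e * a⁻¹) * a⁻¹ = (a * a) * e * (a * a)⁻¹ := by group
      _ = e := by rw [haa]; group
  have hamem : a ∈ conjugatesOf d := by
    -- a = t⁻¹ * e * t with t = s^(k+1)
    have hN : (e * f) ^ ((k + 1) * (k + 1) + (k + 1) * (k + 1)) = s := by
      have h3 : (k + 1) * (k + 1) + (k + 1) * (k + 1) = (2 * k + 1) * (k + 1) + (k + 1) := by ring
      rw [h3, pow_add, pow_mul, hpow, one_pow, one_mul]
    have ht : a = ((e * f) ^ ((k + 1) * (k + 1)))⁻¹ * e * ((e * f) ^ ((k + 1) * (k + 1)))⁻¹⁻¹ := by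
      rw [inv_inv, ← hsemi ((k + 1) * (k + 1)), mul_assoc, ← pow_add, hN]
    rw [ht]
    exact conj_mem e he _
  have hax : x * a * x⁻¹ = a := key e f x hee rfl hxf k hpow
  refine ⟨a, ⟨hamem, ?_, ?_⟩, ?_⟩
  · -- Commute a x
    unfold Commute SemiconjBy
    calc a * x = (x * a * x⁻¹) * x := by rw [hax]
      _ = x * a := by group
  · -- Commute e (a * x)
    unfold Commute SemiconjBy
    have h : (a * x) * e * (a * x)⁻¹ = e := by
      calc (a * x) * e * (a * x)⁻¹ = a * (x * e * x⁻¹) * a⁻¹ := by group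
        _ = e := haf
    calc e * (a * x) = ((a * x) * e * (a * x)⁻¹) * (a * x) := by rw [h]
      _ = a * x * e := by group
  · rintro a' ⟨ha'mem, ha'x, ha'e⟩
    have ha'a' : a' * a' = 1 := sq_of_mem a' ha'mem
    have h1 : a' * e * a'⁻¹ = f := by
      have h := ha'e.eq
      -- e * (a' * x) = a' * x * e
      have : a'⁻¹ * e * a' = x * e * x⁻¹ := by
        calc a'⁻¹ * e * a' = a'⁻¹ * (e * (a' * x)) * x⁻¹ := by group
          _ = a'⁻¹ * (a' * x * e) * x⁻¹ := by rw [h]
          _ = x * e * x⁻¹ := by group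
      rw [hf, ← this, inv_of_sq ha'a']
    have h2 : a' * f * a'⁻¹ = e := by
      rw [← h1]
      calc a' * (a' * e * a'⁻¹) * a'⁻¹ = (a' * a') * e * (a' * a')⁻¹ := by group
        _ = e := by rw [ha'a']; group
    have h3 : a' * a * a'⁻¹ = a := key e f a' hee h1 h2 k hpow
    have hcomm : a' * a = a * a' := by
      calc a' * a = (a' * a * a'⁻¹) * a' := by group
        _ = a * a' := by rw [h3]
    have hsq : (a' * a) ^ 2 = 1 := by
      rw [pow_two]
      calc a' * a * (a' * a) = a' * (a * a') * a := by group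
        _ = a' * (a' * a) * a := by rw [hcomm]
        _ = (a' * a') * (a * a) := by group
        _ = 1 := by rw [ha'a', haa, one_mul]
    have hord : orderOf (a' * a) ∣ 2 := orderOf_dvd_of_pow_eq_one hsq
    have hoddo : Odd (orderOf (a' * a)) := hodd a' ha'mem a hamem
    have hone : orderOf (a' * a) = 1 := by
      rcases (Nat.dvd_prime Nat.prime_two).mp hord with h | h
      · exact h
      · rw [h] at hoddo; exact absurd hoddo (by decide)
    rw [orderOf_eq_one_iff] at hone
    calc a' = a' * (a * a) := by rw [haa, mul_one]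
      _ = (a' * a) * a := by group
      _ = a := by rw [hone, one_mul]

end Cfsg.Agent.S5562
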