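import Cfsg.Statements.S5729
-- import your own Cfsg.Agent.* helpers here

set_option autoImplicit false
open Cfsg

namespace Cfsg.Agent.S5729


theorem burn {G X : Type*} [Group G] [Fintype G] [MulAction G X] [Finite X] :
    (∑ g : G, Nat.card (MulAction.fixedBy X g)) =
      Nat.card (MulAction.orbitRel.Quotient G X) * Nat.card G := by
  classical
  have : Fintype X := Fintype.ofFinite X
  have : ∀ g : G, Fintype (MulAction.fixedBy X g) := fun g => Fintype.ofFinite _
  have : Fintype (MulAction.orbitRel.Quotient G X) := Fintype.ofFinite _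
  have h := MulAction.sum_card_fixedBy_eq_card_orbits_mul_card_group G X
  simp only [Nat.card_eq_fintype_card]
  convert h

/-- Let a finite group G act faithfully and transitively on a set with n ≥ 3 points. Then either G is a Frobenius permutation group (Frobenius as a permutation group: transitive, some non-identity element fixes a point, and no non-identity element fixes two points) of order n(n − 1) and exactly |G|/n of its elements are derangements (fix no point), or the number of derangements is greater than |G|/n. -/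
theorem result {G Ω : Type*} [Group G] [Finite G] [MulAction G Ω] [FaithfulSMul G Ω] [Fintype Ω] (htr : MulAction.IsPretransitive G Ω) (hn : 3 ≤ Fintype.card Ω) :
    ((MulAction.IsPretransitive G Ω ∧ (∃ g : G, g ≠ 1 ∧ ∃ ω : Ω, g • ω = ω) ∧ ∀ g : G, g ≠ 1 → Nat.card (MulAction.fixedBy Ω g) ≤ 1) ∧ Nat.card G = Fintype.card Ω * (Fintype.card Ω - 1) ∧ Fintype.card Ω * Nat.card {g : G // ∀ ω : Ω, g • ω ≠ ω} = Nat.card G) ∨
    Nat.card G < Fintype.card Ω * Nat.card {g : G // ∀ ω : Ω, g • ω ≠ ω} := by
  classical
  have : Fintype G := Fintype.ofFinite G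
  set n : ℕ := Fintype.card Ω with hn_def
  set f : G → ℕ := fun g => Nat.card (MulAction.fixedBy Ω g) with hf
  obtain ⟨a⟩ : Nonempty Ω := Fintype.card_pos_iff.mp (by omega)
  have hA : (∑ g : G, f g) = Nat.card G := by
    have h := burn (G := G) (X := Ω)
    have h1 : Nat.card (MulAction.orbitRel.Quotient G Ω) = 1 := by
      have : Subsingleton (MulAction.orbitRel.Quotient G Ω) :=
        (MulAction.pretransitive_iff_subsingleton_quotient G Ω).1 htr
      have : Nonempty (MulAction.orbitRel.Quotient G Ω) := ⟨Quotient.mk'' a⟩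
      exact Nat.card_eq_one_iff_unique.mpr ⟨inferInstance, inferInstance⟩
    rw [h1, one_mul] at h
    exact h
  have hfix2 : ∀ g : G, Nat.card (MulAction.fixedBy (Ω × Ω) g) = f g * f g := by
    intro g
    have hset : MulAction.fixedBy (Ω × Ω) g =
        (MulAction.fixedBy Ω g) ×ˢ (MulAction.fixedBy Ω g) := by
      ext ⟨x, y⟩
      simp [MulAction.mem_fixedBy, Prod.ext_iff]
    rw [hset, Nat.card_congr (Equiv.Set.prod _ _), Nat.card_prod]
  have hB : 2 * Nat.card G ≤ ∑ g : G, f g * f g := by
    have h := burn (G := G) (X := Ω × Ω)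
    simp only [hfix2] at h
    rw [h]
    have h2 : 2 ≤ Nat.card (MulAction.orbitRel.Quotient G (Ω × Ω)) := by
      obtain ⟨b, hb⟩ : ∃ b : Ω, b ≠ a := by
        by_contra hcon
        push Not at hcon
        have : Fintype.card Ω ≤ 1 :=
          Fintype.card_le_one_iff.mpr (fun x y => by rw [hcon x, hcon y])
        omega
      have : Nontrivial (MulAction.orbitRel.Quotient G (Ω × Ω)) := by
        refine ⟨⟨Quotient.mk'' (a, a), Quotient.mk'' (a, b), ?_⟩⟩
        intro heq
        rw [Quotient.eq''] at heq
        rw [MulAction.orbitRel_apply] at heq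
        obtain ⟨g, hg⟩ := heq
        have h1 : g • a = a := congrArg Prod.fst hg
        have h2 : g • b = a := congrArg Prod.snd hg
        exact hb (MulAction.injective g (h2.trans h1.symm))
      exact Finite.one_lt_card_iff_nontrivial.mpr this
    exact Nat.mul_le_mul_right _ h2
  have hle : ∀ g : G, f g ≤ n := fun g => by
    have := Nat.card_le_card_of_injective (Subtype.val : MulAction.fixedBy Ω g → Ω)
      Subtype.val_injective
    rw [Nat.card_eq_fintype_card (α := Ω)] at this
    exact this
  have hone : f 1 = n := by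
    show Nat.card (MulAction.fixedBy Ω (1 : G)) = n
    have : MulAction.fixedBy Ω (1 : G) = Set.univ := by
      ext x; simp [MulAction.mem_fixedBy]
    rw [this, Nat.card_congr (Equiv.Set.univ Ω), Nat.card_eq_fintype_card]
  have hfn : ∀ g : G, f g = n → g = 1 := by
    intro g hg
    have hbij := Function.Injective.bijective_of_nat_card_le
      (f := (Subtype.val : MulAction.fixedBy Ω g → Ω)) Subtype.val_injective
      (by rw [Nat.card_eq_fintype_card]; exact hg.ge)
    apply FaithfulSMul.eq_of_smul_eq_smul (α := Ω)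
    intro ω
    obtain ⟨x, rfl⟩ := hbij.2 ω
    rw [one_smul]; exact x.2
  have hf0 : ∀ g : G, f g = 0 ↔ ∀ ω : Ω, g • ω ≠ ω := by
    intro g
    constructor
    · intro h ω hω
      have : 0 < f g := Finite.card_pos_iff.mpr ⟨⟨ω, hω⟩⟩
      omega
    · intro h
      by_contra h0
      have : 0 < f g := Nat.pos_of_ne_zero h0
      obtain ⟨⟨ω, hω⟩⟩ := Finite.card_pos_iff.mp this
      exact h ω hω
  have hD : Nat.card {g : G // ∀ ω : Ω, g • ω ≠ ω} =
      ∑ g : G, (if f g = 0 then 1 else 0) := by
    rw [Nat.card_eq_fintype_card, Fintype.card_subtype, Finset.card_filter]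
    refine Finset.sum_congr rfl (fun g _ => ?_)
    simp only [hf0]
  set D := Nat.card {g : G // ∀ ω : Ω, g • ω ≠ ω} with hDdef
  set N := Nat.card G with hNdef
  have hAz : (∑ g : G, (f g : ℤ)) = N := by exact_mod_cast hA
  have hBz : 2 * (N : ℤ) ≤ ∑ g : G, (f g : ℤ) * (f g : ℤ) := by exact_mod_cast hB
  have hDz : (D : ℤ) = ∑ g : G, (if f g = 0 then (1 : ℤ) else 0) := by
    rw [hD]; push_cast; rfl
  have hcardG : (Fintype.card G : ℤ) = N := by
    rw [hNdef, Nat.card_eq_fintype_card]
  have hterm : ∀ g : G, ((f g : ℤ) - 1) * ((f g : ℤ) - n) ≤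
      (n : ℤ) * (if f g = 0 then 1 else 0) := by
    intro g
    by_cases h0 : f g = 0
    · simp [h0]
    · simp only [h0, if_false, mul_zero]
      have h1 : (1 : ℤ) ≤ f g := by exact_mod_cast Nat.pos_of_ne_zero h0
      have h2 : (f g : ℤ) ≤ n := by exact_mod_cast hle g
      nlinarith
  have hsum : ∑ g : G, (((f g : ℤ) - 1) * ((f g : ℤ) - n)) =
      (∑ g : G, (f g : ℤ) * (f g : ℤ)) - ((n : ℤ) + 1) * (N : ℤ) + n * (N : ℤ) := by
    have : ∀ g : G, ((f g : ℤ) - 1) * ((f g : ℤ) - n) =
        (f g : ℤ) * (f g : ℤ) - ((n : ℤ) + 1) * (f g : ℤ) + n := fun g => by ring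
    simp only [this, Finset.sum_add_distrib, Finset.sum_sub_distrib, ← Finset.mul_sum,
      Finset.sum_const, Finset.card_univ, nsmul_eq_mul, hAz, hcardG]
    ring
  have hsumle : ∑ g : G, (((f g : ℤ) - 1) * ((f g : ℤ) - n)) ≤ (n : ℤ) * D := by
    rw [hDz, Finset.mul_sum]
    exact Finset.sum_le_sum (fun g _ => hterm g)
  have hNle : (N : ℤ) ≤ (n : ℤ) * D := by linarith
  by_cases hlt : N < n * D
  · right; exact hlt
  left
  have hNeq : N = n * D := by
    have : N ≤ n * D := by exact_mod_cast hNle
    omega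
  have hNeqz : (N : ℤ) = (n : ℤ) * D := by exact_mod_cast hNeq
  have hzero : ∀ g : G, (n : ℤ) * (if f g = 0 then 1 else 0) -
      ((f g : ℤ) - 1) * ((f g : ℤ) - n) = 0 := by
    have hs : ∑ g : G, ((n : ℤ) * (if f g = 0 then 1 else 0) -
        ((f g : ℤ) - 1) * ((f g : ℤ) - n)) = 0 := by
      apply le_antisymm
      · rw [Finset.sum_sub_distrib, ← Finset.mul_sum, ← hDz, hsum]
        linarith
      · exact Finset.sum_nonneg (fun g _ => sub_nonneg.mpr (hterm g))
    intro g
    exact (Finset.sum_eq_zero_iff_of_nonneg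
      (fun g _ => sub_nonneg.mpr (hterm g))).mp hs g (Finset.mem_univ g)
  have hf01 : ∀ g : G, g ≠ 1 → f g ≤ 1 := by
    intro g hg
    by_cases h0 : f g = 0
    · omega
    · have hz := hzero g
      simp only [h0, if_false, mul_zero, zero_sub, neg_eq_zero, mul_eq_zero] at hz
      rcases hz with h | h
      · have h' : (f g : ℤ) = 1 := by linarith
        have : f g = 1 := by exact_mod_cast h'
        omega
      · have h' : (f g : ℤ) = n := by linarith
        exact absurd (hfn g (by exact_mod_cast h')) hg
  have hid : ∀ g : G, (f g : ℤ) = 1 - (if f g = 0 then 1 else 0) +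
      ((n : ℤ) - 1) * (if g = 1 then 1 else 0) := by
    intro g
    by_cases hg : g = 1
    · subst hg
      have hn0 : n ≠ 0 := by omega
      simp [hone, hn0]
    · have h1 := hf01 g hg
      by_cases h0 : f g = 0
      · simp [h0, hg]
      · have : f g = 1 := by omega
        simp [this, hg]
  have he : ∑ g : G, (if g = 1 then (1 : ℤ) else 0) = 1 := by simp
  have hsumid : (N : ℤ) = N - D + ((n : ℤ) - 1) := by
    have h := Finset.sum_congr rfl (fun g (_ : g ∈ Finset.univ) => hid g)
    rw [hAz] at h
    rw [Finset.sum_add_distrib, Finset.sum_sub_distrib, ← Finset.mul_sum, he, ← hDz] at h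
    simp only [Finset.sum_const, Finset.card_univ, nsmul_eq_mul, hcardG] at h
    linarith
  have hDn : D = n - 1 := by
    have : (D : ℤ) = (n : ℤ) - 1 := by linarith
    omega
  refine ⟨⟨htr, ?_, ?_⟩, ?_, hNeq.symm⟩
  · by_contra hcon
    push Not at hcon
    have hd : ∀ g : G, (if f g = 0 then (1 : ℤ) else 0) = 1 - (if g = 1 then 1 else 0) := by
      intro g
      by_cases hg : g = 1
      · subst hg
        have hn0 : n ≠ 0 := by omega
        simp [hone, hn0]
      · have : f g = 0 := (hf0 g).mpr (hcon g hg)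
        simp [this, hg]
    have h := Finset.sum_congr rfl (fun g (_ : g ∈ Finset.univ) => hd g)
    rw [← hDz, Finset.sum_sub_distrib, he] at h
    simp only [Finset.sum_const, Finset.card_univ, nsmul_eq_mul, hcardG] at h
    have hD1 : (D : ℤ) = N - 1 := by linarith
    have hn3 : (3 : ℤ) ≤ n := by exact_mod_cast hn
    have hDz' : (D : ℤ) = (n : ℤ) - 1 := by linarith
    nlinarith
  · intro g hg
    exact hf01 g hg
  · rw [hNeq, hDn]

end Cfsg.Agent.S5729
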