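import Cfsg.Statements.S5739
-- import your own Cfsg.Agent.* helpers here

set_option autoImplicit false
open Cfsg

namespace Cfsg.Agent.S5739


/-- The set of `x` with `lmul x` in the `g`-conjugate of the image of `lmul`, as a subalgebra. -/
def conjSub {F K : Type*} [Field F] [Field K] [Algebra F K] (g : (Module.End F K)ˣ) :
    Subalgebra F K where
  carrier := {x | ∃ y : K, (g : Module.End F K) * Algebra.lmul F K y *
    ((g⁻¹ : (Module.End F K)ˣ) : Module.End F K) = Algebra.lmul F K x}
  mul_mem' := by
    rintro a b ⟨y1, h1⟩ ⟨y2, h2⟩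
    refine ⟨y1 * y2, ?_⟩
    rw [map_mul, map_mul, ← h1, ← h2]
    simp only [mul_assoc, Units.inv_mul_cancel_left]
  one_mem' := ⟨1, by rw [map_one, mul_one, Units.mul_inv]⟩
  add_mem' := by
    rintro a b ⟨y1, h1⟩ ⟨y2, h2⟩
    exact ⟨y1 + y2, by rw [map_add, map_add, ← h1, ← h2, mul_add, add_mul]⟩
  zero_mem' := ⟨0, by simp⟩
  algebraMap_mem' := by
    intro r
    refine ⟨algebraMap F K r, ?_⟩
    rw [AlgHom.commutes, ← Algebra.commutes, mul_assoc, Units.mul_inv, mul_one]

abbrev singer (F K : Type*) [Field F] [Field K] [Algebra F K] : Subgroup (Module.End F K)ˣ :=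
  (Units.map ((Algebra.lmul F K : K →ₐ[F] Module.End F K) : K →* Module.End F K)).range

theorem mem_singer_iff {F K : Type*} [Field F] [Field K] [Algebra F K]
    (e : (Module.End F K)ˣ) :
    e ∈ singer F K ↔ ∃ u : Kˣ, Algebra.lmul F K (u : K) = (e : Module.End F K) := by
  constructor
  · rintro ⟨u, rfl⟩; exact ⟨u, rfl⟩
  · rintro ⟨u, hu⟩; exact ⟨u, Units.ext hu⟩

theorem main {F K : Type*} [Field F] [Fintype F] [Field K] [Fintype K] [Algebra F K] (n : ℕ)
    (hdim : Module.finrank F K = n) (g : (Module.End F K)ˣ)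
    (hg : (singer F K).map (MulAut.conj g).toMonoidHom ≠ singer F K) :
    ∃ r : ℕ, 1 ≤ r ∧ r ∣ n ∧ r < n ∧
      Nat.card ↥((singer F K).map (MulAut.conj g).toMonoidHom ⊓ singer F K) ∣
        Fintype.card F ^ r - 1 := by
  classical
  have hfinEnd : Finite (Module.End F K) :=
    Finite.of_injective (fun f : Module.End F K => (f : K → K)) DFunLike.coe_injective
  let L : IntermediateField F K := subalgebraEquivIntermediateField (conjSub g)
  have hmemL : ∀ x : K, x ∈ L ↔ ∃ y : K, (g : Module.End F K) * Algebra.lmul F K y *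
      ((g⁻¹ : (Module.End F K)ˣ) : Module.End F K) = Algebra.lmul F K x := fun x => Iff.rfl
  have htower : Module.finrank F L * Module.finrank L K = Module.finrank F K :=
    Module.finrank_mul_finrank F L K
  have hrpos : 1 ≤ Module.finrank F L := Module.finrank_pos
  refine ⟨Module.finrank F L, hrpos, ?_, ?_, ?_⟩
  · rw [← hdim, ← htower]; exact dvd_mul_right _ _
  · by_contra hnot
    have hle : Module.finrank F L ≤ n := by
      rw [← hdim, ← htower]; exact Nat.le_mul_of_pos_right _ Module.finrank_pos
    have heq : Module.finrank F L = Module.finrank F K := by omega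
    have htop : ∀ x : K, x ∈ L := by
      have h1 : (L.toSubalgebra.toSubmodule) = ⊤ := Submodule.eq_top_of_finrank_eq heq
      intro x
      have h2 : x ∈ L.toSubalgebra.toSubmodule := by rw [h1]; trivial
      exact h2
    apply hg
    symm
    apply Subgroup.eq_of_le_of_card_ge
    · intro e he
      obtain ⟨u, hu⟩ := (mem_singer_iff e).mp he
      obtain ⟨y, hy⟩ := (hmemL u).mp (htop u)
      have hy0 : y ≠ 0 := by
        rintro rfl
        rw [map_zero, mul_zero, zero_mul] at hy
        have h3 : (u : K) = 0 := Algebra.lmul_injective (R := F) (by rw [← hy, map_zero])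
        exact u.ne_zero h3
      refine ⟨Units.map ((Algebra.lmul F K : K →ₐ[F] Module.End F K) : K →* Module.End F K)
        (Units.mk0 y hy0), ⟨_, rfl⟩, ?_⟩
      apply Units.ext
      rw [← hu, ← hy]
      simp [MulAut.conj_apply]
    · rw [Subgroup.card_map_of_injective (MulAut.conj g).injective]
  · let ψ : Lˣ →* (Module.End F K)ˣ :=
      Units.map (((Algebra.lmul F K : K →ₐ[F] Module.End F K) : K →* Module.End F K).comp
        (L.val : L →* K))
    have hψinj : Function.Injective ψ := by
      apply Units.map_injective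
      intro a b hab
      exact Subtype.ext (Algebra.lmul_injective (R := F) hab)
    have hle : (singer F K).map (MulAut.conj g).toMonoidHom ⊓ singer F K ≤ ψ.range := by
      rintro e ⟨⟨m, hm, hme⟩, he2⟩
      obtain ⟨v, hv⟩ := (mem_singer_iff m).mp hm
      obtain ⟨u, hu⟩ := (mem_singer_iff e).mp he2
      have huL : (u : K) ∈ L := by
        rw [hmemL]
        refine ⟨v, ?_⟩
        rw [hu, hv, ← hme]
        simp [MulAut.conj_apply]
      refine ⟨Units.mk0 ⟨(u : K), huL⟩
        (by intro h; exact u.ne_zero (congrArg Subtype.val h)), ?_⟩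
      apply Units.ext
      rw [← hu]
      rfl
    have h1 := Subgroup.card_dvd_of_le hle
    have h2 : Nat.card ψ.range = Nat.card Lˣ :=
      Nat.card_congr (MonoidHom.ofInjective hψinj).toEquiv.symm
    rw [h2, Nat.card_units] at h1
    have h3 : Nat.card L = Fintype.card F ^ Module.finrank F L := by
      rw [Module.natCard_eq_pow_finrank (K := F) (V := L), Nat.card_eq_fintype_card]
    rw [h3] at h1
    exact h1

/-- Let F ⊆ K be finite fields with |F| = q and [K : F] = n ≥ 2, and let M ≤ GL_F(K) be the Singer group of multiplications by non-zero elements of K. If g ∈ GL_F(K) does not normalise M, then the order of M ∩ gMg⁻¹ divides q^r − 1 for some proper divisor r of n. In particular, when n is prime, that order divides q − 1. -/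
theorem result {F K : Type*} [Field F] [Fintype F] [Field K] [Fintype K] [Algebra F K] (n : ℕ) (hn : 2 ≤ n) (hdim : Module.finrank F K = n)
    (g : (Module.End F K)ˣ) (hg : ((Units.map ((Algebra.lmul F K : K →ₐ[F] Module.End F K) : K →* Module.End F K)).range).map (MulAut.conj g).toMonoidHom ≠ (Units.map ((Algebra.lmul F K : K →ₐ[F] Module.End F K) : K →* Module.End F K)).range) :
    ∃ r : ℕ, 1 ≤ r ∧ r ∣ n ∧ r < n ∧ Nat.card ↥(((Units.map ((Algebra.lmul F K : K →ₐ[F] Module.End F K) : K →* Module.End F K)).range).map (MulAut.conj g).toMonoidHom ⊓ (Units.map ((Algebra.lmul F K : K →ₐ[F] Module.End F K) : K →* Module.End F K)).range) ∣ Fintype.card F ^ r - 1 := by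
  exact main n hdim g hg

end Cfsg.Agent.S5739
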