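import Cfsg.Statements.S5738
-- import your own Cfsg.Agent.* helpers here
import Cfsg.Agent.S5739

set_option autoImplicit false
open Cfsg

namespace Cfsg.Agent.S5738


open Cfsg.Agent.S5739 (singer mem_singer_iff)

/-- A field automorphism as a unit of the endomorphism ring. -/
def autUnit {F K : Type*} [Field F] [Field K] [Algebra F K] (σ : K ≃ₐ[F] K) :
    (Module.End F K)ˣ where
  val := σ.toLinearMap
  inv := σ.symm.toLinearMap
  val_inv := by ext x; simp
  inv_val := by ext x; simp

theorem autUnit_apply {F K : Type*} [Field F] [Field K] [Algebra F K] (σ : K ≃ₐ[F] K) (x : K) :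
    ((autUnit σ : (Module.End F K)ˣ) : Module.End F K) x = σ x := rfl

theorem autUnit_inv {F K : Type*} [Field F] [Field K] [Algebra F K] (σ : K ≃ₐ[F] K) :
    (autUnit σ)⁻¹ = autUnit σ.symm := by
  apply Units.ext
  rfl

/-- Multiplication by a unit as a unit of the endomorphism ring. -/
abbrev mulUnit {F K : Type*} [Field F] [Field K] [Algebra F K] (c : Kˣ) : (Module.End F K)ˣ :=
  Units.map ((Algebra.lmul F K : K →ₐ[F] Module.End F K) : K →* Module.End F K) c

theorem mulUnit_apply {F K : Type*} [Field F] [Field K] [Algebra F K] (c : Kˣ) (x : K) :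
    ((mulUnit (F := F) c : (Module.End F K)ˣ) : Module.End F K) x = (c : K) * x := by
  simp [mulUnit]

theorem autUnit_conj {F K : Type*} [Field F] [Field K] [Algebra F K] (σ : K ≃ₐ[F] K) (y : Kˣ) :
    autUnit σ * mulUnit y * (autUnit σ)⁻¹ = mulUnit (F := F) (Units.map (σ : K →* K) y) := by
  apply Units.ext
  ext z
  rw [autUnit_inv, Units.val_mul, Units.val_mul, Module.End.mul_apply, Module.End.mul_apply,
    autUnit_apply, autUnit_apply, mulUnit_apply, mulUnit_apply, map_mul,
    AlgEquiv.apply_symm_apply]
  rfl

theorem autUnit_mem {F K : Type*} [Field F] [Field K] [Algebra F K] (σ : K ≃ₐ[F] K) :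
    autUnit σ ∈ Subgroup.normalizer (singer F K : Set (Module.End F K)ˣ) := by
  rw [Subgroup.mem_set_normalizer_iff]
  intro h
  constructor
  · rintro ⟨y, rfl⟩
    rw [autUnit_conj]
    exact ⟨_, rfl⟩
  · rintro ⟨x, hx⟩
    have h1 : h = autUnit σ.symm * mulUnit x * (autUnit σ.symm)⁻¹ := by
      have h2 : mulUnit x = autUnit σ * h * (autUnit σ)⁻¹ := hx
      rw [h2, autUnit_inv, autUnit_inv]
      have h3 : autUnit (F := F) σ.symm * autUnit σ = 1 := by
        rw [← autUnit_inv, inv_mul_cancel]
      have h4 : autUnit (F := F) σ.symm.symm = autUnit σ := rfl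
      rw [h4]
      calc h = (autUnit σ.symm * autUnit σ) * h * (autUnit σ.symm * autUnit σ) := by
            rw [h3, one_mul, mul_one]
        _ = autUnit σ.symm * (autUnit σ * h * autUnit σ.symm) * autUnit σ := by group
    rw [h1, autUnit_conj]
    exact ⟨_, rfl⟩

theorem one_ne {F K : Type*} [Field F] [Field K] [Algebra F K] (g : (Module.End F K)ˣ) :
    (g : Module.End F K) 1 ≠ 0 := by
  intro h0
  have h1 : ((g⁻¹ : (Module.End F K)ˣ) : Module.End F K) ((g : Module.End F K) 1) = 1 := by
    rw [← Module.End.mul_apply, ← Units.val_mul, inv_mul_cancel, Units.val_one,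
      Module.End.one_apply]
  rw [h0, map_zero] at h1
  exact zero_ne_one h1

theorem key {F K : Type*} [Field F] [Field K] [Algebra F K] (g : (Module.End F K)ˣ)
    (hg : g ∈ Subgroup.normalizer (singer F K : Set (Module.End F K)ˣ)) (y w : K) :
    (g : Module.End F K) (y * w) =
      ((g : Module.End F K) 1)⁻¹ * (g : Module.End F K) y * (g : Module.End F K) w := by
  by_cases hy : y = 0
  · subst hy; simp
  · rw [Subgroup.mem_set_normalizer_iff] at hg
    obtain ⟨x, hx⟩ := (hg (mulUnit (Units.mk0 y hy))).mp ⟨_, rfl⟩
    have hinv : ∀ z : K, ((g⁻¹ : (Module.End F K)ˣ) : Module.End F K) ((g : Module.End F K) z) = z := by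
      intro z
      rw [← Module.End.mul_apply, ← Units.val_mul, inv_mul_cancel, Units.val_one,
        Module.End.one_apply]
    have happ : ∀ z : K, (g : Module.End F K) (y * z) = (x : K) * (g : Module.End F K) z := by
      intro z
      have h2 := congrArg (fun e : (Module.End F K)ˣ => (e : Module.End F K) ((g : Module.End F K) z)) hx
      simp only [Units.val_mul, Module.End.mul_apply] at h2
      rw [hinv, mulUnit_apply, mulUnit_apply, Units.val_mk0] at h2
      exact h2.symm
    have h1 := happ 1
    rw [mul_one] at h1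
    have hx' : (x : K) = (g : Module.End F K) y * ((g : Module.End F K) 1)⁻¹ := by
      rw [h1, mul_assoc, mul_inv_cancel₀ (one_ne g), mul_one]
    rw [happ w, hx']
    ring

/-- The field automorphism attached to an element of the normalizer. -/
noncomputable def sigmaOf {F K : Type*} [Field F] [Field K] [Algebra F K]
    (g : (Module.End F K)ˣ)
    (hg : g ∈ Subgroup.normalizer (singer F K : Set (Module.End F K)ˣ)) : K ≃ₐ[F] K :=
  AlgEquiv.ofBijective
    (AlgHom.ofLinearMap
      ((Algebra.lmul F K ((g : Module.End F K) 1)⁻¹).comp (g : Module.End F K))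
      (by
        show ((g : Module.End F K) 1)⁻¹ * (g : Module.End F K) 1 = 1
        exact inv_mul_cancel₀ (one_ne g))
      (by
        intro x y
        show ((g : Module.End F K) 1)⁻¹ * (g : Module.End F K) (x * y) =
          ((g : Module.End F K) 1)⁻¹ * (g : Module.End F K) x *
            (((g : Module.End F K) 1)⁻¹ * (g : Module.End F K) y)
        rw [key g hg x y]; ring))
    (by
      constructor
      · intro x y hxy
        have h1 : ((g : Module.End F K) 1)⁻¹ * (g : Module.End F K) x =
            ((g : Module.End F K) 1)⁻¹ * (g : Module.End F K) y := hxy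
        have h2 : (g : Module.End F K) x = (g : Module.End F K) y :=
          mul_left_cancel₀ (inv_ne_zero (one_ne g)) h1
        have h3 := congrArg (fun z => ((g⁻¹ : (Module.End F K)ˣ) : Module.End F K) z) h2
        simp only [← Module.End.mul_apply, ← Units.val_mul, inv_mul_cancel, Units.val_one,
          Module.End.one_apply] at h3
        exact h3
      · intro y
        refine ⟨((g⁻¹ : (Module.End F K)ˣ) : Module.End F K) ((g : Module.End F K) 1 * y), ?_⟩
        show ((g : Module.End F K) 1)⁻¹ * (g : Module.End F K)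
          (((g⁻¹ : (Module.End F K)ˣ) : Module.End F K) ((g : Module.End F K) 1 * y)) = y
        rw [← Module.End.mul_apply, ← Units.val_mul, mul_inv_cancel, Units.val_one,
          Module.End.one_apply, ← mul_assoc, inv_mul_cancel₀ (one_ne g), one_mul])

theorem sigmaOf_apply {F K : Type*} [Field F] [Field K] [Algebra F K]
    (g : (Module.End F K)ˣ)
    (hg : g ∈ Subgroup.normalizer (singer F K : Set (Module.End F K)ˣ)) (x : K) :
    sigmaOf g hg x = ((g : Module.End F K) 1)⁻¹ * (g : Module.End F K) x := rfl

theorem sigmaOf_mul_aut {F K : Type*} [Field F] [Field K] [Algebra F K] (c : Kˣ)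
    (σ : K ≃ₐ[F] K)
    (h : mulUnit (F := F) c * autUnit σ ∈
      Subgroup.normalizer (singer F K : Set (Module.End F K)ˣ)) :
    sigmaOf (mulUnit c * autUnit σ) h = σ := by
  ext x
  have h1 : ((mulUnit (F := F) c * autUnit σ : (Module.End F K)ˣ) : Module.End F K) 1 =
      (c : K) := by
    rw [Units.val_mul, Module.End.mul_apply, autUnit_apply, mulUnit_apply, map_one, mul_one]
  rw [sigmaOf_apply, h1, Units.val_mul, Module.End.mul_apply, autUnit_apply, mulUnit_apply,
    ← mul_assoc, inv_mul_cancel₀ c.ne_zero, one_mul]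

/-- The normalizer of the Singer group as a set. -/
noncomputable def normEquiv {F K : Type*} [Field F] [Field K] [Algebra F K] :
    ↥(Subgroup.normalizer (singer F K : Set (Module.End F K)ˣ)) ≃ Kˣ × (K ≃ₐ[F] K) where
  toFun g := (Units.mk0 ((g.1 : Module.End F K) 1) (one_ne g.1), sigmaOf g.1 g.2)
  invFun p := ⟨mulUnit p.1 * autUnit p.2,
    (Subgroup.normalizer (singer F K : Set (Module.End F K)ˣ)).mul_mem
      (Subgroup.le_normalizer (H := singer F K) ⟨p.1, rfl⟩) (autUnit_mem p.2)⟩
  left_inv g := by
    apply Subtype.ext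
    apply Units.ext
    ext x
    show ((mulUnit (F := F) (Units.mk0 ((g.1 : Module.End F K) 1) (one_ne g.1)) *
      autUnit (sigmaOf g.1 g.2) : (Module.End F K)ˣ) : Module.End F K) x = (g.1 : Module.End F K) x
    rw [Units.val_mul, Module.End.mul_apply, autUnit_apply, mulUnit_apply, sigmaOf_apply,
      Units.val_mk0, ← mul_assoc, mul_inv_cancel₀ (one_ne g.1), one_mul]
  right_inv p := by
    have h1 : ((mulUnit (F := F) p.1 * autUnit p.2 : (Module.End F K)ˣ) : Module.End F K) 1 =
        (p.1 : K) := by
      rw [Units.val_mul, Module.End.mul_apply, autUnit_apply, mulUnit_apply, map_one, mul_one]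
    apply Prod.ext
    · apply Units.ext
      exact h1
    · exact sigmaOf_mul_aut p.1 p.2
        ((Subgroup.normalizer (singer F K : Set (Module.End F K)ˣ)).mul_mem
          (Subgroup.le_normalizer (H := singer F K) ⟨p.1, rfl⟩) (autUnit_mem p.2))

/-- Let F ⊆ K be finite fields with |F| = q and [K : F] = n ≥ 2, so |K| = q^n. Regard K as an n-dimensional F-vector space; the multiplications by non-zero elements of K form a cyclic subgroup of GL_F(K) of order q^n − 1 acting regularly on the non-zero vectors (a Singer group). Its normaliser in GL_F(K) has order n·(q^n − 1). -/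
theorem result {F K : Type*} [Field F] [Fintype F] [Field K] [Fintype K] [Algebra F K] (n : ℕ) (hn : 2 ≤ n) (hdim : Module.finrank F K = n) :
    Nat.card (Subgroup.normalizer (((Units.map ((Algebra.lmul F K : K →ₐ[F] Module.End F K) : K →* Module.End F K)).range : Subgroup (Module.End F K)ˣ) : Set (Module.End F K)ˣ)) = n * (Fintype.card K - 1) := by
  have h1 : Nat.card (Subgroup.normalizer (singer F K : Set (Module.End F K)ˣ)) =
      Nat.card (Kˣ × (K ≃ₐ[F] K)) := Nat.card_congr normEquiv
  rw [h1, Nat.card_prod, Nat.card_units, IsGalois.card_aut_eq_finrank, hdim,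
    Nat.card_eq_fintype_card, mul_comm]

end Cfsg.Agent.S5738
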