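import Cfsg.Statements.S5747
-- import your own Cfsg.Agent.* helpers here

set_option autoImplicit false
open Cfsg

namespace Cfsg.Agent.S5747


universe u v

/-- Irredundant base. -/
def IB {Ω : Type v} (G : Type u) [Group G] [MulAction G Ω] {t : ℕ} (f : Fin t → Ω) : Prop :=
  (∀ g : G, (∀ i : Fin t, g • f i = f i) → g = 1) ∧
    ∀ i : Fin t, ∃ g : G, (∀ j : Fin t, j < i → g • f j = f j) ∧ g • f i ≠ f i

theorem prune {Ω : Type v} {G : Type u} [Group G] [MulAction G Ω] {s : ℕ} (f : Fin s → Ω)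
    (hbase : ∀ g : G, (∀ i, g • f i = f i) → g = 1) :
    ∃ (k : ℕ) (emb : Fin k ↪o Fin s), IB G (f ∘ emb) ∧ k ≤ s ∧ (k = s → IB G f) := by
  classical
  let D : Finset (Fin s) := Finset.univ.filter
    (fun i => ∃ g : G, (∀ j, j < i → g • f j = f j) ∧ g • f i ≠ f i)
  refine ⟨D.card, D.orderEmbOfFin rfl, ⟨?_, ?_⟩, ?_, ?_⟩
  · intro g hg
    apply hbase
    have hD : ∀ j ∈ D, g • f j = f j := by
      intro j hj
      have h1 : j ∈ Set.range (D.orderEmbOfFin rfl) := by
        rw [Finset.range_orderEmbOfFin]; exact hj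
      obtain ⟨k, rfl⟩ := h1
      exact hg k
    have h2 : ∀ n (i : Fin s), i.val = n → g • f i = f i := by
      intro n
      induction n using Nat.strong_induction_on with
      | _ n ih =>
        intro i hi
        by_cases hiD : i ∈ D
        · exact hD i hiD
        · by_contra hne
          apply hiD
          rw [Finset.mem_filter]
          exact ⟨Finset.mem_univ _, g,
            fun j hj => ih j.val (by rw [← hi]; exact hj) j rfl, hne⟩
    intro i
    exact h2 i.val i rfl
  · intro k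
    have hk : D.orderEmbOfFin rfl k ∈ D := Finset.orderEmbOfFin_mem D rfl k
    obtain ⟨-, g, hg1, hg2⟩ := Finset.mem_filter.mp hk
    exact ⟨g, fun k' hk' => hg1 _ ((D.orderEmbOfFin rfl).lt_iff_lt.mpr hk'), hg2⟩
  · calc D.card ≤ (Finset.univ : Finset (Fin s)).card := Finset.card_le_card (Finset.subset_univ _)
      _ = s := by simp
  · intro hks
    have hDu : D = Finset.univ := by
      apply Finset.eq_univ_of_card
      rw [hks, Fintype.card_fin]
    refine ⟨hbase, fun i => ?_⟩
    have h1 : i ∈ D := by rw [hDu]; exact Finset.mem_univ _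
    obtain ⟨-, g, hg1, hg2⟩ := Finset.mem_filter.mp h1
    exact ⟨g, hg1, hg2⟩

theorem ib_cons {Ω : Type v} {G : Type u} [Group G] [MulAction G Ω] {r : ℕ} (b : Ω)
    (c : Fin r → Ω) :
    IB G (Fin.cons b c : Fin (r + 1) → Ω) ↔
      (∃ g : G, g • b ≠ b) ∧ IB (MulAction.stabilizer G b) c := by
  constructor
  · rintro ⟨hbase, hirr⟩
    refine ⟨?_, ?_, ?_⟩
    · obtain ⟨g, -, hg⟩ := hirr 0
      exact ⟨g, hg⟩
    · intro h hh
      have h1 : (h : G) = 1 := by
        apply hbase
        intro i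
        refine Fin.cases ?_ (fun j => ?_) i
        · exact h.2
        · exact hh j
      exact Subtype.ext h1
    · intro i
      obtain ⟨g, hg1, hg2⟩ := hirr i.succ
      have hgb : g • b = b := hg1 0 (Fin.succ_pos i)
      refine ⟨⟨g, hgb⟩, fun j hj => ?_, ?_⟩
      · exact hg1 j.succ (Fin.succ_lt_succ_iff.mpr hj)
      · exact hg2
  · rintro ⟨⟨g0, hg0⟩, hbase, hirr⟩
    refine ⟨?_, ?_⟩
    · intro g hg
      have hgb : g • b = b := hg 0
      have h1 : (⟨g, hgb⟩ : MulAction.stabilizer G b) = 1 := by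
        apply hbase
        intro i
        exact hg i.succ
      exact congrArg Subtype.val h1
    · intro i
      refine Fin.cases ?_ (fun k => ?_) i
      · exact ⟨g0, fun j hj => absurd hj (Fin.not_lt_zero j), hg0⟩
      · obtain ⟨h, hh1, hh2⟩ := hirr k
        refine ⟨(h : G), fun j => ?_, hh2⟩
        refine Fin.cases ?_ (fun j' => ?_) j
        · intro _; exact h.2
        · intro hj; exact hh1 j' (Fin.succ_lt_succ_iff.mp hj)

/-- Extend a permutation of `Fin r` to `Fin (r + 1)` fixing `0`. -/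
def succPerm {r : ℕ} (σ : Equiv.Perm (Fin r)) : Equiv.Perm (Fin (r + 1)) where
  toFun := Fin.cases 0 (fun j => (σ j).succ)
  invFun := Fin.cases 0 (fun j => (σ.symm j).succ)
  left_inv := by
    intro i
    refine Fin.cases ?_ (fun j => ?_) i <;> simp
  right_inv := by
    intro i
    refine Fin.cases ?_ (fun j => ?_) i <;> simp

theorem cons_comp_succPerm {Ω : Type v} {r : ℕ} (b : Ω) (c : Fin r → Ω)
    (σ : Equiv.Perm (Fin r)) :
    (Fin.cons b c : Fin (r + 1) → Ω) ∘ succPerm σ = Fin.cons b (c ∘ σ) := by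
  funext i
  refine Fin.cases ?_ (fun j => ?_) i
  · simp [succPerm]
  · simp [succPerm]

theorem B_imp_le (Ω : Type v) : ∀ n : ℕ, ∀ (G : Type u) [Group G] [Finite G] [MulAction G Ω],
    Nat.card G = n →
    (∀ (t : ℕ) (f : Fin t → Ω) (σ : Equiv.Perm (Fin t)), IB G f → IB G (f ∘ σ)) →
    ∀ (s t : ℕ) (f : Fin s → Ω) (f' : Fin t → Ω), IB G f → IB G f' → t ≤ s := by
  intro n
  induction n using Nat.strong_induction_on with
  | _ n ih =>
    intro G _ _ _ hn hB s t f f' hf hf'
    rcases Nat.eq_zero_or_pos t with ht | ht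
    · omega
    obtain ⟨t₀, rfl⟩ : ∃ t₀, t = t₀ + 1 := ⟨t - 1, by omega⟩
    have hf'cons : f' = Fin.cons (f' 0) (Fin.tail f') := (Fin.cons_self_tail f').symm
    rw [hf'cons, ib_cons] at hf'
    obtain ⟨⟨g0, hg0⟩, hc'⟩ := hf'
    have hcardH : Nat.card (MulAction.stabilizer G (f' 0)) < n := by
      rw [← hn]
      by_contra hcon
      have htop := Subgroup.eq_top_of_le_card (MulAction.stabilizer G (f' 0)) (not_lt.mp hcon)
      have h1 : g0 ∈ MulAction.stabilizer G (f' 0) := by rw [htop]; trivial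
      exact hg0 h1
    have hBH : ∀ (r : ℕ) (c : Fin r → Ω) (σ : Equiv.Perm (Fin r)),
        IB (MulAction.stabilizer G (f' 0)) c → IB (MulAction.stabilizer G (f' 0)) (c ∘ σ) := by
      intro r c σ hc
      have h1 : IB G (Fin.cons (f' 0) c : Fin (r + 1) → Ω) :=
        (ib_cons (f' 0) c).mpr ⟨⟨g0, hg0⟩, hc⟩
      have h2 := hB (r + 1) _ (succPerm σ) h1
      rw [cons_comp_succPerm] at h2
      exact ((ib_cons (f' 0) (c ∘ σ)).mp h2).2
    have hbaseH : ∀ h : MulAction.stabilizer G (f' 0), (∀ i, h • f i = f i) → h = 1 := by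
      intro h hh
      exact Subtype.ext (hf.1 (h : G) hh)
    obtain ⟨k, emb, hIB, hks, hkeq⟩ := prune (G := MulAction.stabilizer G (f' 0)) f hbaseH
    have hA := ih _ hcardH (MulAction.stabilizer G (f' 0)) rfl hBH
    have h1 : t₀ ≤ k := hA k t₀ _ _ hIB hc'
    have hklt : k < s := by
      rcases Nat.lt_or_ge k s with h | h
      · exact h
      · exfalso
        have hks' : k = s := le_antisymm hks h
        have hfH := hkeq hks'
        have hcons : IB G (Fin.cons (f' 0) f : Fin (s + 1) → Ω) :=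
          (ib_cons (f' 0) f).mpr ⟨⟨g0, hg0⟩, hfH⟩
        have hrot := hB (s + 1) _ (finRotate (s + 1)) hcons
        obtain ⟨g, hg1, hg2⟩ := hrot.2 (Fin.last s)
        have hg1' : ∀ i : Fin s, g • f i = f i := by
          intro i
          have h2 := hg1 i.castSucc (Fin.castSucc_lt_last i)
          simp only [Function.comp_apply] at h2
          rw [finRotate_succ_apply, Fin.coeSucc_eq_succ, Fin.cons_succ] at h2
          exact h2
        have hg1'' : g = 1 := hf.1 g hg1'
        apply hg2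
        rw [hg1'', one_smul]
    omega

/-- Let a finite group G act on a finite set Ω. An irredundant base is a sequence of points ω₁, …, ω_t whose pointwise stabiliser is trivial and in which each ω_i is moved by some element fixing ω₁, …, ω_{i−1}. Then all irredundant bases have the same length if and only if every reordering of an irredundant base is again an irredundant base. -/
theorem result {G Ω : Type*} [Group G] [Finite G] [MulAction G Ω] [Fintype Ω] :
    (∀ (t t' : ℕ) (f : Fin t → Ω) (f' : Fin t' → Ω), ((∀ g : G, (∀ i : Fin t, g • f i = f i) → g = 1) ∧ ∀ i : Fin t, ∃ g : G, (∀ j : Fin t, j < i → g • f j = f j) ∧ g • f i ≠ f i) → ((∀ g : G, (∀ i : Fin t', g • f' i = f' i) → g = 1) ∧ ∀ i : Fin t', ∃ g : G, (∀ j : Fin t', j < i → g • f' j = f' j) ∧ g • f' i ≠ f' i) → t = t') ↔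
    (∀ (t : ℕ) (f : Fin t → Ω) (σ : Equiv.Perm (Fin t)), ((∀ g : G, (∀ i : Fin t, g • f i = f i) → g = 1) ∧ ∀ i : Fin t, ∃ g : G, (∀ j : Fin t, j < i → g • f j = f j) ∧ g • f i ≠ f i) → ((∀ g : G, (∀ i : Fin t, g • (f ∘ σ) i = (f ∘ σ) i) → g = 1) ∧ ∀ i : Fin t, ∃ g : G, (∀ j : Fin t, j < i → g • (f ∘ σ) j = (f ∘ σ) j) ∧ g • (f ∘ σ) i ≠ (f ∘ σ) i)) := by
  have hmain : (∀ (t t' : ℕ) (f : Fin t → Ω) (f' : Fin t' → Ω), IB G f → IB G f' → t = t') ↔
      (∀ (t : ℕ) (f : Fin t → Ω) (σ : Equiv.Perm (Fin t)), IB G f → IB G (f ∘ σ)) := by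
    constructor
    · intro hA t f σ hf
      have hbase : ∀ g : G, (∀ i, g • (f ∘ σ) i = (f ∘ σ) i) → g = 1 := by
        intro g hg
        apply hf.1
        intro i
        have h1 := hg (σ.symm i)
        simp only [Function.comp_apply, Equiv.apply_symm_apply] at h1
        exact h1
      obtain ⟨k, emb, hIB, hks, hkeq⟩ := prune (G := G) (f ∘ σ) hbase
      exact hkeq (hA k t _ f hIB hf)
    · intro hB t t' f f' hf hf'
      have h1 := B_imp_le Ω (Nat.card G) G rfl hB t t' f f' hf hf'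
      have h2 := B_imp_le Ω (Nat.card G) G rfl hB t' t f' f hf' hf
      omega
  exact hmain

end Cfsg.Agent.S5747
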