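import Cfsg.Statements.S5754
-- import your own Cfsg.Agent.* helpers here

set_option autoImplicit false
open Cfsg

namespace Cfsg.Agent.S5754


theorem refl_iso {F V : Type*} [Field F] [AddCommGroup V] [Module F V]
    (Q : QuadraticForm F V) (a : V) (hQa : Q a ≠ 0) :
    ∃ r : Q.IsometryEquiv Q, ∀ v, r v = v - ((Q a)⁻¹ * QuadraticMap.polar Q v a) • a := by
  obtain ⟨r₀, hr₀⟩ : ∃ r₀ : V →ₗ[F] V,
      ∀ v, r₀ v = v - ((Q a)⁻¹ * QuadraticMap.polar Q v a) • a :=
    ⟨{ toFun := fun v => v - ((Q a)⁻¹ * QuadraticMap.polar Q v a) • a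
       map_add' := fun x y => by
         rw [QuadraticMap.polar_add_left, mul_add, add_smul]; abel
       map_smul' := fun c x => by
         rw [QuadraticMap.polar_smul_left, RingHom.id_apply, smul_sub, smul_smul, smul_eq_mul]
         congr 2; ring }, fun v => rfl⟩
  have hinvol : Function.Involutive r₀ := by
    intro v
    rw [hr₀, hr₀]
    obtain ⟨t, ht⟩ : ∃ t : F, t = (Q a)⁻¹ * QuadraticMap.polar Q v a := ⟨_, rfl⟩
    rw [← ht, QuadraticMap.polar_sub_left, QuadraticMap.polar_smul_left, QuadraticMap.polar_self]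
    have e : (Q a)⁻¹ * (QuadraticMap.polar Q v a - t • (2 • Q a)) = -t := by
      rw [smul_eq_mul, nsmul_eq_mul, ht]; field_simp; ring
    rw [e, neg_smul]; abel
  have hQ : ∀ v, Q (r₀ v) = Q v := by
    intro v
    rw [hr₀]
    obtain ⟨t, ht⟩ : ∃ t : F, t = (Q a)⁻¹ * QuadraticMap.polar Q v a := ⟨_, rfl⟩
    rw [← ht]
    have h1 : Q (v + (-t) • a) = Q v + Q ((-t) • a) + QuadraticMap.polar Q v ((-t) • a) :=
      QuadraticMap.map_add (⇑Q) v ((-t) • a)
    rw [sub_eq_add_neg, ← neg_smul, h1, QuadraticMap.map_smul, QuadraticMap.polar_smul_right,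
      smul_eq_mul, smul_eq_mul, ht]
    field_simp; ring
  exact ⟨⟨LinearEquiv.ofInvolutive r₀ hinvol, hQ⟩, fun v => hr₀ v⟩

theorem witt {F V ι : Type*} [Field F] [AddCommGroup V] [Module F V] [DecidableEq ι]
    (Q : QuadraticForm F V) (hQ : Q.Anisotropic) (w w' : ι → V) (s : Finset ι)
    (hq : ∀ i ∈ s, Q (w i) = Q (w' i))
    (hb : ∀ i ∈ s, ∀ j ∈ s, QuadraticMap.polar Q (w i) (w j) = QuadraticMap.polar Q (w' i) (w' j)) :
    ∃ φ : Q.IsometryEquiv Q, ∀ i ∈ s, φ (w i) = w' i := by
  induction s using Finset.induction_on with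
  | empty => exact ⟨QuadraticMap.IsometryEquiv.refl Q, fun i hi => absurd hi (Finset.notMem_empty i)⟩
  | insert k s hk ih =>
    obtain ⟨g, hg⟩ := ih (fun i hi => hq i (Finset.mem_insert_of_mem hi))
      (fun i hi j hj => hb i (Finset.mem_insert_of_mem hi) j (Finset.mem_insert_of_mem hj))
    by_cases hx : g (w k) = w' k
    · refine ⟨g, fun i hi => ?_⟩
      rcases Finset.mem_insert.mp hi with rfl | hi
      · exact hx
      · exact hg i hi
    · obtain ⟨a, ha⟩ : ∃ a : V, a = w' k - g (w k) := ⟨_, rfl⟩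
      have ha0 : a ≠ 0 := by rw [ha]; exact sub_ne_zero.mpr (Ne.symm hx)
      have hQa : Q a ≠ 0 := fun h => ha0 (hQ a h)
      obtain ⟨r, hr⟩ := refl_iso Q a hQa
      have hgQ : ∀ v, Q (g v) = Q v := fun v => g.map_app v
      have hgB : ∀ x y, QuadraticMap.polar Q (g x) (g y) = QuadraticMap.polar Q x y := by
        intro x y
        simp only [QuadraticMap.polar, ← map_add, hgQ]
      have hkk : Q (g (w k)) = Q (w' k) := by
        rw [hgQ]; exact hq k (Finset.mem_insert_self k s)
      refine ⟨g.trans r, fun i hi => ?_⟩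
      show r (g (w i)) = w' i
      rw [hr]
      rcases Finset.mem_insert.mp hi with rfl | hi
      · have hQa' : Q a = Q (w' i) + Q (g (w i)) + QuadraticMap.polar Q (w' i) (-(g (w i))) := by
          rw [ha, sub_eq_add_neg, QuadraticMap.map_add (⇑Q) (w' i) (-(g (w i))), QuadraticMap.map_neg]
        rw [QuadraticMap.polar_neg_right] at hQa'
        have e : QuadraticMap.polar Q (g (w i)) a = - Q a := by
          rw [hQa']
          rw [ha, QuadraticMap.polar_sub_right, QuadraticMap.polar_self, QuadraticMap.polar_comm (⇑Q) (w' i) (g (w i)), nsmul_eq_mul, hkk]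
          push_cast
          ring
        rw [e, mul_neg, inv_mul_cancel₀ hQa, neg_one_smul, sub_neg_eq_add, ha]
        abel
      · rw [hg i hi]
        have e : QuadraticMap.polar Q (w' i) a = 0 := by
          rw [ha, QuadraticMap.polar_sub_right, ← hg i hi, hgB,
            hb i (Finset.mem_insert_of_mem hi) k (Finset.mem_insert_self k s), hg i hi, sub_self]
        rw [e, mul_zero, zero_smul, sub_zero]

/-- Let V be a finite-dimensional vector space over a finite field F carrying an anisotropic quadratic form Q (Q(v) = 0 only for v = 0). Then the group of all maps v ↦ φ(v) + c, with φ an isometry of Q and c ∈ V, acts on V as a binary permutation group: given n ≥ 2 and two n-tuples u, u' of vectors such that every pair of corresponding entries of u is carried to that of u' by such a map, one such map carries u to u'. -/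
theorem result {F V : Type*} [Field F] [Finite F] [AddCommGroup V] [Module F V] [Module.Finite F V]
    (Q : QuadraticForm F V) (hQ : Q.Anisotropic) (n : ℕ) (hn : 2 ≤ n) (u u' : Fin n → V)
    (h2 : ∀ i j : Fin n, i ≠ j → ∃ (φ : Q.IsometryEquiv Q) (c : V), φ (u i) + c = u' i ∧ φ (u j) + c = u' j) :
    ∃ (φ : Q.IsometryEquiv Q) (c : V), ∀ i, φ (u i) + c = u' i := by
  classical
  have hn0 : 0 < n := by omega
  obtain ⟨i₀⟩ : Nonempty (Fin n) := ⟨⟨0, hn0⟩⟩
  have hdiff : ∀ i j : Fin n, Q (u i - u j) = Q (u' i - u' j) := by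
    intro i j
    by_cases hij : i = j
    · subst hij; simp
    · obtain ⟨φ, c, h1, h2'⟩ := h2 i j hij
      have e : φ (u i - u j) = u' i - u' j := by
        rw [map_sub, ← h1, ← h2']; abel
      rw [← e, QuadraticMap.IsometryEquiv.map_app]
  have hsubQ : ∀ x y : V, Q (x - y) = Q x + Q y - QuadraticMap.polar Q x y := by
    intro x y
    have h1 : Q (x + -y) = Q x + Q (-y) + QuadraticMap.polar Q x (-y) :=
      QuadraticMap.map_add (⇑Q) x (-y)
    rw [sub_eq_add_neg, h1, QuadraticMap.map_neg, QuadraticMap.polar_neg_right]; ring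
  have hq : ∀ i : Fin n, Q (u i - u i₀) = Q (u' i - u' i₀) := fun i => hdiff i i₀
  have hb : ∀ i j : Fin n, QuadraticMap.polar Q (u i - u i₀) (u j - u i₀) =
      QuadraticMap.polar Q (u' i - u' i₀) (u' j - u' i₀) := by
    intro i j
    have h1 := hsubQ (u i - u i₀) (u j - u i₀)
    have h3 := hsubQ (u' i - u' i₀) (u' j - u' i₀)
    have e1 : (u i - u i₀) - (u j - u i₀) = u i - u j := by abel
    have e2 : (u' i - u' i₀) - (u' j - u' i₀) = u' i - u' j := by abel
    rw [e1] at h1; rw [e2] at h3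
    linear_combination h1 - h3 - hdiff i j + hq i + hq j
  obtain ⟨φ, hφ⟩ := witt Q hQ (fun i => u i - u i₀) (fun i => u' i - u' i₀) Finset.univ
    (fun i _ => hq i) (fun i _ j _ => hb i j)
  refine ⟨φ, u' i₀ - φ (u i₀), fun i => ?_⟩
  have h : φ (u i - u i₀) = u' i - u' i₀ := hφ i (Finset.mem_univ i)
  rw [map_sub] at h
  calc φ (u i) + (u' i₀ - φ (u i₀)) = (φ (u i) - φ (u i₀)) + u' i₀ := by abel
    _ = (u' i - u' i₀) + u' i₀ := by rw [h]
    _ = u' i := by abel

end Cfsg.Agent.S5754
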