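import Cfsg.Statements.S5763
-- import your own Cfsg.Agent.* helpers here

set_option autoImplicit false
open Cfsg

namespace Cfsg.Agent.S5763

open Equiv

/-- The sibling involution of the binary tree on `Fin 8`. -/
def m₀ (a : Fin 8) : Fin 8 :=
  ⟨a.val ^^^ 1, Nat.xor_lt_two_pow (n := 3) a.isLt (by norm_num)⟩

/-- The half of a leaf. -/
def h₀ (x : Fin 8) : Fin 2 := ⟨x.val / 4, by omega⟩

/-- The cherry of a leaf. -/
def c₀ (x : Fin 8) : Fin 4 := ⟨x.val / 2, by omega⟩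

theorem m₀_invol : ∀ x, m₀ (m₀ x) = x := by decide
theorem m₀_fpf : ∀ x, m₀ x ≠ x := by decide

/-- The sibling involution as a permutation. -/
def mP : Perm (Fin 8) := ⟨m₀, m₀, m₀_invol, m₀_invol⟩

theorem inv_ap (g : Perm (Fin 8)) (x : Fin 8) : g⁻¹ (g x) = x := by simp
theorem ap_inv (g : Perm (Fin 8)) (x : Fin 8) : g (g⁻¹ x) = x := by simp

/-- A pair `(p, q)` is admissible for a fixed-point-free involution without common edges. -/
def ok1 (p q : Fin 8) : Bool := !(Nat.beq q.val p.val) && !(Nat.beq q.val (p.val ^^^ 1))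

/-- Two pairs are consistent for an involution. -/
def ok2 (p q p' q' : Fin 8) : Bool :=
  (!(Nat.beq p.val p'.val) || Nat.beq q.val q'.val) &&
  (!(Nat.beq p.val q'.val) || Nat.beq q.val p'.val) &&
  (!(Nat.beq q.val p'.val) || Nat.beq p.val q'.val) &&
  (!(Nat.beq q.val q'.val) || Nat.beq p.val p'.val)

theorem beq_true_iff (a b : ℕ) : Nat.beq a b = true ↔ a = b :=
  ⟨Nat.eq_of_beq_eq_true, fun h => h ▸ Nat.beq_refl a⟩

theorem beq_false_iff (a b : ℕ) : Nat.beq a b = false ↔ a ≠ b := by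
  rw [← Bool.not_eq_true, beq_true_iff]

theorem imp_b (x y z w : ℕ) (h : x = y → z = w) : (!(Nat.beq x y) || Nat.beq z w) = true := by
  by_cases e : x = y
  · have := (beq_true_iff z w).mpr (h e); simp [this]
  · have := (beq_false_iff x y).mpr e; simp [this]

theorem ok1_of (μ : Fin 8 → Fin 8) (i2 : ∀ a, μ a ≠ a) (i3 : ∀ a, μ a ≠ m₀ a) (p : Fin 8) :
    ok1 p (μ p) = true := by
  unfold ok1
  have h1 : (μ p).val ≠ p.val := fun e => i2 p (Fin.ext e)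
  have h2 : (μ p).val ≠ p.val ^^^ 1 := fun e => i3 p (Fin.ext e)
  rw [Bool.and_eq_true, Bool.not_eq_true', Bool.not_eq_true', beq_false_iff, beq_false_iff]
  exact ⟨h1, h2⟩

theorem ok2_of (μ : Fin 8 → Fin 8) (i1 : ∀ a, μ (μ a) = a) (p q : Fin 8) :
    ok2 p (μ p) q (μ q) = true := by
  unfold ok2
  simp only [Bool.and_eq_true]
  refine ⟨⟨⟨imp_b _ _ _ _ ?_, imp_b _ _ _ _ ?_⟩, imp_b _ _ _ _ ?_⟩, imp_b _ _ _ _ ?_⟩
  · intro e
    have : p = q := Fin.ext e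
    rw [this]
  · intro e
    have : p = μ q := Fin.ext e
    rw [this, i1]
  · intro e
    have : μ p = q := Fin.ext e
    rw [← this, i1]
  · intro e
    have h : μ p = μ q := Fin.ext e
    have := congrArg μ h
    rw [i1, i1] at this
    rw [this]

set_option maxRecDepth 100000 in
theorem W : ∀ a b : Fin 8, ok1 (m₀ a) b = true → ∀ c : Fin 8, ok1 (m₀ b) c = true →
    ok2 (m₀ a) b (m₀ b) c = true → ∀ d : Fin 8, ok1 (m₀ c) d = true →
    ok2 (m₀ a) b (m₀ c) d = true → ok2 (m₀ b) c (m₀ c) d = true → ∀ e : Fin 8,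
    ok1 (m₀ d) e = true → ok2 (m₀ a) b (m₀ d) e = true → ok2 (m₀ b) c (m₀ d) e = true →
    ok2 (m₀ c) d (m₀ d) e = true → (e = a ∨ d = a) := by decide +kernel

set_option maxRecDepth 100000 in
theorem W6 : ∀ a b c : Fin 8, ok1 (m₀ a) b = true → ok1 (m₀ b) c = true →
    ok1 (m₀ c) a = true → ok2 (m₀ a) b (m₀ b) c = true → ok2 (m₀ a) b (m₀ c) a = true →
    ok2 (m₀ b) c (m₀ c) a = true →
    ∃ r : Fin 8, ∀ s : Fin 8, ¬ (ok1 r s = true ∧ ok2 r s (m₀ a) b = true ∧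
      ok2 r s (m₀ b) c = true ∧ ok2 r s (m₀ c) a = true) := by decide +kernel

set_option maxRecDepth 100000 in
theorem W' : ∀ a a₁ : Fin 8, ok1 (m₀ a) a₁ = true → ok1 (m₀ a₁) a = true →
    ok2 (m₀ a) a₁ (m₀ a₁) a = true → ∀ b c₁ : Fin 8, ok1 (m₀ b) c₁ = true →
    ok2 (m₀ a) a₁ (m₀ b) c₁ = true → ok2 (m₀ a₁) a (m₀ b) c₁ = true → ∀ c₂ : Fin 8,
    ok1 (m₀ c₁) c₂ = true → ok2 (m₀ a) a₁ (m₀ c₁) c₂ = true →
    ok2 (m₀ a₁) a (m₀ c₁) c₂ = true → ok2 (m₀ b) c₁ (m₀ c₁) c₂ = true → c₂ = b := by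
  decide +kernel

set_option maxRecDepth 100000 in
theorem KLd : ∀ a p : Fin 8, ok1 a p = true → ∀ b q : Fin 8, ok1 b q = true →
    ok2 a p b q = true → ok2 (m₀ a) (m₀ p) b q = true →
    (h₀ a = h₀ b ↔ h₀ p = h₀ q) := by decide +kernel

theorem stepA : ∀ x y z : Fin 8, (h₀ x = h₀ y ↔ h₀ y = h₀ z) → h₀ z = h₀ x := by decide

theorem c_iff : ∀ a b : Fin 8, c₀ a = c₀ b ↔ (b = a ∨ b = m₀ a) := by decide

theorem stepB : ∀ x y z : Fin 8, h₀ y = h₀ x → h₀ z = h₀ y → (c₀ x = c₀ y ↔ c₀ y = c₀ z) →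
    c₀ z = c₀ x := by decide

/-- The automorphism group of the binary tree on `Fin 8`. -/
def P0 : Subgroup (Perm (Fin 8)) where
  carrier := {g | (∀ a, g (m₀ a) = m₀ (g a)) ∧ ∀ a b, h₀ a = h₀ b ↔ h₀ (g a) = h₀ (g b)}
  mul_mem' := by
    rintro g k ⟨hg1, hg2⟩ ⟨hk1, hk2⟩
    refine ⟨fun a => ?_, fun a b => ?_⟩
    · rw [Perm.mul_apply, Perm.mul_apply, hk1, hg1]
    · rw [Perm.mul_apply, Perm.mul_apply, ← hg2, ← hk2]
  one_mem' := ⟨fun a => rfl, fun a b => Iff.rfl⟩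
  inv_mem' := by
    rintro g ⟨hg1, hg2⟩
    refine ⟨fun a => ?_, fun a b => ?_⟩
    · apply g.injective
      rw [hg1, ap_inv, ap_inv]
    · have := hg2 (g⁻¹ a) (g⁻¹ b)
      rw [ap_inv, ap_inv] at this
      exact this.symm

theorem swap_mem_P0' : ∀ a : Fin 8, (∀ x, swap a (m₀ a) (m₀ x) = m₀ (swap a (m₀ a) x)) ∧
    (∀ x y, h₀ x = h₀ y ↔ h₀ (swap a (m₀ a) x) = h₀ (swap a (m₀ a) y)) := by decide

theorem swap_mem_P0 (a : Fin 8) : swap a (m₀ a) ∈ P0 := swap_mem_P0' a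

theorem pow8 (g : Perm (Fin 8)) (hg : g ∈ P0) : g ^ 8 = 1 := by
  obtain ⟨hg1, hg2⟩ := hg
  have hA : ∀ a, h₀ (g (g a)) = h₀ a := fun a => stepA a (g a) (g (g a)) (hg2 a (g a))
  have hc : ∀ (k : Perm (Fin 8)), (∀ a, k (m₀ a) = m₀ (k a)) →
      ∀ a b, c₀ a = c₀ b ↔ c₀ (k a) = c₀ (k b) := by
    intro k hk a b
    rw [c_iff, c_iff]
    constructor
    · rintro (h | h)
      · left; rw [h]
      · right; rw [h, hk]
    · rintro (h | h)
      · left; exact k.injective h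
      · right; rw [← hk] at h; exact k.injective h
  have hk1 : ∀ a, (g * g) (m₀ a) = m₀ ((g * g) a) := fun a => by
    rw [Perm.mul_apply, Perm.mul_apply, hg1, hg1]
  have hB : ∀ a, c₀ ((g * g) ((g * g) a)) = c₀ a := fun a =>
    stepB a ((g * g) a) ((g * g) ((g * g) a)) (hA a) (hA _) (hc (g * g) hk1 a ((g * g) a))
  have hj1 : ∀ a, ((g * g) * (g * g)) (m₀ a) = m₀ (((g * g) * (g * g)) a) := fun a => by
    show (g * g) ((g * g) (m₀ a)) = m₀ ((g * g) ((g * g) a))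
    rw [hk1, hk1]
  have hC : ∀ a, ((g * g) * (g * g)) (((g * g) * (g * g)) a) = a := by
    intro a
    have h1 : c₀ a = c₀ (((g * g) * (g * g)) a) := (hB a).symm
    rcases (c_iff a _).mp h1 with h | h
    · rw [h, h]
    · rw [h, hj1, h, m₀_invol]
  have e8 : g ^ 8 = ((g ^ 2) ^ 2) ^ 2 := by
    rw [← pow_mul, ← pow_mul]
  have e : g ^ 8 = ((g * g) * (g * g)) * ((g * g) * (g * g)) := by
    rw [e8, pow_two, pow_two, pow_two]
  rw [e]
  exact Equiv.ext (fun a => hC a)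

theorem P0_pgroup : IsPGroup 2 P0 := by
  intro g
  refine ⟨3, ?_⟩
  apply Subtype.ext
  rw [Subgroup.coe_pow]
  exact pow8 g.1 g.2

/-- The key lemma: a fixed-point-free involution commuting with the sibling involution and
having no common edge with it is a tree automorphism. -/
theorem KL (σ : Perm (Fin 8)) (h1 : ∀ a, σ (σ a) = a) (h2 : ∀ a, σ (m₀ a) = m₀ (σ a))
    (h3 : ∀ a, σ a ≠ a) (h4 : ∀ a, σ a ≠ m₀ a) : σ ∈ P0 := by
  refine ⟨h2, fun a b => ?_⟩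
  have o1 := ok1_of σ h3 h4
  have o2 := ok2_of σ h1
  have e2 := o2 (m₀ a) b
  rw [h2] at e2
  exact KLd a (σ a) (o1 a) b (σ b) (o1 b) (o2 a b) e2

/-- One step of the alternating walk. -/
def pw (μ : Fin 8 → Fin 8) (a : Fin 8) : Fin 8 := μ (m₀ a)

theorem walk4 (μ : Fin 8 → Fin 8) (i1 : ∀ a, μ (μ a) = a) (i2 : ∀ a, μ a ≠ a)
    (i3 : ∀ a, μ a ≠ m₀ a) (a : Fin 8) : pw μ (pw μ (pw μ (pw μ a))) = a := by
  have o1 := ok1_of μ i2 i3
  have o2 := ok2_of μ i1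
  rcases W a (pw μ a) (o1 (m₀ a)) (pw μ (pw μ a)) (o1 (m₀ (pw μ a)))
      (o2 (m₀ a) (m₀ (pw μ a))) (pw μ (pw μ (pw μ a))) (o1 (m₀ (pw μ (pw μ a))))
      (o2 (m₀ a) (m₀ (pw μ (pw μ a)))) (o2 (m₀ (pw μ a)) (m₀ (pw μ (pw μ a))))
      (pw μ (pw μ (pw μ (pw μ a)))) (o1 (m₀ (pw μ (pw μ (pw μ a)))))
      (o2 (m₀ a) (m₀ (pw μ (pw μ (pw μ a))))) (o2 (m₀ (pw μ a)) (m₀ (pw μ (pw μ (pw μ a)))))
      (o2 (m₀ (pw μ (pw μ a))) (m₀ (pw μ (pw μ (pw μ a))))) with h | h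
  · exact h
  · exfalso
    have hμ : μ (m₀ (pw μ (pw μ a))) = a := h
    obtain ⟨r, hr⟩ := W6 a (pw μ a) (pw μ (pw μ a)) (o1 (m₀ a)) (o1 (m₀ (pw μ a)))
      (by have := o1 (m₀ (pw μ (pw μ a))); rwa [hμ] at this) (o2 (m₀ a) (m₀ (pw μ a)))
      (by have := o2 (m₀ a) (m₀ (pw μ (pw μ a))); rwa [hμ] at this)
      (by have := o2 (m₀ (pw μ a)) (m₀ (pw μ (pw μ a))); rwa [hμ] at this)
    apply hr (μ r)
    refine ⟨o1 r, o2 r (m₀ a), o2 r (m₀ (pw μ a)), ?_⟩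
    have := o2 r (m₀ (pw μ (pw μ a)))
    rwa [hμ] at this

theorem dich (μ : Fin 8 → Fin 8) (i1 : ∀ a, μ (μ a) = a) (i2 : ∀ a, μ a ≠ a)
    (i3 : ∀ a, μ a ≠ m₀ a) :
    (∀ a, pw μ (pw μ a) = a) ∨ (∀ a, pw μ (pw μ a) ≠ a) := by
  by_cases hall : ∀ a, pw μ (pw μ a) = a
  · exact Or.inl hall
  · right
    push Not at hall
    obtain ⟨a₀, ha₀⟩ := hall
    intro b hb
    apply ha₀
    have o1 := ok1_of μ i2 i3
    have o2 := ok2_of μ i1
    have hμ : μ (m₀ (pw μ b)) = b := hb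
    exact W' b (pw μ b) (o1 (m₀ b)) (by have := o1 (m₀ (pw μ b)); rwa [hμ] at this)
      (by have := o2 (m₀ b) (m₀ (pw μ b)); rwa [hμ] at this)
      a₀ (pw μ a₀) (o1 (m₀ a₀)) (o2 (m₀ b) (m₀ a₀))
      (by have := o2 (m₀ (pw μ b)) (m₀ a₀); rwa [hμ] at this)
      (pw μ (pw μ a₀)) (o1 (m₀ (pw μ a₀))) (o2 (m₀ b) (m₀ (pw μ a₀)))
      (by have := o2 (m₀ (pw μ b)) (m₀ (pw μ a₀)); rwa [hμ] at this)
      (o2 (m₀ a₀) (m₀ (pw μ a₀)))

/-- The properties of the central involution. -/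
def Good (μ ζ : Fin 8 → Fin 8) : Prop :=
  (∀ a, ζ (ζ a) = a) ∧ (∀ a, ζ (m₀ a) = m₀ (ζ a)) ∧ (∀ a, ζ (μ a) = μ (ζ a)) ∧
    (∀ a, ζ a ≠ a) ∧ (∀ a, ζ a ≠ m₀ a) ∧ (∀ a, ζ a ≠ μ a)

theorem goodA (μ : Fin 8 → Fin 8) (i1 : ∀ a, μ (μ a) = a) (i2 : ∀ a, μ a ≠ a)
    (i3 : ∀ a, μ a ≠ m₀ a) (hA : ∀ a, pw μ (pw μ a) = a) : Good μ (pw μ) := by
  have hA' : ∀ a, μ (m₀ (μ (m₀ a))) = a := hA
  have key1 : ∀ a, m₀ (μ (m₀ a)) = μ a := by
    intro a
    have := congrArg μ (hA' a)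
    rw [i1] at this
    exact this
  have key2 : ∀ a, m₀ (μ a) = μ (m₀ a) := by
    intro a
    have := key1 (m₀ a)
    rw [m₀_invol] at this
    exact this
  refine ⟨hA, fun a => ?_, fun a => ?_, fun a e => ?_, fun a e => ?_, fun a e => ?_⟩
  · show μ (m₀ (m₀ a)) = m₀ (μ (m₀ a))
    rw [m₀_invol, key1]
  · show μ (m₀ (μ a)) = μ (μ (m₀ a))
    rw [key2]
  · have e' : μ (m₀ a) = a := e
    have := congrArg μ e'
    rw [i1] at this
    exact i3 a this.symm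
  · have e' : μ (m₀ a) = m₀ a := e
    exact i2 _ e'
  · have e' : μ (m₀ a) = μ a := e
    have := congrArg μ e'
    rw [i1, i1] at this
    exact m₀_fpf a this

theorem goodB (μ : Fin 8 → Fin 8) (i1 : ∀ a, μ (μ a) = a) (i2 : ∀ a, μ a ≠ a)
    (i3 : ∀ a, μ a ≠ m₀ a) (h4 : ∀ a, pw μ (pw μ (pw μ (pw μ a))) = a)
    (hB : ∀ a, pw μ (pw μ a) ≠ a) : Good μ (fun a => pw μ (pw μ a)) := by
  have qp : ∀ a, m₀ (μ (pw μ a)) = a := by
    intro a
    show m₀ (μ (μ (m₀ a))) = a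
    rw [i1, m₀_invol]
  have key : ∀ a, pw μ (pw μ a) = m₀ (μ (m₀ (μ a))) := by
    intro a
    have h := congrArg (fun x => m₀ (μ (m₀ (μ x)))) (h4 a)
    have h' : m₀ (μ (m₀ (μ (pw μ (pw μ (pw μ (pw μ a))))))) = m₀ (μ (m₀ (μ a))) := h
    rw [qp, qp] at h'
    exact h'
  refine ⟨fun a => h4 a, fun a => ?_, fun a => ?_, hB, fun a e => ?_, fun a e => ?_⟩
  · show μ (m₀ (μ (m₀ (m₀ a)))) = m₀ (pw μ (pw μ a))
    rw [key a, m₀_invol, m₀_invol]
  · show μ (m₀ (μ (m₀ (μ a)))) = μ (pw μ (pw μ a))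
    rw [key a]
  · have e0 : pw μ (pw μ a) = m₀ a := e
    rw [key a] at e0
    have e1 := congrArg m₀ e0
    rw [m₀_invol, m₀_invol] at e1
    have e2 := congrArg μ e1
    rw [i1] at e2
    exact m₀_fpf _ e2
  · have e' : μ (m₀ (μ (m₀ a))) = μ a := e
    have e1 := congrArg μ e'
    rw [i1, i1] at e1
    have e2 := congrArg m₀ e1
    rw [m₀_invol] at e2
    exact i2 _ e2

/-- The conjugate of the sibling involution. -/
def conjm (z : Perm (Fin 8)) (a : Fin 8) : Fin 8 := z (m₀ (z⁻¹ a))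

/-- Main lemma: the automorphism groups of two binary trees on `Fin 8` meet nontrivially. -/
theorem main (z : Perm (Fin 8)) :
    ∃ g : Perm (Fin 8), g ≠ 1 ∧ g ∈ P0 ∧ z⁻¹ * g * z ∈ P0 := by
  have i1 : ∀ a, conjm z (conjm z a) = a := by
    intro a
    show z (m₀ (z⁻¹ (z (m₀ (z⁻¹ a))))) = a
    rw [inv_ap, m₀_invol, ap_inv]
  have i2 : ∀ a, conjm z a ≠ a := by
    intro a e
    have e' : z (m₀ (z⁻¹ a)) = a := e
    have := congrArg (z⁻¹ : Perm (Fin 8)) e'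
    rw [inv_ap] at this
    exact m₀_fpf _ this
  by_cases hcase : ∃ a, conjm z a = m₀ a
  · obtain ⟨a, ha⟩ := hcase
    have ha' : z (m₀ (z⁻¹ a)) = m₀ a := ha
    refine ⟨swap a (m₀ a), ?_, swap_mem_P0 a, ?_⟩
    · intro e
      have := congrArg (fun g : Perm (Fin 8) => g a) e
      simp only [swap_apply_left, Perm.one_apply] at this
      exact m₀_fpf a this
    · have e : z⁻¹ * swap a (m₀ a) * z = swap (z⁻¹ a) (m₀ (z⁻¹ a)) := by
        have h1 : m₀ (z⁻¹ a) = z⁻¹ (m₀ a) := by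
          rw [← ha', inv_ap]
        rw [h1, swap_apply_apply, inv_inv]
      rw [e]; exact swap_mem_P0 _
  · push Not at hcase
    have hgood : ∃ ζ : Perm (Fin 8), Good (conjm z) ζ := by
      rcases dich (conjm z) i1 i2 hcase with hA | hB
      · exact ⟨z * mP * z⁻¹ * mP, goodA (conjm z) i1 i2 hcase hA⟩
      · exact ⟨(z * mP * z⁻¹ * mP) * (z * mP * z⁻¹ * mP),
          goodB (conjm z) i1 i2 hcase (walk4 (conjm z) i1 i2 hcase) hB⟩
    obtain ⟨ζ, k1, k2, k2', k3, k4, k5⟩ := hgood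
    refine ⟨ζ, ?_, KL ζ k1 k2 k3 k4, ?_⟩
    · intro e
      exact k3 0 (by rw [e]; rfl)
    · apply KL
      · intro a
        show z⁻¹ (ζ (z (z⁻¹ (ζ (z a))))) = a
        rw [ap_inv, k1, inv_ap]
      · intro a
        show z⁻¹ (ζ (z (m₀ a))) = m₀ (z⁻¹ (ζ (z a)))
        have h1 : z (m₀ a) = conjm z (z a) := by
          show z (m₀ a) = z (m₀ (z⁻¹ (z a)))
          rw [inv_ap]
        rw [h1, k2']
        show z⁻¹ (z (m₀ (z⁻¹ (ζ (z a))))) = m₀ (z⁻¹ (ζ (z a)))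
        rw [inv_ap]
      · intro a e
        have e' : z⁻¹ (ζ (z a)) = a := e
        apply k3 (z a)
        have := congrArg z e'
        rwa [ap_inv] at this
      · intro a e
        have e' : z⁻¹ (ζ (z a)) = m₀ a := e
        apply k5 (z a)
        have := congrArg z e'
        rw [ap_inv] at this
        rw [this]
        show z (m₀ a) = z (m₀ (z⁻¹ (z a)))
        rw [inv_ap]

/-- In the symmetric group on 8 letters any two Sylow 2-subgroups have non-trivial intersection: for a Sylow 2-subgroup H and every element x, H ∩ xHx⁻¹ ≠ 1. -/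
theorem result (H : Sylow 2 (Equiv.Perm (Fin 8))) (x : Equiv.Perm (Fin 8)) :
    (H : Subgroup (Equiv.Perm (Fin 8))) ⊓ (H : Subgroup (Equiv.Perm (Fin 8))).map (MulAut.conj x).toMonoidHom ≠ ⊥ := by
  obtain ⟨Q, hQ⟩ := P0_pgroup.exists_le_sylow
  obtain ⟨y, hy⟩ := MulAction.exists_smul_eq (Perm (Fin 8)) Q H
  have hconj : ∀ p ∈ P0, y * p * y⁻¹ ∈ (H : Subgroup (Perm (Fin 8))) := by
    intro p hp
    have h1 : p ∈ (Q : Subgroup (Perm (Fin 8))) := hQ hp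
    rw [← hy, Sylow.coe_subgroup_smul]
    have h2 := Subgroup.smul_mem_pointwise_smul p (MulAut.conj y) (Q : Subgroup (Perm (Fin 8))) h1
    rw [MulAut.smul_def, MulAut.conj_apply] at h2
    exact h2
  obtain ⟨g, hg1, hgP, hgz⟩ := main (y⁻¹ * x * y)
  intro hbot
  have hmem : y * g * y⁻¹ ∈ (H : Subgroup (Perm (Fin 8))) ⊓
      (H : Subgroup (Perm (Fin 8))).map (MulAut.conj x).toMonoidHom := by
    refine ⟨hconj g hgP, ?_⟩
    refine ⟨x⁻¹ * (y * g * y⁻¹) * x, ?_, ?_⟩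
    · have e : x⁻¹ * (y * g * y⁻¹) * x =
          y * ((y⁻¹ * x * y)⁻¹ * g * (y⁻¹ * x * y)) * y⁻¹ := by group
      rw [e]; exact hconj _ hgz
    · show (MulAut.conj x) (x⁻¹ * (y * g * y⁻¹) * x) = y * g * y⁻¹
      rw [MulAut.conj_apply]; group
  rw [hbot, Subgroup.mem_bot] at hmem
  apply hg1
  have e : g = y⁻¹ * (y * g * y⁻¹) * y := by group
  rw [e, hmem]; group

end Cfsg.Agent.S5763
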