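import Cfsg.Statements.S5887
-- import your own Cfsg.Agent.* helpers here

set_option autoImplicit false
open Cfsg

namespace Cfsg.Agent.S5887

open Matrix

section gen
variable {F : Type*} [Field F] {n : ℕ}

theorem mat_ext_mv (A B : Matrix (Fin n) (Fin n) F) (h : ∀ v, A *ᵥ v = B *ᵥ v) : A = B := by
  ext a b
  have := congrFun (h (Pi.single b 1)) a
  simpa [Matrix.mulVec_single_one] using this

/-- in a field-like subalgebra, a nonzero element kills no nonzero vector -/
theorem eq_zero_of_mulVec (S : Subalgebra F (Matrix (Fin n) (Fin n) F))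
    (hinv : ∀ x ∈ S, x ≠ 0 → ∃ y ∈ S, x * y = 1) (x : Matrix (Fin n) (Fin n) F) (hx : x ∈ S)
    (v : Fin n → F) (hv : v ≠ 0) (h : x *ᵥ v = 0) : x = 0 := by
  by_contra hx0
  obtain ⟨y, -, hxy⟩ := hinv x hx hx0
  have hyx : y * x = 1 := mul_eq_one_comm.1 hxy
  apply hv
  have := congrArg (fun w => y *ᵥ w) h
  simp only [Matrix.mulVec_mulVec, hyx, Matrix.one_mulVec, Matrix.mulVec_zero] at this
  exact this

theorem mem_SL_iff (g : GL (Fin n) F) :
    g ∈ Cfsg.Geo.specialLinear (Fin n) F ↔ (g : Matrix (Fin n) (Fin n) F).det = 1 := by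
  constructor
  · intro h
    have h1 := congrArg Units.val (MonoidHom.mem_ker.mp h)
    rwa [Matrix.GeneralLinearGroup.val_det_apply] at h1
  · intro h
    apply MonoidHom.mem_ker.mpr
    apply Units.ext
    rw [Matrix.GeneralLinearGroup.val_det_apply]
    exact h

theorem single_mulVec' (i j : Fin n) (c : F) (w : Fin n → F) :
    (Matrix.single i j c) *ᵥ w = Pi.single i (c * w j) := by
  ext a
  by_cases ha : a = i
  · subst ha
    simp [Matrix.mulVec, dotProduct, Matrix.single_apply]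
  · simp [Matrix.mulVec, dotProduct, Matrix.single_apply, Pi.single_apply, ha, Ne.symm ha]

def tv (i j : Fin n) (hij : i ≠ j) (c : F) : GL (Fin n) F :=
  ⟨Matrix.transvection i j c, Matrix.transvection i j (-c),
    by rw [Matrix.transvection_mul_transvection_same i j hij, add_neg_cancel, Matrix.transvection_zero],
    by rw [Matrix.transvection_mul_transvection_same i j hij, neg_add_cancel, Matrix.transvection_zero]⟩

theorem partA (S : Subalgebra F (Matrix (Fin n) (Fin n) F)) (hn : 3 ≤ n)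
    (hinv : ∀ x ∈ S, x ≠ 0 → ∃ y ∈ S, x * y = 1) (x₀ : Matrix (Fin n) (Fin n) F) (hx₀ : x₀ ∈ S)
    (hns : ∀ c : F, x₀ ≠ c • 1) :
    ∃ t : GL (Fin n) F, t ∈ Cfsg.Geo.specialLinear (Fin n) F ∧
      t ∉ Cfsg.Geo.subalgebraNormalizer S := by
  classical
  by_contra hcon
  push Not at hcon
  have hcard : Fintype.card (Fin n) = n := Fintype.card_fin n
  have hcomm : ∀ i j : Fin n, i ≠ j →
      Matrix.single i j (1 : F) * x₀ = x₀ * Matrix.single i j 1 := by
    intro i j hij
    have hSL : tv i j hij (1 : F) ∈ Cfsg.Geo.specialLinear (Fin n) F := by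
      rw [mem_SL_iff]
      exact Matrix.det_transvection_of_ne i j hij 1
    have ht := hcon _ hSL
    have h1 : Matrix.transvection i j (1 : F) * x₀ * Matrix.transvection i j (-1) ∈ S :=
      (ht x₀).1 hx₀
    have hyS : Matrix.transvection i j (1 : F) * x₀ * Matrix.transvection i j (-1) - x₀ ∈ S :=
      S.sub_mem h1 hx₀
    -- a kernel vector
    obtain ⟨v, hv0, hvj, hxv⟩ : ∃ v : Fin n → F, v ≠ 0 ∧ v j = 0 ∧ (x₀ *ᵥ v) j = 0 := by
      have hc1 : ({j} : Finset (Fin n)).card < (Finset.univ : Finset (Fin n)).card := by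
        rw [Finset.card_univ, hcard, Finset.card_singleton]; omega
      obtain ⟨k₁, -, hk₁⟩ := Finset.exists_mem_notMem_of_card_lt_card hc1
      have hc2 : ({j, k₁} : Finset (Fin n)).card < (Finset.univ : Finset (Fin n)).card := by
        have := Finset.card_le_two (a := j) (b := k₁)
        rw [Finset.card_univ, hcard]; omega
      obtain ⟨k₂, -, hk₂⟩ := Finset.exists_mem_notMem_of_card_lt_card hc2
      simp only [Finset.mem_singleton] at hk₁
      simp only [Finset.mem_insert, Finset.mem_singleton, not_or] at hk₂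
      by_cases h0 : x₀ j k₁ = 0
      · refine ⟨Pi.single k₁ 1, ?_, ?_, ?_⟩
        · intro h
          have := congrFun h k₁
          simp at this
        · simp [Pi.single_apply, Ne.symm hk₁]
        · rw [Matrix.mulVec_single_one]; exact h0
      · refine ⟨x₀ j k₂ • Pi.single k₁ 1 - x₀ j k₁ • Pi.single k₂ 1, ?_, ?_, ?_⟩
        · intro h
          have := congrFun h k₂
          simp [Pi.single_apply, hk₂.2] at this
          exact h0 this
        · simp [Pi.single_apply, Ne.symm hk₁, Ne.symm hk₂.1]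
        · rw [Matrix.mulVec_sub, Matrix.mulVec_smul, Matrix.mulVec_smul, Matrix.mulVec_single_one,
            Matrix.mulVec_single_one]
          simp only [Pi.sub_apply, Pi.smul_apply, Matrix.col_apply, smul_eq_mul]
          ring
    have hyv : (Matrix.transvection i j (1 : F) * x₀ * Matrix.transvection i j (-1) - x₀) *ᵥ v
        = 0 := by
      rw [Matrix.sub_mulVec, ← Matrix.mulVec_mulVec, ← Matrix.mulVec_mulVec]
      have e1 : Matrix.transvection i j (-1 : F) *ᵥ v = v := by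
        rw [Matrix.transvection, Matrix.add_mulVec, Matrix.one_mulVec, single_mulVec', hvj]
        simp
      have e2 : Matrix.transvection i j (1 : F) *ᵥ (x₀ *ᵥ v) = x₀ *ᵥ v := by
        rw [Matrix.transvection, Matrix.add_mulVec, Matrix.one_mulVec, single_mulVec', hxv]
        simp
      rw [e1, e2, sub_self]
    have hy0 := eq_zero_of_mulVec S hinv _ hyS v hv0 hyv
    have h2 : Matrix.transvection i j (1 : F) * x₀ * Matrix.transvection i j (-1) = x₀ :=
      sub_eq_zero.1 hy0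
    have h3 : Matrix.transvection i j (1 : F) * x₀ = x₀ * Matrix.transvection i j 1 := by
      have := congrArg (fun z => z * Matrix.transvection i j (1 : F)) h2
      simp only [mul_assoc, Matrix.transvection_mul_transvection_same i j hij, neg_add_cancel,
        Matrix.transvection_zero, mul_one] at this
      exact this
    simp only [Matrix.transvection, add_mul, mul_add, one_mul, mul_one] at h3
    exact add_left_cancel h3
  have hoff : ∀ a b : Fin n, a ≠ b → x₀ a b = 0 := by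
    intro a b hab
    have hc1 : ({a} : Finset (Fin n)).card < (Finset.univ : Finset (Fin n)).card := by
      rw [Finset.card_univ, hcard, Finset.card_singleton]; omega
    obtain ⟨i, -, hi⟩ := Finset.exists_mem_notMem_of_card_lt_card hc1
    simp only [Finset.mem_singleton] at hi
    have := congrFun (congrFun (hcomm i a hi) i) b
    rw [Matrix.single_mul_apply_same, Matrix.mul_single_apply_of_ne _ _ _ _ _ (Ne.symm hab), one_mul] at this
    exact this
  have hdiag : ∀ a b : Fin n, x₀ a a = x₀ b b := by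
    intro a b
    by_cases hab : a = b
    · rw [hab]
    · have := congrFun (congrFun (hcomm a b hab) a) b
      rw [Matrix.single_mul_apply_same, Matrix.mul_single_apply_same, one_mul, mul_one] at this
      exact this.symm
  have h0 : 0 < n := by omega
  apply hns (x₀ ⟨0, h0⟩ ⟨0, h0⟩)
  ext a b
  by_cases hab : a = b
  · subst hab
    simp [Matrix.smul_apply, hdiag a ⟨0, h0⟩]
  · simp [Matrix.smul_apply, Matrix.one_apply, hab, hoff a b hab]

end gen

section coreB
variable {F : Type*} [Field F] {n : ℕ} {L : Type*} [Field L]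

/-- the module structure on column vectors through a ring hom into matrices -/
@[reducible] def modL (ρ : L →+* Matrix (Fin n) (Fin n) F) : Module L (Fin n → F) where
  smul l v := ρ l *ᵥ v
  one_smul v := by show ρ 1 *ᵥ v = v; rw [map_one, Matrix.one_mulVec]
  mul_smul a b v := by show ρ (a * b) *ᵥ v = ρ a *ᵥ (ρ b *ᵥ v); rw [map_mul, Matrix.mulVec_mulVec]
  smul_zero a := by show ρ a *ᵥ 0 = 0; rw [Matrix.mulVec_zero]
  smul_add a v w := by show ρ a *ᵥ (v + w) = ρ a *ᵥ v + ρ a *ᵥ w; rw [Matrix.mulVec_add]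
  add_smul a b v := by show ρ (a + b) *ᵥ v = ρ a *ᵥ v + ρ b *ᵥ v; rw [map_add, Matrix.add_mulVec]
  zero_smul v := by show ρ 0 *ᵥ v = 0; rw [map_zero, Matrix.zero_mulVec]

theorem coreB (ρ : L →+* Matrix (Fin n) (Fin n) F) (hscal : ∀ c : F, ∃ l : L, ρ l = c • 1)
    (v₀ : Fin n → F) (hρ0 : ∀ l : L, l ≠ 0 → ρ l *ᵥ v₀ ≠ 0)
    (hproper : ∃ v : Fin n → F, ∀ l : L, ρ l *ᵥ v₀ ≠ v) :
    ∃ N : Matrix (Fin n) (Fin n) F, N ≠ 0 ∧ N * N = 0 ∧ (∀ l, N * ρ l = ρ l * N) ∧
      (∀ v, ∃ l, N *ᵥ v = ρ l *ᵥ v₀) := by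
  letI : Module L (Fin n → F) := modL ρ
  have hsm : ∀ (l : L) (v : Fin n → F), l • v = ρ l *ᵥ v := fun _ _ => rfl
  have hp : (Submodule.span L {v₀} : Submodule L (Fin n → F)) < ⊤ := by
    rw [lt_top_iff_ne_top]
    intro htop
    obtain ⟨v, hv⟩ := hproper
    have : v ∈ (Submodule.span L {v₀} : Submodule L (Fin n → F)) := by rw [htop]; trivial
    obtain ⟨l, hl⟩ := Submodule.mem_span_singleton.1 this
    exact hv l hl
  obtain ⟨φ, hφ, hker⟩ := Submodule.exists_le_ker_of_lt_top _ hp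
  have hφ0 : φ v₀ = 0 := hker (Submodule.mem_span_singleton_self v₀)
  let NF : (Fin n → F) →ₗ[F] (Fin n → F) :=
    { toFun := fun v => ρ (φ v) *ᵥ v₀
      map_add' := fun v w => by rw [map_add, map_add, Matrix.add_mulVec]
      map_smul' := fun c v => by
        obtain ⟨l, hl⟩ := hscal c
        have h1 : c • v = l • v := by rw [hsm, hl, Matrix.smul_mulVec, Matrix.one_mulVec]
        rw [h1, map_smul, smul_eq_mul, map_mul, hl, Matrix.smul_mul, Matrix.one_mul,
          Matrix.smul_mulVec]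
        rfl }
  have hN : ∀ v, LinearMap.toMatrix' NF *ᵥ v = ρ (φ v) *ᵥ v₀ :=
    fun v => LinearMap.toMatrix'_mulVec NF v
  refine ⟨LinearMap.toMatrix' NF, ?_, ?_, ?_, fun v => ⟨φ v, hN v⟩⟩
  · obtain ⟨v, hv⟩ : ∃ v, φ v ≠ 0 := by
      by_contra h
      push Not at h
      exact hφ (LinearMap.ext h)
    intro h0
    have := hN v
    rw [h0, Matrix.zero_mulVec] at this
    exact hρ0 _ hv this.symm
  · apply mat_ext_mv
    intro v
    rw [← Matrix.mulVec_mulVec, hN v, hN, Matrix.zero_mulVec]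
    have : φ (ρ (φ v) *ᵥ v₀) = 0 := by
      have h1 : ρ (φ v) *ᵥ v₀ = (φ v) • v₀ := rfl
      rw [h1, map_smul, hφ0, smul_zero]
    rw [this, map_zero, Matrix.zero_mulVec]
  · intro l
    apply mat_ext_mv
    intro v
    rw [← Matrix.mulVec_mulVec, ← Matrix.mulVec_mulVec, hN, hN]
    have : φ (ρ l *ᵥ v) = l * φ v := by
      have h1 : ρ l *ᵥ v = l • v := rfl
      rw [h1, map_smul, smul_eq_mul]
    rw [this, map_mul, Matrix.mulVec_mulVec]

end coreB

section K1
variable {F : Type*} [Field F] {n : ℕ}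

/-- The Frobenius-fixed subalgebra of a commutative subalgebra. -/
def K1 (K : Subalgebra F (Matrix (Fin n) (Fin n) F)) (hcomm : ∀ x ∈ K, ∀ y ∈ K, x * y = y * x)
    (p e : ℕ) [Fact p.Prime] [CharP F p] [Nonempty (Fin n)] (hQ : ∀ c : F, c ^ (p ^ e) = c) :
    Subalgebra F (Matrix (Fin n) (Fin n) F) where
  carrier := {x | x ∈ K ∧ x ^ (p ^ e) = x}
  mul_mem' := by
    rintro a b ⟨ha, ha'⟩ ⟨hb, hb'⟩
    have hc : Commute a b := hcomm a ha b hb
    exact ⟨K.mul_mem ha hb, by rw [hc.mul_pow, ha', hb']⟩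
  one_mem' := ⟨K.one_mem, one_pow _⟩
  add_mem' := by
    rintro a b ⟨ha, ha'⟩ ⟨hb, hb'⟩
    have hc : Commute a b := hcomm a ha b hb
    exact ⟨K.add_mem ha hb, by rw [add_pow_char_pow_of_commute p e hc, ha', hb']⟩
  zero_mem' := ⟨K.zero_mem, zero_pow (pow_ne_zero _ (Fact.out : p.Prime).ne_zero)⟩
  algebraMap_mem' := fun c => ⟨K.algebraMap_mem c, by rw [← map_pow, hQ]⟩

theorem mem_K1 (K : Subalgebra F (Matrix (Fin n) (Fin n) F)) (hcomm : ∀ x ∈ K, ∀ y ∈ K, x * y = y * x)
    (p e : ℕ) [Fact p.Prime] [CharP F p] [Nonempty (Fin n)] (hQ : ∀ c : F, c ^ (p ^ e) = c)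
    (x : Matrix (Fin n) (Fin n) F) : x ∈ K1 K hcomm p e hQ ↔ (x ∈ K ∧ x ^ (p ^ e) = x) := Iff.rfl

theorem norm_le (K : Subalgebra F (Matrix (Fin n) (Fin n) F)) (hcomm : ∀ x ∈ K, ∀ y ∈ K, x * y = y * x)
    (p e : ℕ) [Fact p.Prime] [CharP F p] [Nonempty (Fin n)] (hQ : ∀ c : F, c ^ (p ^ e) = c) :
    Cfsg.Geo.subalgebraNormalizer K ≤ Cfsg.Geo.subalgebraNormalizer (K1 K hcomm p e hQ) := by
  intro g hg k
  show k ∈ K1 K hcomm p e hQ ↔
    (g : Matrix (Fin n) (Fin n) F) * k * ((g⁻¹ : GL (Fin n) F) : Matrix (Fin n) (Fin n) F)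
      ∈ K1 K hcomm p e hQ
  rw [mem_K1, mem_K1]
  constructor
  · rintro ⟨hk, hk'⟩
    exact ⟨(hg k).1 hk, by rw [Units.conj_pow, hk']⟩
  · rintro ⟨hk, hk'⟩
    refine ⟨(hg k).2 hk, ?_⟩
    rw [Units.conj_pow] at hk'
    have := congrArg (fun z => ((g⁻¹ : GL (Fin n) F) : Matrix (Fin n) (Fin n) F) * z
      * (g : Matrix (Fin n) (Fin n) F)) hk'
    simp only [mul_assoc, Units.inv_mul, mul_one, Units.inv_mul_cancel_left] at this
    exact this

theorem K1_inv (K : Subalgebra F (Matrix (Fin n) (Fin n) F)) (hcomm : ∀ x ∈ K, ∀ y ∈ K, x * y = y * x)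
    (hinv : ∀ x ∈ K, x ≠ 0 → ∃ y ∈ K, x * y = 1)
    (p e : ℕ) [Fact p.Prime] [CharP F p] [Nonempty (Fin n)] (hQ : ∀ c : F, c ^ (p ^ e) = c) :
    ∀ x ∈ K1 K hcomm p e hQ, x ≠ 0 → ∃ y ∈ K1 K hcomm p e hQ, x * y = 1 := by
  rintro x ⟨hx, hx'⟩ hx0
  obtain ⟨y, hy, hxy⟩ := hinv x hx hx0
  refine ⟨y, ⟨hy, ?_⟩, hxy⟩
  have hyx : y * x = 1 := mul_eq_one_comm.1 hxy
  have hc : Commute x y := hcomm x hx y hy
  have h1 : x * y ^ (p ^ e) = 1 := by
    have := hc.mul_pow (p ^ e)
    rw [hxy, one_pow, hx'] at this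
    exact this.symm
  calc y ^ (p ^ e) = (y * x) * y ^ (p ^ e) := by rw [hyx, one_mul]
    _ = y * (x * y ^ (p ^ e)) := by rw [mul_assoc]
    _ = y := by rw [h1, mul_one]

theorem isField_sub [Nonempty (Fin n)] (S : Subalgebra F (Matrix (Fin n) (Fin n) F))
    (hcomm : ∀ x ∈ S, ∀ y ∈ S, x * y = y * x)
    (hinv : ∀ x ∈ S, x ≠ 0 → ∃ y ∈ S, x * y = 1) : IsField ↥S where
  exists_pair_ne := ⟨0, 1, fun h => by
    have := congrArg Subtype.val h
    exact zero_ne_one this⟩
  mul_comm := fun a b => Subtype.ext (hcomm a.1 a.2 b.1 b.2)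
  mul_inv_cancel := fun {a} ha => by
    obtain ⟨y, hy, hxy⟩ := hinv a.1 a.2 (fun h => ha (Subtype.ext h))
    exact ⟨⟨y, hy⟩, Subtype.ext hxy⟩

theorem card_sub [Fintype F] (S : Subalgebra F (Matrix (Fin n) (Fin n) F)) :
    Nat.card ↥S = Fintype.card F ^ Module.finrank F ↥S := by
  rw [Module.natCard_eq_pow_finrank (K := F) (V := ↥S), Nat.card_eq_fintype_card]

theorem card_le_Q [Fintype F] [Nonempty (Fin n)] (S : Subalgebra F (Matrix (Fin n) (Fin n) F))
    (hcomm : ∀ x ∈ S, ∀ y ∈ S, x * y = y * x)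
    (hinv : ∀ x ∈ S, x ≠ 0 → ∃ y ∈ S, x * y = 1) (Q : ℕ) (hQ1 : 1 < Q)
    (h : ∀ x ∈ S, x ^ Q = x) : Nat.card ↥S ≤ Q := by
  classical
  letI : Field ↥S := (isField_sub S hcomm hinv).toField
  letI : Fintype ↥S := Fintype.ofFinite _
  have hroots : (Finset.univ : Finset ↥S).val ⊆ (Polynomial.X ^ Q - Polynomial.X : Polynomial ↥S).roots := by
    intro l _
    rw [Polynomial.mem_roots (FiniteField.X_pow_card_sub_X_ne_zero _ hQ1)]
    simp only [Polynomial.IsRoot, Polynomial.eval_sub, Polynomial.eval_pow, Polynomial.eval_X,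
      sub_eq_zero]
    exact Subtype.ext (h l.1 l.2)
  have := Polynomial.card_le_degree_of_subset_roots hroots
  rw [FiniteField.X_pow_card_sub_X_natDegree_eq _ hQ1, Finset.card_univ] at this
  rw [Nat.card_eq_fintype_card]
  exact this

theorem exists_nonscalar [Fintype F] [Nonempty (Fin n)] (K : Subalgebra F (Matrix (Fin n) (Fin n) F))
    (hcomm : ∀ x ∈ K, ∀ y ∈ K, x * y = y * x)
    (hinv : ∀ x ∈ K, x ≠ 0 → ∃ y ∈ K, x * y = 1) (r r₁ : ℕ) (hr : Module.finrank F ↥K = r)
    (hdvd : r₁ ∣ r) (hr₁ : 2 ≤ r₁) (hr0 : 0 < r) :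
    ∃ x ∈ K, x ^ (Fintype.card F ^ r₁) = x ∧ ∀ c : F, x ≠ c • 1 := by
  classical
  have hq : 1 < Fintype.card F := Fintype.one_lt_card
  have hcard : Nat.card ↥K = Fintype.card F ^ r := by rw [card_sub, hr]
  letI : Field ↥K := (isField_sub K hcomm hinv).toField
  have hunits : Nat.card (↥K)ˣ = Fintype.card F ^ r - 1 := by rw [Nat.card_units, hcard]
  obtain ⟨g, hg⟩ := IsCyclic.exists_ofOrder_eq_natCard (α := (↥K)ˣ)
  rw [hunits] at hg
  set q := Fintype.card F with hqdef
  have hQq : q < q ^ r₁ := by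
    calc q = q ^ 1 := (pow_one q).symm
      _ < q ^ r₁ := Nat.pow_lt_pow_right hq (by omega)
  have hdvd' : q ^ r₁ - 1 ∣ q ^ r - 1 := Nat.pow_sub_one_dvd_pow_sub_one q hdvd
  have hNpos : 0 < q ^ r - 1 := by
    have : q ^ 1 ≤ q ^ r := Nat.pow_le_pow_right (by omega) hr0
    rw [pow_one] at this
    omega
  have hmpos : 0 < q ^ r₁ - 1 := by omega
  have hdiv0 : (q ^ r - 1) / (q ^ r₁ - 1) ≠ 0 := by
    intro h0
    have := Nat.div_mul_cancel hdvd'
    rw [h0, zero_mul] at this
    omega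
  have hord : orderOf (g ^ ((q ^ r - 1) / (q ^ r₁ - 1))) = q ^ r₁ - 1 := by
    rw [orderOf_pow_of_dvd hdiv0 (by rw [hg]; exact Nat.div_dvd_of_dvd hdvd'), hg]
    exact Nat.div_div_self hdvd' (by omega)
  set u : (↥K)ˣ := g ^ ((q ^ r - 1) / (q ^ r₁ - 1)) with hu
  have hu1 : u ^ (q ^ r₁ - 1) = 1 := by rw [← hord]; exact pow_orderOf_eq_one u
  have huQ : u ^ (q ^ r₁) = u := by
    have : q ^ r₁ = (q ^ r₁ - 1) + 1 := by omega
    rw [this, pow_succ, hu1, one_mul]
  refine ⟨((u : ↥K) : Matrix (Fin n) (Fin n) F), (u : ↥K).2, ?_, ?_⟩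
  · have := congrArg (fun w : (↥K)ˣ => ((w : ↥K) : Matrix (Fin n) (Fin n) F)) huQ
    exact this
  · intro c hc
    have hc0 : c ≠ 0 := by
      intro h0
      rw [h0, zero_smul] at hc
      have : (u : ↥K) = 0 := Subtype.ext hc
      exact u.ne_zero this
    have hpow : ((u : ↥K) : Matrix (Fin n) (Fin n) F) ^ (q - 1) = 1 := by
      rw [hc, smul_pow, one_pow, FiniteField.pow_card_sub_one_eq_one c hc0, one_smul]
    have hu2 : u ^ (q - 1) = 1 := by
      apply Units.ext
      apply Subtype.ext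
      exact hpow
    have := orderOf_dvd_of_pow_eq_one hu2
    rw [hord] at this
    have := Nat.le_of_dvd (by omega) this
    omega

end K1

section PartB
variable {F : Type*} [Field F] [Fintype F] {n : ℕ}

theorem partB (K₁ K : Subalgebra F (Matrix (Fin n) (Fin n) F))
    (hcomm₁ : ∀ x ∈ K₁, ∀ y ∈ K₁, x * y = y * x)
    (hinv : ∀ x ∈ K, x ≠ 0 → ∃ y ∈ K, x * y = 1)
    (hinv₁ : ∀ x ∈ K₁, x ≠ 0 → ∃ y ∈ K₁, x * y = 1)
    (hd : 2 * Module.finrank F K₁ < n) (hdr : Module.finrank F K₁ < Module.finrank F K) :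
    ∃ g : GL (Fin n) F, g ∈ Cfsg.Geo.specialLinear (Fin n) F ∧
      g ∈ Cfsg.Geo.subalgebraNormalizer K₁ ∧ g ∉ Cfsg.Geo.subalgebraNormalizer K := by
  classical
  have hn : 0 < n := by omega
  haveI : Nonempty (Fin n) := ⟨⟨0, hn⟩⟩
  obtain ⟨p, hp⟩ := CharP.exists F
  haveI := hp
  haveI : Fact p.Prime := ⟨CharP.char_is_prime F p⟩
  haveI : ExpChar F p := ExpChar.prime Fact.out
  set v₀ : Fin n → F := Pi.single ⟨0, hn⟩ 1 with hv₀def
  have hv₀ : v₀ ≠ 0 := by
    intro h
    have := congrFun h ⟨0, hn⟩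
    simp [hv₀def] at this
  -- the evaluation map K₁ → V
  let ev₀ : ↥K₁ →ₗ[F] (Fin n → F) :=
    { toFun := fun x => x.1 *ᵥ v₀
      map_add' := fun x y => Matrix.add_mulVec _ _ _
      map_smul' := fun c x => Matrix.smul_mulVec _ _ _ }
  have hev : Module.finrank F (LinearMap.range ev₀) ≤ Module.finrank F ↥K₁ :=
    LinearMap.finrank_range_le ev₀
  have hproper : ∃ v : Fin n → F, v ∉ LinearMap.range ev₀ := by
    by_contra hcon
    push Not at hcon
    have htop : LinearMap.range ev₀ = ⊤ := by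
      rw [eq_top_iff]; intro v _; exact hcon v
    rw [htop, finrank_top, Module.finrank_fin_fun] at hev
    omega
  -- the nilpotent element
  obtain ⟨N, hN0, hNN, hNc, hNr⟩ : ∃ N : Matrix (Fin n) (Fin n) F, N ≠ 0 ∧ N * N = 0 ∧
      (∀ x ∈ K₁, N * x = x * N) ∧ (∀ v, ∃ x ∈ K₁, N *ᵥ v = x *ᵥ v₀) := by
    letI : Field ↥K₁ := (isField_sub K₁ hcomm₁ hinv₁).toField
    let ρ : ↥K₁ →+* Matrix (Fin n) (Fin n) F :=
      { toFun := fun l => l.1
        map_one' := rfl
        map_mul' := fun _ _ => rfl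
        map_zero' := rfl
        map_add' := fun _ _ => rfl }
    have hρ : ∀ l : ↥K₁, ρ l = l.1 := fun _ => rfl
    obtain ⟨N, h1, h2, h3, h4⟩ := coreB ρ
      (fun c => ⟨⟨c • 1, by
        have := K₁.algebraMap_mem c
        rwa [Algebra.algebraMap_eq_smul_one] at this⟩, rfl⟩) v₀
      (fun l hl h0 => hl (Subtype.ext (eq_zero_of_mulVec K₁ hinv₁ l.1 l.2 v₀ hv₀ h0)))
      (by
        obtain ⟨v, hv⟩ := hproper
        exact ⟨v, fun l h => hv ⟨l, h⟩⟩)
    exact ⟨N, h1, h2, fun x hx => h3 ⟨x, hx⟩, fun v => by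
      obtain ⟨l, hl⟩ := h4 v
      exact ⟨l.1, l.2, hl⟩⟩
  -- the unipotent element
  have hgg : (1 + N) * (1 - N) = 1 := by
    have : (1 + N) * (1 - N) = 1 - N * N := by noncomm_ring
    rw [this, hNN, sub_zero]
  have hgg' : (1 - N) * (1 + N) = 1 := by
    have : (1 - N) * (1 + N) = 1 - N * N := by noncomm_ring
    rw [this, hNN, sub_zero]
  let g : GL (Fin n) F := ⟨1 + N, 1 - N, hgg, hgg'⟩
  have hgv : (g : Matrix (Fin n) (Fin n) F) = 1 + N := rfl
  have hgi : ((g⁻¹ : GL (Fin n) F) : Matrix (Fin n) (Fin n) F) = 1 - N := rfl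
  have hdet : (1 + N).det = 1 := by
    have hpow : (1 + N) ^ p = 1 := by
      rw [add_pow_char_of_commute p (Commute.one_left N), one_pow]
      have hp2 : 2 ≤ p := (Fact.out : p.Prime).two_le
      have : N ^ p = 0 := pow_eq_zero_of_le hp2 (by rw [sq]; exact hNN)
      rw [this, add_zero]
    have h1 : (1 + N).det ^ p = 1 := by rw [← Matrix.det_pow, hpow, Matrix.det_one]
    apply frobenius_inj F p
    rw [frobenius_def, frobenius_def, h1, one_pow]
  have hcommK₁ : ∀ x ∈ K₁, (1 + N) * x * (1 - N) = x := by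
    intro x hx
    have : (1 + N) * x = x * (1 + N) := by rw [add_mul, mul_add, one_mul, mul_one, hNc x hx]
    rw [this, mul_assoc, hgg, mul_one]
  refine ⟨g, (mem_SL_iff g).2 hdet, ?_, ?_⟩
  · intro k
    show k ∈ K₁ ↔ (1 + N) * k * (1 - N) ∈ K₁
    constructor
    · intro hk
      rw [hcommK₁ k hk]; exact hk
    · intro hk
      have h2 : (1 - N) * ((1 + N) * k * (1 - N)) * (1 + N) = k := by
        rw [mul_assoc, mul_assoc, mul_assoc, hgg', mul_one, ← mul_assoc, hgg', one_mul]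
      have hz := hNc _ hk
      generalize (1 + N) * k * (1 - N) = z at hk h2 hz
      have e : (1 - N) * z = z * (1 - N) := by
        rw [sub_mul, mul_sub, one_mul, mul_one, hz]
      rw [e, mul_assoc, hgg', mul_one] at h2
      rw [← h2]; exact hk
  · intro hg
    -- the range of N
    have hR : Module.finrank F (LinearMap.range (Matrix.mulVecLin N)) ≤ Module.finrank F ↥K₁ := by
      refine le_trans (Submodule.finrank_mono ?_) hev
      rintro _ ⟨v, rfl⟩
      obtain ⟨x, hx, hxv⟩ := hNr v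
      exact ⟨⟨x, hx⟩, by rw [Matrix.mulVecLin_apply, hxv]; rfl⟩
    have hrn : Module.finrank F (LinearMap.range (Matrix.mulVecLin N))
        + Module.finrank F (LinearMap.ker (Matrix.mulVecLin N)) = n := by
      have := LinearMap.finrank_range_add_finrank_ker (Matrix.mulVecLin N)
      rwa [Module.finrank_fin_fun] at this
    have hclaim : ∀ x ∈ K, N * x = x * N := by
      intro x hx
      have hR2 : Module.finrank F (LinearMap.range (Matrix.mulVecLin (N * x)))
          ≤ Module.finrank F (LinearMap.range (Matrix.mulVecLin N)) := by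
        apply Submodule.finrank_mono
        rintro _ ⟨v, rfl⟩
        exact ⟨x *ᵥ v, by rw [Matrix.mulVecLin_apply, Matrix.mulVecLin_apply, Matrix.mulVec_mulVec]⟩
      have hrn2 : Module.finrank F (LinearMap.range (Matrix.mulVecLin (N * x)))
          + Module.finrank F (LinearMap.ker (Matrix.mulVecLin (N * x))) = n := by
        have := LinearMap.finrank_range_add_finrank_ker (Matrix.mulVecLin (N * x))
        rwa [Module.finrank_fin_fun] at this
      have hsup := Submodule.finrank_sup_add_finrank_inf_eq (LinearMap.ker (Matrix.mulVecLin N))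
        (LinearMap.ker (Matrix.mulVecLin (N * x)))
      have hle : Module.finrank F ↥(LinearMap.ker (Matrix.mulVecLin N)
          ⊔ LinearMap.ker (Matrix.mulVecLin (N * x))) ≤ n := by
        have := Submodule.finrank_le (LinearMap.ker (Matrix.mulVecLin N)
          ⊔ LinearMap.ker (Matrix.mulVecLin (N * x)))
        rwa [Module.finrank_fin_fun] at this
      have hpos : 0 < Module.finrank F ↥(LinearMap.ker (Matrix.mulVecLin N)
          ⊓ LinearMap.ker (Matrix.mulVecLin (N * x))) := by omega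
      have hne : LinearMap.ker (Matrix.mulVecLin N) ⊓ LinearMap.ker (Matrix.mulVecLin (N * x)) ≠ ⊥ := by
        intro h0
        rw [h0, finrank_bot] at hpos
        exact lt_irrefl _ hpos
      obtain ⟨v, hv, hv0⟩ := Submodule.exists_mem_ne_zero_of_ne_bot hne
      have hv1 : N *ᵥ v = 0 := hv.1
      have hv2 : (N * x) *ᵥ v = 0 := hv.2
      have hx' : (1 + N) * x * (1 - N) ∈ K := (hg x).1 hx
      have hkill : ((1 + N) * x * (1 - N) - x) *ᵥ v = 0 := by
        rw [Matrix.sub_mulVec, ← Matrix.mulVec_mulVec, ← Matrix.mulVec_mulVec]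
        have e1 : (1 - N) *ᵥ v = v := by
          rw [Matrix.sub_mulVec, Matrix.one_mulVec, hv1, sub_zero]
        rw [e1, Matrix.add_mulVec, Matrix.one_mulVec, Matrix.mulVec_mulVec, hv2, add_zero, sub_self]
      have h0 := eq_zero_of_mulVec K hinv _ (K.sub_mem hx' hx) v hv0 hkill
      have h1 : (1 + N) * x * (1 - N) = x := sub_eq_zero.1 h0
      have h2 : (1 + N) * x = x * (1 + N) := by
        have := congrArg (fun z => z * (1 + N)) h1
        simp only [mul_assoc, hgg', mul_one] at this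
        exact this
      rw [add_mul, mul_add, one_mul, mul_one] at h2
      exact add_left_cancel h2
    obtain ⟨v, hv⟩ : ∃ v, N *ᵥ v ≠ 0 := by
      by_contra hcon
      push Not at hcon
      apply hN0
      apply mat_ext_mv
      intro v
      rw [hcon v, Matrix.zero_mulVec]
    let evy : ↥K →ₗ[F] (Fin n → F) :=
      { toFun := fun x => x.1 *ᵥ (N *ᵥ v)
        map_add' := fun x y => Matrix.add_mulVec _ _ _
        map_smul' := fun c x => Matrix.smul_mulVec _ _ _ }
    have hinj : Function.Injective evy := by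
      rw [injective_iff_map_eq_zero]
      intro x hx
      exact Subtype.ext (eq_zero_of_mulVec K hinv x.1 x.2 _ hv hx)
    have hrange : LinearMap.range evy ≤ LinearMap.range (Matrix.mulVecLin N) := by
      rintro _ ⟨x, rfl⟩
      refine ⟨x.1 *ᵥ v, ?_⟩
      show N *ᵥ (x.1 *ᵥ v) = x.1 *ᵥ (N *ᵥ v)
      rw [Matrix.mulVec_mulVec, Matrix.mulVec_mulVec, hclaim x.1 x.2]
    have h1 := LinearMap.finrank_range_of_inj hinj
    have h2 := Submodule.finrank_mono hrange
    omega

end PartB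

/-- Let F be a finite field, n a positive integer and r a composite number (r > 1, not prime) that divides n with r < n. Let K be a subalgebra of the algebra of n × n matrices over F which is a field of degree r over F (commutative, every non-zero element invertible, of dimension r over F). Then the normaliser N of K in GL_n(F) (a group of type ΓL_{n/r}(F_{q^r})) is not a maximal subgroup of GL_n(F), and N ∩ SL_n(F) is not a maximal subgroup of SL_n(F): both lie properly inside the normaliser of an intermediate subfield of prime degree over F. -/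
theorem result {F : Type*} [Field F]
    [Fintype F] (n r : ℕ) (hr1 : 1 < r) (hrp : ¬ r.Prime) (hrn : r ∣ n) (hlt : r < n)
    (K : Subalgebra F (Matrix (Fin n) (Fin n) F)) (hK : Cfsg.Geo.IsFieldSubalgebra r K) :
    ¬ IsCoatom (Cfsg.Geo.subalgebraNormalizer K) ∧
      ¬ Cfsg.Geo.IsMaximalIn (Cfsg.Geo.specialLinear (Fin n) F)
        (Cfsg.Geo.subalgebraNormalizer K ⊓ Cfsg.Geo.specialLinear (Fin n) F) := by
  classical
  have hn : 0 < n := by omega
  haveI : Nonempty (Fin n) := ⟨⟨0, hn⟩⟩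
  obtain ⟨p, hp⟩ := CharP.exists F
  haveI := hp
  haveI : Fact p.Prime := ⟨CharP.char_is_prime F p⟩
  obtain ⟨f, -, hq⟩ := FiniteField.card F p
  have hq1 : 1 < Fintype.card F := Fintype.one_lt_card
  -- the prime divisor
  have hr2 : 2 ≤ r := hr1
  have hr₁p : (r.minFac).Prime := Nat.minFac_prime (by omega)
  have hr₁d : r.minFac ∣ r := Nat.minFac_dvd r
  have hr₁lt : r.minFac < r := (Nat.not_prime_iff_minFac_lt hr2).1 hrp
  have hr₁2 : 2 ≤ r.minFac := hr₁p.two_le
  have h2r : 2 * r.minFac ≤ r := by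
    obtain ⟨k, hk⟩ := hr₁d
    have hk2 : 2 ≤ k := by
      rcases Nat.lt_or_ge k 2 with h | h
      · interval_cases k
        · omega
        · omega
      · exact h
    calc 2 * r.minFac = r.minFac * 2 := by ring
      _ ≤ r.minFac * k := Nat.mul_le_mul_left _ hk2
      _ = r := hk.symm
  have hQ : ∀ c : F, c ^ (p ^ ((f : ℕ) * r.minFac)) = c := by
    intro c
    rw [pow_mul, ← hq]
    exact FiniteField.pow_card_pow _ c
  have hQeq : p ^ ((f : ℕ) * r.minFac) = Fintype.card F ^ r.minFac := by rw [pow_mul, ← hq]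
  have hnle := norm_le K hK.comm p ((f : ℕ) * r.minFac) hQ
  have hinv₁ := K1_inv K hK.comm hK.inv p ((f : ℕ) * r.minFac) hQ
  have hcomm₁ : ∀ x ∈ K1 K hK.comm p ((f : ℕ) * r.minFac) hQ,
      ∀ y ∈ K1 K hK.comm p ((f : ℕ) * r.minFac) hQ, x * y = y * x :=
    fun x hx y hy => hK.comm x hx.1 y hy.1
  -- the dimension bound
  have hd₁ : Module.finrank F ↥(K1 K hK.comm p ((f : ℕ) * r.minFac) hQ) ≤ r.minFac := by
    have h1 := card_le_Q (K1 K hK.comm p ((f : ℕ) * r.minFac) hQ) hcomm₁ hinv₁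
      (p ^ ((f : ℕ) * r.minFac)) (by
        rw [hQeq]
        calc 1 < Fintype.card F := hq1
          _ = Fintype.card F ^ 1 := (pow_one _).symm
          _ ≤ Fintype.card F ^ r.minFac := Nat.pow_le_pow_right (by omega) (by omega))
      (fun x hx => hx.2)
    rw [card_sub, hQeq] at h1
    exact (Nat.pow_le_pow_iff_right hq1).1 h1
  -- part B
  obtain ⟨g, hgSL, hg1, hg2⟩ := partB (K1 K hK.comm p ((f : ℕ) * r.minFac) hQ) K hcomm₁ hK.inv hinv₁
    (by omega) (by rw [hK.finrank_eq]; omega)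
  -- part A
  obtain ⟨x₀, hx₀K, hx₀Q, hx₀ns⟩ := exists_nonscalar K hK.comm hK.inv r r.minFac hK.finrank_eq
    hr₁d hr₁2 (by omega)
  have hx₀ : x₀ ∈ K1 K hK.comm p ((f : ℕ) * r.minFac) hQ := ⟨hx₀K, by rw [hQeq]; exact hx₀Q⟩
  obtain ⟨t, htSL, ht⟩ := partA (K1 K hK.comm p ((f : ℕ) * r.minFac) hQ) (by omega) hinv₁ x₀ hx₀ hx₀ns
  constructor
  · intro hco
    have hlt : Cfsg.Geo.subalgebraNormalizer K
        < Cfsg.Geo.subalgebraNormalizer (K1 K hK.comm p ((f : ℕ) * r.minFac) hQ) :=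
      lt_of_le_of_ne hnle (fun h => hg2 (by rw [h]; exact hg1))
    have htop := hco.2 _ hlt
    exact ht (by rw [htop]; trivial)
  · rintro ⟨-, hmax⟩
    rcases hmax (Cfsg.Geo.subalgebraNormalizer (K1 K hK.comm p ((f : ℕ) * r.minFac) hQ)
        ⊓ Cfsg.Geo.specialLinear (Fin n) F) (inf_le_inf_right _ hnle) inf_le_right with h | h
    · have : g ∈ Cfsg.Geo.subalgebraNormalizer K ⊓ Cfsg.Geo.specialLinear (Fin n) F := by
        rw [← h]; exact ⟨hg1, hgSL⟩
      exact hg2 this.1
    · have : t ∈ Cfsg.Geo.subalgebraNormalizer (K1 K hK.comm p ((f : ℕ) * r.minFac) hQ)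
          ⊓ Cfsg.Geo.specialLinear (Fin n) F := by
        rw [h]; exact htSL
      exact ht this.1

end Cfsg.Agent.S5887
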