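import Cfsg.Statements.S5893
import Cfsg.Agent.Helper9.Dk21

set_option autoImplicit false
open Cfsg

namespace Cfsg.Agent.S5893

open Cfsg.Agent.Helper9

theorem result {F : Type*} [Field F] [Fintype F]
    (heven : Even (Fintype.card F)) (h4 : 4 ≤ Fintype.card F) (M : Subgroup (Matrix.ProjectiveSpecialLinearGroup (Fin 2) F)) (hM : IsCoatom M) :
    Nat.card M = Fintype.card F * (Fintype.card F - 1) ∨
    Nonempty (M ≃* DihedralGroup (Fintype.card F - 1)) ∨
    Nonempty (M ≃* DihedralGroup (Fintype.card F + 1)) ∨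
    (∃ (F₀ : Type) (_ : Field F₀) (_ : Fintype F₀) (r : ℕ), r.Prime ∧ Fintype.card F₀ ≠ 2 ∧
        Fintype.card F = Fintype.card F₀ ^ r ∧ Nonempty (M ≃* Matrix.ProjectiveSpecialLinearGroup (Fin 2) F₀)) := by
  have hchar : ringChar F = 2 := FiniteField.even_card_iff_char_two.mpr (Nat.even_iff.mp heven)
  have : CharP F 2 := ringChar.of_eq hchar
  rcases psl2_even_coatom_h9 h4 M hM with h | h | h | ⟨n₁, r, hr, hn₁, hq, ⟨e⟩⟩
  · exact Or.inl h
  · exact Or.inr (Or.inl h)
  · exact Or.inr (Or.inr (Or.inl h))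
  · right; right; right
    have hc : Nat.card (GaloisField 2 n₁) = 2 ^ n₁ := GaloisField.card 2 n₁ (by omega)
    have h4' : 2 ^ 2 ≤ 2 ^ n₁ := Nat.pow_le_pow_right (by norm_num) hn₁
    have hcF : ∀ inst : Fintype (GaloisField 2 n₁),
        @Fintype.card (GaloisField 2 n₁) inst = 2 ^ n₁ := by
      intro inst
      rw [← hc, Nat.card_eq_fintype_card]
    refine ⟨GaloisField 2 n₁, inferInstance, Fintype.ofFinite _, r, hr, ?_, ?_, ⟨e⟩⟩
    · rw [hcF]
      omega
    · rw [hcF]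
      exact hq

end Cfsg.Agent.S5893
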