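import Cfsg.Statements.S5896
-- import your own Cfsg.Agent.* helpers here
import Cfsg.Agent.Helper1.Burnside

set_option autoImplicit false
open Cfsg

namespace Cfsg.Agent.S5896


def dip {S Q : Type} [Group S] [Group Q] [DecidableEq Q] (τ : Q) (s : S) :
    RegularWreathProduct S Q :=
  (⟨Pi.mulSingle 1 s, 1⟩ : RegularWreathProduct S Q) * RegularWreathProduct.inl τ *
    (⟨Pi.mulSingle 1 s, 1⟩ : RegularWreathProduct S Q)⁻¹ * (RegularWreathProduct.inl τ)⁻¹

theorem dip_right {S Q : Type} [Group S] [Group Q] [DecidableEq Q] (τ : Q) (s : S) :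
    (dip τ s).right = 1 := by
  simp [dip, RegularWreathProduct.mul_right, RegularWreathProduct.inv_right]

theorem dip_left {S Q : Type} [Group S] [Group Q] [DecidableEq Q] (τ : Q) (hτ : τ ≠ 1) (s : S) :
    (dip τ s).left 1 = s := by
  have h : τ⁻¹ ≠ 1 := by simpa using hτ
  simp [dip, RegularWreathProduct.mul_left, RegularWreathProduct.inv_left,
    RegularWreathProduct.mul_right, RegularWreathProduct.inv_right, Pi.mulSingle_eq_of_ne h]

theorem dip_mem_comm {S Q : Type} [Group S] [Group Q] [DecidableEq Q] (τ : Q) (s : S) :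
    dip τ s ∈ derivedSeries (RegularWreathProduct S Q) 1 := by
  rw [derivedSeries_one, commutator_def]
  unfold dip
  rw [← commutatorElement_def]
  exact Subgroup.commutator_mem_commutator (Subgroup.mem_top _) (Subgroup.mem_top _)

theorem dip_mem_normal {S Q : Type} [Group S] [Group Q] [DecidableEq Q] (τ : Q) (s : S)
    (G : Subgroup (RegularWreathProduct S Q)) [hG : G.Normal]
    (h : RegularWreathProduct.inl τ ∈ G) : dip τ s ∈ G :=
  G.mul_mem (hG.conj_mem _ h _) (G.inv_mem h)

theorem dl_lemma {S Q H' : Type} [Group S] [Group Q] [Group H']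
    (j : H' →* RegularWreathProduct S Q)
    (hs : ∀ s : S, ∃ e : H', (j e).right = 1 ∧ (j e).left 1 = s) (d : ℕ)
    (hd : derivedSeries S d ≠ ⊥) : derivedSeries H' d ≠ ⊥ := by
  let E : Subgroup H' := (RegularWreathProduct.rightHom.comp j).ker
  have hE : ∀ e : E, (j e.1).right = 1 := fun e => MonoidHom.mem_ker.mp e.2
  let ev : E →* S :=
    { toFun := fun e => (j e.1).left 1
      map_one' := by simp
      map_mul' := fun a b => by
        show (j (a.1 * b.1)).left 1 = (j a.1).left 1 * (j b.1).left 1
        rw [map_mul, RegularWreathProduct.mul_left]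
        simp [hE a] }
  have hev : Function.Surjective ev := fun s => by
    obtain ⟨e, he1, he2⟩ := hs s
    exact ⟨⟨e, MonoidHom.mem_ker.mpr he1⟩, he2⟩
  intro h
  have h1 : (derivedSeries E d).map E.subtype ≤ derivedSeries H' d :=
    map_derivedSeries_le_derivedSeries E.subtype d
  rw [h, le_bot_iff, Subgroup.map_eq_bot_iff_of_injective _ E.subtype_injective] at h1
  have h2 := map_derivedSeries_eq hev d
  rw [h1, Subgroup.map_bot] at h2
  exact hd h2.symm

theorem shift_lemma {W : Type} [Group W] (K : Subgroup W) (hK : K ≤ derivedSeries W 1) (n : ℕ) :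
    (derivedSeries K n).map K.subtype ≤ derivedSeries W (n + 1) := by
  induction n with
  | zero =>
    rw [derivedSeries_zero, ← MonoidHom.range_eq_map, Subgroup.range_subtype]
    exact hK
  | succ n ih =>
    rw [derivedSeries_succ, Subgroup.map_commutator, derivedSeries_succ]
    exact Subgroup.commutator_mono ih ih

theorem exists_two_group (d : ℕ) :
    ∃ (S : Type) (_ : Group S) (_ : Finite S) (k : ℕ),
      Nat.card S = 2 ^ k ∧ derivedSeries S d ≠ ⊥ := by
  induction d with
  | zero =>
    refine ⟨Equiv.Perm (Fin 2), inferInstance, inferInstance, 1, ?_, ?_⟩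
    · rw [Nat.card_perm, Nat.card_fin]; rfl
    · rw [derivedSeries_zero]
      intro h
      have h1 : Equiv.swap (0 : Fin 2) 1 ∈ (⊤ : Subgroup (Equiv.Perm (Fin 2))) := Subgroup.mem_top _
      rw [h, Subgroup.mem_bot] at h1
      exact absurd h1 (by decide)
  | succ d ih =>
    obtain ⟨S, _, _, k, hk, hd⟩ := ih
    refine ⟨RegularWreathProduct S (Equiv.Perm (Fin 2)), inferInstance, inferInstance,
      2 * k + 1, ?_, ?_⟩
    · rw [RegularWreathProduct.card, hk, Nat.card_perm, Nat.card_fin]
      show (2 ^ k) ^ 2 * 2 = 2 ^ (2 * k + 1)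
      ring
    · have hτ : (Equiv.swap (0 : Fin 2) 1) ≠ 1 := by decide
      have h1 : derivedSeries
          (derivedSeries (RegularWreathProduct S (Equiv.Perm (Fin 2))) 1) d ≠ ⊥ := by
        apply dl_lemma (Subgroup.subtype _) _ d hd
        intro s
        exact ⟨⟨dip (Equiv.swap (0 : Fin 2) 1) s, dip_mem_comm _ s⟩, dip_right _ s, dip_left _ hτ s⟩
      intro h
      have h2 := shift_lemma (derivedSeries (RegularWreathProduct S (Equiv.Perm (Fin 2))) 1)
        le_rfl d
      rw [h, le_bot_iff,
        Subgroup.map_eq_bot_iff_of_injective _ (Subgroup.subtype_injective _)] at h2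
      exact h1 h2

theorem exists_stable (W : Type) [Group W] [Finite W] :
    ∃ N, derivedSeries W (N + 1) = derivedSeries W N := by
  by_contra h
  push Not at h
  have hs : StrictAnti (derivedSeries W) :=
    strictAnti_nat_of_succ_lt
      (fun n => lt_of_le_of_ne (derivedSeries_antitone W (Nat.le_succ n)) (h n))
  exact not_injective_infinite_finite _ hs.injective

theorem coatom_of_index {G : Type} [Group G] [Finite G] (H : Subgroup G) (h : H.index = 5) :
    IsCoatom H := by
  refine ⟨fun ht => ?_, fun K hK => ?_⟩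
  · rw [ht, Subgroup.index_top] at h; omega
  · have h1 : K.index ∣ H.index := Subgroup.index_dvd_of_le hK.le
    rw [h] at h1
    rcases (Nat.dvd_prime (by norm_num : Nat.Prime 5)).mp h1 with h2 | h2
    · exact Subgroup.index_eq_one.mp h2
    · exfalso
      have h3 := Subgroup.relIndex_mul_index hK.le
      rw [h, h2] at h3
      have h4 : H.relIndex K = 1 := by omega
      exact hK.not_ge (Subgroup.relIndex_eq_one.mp h4)

theorem alt5_comm : commutator (alternatingGroup (Fin 5)) = ⊤ := by
  rcases Subgroup.Normal.eq_bot_or_eq_top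
    (inferInstance : (commutator (alternatingGroup (Fin 5))).Normal) with h | h
  · exfalso
    haveI : Group.IsSolvable (alternatingGroup (Fin 5)) :=
      ⟨⟨1, by rw [derivedSeries_one]; exact h⟩⟩
    apply Equiv.Perm.not_isSolvable_fin_5
    exact Group.isSolvable_of_ker_le_range (alternatingGroup (Fin 5)).subtype
      (Equiv.Perm.sign (α := Fin 5)) (by rw [Subgroup.range_subtype]; exact le_rfl)
  · exact h

theorem alt5_derived (n : ℕ) : derivedSeries (alternatingGroup (Fin 5)) n = ⊤ := by
  cases n with
  | zero => rfl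
  | succ n => rw [IsSimpleGroup.derivedSeries_succ]; exact alt5_comm

theorem alt5_card : Nat.card (alternatingGroup (Fin 5)) = 60 := by
  have h := two_mul_nat_card_alternatingGroup (α := Fin 5)
  rw [Nat.card_perm, Nat.card_fin] at h
  have h5 : (5 : ℕ).factorial = 120 := by decide
  omega

abbrev Wr (S : Type) [Group S] : Type := RegularWreathProduct S (alternatingGroup (Fin 5))

theorem main (S : Type) [Group S] [Finite S] (k : ℕ) (hk : Nat.card S = 2 ^ k) (d : ℕ)
    (hS : derivedSeries S d ≠ ⊥) (N : ℕ)
    (hN : derivedSeries (Wr S) (N + 1) = derivedSeries (Wr S) N) :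
    ∃ H : Subgroup (derivedSeries (Wr S) N),
      commutator (derivedSeries (Wr S) N) = ⊤ ∧ IsCoatom H ∧ Group.IsSolvable H ∧
        derivedSeries H d ≠ ⊥ := by
  have hinl : ∀ a : alternatingGroup (Fin 5),
      (RegularWreathProduct.inl a : Wr S) ∈ derivedSeries (Wr S) N := by
    intro a
    have h1 := map_derivedSeries_le_derivedSeries
      (RegularWreathProduct.inl : alternatingGroup (Fin 5) →* Wr S) N
    rw [alt5_derived] at h1
    exact h1 ⟨a, Subgroup.mem_top _, rfl⟩
  let ρ : derivedSeries (Wr S) N →* alternatingGroup (Fin 5) :=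
    RegularWreathProduct.rightHom.comp (derivedSeries (Wr S) N).subtype
  have hρ : Function.Surjective ρ := fun a => ⟨⟨_, hinl a⟩, rfl⟩
  haveI : MulAction.IsPretransitive (alternatingGroup (Fin 5)) (Fin 5) :=
    alternatingGroup.isPretransitive_of_three_le_card (Fin 5) (by rw [Nat.card_fin]; norm_num)
  let M : Subgroup (alternatingGroup (Fin 5)) :=
    MulAction.stabilizer (alternatingGroup (Fin 5)) (0 : Fin 5)
  have hM : M.index = 5 := by
    rw [MulAction.index_stabilizer_of_transitive, Nat.card_fin]
  have hH : (M.comap ρ).index = 5 := by rw [Subgroup.index_comap_of_surjective M hρ, hM]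
  refine ⟨M.comap ρ, ?_, coatom_of_index _ hH, ?_, ?_⟩
  · apply Subgroup.map_injective (derivedSeries (Wr S) N).subtype_injective
    rw [commutator_def, Subgroup.map_commutator, ← MonoidHom.range_eq_map,
      Subgroup.range_subtype]
    exact hN
  · have h1 : Nat.card (M.comap ρ) * 5 = Nat.card (derivedSeries (Wr S) N) := by
      have h0 := Subgroup.card_mul_index (M.comap ρ)
      rw [hH] at h0
      exact h0
    have h2 : Nat.card (derivedSeries (Wr S) N) ∣ Nat.card (Wr S) :=
      Subgroup.card_subgroup_dvd_card _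
    have h3 : Nat.card (Wr S) = 2 ^ (k * 60 + 2) * 3 ^ 1 * 5 := by
      rw [RegularWreathProduct.card, hk, alt5_card]; ring
    have h4 : Nat.card (M.comap ρ) ∣ 2 ^ (k * 60 + 2) * 3 ^ 1 := by
      rw [← h1, h3] at h2
      exact Nat.dvd_of_mul_dvd_mul_right (by norm_num : 0 < 5) h2
    obtain ⟨i, j, hij⟩ := Cfsg.Agent.Helper1.exists_pow_mul_pow_of_dvd 2 3 _ _ _
      Nat.prime_two Nat.prime_three h4
    exact Cfsg.Agent.Helper1.isSolvable_of_card_eq_prime_pow_mul_prime_pow 2 3 i j
      Nat.prime_two Nat.prime_three hij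
  · obtain ⟨τ, hτ⟩ := exists_ne (1 : alternatingGroup (Fin 5))
    apply dl_lemma ((derivedSeries (Wr S) N).subtype.comp (M.comap ρ).subtype) _ d hS
    intro s
    have hmem : (dip τ s : Wr S) ∈ derivedSeries (Wr S) N := dip_mem_normal τ s _ (hinl τ)
    have hρ1 : ρ ⟨_, hmem⟩ = 1 := dip_right τ s
    have hmem2 : (⟨_, hmem⟩ : derivedSeries (Wr S) N) ∈ M.comap ρ := by
      show ρ ⟨_, hmem⟩ ∈ M
      rw [hρ1]; exact M.one_mem
    exact ⟨⟨⟨_, hmem⟩, hmem2⟩, dip_right τ s, dip_left τ hτ s⟩

/-- Finite perfect groups have solvable maximal subgroups of unbounded derived length: for every d there is a finite perfect group G (equal to its commutator subgroup) with a solvable maximal subgroup H whose derived length exceeds d, i.e. the d-th term of the derived series of H is non-trivial. (Take the derived subgroup of a wreath product S ≀ A₅ with S solvable of large derived length, and H the preimage of a maximal subgroup of A₅.) -/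
theorem result (d : ℕ) :
    ∃ (G : Type) (_ : Group G) (_ : Finite G) (H : Subgroup G), commutator G = ⊤ ∧ IsCoatom H ∧ Group.IsSolvable H ∧
      derivedSeries H d ≠ ⊥ := by
  obtain ⟨S, _, _, k, hk, hS⟩ := exists_two_group d
  obtain ⟨N, hN⟩ := exists_stable (Wr S)
  obtain ⟨H, h1, h2, h3, h4⟩ := main S k hk d hS N hN
  exact ⟨derivedSeries (Wr S) N, inferInstance, inferInstance, H, h1, h2, h3, h4⟩

end Cfsg.Agent.S5896
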