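import Cfsg.Statements.S5902
-- import your own Cfsg.Agent.* helpers here

set_option autoImplicit false
open Cfsg

namespace Cfsg.Agent.S5902

/-- Complements in the subgroup lattice of `X`, read inside `G`. -/
theorem exists_compl_below {G : Type*} [Group G] (X : Subgroup G)
    (hK : ComplementedLattice (Subgroup X)) (Y : Subgroup G) (hY : Y ≤ X) :
    ∃ C : Subgroup G, C ≤ X ∧ Y ⊔ C = X ∧ Y ⊓ C = ⊥ := by
  obtain ⟨C', hC'⟩ := hK.exists_isCompl (Y.subgroupOf X)
  refine ⟨C'.map X.subtype, ?_, ?_, ?_⟩
  · intro x hx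
    obtain ⟨y, -, rfl⟩ := hx
    exact y.2
  · have h1 : (Y.subgroupOf X ⊔ C').map X.subtype = X := by
      rw [codisjoint_iff.mp hC'.codisjoint, ← MonoidHom.range_eq_map, Subgroup.range_subtype]
    rw [Subgroup.map_sup, Subgroup.map_subgroupOf_eq_of_le hY] at h1
    exact h1
  · have h1 : (Y.subgroupOf X ⊓ C').map X.subtype = ⊥ := by
      rw [disjoint_iff.mp hC'.disjoint, Subgroup.map_bot]
    rw [Subgroup.map_inf _ _ _ (Subgroup.subtype_injective X), Subgroup.map_subgroupOf_eq_of_le hY] at h1
    exact h1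

/-- A subgroup not inside the unique maximal overgroup `M` of `X` has a complement. -/
theorem exists_compl_of_not_le {G : Type*} [Group G] [Finite G] (X M : Subgroup G)
    (hK : ComplementedLattice (Subgroup X))
    (hXM : X ≤ M) (huniq : ∀ M' : Subgroup G, IsCoatom M' → X ≤ M' → M' = M)
    (H : Subgroup G) (hH : ¬ H ≤ M) :
    ∃ C : Subgroup G, H ⊔ C = ⊤ ∧ H ⊓ C = ⊥ := by
  obtain ⟨C, hCX, hsup, hinf⟩ := exists_compl_below X hK (H ⊓ X) inf_le_right
  refine ⟨C, ?_, ?_⟩
  · by_contra hne
    obtain ⟨M', hM', hle⟩ := (eq_top_or_exists_le_coatom (H ⊔ C)).resolve_left hne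
    have hXM' : X ≤ M' := by
      rw [← hsup]
      exact sup_le (inf_le_left.trans (le_sup_left.trans hle)) (le_sup_right.trans hle)
    have := huniq M' hM' hXM'
    subst this
    exact hH (le_sup_left.trans hle)
  · have h1 : H ⊓ C ≤ (H ⊓ X) ⊓ C :=
      le_inf (le_inf inf_le_left (inf_le_right.trans hCX)) inf_le_right
    rw [hinf] at h1
    exact le_bot_iff.mp h1

/-- A subgroup not inside the normal core of `M` has a complement. -/
theorem exists_compl_of_not_le_core {G : Type*} [Group G] [Finite G] (X M : Subgroup G)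
    (hK : ComplementedLattice (Subgroup X))
    (hXM : X ≤ M) (huniq : ∀ M' : Subgroup G, IsCoatom M' → X ≤ M' → M' = M)
    (H : Subgroup G) (hH : ¬ H ≤ M.normalCore) :
    ∃ C : Subgroup G, H ⊔ C = ⊤ ∧ H ⊓ C = ⊥ := by
  have : ∃ h ∈ H, ∃ b : G, b * h * b⁻¹ ∉ M := by
    by_contra hcon
    push Not at hcon
    exact hH (fun h hh => fun b => hcon h hh b)
  obtain ⟨h, hh, b, hb⟩ := this
  let φ : Subgroup G ≃o Subgroup G := (MulAut.conj b).mapSubgroup
  have hφH : ¬ φ H ≤ M := by
    intro hle
    apply hb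
    apply hle
    exact ⟨h, hh, by simp [MulAut.conj_apply]⟩
  obtain ⟨C', hsup, hinf⟩ := exists_compl_of_not_le X M hK hXM huniq (φ H) hφH
  refine ⟨φ.symm C', ?_, ?_⟩
  · have := congrArg φ.symm hsup
    rw [map_sup, OrderIso.symm_apply_apply, map_top] at this
    exact this
  · have := congrArg φ.symm hinf
    rw [map_inf, OrderIso.symm_apply_apply, map_bot] at this
    exact this

/-- Let G be a finite group, X a subgroup whose own subgroup lattice is complemented, and suppose X lies in exactly one maximal subgroup M of G. Then every subgroup H of G not contained in the normal core of M has a complement in the subgroup lattice of G (some C with H ⊔ C = G and H ⊓ C = 1); in particular the subgroup lattice of G modulo the normal core of M is complemented. -/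
theorem result {G : Type*} [Group G] [Finite G] (X M : Subgroup G)
    (hK : ComplementedLattice (Subgroup X))
    (hM : IsCoatom M) (hXM : X ≤ M) (huniq : ∀ M' : Subgroup G, IsCoatom M' → X ≤ M' → M' = M) :
    (∀ H : Subgroup G, ¬ H ≤ M.normalCore → ∃ C : Subgroup G, H ⊔ C = ⊤ ∧ H ⊓ C = ⊥) ∧
    ComplementedLattice (Subgroup (G ⧸ M.normalCore)) := by
  refine ⟨fun H hH => exists_compl_of_not_le_core X M hK hXM huniq H hH, ⟨fun Hbar => ?_⟩⟩
  by_cases hbot : Hbar = ⊥
  · exact ⟨⊤, hbot ▸ isCompl_bot_top⟩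
  · have hsurj : Function.Surjective (QuotientGroup.mk' M.normalCore) := QuotientGroup.mk'_surjective _
    have hH : ¬ Hbar.comap (QuotientGroup.mk' M.normalCore) ≤ M.normalCore := by
      intro hle
      apply hbot
      rw [eq_bot_iff]
      intro x hx
      obtain ⟨y, rfl⟩ := hsurj x
      have hy : y ∈ M.normalCore := hle hx
      rw [Subgroup.mem_bot]
      exact (QuotientGroup.eq_one_iff y).mpr hy
    obtain ⟨C, hsup, hinf⟩ := exists_compl_of_not_le_core X M hK hXM huniq _ hH
    refine ⟨C.map (QuotientGroup.mk' M.normalCore), ?_, ?_⟩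
    · rw [disjoint_iff, eq_bot_iff]
      rintro x ⟨hx1, c, hc, rfl⟩
      have hcH : c ∈ Hbar.comap (QuotientGroup.mk' M.normalCore) := hx1
      have : c ∈ Hbar.comap (QuotientGroup.mk' M.normalCore) ⊓ C := ⟨hcH, hc⟩
      rw [hinf, Subgroup.mem_bot] at this
      rw [this, map_one]
      exact Subgroup.one_mem _
    · rw [codisjoint_iff]
      have h1 := congrArg (Subgroup.map (QuotientGroup.mk' M.normalCore)) hsup
      rw [Subgroup.map_sup, Subgroup.map_comap_eq_self_of_surjective hsurj,
        Subgroup.map_top_of_surjective _ hsurj] at h1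
      exact h1

end Cfsg.Agent.S5902
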