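import Cfsg.Statements.S5903
-- import your own Cfsg.Agent.* helpers here

set_option autoImplicit false
open Cfsg

namespace Cfsg.Agent.S5903

/-- The interval `[N, X]` is complemented when the subgroup lattice of `X ⧸ N` is. -/
theorem interval_compl {G : Type*} [Group G] (X N : Subgroup G) (hNX : N ≤ X)
    [(N.subgroupOf X).Normal] (hK : ComplementedLattice (Subgroup (X ⧸ N.subgroupOf X)))
    (Y : Subgroup G) (hNY : N ≤ Y) (hYX : Y ≤ X) :
    ∃ C : Subgroup G, N ≤ C ∧ C ≤ X ∧ Y ⊔ C = X ∧ Y ⊓ C = N := by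
  have hsurj : Function.Surjective (QuotientGroup.mk' (N.subgroupOf X)) :=
    QuotientGroup.mk'_surjective _
  have hker : (QuotientGroup.mk' (N.subgroupOf X)).ker = N.subgroupOf X := QuotientGroup.ker_mk' _
  obtain ⟨Cbar, hC⟩ := hK.exists_isCompl ((Y.subgroupOf X).map (QuotientGroup.mk' (N.subgroupOf X)))
  have hNY' : (QuotientGroup.mk' (N.subgroupOf X)).ker ≤ Y.subgroupOf X := by
    rw [hker]
    exact Subgroup.comap_mono hNY
  have h1 : Y.subgroupOf X ⊔ Cbar.comap (QuotientGroup.mk' (N.subgroupOf X)) = ⊤ := by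
    have := Subgroup.comap_sup_eq (QuotientGroup.mk' (N.subgroupOf X))
      ((Y.subgroupOf X).map (QuotientGroup.mk' (N.subgroupOf X))) Cbar hsurj
    rw [Subgroup.comap_map_eq_self hNY'] at this
    rw [this, codisjoint_iff.mp hC.codisjoint, Subgroup.comap_top]
  have h2 : Y.subgroupOf X ⊓ Cbar.comap (QuotientGroup.mk' (N.subgroupOf X)) = N.subgroupOf X := by
    have := Subgroup.comap_inf ((Y.subgroupOf X).map (QuotientGroup.mk' (N.subgroupOf X))) Cbar
      (QuotientGroup.mk' (N.subgroupOf X))
    rw [Subgroup.comap_map_eq_self hNY'] at this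
    rw [← this, disjoint_iff.mp hC.disjoint, MonoidHom.comap_bot, hker]
  refine ⟨(Cbar.comap (QuotientGroup.mk' (N.subgroupOf X))).map X.subtype, ?_, ?_, ?_, ?_⟩
  · have h3 : N.subgroupOf X ≤ Cbar.comap (QuotientGroup.mk' (N.subgroupOf X)) :=
      (le_of_eq hker.symm).trans (MonoidHom.ker_le_comap _ _)
    have h4 := Subgroup.map_mono (f := X.subtype) h3
    rw [Subgroup.map_subgroupOf_eq_of_le hNX] at h4
    exact h4
  · intro x hx
    obtain ⟨y, -, rfl⟩ := hx
    exact y.2
  · have h3 := congrArg (Subgroup.map X.subtype) h1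
    rw [Subgroup.map_sup, Subgroup.map_subgroupOf_eq_of_le hYX, ← MonoidHom.range_eq_map,
      Subgroup.range_subtype] at h3
    exact h3
  · have h3 := congrArg (Subgroup.map X.subtype) h2
    rw [Subgroup.map_inf _ _ _ (Subgroup.subtype_injective X), Subgroup.map_subgroupOf_eq_of_le hYX,
      Subgroup.map_subgroupOf_eq_of_le hNX] at h3
    exact h3

theorem le_of_inf_ne_bot_of_prime {G : Type*} [Group G] (N K : Subgroup G)
    (hN : (Nat.card N).Prime) (h : K ⊓ N ≠ ⊥) : N ≤ K := by
  have : Fact (Nat.card N).Prime := ⟨hN⟩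
  rcases Subgroup.eq_bot_or_eq_top_of_prime_card ((K ⊓ N).subgroupOf N) with h1 | h1
  · exfalso
    apply h
    rw [Subgroup.subgroupOf_eq_bot, disjoint_iff, inf_assoc, inf_idem] at h1
    exact h1
  · rw [Subgroup.subgroupOf_eq_top] at h1
    exact h1.trans inf_le_left

/-- Let G be a finite simple group, X a subgroup lying in exactly one maximal subgroup M of G, and N a subgroup of prime order with N ≤ X that is central in M. If the subgroup lattice of X/N is complemented, then the subgroup lattice of G is complemented. -/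
theorem result {G : Type*} [Group G] [Finite G] [IsSimpleGroup G] (X M N : Subgroup G)
    (hM : IsCoatom M) (hXM : X ≤ M) (huniq : ∀ M' : Subgroup G, IsCoatom M' → X ≤ M' → M' = M)
    (hNX : N ≤ X) (hN : (Nat.card N).Prime) (hcen : ∀ n ∈ N, ∀ m ∈ M, m * n = n * m)
    [(N.subgroupOf X).Normal] (hK : ComplementedLattice (Subgroup (X ⧸ N.subgroupOf X))) :
    ComplementedLattice (Subgroup G) := by
  refine ⟨fun H => ?_⟩
  by_cases hbot : H = ⊥
  · exact ⟨⊤, hbot ▸ isCompl_bot_top⟩
  by_cases htop : H = ⊤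
  · exact ⟨⊥, htop ▸ isCompl_top_bot⟩
  have key : ∃ b : G, ¬ (MulAut.conj b).mapSubgroup H ≤ M ∧ (MulAut.conj b).mapSubgroup H ⊓ N = ⊥ := by
    by_contra hcon
    push Not at hcon
    have hP : ∀ (c : G) (n : G), n ∈ N → ∀ h ∈ H, (c * n * c⁻¹) * h * (c * n * c⁻¹)⁻¹ ∈ H := by
      intro c n hn h hh
      by_cases hle : (MulAut.conj c⁻¹).mapSubgroup H ≤ M
      · have hm : c⁻¹ * h * c ∈ M := hle ⟨h, hh, by simp⟩
        have hcomm := hcen n hn _ hm
        have : (c * n * c⁻¹) * h * (c * n * c⁻¹)⁻¹ = h := by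
          have e1 : (c * n * c⁻¹) * h * (c * n * c⁻¹)⁻¹ = c * (n * (c⁻¹ * h * c)) * n⁻¹ * c⁻¹ := by
            group
          rw [e1, ← hcomm]
          group
        rw [this]
        exact hh
      · have hne := hcon c⁻¹ hle
        have hNle : N ≤ (MulAut.conj c⁻¹).mapSubgroup H := le_of_inf_ne_bot_of_prime N _ hN hne
        obtain ⟨h', hh', hx⟩ := hNle hn
        have : c * n * c⁻¹ = h' := by
          rw [← hx]
          simp
          group
        rw [this]
        exact H.mul_mem (H.mul_mem hh' hh) (H.inv_mem hh')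
    have hnorm : Subgroup.normalClosure (N : Set G) ≤ Subgroup.normalizer (H : Set G) := by
      rw [Subgroup.normalClosure, Subgroup.closure_le]
      intro y hy
      rw [Group.mem_conjugatesOfSet_iff] at hy
      obtain ⟨n, hn, hconj⟩ := hy
      rw [isConj_iff] at hconj
      obtain ⟨c, rfl⟩ := hconj
      rw [SetLike.mem_coe, Subgroup.mem_normalizer_iff]
      intro h
      constructor
      · exact hP c n hn h
      · intro hh
        have h5 := hP c n⁻¹ (N.inv_mem hn) _ hh
        have e2 : c * n⁻¹ * c⁻¹ * (c * n * c⁻¹ * h * (c * n * c⁻¹)⁻¹) * (c * n⁻¹ * c⁻¹)⁻¹ = h := by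
          group
        rw [e2] at h5
        exact h5
    have hNC : Subgroup.normalClosure (N : Set G) = ⊤ := by
      rcases (Subgroup.normalClosure_normal (s := (N : Set G))).eq_bot_or_eq_top with h6 | h6
      · exfalso
        have hNbot : N = ⊥ := by
          rw [eq_bot_iff, ← h6]
          exact Subgroup.subset_normalClosure
        rw [hNbot] at hN
        simp at hN
        exact Nat.not_prime_one hN
      · exact h6
    rw [hNC, top_le_iff, Subgroup.normalizer_eq_top_iff] at hnorm
    rcases hnorm.eq_bot_or_eq_top with h7 | h7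
    · exact hbot h7
    · exact htop h7
  obtain ⟨b, hb1, hb2⟩ := key
  obtain ⟨C, hNC, hCX, hsup, hinf⟩ := interval_compl X N hNX hK
    (((MulAut.conj b).mapSubgroup H ⊓ X) ⊔ N) le_sup_right (sup_le inf_le_right hNX)
  have hsup' : (MulAut.conj b).mapSubgroup H ⊔ C = ⊤ := by
    by_contra hne
    obtain ⟨M', hM', hle⟩ := (eq_top_or_exists_le_coatom ((MulAut.conj b).mapSubgroup H ⊔ C)).resolve_left hne
    have hXM' : X ≤ M' := by
      rw [← hsup]
      exact sup_le (sup_le (inf_le_left.trans (le_sup_left.trans hle))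
        (hNC.trans (le_sup_right.trans hle))) (le_sup_right.trans hle)
    have := huniq M' hM' hXM'
    subst this
    exact hb1 (le_sup_left.trans hle)
  have hinf' : (MulAut.conj b).mapSubgroup H ⊓ C = ⊥ := by
    have h1 : (MulAut.conj b).mapSubgroup H ⊓ C ≤ (((MulAut.conj b).mapSubgroup H ⊓ X) ⊔ N) ⊓ C :=
      le_inf (le_sup_of_le_left (le_inf inf_le_left (inf_le_right.trans hCX))) inf_le_right
    rw [hinf] at h1
    have h2 : (MulAut.conj b).mapSubgroup H ⊓ C ≤ (MulAut.conj b).mapSubgroup H ⊓ N :=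
      le_inf inf_le_left h1
    rw [hb2] at h2
    exact le_bot_iff.mp h2
  refine ⟨(MulAut.conj b).mapSubgroup.symm C, ?_, ?_⟩
  · rw [disjoint_iff]
    have := congrArg (MulAut.conj b).mapSubgroup.symm hinf'
    rw [map_inf, OrderIso.symm_apply_apply, map_bot] at this
    exact this
  · rw [codisjoint_iff]
    have := congrArg (MulAut.conj b).mapSubgroup.symm hsup'
    rw [map_sup, OrderIso.symm_apply_apply, map_top] at this
    exact this

end Cfsg.Agent.S5903
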