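import Cfsg.Statements.S5904
-- import your own Cfsg.Agent.* helpers here

set_option autoImplicit false
open scoped Pointwise
open Cfsg

namespace Cfsg.Agent.S5904

open scoped Pointwise in
/-- The permutations that fix or swap the two halves `O`, `Oᶜ`. -/
def pairStab {Ω : Type*} (O : Set Ω) : Subgroup (Equiv.Perm Ω) where
  carrier := {g | g • O = O ∨ g • O = Oᶜ}
  mul_mem' := by
    intro a b ha hb
    show (a * b) • O = O ∨ (a * b) • O = Oᶜ
    rw [mul_smul]
    rcases hb with hb | hb
    · rw [hb]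
      exact ha
    · rw [hb, Set.smul_set_compl]
      rcases ha with ha | ha
      · right
        rw [ha]
      · left
        rw [ha, compl_compl]
  one_mem' := Or.inl (one_smul _ _)
  inv_mem' := by
    intro a ha
    rcases ha with ha | ha
    · left
      rw [inv_smul_eq_iff]
      exact ha.symm
    · right
      rw [inv_smul_eq_iff, Set.smul_set_compl, ha, compl_compl]

/-- Let Ω be a finite set with more than two elements and O ⊆ Ω a subset with exactly as many elements as its complement. Then the setwise stabilizer of O in the symmetric group on Ω is not a maximal subgroup (it is properly contained in the stabilizer of the partition {O, Ω ∖ O}, which is proper). -/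
theorem result {Ω : Type*} [Fintype Ω] [DecidableEq Ω] (hΩ : 2 < Fintype.card Ω)
    (O : Set Ω) (hO : Nat.card O = Nat.card ↥Oᶜ) :
    ¬ IsCoatom (MulAction.stabilizer (Equiv.Perm Ω) O) := by
  classical
  intro hco
  have hcard : O.ncard + Oᶜ.ncard = Nat.card Ω := Set.ncard_add_ncard_compl O
  have hO' : O.ncard = Oᶜ.ncard := by
    rw [← Nat.card_coe_set_eq, ← Nat.card_coe_set_eq]
    exact hO
  rw [Nat.card_eq_fintype_card] at hcard
  have h2 : 1 < O.ncard := by omega
  have h2c : Oᶜ.ncard ≠ 0 := by omega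
  obtain ⟨a, a', ha, ha', haa'⟩ := (Set.one_lt_ncard_iff (Set.toFinite O)).mp h2
  obtain ⟨b, hb⟩ := Set.nonempty_of_ncard_ne_zero h2c
  have hτ : Equiv.swap a b ∉ pairStab O := by
    rintro (h | h)
    · have h3 : b ∈ Equiv.swap a b • O := ⟨a, ha, Equiv.swap_apply_left a b⟩
      rw [h] at h3
      exact hb h3
    · have h3 : a' ∈ Equiv.swap a b • O :=
        ⟨a', ha', Equiv.swap_apply_of_ne_of_ne haa'.symm (by rintro rfl; exact hb ha')⟩
      rw [h] at h3
      exact h3 ha'
  obtain ⟨e⟩ : Nonempty (O ≃ (Oᶜ : Set Ω)) := Finite.card_eq.mp hO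
  let σ : Equiv.Perm Ω := (Equiv.Set.sumCompl O).symm.trans
    (((Equiv.sumComm _ _).trans (Equiv.sumCongr e.symm e)).trans (Equiv.Set.sumCompl O))
  have hσapp : ∀ (y : Ω) (hy : y ∈ O), σ y = e ⟨y, hy⟩ := by
    intro y hy
    simp [σ, Equiv.Set.sumCompl_symm_apply_of_mem hy]
  have hσ : σ • O = Oᶜ := by
    apply Set.Subset.antisymm
    · rintro _ ⟨y, hy, rfl⟩
      show σ y ∈ Oᶜ
      rw [hσapp y hy]
      exact (e ⟨y, hy⟩).2
    · intro x hx
      refine ⟨(e.symm ⟨x, hx⟩ : Ω), (e.symm ⟨x, hx⟩).2, ?_⟩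
      show σ (e.symm ⟨x, hx⟩ : Ω) = x
      rw [hσapp _ (e.symm ⟨x, hx⟩).2]
      simp
  have hle : MulAction.stabilizer (Equiv.Perm Ω) O ≤ pairStab O := fun g hg => Or.inl hg
  have hlt : MulAction.stabilizer (Equiv.Perm Ω) O < pairStab O := by
    refine lt_of_le_of_ne hle (fun heq => ?_)
    have h4 : σ ∈ pairStab O := Or.inr hσ
    rw [← heq] at h4
    have h5 : σ • O = O := h4
    rw [hσ] at h5
    have h6 : a ∈ Oᶜ := by
      rw [h5]
      exact ha
    exact h6 ha
  have h7 := hco.2 _ hlt
  exact hτ (h7 ▸ Subgroup.mem_top _)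

end Cfsg.Agent.S5904
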