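import Cfsg.Statements.S5908
-- import your own Cfsg.Agent.* helpers here

set_option autoImplicit false
open Cfsg

namespace Cfsg.Agent.S5908


open Matrix Pointwise

/-! ### A Boolean model of the field with four elements -/

abbrev E := Bool × Bool

def eadd (a b : E) : E := (xor a.1 b.1, xor a.2 b.2)

def emul (a b : E) : E :=
  (xor (a.1 && b.1) (a.2 && b.2), xor (xor (a.1 && b.2) (a.2 && b.1)) (a.2 && b.2))

def eisz (a : E) : Bool := !a.1 && !a.2

def eis1 (a : E) : Bool := a.1 && !a.2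

def herm4 (a1 a2 a3 b1 b2 b3 : E) : E :=
  eadd (eadd (emul a1 (emul b1 b1)) (emul a2 (emul b2 b2))) (emul a3 (emul b3 b3))

def det4 (a1 a2 a3 b1 b2 b3 c1 c2 c3 : E) : E :=
  eadd (eadd (eadd (emul (emul a1 b2) c3) (emul (emul a1 c2) b3))
    (eadd (emul (emul b1 a2) c3) (emul (emul b1 c2) a3)))
    (eadd (emul (emul c1 a2) b3) (emul (emul c1 b2) a3))

def mm (x1 x2 x3 r1 r2 r3 : E) : E := eadd (eadd (emul x1 r1) (emul x2 r2)) (emul x3 r3)

def cm3 (x1 x2 x3 : E) : Bool :=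
  (eisz x1 && eisz x2) || (eisz x1 && eisz x3) || (eisz x2 && eisz x3)

def zf (Y : Fin 3 → Fin 3 → E) (i j : Fin 3) : E :=
  mm (Y i 0) (Y i 1) (Y i 2) (Y 0 j) (Y 1 j) (Y 2 j)

def concl (Y : Fin 3 → Fin 3 → E) : Bool :=
  cm3 (zf Y 0 0) (zf Y 1 0) (zf Y 2 0) && cm3 (zf Y 0 1) (zf Y 1 1) (zf Y 2 1) &&
    cm3 (zf Y 0 2) (zf Y 1 2) (zf Y 2 2) &&
  (!(eisz (zf Y 1 0) && eisz (zf Y 2 0) && eisz (zf Y 0 1) && eisz (zf Y 2 1) &&
      eisz (zf Y 0 2) && eisz (zf Y 1 2)) ||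
    (cm3 (Y 0 0) (Y 1 0) (Y 2 0) && cm3 (Y 0 1) (Y 1 1) (Y 2 1) && cm3 (Y 0 2) (Y 1 2) (Y 2 2)))

def mk9 (a1 a2 a3 b1 b2 b3 c1 c2 c3 : E) : Fin 3 → Fin 3 → E :=
  ![![a1, b1, c1], ![a2, b2, c2], ![a3, b3, c3]]

def allE (f : E → Bool) : Bool :=
  f (false, false) && f (true, false) && f (false, true) && f (true, true)

def chk : Bool :=
  allE fun a1 => allE fun a2 => allE fun a3 =>
    !(eis1 (herm4 a1 a2 a3 a1 a2 a3)) ||
    (allE fun b1 => allE fun b2 => allE fun b3 =>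
      !(eis1 (herm4 b1 b2 b3 b1 b2 b3) && eisz (herm4 a1 a2 a3 b1 b2 b3)) ||
      (allE fun c1 => allE fun c2 => allE fun c3 =>
        !(eis1 (herm4 c1 c2 c3 c1 c2 c3) && eisz (herm4 a1 a2 a3 c1 c2 c3) &&
            eisz (herm4 b1 b2 b3 c1 c2 c3) && eis1 (det4 a1 a2 a3 b1 b2 b3 c1 c2 c3)) ||
        concl (mk9 a1 a2 a3 b1 b2 b3 c1 c2 c3)))

theorem chk_true : chk = true := by decide +kernel

theorem allE_spec (f : E → Bool) (h : allE f = true) (e : E) : f e = true := by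
  unfold allE at h
  simp only [Bool.and_eq_true] at h
  obtain ⟨⟨⟨h1, h2⟩, h3⟩, h4⟩ := h
  rcases e with ⟨_ | _, _ | _⟩
  · exact h1
  · exact h3
  · exact h2
  · exact h4

theorem chk_spec (a1 a2 a3 b1 b2 b3 c1 c2 c3 : E)
    (ha : eis1 (herm4 a1 a2 a3 a1 a2 a3) = true)
    (hb : eis1 (herm4 b1 b2 b3 b1 b2 b3) = true) (hab : eisz (herm4 a1 a2 a3 b1 b2 b3) = true)
    (hc : eis1 (herm4 c1 c2 c3 c1 c2 c3) = true) (hac : eisz (herm4 a1 a2 a3 c1 c2 c3) = true)
    (hbc : eisz (herm4 b1 b2 b3 c1 c2 c3) = true)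
    (hdet : eis1 (det4 a1 a2 a3 b1 b2 b3 c1 c2 c3) = true) :
    concl (mk9 a1 a2 a3 b1 b2 b3 c1 c2 c3) = true := by
  have h := chk_true
  unfold chk at h
  have h1 := allE_spec _ (allE_spec _ (allE_spec _ h a1) a2) a3
  beta_reduce at h1
  rw [ha] at h1
  simp only [Bool.not_true, Bool.false_or] at h1
  have h2 := allE_spec _ (allE_spec _ (allE_spec _ h1 b1) b2) b3
  beta_reduce at h2
  rw [hb, hab] at h2
  simp only [Bool.and_self, Bool.not_true, Bool.false_or] at h2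
  have h3 := allE_spec _ (allE_spec _ (allE_spec _ h2 c1) c2) c3
  beta_reduce at h3
  rw [hc, hac, hbc, hdet] at h3
  simpa using h3

def hcm (Y : Fin 3 → Fin 3 → E) (i j : Fin 3) : E :=
  herm4 (Y 0 i) (Y 1 i) (Y 2 i) (Y 0 j) (Y 1 j) (Y 2 j)

def isSU (Y : Fin 3 → Fin 3 → E) : Bool :=
  decide (∀ i j : Fin 3, (if i = j then eis1 (hcm Y i j) else eisz (hcm Y i j)) = true) &&
    eis1 (det4 (Y 0 0) (Y 1 0) (Y 2 0) (Y 0 1) (Y 1 1) (Y 2 1) (Y 0 2) (Y 1 2) (Y 2 2))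

/-- The Fourier matrix. -/
def Yf : Fin 3 → Fin 3 → E :=
  ![![(true, false), (true, false), (true, false)],
    ![(true, false), (false, true), (true, true)],
    ![(true, false), (true, true), (false, true)]]

/-- The diagonal matrix with entries `1, ω, ω²`. -/
def Yd : Fin 3 → Fin 3 → E :=
  ![![(true, false), (false, false), (false, false)],
    ![(false, false), (false, true), (false, false)],
    ![(false, false), (false, false), (true, true)]]

theorem isSU_Yf : isSU Yf = true := by decide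

theorem isSU_Yd : isSU Yd = true := by decide

theorem Yd_diag : ∀ i j : Fin 3, i ≠ j → Yd i i ≠ Yd j j := by decide

theorem Yd_off : ∀ i j : Fin 3, i ≠ j → eisz (Yd i j) = true := by decide

/-! ### The abstract field with four elements -/

section abs

variable {F : Type*} [Field F]

def β (b : Bool) : F := if b then 1 else 0

def enc (ω : F) (e : E) : F := β e.1 + β e.2 * ω

theorem β_and (x y : Bool) : (β (x && y) : F) = β x * β y := by
  cases x <;> cases y <;> simp [β]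

theorem β_xor (h2 : (2 : F) = 0) (x y : Bool) : (β (xor x y) : F) = β x + β y := by
  cases x <;> cases y
  · simp [β]
  · simp [β]
  · simp [β]
  · show (0 : F) = 1 + 1
    linear_combination -h2

theorem enc_add (h2 : (2 : F) = 0) (ω : F) (a b : E) :
    enc ω (eadd a b) = enc ω a + enc ω b := by
  simp only [enc, eadd, β_xor h2]; ring

theorem enc_mul (h2 : (2 : F) = 0) (ω : F) (hω : ω ^ 2 = ω + 1) (a b : E) :
    enc ω (emul a b) = enc ω a * enc ω b := by
  simp only [enc, emul, β_xor h2, β_and]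
  linear_combination (-(β a.2 * β b.2)) * hω

theorem eisz_of (h2 : (2 : F) = 0) (ω : F) (hω0 : ω ≠ 0) (hω1 : ω ≠ 1) (e : E)
    (h : enc ω e = 0) : eisz e = true := by
  rcases e with ⟨_ | _, _ | _⟩
  · rfl
  · exfalso; apply hω0
    have h' : (0 : F) + 1 * ω = 0 := h
    linear_combination h'
  · exfalso
    have h' : (1 : F) + 0 * ω = 0 := h
    have : (1 : F) = 0 := by linear_combination h'
    exact one_ne_zero this
  · exfalso; apply hω1
    have h' : (1 : F) + 1 * ω = 0 := h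
    linear_combination h' - h2

theorem enc_of_eisz (ω : F) (e : E) (h : eisz e = true) : enc ω e = 0 := by
  rcases e with ⟨_ | _, _ | _⟩
  · simp [enc, β]
  · exact absurd h (by decide)
  · exact absurd h (by decide)
  · exact absurd h (by decide)

theorem eis1_of (ω : F) (hω0 : ω ≠ 0) (hω1 : ω ≠ 1) (e : E)
    (h : enc ω e = 1) : eis1 e = true := by
  rcases e with ⟨_ | _, _ | _⟩
  · exfalso
    have h' : (0 : F) + 0 * ω = 1 := h
    have : (1 : F) = 0 := by linear_combination -h'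
    exact one_ne_zero this
  · exfalso; apply hω1
    have h' : (0 : F) + 1 * ω = 1 := h
    linear_combination h'
  · rfl
  · exfalso; apply hω0
    have h' : (1 : F) + 1 * ω = 1 := h
    linear_combination h'

theorem enc_of_eis1 (ω : F) (e : E) (h : eis1 e = true) : enc ω e = 1 := by
  rcases e with ⟨_ | _, _ | _⟩
  · exact absurd h (by decide)
  · exact absurd h (by decide)
  · simp [enc, β]
  · exact absurd h (by decide)

theorem enc_inj (h2 : (2 : F) = 0) (ω : F) (hω0 : ω ≠ 0) (hω1 : ω ≠ 1) :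
    Function.Injective (enc ω) := by
  intro a b hab
  have h0 : enc ω (eadd a b) = 0 := by
    rw [enc_add h2, hab]; linear_combination (enc ω b) * h2
  have hz := eisz_of h2 ω hω0 hω1 _ h0
  clear h0 hab
  rcases a with ⟨a1, a2⟩
  rcases b with ⟨b1, b2⟩
  revert hz
  cases a1 <;> cases a2 <;> cases b1 <;> cases b2 <;> decide

theorem enc_surj [Fintype F] (hF : Fintype.card F = 4) (h2 : (2 : F) = 0) (ω : F) (hω0 : ω ≠ 0)
    (hω1 : ω ≠ 1) (x : F) : ∃ e : E, enc ω e = x := by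
  have hbij : Function.Bijective (enc ω) := by
    rw [Fintype.bijective_iff_injective_and_card]
    refine ⟨enc_inj h2 ω hω0 hω1, ?_⟩
    rw [hF]; rfl
  exact hbij.2 x

theorem two_zero [Fintype F] (hF : Fintype.card F = 4) : (2 : F) = 0 := by
  have h4 : ((Fintype.card F : ℕ) : F) = 0 := Nat.cast_card_eq_zero F
  rw [hF] at h4
  have h : (2 : F) * 2 = 0 := by
    have e : ((4 : ℕ) : F) = 2 * 2 := by norm_num
    rw [← e]; exact h4
  exact mul_self_eq_zero.mp h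

theorem exists_omega [Fintype F] (hF : Fintype.card F = 4) (h2 : (2 : F) = 0) :
    ∃ ω : F, ω ≠ 0 ∧ ω ≠ 1 ∧ ω ^ 2 = ω + 1 := by
  classical
  have hlt : ({0, 1} : Finset F).card < (Finset.univ : Finset F).card := by
    have := Finset.card_le_two (a := (0 : F)) (b := 1)
    rw [Finset.card_univ, hF]; omega
  obtain ⟨ω, -, hω⟩ := Finset.exists_mem_notMem_of_card_lt_card hlt
  simp only [Finset.mem_insert, Finset.mem_singleton, not_or] at hω
  refine ⟨ω, hω.1, hω.2, ?_⟩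
  have h3 : ω ^ 3 = 1 := by
    have := FiniteField.pow_card_sub_one_eq_one ω hω.1
    rwa [hF] at this
  have hfac : (ω - 1) * (ω ^ 2 + ω + 1) = 0 := by linear_combination h3
  rcases mul_eq_zero.mp hfac with h | h
  · exact absurd (sub_eq_zero.mp h) hω.2
  · linear_combination h - (ω + 1) * h2

/-- Vectors with at most one non-zero coordinate. -/
def S1 (F : Type*) [Field F] : Set (Fin 3 → F) := {v | ∀ i j, v i ≠ 0 → v j ≠ 0 → i = j}

/-- Every column has at most one non-zero entry. -/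
def CM (A : Matrix (Fin 3) (Fin 3) F) : Prop := ∀ j, (fun i => A i j) ∈ S1 F

/-- The monomial subgroup. -/
def K0 (F : Type*) [Field F] : Subgroup (Matrix.SpecialLinearGroup (Fin 3) F) :=
  MulAction.stabilizer _ (S1 F)

theorem mem_K0 [Finite F] (g : Matrix.SpecialLinearGroup (Fin 3) F) :
    g ∈ K0 F ↔ CM (g : Matrix (Fin 3) (Fin 3) F) := by
  unfold K0
  rw [MulAction.mem_stabilizer_set' (Set.toFinite _)]
  constructor
  · intro h j
    have h1 : (Pi.single j 1 : Fin 3 → F) ∈ S1 F := by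
      intro i i' hi hi'
      rw [Pi.single_apply] at hi hi'
      by_cases h1 : i = j
      · by_cases h2 : i' = j
        · exact h1.trans h2.symm
        · rw [if_neg h2] at hi'; exact absurd rfl hi'
      · rw [if_neg h1] at hi; exact absurd rfl hi
    have h2 := h h1
    have h3 : g • (Pi.single j 1 : Fin 3 → F) = fun i => (g : Matrix (Fin 3) (Fin 3) F) i j := by
      rw [Matrix.SpecialLinearGroup.smul_def, Matrix.smul_eq_mulVec, Matrix.mulVec_single_one]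
      rfl
    rw [h3] at h2
    exact h2
  · intro h v hv i i' hi hi'
    have e : ∀ i, (g • v) i = ∑ k, (g : Matrix (Fin 3) (Fin 3) F) i k * v k := by
      intro i; rfl
    rw [e] at hi hi'
    obtain ⟨k, -, hk⟩ := Finset.exists_ne_zero_of_sum_ne_zero hi
    obtain ⟨k', -, hk'⟩ := Finset.exists_ne_zero_of_sum_ne_zero hi'
    have hvk : v k ≠ 0 := right_ne_zero_of_mul hk
    have hvk' : v k' ≠ 0 := right_ne_zero_of_mul hk'
    have hkk : k = k' := hv k k' hvk hvk'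
    subst hkk
    exact h k i i' (left_ne_zero_of_mul hk) (left_ne_zero_of_mul hk')

theorem cm3_spec (ω : F) (x1 x2 x3 : E) (v : Fin 3 → F) (e0 : enc ω x1 = v 0)
    (e1 : enc ω x2 = v 1) (e2 : enc ω x3 = v 2) (h : cm3 x1 x2 x3 = true) : v ∈ S1 F := by
  unfold cm3 at h
  simp only [Bool.or_eq_true, Bool.and_eq_true] at h
  intro i j hi hj
  rcases h with (⟨a, b⟩ | ⟨a, b⟩) | ⟨a, b⟩
  · have v0 : v 0 = 0 := by rw [← e0]; exact enc_of_eisz ω _ a
    have v1 : v 1 = 0 := by rw [← e1]; exact enc_of_eisz ω _ b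
    fin_cases i <;> fin_cases j <;>
      first | rfl | exact absurd v0 hi | exact absurd v1 hi | exact absurd v0 hj | exact absurd v1 hj
  · have v0 : v 0 = 0 := by rw [← e0]; exact enc_of_eisz ω _ a
    have v2 : v 2 = 0 := by rw [← e2]; exact enc_of_eisz ω _ b
    fin_cases i <;> fin_cases j <;>
      first | rfl | exact absurd v0 hi | exact absurd v2 hi | exact absurd v0 hj | exact absurd v2 hj
  · have v1 : v 1 = 0 := by rw [← e1]; exact enc_of_eisz ω _ a
    have v2 : v 2 = 0 := by rw [← e2]; exact enc_of_eisz ω _ b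
    fin_cases i <;> fin_cases j <;>
      first | rfl | exact absurd v1 hi | exact absurd v2 hi | exact absurd v1 hj | exact absurd v2 hj

theorem pres_of_cols (h2 : (2 : F) = 0) (A : Matrix (Fin 3) (Fin 3) F)
    (h : ∀ i j : Fin 3, A 0 i * A 0 j ^ 2 + A 1 i * A 1 j ^ 2 + A 2 i * A 2 j ^ 2 =
      if i = j then 1 else 0) (u v : Fin 3 → F) :
    Cfsg.hermForm 3 F 2 (A *ᵥ u) (A *ᵥ v) = Cfsg.hermForm 3 F 2 u v := by
  have h00 := (h 0 0).trans (if_pos rfl)
  have h11 := (h 1 1).trans (if_pos rfl)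
  have h22 := (h 2 2).trans (if_pos rfl)
  have h01 := (h 0 1).trans (if_neg (by decide))
  have h02 := (h 0 2).trans (if_neg (by decide))
  have h10 := (h 1 0).trans (if_neg (by decide))
  have h12 := (h 1 2).trans (if_neg (by decide))
  have h20 := (h 2 0).trans (if_neg (by decide))
  have h21 := (h 2 1).trans (if_neg (by decide))
  simp only [Cfsg.hermForm, Matrix.mulVec, dotProduct, Fin.sum_univ_three]
  linear_combination (u 0 * v 0 ^ 2) * h00 + (u 0 * v 1 ^ 2) * h01 + (u 0 * v 2 ^ 2) * h02 +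
    (u 1 * v 0 ^ 2) * h10 + (u 1 * v 1 ^ 2) * h11 + (u 1 * v 2 ^ 2) * h12 +
    (u 2 * v 0 ^ 2) * h20 + (u 2 * v 1 ^ 2) * h21 + (u 2 * v 2 ^ 2) * h22 +
    ((A 0 0 * u 0 + A 0 1 * u 1 + A 0 2 * u 2) *
        (A 0 0 * v 0 * (A 0 1 * v 1) + A 0 0 * v 0 * (A 0 2 * v 2) + A 0 1 * v 1 * (A 0 2 * v 2)) +
      (A 1 0 * u 0 + A 1 1 * u 1 + A 1 2 * u 2) *
        (A 1 0 * v 0 * (A 1 1 * v 1) + A 1 0 * v 0 * (A 1 2 * v 2) + A 1 1 * v 1 * (A 1 2 * v 2)) +
      (A 2 0 * u 0 + A 2 1 * u 1 + A 2 2 * u 2) *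
        (A 2 0 * v 0 * (A 2 1 * v 1) + A 2 0 * v 0 * (A 2 2 * v 2) + A 2 1 * v 1 * (A 2 2 * v 2))) * h2

theorem of_model (h2 : (2 : F) = 0) (ω : F) (hω : ω ^ 2 = ω + 1)
    (Y : Fin 3 → Fin 3 → E) (hY : isSU Y = true) :
    ∃ y : Cfsg.SU 3 F 2, ∀ i j, (y.1 : Matrix (Fin 3) (Fin 3) F) i j = enc ω (Y i j) := by
  unfold isSU at hY
  rw [Bool.and_eq_true, decide_eq_true_eq] at hY
  obtain ⟨hu, hd⟩ := hY
  have hdet : (Matrix.of fun i j => enc ω (Y i j) : Matrix (Fin 3) (Fin 3) F).det = 1 := by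
    rw [Matrix.det_fin_three]
    have h := enc_of_eis1 ω _ hd
    simp only [det4, enc_add h2, enc_mul h2 ω hω] at h
    simp only [Matrix.of_apply]
    linear_combination h - (enc ω (Y 0 0) * enc ω (Y 1 2) * enc ω (Y 2 1) +
      enc ω (Y 0 1) * enc ω (Y 1 0) * enc ω (Y 2 2) + enc ω (Y 0 2) * enc ω (Y 1 1) * enc ω (Y 2 0)) * h2
  have hcols : ∀ i j : Fin 3, enc ω (Y 0 i) * enc ω (Y 0 j) ^ 2 + enc ω (Y 1 i) * enc ω (Y 1 j) ^ 2 +
      enc ω (Y 2 i) * enc ω (Y 2 j) ^ 2 = if i = j then 1 else 0 := by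
    intro i j
    have h := hu i j
    have e : enc ω (hcm Y i j) = enc ω (Y 0 i) * enc ω (Y 0 j) ^ 2 +
        enc ω (Y 1 i) * enc ω (Y 1 j) ^ 2 + enc ω (Y 2 i) * enc ω (Y 2 j) ^ 2 := by
      simp only [hcm, herm4, enc_add h2, enc_mul h2 ω hω]; ring
    rw [← e]
    by_cases hij : i = j
    · rw [if_pos hij] at h ⊢; exact enc_of_eis1 ω _ h
    · rw [if_neg hij] at h ⊢; exact enc_of_eisz ω _ h
  refine ⟨⟨⟨Matrix.of fun i j => enc ω (Y i j), hdet⟩, ?_⟩, fun i j => rfl⟩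
  show ∀ u v, Cfsg.hermForm 3 F 2 ((Matrix.of fun i j => enc ω (Y i j) : Matrix (Fin 3) (Fin 3) F) *ᵥ u)
    ((Matrix.of fun i j => enc ω (Y i j) : Matrix (Fin 3) (Fin 3) F) *ᵥ v) = Cfsg.hermForm 3 F 2 u v
  intro u v
  exact pres_of_cols h2 _ (fun i j => hcols i j) u v

theorem key [Fintype F] (hF : Fintype.card F = 4) (h2 : (2 : F) = 0) (ω : F) (hω0 : ω ≠ 0)
    (hω1 : ω ≠ 1) (hω : ω ^ 2 = ω + 1) (y : Cfsg.SU 3 F 2) :
    CM ((y.1 : Matrix (Fin 3) (Fin 3) F) * (y.1 : Matrix (Fin 3) (Fin 3) F)) ∧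
    ((∀ i j : Fin 3, i ≠ j →
        ((y.1 : Matrix (Fin 3) (Fin 3) F) * (y.1 : Matrix (Fin 3) (Fin 3) F)) i j = 0) →
      CM (y.1 : Matrix (Fin 3) (Fin 3) F)) := by
  obtain ⟨A, hA⟩ : ∃ A : Matrix (Fin 3) (Fin 3) F, A = (y.1 : Matrix (Fin 3) (Fin 3) F) := ⟨_, rfl⟩
  rw [← hA]
  have hy : ∀ u v, Cfsg.hermForm 3 F 2 (A *ᵥ u) (A *ᵥ v) = Cfsg.hermForm 3 F 2 u v := by
    rw [hA]; exact y.2
  have hdetA : A.det = 1 := by rw [hA]; exact y.1.2
  have hcol : ∀ i j : Fin 3, A 0 i * A 0 j ^ 2 + A 1 i * A 1 j ^ 2 + A 2 i * A 2 j ^ 2 =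
      if i = j then 1 else 0 := by
    intro i j
    have h := hy (Pi.single i (1 : F) : Fin 3 → F) (Pi.single j (1 : F) : Fin 3 → F)
    rw [Matrix.mulVec_single_one, Matrix.mulVec_single_one] at h
    simp only [Cfsg.hermForm, Fin.sum_univ_three] at h
    have h' : ((Pi.single i (1 : F) : Fin 3 → F) 0) * ((Pi.single j (1 : F) : Fin 3 → F) 0) ^ 2 +
        ((Pi.single i (1 : F) : Fin 3 → F) 1) * ((Pi.single j (1 : F) : Fin 3 → F) 1) ^ 2 +
        ((Pi.single i (1 : F) : Fin 3 → F) 2) * ((Pi.single j (1 : F) : Fin 3 → F) 2) ^ 2 =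
        if i = j then 1 else 0 := by
      fin_cases i <;> fin_cases j <;> simp [Pi.single_apply]
    rw [h'] at h
    exact h
  obtain ⟨Y, hYe⟩ : ∃ Y : Fin 3 → Fin 3 → E, ∀ i j, enc ω (Y i j) = A i j := by
    have hs := fun i j => enc_surj hF h2 ω hω0 hω1 (A i j)
    choose Y hY using hs
    exact ⟨Y, hY⟩
  have hh : ∀ i j : Fin 3, enc ω (herm4 (Y 0 i) (Y 1 i) (Y 2 i) (Y 0 j) (Y 1 j) (Y 2 j)) =
      if i = j then 1 else 0 := by
    intro i j
    rw [← hcol i j]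
    simp only [herm4, enc_add h2, enc_mul h2 ω hω, hYe]; ring
  have hd4 : enc ω (det4 (Y 0 0) (Y 1 0) (Y 2 0) (Y 0 1) (Y 1 1) (Y 2 1) (Y 0 2) (Y 1 2) (Y 2 2)) = 1 := by
    rw [Matrix.det_fin_three] at hdetA
    simp only [det4, enc_add h2, enc_mul h2 ω hω, hYe]
    linear_combination hdetA + (A 0 0 * A 1 2 * A 2 1 + A 0 1 * A 1 0 * A 2 2 + A 0 2 * A 1 1 * A 2 0) * h2
  have hc := chk_spec (Y 0 0) (Y 1 0) (Y 2 0) (Y 0 1) (Y 1 1) (Y 2 1) (Y 0 2) (Y 1 2) (Y 2 2)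
    (eis1_of ω hω0 hω1 _ ((hh 0 0).trans (if_pos rfl)))
    (eis1_of ω hω0 hω1 _ ((hh 1 1).trans (if_pos rfl)))
    (eisz_of h2 ω hω0 hω1 _ ((hh 0 1).trans (if_neg (by decide))))
    (eis1_of ω hω0 hω1 _ ((hh 2 2).trans (if_pos rfl)))
    (eisz_of h2 ω hω0 hω1 _ ((hh 0 2).trans (if_neg (by decide))))
    (eisz_of h2 ω hω0 hω1 _ ((hh 1 2).trans (if_neg (by decide))))
    (eis1_of ω hω0 hω1 _ hd4)
  have hmk : mk9 (Y 0 0) (Y 1 0) (Y 2 0) (Y 0 1) (Y 1 1) (Y 2 1) (Y 0 2) (Y 1 2) (Y 2 2) = Y := by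
    funext i j; fin_cases i <;> fin_cases j <;> rfl
  rw [hmk] at hc
  have hz : ∀ i j : Fin 3, enc ω (zf Y i j) = (A * A) i j := by
    intro i j
    rw [Matrix.mul_apply, Fin.sum_univ_three]
    simp only [zf, mm, enc_add h2, enc_mul h2 ω hω, hYe]
  unfold concl at hc
  rw [Bool.and_eq_true, Bool.and_eq_true, Bool.and_eq_true] at hc
  obtain ⟨⟨⟨c0, c1⟩, c2⟩, c3⟩ := hc
  constructor
  · intro j
    fin_cases j
    · exact cm3_spec ω (zf Y 0 0) (zf Y 1 0) (zf Y 2 0) _ (hz 0 0) (hz 1 0) (hz 2 0) c0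
    · exact cm3_spec ω (zf Y 0 1) (zf Y 1 1) (zf Y 2 1) _ (hz 0 1) (hz 1 1) (hz 2 1) c1
    · exact cm3_spec ω (zf Y 0 2) (zf Y 1 2) (zf Y 2 2) _ (hz 0 2) (hz 1 2) (hz 2 2) c2
  · intro hoff
    have hdiag : (eisz (zf Y 1 0) && eisz (zf Y 2 0) && eisz (zf Y 0 1) && eisz (zf Y 2 1) &&
        eisz (zf Y 0 2) && eisz (zf Y 1 2)) = true := by
      have q : ∀ i j : Fin 3, i ≠ j → eisz (zf Y i j) = true := by
        intro i j hij
        apply eisz_of h2 ω hω0 hω1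
        rw [hz]; exact hoff i j hij
      rw [q 1 0 (by decide), q 2 0 (by decide), q 0 1 (by decide), q 2 1 (by decide),
        q 0 2 (by decide), q 1 2 (by decide)]
      rfl
    rw [hdiag] at c3
    have c4 : (cm3 (Y 0 0) (Y 1 0) (Y 2 0) && cm3 (Y 0 1) (Y 1 1) (Y 2 1) &&
        cm3 (Y 0 2) (Y 1 2) (Y 2 2)) = true := by simpa using c3
    rw [Bool.and_eq_true, Bool.and_eq_true] at c4
    obtain ⟨⟨d0, d1⟩, d2⟩ := c4
    intro j
    fin_cases j
    · exact cm3_spec ω (Y 0 0) (Y 1 0) (Y 2 0) _ (hYe 0 0) (hYe 1 0) (hYe 2 0) d0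
    · exact cm3_spec ω (Y 0 1) (Y 1 1) (Y 2 1) _ (hYe 0 1) (hYe 1 1) (hYe 2 1) d1
    · exact cm3_spec ω (Y 0 2) (Y 1 2) (Y 2 2) _ (hYe 0 2) (hYe 1 2) (hYe 2 2) d2

end abs

theorem no_compl {G : Type*} [Group G] [Finite G] (H : Subgroup G) (hH : H ≠ ⊤)
    (hsq : ∀ g : G, g * g ∈ H) (hinv : ∀ g : G, g * g = 1 → g ∈ H) :
    ¬ ComplementedLattice (Subgroup G) := by
  intro hc
  obtain ⟨X, hX⟩ := exists_isCompl H
  have hXbot : X = ⊥ := by
    by_contra hne
    have hcard : Nat.card X ≠ 1 := by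
      intro h1
      exact hne (Subgroup.card_eq_one.mp h1)
    have hpp : (Nat.card X).minFac.Prime := Nat.minFac_prime hcard
    haveI : Fact (Nat.card X).minFac.Prime := ⟨hpp⟩
    obtain ⟨x, hx⟩ := exists_prime_orderOf_dvd_card' (G := X) (Nat.card X).minFac (Nat.minFac_dvd _)
    generalize (Nat.card X).minFac = p at hpp hx
    have hxp : (x : G) ^ p = 1 := by
      have h := pow_orderOf_eq_one x
      rw [hx] at h
      have h' := congrArg Subtype.val h
      simpa using h'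
    have hxH : (x : G) ∈ H := by
      rcases hpp.eq_two_or_odd' with h2 | hodd
      · apply hinv
        rw [← pow_two, ← h2]; exact hxp
      · obtain ⟨k, hk⟩ := hodd
        have e : (x : G) = ((x : G) * (x : G)) ^ (k + 1) := by
          rw [← pow_two, ← pow_mul]
          have e2 : 2 * (k + 1) = p + 1 := by omega
          rw [e2, pow_succ, hxp, one_mul]
        rw [e]
        exact H.pow_mem (hsq _) _
    have hmem : (x : G) ∈ H ⊓ X := ⟨hxH, x.2⟩
    rw [hX.inf_eq_bot] at hmem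
    have hx1 : (x : G) = 1 := Subgroup.mem_bot.mp hmem
    have hx1' : x = 1 := Subtype.ext hx1
    rw [hx1', orderOf_one] at hx
    exact hpp.one_lt.ne' hx.symm
  apply hH
  have h := hX.sup_eq_top
  rw [hXbot, sup_bot_eq] at h
  exact h

/-- The subgroup lattice of PSU₃(2) (the solvable group of order 72, realised over the field with 4 elements) is not complemented: some subgroup H has no subgroup X with H ⊔ X = ⊤ and H ⊓ X = ⊥. -/
theorem result {F : Type*} [Field F] [Fintype F] (hF : Fintype.card F = 4) :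
    ¬ ComplementedLattice (Subgroup (Cfsg.PSU 3 F 2)) := by
  classical
  have h2 : (2 : F) = 0 := two_zero hF
  obtain ⟨ω, hω0, hω1, hω⟩ := exists_omega hF h2
  obtain ⟨KS, hKS⟩ : ∃ KS : Subgroup (Cfsg.SU 3 F 2), ∀ y : Cfsg.SU 3 F 2,
      y ∈ KS ↔ CM (y.1 : Matrix (Fin 3) (Fin 3) F) :=
    ⟨(K0 F).subgroupOf (Cfsg.SU 3 F 2), fun y => by rw [Subgroup.mem_subgroupOf, mem_K0]⟩
  -- central elements are diagonal
  have hoffc : ∀ c : Cfsg.SU 3 F 2, c ∈ Subgroup.center (Cfsg.SU 3 F 2) →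
      ∀ i j : Fin 3, i ≠ j → (c.1 : Matrix (Fin 3) (Fin 3) F) i j = 0 := by
    intro c hc i j hij
    obtain ⟨d, hd⟩ := of_model h2 ω hω Yd isSU_Yd
    have hcomm : d * c = c * d := Subgroup.mem_center_iff.mp hc d
    have hmat : (d.1 : Matrix (Fin 3) (Fin 3) F) * (c.1 : Matrix (Fin 3) (Fin 3) F) =
        (c.1 : Matrix (Fin 3) (Fin 3) F) * (d.1 : Matrix (Fin 3) (Fin 3) F) :=
      congrArg (fun z : Cfsg.SU 3 F 2 => (z.1 : Matrix (Fin 3) (Fin 3) F)) hcomm
    have hD : ∀ a b : Fin 3, (d.1 : Matrix (Fin 3) (Fin 3) F) a b =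
        if a = b then (d.1 : Matrix (Fin 3) (Fin 3) F) a a else 0 := by
      intro a b
      by_cases hab : a = b
      · subst hab; rw [if_pos rfl]
      · rw [if_neg hab, hd]; exact enc_of_eisz ω _ (Yd_off a b hab)
    have e := congrFun (congrFun hmat i) j
    rw [Matrix.mul_apply, Matrix.mul_apply] at e
    have e1 : ∑ k, (d.1 : Matrix (Fin 3) (Fin 3) F) i k * (c.1 : Matrix (Fin 3) (Fin 3) F) k j =
        (d.1 : Matrix (Fin 3) (Fin 3) F) i i * (c.1 : Matrix (Fin 3) (Fin 3) F) i j := by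
      rw [Finset.sum_eq_single i]
      · intro k _ hk
        rw [hD i k, if_neg (Ne.symm hk), zero_mul]
      · intro h; exact absurd (Finset.mem_univ i) h
    have e2 : ∑ k, (c.1 : Matrix (Fin 3) (Fin 3) F) i k * (d.1 : Matrix (Fin 3) (Fin 3) F) k j =
        (c.1 : Matrix (Fin 3) (Fin 3) F) i j * (d.1 : Matrix (Fin 3) (Fin 3) F) j j := by
      rw [Finset.sum_eq_single j]
      · intro k _ hk
        rw [hD k j, if_neg hk, mul_zero]
      · intro h; exact absurd (Finset.mem_univ j) h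
    rw [e1, e2] at e
    have hne : (d.1 : Matrix (Fin 3) (Fin 3) F) i i ≠ (d.1 : Matrix (Fin 3) (Fin 3) F) j j := by
      rw [hd, hd]
      intro h
      exact Yd_diag i j hij (enc_inj h2 ω hω0 hω1 h)
    have e3 : (c.1 : Matrix (Fin 3) (Fin 3) F) i j *
        ((d.1 : Matrix (Fin 3) (Fin 3) F) i i - (d.1 : Matrix (Fin 3) (Fin 3) F) j j) = 0 := by
      linear_combination e
    rcases mul_eq_zero.mp e3 with h | h
    · exact h
    · exact absurd (sub_eq_zero.mp h) hne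
  have hcenter : Subgroup.center (Cfsg.SU 3 F 2) ≤ KS := by
    intro c hc
    rw [hKS]
    intro j i i' hi hi'
    have h1 : i = j := by
      by_contra h; exact hi (hoffc c hc i j h)
    have h2 : i' = j := by
      by_contra h; exact hi' (hoffc c hc i' j h)
    rw [h1, h2]
  apply no_compl (KS.map (QuotientGroup.mk' (Subgroup.center (Cfsg.SU 3 F 2))))
  · intro htop
    obtain ⟨f, hf⟩ := of_model h2 ω hω Yf isSU_Yf
    have hfin : QuotientGroup.mk' (Subgroup.center (Cfsg.SU 3 F 2)) f ∈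
        KS.map (QuotientGroup.mk' (Subgroup.center (Cfsg.SU 3 F 2))) := by
      rw [htop]; trivial
    obtain ⟨m, hm, hmf⟩ := hfin
    have hz : m⁻¹ * f ∈ Subgroup.center (Cfsg.SU 3 F 2) := QuotientGroup.eq.mp hmf
    have hfK : f ∈ KS := by
      have h := KS.mul_mem hm (hcenter hz)
      rwa [mul_inv_cancel_left] at h
    have hCM := (hKS f).mp hfK
    have h00 : (f.1 : Matrix (Fin 3) (Fin 3) F) 0 0 ≠ 0 := by
      rw [hf]
      intro h
      exact absurd (eisz_of h2 ω hω0 hω1 _ h) (by decide)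
    have h10 : (f.1 : Matrix (Fin 3) (Fin 3) F) 1 0 ≠ 0 := by
      rw [hf]
      intro h
      exact absurd (eisz_of h2 ω hω0 hω1 _ h) (by decide)
    exact absurd (hCM 0 0 1 h00 h10) (by decide)
  · intro g
    obtain ⟨y, rfl⟩ := QuotientGroup.mk_surjective g
    refine ⟨y * y, ?_, rfl⟩
    exact (hKS (y * y)).mpr (key hF h2 ω hω0 hω1 hω y).1
  · intro g hg
    obtain ⟨y, rfl⟩ := QuotientGroup.mk_surjective g
    have hz : y * y ∈ Subgroup.center (Cfsg.SU 3 F 2) :=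
      (QuotientGroup.eq_one_iff (y * y)).mp hg
    refine ⟨y, ?_, rfl⟩
    exact (hKS y).mpr ((key hF h2 ω hω0 hω1 hω y).2 (hoffc (y * y) hz))

end Cfsg.Agent.S5908
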