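import Cfsg.Statements.S5911
-- import your own Cfsg.Agent.* helpers here

set_option autoImplicit false
open Cfsg

namespace Cfsg.Agent.S5911


open Equiv
open scoped Nat

theorem L1 : ∀ i : ℕ, 2 ^ (i + 4) * (i + 4)! < 2 * (2 * i + 6)! := by
  intro i
  induction i with
  | zero => decide
  | succ i ih =>
    have h1 : (2 * (i + 1) + 6)! = (2 * i + 8) * ((2 * i + 7) * (2 * i + 6)!) := by
      have e : 2 * (i + 1) + 6 = (2 * i + 6 + 1) + 1 := by ring
      rw [e, Nat.factorial_succ, Nat.factorial_succ]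
    have h2 : (i + 1 + 4)! = (i + 5) * (i + 4)! := by
      have e : i + 1 + 4 = (i + 4) + 1 := by ring
      rw [e, Nat.factorial_succ]
    have h3 : 2 ^ (i + 1 + 4) = 2 * 2 ^ (i + 4) := by
      have e : i + 1 + 4 = (i + 4) + 1 := by ring
      rw [e, pow_succ]; ring
    rw [h1, h2, h3]
    have hpos : 0 < (2 * i + 6)! := Nat.factorial_pos _
    calc 2 * 2 ^ (i + 4) * ((i + 5) * (i + 4)!) = (2 * (i + 5)) * (2 ^ (i + 4) * (i + 4)!) := by ring
      _ < (2 * (i + 5)) * (2 * (2 * i + 6)!) := by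
          apply Nat.mul_lt_mul_of_pos_left ih (by omega)
      _ ≤ 2 * ((2 * i + 8) * ((2 * i + 7) * (2 * i + 6)!)) := by
          have : (2 * (i + 5)) * (2 * (2 * i + 6)!) = 2 * ((2 * i + 10) * (2 * i + 6)!) := by ring
          rw [this]
          apply Nat.mul_le_mul_left
          rw [← mul_assoc]
          apply Nat.mul_le_mul_right
          nlinarith

theorem NT (m k : ℕ) (hk : 2 ≤ k) (h6 : m + 2 * k ≠ 6) :
    m ! * 2 ^ k * k ! ≠ (m + 2 * k - 2)! * 2 := by
  have hm : 0 < m ! := Nat.factorial_pos _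
  obtain rfl | hk3 := eq_or_lt_of_le hk
  · have e : m + 2 * 2 - 2 = (m + 1) + 1 := by omega
    have e2 : (m + 1 + 1)! = (m + 1 + 1) * ((m + 1) * m !) := by
      rw [Nat.factorial_succ, Nat.factorial_succ]
    have e3 : (2 : ℕ)! = 2 := rfl
    rw [e, e2, e3]
    intro h
    have h' : m ! * 8 = m ! * ((m + 1 + 1) * (m + 1) * 2) := by
      linarith
    have h'' := Nat.eq_of_mul_eq_mul_left hm h'
    have : m = 0 ∨ 1 ≤ m := by omega
    rcases this with rfl | h1
    · omega
    · nlinarith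
  obtain rfl | hk4 := eq_or_lt_of_le (show 3 ≤ k from hk3)
  · have e : m + 2 * 3 - 2 = (((m + 1) + 1) + 1) + 1 := by omega
    have e2 : (m + 1 + 1 + 1 + 1)! =
        (m + 1 + 1 + 1 + 1) * ((m + 1 + 1 + 1) * ((m + 1 + 1) * ((m + 1) * m !))) := by
      rw [Nat.factorial_succ, Nat.factorial_succ, Nat.factorial_succ, Nat.factorial_succ]
    have e3 : (3 : ℕ)! = 6 := rfl
    rw [e, e2, e3]
    intro h
    have h' : m ! * 48 = m ! * ((m + 1 + 1 + 1 + 1) * (m + 1 + 1 + 1) * (m + 1 + 1) * (m + 1) * 2) := by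
      linarith
    have h'' := Nat.eq_of_mul_eq_mul_left hm h'
    have h1 : 1 ≤ m := by omega
    have h2 : 2 * 2 ≤ (m + 1 + 1) * (m + 1) := Nat.mul_le_mul (by omega) (by omega)
    have h3 : 5 * 4 ≤ (m + 1 + 1 + 1 + 1) * (m + 1 + 1 + 1) := Nat.mul_le_mul (by omega) (by omega)
    have h4 : (5 * 4) * (2 * 2) ≤ ((m + 1 + 1 + 1 + 1) * (m + 1 + 1 + 1)) * ((m + 1 + 1) * (m + 1)) :=
      Nat.mul_le_mul h3 h2
    nlinarith
  · obtain ⟨i, rfl⟩ : ∃ i, k = i + 4 := ⟨k - 4, by omega⟩
    have e : m + 2 * (i + 4) - 2 = m + (2 * i + 6) := by omega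
    rw [e]
    have hd : m ! * (2 * i + 6)! ∣ (m + (2 * i + 6))! := Nat.factorial_mul_factorial_dvd_factorial_add _ _
    have hle : m ! * (2 * i + 6)! ≤ (m + (2 * i + 6))! := Nat.le_of_dvd (Nat.factorial_pos _) hd
    have hl := L1 i
    have : m ! * (2 ^ (i + 4) * (i + 4)!) < m ! * (2 * (2 * i + 6)!) := Nat.mul_lt_mul_of_pos_left hl hm
    intro h
    nlinarith

theorem iso_swap {Ω X : Type*} [Fintype Ω] [DecidableEq Ω] [Fintype X] [DecidableEq X]
    (hc : Fintype.card X = Fintype.card Ω) (h6 : Fintype.card Ω ≠ 6) (ψ : Perm Ω ≃* Perm X)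
    (a b : Ω) (hab : a ≠ b) : (ψ (swap a b)).IsSwap := by
  have hs : (swap a b).cycleType = {2} := Perm.isSwap_iff_cycleType.mp ⟨a, b, hab, rfl⟩
  have ho : orderOf (ψ (swap a b)) = 2 := by
    rw [MulEquiv.orderOf_eq]
    exact Perm.IsSwap.orderOf ⟨a, b, hab, rfl⟩
  obtain ⟨j, hj⟩ := Perm.cycleType_prime_order (σ := ψ (swap a b)) (by rw [ho]; exact Nat.prime_two)
  rw [ho] at hj
  have hcard : Nat.card (Subgroup.centralizer {ψ (swap a b)}) =
      Nat.card (Subgroup.centralizer {swap a b}) := by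
    symm
    apply Nat.card_congr
    refine Equiv.subtypeEquiv ψ.toEquiv ?_
    intro g
    show g ∈ Subgroup.centralizer {swap a b} ↔ ψ g ∈ Subgroup.centralizer {ψ (swap a b)}
    rw [Subgroup.mem_centralizer_singleton_iff, Subgroup.mem_centralizer_singleton_iff, ← map_mul,
      ← map_mul]
    exact ψ.injective.eq_iff.symm
  rw [Perm.nat_card_centralizer, Perm.nat_card_centralizer, hs, hj, hc] at hcard
  have hfs : (Multiset.replicate (j + 1) 2).toFinset = ({2} : Finset ℕ) := by
    ext x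
    rw [Multiset.mem_toFinset, Multiset.mem_replicate, Finset.mem_singleton]
    exact ⟨fun h => h.2, fun h => ⟨Nat.succ_ne_zero j, h⟩⟩
  have hle := Perm.sum_cycleType_le (ψ (swap a b))
  rw [hj, hc] at hle
  simp only [Multiset.sum_replicate, smul_eq_mul] at hle
  rw [hfs] at hcard
  simp only [Multiset.sum_replicate, Multiset.prod_replicate, smul_eq_mul, Finset.prod_singleton,
    Multiset.count_replicate_self, Multiset.toFinset_singleton, Multiset.sum_singleton,
    Multiset.prod_singleton, Multiset.count_singleton_self, Nat.factorial_one, mul_one] at hcard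
  by_cases hj0 : j = 0
  · subst hj0
    exact Perm.isSwap_iff_cycleType.mpr (by rw [hj]; rfl)
  · exfalso
    obtain ⟨m, hm⟩ : ∃ m, Fintype.card Ω = m + 2 * (j + 1) := ⟨Fintype.card Ω - (j + 1) * 2, by omega⟩
    have hnt := NT m (j + 1) (by omega) (by rw [← hm]; exact h6)
    apply hnt
    have e1 : Fintype.card Ω - (j + 1) * 2 = m := by omega
    rw [e1] at hcard
    rw [hcard, hm]

theorem swap_of_moves {X : Type*} [DecidableEq X] {s : Perm X} (hs : s.IsSwap) {x : X}
    (hx : s x ≠ x) : s = swap x (s x) := by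
  obtain ⟨u, v, huv, rfl⟩ := hs
  by_cases h1 : x = u
  · subst h1; rw [swap_apply_left]
  · by_cases h2 : x = v
    · subst h2; rw [swap_apply_right, swap_comm]
    · exact absurd (swap_apply_of_ne_of_ne h1 h2) hx

theorem stab_le {Ω : Type*} [Fintype Ω] [DecidableEq Ω] (H : Subgroup (Perm Ω)) (w : Ω)
    (hw : ∀ u v, u ≠ w → v ≠ w → swap u v ∈ H) : MulAction.stabilizer (Perm Ω) w ≤ H := by
  intro g hg
  have hgw : g w = w := hg
  have h1 : ∀ x, (g x ≠ w) ↔ (x ≠ w) := by
    intro x
    constructor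
    · intro h hx; exact h (hx ▸ hgw)
    · intro h hx; apply h; apply g.injective; rw [hx, hgw]
  have h2 : ∀ x, g x ≠ x → x ≠ w := by
    intro x hx hxw; exact hx (hxw ▸ hgw)
  have e : Perm.ofSubtype (g.subtypePerm h1) = g := Perm.ofSubtype_subtypePerm h1 h2
  rw [← e]
  have key : ∀ τ : Perm {x // x ≠ w}, Perm.ofSubtype τ ∈ H := by
    intro τ
    have hτ : τ ∈ Subgroup.closure {σ : Perm {x // x ≠ w} | σ.IsSwap} := by
      rw [Perm.closure_isSwap]; trivial
    refine Subgroup.closure_induction (p := fun τ _ => Perm.ofSubtype τ ∈ H) ?_ ?_ ?_ ?_ hτ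
    · rintro σ ⟨u, v, huv, rfl⟩
      rw [Perm.ofSubtype_swap_eq]
      exact hw _ _ u.2 v.2
    · rw [map_one]; exact H.one_mem
    · intro x y _ _ hx hy; rw [map_mul]; exact H.mul_mem hx hy
    · intro x _ hx; rw [map_inv]; exact H.inv_mem hx
  exact key _

theorem eq_of_le_of_index {G : Type*} [Group G] [Finite G] {K H : Subgroup G} (h : K ≤ H)
    (hi : K.index = H.index) : K = H := by
  apply le_antisymm h
  rw [← Subgroup.relIndex_eq_one]
  have h1 := Subgroup.relIndex_mul_index h
  rw [hi] at h1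
  have h0 : H.index ≠ 0 := Subgroup.index_ne_zero_of_finite
  have : K.relIndex H * H.index = 1 * H.index := by rw [h1, one_mul]
  exact Nat.eq_of_mul_eq_mul_right (Nat.pos_of_ne_zero h0) this

theorem index_stab {Ω : Type*} [Fintype Ω] [DecidableEq Ω] (w : Ω) :
    (MulAction.stabilizer (Perm Ω) w).index = Fintype.card Ω := by
  rw [MulAction.index_stabilizer_of_transitive, Nat.card_eq_fintype_card]

theorem small {Ω : Type*} [Fintype Ω] [DecidableEq Ω] (p : ℕ) (hp : p.Prime)
    (hc : Fintype.card Ω = p + 1) (H : Subgroup (Perm Ω))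
    (hH : Nat.card H = p ∨ Nat.card H = 2 * p) :
    ∃ w : Ω, H ≤ MulAction.stabilizer (Perm Ω) w := by
  haveI : Fact p.Prime := ⟨hp⟩
  have hdvd : p ∣ Nat.card H := by
    rcases hH with h | h <;> rw [h]
    exact Dvd.intro_left 2 rfl
  obtain ⟨c, hc0⟩ := exists_prime_orderOf_dvd_card' p hdvd
  have hco : orderOf (c : Perm Ω) = p := by rw [Subgroup.orderOf_coe]; exact hc0
  obtain ⟨j, hj⟩ := Perm.cycleType_prime_order (σ := (c : Perm Ω)) (by rw [hco]; exact hp)
  rw [hco] at hj
  have hle := Perm.sum_cycleType_le (c : Perm Ω)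
  rw [hj, hc] at hle
  simp only [Multiset.sum_replicate, smul_eq_mul] at hle
  have hp2 := hp.two_le
  have hj0 : j = 0 := by
    by_contra hne
    have : 2 * p ≤ (j + 1) * p := Nat.mul_le_mul_right p (by omega)
    omega
  subst hj0
  have hsup : (c : Perm Ω).support.card = p := by
    rw [← Perm.sum_cycleType, hj]; simp
  have hcompl : ((c : Perm Ω).support)ᶜ.card = 1 := by
    rw [Finset.card_compl, hsup, hc]; omega
  obtain ⟨w, hw⟩ := Finset.card_eq_one.mp hcompl
  have hfix : ∀ x : Ω, (c : Perm Ω) x = x ↔ x = w := by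
    intro x
    rw [← Perm.notMem_support, ← Finset.mem_compl, hw, Finset.mem_singleton]
  -- normality of the cyclic subgroup
  have hCcard : Nat.card (Subgroup.zpowers c) = p := by rw [Nat.card_zpowers]; exact hc0
  have hidx := Subgroup.index_mul_card (Subgroup.zpowers c)
  rw [hCcard] at hidx
  have hp0 : 0 < p := hp.pos
  haveI hnorm : (Subgroup.zpowers c).Normal := by
    rcases hH with h | h
    · apply Subgroup.normal_of_index_eq_one
      rw [h] at hidx
      have : (Subgroup.zpowers c).index * p = 1 * p := by rw [hidx, one_mul]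
      exact Nat.eq_of_mul_eq_mul_right hp0 this
    · apply Subgroup.normal_of_index_eq_two
      rw [h] at hidx
      exact Nat.eq_of_mul_eq_mul_right hp0 hidx
  refine ⟨w, ?_⟩
  intro h hh
  show h • w = w
  rw [Perm.smul_def]
  have hconj : (⟨h, hh⟩ : H) * c * (⟨h, hh⟩ : H)⁻¹ ∈ Subgroup.zpowers c :=
    hnorm.conj_mem c (Subgroup.mem_zpowers c) ⟨h, hh⟩
  obtain ⟨i, hi⟩ := Subgroup.mem_zpowers_iff.mp hconj
  have hi' : (c : Perm Ω) ^ i = h * (c : Perm Ω) * h⁻¹ := by
    have := congrArg (Subtype.val) hi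
    simpa using this
  have hw1 : ((c : Perm Ω) ^ i) w = w :=
    Perm.zpow_apply_eq_self_of_apply_eq_self ((hfix w).mpr rfl) i
  rw [hi'] at hw1
  simp only [Perm.mul_apply] at hw1
  have hw2 : (c : Perm Ω) (h⁻¹ w) = h⁻¹ w := by
    have := congrArg (fun y => h⁻¹ y) hw1
    simpa using this
  have hw3 := (hfix _).mp hw2
  have := congrArg (fun y => h y) hw3
  simpa using this.symm

theorem main_big {Ω : Type*} [Fintype Ω] [DecidableEq Ω] (h6 : Fintype.card Ω ≠ 6)
    (h5 : 5 ≤ Fintype.card Ω)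
    (H : Subgroup (Perm Ω)) (hH : H.index = Fintype.card Ω) :
    ∃ x : Ω, H = MulAction.stabilizer (Perm Ω) x := by
  classical
  letI : Fintype (Perm Ω ⧸ H) := Fintype.ofFinite _
  have hcX : Fintype.card (Perm Ω ⧸ H) = Fintype.card Ω := by
    rw [← Nat.card_eq_fintype_card]; exact hH
  have hker : (MulAction.toPermHom (Perm Ω) (Perm Ω ⧸ H)).ker = H.normalCore :=
    (Subgroup.normalCore_eq_ker H).symm
  have hcore : H.normalCore = ⊥ := by
    by_contra hne
    have hnt : Nontrivial H.normalCore := (Subgroup.nontrivial_iff_ne_bot _).mpr hne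
    have hA : alternatingGroup Ω ≤ H.normalCore :=
      Perm.alternatingGroup_le_of_normal (by rw [Nat.card_eq_fintype_card]; exact h5) hnt
    have hA' : alternatingGroup Ω ≤ H := hA.trans (Subgroup.normalCore_le H)
    have hd : H.index ∣ (alternatingGroup Ω).index := Subgroup.index_dvd_of_le hA'
    haveI : Nontrivial Ω := Fintype.one_lt_card_iff_nontrivial.mp (by omega)
    rw [alternatingGroup.index_eq_two, hH] at hd
    have := Nat.le_of_dvd (by norm_num) hd
    omega
  have hinj : Function.Injective (MulAction.toPermHom (Perm Ω) (Perm Ω ⧸ H)) := by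
    rw [← MonoidHom.ker_eq_bot_iff, hker, hcore]
  have hbij : Function.Bijective (MulAction.toPermHom (Perm Ω) (Perm Ω ⧸ H)) := by
    apply Function.Injective.bijective_of_nat_card_le hinj
    rw [Nat.card_perm, Nat.card_perm, Nat.card_eq_fintype_card, Nat.card_eq_fintype_card, hcX]
  obtain ⟨ψ, hψ⟩ : ∃ ψ : Perm Ω ≃* Perm (Perm Ω ⧸ H),
      ∀ g, ψ g = MulAction.toPermHom (Perm Ω) (Perm Ω ⧸ H) g :=
    ⟨MulEquiv.ofBijective _ hbij, fun g => rfl⟩
  obtain ⟨x₀, hx₀⟩ : ∃ x₀ : Perm Ω ⧸ H, x₀ = QuotientGroup.mk 1 := ⟨_, rfl⟩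
  have hmem : ∀ g : Perm Ω, g ∈ H ↔ ψ g x₀ = x₀ := by
    intro g
    rw [hψ, hx₀]
    show g ∈ H ↔ g • (QuotientGroup.mk 1 : Perm Ω ⧸ H) = QuotientGroup.mk 1
    rw [MulAction.Quotient.smul_mk, QuotientGroup.eq]
    simp
  have hsw : ∀ a b : Ω, a ≠ b → (ψ (swap a b)).IsSwap := fun a b hab => iso_swap hcX h6 ψ a b hab
  have hP : ∀ a b c d : Ω, a ≠ b → a ≠ c → a ≠ d → b ≠ c → b ≠ d → c ≠ d →
      swap a b ∉ H → swap c d ∉ H → False := by
    intro a b c d hab hac had hbc hbd hcd h1 h2
    obtain ⟨y, hy0, e1⟩ : ∃ y, y ≠ x₀ ∧ ψ (swap a b) = swap x₀ y :=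
      ⟨_, fun h => h1 ((hmem _).mpr h), swap_of_moves (hsw a b hab) (fun h => h1 ((hmem _).mpr h))⟩
    obtain ⟨z, hz0, e2⟩ : ∃ z, z ≠ x₀ ∧ ψ (swap c d) = swap x₀ z :=
      ⟨_, fun h => h2 ((hmem _).mpr h), swap_of_moves (hsw c d hcd) (fun h => h2 ((hmem _).mpr h))⟩
    have hcomm : swap a b * swap c d = swap c d * swap a b :=
      (Perm.disjoint_swap_swap (by simp [hab, hac, had, hbc, hbd, hcd])).commute.eq
    have hne : swap a b ≠ swap c d := by
      intro h
      have h' := congrArg (fun σ : Perm Ω => σ a) h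
      simp only [swap_apply_left] at h'
      rw [swap_apply_of_ne_of_ne hac had] at h'
      exact hab h'.symm
    have hyz : y ≠ z := by
      intro h
      apply hne
      apply ψ.injective
      rw [e1, e2, h]
    have hc' : ψ (swap a b) * ψ (swap c d) = ψ (swap c d) * ψ (swap a b) := by
      rw [← map_mul, ← map_mul, hcomm]
    rw [e1, e2] at hc'
    have h3 := congrArg (fun σ : Perm (Perm Ω ⧸ H) => σ x₀) hc'
    simp only [Perm.mul_apply, swap_apply_left] at h3
    rw [swap_apply_of_ne_of_ne hz0 (Ne.symm hyz), swap_apply_of_ne_of_ne hy0 hyz] at h3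
    exact hyz h3.symm
  have hsymm : ∀ u v : Ω, swap u v ∈ H → swap v u ∈ H := by
    intro u v h; rw [swap_comm]; exact h
  have hrefl : ∀ u : Ω, swap u u ∈ H := by
    intro u; rw [swap_self]; exact H.one_mem
  have htrans : ∀ u v w : Ω, swap u v ∈ H → swap v w ∈ H → swap u w ∈ H := by
    intro u v w h1 h2
    by_cases huv : u = v
    · subst huv; exact h2
    by_cases hvw : v = w
    · subst hvw; exact h1
    by_cases huw : u = w
    · subst huw; exact hrefl u
    have e : swap v w * swap u v * swap v w = swap w u := swap_mul_swap_mul_swap huv huw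
    rw [swap_comm, ← e]
    exact H.mul_mem (H.mul_mem h2 h1) h2
  -- a swap outside H
  have hex : ∃ a b : Ω, swap a b ∉ H := by
    by_contra hall
    push Not at hall
    have htop : H = ⊤ := by
      rw [eq_top_iff, ← Perm.closure_isSwap, Subgroup.closure_le]
      rintro σ ⟨u, v, huv, rfl⟩
      exact hall u v
    rw [htop, Subgroup.index_top] at hH
    omega
  obtain ⟨a, b, hab⟩ := hex
  have hab' : a ≠ b := by
    intro h; subst h; exact hab (hrefl a)
  have hfour : ∀ c : Ω, ∃ d : Ω, d ≠ a ∧ d ≠ b ∧ d ≠ c := by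
    intro c
    have hlt : ({a, b, c} : Finset Ω).card < (Finset.univ : Finset Ω).card := by
      have := Finset.card_le_three (a := a) (b := b) (c := c)
      rw [Finset.card_univ]; omega
    obtain ⟨d, -, hd⟩ := Finset.exists_mem_notMem_of_card_lt_card hlt
    simp only [Finset.mem_insert, Finset.mem_singleton, not_or] at hd
    exact ⟨d, hd.1, hd.2.1, hd.2.2⟩
  have hstep : ∀ c : Ω, c ≠ a → c ≠ b → swap a c ∈ H ∨ swap b c ∈ H := by
    intro c hca hcb
    by_contra hnot
    push Not at hnot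
    obtain ⟨d, hda, hdb, hdc⟩ := hfour c
    have hcd : swap c d ∈ H := by
      by_contra h
      exact hP a b c d hab' (Ne.symm hca) (Ne.symm hda) (Ne.symm hcb) (Ne.symm hdb) (Ne.symm hdc) hab h
    have hbd : swap b d ∈ H := by
      by_contra h
      exact hP a c b d (Ne.symm hca) hab' (Ne.symm hda) hcb (Ne.symm hdc) (Ne.symm hdb) hnot.1 h
    exact hnot.2 (htrans b d c hbd (hsymm _ _ hcd))
  have hfin : ∃ w : Ω, ∀ u v : Ω, u ≠ w → v ≠ w → swap u v ∈ H := by
    by_cases hA : ∃ c, c ≠ a ∧ c ≠ b ∧ swap a c ∈ H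
    · obtain ⟨a', ha'a, ha'b, ha'⟩ := hA
      have hall : ∀ c, c ≠ b → swap a c ∈ H := by
        intro c hcb
        by_cases hca : c = a
        · subst hca; exact hrefl c
        by_contra hnot
        have hbc : swap b c ∈ H := (hstep c hca hcb).resolve_left hnot
        have ha'c : a' ≠ c := by
          intro h; subst h; exact hnot ha'
        have hn : swap a' c ∉ H := fun h => hnot (htrans a a' c ha' h)
        exact hP a b a' c hab' (Ne.symm ha'a) (Ne.symm hca) (Ne.symm ha'b) (Ne.symm hcb) ha'c hab hn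
      refine ⟨b, fun u v hu hv => ?_⟩
      exact htrans u a v (hsymm _ _ (hall u hu)) (hall v hv)
    · push Not at hA
      have hall : ∀ c, c ≠ a → swap b c ∈ H := by
        intro c hca
        by_cases hcb : c = b
        · subst hcb; exact hrefl c
        exact (hstep c hca hcb).resolve_left (hA c hca hcb)
      refine ⟨a, fun u v hu hv => ?_⟩
      exact htrans u b v (hsymm _ _ (hall u hu)) (hall v hv)
  obtain ⟨w, hw⟩ := hfin
  refine ⟨w, ?_⟩
  symm
  apply eq_of_le_of_index (stab_le H w hw)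
  rw [index_stab, hH]

/-- Let Ω be a finite set whose size n is not 6. Then every subgroup of the symmetric group on Ω of index n is the stabilizer of a point. -/
theorem result {Ω : Type*} [Fintype Ω] [DecidableEq Ω] (h6 : Fintype.card Ω ≠ 6)
    (H : Subgroup (Equiv.Perm Ω)) (hH : H.index = Fintype.card Ω) :
    ∃ x : Ω, H = MulAction.stabilizer (Equiv.Perm Ω) x := by
  classical
  have hcardH := Subgroup.index_mul_card H
  rw [hH, Nat.card_perm, Nat.card_eq_fintype_card (α := Ω)] at hcardH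
  by_cases h5 : 5 ≤ Fintype.card Ω
  · exact main_big h6 h5 H hH
  have h0 : Fintype.card Ω ≠ 0 := by
    intro h0
    rw [h0] at hH
    exact Subgroup.index_ne_zero_of_finite hH
  have hfinish : ∀ w : Ω, H ≤ MulAction.stabilizer (Equiv.Perm Ω) w →
      ∃ x : Ω, H = MulAction.stabilizer (Equiv.Perm Ω) x := by
    intro w hw
    refine ⟨w, eq_of_le_of_index hw ?_⟩
    rw [index_stab, hH]
  have hne : Nonempty Ω := Fintype.card_pos_iff.mp (Nat.pos_of_ne_zero h0)
  obtain ⟨x⟩ := hne
  have hcases : Fintype.card Ω = 1 ∨ Fintype.card Ω = 2 ∨ Fintype.card Ω = 3 ∨ Fintype.card Ω = 4 := by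
    omega
  rcases hcases with h | h | h | h
  · -- one point: H has index one
    apply hfinish x
    intro g _
    show g • x = x
    haveI : Subsingleton Ω := Fintype.card_le_one_iff_subsingleton.mp (by omega)
    exact Subsingleton.elim _ _
  · rw [h] at hcardH
    have hc1 : Nat.card H = 1 := by
      have : (2 : ℕ)! = 2 := rfl
      rw [this] at hcardH
      omega
    have hbot : H = ⊥ := Subgroup.card_eq_one.mp hc1
    apply hfinish x
    rw [hbot]; exact bot_le
  · rw [h] at hcardH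
    have hc1 : Nat.card H = 2 := by
      have : (3 : ℕ)! = 6 := rfl
      rw [this] at hcardH
      omega
    obtain ⟨w, hw⟩ := small 2 Nat.prime_two h H (Or.inl hc1)
    exact hfinish w hw
  · rw [h] at hcardH
    have hc1 : Nat.card H = 6 := by
      have : (4 : ℕ)! = 24 := rfl
      rw [this] at hcardH
      omega
    obtain ⟨w, hw⟩ := small 3 Nat.prime_three h H (Or.inr hc1)
    exact hfinish w hw

end Cfsg.Agent.S5911
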