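import Cfsg.Statements.S5912
-- import your own Cfsg.Agent.* helpers here
import Cfsg.Agent.S5911

set_option autoImplicit false
open Cfsg

namespace Cfsg.Agent.S5912


open Equiv
open scoped Nat

universe u

/-- The coset action of a subgroup of index `n` in `Sym(n)` (for `n ≥ 5`) is an isomorphism
onto the symmetric group of the coset space; packaged in continuation style. -/
theorem with_dual {Ω : Type u} [Fintype Ω] [DecidableEq Ω] (h5 : 5 ≤ Fintype.card Ω)
    (H : Subgroup (Perm Ω)) (hH : H.index = Fintype.card Ω) {P : Prop}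
    (k : ∀ (X : Type u) [Fintype X] [DecidableEq X] (ψ : Perm Ω ≃* Perm X) (x₀ : X),
      Fintype.card X = Fintype.card Ω → (∀ g, g ∈ H ↔ ψ g x₀ = x₀) → P) : P := by
  classical
  letI : Fintype (Perm Ω ⧸ H) := Fintype.ofFinite _
  have hcX : Fintype.card (Perm Ω ⧸ H) = Fintype.card Ω := by
    rw [← Nat.card_eq_fintype_card]; exact hH
  have hker : (MulAction.toPermHom (Perm Ω) (Perm Ω ⧸ H)).ker = H.normalCore :=
    (Subgroup.normalCore_eq_ker H).symm
  have hcore : H.normalCore = ⊥ := by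
    by_contra hne
    have hnt : Nontrivial H.normalCore := (Subgroup.nontrivial_iff_ne_bot _).mpr hne
    have hA : alternatingGroup Ω ≤ H.normalCore :=
      Perm.alternatingGroup_le_of_normal (by rw [Nat.card_eq_fintype_card]; exact h5) hnt
    have hA' : alternatingGroup Ω ≤ H := hA.trans (Subgroup.normalCore_le H)
    have hd : H.index ∣ (alternatingGroup Ω).index := Subgroup.index_dvd_of_le hA'
    haveI : Nontrivial Ω := Fintype.one_lt_card_iff_nontrivial.mp (by omega)
    rw [alternatingGroup.index_eq_two, hH] at hd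
    have := Nat.le_of_dvd (by norm_num) hd
    omega
  have hinj : Function.Injective (MulAction.toPermHom (Perm Ω) (Perm Ω ⧸ H)) := by
    rw [← MonoidHom.ker_eq_bot_iff, hker, hcore]
  have hbij : Function.Bijective (MulAction.toPermHom (Perm Ω) (Perm Ω ⧸ H)) := by
    apply Function.Injective.bijective_of_nat_card_le hinj
    rw [Nat.card_perm, Nat.card_perm, Nat.card_eq_fintype_card, Nat.card_eq_fintype_card, hcX]
  obtain ⟨ψ, hψ⟩ : ∃ ψ : Perm Ω ≃* Perm (Perm Ω ⧸ H),
      ∀ g, ψ g = MulAction.toPermHom (Perm Ω) (Perm Ω ⧸ H) g :=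
    ⟨MulEquiv.ofBijective _ hbij, fun g => rfl⟩
  obtain ⟨x₀, hx₀⟩ : ∃ x₀ : Perm Ω ⧸ H, x₀ = QuotientGroup.mk 1 := ⟨_, rfl⟩
  have hmem : ∀ g : Perm Ω, g ∈ H ↔ ψ g x₀ = x₀ := by
    intro g
    rw [hψ, hx₀]
    show g ∈ H ↔ g • (QuotientGroup.mk 1 : Perm Ω ⧸ H) = QuotientGroup.mk 1
    rw [MulAction.Quotient.smul_mk, QuotientGroup.eq]
    simp
  exact k (Perm Ω ⧸ H) ψ x₀ hcX hmem

/-- If an isomorphism `ψ` onto `Sym(X)` maps transpositions to transpositions, the preimage of a
point stabilizer is a point stabilizer. -/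
theorem core {Ω X : Type*} [Fintype Ω] [DecidableEq Ω] [Fintype X] [DecidableEq X]
    (h5 : 5 ≤ Fintype.card Ω) (H : Subgroup (Perm Ω)) (hH : H.index = Fintype.card Ω)
    (ψ : Perm Ω ≃* Perm X) (x₀ : X) (hmem : ∀ g, g ∈ H ↔ ψ g x₀ = x₀)
    (hsw : ∀ a b : Ω, a ≠ b → (ψ (swap a b)).IsSwap) :
    ∃ w : Ω, H = MulAction.stabilizer (Perm Ω) w := by
  have hP : ∀ a b c d : Ω, a ≠ b → a ≠ c → a ≠ d → b ≠ c → b ≠ d → c ≠ d →
      swap a b ∉ H → swap c d ∉ H → False := by
    intro a b c d hab hac had hbc hbd hcd h1 h2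
    obtain ⟨y, hy0, e1⟩ : ∃ y, y ≠ x₀ ∧ ψ (swap a b) = swap x₀ y :=
      ⟨_, fun h => h1 ((hmem _).mpr h),
        S5911.swap_of_moves (hsw a b hab) (fun h => h1 ((hmem _).mpr h))⟩
    obtain ⟨z, hz0, e2⟩ : ∃ z, z ≠ x₀ ∧ ψ (swap c d) = swap x₀ z :=
      ⟨_, fun h => h2 ((hmem _).mpr h),
        S5911.swap_of_moves (hsw c d hcd) (fun h => h2 ((hmem _).mpr h))⟩
    have hcomm : swap a b * swap c d = swap c d * swap a b :=
      (Perm.disjoint_swap_swap (by simp [hab, hac, had, hbc, hbd, hcd])).commute.eq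
    have hne : swap a b ≠ swap c d := by
      intro h
      have h' := congrArg (fun σ : Perm Ω => σ a) h
      simp only [swap_apply_left] at h'
      rw [swap_apply_of_ne_of_ne hac had] at h'
      exact hab h'.symm
    have hyz : y ≠ z := by
      intro h
      apply hne
      apply ψ.injective
      rw [e1, e2, h]
    have hc' : ψ (swap a b) * ψ (swap c d) = ψ (swap c d) * ψ (swap a b) := by
      rw [← map_mul, ← map_mul, hcomm]
    rw [e1, e2] at hc'
    have h3 := congrArg (fun σ : Perm X => σ x₀) hc'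
    simp only [Perm.mul_apply, swap_apply_left] at h3
    rw [swap_apply_of_ne_of_ne hz0 (Ne.symm hyz), swap_apply_of_ne_of_ne hy0 hyz] at h3
    exact hyz h3.symm
  have hsymm : ∀ u v : Ω, swap u v ∈ H → swap v u ∈ H := by
    intro u v h; rw [swap_comm]; exact h
  have hrefl : ∀ u : Ω, swap u u ∈ H := by
    intro u; rw [swap_self]; exact H.one_mem
  have htrans : ∀ u v w : Ω, swap u v ∈ H → swap v w ∈ H → swap u w ∈ H := by
    intro u v w h1 h2
    by_cases huv : u = v
    · subst huv; exact h2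
    by_cases hvw : v = w
    · subst hvw; exact h1
    by_cases huw : u = w
    · subst huw; exact hrefl u
    have e : swap v w * swap u v * swap v w = swap w u := swap_mul_swap_mul_swap huv huw
    rw [swap_comm, ← e]
    exact H.mul_mem (H.mul_mem h2 h1) h2
  have hex : ∃ a b : Ω, swap a b ∉ H := by
    by_contra hall
    push Not at hall
    have htop : H = ⊤ := by
      rw [eq_top_iff, ← Perm.closure_isSwap, Subgroup.closure_le]
      rintro σ ⟨u, v, huv, rfl⟩
      exact hall u v
    rw [htop, Subgroup.index_top] at hH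
    omega
  obtain ⟨a, b, hab⟩ := hex
  have hab' : a ≠ b := by
    intro h; subst h; exact hab (hrefl a)
  have hfour : ∀ c : Ω, ∃ d : Ω, d ≠ a ∧ d ≠ b ∧ d ≠ c := by
    intro c
    have hlt : ({a, b, c} : Finset Ω).card < (Finset.univ : Finset Ω).card := by
      have := Finset.card_le_three (a := a) (b := b) (c := c)
      rw [Finset.card_univ]; omega
    obtain ⟨d, -, hd⟩ := Finset.exists_mem_notMem_of_card_lt_card hlt
    simp only [Finset.mem_insert, Finset.mem_singleton, not_or] at hd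
    exact ⟨d, hd.1, hd.2.1, hd.2.2⟩
  have hstep : ∀ c : Ω, c ≠ a → c ≠ b → swap a c ∈ H ∨ swap b c ∈ H := by
    intro c hca hcb
    by_contra hnot
    push Not at hnot
    obtain ⟨d, hda, hdb, hdc⟩ := hfour c
    have hcd : swap c d ∈ H := by
      by_contra h
      exact hP a b c d hab' (Ne.symm hca) (Ne.symm hda) (Ne.symm hcb) (Ne.symm hdb) (Ne.symm hdc) hab h
    have hbd : swap b d ∈ H := by
      by_contra h
      exact hP a c b d (Ne.symm hca) hab' (Ne.symm hda) hcb (Ne.symm hdc) (Ne.symm hdb) hnot.1 h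
    exact hnot.2 (htrans b d c hbd (hsymm _ _ hcd))
  have hfin : ∃ w : Ω, ∀ u v : Ω, u ≠ w → v ≠ w → swap u v ∈ H := by
    by_cases hA : ∃ c, c ≠ a ∧ c ≠ b ∧ swap a c ∈ H
    · obtain ⟨a', ha'a, ha'b, ha'⟩ := hA
      have hall : ∀ c, c ≠ b → swap a c ∈ H := by
        intro c hcb
        by_cases hca : c = a
        · subst hca; exact hrefl c
        by_contra hnot
        have hbc : swap b c ∈ H := (hstep c hca hcb).resolve_left hnot
        have ha'c : a' ≠ c := by
          intro h; subst h; exact hnot ha'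
        have hn : swap a' c ∉ H := fun h => hnot (htrans a a' c ha' h)
        exact hP a b a' c hab' (Ne.symm ha'a) (Ne.symm hca) (Ne.symm ha'b) (Ne.symm hcb) ha'c hab hn
      refine ⟨b, fun u v hu hv => ?_⟩
      exact htrans u a v (hsymm _ _ (hall u hu)) (hall v hv)
    · push Not at hA
      have hall : ∀ c, c ≠ a → swap b c ∈ H := by
        intro c hca
        by_cases hcb : c = b
        · subst hcb; exact hrefl c
        exact (hstep c hca hcb).resolve_left (hA c hca hcb)
      refine ⟨a, fun u v hu hv => ?_⟩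
      exact htrans u b v (hsymm _ _ (hall u hu)) (hall v hv)
  obtain ⟨w, hw⟩ := hfin
  refine ⟨w, ?_⟩
  symm
  apply S5911.eq_of_le_of_index (S5911.stab_le H w hw)
  rw [S5911.index_stab, hH]

/-- An isomorphism between symmetric groups of degree 6 maps a transposition to a transposition
or to a product of three disjoint transpositions. -/
theorem dich {Ω X : Type*} [Fintype Ω] [DecidableEq Ω] [Fintype X] [DecidableEq X]
    (hΩ : Fintype.card Ω = 6) (hX : Fintype.card X = 6) (ψ : Perm Ω ≃* Perm X)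
    (a b : Ω) (hab : a ≠ b) :
    (ψ (swap a b)).cycleType = {2} ∨ (ψ (swap a b)).cycleType = Multiset.replicate 3 2 := by
  have hs : (swap a b).cycleType = {2} := Perm.isSwap_iff_cycleType.mp ⟨a, b, hab, rfl⟩
  have ho : orderOf (ψ (swap a b)) = 2 := by
    rw [MulEquiv.orderOf_eq]
    exact Perm.IsSwap.orderOf ⟨a, b, hab, rfl⟩
  obtain ⟨j, hj⟩ := Perm.cycleType_prime_order (σ := ψ (swap a b)) (by rw [ho]; exact Nat.prime_two)
  rw [ho] at hj
  have hcard : Nat.card (Subgroup.centralizer {ψ (swap a b)}) =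
      Nat.card (Subgroup.centralizer {swap a b}) := by
    symm
    apply Nat.card_congr
    refine Equiv.subtypeEquiv ψ.toEquiv ?_
    intro g
    show g ∈ Subgroup.centralizer {swap a b} ↔ ψ g ∈ Subgroup.centralizer {ψ (swap a b)}
    rw [Subgroup.mem_centralizer_singleton_iff, Subgroup.mem_centralizer_singleton_iff, ← map_mul,
      ← map_mul]
    exact ψ.injective.eq_iff.symm
  rw [Perm.nat_card_centralizer, Perm.nat_card_centralizer, hs, hj, hX, hΩ] at hcard
  have hfs : (Multiset.replicate (j + 1) 2).toFinset = ({2} : Finset ℕ) := by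
    ext x
    rw [Multiset.mem_toFinset, Multiset.mem_replicate, Finset.mem_singleton]
    exact ⟨fun h => h.2, fun h => ⟨Nat.succ_ne_zero j, h⟩⟩
  have hle := Perm.sum_cycleType_le (ψ (swap a b))
  rw [hj, hX] at hle
  simp only [Multiset.sum_replicate, smul_eq_mul] at hle
  rw [hfs] at hcard
  simp only [Multiset.sum_replicate, Multiset.prod_replicate, smul_eq_mul, Finset.prod_singleton,
    Multiset.count_replicate_self, Multiset.toFinset_singleton, Multiset.sum_singleton,
    Multiset.prod_singleton, Multiset.count_singleton_self, Nat.factorial_one, mul_one] at hcard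
  have hj2 : j = 0 ∨ j = 1 ∨ j = 2 := by omega
  rcases hj2 with rfl | rfl | rfl
  · left; exact hj
  · exfalso; revert hcard; decide
  · right; exact hj

theorem cyc_transport {Ω X : Type*} [Fintype Ω] [DecidableEq Ω] [Fintype X] [DecidableEq X]
    (ψ : Perm Ω ≃* Perm X) {σ τ : Perm Ω} (h : σ.cycleType = τ.cycleType) :
    (ψ σ).cycleType = (ψ τ).cycleType := by
  obtain ⟨g, hg⟩ := isConj_iff.mp (Perm.isConj_iff_cycleType_eq.mpr h)
  rw [← hg, map_mul, map_mul, map_inv, Perm.cycleType_conj]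

theorem fpf {X : Type*} [Fintype X] [DecidableEq X] (hX : Fintype.card X = 6) {σ : Perm X}
    (hσ : σ.cycleType = Multiset.replicate 3 2) (x : X) : σ x ≠ x := by
  have h1 : σ.support.card = 6 := by
    rw [← Perm.sum_cycleType, hσ]; rfl
  have h2 : σ.support = Finset.univ := by
    rw [← Finset.card_eq_iff_eq_univ, h1, hX]
  have h3 : x ∈ σ.support := by rw [h2]; exact Finset.mem_univ x
  exact Perm.mem_support.mp h3

/-- A subgroup of index 6 of `Sym(6)` containing a transposition is a point stabilizer. -/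
theorem stab_of_swap {Ω : Type u} [Fintype Ω] [DecidableEq Ω] (h6 : Fintype.card Ω = 6)
    (H : Subgroup (Perm Ω)) (hH : H.index = 6) {a b : Ω} (hab : a ≠ b) (ht : swap a b ∈ H) :
    ∃ w : Ω, H = MulAction.stabilizer (Perm Ω) w := by
  apply with_dual (by omega) H (by rw [hH, h6])
  intro X _ _ ψ x₀ hcX hmem
  rw [h6] at hcX
  rcases dich h6 hcX ψ a b hab with h | h
  · apply core (by omega) H (by rw [hH, h6]) ψ x₀ hmem
    intro c d hcd
    rw [Perm.isSwap_iff_cycleType, ← h]
    apply cyc_transport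
    rw [Perm.isSwap_iff_cycleType.mp ⟨c, d, hcd, rfl⟩, Perm.isSwap_iff_cycleType.mp ⟨a, b, hab, rfl⟩]
  · exact absurd ((hmem _).mp ht) (fpf hcX h x₀)

/-- The isomorphism `ψ` is exceptional: transpositions go to products of three transpositions. -/
def Ex {Ω X : Type*} [Fintype Ω] [DecidableEq Ω] [Fintype X] [DecidableEq X]
    (ψ : Perm Ω ≃* Perm X) : Prop :=
  ∀ a b : Ω, a ≠ b → (ψ (swap a b)).cycleType = Multiset.replicate 3 2

theorem exists_three {Ω : Type*} [Fintype Ω] [DecidableEq Ω] (h : 3 ≤ Fintype.card Ω) (w : Ω) :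
    ∃ u v : Ω, u ≠ v ∧ u ≠ w ∧ v ≠ w := by
  have h1 : ({w} : Finset Ω).card < (Finset.univ : Finset Ω).card := by
    rw [Finset.card_singleton, Finset.card_univ]; omega
  obtain ⟨u, -, hu⟩ := Finset.exists_mem_notMem_of_card_lt_card h1
  have h2 : ({w, u} : Finset Ω).card < (Finset.univ : Finset Ω).card := by
    have := Finset.card_le_two (a := w) (b := u)
    rw [Finset.card_univ]; omega
  obtain ⟨v, -, hv⟩ := Finset.exists_mem_notMem_of_card_lt_card h2
  simp only [Finset.mem_singleton] at hu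
  simp only [Finset.mem_insert, Finset.mem_singleton, not_or] at hv
  exact ⟨u, v, fun h => hv.2 h.symm, hu, hv.1⟩

theorem ex_of_no_swap {Ω X : Type*} [Fintype Ω] [DecidableEq Ω] [Fintype X] [DecidableEq X]
    (h6 : Fintype.card Ω = 6) (hcX : Fintype.card X = 6)
    (H : Subgroup (Perm Ω)) (hH : H.index = 6) (hno : ∀ a b : Ω, a ≠ b → swap a b ∉ H)
    (ψ : Perm Ω ≃* Perm X) (x₀ : X) (hmem : ∀ g, g ∈ H ↔ ψ g x₀ = x₀) : Ex ψ := by
  intro a b hab
  rcases dich h6 hcX ψ a b hab with h | h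
  · exfalso
    obtain ⟨w, hw⟩ : ∃ w : Ω, H = MulAction.stabilizer (Perm Ω) w := by
      apply core (by omega) H (by rw [hH, h6]) ψ x₀ hmem
      intro c d hcd
      rw [Perm.isSwap_iff_cycleType, ← h]
      apply cyc_transport
      rw [Perm.isSwap_iff_cycleType.mp ⟨c, d, hcd, rfl⟩,
        Perm.isSwap_iff_cycleType.mp ⟨a, b, hab, rfl⟩]
    obtain ⟨u, v, huv, huw, hvw⟩ := exists_three (by omega) w
    apply hno u v huv
    rw [hw]
    show swap u v • w = w
    exact swap_apply_of_ne_of_ne (Ne.symm huw) (Ne.symm hvw)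
  · exact h

theorem ex_symm_cyc {Ω X : Type*} [Fintype Ω] [DecidableEq Ω] [Fintype X] [DecidableEq X]
    (h6 : Fintype.card Ω = 6) (hcX : Fintype.card X = 6) (ψ : Perm Ω ≃* Perm X) (hψ : Ex ψ)
    (y z : X) (hyz : y ≠ z) : (ψ.symm (swap y z)).cycleType = Multiset.replicate 3 2 := by
  rcases dich hcX h6 ψ.symm y z hyz with h | h
  · exfalso
    obtain ⟨a, b, hab, e⟩ := Perm.isSwap_iff_cycleType.mpr h
    have h1 := hψ a b hab
    rw [← e, MulEquiv.apply_symm_apply] at h1
    rw [Perm.isSwap_iff_cycleType.mp ⟨y, z, hyz, rfl⟩] at h1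
    exact absurd h1 (by decide)
  · exact h

theorem ex_swap_of {Ω X : Type*} [Fintype Ω] [DecidableEq Ω] [Fintype X] [DecidableEq X]
    (h6 : Fintype.card Ω = 6) (hcX : Fintype.card X = 6) (ψ : Perm Ω ≃* Perm X) (hψ : Ex ψ)
    (σ : Perm Ω) (hσ : σ.cycleType = Multiset.replicate 3 2) : (ψ σ).IsSwap := by
  obtain ⟨y, z, hyz⟩ := Fintype.exists_pair_of_one_lt_card (α := X) (by omega)
  have h1 := ex_symm_cyc h6 hcX ψ hψ y z hyz
  have h2 := cyc_transport ψ (hσ.trans h1.symm)
  rw [MulEquiv.apply_symm_apply] at h2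
  rw [Perm.isSwap_iff_cycleType, h2]
  exact Perm.isSwap_iff_cycleType.mp ⟨y, z, hyz, rfl⟩

theorem ex_no_fix {Ω X : Type*} [Fintype Ω] [DecidableEq Ω] [Fintype X] [DecidableEq X]
    (hcX : Fintype.card X = 6) (ψ : Perm Ω ≃* Perm X) (hψ : Ex ψ)
    (a b : Ω) (hab : a ≠ b) (x : X) : ψ (swap a b) x ≠ x :=
  fpf hcX (hψ a b hab) x

/-- Every transposition-free subgroup of index 6 is the preimage of a point stabilizer under any
exceptional isomorphism. -/
theorem dual_point {Ω : Type u} {X : Type*} [Fintype Ω] [DecidableEq Ω] [Fintype X]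
    [DecidableEq X] (h6 : Fintype.card Ω = 6) (hcX : Fintype.card X = 6)
    (ψ : Perm Ω ≃* Perm X) (hψ : Ex ψ)
    (H' : Subgroup (Perm Ω)) (hH' : H'.index = 6) (hno : ∀ a b : Ω, a ≠ b → swap a b ∉ H') :
    ∃ x : X, ∀ k : Perm Ω, k ∈ H' ↔ ψ k x = x := by
  obtain ⟨u, huH, hu⟩ : ∃ u ∈ H', u.cycleType = Multiset.replicate 3 2 := by
    apply with_dual (by omega) H' (by rw [hH', h6])
    intro X' _ _ ψ' x₀' hcX' hmem'
    rw [h6] at hcX'
    have hψ' : Ex ψ' := ex_of_no_swap h6 hcX' H' hH' hno ψ' x₀' hmem'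
    obtain ⟨y, z, hyz, hy, hz⟩ := exists_three (by omega) x₀'
    refine ⟨ψ'.symm (swap y z), ?_, ex_symm_cyc h6 hcX' ψ' hψ' y z hyz⟩
    rw [hmem', MulEquiv.apply_symm_apply]
    exact swap_apply_of_ne_of_ne (Ne.symm hy) (Ne.symm hz)
  obtain ⟨y, z, hyz, e⟩ := ex_swap_of h6 hcX ψ hψ u hu
  have hidx : (H'.map ψ.toMonoidHom).index = 6 := by
    rw [← hH']; exact Subgroup.index_map_equiv H' ψ
  have hin : swap y z ∈ H'.map ψ.toMonoidHom := by
    rw [← e]; exact Subgroup.mem_map_of_mem _ huH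
  obtain ⟨x, hx⟩ := stab_of_swap hcX (H'.map ψ.toMonoidHom) hidx hyz hin
  refine ⟨x, fun k => ?_⟩
  have h1 : k ∈ H' ↔ ψ k ∈ H'.map ψ.toMonoidHom := by
    constructor
    · intro hk; exact Subgroup.mem_map_of_mem _ hk
    · rintro ⟨k', hk', hkk'⟩
      have : k' = k := ψ.injective hkk'
      exact this ▸ hk'
  rw [h1, hx]
  exact Iff.rfl

theorem sylow_card : Nat.card (Sylow 5 (Perm (Fin 5))) = 6 := by
  haveI : Fact (Nat.Prime 5) := ⟨by norm_num⟩
  obtain ⟨P⟩ : Nonempty (Sylow 5 (Perm (Fin 5))) := inferInstance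
  have hG : Nat.card (Perm (Fin 5)) = 120 := by
    rw [Nat.card_perm, Nat.card_fin]; rfl
  obtain ⟨k, hk⟩ := IsPGroup.iff_card.mp P.isPGroup'
  have hic := Subgroup.index_mul_card (P : Subgroup (Perm (Fin 5)))
  rw [hG, hk] at hic
  have hnd : ¬ 5 ∣ (P : Subgroup (Perm (Fin 5))).index := P.not_dvd_index
  have hk1 : k = 1 := by
    rcases Nat.lt_or_ge k 2 with h | h
    · rcases Nat.lt_or_ge k 1 with h0 | h1
      · exfalso
        have : k = 0 := by omega
        subst this
        apply hnd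
        rw [pow_zero, mul_one] at hic
        rw [hic]; decide
      · omega
    · exfalso
      have h25 : 5 ^ 2 ∣ 5 ^ k := pow_dvd_pow 5 h
      have : 5 ^ 2 ∣ 120 := by
        rw [← hic]; exact Dvd.dvd.mul_left h25 _
      revert this; decide
  subst hk1
  have hidx : (P : Subgroup (Perm (Fin 5))).index = 24 := by omega
  have hdvd := P.card_dvd_index
  rw [hidx] at hdvd
  have hmod := card_sylow_modEq_one 5 (Perm (Fin 5))
  have hle : Nat.card (Sylow 5 (Perm (Fin 5))) ≤ 24 := Nat.le_of_dvd (by norm_num) hdvd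
  have hcases : Nat.card (Sylow 5 (Perm (Fin 5))) = 1 ∨ Nat.card (Sylow 5 (Perm (Fin 5))) = 6 := by
    generalize Nat.card (Sylow 5 (Perm (Fin 5))) = n at hdvd hmod hle
    unfold Nat.ModEq at hmod
    interval_cases n <;> first | omega | (exfalso; revert hdvd; decide)
  rcases hcases with h1 | h6
  · exfalso
    haveI : Subsingleton (Sylow 5 (Perm (Fin 5))) :=
      (Finite.card_le_one_iff_subsingleton).mp (by rw [h1])
    haveI hn : (P : Subgroup (Perm (Fin 5))).Normal := Sylow.normal_of_subsingleton P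
    have hnt : Nontrivial (P : Subgroup (Perm (Fin 5))) := by
      rw [Subgroup.nontrivial_iff_ne_bot]
      intro hbot
      have : Nat.card (P : Subgroup (Perm (Fin 5))) = 1 := by rw [hbot]; exact Subgroup.card_bot
      rw [hk] at this
      omega
    have hA : alternatingGroup (Fin 5) ≤ (P : Subgroup (Perm (Fin 5))) :=
      Perm.alternatingGroup_le_of_normal (by rw [Nat.card_fin]) hnt
    have hcA := Subgroup.card_le_of_le hA
    have h2 := two_mul_nat_card_alternatingGroup (α := Fin 5)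
    rw [hG] at h2
    rw [hk] at hcA
    omega
  · exact h6

/-- For a 6-element set there is a subgroup of index 6 in the symmetric group fixing no point. -/
theorem exists_exotic {Ω : Type*} [Fintype Ω] [DecidableEq Ω] (h6 : Fintype.card Ω = 6) :
    ∃ T : Subgroup (Perm Ω), T.index = 6 ∧ ∀ w : Ω, ¬ T ≤ MulAction.stabilizer (Perm Ω) w := by
  classical
  haveI : Fact (Nat.Prime 5) := ⟨by norm_num⟩
  have hS : Nat.card (Sylow 5 (Perm (Fin 5))) = 6 := sylow_card
  obtain ⟨e⟩ : Nonempty (Sylow 5 (Perm (Fin 5)) ≃ Ω) := by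
    rw [← Finite.card_eq, hS, Nat.card_eq_fintype_card, h6]
  have hinj : Function.Injective (MulAction.toPermHom (Perm (Fin 5)) (Sylow 5 (Perm (Fin 5)))) := by
    rw [← MonoidHom.ker_eq_bot_iff]
    by_contra hne
    have hnt : Nontrivial (MulAction.toPermHom (Perm (Fin 5)) (Sylow 5 (Perm (Fin 5)))).ker :=
      (Subgroup.nontrivial_iff_ne_bot _).mpr hne
    have hA : alternatingGroup (Fin 5) ≤
        (MulAction.toPermHom (Perm (Fin 5)) (Sylow 5 (Perm (Fin 5)))).ker :=
      Perm.alternatingGroup_le_of_normal (by rw [Nat.card_fin]) hnt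
    obtain ⟨P₀⟩ : Nonempty (Sylow 5 (Perm (Fin 5))) := inferInstance
    have hst : (MulAction.toPermHom (Perm (Fin 5)) (Sylow 5 (Perm (Fin 5)))).ker ≤
        MulAction.stabilizer (Perm (Fin 5)) P₀ := by
      intro g hg
      have h1 : MulAction.toPermHom (Perm (Fin 5)) (Sylow 5 (Perm (Fin 5))) g = 1 := hg
      show g • P₀ = P₀
      have h2 : MulAction.toPermHom (Perm (Fin 5)) (Sylow 5 (Perm (Fin 5))) g P₀ = P₀ := by
        rw [h1]; rfl
      exact h2
    have hidx : (MulAction.stabilizer (Perm (Fin 5)) P₀).index = 6 := by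
      rw [MulAction.index_stabilizer_of_transitive, hS]
    have hd : (MulAction.stabilizer (Perm (Fin 5)) P₀).index ∣ (alternatingGroup (Fin 5)).index :=
      Subgroup.index_dvd_of_le (hA.trans hst)
    rw [hidx, alternatingGroup.index_eq_two] at hd
    revert hd; decide
  obtain ⟨f, hf⟩ : ∃ f : Perm (Fin 5) →* Perm Ω, ∀ g w, f g w = e (g • e.symm w) :=
    ⟨(e.permCongrHom).toMonoidHom.comp (MulAction.toPermHom (Perm (Fin 5)) (Sylow 5 (Perm (Fin 5)))),
      fun g w => rfl⟩
  have hfinj : Function.Injective f := by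
    intro x y hxy
    apply hinj
    apply Equiv.ext
    intro P
    have h1 := congrArg (fun σ : Perm Ω => σ (e P)) hxy
    simp only [hf, Equiv.symm_apply_apply] at h1
    exact e.injective h1
  have hcardT : Nat.card f.range = 120 := by
    rw [← Nat.card_congr (MonoidHom.ofInjective hfinj).toEquiv, Nat.card_perm, Nat.card_fin]
    rfl
  have hidxT : f.range.index = 6 := by
    have h := Subgroup.index_mul_card f.range
    rw [hcardT, Nat.card_perm, Nat.card_eq_fintype_card (α := Ω), h6] at h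
    have h720 : (6 : ℕ)! = 720 := rfl
    omega
  refine ⟨f.range, hidxT, fun w hle => ?_⟩
  have hnt : ∃ P₁ : Sylow 5 (Perm (Fin 5)), P₁ ≠ e.symm w := by
    by_contra hall
    push Not at hall
    have h1 : Nat.card (Sylow 5 (Perm (Fin 5))) ≤ 1 := by
      rw [Finite.card_le_one_iff_subsingleton]
      exact ⟨fun a b => (hall a).trans (hall b).symm⟩
    omega
  obtain ⟨P₁, hP₁⟩ := hnt
  obtain ⟨g, hg⟩ := MulAction.exists_smul_eq (Perm (Fin 5)) (e.symm w) P₁
  have hfix : f g w = w := hle ⟨g, rfl⟩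
  rw [hf] at hfix
  apply hP₁
  rw [← hg]
  exact (Equiv.symm_apply_eq e).mpr hfix.symm |>.symm

/-- The symmetric group on a 6-element set Ω has exactly two conjugacy classes of subgroups of index 6: there are two non-conjugate subgroups of index 6 (a point stabilizer and a transitive subgroup isomorphic to S₅), and every subgroup of index 6 is conjugate to one of them. -/
theorem result {Ω : Type*} [Fintype Ω] [DecidableEq Ω] (h6 : Fintype.card Ω = 6) :
    ∃ H₁ H₂ : Subgroup (Equiv.Perm Ω), H₁.index = 6 ∧ H₂.index = 6 ∧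
      (¬ ∃ g : Equiv.Perm Ω, Subgroup.map (MulAut.conj g).toMonoidHom H₁ = H₂) ∧
      ∀ H : Subgroup (Equiv.Perm Ω), H.index = 6 →
        ∃ g : Equiv.Perm Ω, Subgroup.map (MulAut.conj g).toMonoidHom H₁ = H ∨ Subgroup.map (MulAut.conj g).toMonoidHom H₂ = H := by
  classical
  have hne : Nonempty Ω := Fintype.card_pos_iff.mp (by omega)
  obtain ⟨w₀⟩ := hne
  obtain ⟨T, hT6, hTfix⟩ := exists_exotic h6
  have hTno : ∀ a b : Ω, a ≠ b → Equiv.swap a b ∉ T := by
    intro a b hab hin
    obtain ⟨w, hw⟩ := stab_of_swap h6 T hT6 hab hin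
    exact hTfix w (le_of_eq hw)
  refine ⟨MulAction.stabilizer (Equiv.Perm Ω) w₀, T, ?_, hT6, ?_, ?_⟩
  · rw [S5911.index_stab, h6]
  · rintro ⟨g, hg⟩
    apply hTfix (g w₀)
    rw [← hg, ← MulAction.stabilizer_smul_eq_stabilizer_map_conj]
    exact le_of_eq rfl
  · intro H hH
    by_cases hsw : ∃ a b : Ω, a ≠ b ∧ Equiv.swap a b ∈ H
    · obtain ⟨a, b, hab, hin⟩ := hsw
      obtain ⟨w, hw⟩ := stab_of_swap h6 H hH hab hin
      refine ⟨Equiv.swap w₀ w, Or.inl ?_⟩
      rw [← MulAction.stabilizer_smul_eq_stabilizer_map_conj, hw]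
      congr 1
      exact Equiv.swap_apply_left w₀ w
    · push Not at hsw
      apply with_dual (by omega) T (by rw [hT6, h6])
      intro X _ _ ψ x₀ hcX hmem
      rw [h6] at hcX
      have hψ : Ex ψ := ex_of_no_swap h6 hcX T hT6 hTno ψ x₀ hmem
      obtain ⟨x, hx⟩ := dual_point h6 hcX ψ hψ H hH hsw
      refine ⟨ψ.symm (Equiv.swap x₀ x), Or.inr ?_⟩
      ext k
      rw [Subgroup.mem_map_equiv, hx, hmem, MulAut.conj_symm_apply, map_mul, map_mul, map_inv,
        MulEquiv.apply_symm_apply]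
      simp only [Equiv.Perm.mul_apply, Equiv.swap_inv, Equiv.swap_apply_left]
      constructor
      · intro h
        have h' := congrArg (Equiv.swap x₀ x) h
        simpa using h'
      · intro h
        rw [h, Equiv.swap_apply_right]

end Cfsg.Agent.S5912
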