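import Cfsg.Statements.S5913
-- import your own Cfsg.Agent.* helpers here

set_option autoImplicit false
open Cfsg

namespace Cfsg.Agent.S5913

/-- Let S be a non-abelian simple group and n a natural number. Every normal subgroup N of the direct power S^n (functions Fin n → S) is a subproduct: there is a set T of coordinates such that N consists exactly of the elements whose coordinates outside T are trivial. In particular the minimal normal subgroups of S^n are its n factors. -/
theorem result {S : Type*} [Group S] [IsSimpleGroup S] (hS : ¬ IsMulCommutative S) (n : ℕ)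
    (N : Subgroup (Fin n → S)) [N.Normal] :
    ∃ T : Finset (Fin n), ∀ x : Fin n → S, x ∈ N ↔ ∀ i, i ∉ T → x i = 1 := by
  classical
  have hcen : Subgroup.center S = ⊥ := by
    rcases (inferInstance : (Subgroup.center S).Normal).eq_bot_or_eq_top with h | h
    · exact h
    · exfalso; apply hS
      refine ⟨⟨fun a b => ?_⟩⟩
      have : a ∈ Subgroup.center S := by rw [h]; trivial
      exact (Subgroup.mem_center_iff.mp this b).symm
  refine ⟨Finset.univ.filter (fun i => ∃ x ∈ N, x i ≠ 1), fun x => ⟨?_, ?_⟩⟩
  · intro hx i hi
    by_contra hne
    exact hi (Finset.mem_filter.mpr ⟨Finset.mem_univ _, x, hx, hne⟩)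
  · intro hx
    have key : ∀ i, Pi.mulSingle i (x i) ∈ N := by
      intro i
      by_cases hi : i ∈ Finset.univ.filter (fun i => ∃ x ∈ N, x i ≠ 1)
      · obtain ⟨-, y, hy, hyi⟩ := Finset.mem_filter.mp hi
        let M : Subgroup S := N.comap (MonoidHom.mulSingle (fun _ : Fin n => S) i)
        have hMn : M.Normal := Subgroup.Normal.comap inferInstance _
        have hM : M = ⊤ := by
          rcases hMn.eq_bot_or_eq_top with h | h
          · exfalso
            have hnc : y i ∉ Subgroup.center S := by
              rw [hcen, Subgroup.mem_bot]; exact hyi
            rw [Subgroup.mem_center_iff] at hnc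
            push Not at hnc
            obtain ⟨s, hs⟩ := hnc
            have hc : Pi.mulSingle i s * y * (Pi.mulSingle i s)⁻¹ * y⁻¹ ∈ N :=
              N.mul_mem ((inferInstance : N.Normal).conj_mem y hy _) (N.inv_mem hy)
            have hc' : Pi.mulSingle i s * y * (Pi.mulSingle i s)⁻¹ * y⁻¹ =
                Pi.mulSingle i (s * y i * s⁻¹ * (y i)⁻¹) := by
              funext j
              by_cases hj : j = i
              · subst hj; simp
              · simp [Pi.mulSingle_eq_of_ne hj]
            rw [hc'] at hc
            have hmem : s * y i * s⁻¹ * (y i)⁻¹ ∈ M := hc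
            rw [h, Subgroup.mem_bot] at hmem
            apply hs
            have h3 := mul_inv_eq_one.mp hmem
            rw [mul_inv_eq_iff_eq_mul] at h3
            exact h3
          · exact h
        have hxi : x i ∈ M := by rw [hM]; trivial
        exact hxi
      · rw [hx i hi, Pi.mulSingle_one]
        exact N.one_mem
    rw [← Finset.noncommProd_mulSingle x]
    exact Subgroup.noncommProd_mem N _ (fun i _ => key i)

end Cfsg.Agent.S5913
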