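import Cfsg.Statements.S5914
-- import your own Cfsg.Agent.* helpers here
import Cfsg.Agent.S5913

set_option autoImplicit false
open Cfsg

namespace Cfsg.Agent.S5914


/-- Coordinate permutation automorphism of a power. -/
def permAut {S : Type*} [Group S] {n : ℕ} (σ : Equiv.Perm (Fin n)) :
    (Fin n → S) ≃* (Fin n → S) where
  toFun x := x ∘ σ
  invFun x := x ∘ σ.symm
  left_inv x := by funext i; simp
  right_inv x := by funext i; simp
  map_mul' x y := rfl

theorem permAut_mulSingle {S : Type*} [Group S] {n : ℕ} (i j : Fin n) (t : S) :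
    permAut (Equiv.swap i j) (Pi.mulSingle i t) = Pi.mulSingle j t := by
  funext k
  show (Pi.mulSingle i t : Fin n → S) (Equiv.swap i j k) = (Pi.mulSingle j t : Fin n → S) k
  by_cases hk : k = j
  · subst hk; rw [Equiv.swap_apply_right, Pi.mulSingle_eq_same, Pi.mulSingle_eq_same]
  · rw [Pi.mulSingle_eq_of_ne hk]
    apply Pi.mulSingle_eq_of_ne
    intro h
    apply hk
    have h2 := congrArg (Equiv.swap i j) h
    rw [Equiv.swap_apply_self, Equiv.swap_apply_left] at h2
    exact h2

/-- Shear automorphism of a power of a commutative group. -/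
def shear {S : Type*} [CommGroup S] {n : ℕ} (i0 : Fin n) (k : Fin n → ℤ) :
    (Fin n → S) ≃* (Fin n → S) where
  toFun y := fun j => if j = i0 then y i0 else y j * (y i0) ^ (-(k j))
  invFun y := fun j => if j = i0 then y i0 else y j * (y i0) ^ (k j)
  left_inv y := by
    funext j
    by_cases hj : j = i0
    · simp [hj]
    · simp [hj]
  right_inv y := by
    funext j
    by_cases hj : j = i0
    · simp [hj]
    · simp [hj]
  map_mul' y z := by
    funext j
    by_cases hj : j = i0
    · simp [hj]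
    · simp [hj, mul_zpow, mul_mul_mul_comm]
      exact mul_comm _ _

theorem char_pi {S : Type*} [Group S] [IsSimpleGroup S] {n : ℕ} (N : Subgroup (Fin n → S))
    (hN : ∀ φ : (Fin n → S) ≃* (Fin n → S), ∀ x ∈ N, φ x ∈ N) : N = ⊥ ∨ N = ⊤ := by
  classical
  by_cases hbot : N = ⊥
  · exact Or.inl hbot
  right
  have hnorm : N.Normal := ⟨fun x hx g => by
    have h1 := hN (MulAut.conj g) x hx
    simpa [MulAut.conj_apply] using h1⟩
  have step1 : ∃ (i0 : Fin n) (s : S), s ≠ 1 ∧ Pi.mulSingle i0 s ∈ N := by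
    by_cases hS : IsMulCommutative S
    · letI : CommGroup S :=
        { (inferInstance : Group S) with mul_comm := fun a b => hS.is_comm.comm a b }
      obtain ⟨x, hx, hx1⟩ : ∃ x ∈ N, x ≠ 1 := by
        by_contra hcon; push Not at hcon
        exact hbot (eq_bot_iff.mpr (fun x hx => Subgroup.mem_bot.mpr (hcon x hx)))
      obtain ⟨i0, hi0⟩ : ∃ i0, x i0 ≠ 1 := by
        by_contra hcon; push Not at hcon
        exact hx1 (funext hcon)
      have hz : Subgroup.zpowers (x i0) = ⊤ := by
        have hzn : (Subgroup.zpowers (x i0)).Normal := ⟨fun a ha g => by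
          rw [mul_comm g a, mul_inv_cancel_right]; exact ha⟩
        rcases hzn.eq_bot_or_eq_top with h | h
        · exact absurd (Subgroup.zpowers_eq_bot.mp h) hi0
        · exact h
      have hk : ∀ j, ∃ k : ℤ, (x i0) ^ k = x j := by
        intro j
        have h1 : x j ∈ Subgroup.zpowers (x i0) := by rw [hz]; trivial
        exact Subgroup.mem_zpowers_iff.mp h1
      choose k hk using hk
      refine ⟨i0, x i0, hi0, ?_⟩
      have h2 := hN (shear i0 k) x hx
      have heq : shear i0 k x = Pi.mulSingle i0 (x i0) := by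
        funext j
        by_cases hj : j = i0
        · subst hj; simp [shear]
        · have h3 : shear i0 k x j = x j * (x i0) ^ (-(k j)) := by
            simp [shear, hj]
          rw [h3, Pi.mulSingle_eq_of_ne hj, ← hk j, ← zpow_add, add_neg_cancel, zpow_zero]
      rw [heq] at h2
      exact h2
    · haveI := hnorm
      obtain ⟨T, hT⟩ := Cfsg.Agent.S5913.result hS n N
      obtain ⟨i0, hi0⟩ : ∃ i0, i0 ∈ T := by
        by_contra hcon; push Not at hcon
        apply hbot
        rw [eq_bot_iff]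
        intro x hx
        rw [Subgroup.mem_bot]
        funext i
        exact (hT x).mp hx i (hcon i)
      obtain ⟨s, hs⟩ := exists_ne (1 : S)
      refine ⟨i0, s, hs, ?_⟩
      rw [hT]
      intro i hi
      apply Pi.mulSingle_eq_of_ne
      rintro rfl; exact hi hi0
  obtain ⟨i0, s, hs, hsN⟩ := step1
  let M : Subgroup S := N.comap (MonoidHom.mulSingle (fun _ : Fin n => S) i0)
  have hMn : M.Normal := Subgroup.Normal.comap hnorm _
  have hM : M = ⊤ := by
    rcases hMn.eq_bot_or_eq_top with h | h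
    · have h1 : s ∈ M := hsN
      rw [h, Subgroup.mem_bot] at h1
      exact absurd h1 hs
    · exact h
  have hall : ∀ (j : Fin n) (t : S), Pi.mulSingle j t ∈ N := by
    intro j t
    have h1 : Pi.mulSingle i0 t ∈ N := by
      have h0 : t ∈ M := by rw [hM]; trivial
      exact h0
    have h2 := hN (permAut (Equiv.swap i0 j)) _ h1
    rw [permAut_mulSingle] at h2
    exact h2
  rw [eq_top_iff]
  intro y _
  rw [← Finset.noncommProd_mulSingle y]
  exact Subgroup.noncommProd_mem N _ (fun i _ => hall i (y i))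

/-- Internal direct product of two normal subgroups with trivial intersection. -/
noncomputable def supEquiv {G : Type*} [Group G] (R A : Subgroup G) (hR : R.Normal)
    (hA : A.Normal) (h : R ⊓ A = ⊥) : ↥(R ⊔ A) ≃* R × A := by
  have comm : ∀ (r : R) (a : A), Commute (R.subtype r) (A.subtype a) := fun r a =>
    Subgroup.commute_of_normal_of_disjoint R A hR hA (disjoint_iff.mpr h) r a r.2 a.2
  have hinj : Function.Injective (MonoidHom.noncommCoprod R.subtype A.subtype comm) := by
    rw [MonoidHom.noncommCoprod_injective]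
    refine ⟨Subgroup.subtype_injective R, Subgroup.subtype_injective A, ?_⟩
    rw [Subgroup.range_subtype, Subgroup.range_subtype]
    exact disjoint_iff.mpr h
  have hrange : (MonoidHom.noncommCoprod R.subtype A.subtype comm).range = R ⊔ A := by
    rw [MonoidHom.noncommCoprod_range, Subgroup.range_subtype, Subgroup.range_subtype]
  exact ((MonoidHom.ofInjective hinj).trans (MulEquiv.subgroupCongr hrange)).symm

/-- Appending a coordinate. -/
def consEquiv (k : ℕ) (S : Type*) [Group S] : (Fin k → S) × S ≃* (Fin (k + 1) → S) where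
  toFun p := Fin.cons p.2 p.1
  invFun f := (Fin.tail f, f 0)
  left_inv p := by simp
  right_inv f := by simp
  map_mul' p q := by
    funext i
    refine Fin.cases ?_ ?_ i
    · simp
    · intro j; simp

theorem simple_pow_of_charSimple {G : Type*} [Group G] [Finite G] [Nontrivial G]
    (hchar : ∀ H : Subgroup G, H.Characteristic → H = ⊥ ∨ H = ⊤) :
    ∃ (N : Subgroup G) (k : ℕ), IsSimpleGroup N ∧ Nonempty (G ≃* (Fin (k + 1) → N)) := by
  classical
  obtain ⟨N, hNmin⟩ := exists_minimal_of_wellFoundedLT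
    (fun N : Subgroup G => N.Normal ∧ N ≠ ⊥) ⟨⊤, inferInstance, top_ne_bot⟩
  obtain ⟨⟨hNn, hNne⟩, hNle⟩ := hNmin
  have hJ : (⨆ φ : MulAut G, N.map φ.toMonoidHom) = ⊤ := by
    have hJchar : (⨆ φ : MulAut G, N.map φ.toMonoidHom).Characteristic := by
      rw [Subgroup.characteristic_iff_map_le]
      intro ψ
      rw [Subgroup.map_iSup]
      apply iSup_le
      intro φ
      rw [Subgroup.map_map]
      exact le_iSup (fun φ : MulAut G => N.map φ.toMonoidHom) (φ.trans ψ)
    rcases hchar _ hJchar with h | h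
    · exfalso
      apply hNne
      rw [eq_bot_iff, ← h]
      have h1 := le_iSup (fun φ : MulAut G => N.map φ.toMonoidHom) (MulEquiv.refl G)
      intro x hx
      exact h1 ⟨x, hx, rfl⟩
    · exact h
  have key : ∀ X : Subgroup G, X.Normal → X ≠ ⊤ →
      ∃ φ : MulAut G, N.map φ.toMonoidHom ⊓ X = ⊥ := by
    intro X hXn hXne
    obtain ⟨φ, hφ⟩ : ∃ φ : MulAut G, ¬ N.map φ.toMonoidHom ≤ X := by
      by_contra hcon; push Not at hcon
      apply hXne
      rw [eq_top_iff, ← hJ]
      exact iSup_le hcon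
    refine ⟨φ, ?_⟩
    by_contra hne
    have hAn : (N.map φ.toMonoidHom).Normal := Subgroup.Normal.map hNn _ φ.surjective
    have hYn : ((N.map φ.toMonoidHom ⊓ X).comap φ.toMonoidHom).Normal := by
      have h1 : (N.map φ.toMonoidHom ⊓ X).Normal := Subgroup.normal_inf_normal _ _
      exact Subgroup.Normal.comap h1 _
    have hYle : (N.map φ.toMonoidHom ⊓ X).comap φ.toMonoidHom ≤ N := by
      intro y hy
      have h1 : φ y ∈ N.map φ.toMonoidHom := hy.1
      obtain ⟨z, hz, hzy⟩ := h1
      have h2 : z = y := φ.injective hzy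
      rw [← h2]; exact hz
    have hYne : (N.map φ.toMonoidHom ⊓ X).comap φ.toMonoidHom ≠ ⊥ := by
      intro h
      apply hne
      rw [eq_bot_iff]
      intro a ha
      have h1 : φ.symm a ∈ (N.map φ.toMonoidHom ⊓ X).comap φ.toMonoidHom := by
        show φ (φ.symm a) ∈ N.map φ.toMonoidHom ⊓ X
        rw [MulEquiv.apply_symm_apply]; exact ha
      rw [h, Subgroup.mem_bot] at h1
      rw [Subgroup.mem_bot]
      have h2 := congrArg φ h1
      rw [MulEquiv.apply_symm_apply, map_one] at h2
      exact h2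
    have hNY := hNle ⟨hYn, hYne⟩ hYle
    apply hφ
    rintro a ⟨z, hz, rfl⟩
    exact (hNY hz).2
  obtain ⟨R, hRmax⟩ := exists_maximal_of_wellFoundedGT
    (fun R : Subgroup G => R.Normal ∧ R ⊓ N = ⊥ ∧ ∃ k, Nonempty (R ≃* (Fin k → N)))
    ⟨⊥, inferInstance, bot_inf_eq _, 0, ⟨MulEquiv.ofUnique⟩⟩
  obtain ⟨⟨hRn, hRN, k, ⟨eR⟩⟩, hRle⟩ := hRmax
  have hRNtop : R ⊔ N = ⊤ := by
    by_contra hne
    have hsupn : (R ⊔ N).Normal := Subgroup.sup_normal R N
    obtain ⟨φ, hφ⟩ := key (R ⊔ N) hsupn hne
    have hAn : (N.map φ.toMonoidHom).Normal := Subgroup.Normal.map hNn _ φ.surjective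
    have hAR : N.map φ.toMonoidHom ⊓ R = ⊥ :=
      le_bot_iff.mp (by rw [← hφ]; exact inf_le_inf_left _ le_sup_left)
    have hAne : N.map φ.toMonoidHom ≠ ⊥ := by
      intro h
      apply hNne
      exact (Subgroup.map_eq_bot_iff_of_injective N φ.injective).mp h
    have hQ : (R ⊔ N.map φ.toMonoidHom).Normal ∧ (R ⊔ N.map φ.toMonoidHom) ⊓ N = ⊥ ∧
        ∃ k, Nonempty ((R ⊔ N.map φ.toMonoidHom : Subgroup G) ≃* (Fin k → N)) := by
      refine ⟨Subgroup.sup_normal R _, ?_, k + 1, ⟨?_⟩⟩
      · rw [eq_bot_iff]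
        intro x hx
        have hx1 : x ∈ R ⊔ N.map φ.toMonoidHom := hx.1
        have hx2 : x ∈ N := hx.2
        have hmem : x ∈ ((R ⊔ N.map φ.toMonoidHom : Subgroup G) : Set G) := hx1
        rw [Subgroup.mul_normal] at hmem
        obtain ⟨r, hr, a, ha, rfl⟩ := Set.mem_mul.mp hmem
        have ha' : a ∈ R ⊔ N := by
          have h1 : a = r⁻¹ * (r * a) := by group
          rw [h1]
          exact (R ⊔ N).mul_mem ((R ⊔ N).inv_mem (Subgroup.mem_sup_left hr))
            (Subgroup.mem_sup_right hx2)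
        have ha1 : a = 1 := by
          have h1 : a ∈ N.map φ.toMonoidHom ⊓ (R ⊔ N) := ⟨ha, ha'⟩
          rw [hφ] at h1
          exact Subgroup.mem_bot.mp h1
        subst ha1
        rw [mul_one] at hx2 ⊢
        have h1 : r ∈ R ⊓ N := ⟨hr, hx2⟩
        rw [hRN] at h1
        exact h1
      · exact (supEquiv R _ hRn hAn (by rw [inf_comm]; exact hAR)).trans
          ((MulEquiv.prodCongr eR (φ.subgroupMap N).symm).trans (consEquiv k N))
    have h1 := hRle hQ le_sup_left
    apply hAne
    rw [eq_bot_iff, ← hAR]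
    exact le_inf le_rfl (le_sup_right.trans h1)
  have eG : G ≃* (Fin (k + 1) → N) :=
    (Subgroup.topEquiv.symm.trans (MulEquiv.subgroupCongr hRNtop.symm)).trans
      ((supEquiv R N hRn hNn hRN).trans
        ((MulEquiv.prodCongr eR (MulEquiv.refl N)).trans (consEquiv k N)))
  have hsimple : IsSimpleGroup N := by
    haveI : Nontrivial N := (Subgroup.nontrivial_iff_ne_bot N).mpr hNne
    refine ⟨fun B hB => ?_⟩
    have hB'n : (B.map N.subtype).Normal := by
      constructor
      intro b hb g
      have hg : g ∈ ((R ⊔ N : Subgroup G) : Set G) := by rw [hRNtop]; trivial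
      haveI := hNn
      rw [Subgroup.mul_normal] at hg
      obtain ⟨r, hr, m, hm, rfl⟩ := Set.mem_mul.mp hg
      obtain ⟨b0, hb0, rfl⟩ := hb
      have hcomm : Commute r (m * (b0 : G) * m⁻¹) :=
        Subgroup.commute_of_normal_of_disjoint R N hRn hNn (disjoint_iff.mpr hRN) r _ hr
          (N.mul_mem (N.mul_mem hm b0.2) (N.inv_mem hm))
      have h1 : r * m * (b0 : G) * (r * m)⁻¹ = m * b0 * m⁻¹ := by
        rw [mul_inv_rev]
        calc r * m * b0 * (m⁻¹ * r⁻¹) = r * (m * b0 * m⁻¹) * r⁻¹ := by group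
          _ = (m * b0 * m⁻¹) * r * r⁻¹ := by rw [hcomm.eq]
          _ = m * b0 * m⁻¹ := by group
      refine ⟨⟨m, hm⟩ * b0 * ⟨m, hm⟩⁻¹, hB.conj_mem b0 hb0 ⟨m, hm⟩, ?_⟩
      exact h1.symm
    rcases eq_or_ne (B.map N.subtype) ⊥ with h | h
    · left; exact (Subgroup.map_eq_bot_iff_of_injective B N.subtype_injective).mp h
    · right
      have hle : B.map N.subtype ≤ N := by rintro x ⟨y, -, rfl⟩; exact y.2
      have h2 := hNle ⟨hB'n, h⟩ hle
      rw [eq_top_iff]
      intro y _
      obtain ⟨z, hz, hzy⟩ := h2 y.2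
      have h3 : z = y := Subtype.ext hzy
      rwa [← h3]
  exact ⟨N, k, hsimple, ⟨eG⟩⟩

/-- A type-0 carrier. -/
def Copy (m : ℕ) : Type := Fin m

/-- A non-trivial finite group G is characteristically simple (its only characteristic subgroups are 1 and G) if and only if G is isomorphic to a direct power S^n (n ≥ 1) of some simple group S (possibly cyclic of prime order). -/
theorem result {G : Type*} [Group G] [Finite G] [Nontrivial G] :
    (∀ H : Subgroup G, H.Characteristic → H = ⊥ ∨ H = ⊤) ↔
    ∃ (S : Type) (_ : Group S) (_ : IsSimpleGroup S) (n : ℕ), 1 ≤ n ∧ Nonempty (G ≃* (Fin n → S)) := by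
  classical
  constructor
  · intro hchar
    obtain ⟨N, k, hsimple, ⟨eG⟩⟩ := simple_pow_of_charSimple hchar
    let e0 : Copy (Nat.card N) ≃ N := (Finite.equivFin N).symm
    letI : Group (Copy (Nat.card N)) := e0.group
    let eS : Copy (Nat.card N) ≃* N := e0.mulEquiv
    have hS : IsSimpleGroup (Copy (Nat.card N)) := eS.isSimpleGroup
    exact ⟨Copy (Nat.card N), inferInstance, hS, k + 1, by omega,
      ⟨eG.trans (MulEquiv.piCongrRight (fun _ => eS.symm))⟩⟩
  · rintro ⟨S, hG, hS, n, hn, ⟨e⟩⟩ H hH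
    have hmap : ∀ φ : (Fin n → S) ≃* (Fin n → S), ∀ x ∈ H.map e.toMonoidHom,
        φ x ∈ H.map e.toMonoidHom := by
      rintro φ x ⟨h, hh, rfl⟩
      have h1 := (Subgroup.characteristic_iff_map_eq.mp hH) (e.trans (φ.trans e.symm))
      have h2 : (e.trans (φ.trans e.symm)) h ∈ H := by
        rw [← h1]; exact ⟨h, hh, rfl⟩
      refine ⟨_, h2, ?_⟩
      show e (e.symm (φ (e h))) = φ (e h)
      rw [MulEquiv.apply_symm_apply]
    rcases char_pi (H.map e.toMonoidHom) hmap with h | h
    · left
      exact (Subgroup.map_eq_bot_iff_of_injective H e.injective).mp h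
    · right
      rw [eq_top_iff]
      intro g _
      have h1 : e g ∈ H.map e.toMonoidHom := by rw [h]; trivial
      obtain ⟨g', hg', hgg⟩ := h1
      have h2 : g' = g := e.injective hgg
      rw [← h2]; exact hg'

end Cfsg.Agent.S5914
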