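import Cfsg.Statements.S5939
import Cfsg.Agent.Helper9.Dk15
import Cfsg.Agent.Helper9.Prime3
import Cfsg.Agent.Helper9.Ico8

set_option autoImplicit false
open Cfsg

namespace Cfsg.Agent.S5939

open Cfsg.Agent.Helper9

theorem result {F : Type*} [Field F] [Fintype F] (p : ℕ) [Fact p.Prime] [CharP F p] (h : (Fintype.card F = p ∧ (p % 10 = 1 ∨ p % 10 = 9)) ∨ (Fintype.card F = p ^ 2 ∧ (p % 10 = 3 ∨ p % 10 = 7))) : ∃ H : Subgroup (Matrix.ProjectiveSpecialLinearGroup (Fin 2) F), IsCoatom H ∧ Nonempty (H ≃* alternatingGroup (Fin 5)) := by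
  classical
  have hpp := (Fact.out : p.Prime)
  rcases h with ⟨hF, hp⟩ | ⟨hF, hp⟩
  · have hp11 : 11 ≤ p := by
      have h2 := hpp.two_le
      by_contra hlt
      rw [not_le] at hlt
      interval_cases p <;> first | omega | (norm_num at hpp)
    have hodd : Fintype.card F % 2 = 1 := by rw [hF]; omega
    obtain ⟨r, hr, hcard⟩ := psl2_card_odd_h9 hodd
    rw [hF] at hr
    have hr10 : 10 ≤ r := by omega
    have hbig : 1320 ≤ r * (r + 1) * (r + 2) := by
      calc 1320 = 10 * (10 + 1) * (10 + 2) := by norm_num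
        _ ≤ r * (r + 1) * (r + 2) :=
          Nat.mul_le_mul (Nat.mul_le_mul hr10 (by omega)) (by omega)
    have h5 : 5 ∣ Fintype.card F * (Fintype.card F ^ 2 - 1) := by
      rw [hF]
      apply dvd_mul_of_dvd_right
      have h1 : p ^ 2 % 5 = 1 := by
        rw [Nat.pow_mod]
        have : p % 5 = 1 ∨ p % 5 = 4 := by omega
        rcases this with h | h <;> rw [h]
      have h2 : 1 ≤ p ^ 2 := Nat.one_le_pow _ _ hpp.pos
      omega
    obtain ⟨H, ⟨e⟩⟩ := psl2_A5_odd_h9 hodd h5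
    have hcH : Nat.card H = 60 := by rw [Nat.card_congr e.toEquiv, card_A5_h9]
    obtain ⟨σ, τ, hστ⟩ := alt5_sq_not_comm_h9
    refine ⟨H, ?_, ⟨e⟩⟩
    apply psl2_prime_coatom_h9 p hF H ?_ ?_ (e.symm σ).1 (e.symm τ).1 (e.symm σ).2 (e.symm τ).2
    · intro h
      apply hστ
      have h1 : (e.symm σ) ^ 2 * (e.symm τ) ^ 2 = (e.symm τ) ^ 2 * (e.symm σ) ^ 2 :=
        Subtype.ext h
      have h2 := congrArg e h1
      simpa using h2
    · intro M hHM hM ⟨f⟩
      have hcM : Nat.card M = 12 := by rw [Nat.card_congr f.toEquiv, card_alt4_h9]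
      have := Subgroup.card_le_of_le hHM.le
      omega
    · intro M hHM hM ⟨f⟩
      have hcM : Nat.card M = 24 := by rw [Nat.card_congr f.toEquiv, card_perm4_h9]
      have := Subgroup.card_le_of_le hHM.le
      omega
    · intro M hHM hM ⟨f⟩
      have hcM : Nat.card M = 60 := by rw [Nat.card_congr f.toEquiv, card_A5_h9]
      have := Subgroup.eq_of_le_of_card_ge hHM.le (by rw [hcM, hcH])
      exact hHM.ne this
    · intro h
      rw [h, Subgroup.card_top] at hcH
      omega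
    · rw [hcH]
      intro hdvd
      have := Nat.le_of_dvd (by norm_num) hdvd
      interval_cases p <;> omega
  · have hp3 : 3 ≤ p := by
      have := hpp.two_le
      omega
    have hodd : Fintype.card F % 2 = 1 := by
      rw [hF, Nat.pow_mod]
      have : p % 2 = 1 := by omega
      rw [this]
    have h5 : 5 ∣ Fintype.card F * (Fintype.card F ^ 2 - 1) := by
      rw [hF]
      apply dvd_mul_of_dvd_right
      have h1 : (p ^ 2) ^ 2 % 5 = 1 := by
        rw [Nat.pow_mod, Nat.pow_mod p 2 5]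
        have : p % 5 = 2 ∨ p % 5 = 3 := by omega
        rcases this with h | h <;> rw [h]
      have h2 : 1 ≤ (p ^ 2) ^ 2 := Nat.one_le_pow _ _ (Nat.pow_pos hpp.pos)
      omega
    obtain ⟨H, ⟨e⟩⟩ := psl2_A5_odd_h9 hodd h5
    exact ⟨H, psl2_A5_coatom_sq_h9 (p := p) hF hp H e, ⟨e⟩⟩

end Cfsg.Agent.S5939
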