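import Cfsg.Statements.S5940
import Cfsg.Agent.Helper9.Prime3
import Cfsg.Agent.Helper9.Ico8
import Cfsg.Agent.S0802

set_option autoImplicit false
open Cfsg

namespace Cfsg.Agent.S5940

open Cfsg.Agent.Helper9

theorem result {F : Type*} [Field F] [Fintype F] (p : ℕ) [Fact p.Prime] (hF : Fintype.card F = p) (h5 : 5 ≤ p) (h8 : p % 8 = 3 ∨ p % 8 = 5) (h10 : p % 10 ≠ 1 ∧ p % 10 ≠ 9) : ∃ H : Subgroup (Matrix.ProjectiveSpecialLinearGroup (Fin 2) F), IsCoatom H ∧ Nonempty (H ≃* alternatingGroup (Fin 4)) := by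
  classical
  have hpp := (Fact.out : p.Prime)
  haveI := charP_of_card_eq_prime hF
  have hodd : Fintype.card F % 2 = 1 := by rw [hF]; omega
  obtain ⟨r, hr, hcard⟩ := psl2_card_odd_h9 hodd
  rw [hF] at hr
  have hr4 : 4 ≤ r := by omega
  have hbig : 120 ≤ r * (r + 1) * (r + 2) := by
    calc 120 = 4 * (4 + 1) * (4 + 2) := by norm_num
      _ ≤ r * (r + 1) * (r + 2) :=
        Nat.mul_le_mul (Nat.mul_le_mul hr4 (by omega)) (by omega)
  obtain ⟨H, ⟨e⟩⟩ := (Cfsg.Agent.S0802.result p 1 (by rw [hF, pow_one])).mpr (by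
    rintro ⟨h2, -⟩; omega)
  have hcH : Nat.card H = 12 := by rw [Nat.card_congr e.toEquiv, card_alt4_h9]
  obtain ⟨σ, τ, hστ⟩ := alt4_sq_not_comm_h9
  refine ⟨H, ?_, ⟨e⟩⟩
  apply psl2_prime_coatom_h9 p hF H ?_ ?_ (e.symm σ).1 (e.symm τ).1 (e.symm σ).2 (e.symm τ).2
  · intro h
    apply hστ
    have h1 : (e.symm σ) ^ 2 * (e.symm τ) ^ 2 = (e.symm τ) ^ 2 * (e.symm σ) ^ 2 :=
      Subtype.ext h
    have h2 := congrArg e h1
    simpa using h2
  · intro M hHM hM ⟨f⟩
    have hcM : Nat.card M = 12 := by rw [Nat.card_congr f.toEquiv, card_alt4_h9]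
    have := Subgroup.eq_of_le_of_card_ge hHM.le (by rw [hcM, hcH])
    exact hHM.ne this
  · intro M hHM hM ⟨f⟩
    have hcM : Nat.card M = 24 := by rw [Nat.card_congr f.toEquiv, card_perm4_h9]
    have hdvd := Subgroup.card_subgroup_dvd_card M
    rw [hcM] at hdvd
    obtain ⟨j, hj⟩ := hdvd
    rw [hj] at hcard
    -- `r (r+1) (r+2) ≡ 8 mod 16`
    have h0 : r % 16 ≡ r [MOD 16] := Nat.mod_modEq r 16
    have h1 := (h0.mul (h0.add_right 1)).mul (h0.add_right 2)
    unfold Nat.ModEq at h1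
    have hlt : r % 16 < 16 := Nat.mod_lt _ (by norm_num)
    have h8 : r % 16 % 8 = r % 8 := Nat.mod_mod_of_dvd r (by norm_num)
    have hr8 : r % 8 = 2 ∨ r % 8 = 4 := by omega
    generalize r % 16 = t at h1 hlt h8
    generalize r * (r + 1) * (r + 2) = N at h1 hcard
    interval_cases t <;> omega
  · intro M hHM hM ⟨f⟩
    have hcM : Nat.card M = 60 := by rw [Nat.card_congr f.toEquiv, card_A5_h9]
    have hdvd := Subgroup.card_subgroup_dvd_card M
    rw [hcM] at hdvd
    obtain ⟨j, hj⟩ := hdvd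
    have h5 : 5 ∣ r * (r + 1) * (r + 2) := by
      rw [← hcard, hj]
      exact ⟨2 * (12 * j), by ring⟩
    have hp5 : Nat.Prime 5 := by norm_num
    rcases (Nat.Prime.dvd_mul hp5).mp h5 with h | h
    · rcases (Nat.Prime.dvd_mul hp5).mp h with h' | h'
      · omega
      · rw [← hr] at h'
        have hp5' : p = 5 := ((Nat.prime_dvd_prime_iff_eq hp5 hpp).mp h').symm
        have hr' : r = 4 := by omega
        rw [hr'] at hcard
        have hcG : Nat.card (Matrix.ProjectiveSpecialLinearGroup (Fin 2) F) = 60 := by omega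
        exact hM (Subgroup.eq_top_of_card_eq _ (by rw [hcM, hcG]))
    · omega
  · intro h
    rw [h, Subgroup.card_top] at hcH
    omega
  · rw [hcH]
    intro hdvd
    have := Nat.le_of_dvd (by norm_num) hdvd
    have h2 := hpp.two_le
    interval_cases p <;> omega

end Cfsg.Agent.S5940
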