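import Cfsg.Statements.S5945
-- import your own Cfsg.Agent.* helpers here
import Cfsg.Agent.S5912

set_option autoImplicit false
open Cfsg

namespace Cfsg.Agent.S5945


open Equiv
open scoped Nat

theorem stab_inj {X : Type*} [Fintype X] [DecidableEq X] (h3 : 3 ≤ Fintype.card X) {x y : X}
    (h : MulAction.stabilizer (Perm X) x = MulAction.stabilizer (Perm X) y) : x = y := by
  by_contra hxy
  have hlt : ({x, y} : Finset X).card < (Finset.univ : Finset X).card := by
    have := Finset.card_le_two (a := x) (b := y)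
    rw [Finset.card_univ]; omega
  obtain ⟨z, -, hz⟩ := Finset.exists_mem_notMem_of_card_lt_card hlt
  simp only [Finset.mem_insert, Finset.mem_singleton, not_or] at hz
  have h1 : swap y z ∈ MulAction.stabilizer (Perm X) x := by
    show swap y z • x = x
    exact swap_apply_of_ne_of_ne hxy (Ne.symm hz.1)
  rw [h] at h1
  have h2 : swap y z y = y := h1
  rw [swap_apply_left] at h2
  exact hz.2 h2

theorem stab_iso {X : Type*} [Fintype X] [DecidableEq X] (hX : Fintype.card X = 6) (x₀ : X) :
    Nonempty (MulAction.stabilizer (Perm X) x₀ ≃* Perm (Fin 5)) := by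
  have hrange : (Perm.ofSubtype : Perm {x // x ≠ x₀} →* Perm X).range =
      MulAction.stabilizer (Perm X) x₀ := by
    ext g
    constructor
    · rintro ⟨τ, rfl⟩
      show Perm.ofSubtype τ • x₀ = x₀
      exact Perm.ofSubtype_apply_of_not_mem τ (by simp)
    · intro hg
      have hgw : g x₀ = x₀ := hg
      have h1 : ∀ x, (g x ≠ x₀) ↔ (x ≠ x₀) := by
        intro x
        constructor
        · intro h hx; exact h (hx ▸ hgw)
        · intro h hx; apply h; apply g.injective; rw [hx, hgw]
      have h2 : ∀ x, g x ≠ x → x ≠ x₀ := by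
        intro x hx hxw; exact hx (hxw ▸ hgw)
      exact ⟨g.subtypePerm h1, Perm.ofSubtype_subtypePerm h1 h2⟩
  have e1 : Perm {x // x ≠ x₀} ≃* MulAction.stabilizer (Perm X) x₀ :=
    (MonoidHom.ofInjective Perm.ofSubtype_injective).trans (MulEquiv.subgroupCongr hrange)
  have hc : Fintype.card {x // x ≠ x₀} = 5 := by
    rw [Fintype.card_subtype, Finset.filter_ne', Finset.card_erase_of_mem (Finset.mem_univ _),
      Finset.card_univ, hX]
  obtain ⟨e2⟩ : Nonempty ({x // x ≠ x₀} ≃ Fin 5) := ⟨Fintype.equivFinOfCardEq hc⟩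
  exact ⟨e1.symm.trans e2.permCongrHom⟩

theorem iso_S5 (H : Subgroup (Perm (Fin 6))) (hH : H.index = 6) :
    Nonempty (H ≃* Perm (Fin 5)) := by
  have h6 : Fintype.card (Fin 6) = 6 := Fintype.card_fin 6
  apply S5912.with_dual (by omega) H (by rw [hH, h6])
  intro X _ _ ψ x₀ hcX hmem
  rw [h6] at hcX
  have hmap : H.map ψ.toMonoidHom = MulAction.stabilizer (Perm X) x₀ := by
    ext σ
    rw [Subgroup.mem_map_equiv, hmem, MulEquiv.apply_symm_apply]
    exact Iff.rfl
  obtain ⟨e⟩ := stab_iso hcX x₀
  exact ⟨(ψ.subgroupMap H).trans ((MulEquiv.subgroupCongr hmap).trans e)⟩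

theorem count12 : Nat.card {H : Subgroup (Perm (Fin 6)) // H.index = 6} = 12 := by
  classical
  have h6 : Fintype.card (Fin 6) = 6 := Fintype.card_fin 6
  obtain ⟨T, hT6, hTfix⟩ := S5912.exists_exotic h6
  have hTno : ∀ a b : Fin 6, a ≠ b → swap a b ∉ T := by
    intro a b hab hin
    obtain ⟨w, hw⟩ := S5912.stab_of_swap h6 T hT6 hab hin
    exact hTfix w (le_of_eq hw)
  apply S5912.with_dual (by omega) T (by rw [hT6, h6])
  intro X _ _ ψ x₀ hcX hmem
  rw [h6] at hcX
  have hψ : S5912.Ex ψ := S5912.ex_of_no_swap h6 hcX T hT6 hTno ψ x₀ hmem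
  obtain ⟨f, hfl, hfr⟩ : ∃ f : Fin 6 ⊕ X → {H : Subgroup (Perm (Fin 6)) // H.index = 6},
      (∀ a, (f (Sum.inl a)).1 = MulAction.stabilizer (Perm (Fin 6)) a) ∧
      (∀ x, (f (Sum.inr x)).1 = (MulAction.stabilizer (Perm X) x).comap ψ.toMonoidHom) := by
    refine ⟨fun s => Sum.elim
      (fun a => ⟨MulAction.stabilizer (Perm (Fin 6)) a, by rw [S5911.index_stab, h6]⟩)
      (fun x => ⟨(MulAction.stabilizer (Perm X) x).comap ψ.toMonoidHom, by
        rw [Subgroup.index_comap_of_surjective _ ψ.surjective, S5911.index_stab, hcX]⟩) s,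
      fun a => rfl, fun x => rfl⟩
  have hf : Function.Bijective f := by
    constructor
    · rintro (a | x) (a' | x') h
      · have h' := congrArg Subtype.val h
        rw [hfl, hfl] at h'
        rw [stab_inj (by omega) h']
      · exfalso
        have h' := congrArg Subtype.val h
        rw [hfl, hfr] at h'
        obtain ⟨u, v, huv, hua, hva⟩ := S5912.exists_three (by omega) a
        have h1 : swap u v ∈ MulAction.stabilizer (Perm (Fin 6)) a := by
          show swap u v • a = a
          exact swap_apply_of_ne_of_ne (Ne.symm hua) (Ne.symm hva)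
        rw [h'] at h1
        exact S5912.ex_no_fix hcX ψ hψ u v huv x' (MulAction.mem_stabilizer_iff.mp (Subgroup.mem_comap.mp h1))
      · exfalso
        have h' := congrArg Subtype.val h
        rw [hfl, hfr] at h'
        obtain ⟨u, v, huv, hua, hva⟩ := S5912.exists_three (by omega) a'
        have h1 : swap u v ∈ MulAction.stabilizer (Perm (Fin 6)) a' := by
          show swap u v • a' = a'
          exact swap_apply_of_ne_of_ne (Ne.symm hua) (Ne.symm hva)
        rw [← h'] at h1
        exact S5912.ex_no_fix hcX ψ hψ u v huv x (MulAction.mem_stabilizer_iff.mp (Subgroup.mem_comap.mp h1))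
      · have h' := congrArg Subtype.val h
        rw [hfr, hfr] at h'
        have h'' := Subgroup.comap_injective ψ.surjective h'
        rw [stab_inj (by omega) h'']
    · rintro ⟨H, hH⟩
      by_cases hsw : ∃ a b : Fin 6, a ≠ b ∧ swap a b ∈ H
      · obtain ⟨a, b, hab, hin⟩ := hsw
        obtain ⟨w, hw⟩ := S5912.stab_of_swap h6 H hH hab hin
        exact ⟨Sum.inl w, Subtype.ext ((hfl w).trans hw.symm)⟩
      · push Not at hsw
        obtain ⟨x, hx⟩ := S5912.dual_point h6 hcX ψ hψ H hH hsw
        refine ⟨Sum.inr x, Subtype.ext ?_⟩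
        rw [hfr]
        ext k
        show k ∈ (MulAction.stabilizer (Perm X) x).comap ψ.toMonoidHom ↔ k ∈ H
        rw [hx]
        exact Iff.rfl
  rw [← Nat.card_congr (Equiv.ofBijective f hf), Nat.card_sum, Nat.card_eq_fintype_card,
    Nat.card_eq_fintype_card, h6, hcX]

/-- The symmetric group S_6 has exactly 12 subgroups of index 6; each of them is isomorphic to S_5, and at least one of them is not the stabilizer of any point. -/
theorem result : Nat.card {H : Subgroup (Equiv.Perm (Fin 6)) // H.index = 6} = 12 ∧ (∀ H : Subgroup (Equiv.Perm (Fin 6)), H.index = 6 → Nonempty (H ≃* Equiv.Perm (Fin 5))) ∧ ∃ H : Subgroup (Equiv.Perm (Fin 6)), H.index = 6 ∧ ∀ a : Fin 6, H ≠ MulAction.stabilizer (Equiv.Perm (Fin 6)) a := by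
  refine ⟨count12, iso_S5, ?_⟩
  obtain ⟨T, hT6, hTfix⟩ := S5912.exists_exotic (Fintype.card_fin 6)
  exact ⟨T, hT6, fun a h => hTfix a (le_of_eq h)⟩

end Cfsg.Agent.S5945
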