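import Cfsg.Statements.S5946
-- import your own Cfsg.Agent.* helpers here

set_option autoImplicit false
open Cfsg

namespace Cfsg.Agent.S5946

/-- Let F ⊆ K be finite fields with [K : F] = n ≥ 2 and regard K as an n-dimensional F-vector space. The Singer group M ≤ GL_F(K) of multiplications by the non-zero elements of K is self-centralizing: every F-linear automorphism of K commuting with all of M lies in M. -/
theorem result {F K : Type*} [Field F] [Fintype F] [Field K] [Fintype K] [Algebra F K] (n : ℕ) (hn : 2 ≤ n) (hdim : Module.finrank F K = n) :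
    Subgroup.centralizer (((Units.map ((Algebra.lmul F K : K →ₐ[F] Module.End F K) : K →* Module.End F K)).range : Subgroup (Module.End F K)ˣ) : Set (Module.End F K)ˣ) = (Units.map ((Algebra.lmul F K : K →ₐ[F] Module.End F K) : K →* Module.End F K)).range := by
  ext g
  rw [Subgroup.mem_centralizer_iff]
  constructor
  · intro hg
    have hc : (g : Module.End F K) 1 ≠ 0 := by
      intro h0
      have h1 : ((g⁻¹ : (Module.End F K)ˣ) : Module.End F K) ((g : Module.End F K) 1) = 1 := by
        rw [← Module.End.mul_apply, ← Units.val_mul, inv_mul_cancel, Units.val_one, Module.End.one_apply]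
      rw [h0, map_zero] at h1
      exact zero_ne_one h1
    refine ⟨Units.mk0 _ hc, ?_⟩
    ext x
    by_cases hx : x = 0
    · subst hx
      simp
    · have hcomm := hg (Units.map ((Algebra.lmul F K : K →ₐ[F] Module.End F K) : K →* Module.End F K) (Units.mk0 x hx))
        ⟨Units.mk0 x hx, rfl⟩
      have h2 := congrArg (fun e : (Module.End F K)ˣ => (e : Module.End F K) 1) hcomm
      simp only [Units.val_mul, Module.End.mul_apply, Units.coe_map, MonoidHom.coe_coe,
        Algebra.coe_lmul_eq_mul, LinearMap.mul_apply', Units.val_mk0, mul_one] at h2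
      simp only [Units.coe_map, MonoidHom.coe_coe, Algebra.coe_lmul_eq_mul, LinearMap.mul_apply',
        Units.val_mk0]
      rw [← h2, mul_comm]
  · rintro ⟨u, rfl⟩ h ⟨v, rfl⟩
    rw [← map_mul, ← map_mul, mul_comm]

end Cfsg.Agent.S5946
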