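import Cfsg.Statements.S5947
-- import your own Cfsg.Agent.* helpers here

set_option autoImplicit false
open Cfsg

namespace Cfsg.Agent.S5947

section Maschke

variable {F V : Type*} [Field F] [AddCommGroup V] [Module F V]

/-- a subspace invariant under a group of units -/
def Inv (C : Subgroup (Module.End F V)ˣ) (W : Submodule F V) : Prop :=
  ∀ c ∈ C, ∀ w ∈ W, ((c : (Module.End F V)ˣ) : Module.End F V) w ∈ W

theorem maschke (C : Subgroup (Module.End F V)ˣ) [Finite C] (hC : (Nat.card C : F) ≠ 0)
    (W S : Submodule F V) (hWS : W ≤ S) (hW : Inv C W) (hS : Inv C S) :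
    ∃ W' : Submodule F V, Inv C W' ∧ W ⊓ W' = ⊥ ∧ W ⊔ W' = S := by
  classical
  obtain ⟨W₀, hW₀⟩ := Submodule.exists_isCompl W
  let π : Module.End F V := W.subtype ∘ₗ (W.projectionOnto W₀ hW₀)
  have hπ1 : ∀ x, π x ∈ W := fun x => Submodule.coe_mem _
  have hπ2 : ∀ w ∈ W, π w = w := fun w hw => by
    have h := Submodule.projectionOnto_apply_left hW₀ ⟨w, hw⟩
    show ((W.projectionOnto W₀ hW₀ w : W) : V) = w
    rw [h]
  haveI : Fintype C := Fintype.ofFinite C
  let A : Module.End F V := ∑ c : C, ((c : (Module.End F V)ˣ) : Module.End F V) * π *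
    (((c : (Module.End F V)ˣ)⁻¹ : (Module.End F V)ˣ) : Module.End F V)
  have hA1 : ∀ x, A x ∈ W := by
    intro x
    simp only [A, LinearMap.sum_apply]
    apply Submodule.sum_mem
    intro c _
    exact hW c.1 c.2 _ (hπ1 _)
  have hA2 : ∀ w ∈ W, A w = (Nat.card C : F) • w := by
    intro w hw
    simp only [A, LinearMap.sum_apply, Module.End.mul_apply]
    have h1 : ∀ c : C, ((c : (Module.End F V)ˣ) : Module.End F V)
        (π ((((c : (Module.End F V)ˣ)⁻¹ : (Module.End F V)ˣ) : Module.End F V) w)) = w := by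
      intro c
      rw [hπ2 _ (hW _ (inv_mem c.2) w hw)]
      rw [← Module.End.mul_apply, Units.mul_inv, Module.End.one_apply]
    rw [Finset.sum_congr rfl (fun c _ => h1 c), Finset.sum_const, Finset.card_univ,
      Nat.card_eq_fintype_card, Nat.cast_smul_eq_nsmul]
  have hA3 : ∀ d ∈ C, ((d : (Module.End F V)ˣ) : Module.End F V) * A
      = A * (d : Module.End F V) := by
    intro d hd
    simp only [A, Finset.mul_sum, Finset.sum_mul]
    refine Fintype.sum_equiv (Equiv.mulLeft (⟨d, hd⟩ : C)) _ _ (fun c => ?_)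
    simp only [Equiv.coe_mulLeft, Subgroup.coe_mul, Units.val_mul, mul_inv_rev, mul_assoc,
      Units.inv_mul, mul_one]
  refine ⟨S ⊓ LinearMap.ker A, ?_, ?_, ?_⟩
  · intro c hc w hw
    refine Submodule.mem_inf.mpr ⟨hS c hc w (Submodule.mem_inf.mp hw).1, ?_⟩
    rw [LinearMap.mem_ker, ← Module.End.mul_apply, ← hA3 c hc, Module.End.mul_apply,
      LinearMap.mem_ker.mp (Submodule.mem_inf.mp hw).2, map_zero]
  · rw [eq_bot_iff]
    intro x hx
    have h1 := hA2 x (Submodule.mem_inf.mp hx).1
    rw [LinearMap.mem_ker.mp (Submodule.mem_inf.mp (Submodule.mem_inf.mp hx).2).2] at h1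
    rcases smul_eq_zero.mp h1.symm with h2 | h2
    · exact absurd h2 hC
    · rw [h2]
      exact Submodule.zero_mem _
  · apply le_antisymm
    · exact sup_le hWS inf_le_left
    · intro s hs
      have h1 : s = (Nat.card C : F)⁻¹ • A s + (s - (Nat.card C : F)⁻¹ • A s) := by abel
      rw [h1]
      refine Submodule.add_mem _ (Submodule.mem_sup_left (Submodule.smul_mem _ _ (hA1 s)))
        (Submodule.mem_sup_right (Submodule.mem_inf.mpr ⟨?_, ?_⟩))
      · exact Submodule.sub_mem _ hs (Submodule.smul_mem _ _ (hWS (hA1 s)))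
      · rw [LinearMap.mem_ker, map_sub, map_smul, hA2 _ (hA1 s), smul_smul,
          inv_mul_cancel₀ hC, one_smul, sub_self]

end Maschke

section Regular

variable {F V : Type*} [Field F] [AddCommGroup V] [Module F V] [FiniteDimensional F V]
  [Finite (Module.End F V)ˣ]

theorem regular_vec (d : ℕ) : ∀ (C : Subgroup (Module.End F V)ˣ) (S : Submodule F V),
    Module.finrank F S = d → (∀ a ∈ C, ∀ b ∈ C, a * b = b * a) → (Nat.card C : F) ≠ 0 →
    Inv C S →
    ∃ v ∈ S, ∀ c ∈ C, ((c : (Module.End F V)ˣ) : Module.End F V) v = v →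
      ∀ s ∈ S, ((c : (Module.End F V)ˣ) : Module.End F V) s = s := by
  induction d using Nat.strong_induction_on with
  | _ d ih =>
    intro C S hd hab hC hS
    by_cases hbot : S = ⊥
    · refine ⟨0, Submodule.zero_mem _, fun c _ _ s hs => ?_⟩
      rw [hbot, Submodule.mem_bot] at hs
      rw [hs, map_zero]
    have hex : ∃ k, ∃ W : Submodule F V, W ≤ S ∧ W ≠ ⊥ ∧ Inv C W ∧ Module.finrank F W = k :=
      ⟨_, S, le_rfl, hbot, hS, rfl⟩
    classical
    obtain ⟨W, hWS, hWbot, hWinv, hWk⟩ := Nat.find_spec hex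
    have hmin : ∀ W₂ : Submodule F V, W₂ ≤ W → W₂ ≠ ⊥ → Inv C W₂ → W₂ = W := by
      intro W₂ h1 h2 h3
      apply Submodule.eq_of_le_of_finrank_le h1
      rw [hWk]
      exact Nat.find_min' hex ⟨W₂, h1.trans hWS, h2, h3, rfl⟩
    obtain ⟨W', hW'inv, hdisj, hsup⟩ := maschke C hC W S hWS hWinv hS
    have hdim : Module.finrank F W + Module.finrank F W' = Module.finrank F S := by
      have h := Submodule.finrank_sup_add_finrank_inf_eq W W'
      rw [hdisj, hsup, finrank_bot, add_zero] at h
      exact h.symm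
    have hWpos : 0 < Module.finrank F W := by
      by_contra h
      exact hWbot (Submodule.finrank_eq_zero.mp (by omega))
    let C₁ : Subgroup (Module.End F V)ˣ :=
      { carrier := {c | c ∈ C ∧ ∀ w ∈ W, ((c : (Module.End F V)ˣ) : Module.End F V) w = w}
        mul_mem' := fun {a b} ha hb => ⟨mul_mem ha.1 hb.1, fun w hw => by
          rw [Units.val_mul, Module.End.mul_apply, hb.2 w hw, ha.2 w hw]⟩
        one_mem' := ⟨one_mem _, fun w _ => by rw [Units.val_one, Module.End.one_apply]⟩
        inv_mem' := fun {a} ha => ⟨inv_mem ha.1, fun w hw => by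
          have h1 := ha.2 w hw
          nth_rewrite 1 [← h1]
          rw [← Module.End.mul_apply, Units.inv_mul, Module.End.one_apply]⟩ }
    have hC₁le : C₁ ≤ C := fun c hc => hc.1
    have hC₁card : (Nat.card C₁ : F) ≠ 0 := by
      intro h0
      obtain ⟨k, hk⟩ := Subgroup.card_dvd_of_le hC₁le
      apply hC
      rw [hk, Nat.cast_mul, h0, zero_mul]
    obtain ⟨w', hw'W', hw'⟩ := ih (Module.finrank F W') (by omega) C₁ W' rfl
      (fun a ha b hb => hab a ha.1 b hb.1) hC₁card (fun c hc w hw => hW'inv c hc.1 w hw)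
    obtain ⟨w, hwW, hw0⟩ := Submodule.exists_mem_ne_zero_of_ne_bot hWbot
    refine ⟨w + w', ?_, ?_⟩
    · rw [← hsup]
      exact Submodule.add_mem _ (Submodule.mem_sup_left hwW) (Submodule.mem_sup_right hw'W')
    · intro c hc hcv s hs
      rw [map_add] at hcv
      have h1 : (c : Module.End F V) w - w = w' - (c : Module.End F V) w' := by
        rw [sub_eq_sub_iff_add_eq_add, hcv]
        abel
      have h2 : (c : Module.End F V) w - w ∈ W ⊓ W' :=
        Submodule.mem_inf.mpr ⟨Submodule.sub_mem _ (hWinv c hc w hwW) hwW, by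
          rw [h1]
          exact Submodule.sub_mem _ hw'W' (hW'inv c hc w' hw'W')⟩
      rw [hdisj, Submodule.mem_bot] at h2
      have hcw : (c : Module.End F V) w = w := sub_eq_zero.mp h2
      have hcw' : (c : Module.End F V) w' = w' := by
        rw [h2] at h1
        exact (sub_eq_zero.mp h1.symm).symm
      have hfix : W ⊓ LinearMap.ker ((c : Module.End F V) - 1) = W := by
        apply hmin _ inf_le_left
        · intro h0
          have h3 : w ∈ W ⊓ LinearMap.ker ((c : Module.End F V) - 1) :=
            Submodule.mem_inf.mpr ⟨hwW, by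
              rw [LinearMap.mem_ker, LinearMap.sub_apply, Module.End.one_apply, hcw, sub_self]⟩
          rw [h0, Submodule.mem_bot] at h3
          exact hw0 h3
        · intro c' hc' x hx
          refine Submodule.mem_inf.mpr ⟨hWinv c' hc' x (Submodule.mem_inf.mp hx).1, ?_⟩
          have hx2 : (c : Module.End F V) x = x := by
            have h3 := LinearMap.mem_ker.mp (Submodule.mem_inf.mp hx).2
            rw [LinearMap.sub_apply, Module.End.one_apply] at h3
            exact sub_eq_zero.mp h3
          rw [LinearMap.mem_ker, LinearMap.sub_apply, Module.End.one_apply,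
            ← Module.End.mul_apply, ← Units.val_mul, hab c hc c' hc', Units.val_mul,
            Module.End.mul_apply, hx2, sub_self]
      have hcW : ∀ x ∈ W, (c : Module.End F V) x = x := by
        intro x hx
        rw [← hfix] at hx
        have h3 := LinearMap.mem_ker.mp (Submodule.mem_inf.mp hx).2
        rw [LinearMap.sub_apply, Module.End.one_apply] at h3
        exact sub_eq_zero.mp h3
      have hcC₁ : c ∈ C₁ := ⟨hc, hcW⟩
      have hcW' := hw' c hcC₁ hcw'
      rw [← hsup] at hs
      obtain ⟨a, ha, b, hb, rfl⟩ := Submodule.mem_sup.mp hs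
      rw [map_add, hcW a ha, hcW' b hb]

end Regular

/-- Let F ⊆ K be finite fields with |F| = q and [K : F] = n ≥ 2, regard K as an n-dimensional F-vector space, and let M ≤ GL_F(K) be the Singer group of multiplications by non-zero elements of K (cyclic of order q^n − 1). Assume (n, q) ≠ (6, 2), and that it is not the case that n = 2 with q a prime such that q + 1 is a power of 2. Then every abelian subgroup of GL_F(K) of order q^n − 1 is conjugate to M. -/
theorem result {F K : Type*} [Field F] [Fintype F] [Field K] [Fintype K] [Algebra F K] (n : ℕ) (hn : 2 ≤ n) (hdim : Module.finrank F K = n)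
    (hex1 : ¬ (n = 6 ∧ Fintype.card F = 2))
    (hex2 : ¬ (n = 2 ∧ (Fintype.card F).Prime ∧ ∃ a : ℕ, Fintype.card F + 1 = 2 ^ a))
    (U : Subgroup (Module.End F K)ˣ) (hU : IsMulCommutative U) (hcard : Nat.card U = Fintype.card K - 1) :
    ∃ g : (Module.End F K)ˣ, U.map (MulAut.conj g).toMonoidHom = (Units.map ((Algebra.lmul F K : K →ₐ[F] Module.End F K) : K →* Module.End F K)).range := by
  classical
  haveI : Finite (Module.End F K) := DFunLike.finite (Module.End F K)
  have hcardK : Fintype.card K = Fintype.card F ^ n := by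
    rw [← hdim]
    exact Module.card_eq_pow_finrank
  have hq2 : 2 ≤ Fintype.card F := Fintype.one_lt_card
  have hK4 : 4 ≤ Fintype.card K := by
    rw [hcardK]
    calc 4 = 2 ^ 2 := by norm_num
      _ ≤ Fintype.card F ^ 2 := Nat.pow_le_pow_left hq2 2
      _ ≤ Fintype.card F ^ n := Nat.pow_le_pow_right (by omega) hn
  have hUF : (Nat.card U : F) ≠ 0 := by
    intro h0
    have h1 : ((Fintype.card K : ℕ) : F) = 0 := by
      rw [hcardK, Nat.cast_pow, FiniteField.cast_card_eq_zero, zero_pow (by omega)]
    have h2 : Nat.card U + 1 = Fintype.card K := by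
      rw [hcard]
      omega
    have h3 : ((Nat.card U + 1 : ℕ) : F) = 0 := by rw [h2, h1]
    rw [Nat.cast_add, h0, zero_add, Nat.cast_one] at h3
    exact one_ne_zero h3
  have hab : ∀ a ∈ U, ∀ b ∈ U, a * b = b * a := by
    intro a ha b hb
    have h1 := hU.is_comm.comm (⟨a, ha⟩ : U) ⟨b, hb⟩
    exact congrArg Subtype.val h1
  obtain ⟨v, -, hv⟩ := regular_vec (Module.finrank F (⊤ : Submodule F K)) U ⊤ rfl hab hUF
    (fun c _ w _ => Submodule.mem_top)
  have hv1 : ∀ c ∈ U, ((c : (Module.End F K)ˣ) : Module.End F K) v = v → c = 1 := by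
    intro c hc h
    apply Units.ext
    apply LinearMap.ext
    intro s
    rw [Units.val_one, Module.End.one_apply]
    exact hv c hc h s Submodule.mem_top
  have hv0 : v ≠ 0 := by
    intro h0
    have h1 : ∀ c : U, c = 1 := fun c => Subtype.ext (hv1 c.1 c.2 (by rw [h0, map_zero]))
    have h2 : Nat.card U = 1 := by
      haveI : Subsingleton U := ⟨fun a b => by rw [h1 a, h1 b]⟩
      exact Nat.card_of_subsingleton 1
    omega
  haveI : Fintype U := Fintype.ofFinite U
  have hunit : ∀ (c : (Module.End F K)ˣ) (x : K), (c : Module.End F K) x = 0 → x = 0 := by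
    intro c x h
    have h1 : ((c⁻¹ : (Module.End F K)ˣ) : Module.End F K) ((c : Module.End F K) x) = x := by
      rw [← Module.End.mul_apply, Units.inv_mul, Module.End.one_apply]
    rw [← h1, h, map_zero]
  have htrans : ∀ x : K, x ≠ 0 → ∃ u ∈ U, ((u : (Module.End F K)ˣ) : Module.End F K) v = x := by
    have hinj : Function.Injective
        (fun u : U => ((u : (Module.End F K)ˣ) : Module.End F K) v) := by
      intro a b hab'
      have hab'' : ((a : (Module.End F K)ˣ) : Module.End F K) v
          = ((b : (Module.End F K)ˣ) : Module.End F K) v := hab'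
      have h1 : (((a : (Module.End F K)ˣ)⁻¹ * (b : (Module.End F K)ˣ) : (Module.End F K)ˣ)
          : Module.End F K) v = v := by
        rw [Units.val_mul, Module.End.mul_apply, ← hab'', ← Module.End.mul_apply, Units.inv_mul,
          Module.End.one_apply]
      have h2 := hv1 _ (mul_mem (inv_mem a.2) b.2) h1
      exact Subtype.ext (inv_mul_eq_one.mp h2)
    have himg : (Finset.univ : Finset U).image
        (fun u : U => ((u : (Module.End F K)ˣ) : Module.End F K) v) = Finset.univ.erase 0 := by
      apply Finset.eq_of_subset_of_card_le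
      · intro x hx
        obtain ⟨u, -, rfl⟩ := Finset.mem_image.mp hx
        exact Finset.mem_erase.mpr ⟨fun h => hv0 (hunit _ _ h), Finset.mem_univ _⟩
      · rw [Finset.card_image_of_injective _ hinj, Finset.card_erase_of_mem (Finset.mem_univ _),
          Finset.card_univ, Finset.card_univ, ← Nat.card_eq_fintype_card (α := U), hcard]
    intro x hx
    have h1 : x ∈ Finset.univ.erase (0 : K) := Finset.mem_erase.mpr ⟨hx, Finset.mem_univ _⟩
    rw [← himg] at h1
    obtain ⟨u, -, rfl⟩ := Finset.mem_image.mp h1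
    exact ⟨u.1, u.2, rfl⟩
  let E₀ : Subalgebra F (Module.End F K) :=
    Subalgebra.centralizer F {e | ∃ u ∈ U, ((u : (Module.End F K)ˣ) : Module.End F K) = e}
  have hE₀mem : ∀ e : Module.End F K, e ∈ E₀ ↔
      ∀ u ∈ U, ((u : (Module.End F K)ˣ) : Module.End F K) * e = e * (u : Module.End F K) := by
    intro e
    rw [Subalgebra.mem_centralizer_iff]
    constructor
    · intro h u hu
      exact h _ ⟨u, hu, rfl⟩
    · rintro h _ ⟨u, hu, rfl⟩
      exact h u hu
  have hUE₀ : ∀ u ∈ U, ((u : (Module.End F K)ˣ) : Module.End F K) ∈ E₀ := by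
    intro u hu
    rw [hE₀mem]
    intro u' hu'
    rw [← Units.val_mul, ← Units.val_mul, hab u' hu' u hu]
  have hdet : ∀ e ∈ E₀, ∀ e' ∈ E₀, e v = e' v → e = e' := by
    intro e he e' he' h
    apply LinearMap.ext
    intro y
    by_cases hy : y = 0
    · rw [hy, map_zero, map_zero]
    · obtain ⟨u, hu, rfl⟩ := htrans y hy
      rw [← Module.End.mul_apply, ← Module.End.mul_apply, ← (hE₀mem e).mp he u hu,
        ← (hE₀mem e').mp he' u hu, Module.End.mul_apply, Module.End.mul_apply, h]
  have hE₀cases : ∀ e ∈ E₀, e = 0 ∨ ∃ u ∈ U, ((u : (Module.End F K)ˣ) : Module.End F K) = e := by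
    intro e he
    by_cases h0 : e v = 0
    · left
      exact hdet e he 0 (Subalgebra.zero_mem _) (by rw [h0, LinearMap.zero_apply])
    · right
      obtain ⟨u, hu, huv⟩ := htrans _ h0
      exact ⟨u, hu, hdet _ (hUE₀ u hu) e he huv⟩
  have hE₀field : IsField E₀ := by
    refine ⟨⟨0, 1, fun h => ?_⟩, ?_, ?_⟩
    · have h1 : (0 : Module.End F K) = 1 := congrArg Subtype.val h
      have h2 := LinearMap.congr_fun h1 v
      rw [LinearMap.zero_apply, Module.End.one_apply] at h2
      exact hv0 h2.symm
    · intro a b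
      apply Subtype.ext
      show (a : Module.End F K) * b = b * a
      rcases hE₀cases a.1 a.2 with ha | ⟨u, hu, ha⟩
      · rw [ha, zero_mul, mul_zero]
      · rw [← ha]
        exact ((hE₀mem b.1).mp b.2 u hu)
    · intro a ha
      rcases hE₀cases a.1 a.2 with ha0 | ⟨u, hu, hau⟩
      · exact absurd (Subtype.ext ha0) ha
      · refine ⟨⟨((u⁻¹ : (Module.End F K)ˣ) : Module.End F K), hUE₀ _ (inv_mem hu)⟩, ?_⟩
        apply Subtype.ext
        show (a : Module.End F K) * ((u⁻¹ : (Module.End F K)ˣ) : Module.End F K) = 1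
        rw [← hau, Units.mul_inv]
  letI : Field E₀ := hE₀field.toField
  haveI : Fintype E₀ := Fintype.ofFinite E₀
  have hbij : Function.Bijective (fun e : E₀ => (e : Module.End F K) v) := by
    constructor
    · intro a b h
      exact Subtype.ext (hdet a.1 a.2 b.1 b.2 h)
    · intro x
      by_cases hx : x = 0
      · exact ⟨⟨0, Subalgebra.zero_mem _⟩, by rw [hx]; rfl⟩
      · obtain ⟨u, hu, huv⟩ := htrans x hx
        exact ⟨⟨_, hUE₀ u hu⟩, huv⟩
  have hcardE : Fintype.card E₀ = Fintype.card K := Fintype.card_of_bijective hbij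
  haveI hsp : Polynomial.IsSplittingField F E₀
      (Polynomial.X ^ Fintype.card K - Polynomial.X) := by
    rw [← hcardE]
    exact FiniteField.isSplittingField_sub E₀ F
  let φ : K ≃ₐ[F] E₀ :=
    (Polynomial.IsSplittingField.algEquiv K
      (Polynomial.X ^ Fintype.card K - Polynomial.X : Polynomial F)).trans
    (Polynomial.IsSplittingField.algEquiv E₀
      (Polynomial.X ^ Fintype.card K - Polynomial.X : Polynomial F)).symm
  let ψ : K →ₗ[F] K :=
    { toFun := fun k => ((φ k : E₀) : Module.End F K) v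
      map_add' := fun a b => by
        rw [map_add, Subalgebra.coe_add, LinearMap.add_apply]
      map_smul' := fun c a => by
        rw [map_smul, Subalgebra.coe_smul, LinearMap.smul_apply]
        rfl }
  have hφ0 : ∀ k : K, ((φ k : E₀) : Module.End F K) = 0 → k = 0 := by
    intro k h1
    have h2 : φ k = 0 := Subtype.ext h1
    exact (map_eq_zero_iff φ φ.injective).mp h2
  have hψinj : Function.Injective ψ := by
    rw [← LinearMap.ker_eq_bot, LinearMap.ker_eq_bot']
    intro k hk
    have hk' : ((φ k : E₀) : Module.End F K) v = 0 := hk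
    exact hφ0 k (hdet _ (φ k).2 0 (Subalgebra.zero_mem _)
      (by rw [LinearMap.zero_apply]; exact hk'))
  let g : (Module.End F K)ˣ :=
    LinearMap.GeneralLinearGroup.ofLinearEquiv (LinearEquiv.ofInjectiveEndo ψ hψinj)
  have hg : ((g : (Module.End F K)ˣ) : Module.End F K) = ψ := by
    apply LinearMap.ext
    intro x
    rfl
  have hkey : ∀ k : K, ((φ k : E₀) : Module.End F K) * (g : Module.End F K)
      = (g : Module.End F K) * (Algebra.lmul F K k) := by
    intro k
    rw [hg]
    apply LinearMap.ext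
    intro k'
    show ((φ k : E₀) : Module.End F K) (((φ k' : E₀) : Module.End F K) v)
      = ((φ (k * k') : E₀) : Module.End F K) v
    rw [map_mul, Subalgebra.coe_mul, Module.End.mul_apply]
  refine ⟨g⁻¹, ?_⟩
  ext x
  simp only [Subgroup.mem_map, MonoidHom.mem_range]
  constructor
  · rintro ⟨u, hu, rfl⟩
    obtain ⟨k, hφk⟩ : ∃ k : K, ((φ k : E₀) : Module.End F K) = (u : Module.End F K) :=
      ⟨φ.symm ⟨(u : Module.End F K), hUE₀ u hu⟩, by rw [AlgEquiv.apply_symm_apply]⟩
    have hk0 : k ≠ 0 := by
      intro h0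
      rw [h0, map_zero] at hφk
      have h1 : (u : Module.End F K) v = 0 := by
        rw [← hφk]
        rfl
      exact hv0 (hunit u v h1)
    refine ⟨Units.mk0 k hk0, ?_⟩
    apply Units.ext
    show (Algebra.lmul F K k : Module.End F K)
      = ((g⁻¹ * u * g⁻¹⁻¹ : (Module.End F K)ˣ) : Module.End F K)
    rw [inv_inv, Units.val_mul, Units.val_mul, ← hφk, mul_assoc, hkey, ← mul_assoc,
      Units.inv_mul, one_mul]
  · rintro ⟨kx, rfl⟩
    have hk0 : (kx : K) ≠ 0 := kx.ne_zero
    rcases hE₀cases _ (φ (kx : K)).2 with h0 | ⟨u, hu, huφ⟩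
    · exact absurd (hφ0 _ h0) hk0
    · refine ⟨u, hu, ?_⟩
      apply Units.ext
      show ((g⁻¹ * u * g⁻¹⁻¹ : (Module.End F K)ˣ) : Module.End F K)
        = (Algebra.lmul F K (kx : K) : Module.End F K)
      rw [inv_inv, Units.val_mul, Units.val_mul, huφ, mul_assoc, hkey, ← mul_assoc,
        Units.inv_mul, one_mul]

end Cfsg.Agent.S5947
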